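import Cfsg.Agent.M24Count.CoreDefs
import Mathlib.GroupTheory.GroupAction.Quotient
import Mathlib.GroupTheory.PGroup
import Mathlib.GroupTheory.Perm.Basic
import Mathlib.Data.Set.Card
import Mathlib.Tactic

/-!
The closed side of a frame: for `v` in the side `U` of `t` some element carrying `t` to `v`
normalises `U`.

Write `s = g⁻¹ t g` for `g` carrying `t` to `v`. Then `s` lies in the two-core, and a symmetry
argument puts it in `U`. The meet of `C_Q(v)` with the two-core of `v` has order at least 16, and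
the side condition leaves only two possibilities for it; in each `g` normalises `U` or gives a
contradiction.
-/

set_option autoImplicit false
set_option linter.style.haveILetI false

namespace CfsgLib.M24Count

universe u

namespace ClosedAux

variable {G : Type u} [Group G]

theorem mem_cs {a b : G} : a ∈ Subgroup.centralizer ({b} : Set G) ↔ a * b = b * a :=
  Subgroup.mem_centralizer_singleton_iff

theorem mem_zp {t : G} (ht : t * t = 1) {x : G} :
    x ∈ Subgroup.zpowers t ↔ x = 1 ∨ x = t := by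
  constructor
  · rintro h
    obtain ⟨k, rfl⟩ := Subgroup.mem_zpowers_iff.1 h
    rcases Int.even_or_odd k with ⟨m, rfl⟩ | ⟨m, rfl⟩
    · left; rw [← two_mul, zpow_mul, zpow_two, ht, one_zpow]
    · right; rw [zpow_add, zpow_mul, zpow_two, ht, one_zpow, one_mul, zpow_one]
  · rintro (rfl | rfl)
    · exact one_mem _
    · exact Subgroup.mem_zpowers _

/-- Orbit counting for conjugation. -/
theorem orbit_card [Finite G] (A : Subgroup G) (t : G) :
    Nat.card ↥(A ⊓ Subgroup.centralizer ({t} : Set G)) *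
      Nat.card {w : G // ∃ a ∈ A, a * t * a⁻¹ = w} = Nat.card A := by
  set K := (Subgroup.centralizer ({t} : Set G)).subgroupOf A with hK
  have e1 : Nat.card K = Nat.card ↥(A ⊓ Subgroup.centralizer ({t} : Set G)) := by
    rw [hK, ← Subgroup.card_map_of_injective (K := (Subgroup.centralizer ({t} : Set G)).subgroupOf A)
      A.subtype_injective, Subgroup.subgroupOf_map_subtype, inf_comm]
  have hf : ∀ a b : A, a⁻¹ * b ∈ K ↔ (a : G) * t * (a : G)⁻¹ = b * t * (b : G)⁻¹ := by
    intro a b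
    rw [hK, Subgroup.mem_subgroupOf, mem_cs]
    push_cast
    constructor
    · intro h
      calc (a : G) * t * (a : G)⁻¹ = a * (t * ((a : G)⁻¹ * b)) * (b : G)⁻¹ := by group
        _ = a * (((a : G)⁻¹ * b) * t) * (b : G)⁻¹ := by rw [h]
        _ = b * t * (b : G)⁻¹ := by group
    · intro h
      calc (a : G)⁻¹ * b * t = (a : G)⁻¹ * (b * t * (b : G)⁻¹) * b := by group
        _ = (a : G)⁻¹ * (a * t * (a : G)⁻¹) * b := by rw [h]
        _ = t * ((a : G)⁻¹ * b) := by group
  let F : A ⧸ K → {w : G // ∃ a ∈ A, a * t * a⁻¹ = w} :=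
    Quotient.lift (fun a : A => (⟨a * t * (a : G)⁻¹, a, a.2, rfl⟩ : {w : G // ∃ a ∈ A, a * t * a⁻¹ = w}))
      (fun a b hab => Subtype.ext ((hf a b).1 (QuotientGroup.leftRel_apply.1 hab)))
  have hFbij : Function.Bijective F := by
    refine ⟨fun p q => ?_, fun w => ?_⟩
    · induction p using Quotient.inductionOn with
      | h a =>
        induction q using Quotient.inductionOn with
        | h b =>
          intro h
          exact Quotient.sound (QuotientGroup.leftRel_apply.2 ((hf a b).2 (congrArg Subtype.val h)))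
    · obtain ⟨w, a, ha, e⟩ := w
      exact ⟨Quotient.mk'' ⟨a, ha⟩, Subtype.ext e⟩
  rw [← Nat.card_congr (Equiv.ofBijective F hFbij), ← e1]
  have := K.card_mul_index
  rwa [Subgroup.index] at this

/-- A subgroup inside a union of two subgroups lies in one of them. -/
theorem le_or_le {H A B : Subgroup G} (h : ∀ x ∈ H, x ∈ A ∨ x ∈ B) : H ≤ A ∨ H ≤ B := by
  by_contra hcon
  rw [not_or, SetLike.not_le_iff_exists, SetLike.not_le_iff_exists] at hcon
  obtain ⟨⟨x, hx, hxA⟩, ⟨y, hy, hyB⟩⟩ := hcon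
  have hxB := (h x hx).resolve_left hxA
  have hyA := (h y hy).resolve_right hyB
  rcases h (x * y) (mul_mem hx hy) with h1 | h1
  · exact hxA ((Subgroup.mul_mem_cancel_right A hyA).1 h1)
  · exact hyB ((Subgroup.mul_mem_cancel_left B hxB).1 h1)

theorem conjMem {g : G} {H : Subgroup G} {x : G} :
    x ∈ H.map (MulAut.conj g).toMonoidHom ↔ g⁻¹ * x * g ∈ H := by
  constructor
  · rintro ⟨b, hb, rfl⟩
    show g⁻¹ * (g * b * g⁻¹) * g ∈ H
    rwa [show g⁻¹ * (g * b * g⁻¹) * g = b by group]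
  · intro hx
    exact ⟨_, hx, by show g * (g⁻¹ * x * g) * g⁻¹ = x; group⟩

theorem card_conj (g : G) (H : Subgroup G) :
    Nat.card ↥(H.map (MulAut.conj g).toMonoidHom) = Nat.card H :=
  Subgroup.card_map_of_injective (MulEquiv.injective _)

theorem cent_conj (g a b : G) :
    (Subgroup.centralizer ({a} : Set G) ⊓ Subgroup.centralizer ({b} : Set G)).map
        (MulAut.conj g).toMonoidHom =
      Subgroup.centralizer ({g * a * g⁻¹} : Set G) ⊓
        Subgroup.centralizer ({g * b * g⁻¹} : Set G) := by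
  have key : ∀ x c : G, g⁻¹ * x * g * c = c * (g⁻¹ * x * g) ↔
      x * (g * c * g⁻¹) = g * c * g⁻¹ * x := by
    intro x c
    constructor
    · intro h
      calc x * (g * c * g⁻¹) = g * (g⁻¹ * x * g * c) * g⁻¹ := by group
        _ = g * (c * (g⁻¹ * x * g)) * g⁻¹ := by rw [h]
        _ = g * c * g⁻¹ * x := by group
    · intro h
      calc g⁻¹ * x * g * c = g⁻¹ * (x * (g * c * g⁻¹)) * g := by group
        _ = g⁻¹ * (g * c * g⁻¹ * x) * g := by rw [h]
        _ = c * (g⁻¹ * x * g) := by group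
  ext x
  rw [conjMem, Subgroup.mem_inf, Subgroup.mem_inf, mem_cs, mem_cs, mem_cs, mem_cs, key, key]

theorem card_cent_conj (g a b : G) :
    Nat.card ↥(Subgroup.centralizer ({g * a * g⁻¹} : Set G) ⊓
        Subgroup.centralizer ({g * b * g⁻¹} : Set G)) =
      Nat.card ↥(Subgroup.centralizer ({a} : Set G) ⊓ Subgroup.centralizer ({b} : Set G)) := by
  rw [← cent_conj, card_conj]

theorem isA_conjugate (g : G) {x : G} (hx : IsA x) : IsA (g * x * g⁻¹) := by
  obtain ⟨h2, f, hf, hc⟩ := hx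
  refine ⟨(MulEquiv.orderOf_eq (MulAut.conj g) x).trans h2, g * f * g⁻¹,
    (MulEquiv.orderOf_eq (MulAut.conj g) f).trans hf, ?_⟩
  calc g * f * g⁻¹ * (g * x * g⁻¹) = g * (f * x) * g⁻¹ := by group
    _ = g * (x * f) * g⁻¹ := by rw [hc.eq]
    _ = g * x * g⁻¹ * (g * f * g⁻¹) := by group

theorem dvd_sixteen {n : ℕ} (h : n ∣ 16) : n = 1 ∨ n = 2 ∨ n = 4 ∨ n = 8 ∨ n = 16 := by
  obtain ⟨i, hi, rfl⟩ := (Nat.dvd_prime_pow Nat.prime_two).1 (show n ∣ 2 ^ 4 from h)
  interval_cases i <;> norm_num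

theorem sq_one_of_orderOf {x : G} (hx : orderOf x = 2) : x * x = 1 := by
  rw [← pow_two, ← hx, pow_orderOf_eq_one]

/-- The off-centre part of a subgroup. -/
theorem ncard_off [Finite G] (H : Subgroup G) {t : G} (ht : t ∈ H) (ht1 : t ≠ 1) :
    ((H : Set G) \ {1, t}).ncard + 2 = Nat.card H := by
  have hsub : ({1, t} : Set G) ⊆ (H : Set G) := by
    rintro x (rfl | rfl)
    · exact one_mem H
    · exact ht
  have h2 : ({1, t} : Set G).ncard = 2 := Set.ncard_pair ht1.symm
  have := Set.ncard_sdiff_add_ncard_of_subset hsub (Set.toFinite _)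
  rw [h2] at this
  rw [this]
  exact (Nat.card_coe_set_eq (H : Set G)).symm

/-- A frame without its side condition. -/
structure Pr (t : G) (Q U V : Subgroup G) : Prop where
  isA : IsA t
  card_Q : Nat.card Q = 128
  Q_le : Q ≤ Subgroup.centralizer ({t} : Set G)
  Q_simple : ∀ L : Subgroup G, Q ≤ L → L ≤ Subgroup.centralizer ({t} : Set G) →
    (∀ g : G, Commute g t → ∀ a ∈ L, g * a * g⁻¹ ∈ L) →
    L = Q ∨ L = Subgroup.centralizer ({t} : Set G)
  card_U : Nat.card U = 16
  card_V : Nat.card V = 16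
  U_le : U ≤ Q
  V_le : V ≤ Q
  inf : U ⊓ V = Subgroup.zpowers t
  gen : ∀ q ∈ Q, ∃ a ∈ U, ∃ b ∈ V, q = a * b
  comm : ∀ a ∈ U, ∀ b ∈ U, a * b = b * a
  comm' : ∀ a ∈ V, ∀ b ∈ V, a * b = b * a
  sq : ∀ a ∈ U, a * a = 1
  sq' : ∀ a ∈ V, a * a = 1
  pairing : ∀ a ∈ U, a ≠ 1 → a ≠ t → ∃ b ∈ V, a * b ≠ b * a
  pairing' : ∀ b ∈ V, b ≠ 1 → b ≠ t → ∃ a ∈ U, a * b ≠ b * a
  normal : ∀ g : G, Commute g t → ∀ a ∈ U, g * a * g⁻¹ ∈ U
  normal' : ∀ g : G, Commute g t → ∀ a ∈ V, g * a * g⁻¹ ∈ V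
  trans : ∀ a ∈ U, ∀ b ∈ U, a ≠ 1 → a ≠ t → b ≠ 1 → b ≠ t → ∃ g : G, Commute g t ∧ g * a * g⁻¹ = b
  trans' : ∀ a ∈ V, ∀ b ∈ V, a ≠ 1 → a ≠ t → b ≠ 1 → b ≠ t →
    ∃ g : G, Commute g t ∧ g * a * g⁻¹ = b
  pure : ∀ a ∈ U, a ≠ 1 → IsA a
  pure' : ∀ a ∈ V, a ≠ 1 → IsA a

theorem of_frame {t : G} {Q U V : Subgroup G} (F : Frame t Q U V) : Pr t Q U V :=
  ⟨F.isA, F.card_Q, F.Q_le, F.Q_simple, F.card_U, F.card_U', F.U_le, F.U'_le, F.inf, F.gen,
    F.comm, F.comm', F.sq, F.sq', F.pairing, F.pairing', F.normal, F.normal', F.trans, F.trans',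
    F.pure, F.pure'⟩

section

variable {t : G} {Q U V : Subgroup G}

theorem Pr.two (P : Pr t Q U V) : t * t = 1 := sq_one_of_orderOf P.isA.1

theorem Pr.ne_one (P : Pr t Q U V) : t ≠ 1 := fun e => by
  have := P.isA.1
  rw [e, orderOf_one] at this
  norm_num at this

theorem Pr.t_mem (P : Pr t Q U V) : t ∈ U ∧ t ∈ V := by
  have h : t ∈ U ⊓ V := P.inf ▸ Subgroup.mem_zpowers t
  exact h

theorem Pr.both (P : Pr t Q U V) {x : G} (hU : x ∈ U) (hV : x ∈ V) : x = 1 ∨ x = t :=
  (mem_zp P.two).1 (P.inf ▸ Subgroup.mem_inf.2 ⟨hU, hV⟩)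

theorem Pr.commute (P : Pr t Q U V) {q : G} (hq : q ∈ Q) : Commute q t := mem_cs.1 (P.Q_le hq)

theorem Pr.swap (P : Pr t Q U V) : Pr t Q V U where
  isA := P.isA
  card_Q := P.card_Q
  Q_le := P.Q_le
  Q_simple := P.Q_simple
  card_U := P.card_V
  card_V := P.card_U
  U_le := P.V_le
  V_le := P.U_le
  inf := by rw [inf_comm, P.inf]
  gen := fun q hq => by
    obtain ⟨a, ha, b, hb, e⟩ := P.gen q hq
    refine ⟨b, hb, b⁻¹ * a * b, ?_, by rw [e]; group⟩
    have := P.normal b⁻¹ (P.commute (P.V_le hb)).inv_left a ha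
    rwa [inv_inv] at this
  comm := P.comm'
  comm' := P.comm
  sq := P.sq'
  sq' := P.sq
  pairing := fun b hb h1 h2 => by
    obtain ⟨a, ha, h⟩ := P.pairing' b hb h1 h2
    exact ⟨a, ha, fun e => h e.symm⟩
  pairing' := fun a ha h1 h2 => by
    obtain ⟨b, hb, h⟩ := P.pairing a ha h1 h2
    exact ⟨b, hb, fun e => h e.symm⟩
  normal := P.normal'
  normal' := P.normal
  trans := P.trans'
  trans' := P.trans
  pure := P.pure'
  pure' := P.pure

/-- Elements of the two sides commute modulo `t`. -/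
theorem Pr.cross (P : Pr t Q U V) {a b : G} (ha : a ∈ U) (hb : b ∈ V) :
    b * a * b⁻¹ = a ∨ b * a * b⁻¹ = a * t := by
  have h1 : b * a * b⁻¹ ∈ U := P.normal b (P.commute (P.V_le hb)) a ha
  have h2 : a⁻¹ * (b * a * b⁻¹) ∈ U := mul_mem (inv_mem ha) h1
  have h3 : a⁻¹ * (b * a * b⁻¹) ∈ V := by
    have := P.normal' a⁻¹ (P.commute (P.U_le ha)).inv_left b hb
    rw [inv_inv] at this
    rw [show a⁻¹ * (b * a * b⁻¹) = a⁻¹ * b * a * b⁻¹ by group]
    exact mul_mem this (inv_mem hb)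
  rcases P.both h2 h3 with e | e
  · left; exact (inv_mul_eq_one.1 e).symm
  · right; rw [← e]; group

theorem Pr.act (P : Pr t Q U V) {q a : G} (hq : q ∈ Q) (ha : a ∈ U) :
    q * a * q⁻¹ = a ∨ q * a * q⁻¹ = a * t := by
  obtain ⟨c, hc, b, hb, rfl⟩ := P.gen q hq
  have hct : c * t = t * c := P.comm c hc t P.t_mem.1
  have hca : c * a * c⁻¹ = a := by rw [P.comm c hc a ha, mul_inv_cancel_right]
  rw [show c * b * a * (c * b)⁻¹ = c * (b * a * b⁻¹) * c⁻¹ by group]
  rcases P.cross ha hb with e | e <;> rw [e]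
  · exact Or.inl hca
  · right
    calc c * (a * t) * c⁻¹ = (c * a * c⁻¹) * (c * t * c⁻¹) := by group
      _ = a * t := by rw [hca, hct, mul_inv_cancel_right]

theorem Pr.sqQ (P : Pr t Q U V) {q : G} (hq : q ∈ Q) : q * q = 1 ∨ q * q = t := by
  obtain ⟨a, ha, b, hb, rfl⟩ := P.gen q hq
  rw [show a * b * (a * b) = a * (b * a * b⁻¹) * (b * b) by group, P.sq' b hb, mul_one]
  rcases P.cross ha hb with e | e <;> rw [e]
  · exact Or.inl (P.sq a ha)
  · right; rw [← mul_assoc, P.sq a ha, one_mul]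

/-- An element centralising `U` modulo `t` lies in the two-core. -/
theorem Pr.mem_of_fix [Finite G] (P : Pr t Q U V) {g : G} (hg : Commute g t)
    (h : ∀ a ∈ U, g * a * g⁻¹ = a ∨ g * a * g⁻¹ = a * t) : g ∈ Q := by
  classical
  let K : Subgroup G :=
    { carrier := {x | Commute x t ∧ ∀ a ∈ U, x * a * x⁻¹ = a ∨ x * a * x⁻¹ = a * t}
      one_mem' := ⟨Commute.one_left t, fun a _ => Or.inl (by group)⟩
      mul_mem' := fun {x y} hx hy => ⟨hx.1.mul_left hy.1, fun a ha => by
        have e : x * y * a * (x * y)⁻¹ = x * (y * a * y⁻¹) * x⁻¹ := by group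
        have ht : x * t * x⁻¹ = t := by rw [hx.1.eq, mul_inv_cancel_right]
        rcases hy.2 a ha with e1 | e1 <;> rw [e, e1]
        · exact hx.2 a ha
        · rw [show x * (a * t) * x⁻¹ = (x * a * x⁻¹) * (x * t * x⁻¹) by group, ht]
          rcases hx.2 a ha with e2 | e2 <;> rw [e2]
          · exact Or.inr rfl
          · left; rw [mul_assoc, P.two, mul_one]⟩
      inv_mem' := fun {x} hx => ⟨hx.1.inv_left, fun a ha => by
        have hm : x⁻¹ * a * x⁻¹⁻¹ ∈ U := P.normal x⁻¹ hx.1.inv_left a ha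
        rcases hx.2 _ hm with e | e
        · left
          rw [show x * (x⁻¹ * a * x⁻¹⁻¹) * x⁻¹ = a by group] at e
          exact e.symm
        · right
          rw [show x * (x⁻¹ * a * x⁻¹⁻¹) * x⁻¹ = a by group] at e
          calc x⁻¹ * a * x⁻¹⁻¹ = (x⁻¹ * a * x⁻¹⁻¹) * (t * t) := by rw [P.two, mul_one]
            _ = (x⁻¹ * a * x⁻¹⁻¹ * t) * t := by group
            _ = a * t := by rw [← e]⟩ }
  have hQK : Q ≤ K := fun q hq => ⟨P.commute hq, fun a ha => P.act hq ha⟩
  have hKC : K ≤ Subgroup.centralizer ({t} : Set G) := fun x hx => mem_cs.2 hx.1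
  have hKn : ∀ c : G, Commute c t → ∀ x ∈ K, c * x * c⁻¹ ∈ K := by
    intro c hc x hx
    refine ⟨(hc.mul_left hx.1).mul_left hc.inv_left, fun a ha => ?_⟩
    have hm : c⁻¹ * a * c⁻¹⁻¹ ∈ U := P.normal c⁻¹ hc.inv_left a ha
    have e0 : c * x * c⁻¹ * a * (c * x * c⁻¹)⁻¹ = c * (x * (c⁻¹ * a * c⁻¹⁻¹) * x⁻¹) * c⁻¹ := by
      group
    rcases hx.2 _ hm with e | e <;> rw [e0, e]
    · left; group
    · right
      calc c * (c⁻¹ * a * c⁻¹⁻¹ * t) * c⁻¹ = a * (c * t * c⁻¹) := by group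
        _ = a * t := by rw [hc.eq, mul_inv_cancel_right]
  rcases P.Q_simple K hQK hKC hKn with e | e
  · rw [← e]; exact ⟨hg, h⟩
  exfalso
  have hoff := ncard_off U P.t_mem.1 P.ne_one
  rw [P.card_U] at hoff
  obtain ⟨a, ha⟩ := Set.nonempty_of_ncard_ne_zero (s := (U : Set G) \ {1, t}) (by omega)
  have hsmall : ({a, a * t} : Set G).ncard ≤ 2 :=
    (Set.ncard_insert_le _ _).trans (by rw [Set.ncard_singleton])
  obtain ⟨c, hc, hc'⟩ := Set.exists_mem_notMem_of_ncard_lt_ncard
    (s := ({a, a * t} : Set G)) (t := (U : Set G) \ {1, t}) (by omega) (Set.toFinite _)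
  simp only [Set.mem_sdiff, Set.mem_insert_iff, Set.mem_singleton_iff, SetLike.mem_coe,
    not_or] at ha hc hc'
  obtain ⟨x, hxt, hx⟩ := P.trans a ha.1 c hc.1 ha.2.1 ha.2.2 hc.2.1 hc.2.2
  have hxK : x ∈ K := e ▸ mem_cs.2 hxt.eq
  rcases hxK.2 a ha.1 with e1 | e1
  · exact hc'.1 (hx ▸ e1)
  · exact hc'.2 (hx ▸ e1)

/-- An element of the centraliser outside the two-core centralises at most 32 elements of it. -/
theorem Pr.fix_card [Finite G] (P : Pr t Q U V) {s : G} (hs : Commute s t) (hsQ : s ∉ Q) :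
    Nat.card ↥(Q ⊓ Subgroup.centralizer ({s} : Set G)) ≤ 32 := by
  let L : Subgroup G :=
    { carrier := {q | q ∈ Q ∧ s * q * s⁻¹ * q⁻¹ ∈ U}
      one_mem' := ⟨one_mem _, by simp⟩
      mul_mem' := fun {p q} hp hq => ⟨mul_mem hp.1 hq.1, by
        rw [show s * (p * q) * s⁻¹ * (p * q)⁻¹ =
          (s * p * s⁻¹ * p⁻¹) * (p * (s * q * s⁻¹ * q⁻¹) * p⁻¹) by group]
        exact mul_mem hp.2 (P.normal p (P.commute hp.1) _ hq.2)⟩
      inv_mem' := fun {q} hq => ⟨inv_mem hq.1, by
        rw [show s * q⁻¹ * s⁻¹ * q⁻¹⁻¹ = q⁻¹ * (s * q * s⁻¹ * q⁻¹)⁻¹ * q⁻¹⁻¹ by group]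
        exact P.normal q⁻¹ (P.commute hq.1).inv_left _ (inv_mem hq.2)⟩ }
  have hLQ : L ≤ Q := fun q hq => hq.1
  have hUL : U ≤ L := fun a ha =>
    ⟨P.U_le ha, mul_mem (P.normal s hs a ha) (inv_mem ha)⟩
  have hL : L ≠ Q := by
    intro e
    refine hsQ (P.swap.mem_of_fix hs fun b hb => ?_)
    have hb' : b ∈ L := e ▸ P.V_le hb
    have h1 : s * b * s⁻¹ * b⁻¹ ∈ V := mul_mem (P.normal' s hs b hb) (inv_mem hb)
    rcases P.both hb'.2 h1 with e1 | e1
    · exact Or.inl (mul_inv_eq_one.1 e1)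
    · right
      rw [mul_inv_eq_iff_eq_mul.1 e1]
      exact P.comm' t P.t_mem.2 b hb
  have hcL : Q ⊓ Subgroup.centralizer ({s} : Set G) ≤ L := fun q hq =>
    ⟨hq.1, by
      have e : q * s = s * q := mem_cs.1 hq.2
      rw [← e, mul_inv_cancel_right, mul_inv_cancel]
      exact one_mem U⟩
  have hne : Q ⊓ Subgroup.centralizer ({s} : Set G) ≠ L := by
    intro e
    refine hsQ (P.mem_of_fix hs fun a ha => Or.inl ?_)
    have h1 : a ∈ Q ⊓ Subgroup.centralizer ({s} : Set G) := e.symm ▸ hUL ha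
    rw [← mem_cs.1 h1.2, mul_inv_cancel_right]
  have hd1 : Nat.card L ∣ 128 := P.card_Q ▸ Subgroup.card_dvd_of_le hLQ
  have hd2 := Subgroup.card_dvd_of_le hcL
  have hlt1 : Nat.card L < 128 := by
    refine lt_of_le_of_ne (Nat.le_of_dvd (by norm_num) hd1) fun e => hL ?_
    exact Subgroup.eq_of_le_of_card_ge hLQ (by rw [P.card_Q, e])
  have hlt2 : Nat.card ↥(Q ⊓ Subgroup.centralizer ({s} : Set G)) < Nat.card L := by
    refine lt_of_le_of_ne (Nat.le_of_dvd Nat.card_pos hd2) fun e => hne ?_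
    exact Subgroup.eq_of_le_of_card_ge hcL e.ge
  have hL64 : Nat.card L ≤ 64 := by
    obtain ⟨i, hi, e⟩ := (Nat.dvd_prime_pow Nat.prime_two).1
      (show Nat.card L ∣ 2 ^ 7 from hd1)
    rw [e] at hlt1 ⊢
    calc 2 ^ i ≤ 2 ^ 6 := Nat.pow_le_pow_right (by norm_num) (by
          by_contra hcon
          have : i = 7 := by omega
          rw [this] at hlt1; norm_num at hlt1)
      _ = 64 := by norm_num
  obtain ⟨i, -, e⟩ := (Nat.dvd_prime_pow Nat.prime_two).1
    (show Nat.card ↥(Q ⊓ Subgroup.centralizer ({s} : Set G)) ∣ 2 ^ 7 from hd2.trans hd1)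
  rw [e] at hlt2 ⊢
  calc 2 ^ i ≤ 2 ^ 5 := Nat.pow_le_pow_right (by norm_num) (by
        by_contra hcon
        have h6 : 2 ^ 6 ≤ 2 ^ i := Nat.pow_le_pow_right (by norm_num) (by omega)
        have : (2 : ℕ) ^ 6 = 64 := by norm_num
        omega)
    _ = 32 := by norm_num

theorem Pr.cent_U [Finite G] (P : Pr t Q U V) (hS : Setup G) {v : G} (hv : v ∈ U) (h1 : v ≠ 1)
    (ht : v ≠ t) :
    Nat.card ↥(Subgroup.centralizer ({t} : Set G) ⊓ Subgroup.centralizer ({v} : Set G)) = 1536 := by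
  have h := orbit_card (Subgroup.centralizer ({t} : Set G)) v
  have hset : Nat.card {w : G // ∃ c ∈ Subgroup.centralizer ({t} : Set G), c * v * c⁻¹ = w} = 14 := by
    have h14 := ncard_off U P.t_mem.1 P.ne_one
    rw [P.card_U] at h14
    have he : {w : G | ∃ c ∈ Subgroup.centralizer ({t} : Set G), c * v * c⁻¹ = w} =
        (U : Set G) \ {1, t} := by
      ext w
      simp only [Set.mem_ofPred_eq, Set.mem_sdiff, SetLike.mem_coe, Set.mem_insert_iff,
        Set.mem_singleton_iff, not_or]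
      constructor
      · rintro ⟨c, hc, rfl⟩
        have hc' : c * t = t * c := mem_cs.1 hc
        refine ⟨P.normal c hc' v hv, fun e => h1 (conj_eq_one_iff.1 e), fun e => ht ?_⟩
        have hct : c * t * c⁻¹ = t := by rw [hc', mul_inv_cancel_right]
        exact mul_left_cancel (mul_right_cancel (e.trans hct.symm))
      · rintro ⟨hw, hw1, hwt⟩
        obtain ⟨c, hc, e⟩ := P.trans v hv w hw h1 ht hw1 hwt
        exact ⟨c, mem_cs.2 hc.eq, e⟩
    have h2 : Nat.card {w : G // ∃ c ∈ Subgroup.centralizer ({t} : Set G), c * v * c⁻¹ = w} =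
        ((U : Set G) \ {1, t}).ncard := by
      rw [← he]; exact Nat.card_coe_set_eq _
    omega
  rw [hset, hS.cent_isA t P.isA] at h
  omega

theorem Pr.cent_Q_U [Finite G] (P : Pr t Q U V) {v : G} (hv : v ∈ U) (h1 : v ≠ 1) (ht : v ≠ t) :
    Nat.card ↥(Q ⊓ Subgroup.centralizer ({v} : Set G)) = 64 := by
  have h := orbit_card Q v
  have he : {w : G | ∃ q ∈ Q, q * v * q⁻¹ = w} = {v, v * t} := by
    ext w
    simp only [Set.mem_ofPred_eq, Set.mem_insert_iff, Set.mem_singleton_iff]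
    constructor
    · rintro ⟨q, hq, rfl⟩
      exact P.act hq hv
    · rintro (rfl | rfl)
      · exact ⟨1, one_mem _, by group⟩
      · obtain ⟨b, hb, hne⟩ := P.pairing v hv h1 ht
        refine ⟨b, P.V_le hb, (P.cross hv hb).resolve_left fun e => hne ?_⟩
        exact (mul_inv_eq_iff_eq_mul.1 e).symm
  have h2 : Nat.card {w : G // ∃ q ∈ Q, q * v * q⁻¹ = w} = 2 := by
    have h3 : ({v, v * t} : Set G).ncard = 2 :=
      Set.ncard_pair fun e => P.ne_one (mul_eq_left.1 e.symm)
    rw [← he] at h3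
    rw [← h3]; exact Nat.card_coe_set_eq _
  rw [h2, P.card_Q] at h
  omega

/-- An involution with a large joint centraliser lies in the two-core. -/
theorem Pr.mem_of_big [Finite G] (P : Pr t Q U V) (hS : Setup G) {s : G} (hs2 : s * s = 1)
    (hs : Commute s t)
    (hbig : 1536 ≤
      Nat.card ↥(Subgroup.centralizer ({t} : Set G) ⊓ Subgroup.centralizer ({s} : Set G))) :
    s ∈ Q := by
  classical
  by_contra hsQ
  set C := Subgroup.centralizer ({t} : Set G) with hC
  set Qc := Q.subgroupOf C with hQc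
  haveI : Qc.Normal := by
    refine ⟨fun n hn g => ?_⟩
    rw [hQc, Subgroup.mem_subgroupOf] at hn ⊢
    push_cast
    have hg : Commute (g : G) t := mem_cs.1 g.2
    obtain ⟨a, ha, b, hb, e⟩ := P.gen _ hn
    rw [e, show (g : G) * (a * b) * (g : G)⁻¹ = (g * a * (g : G)⁻¹) * (g * b * (g : G)⁻¹) by group]
    exact mul_mem (P.U_le (P.normal g hg a ha)) (P.V_le (P.normal' g hg b hb))
  set q := QuotientGroup.mk' Qc with hq
  have hQc128 : Nat.card Qc = 128 := by
    rw [Nat.card_congr (Subgroup.subgroupOfEquivOfLe P.Q_le).toEquiv, P.card_Q]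
  have h168 : Nat.card (↥C ⧸ Qc) = 168 := by
    have := Subgroup.card_eq_card_quotient_mul_card_subgroup Qc
    rw [hQc128, show Nat.card ↥C = 21504 from hS.cent_isA t P.isA] at this
    omega
  have hsimple : ∀ N : Subgroup (↥C ⧸ Qc), N.Normal → N = ⊥ ∨ N = ⊤ := by
    intro N hN
    rcases P.Q_simple ((N.comap q).map C.subtype) (fun x hx => by
        refine ⟨⟨x, P.Q_le hx⟩, ?_, rfl⟩
        show q ⟨x, P.Q_le hx⟩ ∈ N
        rw [show q ⟨x, P.Q_le hx⟩ = 1 from
          (QuotientGroup.eq_one_iff _).2 (Subgroup.mem_subgroupOf.2 hx)]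
        exact one_mem N) (Subgroup.map_subtype_le _) (fun g hg x hx => by
        obtain ⟨y, hy, rfl⟩ := hx
        exact ⟨⟨g, mem_cs.2 hg.eq⟩ * y * ⟨g, mem_cs.2 hg.eq⟩⁻¹,
          (hN.comap q).conj_mem _ hy _, rfl⟩) with e | e
    · left
      rw [Subgroup.eq_bot_iff_forall]
      intro x hx
      obtain ⟨y, rfl⟩ := QuotientGroup.mk'_surjective Qc x
      have h1 : (y : G) ∈ (N.comap q).map C.subtype := ⟨y, hx, rfl⟩
      rw [e] at h1
      exact (QuotientGroup.eq_one_iff _).2 (Subgroup.mem_subgroupOf.2 h1)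
    · right
      rw [Subgroup.eq_top_iff']
      intro x
      obtain ⟨y, rfl⟩ := QuotientGroup.mk'_surjective Qc x
      have h1 : (y : G) ∈ (N.comap q).map C.subtype := by rw [e]; exact y.2
      obtain ⟨z, hz, e'⟩ := h1
      exact (Subtype.ext e' : z = y) ▸ hz
  set sC : ↥C := ⟨s, mem_cs.2 hs.eq⟩ with hsC
  set φ := q.comp ((Subgroup.centralizer ({s} : Set G)).subgroupOf C).subtype with hφ
  have hK : Nat.card φ.ker ≤ 32 := by
    refine le_trans ?_ (P.fix_card hs hsQ)
    have hle : (φ.ker.map ((Subgroup.centralizer ({s} : Set G)).subgroupOf C).subtype).map C.subtype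
        ≤ Q ⊓ Subgroup.centralizer ({s} : Set G) := by
      rintro _ ⟨_, ⟨d, hd, rfl⟩, rfl⟩
      refine ⟨?_, Subgroup.mem_subgroupOf.1 d.2⟩
      have h1 : q (d : ↥C) = 1 := hd
      exact Subgroup.mem_subgroupOf.1 ((QuotientGroup.eq_one_iff _).1 h1)
    have := Subgroup.card_le_of_le hle
    rwa [Subgroup.card_map_of_injective C.subtype_injective,
      Subgroup.card_map_of_injective (Subgroup.subtype_injective _)] at this
  have hqs : q sC ≠ 1 := fun e =>
    hsQ (Subgroup.mem_subgroupOf.1 ((QuotientGroup.eq_one_iff _).1 e))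
  have hqs2 : q sC * q sC = 1 := by
    rw [← map_mul, show sC * sC = 1 from Subtype.ext hs2, map_one]
  have hrange : φ.range ≠ ⊤ := by
    intro e
    have hcen : ∀ x, Commute (q sC) x := by
      intro x
      have hx : x ∈ φ.range := e ▸ Subgroup.mem_top x
      obtain ⟨d, rfl⟩ := hx
      show Commute (q sC) (q (d : ↥C))
      refine Commute.map ?_ q
      exact Subtype.ext (mem_cs.1 (Subgroup.mem_subgroupOf.1 d.2)).symm
    have hn : (Subgroup.zpowers (q sC)).Normal := ⟨fun n hn g => by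
      obtain ⟨k, rfl⟩ := Subgroup.mem_zpowers_iff.1 hn
      rw [((hcen g).zpow_left k).symm.eq, mul_inv_cancel_right]
      exact hn⟩
    rcases hsimple _ hn with e1 | e1
    · exact hqs (Subgroup.zpowers_eq_bot.1 e1)
    · have h2 : Nat.card (Subgroup.zpowers (q sC)) ∣ 2 := by
        rw [Nat.card_zpowers]; exact orderOf_dvd_of_pow_eq_one (by rw [pow_two]; exact hqs2)
      rw [e1, Subgroup.card_top, h168] at h2
      norm_num at h2
  have hcore : φ.range.normalCore = ⊥ := by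
    rcases hsimple _ (Subgroup.normalCore_normal _) with e | e
    · exact e
    · exact absurd (top_le_iff.1 (e ▸ Subgroup.normalCore_le _)) hrange
  rw [Subgroup.normalCore_eq_ker] at hcore
  have hdvd := Subgroup.card_dvd_of_injective _ ((MonoidHom.ker_eq_bot_iff _).1 hcore)
  rw [h168, Nat.card_perm, ← Subgroup.index] at hdvd
  have h7 : 7 ≤ φ.range.index :=
    (Nat.prime_seven.dvd_factorial).1 ((show (7 : ℕ) ∣ 168 by norm_num).trans hdvd)
  have hr := φ.range.card_mul_index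
  rw [h168] at hr
  have hr24 : Nat.card φ.range ≤ 24 := by nlinarith
  have hk := φ.ker.card_mul_index
  rw [Subgroup.index_ker] at hk
  have hsame : Nat.card ↥((Subgroup.centralizer ({s} : Set G)).subgroupOf C) =
      Nat.card ↥(C ⊓ Subgroup.centralizer ({s} : Set G)) := by
    rw [← Subgroup.card_map_of_injective C.subtype_injective, Subgroup.subgroupOf_map_subtype,
      inf_comm]
  rw [hsame] at hk
  have := Nat.mul_le_mul hK hr24
  omega

theorem Pr.isA_mem (P : Pr t Q U V)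
    (hmix : ∀ a ∈ U, ∀ b ∈ V, a ∉ Subgroup.zpowers t → b ∉ Subgroup.zpowers t → a * b = b * a →
      ¬ IsA (a * b))
    {x : G} (hx : IsA x) (hxQ : x ∈ Q) : x ∈ U ∨ x ∈ V := by
  obtain ⟨a, ha, b, hb, rfl⟩ := P.gen x hxQ
  by_cases h1 : a ∈ Subgroup.zpowers t
  · refine Or.inr (mul_mem ?_ hb)
    rcases (mem_zp P.two).1 h1 with rfl | rfl
    · exact one_mem _
    · exact P.t_mem.2
  by_cases h2 : b ∈ Subgroup.zpowers t
  · refine Or.inl (mul_mem ha ?_)
    rcases (mem_zp P.two).1 h2 with rfl | rfl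
    · exact one_mem _
    · exact P.t_mem.1
  refine absurd hx (hmix a ha b hb h1 h2 ?_)
  have e := sq_one_of_orderOf hx.1
  calc a * b = (a * b)⁻¹ := (inv_eq_of_mul_eq_one_right e).symm
    _ = b * a := by
      rw [mul_inv_rev, inv_eq_of_mul_eq_one_right (P.sq a ha),
        inv_eq_of_mul_eq_one_right (P.sq' b hb)]

/-- The mixed involutions centralise at least 512 elements with `t`. -/
theorem Pr.mixed_big [Finite G] (P : Pr t Q U V) (hS : Setup G) {z : G} (hz : z ∈ Q)
    (hz2 : orderOf z = 2) (hzA : ¬ IsA z) :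
    512 ≤ Nat.card ↥(Subgroup.centralizer ({t} : Set G) ⊓ Subgroup.centralizer ({z} : Set G)) := by
  classical
  have ht2 := P.two
  have split : ∀ w : G, w ∈ Q → orderOf w = 2 → ¬ IsA w → ∃ p : G × G, p.1 ∈ (U : Set G) \ {1, t} ∧
      p.2 ∈ ((V ⊓ Subgroup.centralizer ({p.1} : Set G) : Subgroup G) : Set G) \ {1, t} ∧
      p.1 * p.2 = w := by
    intro w hw hw2 hwA
    obtain ⟨a, ha, b, hb, rfl⟩ := P.gen w hw
    have h1 : a ≠ 1 ∧ a ≠ t := by
      refine ⟨fun e => hwA (P.pure' _ (by rw [e, one_mul]; exact hb) ?_),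
        fun e => hwA (P.pure' _ (by rw [e]; exact mul_mem P.t_mem.2 hb) ?_)⟩ <;>
      · intro e'; rw [e', orderOf_one] at hw2; norm_num at hw2
    have h2 : b ≠ 1 ∧ b ≠ t := by
      refine ⟨fun e => hwA (P.pure _ (by rw [e, mul_one]; exact ha) ?_),
        fun e => hwA (P.pure _ (by rw [e]; exact mul_mem ha P.t_mem.1) ?_)⟩ <;>
      · intro e'; rw [e', orderOf_one] at hw2; norm_num at hw2
    have hc : b * a = a * b := by
      have e := sq_one_of_orderOf hw2
      calc b * a = (a * b)⁻¹ := by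
            rw [mul_inv_rev, inv_eq_of_mul_eq_one_right (P.sq a ha),
              inv_eq_of_mul_eq_one_right (P.sq' b hb)]
        _ = a * b := inv_eq_of_mul_eq_one_right e
    exact ⟨(a, b), ⟨ha, by simp [h1.1, h1.2]⟩, ⟨⟨hb, mem_cs.2 hc⟩, by simp [h2.1, h2.2]⟩, rfl⟩
  let A14 : Type u := ↥((U : Set G) \ {1, t})
  let B : A14 → Type u := fun a =>
    ↥(((V ⊓ Subgroup.centralizer ({(a : G)} : Set G) : Subgroup G) : Set G) \ {1, t})
  have hB : ∀ a : A14, Nat.card (B a) ≤ 6 := by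
    intro a
    have ha := a.2
    simp only [Set.mem_sdiff, SetLike.mem_coe, Set.mem_insert_iff, Set.mem_singleton_iff,
      not_or] at ha
    have h8 : Nat.card ↥(V ⊓ Subgroup.centralizer ({(a : G)} : Set G)) ≤ 8 := by
      have hd : Nat.card ↥(V ⊓ Subgroup.centralizer ({(a : G)} : Set G)) ∣ 2 ^ 4 :=
        (Subgroup.card_dvd_of_le inf_le_left).trans (dvd_of_eq P.card_V)
      obtain ⟨i, hi, e⟩ := (Nat.dvd_prime_pow Nat.prime_two).1 hd
      rcases Nat.lt_or_ge i 4 with hlt | hge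
      · rw [e]
        calc 2 ^ i ≤ 2 ^ 3 := Nat.pow_le_pow_right (by norm_num) (by omega)
          _ = 8 := by norm_num
      · exfalso
        obtain ⟨b, hb, hne⟩ := P.pairing _ ha.1 ha.2.1 ha.2.2
        have he : V ⊓ Subgroup.centralizer ({(a : G)} : Set G) = V :=
          Subgroup.eq_of_le_of_card_ge inf_le_left (by
            rw [e, P.card_V, show i = 4 by omega]; norm_num)
        exact hne (mem_cs.1 (he.symm ▸ hb : b ∈ V ⊓ _).2).symm
    have htm : t ∈ V ⊓ Subgroup.centralizer ({(a : G)} : Set G) :=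
      ⟨P.t_mem.2, mem_cs.2 (P.comm t P.t_mem.1 _ ha.1)⟩
    have := ncard_off _ htm P.ne_one
    show Nat.card ↥(((V ⊓ Subgroup.centralizer ({(a : G)} : Set G) : Subgroup G) : Set G) \ {1, t}) ≤ 6
    rw [Nat.card_coe_set_eq]
    omega
  have hA14 : Nat.card A14 = 14 := by
    have := ncard_off U P.t_mem.1 P.ne_one
    rw [P.card_U] at this
    show Nat.card ↥((U : Set G) \ {1, t}) = 14
    rw [Nat.card_coe_set_eq]
    omega
  let Orb : Type u := {w : G // ∃ c ∈ Subgroup.centralizer ({t} : Set G), c * z * c⁻¹ = w}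
  have horb : ∀ w : Orb, (w : G) ∈ Q ∧ orderOf (w : G) = 2 ∧ ¬ IsA (w : G) := by
    rintro ⟨_, c, hc, rfl⟩
    refine ⟨?_, (MulEquiv.orderOf_eq (MulAut.conj c) z).trans hz2, fun hA => hzA ?_⟩
    · obtain ⟨a, ha, b, hb, rfl⟩ := P.gen z hz
      show c * (a * b) * c⁻¹ ∈ Q
      rw [show c * (a * b) * c⁻¹ = (c * a * c⁻¹) * (c * b * c⁻¹) by group]
      exact mul_mem (P.U_le (P.normal c (mem_cs.1 hc) a ha))
        (P.V_le (P.normal' c (mem_cs.1 hc) b hb))
    · have := isA_conjugate c⁻¹ hA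
      rwa [show c⁻¹ * (c * z * c⁻¹) * c⁻¹⁻¹ = z by group] at this
  choose sp hsp1 hsp2 hsp3 using fun w : Orb => split w (horb w).1 (horb w).2.1 (horb w).2.2
  have hmulU : ∀ (a : G), a ∈ (U : Set G) \ {1, t} → a * t ∈ (U : Set G) \ {1, t} := by
    intro a ha
    simp only [Set.mem_sdiff, SetLike.mem_coe, Set.mem_insert_iff, Set.mem_singleton_iff,
      not_or] at ha ⊢
    refine ⟨mul_mem ha.1 P.t_mem.1, fun e => ha.2.2 ?_, fun e => ha.2.1 ?_⟩
    · exact mul_right_cancel (e.trans ht2.symm)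
    · exact mul_eq_right.1 e
  have hmulV : ∀ a b : G, a ∈ (U : Set G) \ {1, t} →
      b ∈ ((V ⊓ Subgroup.centralizer ({a} : Set G) : Subgroup G) : Set G) \ {1, t} →
      b * t ∈ ((V ⊓ Subgroup.centralizer ({a * t} : Set G) : Subgroup G) : Set G) \ {1, t} := by
    intro a b ha hb
    simp only [Set.mem_sdiff, SetLike.mem_coe, Set.mem_insert_iff, Set.mem_singleton_iff,
      not_or, Subgroup.mem_inf] at ha hb ⊢
    have hbt : Commute b t := P.comm' b hb.1.1 t P.t_mem.2
    have hat : Commute a t := P.comm a ha.1 t P.t_mem.1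
    have hab : Commute b a := mem_cs.1 hb.1.2
    refine ⟨⟨mul_mem hb.1.1 P.t_mem.2, mem_cs.2 ?_⟩, fun e => hb.2.2 ?_, fun e => hb.2.1 ?_⟩
    · exact ((hab.mul_right hbt).mul_left (hat.symm.mul_right (Commute.refl t))).eq
    · exact mul_right_cancel (e.trans ht2.symm)
    · exact mul_eq_right.1 e
  let j : Orb × Bool → Σ a : A14, B a := fun p =>
    cond p.2 ⟨⟨(sp p.1).1, hsp1 p.1⟩, ⟨(sp p.1).2, hsp2 p.1⟩⟩
      ⟨⟨(sp p.1).1 * t, hmulU _ (hsp1 p.1)⟩,
        ⟨(sp p.1).2 * t, hmulV _ _ (hsp1 p.1) (hsp2 p.1)⟩⟩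
  have hprod : ∀ p, ((j p).1 : G) * ((j p).2 : G) = (p.1 : G) := by
    rintro ⟨w, ε⟩
    cases ε
    · show (sp w).1 * t * ((sp w).2 * t) = _
      have hb := hsp2 w
      simp only [Set.mem_sdiff, SetLike.mem_coe, Subgroup.mem_inf] at hb
      have hbt : (sp w).2 * t = t * (sp w).2 := P.comm' _ hb.1.1 t P.t_mem.2
      rw [hbt, mul_assoc, ← mul_assoc t, ht2, one_mul]
      exact hsp3 w
    · exact hsp3 w
  have hfst : ∀ p, ((j p).1 : G) = cond p.2 (sp p.1).1 ((sp p.1).1 * t) := by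
    rintro ⟨w, ε⟩
    cases ε <;> rfl
  have hj : Function.Injective j := by
    intro p p' e
    have e1 : p.1 = p'.1 := Subtype.ext (by rw [← hprod p, ← hprod p', e])
    have e2 : ((j p).1 : G) = ((j p').1 : G) := by rw [e]
    rw [hfst, hfst, e1] at e2
    obtain ⟨w, ε⟩ := p
    obtain ⟨w', ε'⟩ := p'
    dsimp only at e1 e2
    subst e1
    cases ε <;> cases ε'
    · rfl
    · exact absurd (mul_eq_left.1 e2) P.ne_one
    · exact absurd (mul_eq_left.1 e2.symm) P.ne_one
    · rfl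
  have h84 : Nat.card (Σ a : A14, B a) ≤ 84 := by
    haveI := Fintype.ofFinite A14
    rw [Nat.card_sigma]
    calc ∑ a : A14, Nat.card (B a) ≤ ∑ _a : A14, 6 := Finset.sum_le_sum fun a _ => hB a
      _ = 84 := by rw [Finset.sum_const, smul_eq_mul, Finset.card_univ, ← Nat.card_eq_fintype_card, hA14]
  have h42 := (Nat.card_le_card_of_injective j hj).trans h84
  rw [Nat.card_prod, Nat.card_eq_fintype_card (α := Bool), Fintype.card_bool] at h42
  have horbit := orbit_card (Subgroup.centralizer ({t} : Set G)) z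
  rw [hS.cent_isA t P.isA] at horbit
  change _ * Nat.card Orb = _ at horbit
  by_contra hlt
  have h1 : Nat.card Orb ≤ 42 := by omega
  have h2 := Nat.mul_le_mul (Nat.le_of_lt_succ (Nat.lt_succ_of_le (Nat.le_of_not_le hlt))) h1
  have h3 : Nat.card ↥(Subgroup.centralizer ({t} : Set G) ⊓ Subgroup.centralizer ({z} : Set G)) ≤ 511 := by
    omega
  have h4 := Nat.mul_le_mul h3 h1
  omega

set_option maxHeartbeats 800000 in
/-- A normal two-subgroup of the centraliser of a pair in `U` lies mostly in the two-core. -/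
theorem Pr.normal_two_bound [Finite G] (P : Pr t Q U V) (hS : Setup G) {s : G} (hsU : s ∈ U)
    (hs1 : s ≠ 1) (hst : s ≠ t) {X : Subgroup G}
    (hX2 : IsPGroup 2 ↥X)
    (hXle : X ≤ Subgroup.centralizer ({t} : Set G) ⊓ Subgroup.centralizer ({s} : Set G))
    (hXn : ∀ g ∈ Subgroup.centralizer ({t} : Set G) ⊓ Subgroup.centralizer ({s} : Set G),
      ∀ x ∈ X, g * x * g⁻¹ ∈ X) :
    Nat.card X ≤ 4 * Nat.card ↥(X ⊓ Q) := by
  classical
  haveI : Fact (Nat.Prime 3) := ⟨Nat.prime_three⟩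
  haveI : Fact (Nat.Prime 2) := ⟨Nat.prime_two⟩
  have ht2 := P.two
  have hs2 : s * s = 1 := P.sq s hsU
  have hts : t * s = s * t := P.comm t P.t_mem.1 s hsU
  let T3 : Subgroup G :=
    { carrier := {x | x ∈ Subgroup.zpowers t ∨ s * x ∈ Subgroup.zpowers t}
      one_mem' := Or.inl (one_mem _)
      mul_mem' := fun {x y} hx hy => by
        have hc : ∀ w, w ∈ Subgroup.zpowers t → s * w = w * s := fun w hw => by
          rcases (mem_zp ht2).1 hw with rfl | rfl
          · rw [mul_one, one_mul]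
          · exact hts.symm
        rcases hx with hx | hx <;> rcases hy with hy | hy
        · exact Or.inl (mul_mem hx hy)
        · refine Or.inr ?_
          rw [← mul_assoc, hc x hx, mul_assoc]
          exact mul_mem hx hy
        · refine Or.inr ?_
          rw [← mul_assoc]
          exact mul_mem hx hy
        · refine Or.inl ?_
          have e : x * y = (s * x) * (s * y) := by
            calc x * y = (s * s) * x * y := by rw [hs2, one_mul]
              _ = s * (s * x) * y := by group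
              _ = (s * x) * s * y := by rw [hc _ hx]
              _ = (s * x) * (s * y) := by group
          rw [e]
          exact mul_mem hx hy
      inv_mem' := fun {x} hx => by
        rcases hx with hx | hx
        · exact Or.inl (inv_mem hx)
        · refine Or.inr ?_
          have hxU : x ∈ U := by
            have h1 : s * x ∈ U := by
              rcases (mem_zp ht2).1 hx with e | e <;> rw [e]
              · exact one_mem U
              · exact P.t_mem.1
            exact (Subgroup.mul_mem_cancel_left U hsU).1 h1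
          rwa [inv_eq_of_mul_eq_one_right (P.sq x hxU)] }
  have memT3 : ∀ x : G, x ∈ T3 ↔ x = 1 ∨ x = t ∨ x = s ∨ x = s * t := by
    intro x
    constructor
    · rintro (h | h) <;> rcases (mem_zp ht2).1 h with e | e
      · exact Or.inl e
      · exact Or.inr (Or.inl e)
      · refine Or.inr (Or.inr (Or.inl ?_))
        calc x = s * (s * x) := by rw [← mul_assoc, hs2, one_mul]
          _ = s := by rw [e, mul_one]
      · refine Or.inr (Or.inr (Or.inr ?_))
        calc x = s * (s * x) := by rw [← mul_assoc, hs2, one_mul]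
          _ = s * t := by rw [e]
    · rintro (rfl | rfl | rfl | rfl)
      · exact one_mem _
      · exact Or.inl (Subgroup.mem_zpowers _)
      · exact Or.inr (by rw [hs2]; exact one_mem _)
      · exact Or.inr (by rw [← mul_assoc, hs2, one_mul]; exact Subgroup.mem_zpowers _)
  have hT3U : T3 ≤ U := fun x hx => by
    rcases (memT3 x).1 hx with rfl | rfl | rfl | rfl
    exacts [one_mem _, P.t_mem.1, hsU, mul_mem hsU P.t_mem.1]
  have fixT3 : ∀ d ∈ Subgroup.centralizer ({t} : Set G) ⊓ Subgroup.centralizer ({s} : Set G),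
      ∀ k ∈ T3, d * k = k * d := by
    intro d hd k hk
    have h1 : Commute d t := mem_cs.1 hd.1
    have h2 : Commute d s := mem_cs.1 hd.2
    rcases (memT3 k).1 hk with rfl | rfl | rfl | rfl
    exacts [(Commute.one_right d).eq, h1.eq, h2.eq, (h2.mul_right h1).eq]
  have hT3c : Nat.card T3 = 4 := by
    have hne : s * t ≠ 1 := fun e => hst (mul_right_cancel (e.trans ht2.symm))
    have he : (T3 : Set G) = {1, t, s, s * t} := by
      ext x
      simpa using memT3 x
    rw [show Nat.card T3 = (T3 : Set G).ncard from Nat.card_coe_set_eq (T3 : Set G), he,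
      Set.ncard_insert_of_notMem, Set.ncard_insert_of_notMem,
      Set.ncard_pair]
    · exact fun e => P.ne_one (mul_eq_left.1 e.symm)
    · simp only [Set.mem_insert_iff, Set.mem_singleton_iff, not_or]
      exact ⟨hst.symm, fun e => hs1 (mul_eq_right.1 e.symm)⟩
    · simp only [Set.mem_insert_iff, Set.mem_singleton_iff, not_or]
      exact ⟨P.ne_one.symm, hs1.symm, hne.symm⟩
  -- the action of `X` on `U` modulo the four-group
  let Y := ↥U ⧸ T3.subgroupOf U
  have hY : Nat.card Y = 4 := by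
    have h := Subgroup.card_eq_card_quotient_mul_card_subgroup (T3.subgroupOf U)
    rw [Nat.card_congr (Subgroup.subgroupOfEquivOfLe hT3U).toEquiv, hT3c, P.card_U] at h
    show Nat.card (↥U ⧸ T3.subgroupOf U) = 4
    omega
  let cj : ↥X → ↥U → ↥U := fun x a =>
    ⟨(x : G) * a * (x : G)⁻¹, P.normal x (mem_cs.1 (hXle x.2).1) a a.2⟩
  have cj_rel : ∀ (x : ↥X) (a b : ↥U), QuotientGroup.leftRel (T3.subgroupOf U) a b →
      QuotientGroup.leftRel (T3.subgroupOf U) (cj x a) (cj x b) := by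
    intro x a b hab
    rw [QuotientGroup.leftRel_apply, Subgroup.mem_subgroupOf] at hab ⊢
    push_cast at hab ⊢
    have e : ((x : G) * a * (x : G)⁻¹)⁻¹ * ((x : G) * b * (x : G)⁻¹) =
        (x : G) * ((a : G)⁻¹ * b) * (x : G)⁻¹ := by group
    show ((x : G) * a * (x : G)⁻¹)⁻¹ * ((x : G) * b * (x : G)⁻¹) ∈ T3
    rw [e, fixT3 x (hXle x.2) _ hab, mul_inv_cancel_right]
    exact hab
  letI : MulAction ↥X Y :=
    { smul := fun x => Quotient.map' (cj x) (cj_rel x)
      one_smul := fun y => by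
        induction y using Quotient.inductionOn' with
        | h a =>
          show Quotient.mk'' (cj 1 a) = Quotient.mk'' a
          congr 1
          exact Subtype.ext (by simp [cj])
      mul_smul := fun x x' y => by
        induction y using Quotient.inductionOn' with
        | h a =>
          show Quotient.mk'' (cj (x * x') a) = Quotient.mk'' (cj x (cj x' a))
          congr 1
          refine Subtype.ext ?_
          show ((x * x' : ↥X) : G) * a * ((x * x' : ↥X) : G)⁻¹ =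
            (x : G) * ((x' : G) * a * (x' : G)⁻¹) * (x : G)⁻¹
          push_cast
          group }
  have hfix1 : (Quotient.mk'' 1 : Y) ∈ MulAction.fixedPoints ↥X Y := fun x => by
    show Quotient.mk'' (cj x 1) = Quotient.mk'' 1
    congr 1
    exact Subtype.ext (by simp [cj])
  obtain ⟨y, hy, hy1⟩ := hX2.exists_fixed_point_of_prime_dvd_card_of_fixed_point Y
    (by rw [hY]; norm_num) hfix1
  obtain ⟨a₀, rfl⟩ : ∃ a : ↥U, Quotient.mk'' a = y := Quotient.exists_rep y
  have ha₀ : (a₀ : G) ∉ T3 := by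
    intro h
    apply hy1
    refine Quotient.sound' ?_
    rw [QuotientGroup.leftRel_apply, inv_one, one_mul, Subgroup.mem_subgroupOf]
    exact h
  have hmove : ∀ a : G, (∀ x ∈ X, a⁻¹ * (x * a * x⁻¹) ∈ T3) → ∀ g ∈
      Subgroup.centralizer ({t} : Set G) ⊓ Subgroup.centralizer ({s} : Set G),
      ∀ x ∈ X, (g * a * g⁻¹)⁻¹ * (x * (g * a * g⁻¹) * x⁻¹) ∈ T3 := by
    intro a ha g hg x hx
    have hx' : g⁻¹ * x * g⁻¹⁻¹ ∈ X := hXn g⁻¹ (inv_mem hg) x hx
    have := ha _ hx'
    have e : (g * a * g⁻¹)⁻¹ * (x * (g * a * g⁻¹) * x⁻¹) =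
        g * (a⁻¹ * ((g⁻¹ * x * g⁻¹⁻¹) * a * (g⁻¹ * x * g⁻¹⁻¹)⁻¹)) * g⁻¹ := by group
    rw [e, fixT3 g hg _ this, mul_inv_cancel_right]
    exact this
  have hfa₀ : ∀ x ∈ X, (a₀ : G)⁻¹ * (x * a₀ * x⁻¹) ∈ T3 := by
    intro x hx
    have h1 : Quotient.mk'' (cj ⟨x, hx⟩ a₀) = (Quotient.mk'' a₀ : Y) := hy ⟨x, hx⟩
    have h2 := QuotientGroup.leftRel_apply.1 (Quotient.eq''.1 h1.symm)
    rw [Subgroup.mem_subgroupOf] at h2
    exact h2
  -- an element of order three moves `a₀` out of its coset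
  have hD : Nat.card ↥(Subgroup.centralizer ({t} : Set G) ⊓ Subgroup.centralizer ({s} : Set G)) =
      1536 := P.cent_U hS hsU hs1 hst
  obtain ⟨r, hr⟩ := exists_prime_orderOf_dvd_card'
    (G := ↥(Subgroup.centralizer ({t} : Set G) ⊓ Subgroup.centralizer ({s} : Set G))) 3
    (by rw [hD]; norm_num)
  have hr3 : (r : G) ^ 3 = 1 := by
    rw [← SubmonoidClass.coe_pow, ← hr, pow_orderOf_eq_one]; rfl
  have hrt : Commute (r : G) t := mem_cs.1 r.2.1
  set a₁ := (r : G) * a₀ * (r : G)⁻¹ with ha₁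
  have ha₁U : a₁ ∈ U := P.normal _ hrt _ a₀.2
  -- the subgroup of `U` moved inside `<t, s>`
  have hout : (a₀ : G)⁻¹ * a₁ ∉ T3 := by
    intro hk
    set k := (a₀ : G)⁻¹ * a₁ with hkdef
    have hrk : (r : G) * k * (r : G)⁻¹ = k := by rw [fixT3 r r.2 k hk, mul_inv_cancel_right]
    have e1 : (r : G) * a₀ * (r : G)⁻¹ = a₀ * k := by rw [hkdef]; group; rw [ha₁]; group
    have e2 : (r : G) ^ 2 * a₀ * ((r : G) ^ 2)⁻¹ = a₀ * k * k := by
      calc (r : G) ^ 2 * a₀ * ((r : G) ^ 2)⁻¹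
          = (r : G) * ((r : G) * a₀ * (r : G)⁻¹) * (r : G)⁻¹ := by rw [pow_two]; group
        _ = (r : G) * (a₀ * k) * (r : G)⁻¹ := by rw [e1]
        _ = ((r : G) * a₀ * (r : G)⁻¹) * ((r : G) * k * (r : G)⁻¹) := by group
        _ = a₀ * k * k := by rw [e1, hrk]
    have e3 : (r : G) ^ 3 * a₀ * ((r : G) ^ 3)⁻¹ = a₀ * k * k * k := by
      calc (r : G) ^ 3 * a₀ * ((r : G) ^ 3)⁻¹
          = (r : G) * ((r : G) ^ 2 * a₀ * ((r : G) ^ 2)⁻¹) * (r : G)⁻¹ := by
            rw [pow_succ' (r : G) 2]; group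
        _ = (r : G) * (a₀ * k * k) * (r : G)⁻¹ := by rw [e2]
        _ = ((r : G) * a₀ * (r : G)⁻¹) * ((r : G) * k * (r : G)⁻¹) *
              ((r : G) * k * (r : G)⁻¹) := by group
        _ = a₀ * k * k * k := by rw [e1, hrk]
    rw [hr3, one_mul, inv_one, mul_one, mul_assoc ((a₀ : G) * k), P.sq k (hT3U hk), mul_one] at e3
    have hk1 : k = 1 := mul_eq_left.1 e3.symm
    rw [hk1, mul_one] at e1
    -- then `r` centralises `U` modulo `t`
    let Fr : Subgroup G := U ⊓ Subgroup.centralizer ({(r : G)} : Set G)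
    have hT3F : T3 ≤ Fr := fun x hx => ⟨hT3U hx, mem_cs.2 (fixT3 r r.2 x hx).symm⟩
    have ha₀F : (a₀ : G) ∈ Fr := ⟨a₀.2, mem_cs.2 (mul_inv_eq_iff_eq_mul.1 e1).symm⟩
    by_cases hU : U ≤ Fr
    · have hrQ : (r : G) ∈ Q := P.mem_of_fix hrt fun a ha => Or.inl (by
        rw [← mem_cs.1 (hU ha).2, mul_inv_cancel_right])
      have := Subgroup.orderOf_dvd_natCard _ hrQ
      rw [Subgroup.orderOf_coe, hr, P.card_Q] at this
      norm_num at this
    obtain ⟨b, hb, hbF⟩ := SetLike.not_le_iff_exists.1 hU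
    have hF8 : Nat.card Fr = 8 := by
      have hd : Nat.card Fr ∣ 16 :=
        (Subgroup.card_dvd_of_le inf_le_left).trans (dvd_of_eq P.card_U)
      have h4 : 4 < Nat.card Fr := by
        rw [← hT3c]
        exact lt_of_le_of_ne (Subgroup.card_le_of_le hT3F) fun e =>
          ha₀ ((Subgroup.eq_of_le_of_card_ge hT3F e.ge).symm ▸ ha₀F)
      have h16 : Nat.card Fr ≠ 16 := fun e =>
        hU (Subgroup.eq_of_le_of_card_ge (inf_le_left : Fr ≤ U) (by rw [e, P.card_U])).ge
      rcases dvd_sixteen hd with e | e | e | e | e <;> omega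
    -- `r` fixes the coset of `b`
    have hFb : b⁻¹ * ((r : G) * b * (r : G)⁻¹) ∈ Fr := by
      have hF2 : (Fr.subgroupOf U).index = 2 := by
        have h := (Fr.subgroupOf U).card_mul_index
        rw [Nat.card_congr (Subgroup.subgroupOfEquivOfLe (inf_le_left : Fr ≤ U)).toEquiv, hF8,
          P.card_U] at h
        omega
      have hb' : (r : G) * b * (r : G)⁻¹ ∉ Fr := by
        intro h
        have hh := mem_cs.1 h.2
        apply hbF
        refine ⟨hb, mem_cs.2 ?_⟩
        calc b * (r : G) = (r : G)⁻¹ * ((r : G) * b * (r : G)⁻¹ * (r : G)) * (r : G) := by group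
          _ = (r : G)⁻¹ * ((r : G) * ((r : G) * b * (r : G)⁻¹)) * (r : G) := by rw [hh]
          _ = (r : G) * b := by group
      have key := (Subgroup.mul_mem_iff_of_index_two hF2
        (a := (⟨b, hb⟩ : ↥U)⁻¹) (b := ⟨(r : G) * b * (r : G)⁻¹, P.normal _ hrt _ hb⟩)).2
        (iff_of_false (fun h => hbF ((inv_mem_iff (H := Fr.subgroupOf U)).1 h)) hb')
      exact key
    set m := b⁻¹ * ((r : G) * b * (r : G)⁻¹) with hm
    have hrm : (r : G) * m * (r : G)⁻¹ = m := by
      rw [← mem_cs.1 hFb.2, mul_inv_cancel_right]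
    have f1 : (r : G) * b * (r : G)⁻¹ = b * m := by rw [hm]; group
    have f3 : (r : G) ^ 3 * b * ((r : G) ^ 3)⁻¹ = b * m * m * m := by
      calc (r : G) ^ 3 * b * ((r : G) ^ 3)⁻¹
          = (r : G) * ((r : G) * ((r : G) * b * (r : G)⁻¹) * (r : G)⁻¹) * (r : G)⁻¹ := by
            rw [pow_succ, pow_two]; group
        _ = (r : G) * ((r : G) * (b * m) * (r : G)⁻¹) * (r : G)⁻¹ := by rw [f1]
        _ = (r : G) * (((r : G) * b * (r : G)⁻¹) * ((r : G) * m * (r : G)⁻¹)) * (r : G)⁻¹ := by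
            group
        _ = (r : G) * ((b * m) * m) * (r : G)⁻¹ := by rw [f1, hrm]
        _ = ((r : G) * b * (r : G)⁻¹) * ((r : G) * m * (r : G)⁻¹) *
              ((r : G) * m * (r : G)⁻¹) := by group
        _ = b * m * m * m := by rw [f1, hrm]
    rw [hr3, one_mul, inv_one, mul_one, mul_assoc (b * m), P.sq m hFb.1, mul_one] at f3
    have hm1 : m = 1 := mul_eq_left.1 f3.symm
    rw [hm1, mul_one] at f1
    exact hbF ⟨hb, mem_cs.2 (mul_inv_eq_iff_eq_mul.1 f1).symm⟩
  -- the bound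
  let c2 : G → ↥X → Bool := fun a x =>
    decide ((a⁻¹ * ((x : G) * a * (x : G)⁻¹)) ∈ Subgroup.zpowers t)
  have hfa₁ : ∀ x ∈ X, a₁⁻¹ * (x * a₁ * x⁻¹) ∈ T3 := hmove _ hfa₀ r r.2
  have samemod : ∀ a ∈ U, (∀ x ∈ X, a⁻¹ * (x * a * x⁻¹) ∈ T3) → ∀ x y : ↥X, c2 a x = c2 a y →
      ((y : G)⁻¹ * x) * a * ((y : G)⁻¹ * x)⁻¹ = a ∨
        ((y : G)⁻¹ * x) * a * ((y : G)⁻¹ * x)⁻¹ = a * t := by
    intro a ha hmod x y hxy
    set k := a⁻¹ * ((x : G) * a * (x : G)⁻¹) with hk
    set l := a⁻¹ * ((y : G) * a * (y : G)⁻¹) with hl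
    have hkT := hmod _ x.2
    have hlT := hmod _ y.2
    have hkl : l⁻¹ * k ∈ Subgroup.zpowers t := by
      have hiff : k ∈ Subgroup.zpowers t ↔ l ∈ Subgroup.zpowers t := by
        simpa [c2, hk, hl] using hxy
      by_cases h : k ∈ Subgroup.zpowers t
      · exact mul_mem (inv_mem (hiff.1 h)) h
      · have hk' : s * k ∈ Subgroup.zpowers t := (hkT : k ∈ T3).resolve_left h
        have hl' : s * l ∈ Subgroup.zpowers t :=
          (hlT : l ∈ T3).resolve_left fun h' => h (hiff.2 h')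
        have e : l⁻¹ * k = (s * l)⁻¹ * (s * k) := by group
        rw [e]
        exact mul_mem (inv_mem hl') hk'
    have hyl : (y : G)⁻¹ * (l⁻¹ * k) * (y : G) = l⁻¹ * k := by
      rcases (mem_zp ht2).1 hkl with e | e <;> rw [e]
      · group
      · have : Commute (y : G)⁻¹ t := (show Commute (y : G) t from mem_cs.1 (hXle y.2).1).inv_left
        rw [this.eq, inv_mul_cancel_right]
    have e : ((y : G)⁻¹ * x) * a * ((y : G)⁻¹ * x)⁻¹ = a * (l⁻¹ * k) := by
      calc ((y : G)⁻¹ * x) * a * ((y : G)⁻¹ * x)⁻¹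
          = (y : G)⁻¹ * (((y : G) * a * (y : G)⁻¹) * (l⁻¹ * k)) * (y : G) := by
            rw [hk, hl]; group
        _ = a * ((y : G)⁻¹ * (l⁻¹ * k) * (y : G)) := by group
        _ = a * (l⁻¹ * k) := by rw [hyl]
    rw [e]
    rcases (mem_zp ht2).1 hkl with e' | e' <;> rw [e']
    · exact Or.inl (mul_one a)
    · exact Or.inr rfl
  let f : ↥X ⧸ (X ⊓ Q).subgroupOf X → Bool × Bool := fun c =>
    (c2 a₀ (Quotient.out c), c2 a₁ (Quotient.out c))
  have hf : Function.Injective f := by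
    intro c d e
    have e0 := congrArg Prod.fst e
    have e1 := congrArg Prod.snd e
    set x := Quotient.out c
    set y := Quotient.out d
    set z := (y : G)⁻¹ * x with hz
    have hzD : z ∈ Subgroup.centralizer ({t} : Set G) ⊓ Subgroup.centralizer ({s} : Set G) :=
      mul_mem (inv_mem (hXle y.2)) (hXle x.2)
    have hzt : Commute z t := mem_cs.1 hzD.1
    let Fz : Subgroup G :=
      { carrier := {a | a ∈ U ∧ (z * a * z⁻¹ * a⁻¹) ∈ Subgroup.zpowers t}
        one_mem' := ⟨one_mem _, by simp⟩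
        mul_mem' := fun {a b} ha hb => ⟨mul_mem ha.1 hb.1, by
          have hau : a * (z * b * z⁻¹ * b⁻¹) * a⁻¹ = z * b * z⁻¹ * b⁻¹ := by
            rw [P.comm a ha.1 _ (mul_mem (P.normal z hzt b hb.1) (inv_mem hb.1)),
              mul_inv_cancel_right]
          rw [show z * (a * b) * z⁻¹ * (a * b)⁻¹ =
            (z * a * z⁻¹ * a⁻¹) * (a * (z * b * z⁻¹ * b⁻¹) * a⁻¹) by group, hau]
          exact mul_mem ha.2 hb.2⟩
        inv_mem' := fun {a} ha => by
          refine ⟨inv_mem ha.1, ?_⟩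
          rw [inv_eq_of_mul_eq_one_right (P.sq a ha.1)]
          exact ha.2 }
    have inFz : ∀ a ∈ U, z * a * z⁻¹ = a ∨ z * a * z⁻¹ = a * t → a ∈ Fz := by
      intro a ha h
      refine ⟨ha, ?_⟩
      rcases h with h | h <;> rw [h]
      · rw [mul_inv_cancel]; exact one_mem _
      · rw [P.comm a ha t P.t_mem.1, mul_inv_cancel_right]; exact Subgroup.mem_zpowers t
    have ha0F : (a₀ : G) ∈ Fz := inFz _ a₀.2 (samemod _ a₀.2 hfa₀ x y e0)
    have ha1F : a₁ ∈ Fz := inFz _ ha₁U (samemod _ ha₁U hfa₁ x y e1)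
    have hT3F : T3 ≤ Fz := fun k hk => inFz k (hT3U hk) (Or.inl (by
      rw [fixT3 z hzD k hk, mul_inv_cancel_right]))
    have hall : U ≤ Fz := by
      have hle : Fz ≤ U := fun a ha => ha.1
      have hd : Nat.card Fz ∣ 16 := (Subgroup.card_dvd_of_le hle).trans (dvd_of_eq P.card_U)
      have h8 : 8 < Nat.card Fz := by
        by_contra hcon
        have hd4 : 4 ∣ Nat.card Fz := hT3c ▸ Subgroup.card_dvd_of_le hT3F
        have hne : Nat.card Fz ≠ 4 := fun e4 =>
          ha₀ ((Subgroup.eq_of_le_of_card_ge hT3F (by rw [e4, hT3c])).symm ▸ ha0F)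
        have hF8 : (T3.subgroupOf Fz).index = 2 := by
          have h := (T3.subgroupOf Fz).card_mul_index
          rw [Nat.card_congr (Subgroup.subgroupOfEquivOfLe hT3F).toEquiv, hT3c] at h
          rcases dvd_sixteen hd with e' | e' | e' | e' | e' <;> omega
        have ha₁T : a₁ ∉ T3 := by
          intro h
          apply ha₀
          have e' : (a₀ : G) = (r : G)⁻¹ * a₁ * (r : G) := by rw [ha₁]; group
          rw [e', fixT3 _ (inv_mem r.2) a₁ h, inv_mul_cancel_right]
          exact h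
        have key := (Subgroup.mul_mem_iff_of_index_two hF8
          (a := (⟨(a₀ : G), ha0F⟩ : ↥Fz)⁻¹) (b := ⟨a₁, ha1F⟩)).2
          (iff_of_false (fun h => ha₀ ((inv_mem_iff (H := T3.subgroupOf Fz)).1 h)) ha₁T)
        exact hout key
      refine (Subgroup.eq_of_le_of_card_ge hle ?_).ge
      rw [P.card_U]
      rcases dvd_sixteen hd with e' | e' | e' | e' | e' <;> omega
    have hzQ : z ∈ Q := P.mem_of_fix hzt fun a ha => by
      rcases (mem_zp ht2).1 (hall ha).2 with h | h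
      · exact Or.inl (mul_inv_eq_one.1 h)
      · right
        rw [mul_inv_eq_iff_eq_mul.1 h]
        exact P.comm t P.t_mem.1 a ha
    rw [← Quotient.out_eq c, ← Quotient.out_eq d]
    refine (Quotient.sound ?_).symm
    refine QuotientGroup.leftRel_apply.2 (Subgroup.mem_subgroupOf.2 ?_)
    exact Subgroup.mem_inf.2 ⟨X.mul_mem (X.inv_mem y.2) x.2, hzQ⟩
  have h4 := Nat.card_le_card_of_injective f hf
  rw [Nat.card_prod, Nat.card_eq_fintype_card (α := Bool), Fintype.card_bool] at h4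
  have hidx := Subgroup.card_eq_card_quotient_mul_card_subgroup ((X ⊓ Q).subgroupOf X)
  rw [Nat.card_congr (Subgroup.subgroupOfEquivOfLe (inf_le_left : X ⊓ Q ≤ X)).toEquiv] at hidx
  rw [hidx]
  exact Nat.mul_le_mul_right _ h4

end

end ClosedAux

open ClosedAux

set_option maxHeartbeats 800000 in
/-- The side `U` is closed: some element carrying `t` to a point of `U` normalises `U`. -/
theorem Frame.closed {G : Type u} [Group G] [Finite G] (h : Setup G) {t v : G}
    {Q U U' : Subgroup G} (F : Frame t Q U U') (hv : v ∈ U) (hv1 : v ≠ 1) (hvt : v ≠ t) :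
    ∃ g : G, g * t * g⁻¹ = v ∧ U.map (MulAut.conj g).toMonoidHom = U := by
  classical
  haveI : Fact (Nat.Prime 2) := ⟨Nat.prime_two⟩
  have P := of_frame F
  have hmixA : ∀ a ∈ U, ∀ b ∈ U', a ∉ Subgroup.zpowers t → b ∉ Subgroup.zpowers t →
      a * b = b * a → ¬ IsA (a * b) := fun a ha b hb h1 h2 h3 => (F.mixed a ha b hb h1 h2 h3).2
  obtain ⟨g, hg⟩ := isConj_iff.1 (h.isA_conj t v F.isA (F.pure v hv hv1))
  refine ⟨g, hg, ?_⟩
  have ht2 := P.two
  have hv2 : v * v = 1 := P.sq v hv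
  have htv : t * v = v * t := P.comm t P.t_mem.1 v hv
  obtain ⟨s, hsdef⟩ : ∃ s, s = g⁻¹ * t * g := ⟨_, rfl⟩
  have hgs : g * s * g⁻¹ = t := by rw [hsdef]; group
  have hgv : g⁻¹ * v * g = t := by rw [← hg]; group
  have hsA : IsA s := by
    have := isA_conjugate g⁻¹ F.isA
    rwa [inv_inv, ← hsdef] at this
  have hst : Commute s t := by
    calc s * t = g⁻¹ * t * g * (g⁻¹ * v * g) := by rw [hgv, hsdef]
      _ = g⁻¹ * (t * v) * g := by group
      _ = g⁻¹ * (v * t) * g := by rw [htv]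
      _ = g⁻¹ * v * g * (g⁻¹ * t * g) := by group
      _ = t * s := by rw [hgv, hsdef]
  have hs1 : s ≠ 1 := fun e => P.ne_one (by rw [← hgs, e]; group)
  have hsnt : s ≠ t := fun e => hvt (by
    have : g * t * g⁻¹ = t := by
      nth_rewrite 1 [← e]
      exact hgs
    rw [← hg, this])
  have hcard : Nat.card ↥(Subgroup.centralizer ({t} : Set G) ⊓
      Subgroup.centralizer ({s} : Set G)) = 1536 := by
    rw [← card_cent_conj g t s, hg, hgs, inf_comm]
    exact P.cent_U h hv hv1 hvt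
  have hsQ : s ∈ Q := P.mem_of_big h (sq_one_of_orderOf hsA.1) hst hcard.ge
  -- `s` lies in the side `U`
  have hsU : s ∈ U := by
    rcases P.isA_mem hmixA hsA hsQ with hs | hs
    · exact hs
    exfalso
    have hst1 : s * t ≠ 1 := fun e => hsnt (mul_right_cancel (e.trans ht2.symm))
    have hstt : s * t ≠ t := fun e => hs1 (mul_eq_right.1 e)
    obtain ⟨d, hdt, hd⟩ :=
      P.trans' s hs (s * t) (mul_mem hs P.t_mem.2) hs1 hsnt hst1 hstt
    obtain ⟨c, hct, hc⟩ := P.trans v hv (v * t) (mul_mem hv P.t_mem.1) hv1 hvt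
      (fun e => hvt (mul_right_cancel (e.trans ht2.symm))) (fun e => hv1 (mul_eq_right.1 e))
    have hdt' : d * t * d⁻¹ = t := by rw [hdt.eq, mul_inv_cancel_right]
    have hct' : c * t * c⁻¹ = t := by rw [hct.eq, mul_inv_cancel_right]
    set k := g * (d * g⁻¹) with hk
    set e := (c * g)⁻¹ * k with he
    have hkt : k * t * k⁻¹ = v * t := by
      calc k * t * k⁻¹ = g * (d * (g⁻¹ * t * g) * d⁻¹) * g⁻¹ := by rw [hk]; group
        _ = g * (s * t) * g⁻¹ := by rw [← hsdef, hd]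
        _ = (g * s * g⁻¹) * (g * t * g⁻¹) := by group
        _ = v * t := by rw [hgs, hg, htv]
    have hkv : k * v * k⁻¹ = v := by
      calc k * v * k⁻¹ = g * (d * (g⁻¹ * v * g) * d⁻¹) * g⁻¹ := by rw [hk]; group
        _ = v := by rw [hgv, hdt', hg]
    have het : e * t * e⁻¹ = t := by
      calc e * t * e⁻¹ = g⁻¹ * (c⁻¹ * (k * t * k⁻¹) * c) * g := by rw [he]; group
        _ = g⁻¹ * (c⁻¹ * (c * v * c⁻¹) * c) * g := by rw [hkt, hc]
        _ = g⁻¹ * v * g := by group
        _ = t := hgv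
    have hev : e * v * e⁻¹ = s * t := by
      calc e * v * e⁻¹ = g⁻¹ * (c⁻¹ * (k * v * k⁻¹) * c) * g := by rw [he]; group
        _ = g⁻¹ * (c⁻¹ * ((v * t) * t) * c) * g := by rw [hkv, mul_assoc v, ht2, mul_one]
        _ = g⁻¹ * (c⁻¹ * ((c * v * c⁻¹) * (c * t * c⁻¹)) * c) * g := by rw [hc, hct']
        _ = (g⁻¹ * v * g) * (g⁻¹ * t * g) := by group
        _ = s * t := by rw [hgv, ← hsdef, hst.eq]
    have hm : s * t ∈ U := hev ▸ P.normal e (mul_inv_eq_iff_eq_mul.1 het) v hv
    rcases P.both hm (mul_mem hs P.t_mem.2) with e' | e'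
    · exact hst1 e'
    · exact hstt e'
  -- the meet of the two cores
  set X := (Q ⊓ Subgroup.centralizer ({v} : Set G)).map (MulAut.conj g⁻¹).toMonoidHom with hX
  have memX : ∀ x, x ∈ X ↔ g * x * g⁻¹ ∈ Q ∧ Commute (g * x * g⁻¹) v := by
    intro x
    rw [hX, conjMem, inv_inv, Subgroup.mem_inf, mem_cs]
    rfl
  have hXle : X ≤ Subgroup.centralizer ({t} : Set G) ⊓ Subgroup.centralizer ({s} : Set G) := by
    intro x hx
    obtain ⟨hxQ, hxv⟩ := (memX x).1 hx
    have hxt := P.commute hxQ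
    refine ⟨mem_cs.2 ?_, mem_cs.2 ?_⟩
    · calc x * t = g⁻¹ * (g * x * g⁻¹ * v) * g := by rw [← hgv]; group
        _ = g⁻¹ * (v * (g * x * g⁻¹)) * g := by rw [hxv.eq]
        _ = t * x := by rw [← hgv]; group
    · calc x * s = g⁻¹ * (g * x * g⁻¹ * t) * g := by rw [hsdef]; group
        _ = g⁻¹ * (t * (g * x * g⁻¹)) * g := by rw [hxt.eq]
        _ = s * x := by rw [hsdef]; group
  have hXn : ∀ d ∈ Subgroup.centralizer ({t} : Set G) ⊓ Subgroup.centralizer ({s} : Set G),
      ∀ x ∈ X, d * x * d⁻¹ ∈ X := by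
    intro d hd x hx
    obtain ⟨hxQ, hxv⟩ := (memX x).1 hx
    have h1 : g * d * g⁻¹ ∈ Subgroup.centralizer ({g * t * g⁻¹} : Set G) ⊓
        Subgroup.centralizer ({g * s * g⁻¹} : Set G) := cent_conj g t s ▸ ⟨d, hd, rfl⟩
    rw [hg, hgs] at h1
    have hdv : Commute (g * d * g⁻¹) v := mem_cs.1 h1.1
    have hdt : Commute (g * d * g⁻¹) t := mem_cs.1 h1.2
    rw [memX, show g * (d * x * d⁻¹) * g⁻¹ =
      (g * d * g⁻¹) * (g * x * g⁻¹) * (g * d * g⁻¹)⁻¹ by group]
    refine ⟨?_, (hdv.mul_left hxv).mul_left hdv.inv_left⟩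
    obtain ⟨a, ha, b, hb, e⟩ := P.gen _ hxQ
    rw [e, show (g * d * g⁻¹) * (a * b) * (g * d * g⁻¹)⁻¹ =
      ((g * d * g⁻¹) * a * (g * d * g⁻¹)⁻¹) * ((g * d * g⁻¹) * b * (g * d * g⁻¹)⁻¹) by group]
    exact mul_mem (P.U_le (P.normal _ hdt a ha)) (P.V_le (P.normal' _ hdt b hb))
  have hXc : Nat.card X = 64 := by rw [hX, card_conj]; exact P.cent_Q_U hv hv1 hvt
  have hX2 : IsPGroup 2 ↥X := IsPGroup.of_card (n := 6) (by rw [hXc]; norm_num)
  set J := X ⊓ Q with hJ
  have hJ16 : 16 ≤ Nat.card J := by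
    have := P.normal_two_bound h hsU hs1 hsnt hX2 hXle hXn
    rw [hXc, ← hJ] at this
    omega
  set I := J.map (MulAut.conj g).toMonoidHom with hI
  have hIc : Nat.card I = Nat.card J := card_conj _ _
  have memI : ∀ z, z ∈ I ↔ z ∈ Q ∧ Commute z v ∧ g⁻¹ * z * g ∈ Q := by
    intro z
    rw [hI, conjMem, hJ, Subgroup.mem_inf, memX,
      show g * (g⁻¹ * z * g) * g⁻¹ = z by group]
    tauto
  have hI2 : ∀ z ∈ I, z * z = 1 := by
    intro z hz
    obtain ⟨h1, -, h3⟩ := (memI z).1 hz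
    rcases P.sqQ h1 with e | e
    · exact e
    exfalso
    rcases P.sqQ h3 with e' | e' <;>
      rw [show g⁻¹ * z * g * (g⁻¹ * z * g) = g⁻¹ * (z * z) * g by group, e, ← hsdef] at e'
    · exact hs1 e'
    · exact hsnt e'
  have hJ2 : ∀ y ∈ J, y * y = 1 := by
    intro y hy
    have h1 := hI2 (g * y * g⁻¹) ⟨y, hy, rfl⟩
    calc y * y = g⁻¹ * (g * y * g⁻¹ * (g * y * g⁻¹)) * g := by group
      _ = 1 := by rw [h1]; group
  -- two possibilities for a meet at a point `u` of `U`
  have dich : ∀ u ∈ U, u ≠ 1 → u ≠ t → ∀ K : Subgroup G, K ≤ Q → 16 ≤ Nat.card K →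
      (∀ z ∈ K, z * z = 1 ∧ Commute z u) →
      (∀ z ∈ K, orderOf z = 2 → ¬ IsA z → 512 ≤
        Nat.card ↥(Subgroup.centralizer ({u} : Set G) ⊓ Subgroup.centralizer ({z} : Set G))) →
      K = U ∨ ((∀ z ∈ K, z ∈ U' ∨ u * z ∈ U') ∧ ∀ b ∈ U', Commute b u → b ∈ K) := by
    intro u hu hu1 hut K hKQ hK16 hKz hK512
    let W : Subgroup G :=
      { carrier := {z | (z ∈ U' ⊓ Subgroup.centralizer ({u} : Set G)) ∨
          (u * z ∈ U' ⊓ Subgroup.centralizer ({u} : Set G))}
        one_mem' := Or.inl (one_mem _)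
        mul_mem' := fun {x y} hx hy => by
          have hc : ∀ w, w ∈ U' ⊓ Subgroup.centralizer ({u} : Set G) → u * w = w * u :=
            fun w hw => (mem_cs.1 hw.2).symm
          rcases hx with hx | hx <;> rcases hy with hy | hy
          · exact Or.inl (mul_mem hx hy)
          · refine Or.inr ?_
            rw [← mul_assoc, hc x hx, mul_assoc]
            exact mul_mem hx hy
          · refine Or.inr ?_
            rw [← mul_assoc]
            exact mul_mem hx hy
          · refine Or.inl ?_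
            have hu2 : u * u = 1 := P.sq u hu
            have e : x * y = (u * x) * (u * y) := by
              calc x * y = (u * u) * x * y := by rw [hu2, one_mul]
                _ = u * (u * x) * y := by group
                _ = (u * x) * u * y := by rw [hc _ hx]
                _ = (u * x) * (u * y) := by group
            rw [e]
            exact mul_mem hx hy
        inv_mem' := fun {x} hx => by
          rcases hx with hx | hx
          · exact Or.inl (inv_mem hx)
          · refine Or.inr ?_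
            have e : u * x⁻¹ = (u * x)⁻¹ := by
              have hu2 : u⁻¹ = u := inv_eq_of_mul_eq_one_right (P.sq u hu)
              have hc : (u * x) * u = u * (u * x) := mem_cs.1 hx.2
              have hxu : x * u = u * x := mul_left_cancel (by rw [← mul_assoc]; exact hc)
              rw [mul_inv_rev, hu2]
              calc u * x⁻¹ = x⁻¹ * (x * u) * x⁻¹ := by group
                _ = x⁻¹ * (u * x) * x⁻¹ := by rw [hxu]
                _ = x⁻¹ * u := by group
            rw [e]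
            exact inv_mem hx }
    have hKor : ∀ z ∈ K, z ∈ U ∨ z ∈ W := by
      intro z hz
      obtain ⟨a, ha, b, hb, rfl⟩ := P.gen z (hKQ hz)
      obtain ⟨hz2, hzu⟩ := hKz _ hz
      have hau : Commute a u := P.comm a ha u hu
      have hbu : Commute b u := by
        have := hau.inv_left.mul_left hzu
        rwa [← mul_assoc, inv_mul_cancel, one_mul] at this
      by_cases h2 : b ∈ Subgroup.zpowers t
      · refine Or.inl (mul_mem ha ?_)
        rcases (mem_zp ht2).1 h2 with rfl | rfl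
        · exact one_mem _
        · exact P.t_mem.1
      refine Or.inr ?_
      by_cases h1 : a ∈ Subgroup.zpowers t
      · refine Or.inl ⟨mul_mem ?_ hb, mem_cs.2 hzu.eq⟩
        rcases (mem_zp ht2).1 h1 with rfl | rfl
        · exact one_mem _
        · exact P.t_mem.2
      by_cases h3 : u * a⁻¹ ∈ Subgroup.zpowers t
      · refine Or.inr ⟨?_, mem_cs.2 ((Commute.refl u).mul_left hzu).eq⟩
        rw [← mul_assoc]
        refine mul_mem ?_ hb
        rw [inv_eq_of_mul_eq_one_right (P.sq a ha)] at h3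
        rcases (mem_zp ht2).1 h3 with e | e <;> rw [e]
        · exact one_mem _
        · exact P.t_mem.2
      exfalso
      have hab : a * b = b * a := by
        calc a * b = (a * b)⁻¹ := (inv_eq_of_mul_eq_one_right hz2).symm
          _ = b * a := by
            rw [mul_inv_rev, inv_eq_of_mul_eq_one_right (P.sq a ha),
              inv_eq_of_mul_eq_one_right (P.sq' b hb)]
      obtain ⟨ho, hA⟩ := F.mixed a ha b hb h1 h2 hab
      have hu0 : u ∉ Subgroup.zpowers t := fun e => ((mem_zp ht2).1 e).elim hu1 hut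
      have hs512 := F.side a ha b hb u hu h1 h2 hab hbu.symm.eq hu0 h3
      exact absurd (hK512 _ hz ho hA) (not_le.2 hs512)
    rcases le_or_le hKor with hle | hle
    · exact Or.inl (Subgroup.eq_of_le_of_card_ge hle (by rw [P.card_U]; exact hK16))
    refine Or.inr ⟨fun z hz => ?_, ?_⟩
    · rcases hle hz with h1 | h1
      · exact Or.inl h1.1
      · exact Or.inr h1.1
    have hW : Nat.card W ≤ 16 := by
      have hu2 : u * u = 1 := P.sq u hu
      obtain ⟨b₀, hb₀, hne⟩ := P.pairing u hu hu1 hut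
      set B' := U' ⊓ Subgroup.centralizer ({u} : Set G) with hB'
      have hB8 : Nat.card B' ≤ 8 := by
        have hd : Nat.card B' ∣ 16 :=
          (Subgroup.card_dvd_of_le inf_le_left).trans (dvd_of_eq P.card_V)
        have hne16 : Nat.card B' ≠ 16 := fun e => by
          have he : B' = U' :=
            Subgroup.eq_of_le_of_card_ge inf_le_left (by rw [e, P.card_V])
          have hb' : b₀ ∈ B' := he.symm ▸ hb₀
          exact hne (mem_cs.1 hb'.2).symm
        rcases dvd_sixteen hd with e | e | e | e | e <;> omega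
      let ι : ↥W → Bool × ↥B' := fun w =>
        if hw : (w : G) ∈ B' then (false, ⟨w, hw⟩)
        else (true, ⟨u * w, (show (w : G) ∈ B' ∨ u * (w : G) ∈ B' from w.2).resolve_left hw⟩)
      have hι : Function.Injective ι := by
        intro p q e
        simp only [ι] at e
        split_ifs at e with h1 h2 h2
        · exact Subtype.ext (congrArg (fun z : Bool × ↥B' => (z.2 : G)) e)
        · simp at e
        · simp at e
        · exact Subtype.ext (mul_left_cancel (congrArg (fun z : Bool × ↥B' => (z.2 : G)) e))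
      have h2 := Nat.card_le_card_of_injective ι hι
      rw [Nat.card_prod, Nat.card_eq_fintype_card (α := Bool), Fintype.card_bool] at h2
      omega
    have hKW : K = W := Subgroup.eq_of_le_of_card_ge hle (hW.trans hK16)
    intro b hb hbu
    rw [hKW]
    exact Or.inl ⟨hb, mem_cs.2 hbu.eq⟩
  -- a side carried into the two-core is carried into one side
  have isAmap : ∀ w : G, ∀ x ∈ U, w * x * w⁻¹ ∈ Q → w * x * w⁻¹ ∈ U ∨ w * x * w⁻¹ ∈ U' := by
    intro w x hx hxQ
    by_cases hx1 : x = 1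
    · left; rw [hx1, mul_one, mul_inv_cancel]; exact one_mem _
    exact P.isA_mem hmixA (isA_conjugate w (F.pure x hx hx1)) hxQ
  have endgame : ∀ w : G, (∀ x ∈ U, w * x * w⁻¹ ∈ Q) → (∃ x ∈ U, w * x * w⁻¹ ∉ U') →
      U.map (MulAut.conj w).toMonoidHom = U := by
    intro w hw hx
    have hor : ∀ y ∈ U.map (MulAut.conj w).toMonoidHom, y ∈ U ∨ y ∈ U' := by
      rintro _ ⟨x, hx, rfl⟩
      exact isAmap w x hx (hw x hx)
    rcases le_or_le hor with hle | hle
    · exact Subgroup.eq_of_le_of_card_ge hle (by rw [card_conj])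
    · obtain ⟨x, hx, hxn⟩ := hx
      exact absurd (hle ⟨x, hx, rfl⟩) hxn
  have notU' : ∀ x ∈ U, x ≠ 1 → x ≠ t → x ∉ U' := fun x hx h1 h2 h' =>
    (P.both hx h').elim h1 h2
  have dI := dich v hv hv1 hvt I (fun z hz => ((memI z).1 hz).1) (hIc ▸ hJ16)
    (fun z hz => ⟨hI2 z hz, ((memI z).1 hz).2.1⟩) (fun z hz hz2 hzA => by
      have hz' := ((memI z).1 hz).2.2
      have ho : orderOf (g⁻¹ * z * g) = 2 := by
        have := MulEquiv.orderOf_eq (MulAut.conj g⁻¹) z
        rw [hz2] at this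
        simpa using this
      have hA : ¬ IsA (g⁻¹ * z * g) := fun hA => hzA (by
        have := isA_conjugate g hA
        rwa [show g * (g⁻¹ * z * g) * g⁻¹ = z by group] at this)
      have hbig := P.mixed_big h hz' ho hA
      rw [← card_cent_conj g t (g⁻¹ * z * g), hg,
        show g * (g⁻¹ * z * g) * g⁻¹ = z by group] at hbig
      exact hbig)
  have dJ := dich s hsU hs1 hsnt J inf_le_right hJ16
    (fun z hz => ⟨hJ2 z hz, mem_cs.1 (hXle hz.1).2⟩) (fun z hz hz2 hzA => by
      have hz' := ((memX z).1 hz.1).1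
      have ho : orderOf (g * z * g⁻¹) = 2 := (MulEquiv.orderOf_eq (MulAut.conj g) z).trans hz2
      have hA : ¬ IsA (g * z * g⁻¹) := fun hA => hzA (by
        have := isA_conjugate g⁻¹ hA
        rwa [show g⁻¹ * (g * z * g⁻¹) * g⁻¹⁻¹ = z by group] at this)
      have hbig := P.mixed_big h hz' ho hA
      rw [← card_cent_conj g s z, hgs]
      exact hbig)
  rcases dI with hIU | ⟨-, hIV⟩
  · have e1 : U.map (MulAut.conj g⁻¹).toMonoidHom = U := by
      refine endgame g⁻¹ (fun x hx => ?_) ⟨t, P.t_mem.1, ?_⟩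
      · have := ((memI x).1 (hIU.symm ▸ hx)).2.2
        rwa [inv_inv]
      · rw [inv_inv, ← hsdef]
        exact notU' s hsU hs1 hsnt
    nth_rewrite 1 [← e1]
    rw [Subgroup.map_map]
    convert Subgroup.map_id U using 2
    ext x
    show g * (g⁻¹ * x * g⁻¹⁻¹) * g⁻¹ = x
    group
  rcases dJ with hJU | ⟨hJV, -⟩
  · refine endgame g (fun x hx => ((memX x).1 (hJU.symm ▸ hx : x ∈ J).1).1) ⟨t, P.t_mem.1, ?_⟩
    rw [hg]
    exact notU' v hv hv1 hvt
  exfalso
  obtain ⟨b₀, hb₀, hne⟩ := P.pairing v hv hv1 hvt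
  -- a commuting element of the other side
  obtain ⟨b, hb, hbt, hb1, hbv⟩ : ∃ b ∈ U', b ≠ t ∧ b ≠ 1 ∧ Commute b v := by
    by_contra hcon
    push Not at hcon
    have hle : Nat.card ↥(U' ⊓ Subgroup.centralizer ({v} : Set G)) ≤ 2 := by
      have : U' ⊓ Subgroup.centralizer ({v} : Set G) ≤ Subgroup.zpowers t := by
        rintro x ⟨hx, hxc⟩
        by_contra hxz
        rw [mem_zp ht2, not_or] at hxz
        exact hcon x hx hxz.2 hxz.1 (mem_cs.1 hxc)
      have h2 := Subgroup.card_le_of_le this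
      rwa [Nat.card_zpowers, F.isA.1] at h2
    have horb := orbit_card U' v
    rw [P.card_V] at horb
    have h2 : Nat.card {w : G // ∃ a ∈ U', a * v * a⁻¹ = w} ≤ 2 := by
      have hs : {w : G | ∃ a ∈ U', a * v * a⁻¹ = w} ⊆ {v, v * t} := by
        rintro _ ⟨a, ha, rfl⟩
        exact P.cross hv ha
      have h3 := Set.ncard_le_ncard hs (Set.toFinite _)
      have h4 : ({v, v * t} : Set G).ncard ≤ 2 :=
        (Set.ncard_insert_le _ _).trans (by rw [Set.ncard_singleton])
      exact le_of_eq_of_le (Nat.card_coe_set_eq _) (h3.trans h4)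
    have := Nat.mul_le_mul hle h2
    omega
  have hbtt : b * t ≠ 1 := fun e => hbt (mul_right_cancel (e.trans ht2.symm))
  have hbttt : b * t ≠ t := fun e => hb1 (mul_eq_right.1 e)
  have pull : ∀ c ∈ U', c ≠ 1 → c ≠ t → Commute c v → g⁻¹ * c * g ∈ U' := by
    intro c hc hc1 hct hcv
    have hcI : c ∈ I := hIV c hc hcv
    have hcA := F.pure' c hc hc1
    have hyJ : g⁻¹ * c * g ∈ J := by
      obtain ⟨y, hy, e⟩ := hcI
      rw [← e]
      show g⁻¹ * (g * y * g⁻¹) * g ∈ J
      rwa [show g⁻¹ * (g * y * g⁻¹) * g = y by group]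
    rcases hJV _ hyJ with hy | hy
    · exact hy
    by_cases hz : s * (g⁻¹ * c * g) ∈ Subgroup.zpowers t
    · exfalso
      have e : c = t * (g * (s * (g⁻¹ * c * g)) * g⁻¹) := by
        rw [hsdef]
        calc c = (t * t) * c := by rw [ht2, one_mul]
          _ = _ := by group
      rcases (mem_zp ht2).1 hz with e' | e' <;> rw [e'] at e
      · rw [mul_one, mul_inv_cancel, mul_one] at e
        exact hct e
      · rw [hg] at e
        refine notU' c (e ▸ mul_mem P.t_mem.1 hv) hc1 hct hc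
    exfalso
    have hsz : s ∉ Subgroup.zpowers t := fun e => ((mem_zp ht2).1 e).elim hs1 hsnt
    have hcom : s * (s * (g⁻¹ * c * g)) = s * (g⁻¹ * c * g) * s := by
      have hyc := mem_cs.1 (hXle hyJ.1).2
      rw [mul_assoc s (g⁻¹ * c * g) s, hyc]
    have hA := hmixA s hsU _ hy hsz hz hcom
    rw [← mul_assoc, P.sq s hsU, one_mul] at hA
    have := isA_conjugate g⁻¹ hcA
    rw [inv_inv] at this
    exact hA this
  have h1 := pull b hb hb1 hbt hbv
  have h2 := pull (b * t) (mul_mem hb P.t_mem.2) hbtt hbttt (hbv.mul_left htv)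
  have h3 : s ∈ U' := by
    have := mul_mem h1 h2
    rwa [show g⁻¹ * b * g * (g⁻¹ * (b * t) * g) = g⁻¹ * (b * b * t) * g by group,
      P.sq' b hb, one_mul, ← hsdef] at this
  exact notU' s hsU hs1 hsnt h3

end CfsgLib.M24Count
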