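import Cfsg.Agent.M24Count.Defs
import Cfsg.Agent.DesignUnique.Aut
import Cfsg.Agent.DesignUnique.Large

/-!
A group of order 244823040 acting faithfully on 24 points and permuting 759 eight-sets meeting in
at most four points is isomorphic to `M₂₄`: the eight-sets are the blocks of a Steiner system
`S(5, 8, 24)`, and that system is unique, with automorphism group `M₂₄`.
-/

set_option autoImplicit false
set_option linter.style.haveILetI false

open scoped Pointwise
open Finset Cfsg CfsgLib.DesignUnique CfsgLib.Mathieu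

namespace CfsgLib.M24Count

universe u v

/-- 759 eight-sets in 24 points meeting in at most four points form a Steiner system. -/
theorem steiner_of_blocks {V : Type v} [Fintype V] (hV : Fintype.card V = 759)
    (blk : V → Finset (Fin 24)) (h8 : ∀ w, (blk w).card = 8)
    (h4 : ∀ w w', w ≠ w' → (blk w ∩ blk w').card ≤ 4) : IsSteinerSystem 5 8 (Set.range blk) := by
  classical
  have key : ∀ w w' (s : Finset (Fin 24)), s.card = 5 → s ⊆ blk w → s ⊆ blk w' → w = w' := by
    intro w w' s hs h1 h2
    by_contra hne
    have h := Finset.card_le_card (Finset.subset_inter h1 h2)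
    have := h4 w w' hne
    omega
  set S : Finset (Σ _ : V, Finset (Fin 24)) :=
    Finset.univ.sigma fun w => (blk w).powersetCard 5 with hS
  have hcardS : S.card = 42504 := by
    rw [hS, Finset.card_sigma]
    simp [Finset.card_powersetCard, h8, hV, Nat.choose]
  have himg : S.image Sigma.snd = (Finset.univ : Finset (Fin 24)).powersetCard 5 := by
    refine Finset.eq_of_subset_of_card_le ?_ ?_
    · intro s hs
      simp only [Finset.mem_image, hS, Finset.mem_sigma, Finset.mem_powersetCard] at hs
      obtain ⟨⟨w, t⟩, ⟨-, -, ht⟩, rfl⟩ := hs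
      exact Finset.mem_powersetCard.2 ⟨Finset.subset_univ _, ht⟩
    · rw [Finset.card_powersetCard, Finset.card_univ, Fintype.card_fin,
        Finset.card_image_of_injOn, hcardS, Nat.choose_eq_descFactorial_div_factorial]
      · decide +kernel
      · rintro ⟨w, s⟩ hs ⟨w', s'⟩ hs' (rfl : s = s')
        simp only [hS, Finset.coe_sigma, Set.mem_sigma_iff, Finset.mem_coe,
          Finset.mem_powersetCard] at hs hs'
        rw [key w w' s hs.2.2 hs.2.1 hs'.2.1]
  refine ⟨?_, fun s hs => ?_⟩
  · rintro _ ⟨w, rfl⟩
    exact h8 w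
  · have hm : s ∈ S.image Sigma.snd := by
      rw [himg]
      exact Finset.mem_powersetCard.2 ⟨Finset.subset_univ _, hs⟩
    simp only [Finset.mem_image, hS, Finset.mem_sigma, Finset.mem_powersetCard] at hm
    obtain ⟨⟨w, t⟩, ⟨-, ht, -⟩, rfl⟩ := hm
    refine ⟨blk w, ⟨⟨w, rfl⟩, ht⟩, ?_⟩
    rintro _ ⟨⟨w', rfl⟩, hw'⟩
    rw [key w' w t hs hw' ht]

/-- The recognition from the points. -/
theorem iso_M24_of_points {G : Type u} [Group G] [Finite G] {V : Type v} [MulAction G V]
    (hcard : Nat.card G = 244823040) (hV : Nat.card V = 759) (hp : HasPoints G V) :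
    Nonempty (G ≃* ↥Cfsg.M24) := by
  classical
  haveI : Finite V := Nat.finite_of_card_ne_zero (by omega)
  haveI := Fintype.ofFinite V
  obtain ⟨act, blk, hinj, h8, heq, h4⟩ := hp
  obtain ⟨e, he⟩ := exists_equiv24 (Fintype.card_fin 24)
    (steiner_of_blocks (by rw [← Nat.card_eq_fintype_card, hV]) blk h8 h4)
  obtain ⟨f⟩ := aut_transport e he (MulEquiv.subgroupCongr aut_octads)
  have hmem : ∀ g, act g ∈ setSystemAut (Set.range blk) := fun g =>
    mem_aut_iff.2 fun b hb => by
      obtain ⟨w, rfl⟩ := hb
      exact ⟨g • w, by rw [heq, Finset.smul_finset_def]; rfl⟩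
  let ψ : G →* ↥Cfsg.M24 := f.toMonoidHom.comp (act.codRestrict _ hmem)
  have hψ : Function.Injective ψ :=
    f.injective.comp fun a b h => hinj (congrArg Subtype.val h)
  exact ⟨MulEquiv.ofBijective ψ
    (hψ.bijective_of_nat_card_le (by rw [card_M24, hcard]))⟩

end CfsgLib.M24Count
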