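import Cfsg.Agent.M24Count.LinesFar

/-!
The near hexagon: the vertices with their lines.
-/

set_option autoImplicit false
set_option linter.unusedSectionVars false

namespace CfsgLib.M24Count

open MulAction

universe u v

namespace PreGeom

variable {G : Type u} {V : Type v} [Group G] [MulAction G V] [Finite G] (P : PreGeom G V)

theorem line_cases_near {x a b c : V} (ha : P.near x a) (hb : x ≠ b) (hc : x ≠ c)
    (hab : P.adj a b) (hac : P.adj a c) (hbc : P.adj b c) (hnb : ¬ P.adj x b) (hnc : ¬ P.adj x c) :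
    P.far x b ∧ P.far x c ∧ Disjoint (P.tet x a) (P.duad x b) ∧
      P.duad x c = (P.tet x a ∪ P.duad x b)ᶜ := by
  have hb' : b ∈ P.other x a := by
    refine ⟨hab, fun h => hnb h.1, fun z hz h => ?_⟩
    have := P.third_eq hab ⟨P.adj_symm _ _ hz.2, P.adj_symm _ _ h⟩ ⟨hac, hbc⟩
    exact hnc (this ▸ hz.1)
  have hfb := P.other_far ha hb'
  exact ⟨hfb, P.third_far ha hfb hab hac hbc, (P.duad_other ha hb').1,
    (P.duad_other ha hb').2 c hac hbc⟩

theorem line_cases_adj {x a b c : V} (ha : P.adj x a) (hb : x ≠ b) (hc : x ≠ c)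
    (hab : P.adj a b) (hac : P.adj a c) (hbc : P.adj b c) :
    P.near x b ∧ P.near x c ∧ P.tet x c = (P.tet x b)ᶜ := by
  have hnb : P.near x b := by
    refine (P.mid_path ha hab hb).resolve_left fun h => hc ?_
    exact P.third_eq hab ⟨P.adj_symm _ _ ha, P.adj_symm _ _ h⟩ ⟨hac, hbc⟩
  obtain ⟨h1, h2⟩ := (P.near_partner hnb).2 a c ha hab hac hbc
  exact ⟨hnb, h1, h2⟩

/-- The lines make the relations a `Geom`. -/
theorem exists_geom (P : PreGeom G V) (_hs : Setup G) : Nonempty (Geom G V) :=
  ⟨{ adj := P.adj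
     near := P.near
     far := P.far
     tet := P.tet
     duad := P.duad
     card_V := P.card_V
     trans := P.trans
     adj_smul := P.adj_smul
     adj_symm := P.adj_symm
     adj_ne := fun _ _ h => P.ne_of_adj h
     line := fun _ _ h => P.existsUnique_third h
     cases := P.cases
     near_ne := fun _ _ h => ⟨P.ne_of_near h, fun h' => P.not_near_of_adj h' h⟩
     far_ne := fun x w h =>
       ⟨((P.far_iff x w).1 h).1, P.not_adj_of_far h, P.not_near_of_far h⟩
     tet_card := P.tet_card
     duad_card := P.duad_card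
     tet_fibre := P.tet_fibre
     duad_fibre := P.duad_fibre
     near_partner := fun _ _ h => P.near_partner h
     far_line := fun _ _ _ hw hT hd => P.far_line hw hT hd
     line_cases := fun x a b c hxa hxb hxc hab hac hbc => by
       have hba := P.adj_symm _ _ hab
       have hca := P.adj_symm _ _ hac
       have hcb := P.adj_symm _ _ hbc
       by_cases h1 : P.adj x a
       · exact ⟨a, b, c, rfl, Or.inl ⟨h1, P.line_cases_adj h1 hxb hxc hab hac hbc⟩⟩
       by_cases h2 : P.adj x b
       · exact ⟨b, a, c, Set.insert_comm b a {c},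
           Or.inl ⟨h2, P.line_cases_adj h2 hxa hxc hba hbc hac⟩⟩
       by_cases h3 : P.adj x c
       · exact ⟨c, a, b, by rw [Set.insert_comm c a, Set.pair_comm c b],
           Or.inl ⟨h3, P.line_cases_adj h3 hxa hxb hca hcb hab⟩⟩
       by_cases n1 : P.near x a
       · exact ⟨a, b, c, rfl, Or.inr ⟨n1, P.line_cases_near n1 hxb hxc hab hac hbc h2 h3⟩⟩
       by_cases n2 : P.near x b
       · exact ⟨b, a, c, Set.insert_comm b a {c},
           Or.inr ⟨n2, P.line_cases_near n2 hxa hxc hba hbc hac h1 h3⟩⟩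
       by_cases n3 : P.near x c
       · exact ⟨c, a, b, by rw [Set.insert_comm c a, Set.pair_comm c b],
           Or.inr ⟨n3, P.line_cases_near n3 hxa hxb hca hcb hab h1 h2⟩⟩
       exfalso
       have hfb : P.far x b := (((P.cases x b).resolve_left hxb).resolve_left h2).resolve_left n2
       obtain ⟨d, hd, hdb, hdc⟩ := P.exists_near_on_line hfb hbc n3
       exact n1 (P.third_eq hbc ⟨P.adj_symm _ _ hdb, P.adj_symm _ _ hdc⟩ ⟨hba, hca⟩ ▸ hd) }⟩

end PreGeom

end CfsgLib.M24Count
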