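import Cfsg.Agent.M24Count.Orbits
import Cfsg.Agent.M24Count.Lines

/-!
The near hexagon on the conjugates of an octad subgroup.
-/

set_option autoImplicit false

namespace CfsgLib.M24Count

universe u

/-- The conjugates of an octad subgroup form a `Geom`. -/
theorem exists_geom {G : Type u} [Group G] [Finite G] {E : Subgroup G} (hs : Setup G) (h : Octad E) :
    ∃ (V : Type u) (_ : MulAction G V) (_ : FaithfulSMul G V), Nonempty (Geom G V) := by
  obtain ⟨V, i1, i2, ⟨P⟩⟩ := exists_preGeom hs h
  exact ⟨V, i1, i2, P.exists_geom hs⟩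

end CfsgLib.M24Count
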