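import Cfsg.Agent.M24Count.Defs
import Cfsg.Agent.M24Count.ModelSideData
import Cfsg.Agent.M23Count.ModelSide

/-!
The element-order counts of the Mathieu group of degree 24.

The elements fixing the first base point are counted by the model side for degree 23; the others
reduce, by conjugation with the stabilisers of the points already fixed, to eight cosets of the
stabiliser of four points.
-/

set_option autoImplicit false
-- one kernel computation at a time, to bound the memory in use
set_option Elab.async false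

namespace CfsgLib.M24Count

open Cfsg CfsgLib.Mathieu

theorem ordsA_check :
    fixList4F.map (fun t => M23Count.ord23 (fcomp (M22Count.wtab22 quadWA) t)) = ordsA := by
  decide +kernel

theorem ordsB_check :
    fixList4F.map (fun t => M23Count.ord23 (fcomp (M22Count.wtab22 quadWB) t)) = ordsB := by
  decide +kernel

theorem ordsC_check :
    fixList4F.map (fun t => M23Count.ord23 (fcomp (M22Count.wtab22 quadWC) t)) = ordsC := by
  decide +kernel

theorem ordsD_check :
    fixList4F.map (fun t => M23Count.ord23 (fcomp (M22Count.wtab22 quadWD) t)) = ordsD := by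
  decide +kernel

theorem ordsE_check :
    fixList4F.map (fun t => M23Count.ord23 (fcomp (M22Count.wtab22 quadWE) t)) = ordsE := by
  decide +kernel

theorem ordsF_check :
    fixList4F.map (fun t => M23Count.ord23 (fcomp (M22Count.wtab22 quadWF) t)) = ordsF := by
  decide +kernel

theorem ordsG_check :
    fixList4F.map (fun t => M23Count.ord23 (fcomp (M22Count.wtab22 quadWG) t)) = ordsG := by
  decide +kernel

theorem ordsH_check :
    fixList4F.map (fun t => M23Count.ord23 (fcomp (M22Count.wtab22 quadWH) t)) = ordsH := by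
  decide +kernel

/-- The elements of order `n`. -/
noncomputable def ordSet24 (n : ℕ) : Finset (Equiv.Perm GolayPt) := by
  classical exact Finset.univ.filter fun g => g ∈ M24 ∧ orderOf g = n

theorem mem_ordSet24 {n : ℕ} {g : Equiv.Perm GolayPt} :
    g ∈ ordSet24 n ↔ g ∈ M24 ∧ orderOf g = n := by
  simp [ordSet24]

/-- The count in one coset of the stabiliser of four points. -/
theorem card_coset24 (n a b c d : ℕ) (w : List ℕ) (os : List ℕ)
    (hw : ([0, 1, 2, 3].map fun i => app (M22Count.wtab22 w) i) = [a, b, c, d])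
    (hos : fixList4F.map (fun t => M23Count.ord23 (fcomp (M22Count.wtab22 w) t)) = os)
    (h0 : os.contains 0 = false) :
    (((((ordSet24 n).filter fun g => g (i2p 0) = i2p a).filter fun g => g (i2p 1) = i2p b).filter
      fun g => g (i2p 2) = i2p c).filter fun g => g (i2p 3) = i2p d).card =
      os.count n := by
  classical
  obtain ⟨x, hx, hxw⟩ := M22Count.rep_wtab22 w
  simp only [List.map_cons, List.map_nil, List.cons.injEq, and_true, ← hxw,
    app_toTab x 0 (by norm_num), app_toTab x 1 (by norm_num), app_toTab x 2 (by norm_num),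
    app_toTab x 3 (by norm_num)] at hw
  obtain ⟨hwa, hwb, hwc, hwd⟩ := hw
  have hxa : x (i2p 0) = i2p a := (i2p_p2i _).symm.trans (congrArg i2p hwa)
  have hxb : x (i2p 1) = i2p b := (i2p_p2i _).symm.trans (congrArg i2p hwb)
  have hxc : x (i2p 2) = i2p c := (i2p_p2i _).symm.trans (congrArg i2p hwc)
  have hxd : x (i2p 3) = i2p d := (i2p_p2i _).symm.trans (congrArg i2p hwd)
  have hord : ∀ y : Equiv.Perm GolayPt, toTab y ∈ fixList4F →
      orderOf (x * y) = M23Count.ord23 (fcomp (M22Count.wtab22 w) (toTab y)) := by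
    intro y hy
    have hmem : M23Count.ord23 (fcomp (M22Count.wtab22 w) (toTab y)) ∈ os :=
      hos ▸ List.mem_map.2 ⟨_, hy, rfl⟩
    rw [M23Count.orderOf_eq_ord23, ← fcomp_toTab, hxw]
    rw [← fcomp_toTab, hxw]
    intro e
    rw [e] at hmem
    simp [hmem] at h0
  have hcount : os.count n =
      (fixList4F.filter fun t => M23Count.ord23 (fcomp (M22Count.wtab22 w) t) == n).length := by
    rw [← hos, List.count, List.countP_map, List.countP_eq_length_filter]
    rfl
  rw [hcount, ← List.toFinset_card_of_nodup (M22Count.quadFix_nodup.filter _)]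
  refine Finset.card_bij (fun g _ => toTab (x⁻¹ * g)) ?_ ?_ ?_
  · intro g hg
    simp only [Finset.mem_filter, mem_ordSet24] at hg
    obtain ⟨⟨⟨⟨⟨hg, hn⟩, ha⟩, hb⟩, hc⟩, hd⟩ := hg
    have hmem : x⁻¹ * g ∈ base7Fix 4 := by
      refine mem_base7Fix.2 ⟨mul_mem (inv_mem hx) hg, fun i hi => ?_⟩
      simp only [base7, List.take_succ_cons, List.take_zero, List.mem_cons, List.not_mem_nil,
        or_false] at hi
      rw [Equiv.Perm.mul_apply, Equiv.Perm.inv_eq_iff_eq]
      rcases hi with rfl | rfl | rfl | rfl
      · rw [ha, hxa]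
      · rw [hb, hxb]
      · rw [hc, hxc]
      · rw [hd, hxd]
    have hy : toTab (x⁻¹ * g) ∈ fixList4F := fixList4F_eq ▸ toTab_mem_fixList4 hmem
    have := hord _ hy
    rw [mul_inv_cancel_left, hn] at this
    simp [hy, ← this]
  · intro g _ g' _ e
    exact mul_left_cancel (toTab_injective e)
  · intro t ht
    simp only [List.mem_toFinset, List.mem_filter, beq_iff_eq] at ht
    obtain ⟨y, hy, rfl⟩ := rep_fixList4 t (fixList4F_eq ▸ ht.1)
    obtain ⟨hy24, hfix⟩ := mem_base7Fix.1 hy
    have f : ∀ i, i ∈ [0, 1, 2, 3] → y (i2p i) = i2p i := hfix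
    refine ⟨x * y, ?_, by rw [inv_mul_cancel_left]⟩
    simp only [Finset.mem_filter, mem_ordSet24, Equiv.Perm.mul_apply, f 0 (by simp), f 1 (by simp),
      f 2 (by simp), f 3 (by simp)]
    exact ⟨⟨⟨⟨⟨mul_mem hx hy24, (hord y ht.1).trans ht.2⟩, hxa⟩, hxb⟩, hxc⟩, hxd⟩

/-- The count of elements of order `n`. -/
def countOf24 (n : ℕ) : ℕ :=
  M23Count.countOf23 n +
    23 * (((ordsA.count n + 20 * ordsB.count n) + 21 * (ordsC.count n + 20 * ordsD.count n)) +
      22 * ((ordsE.count n + 20 * ordsF.count n) + 21 * (ordsG.count n + 20 * ordsH.count n)))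

theorem card_ordSet24 (n : ℕ) : (ordSet24 n).card = countOf24 n := by
  classical
  have hne : ∀ i j : ℕ, i < 24 → j < 24 → i ≠ j → (i2p i : GolayPt) ≠ i2p j :=
    fun i j hi hj h e => h (i2p_inj hi hj e)
  have avoid : ∀ (g : Equiv.Perm GolayPt) (i j a : ℕ), i < 24 → j < 24 → i ≠ j →
      g (i2p i) = i2p a → g (i2p j) ≠ i2p a :=
    fun g i j a hi hj h e e' => hne i j hi hj h (g.injective (e.trans e'.symm))
  have htrA : ∀ x ∈ M22Count.restPts [0], ∃ k ∈ base7Fix 1, k (i2p 1) = x := by
    intro x hx
    simp only [M22Count.mem_restPts, List.mem_cons, List.not_mem_nil, or_false, forall_eq] at hx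
    obtain ⟨g, hg, h⟩ := M22Count.exists_map_base 2 (by decide +kernel) [i2p 0, x]
      (show 2 = (tuple5.take 2).length by decide +kernel) (by simp [Ne.symm hx])
    simp only [tuple5, chain24, List.take_succ_cons, List.take_zero, List.map_cons, List.map_nil,
      List.cons.injEq, and_true] at h
    obtain ⟨h0, h1⟩ := h
    refine ⟨g, mem_base7Fix.2 ⟨hg, ?_⟩, h1⟩
    simp [base7, h0]
  have htr0 : ∀ x ∈ M22Count.restPts [0, 1], ∃ k ∈ base7Fix 2, k (i2p 2) = x := by
    intro x hx
    simp only [M22Count.mem_restPts, List.mem_cons, List.not_mem_nil, or_false, forall_eq_or_imp,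
      forall_eq] at hx
    obtain ⟨g, hg, h⟩ := M22Count.exists_map_base 3 (by decide +kernel) [i2p 0, i2p 1, x]
      (show 3 = (tuple5.take 3).length by decide +kernel)
      (by simp [hne 0 1, Ne.symm hx.1, Ne.symm hx.2])
    simp only [tuple5, chain24, List.take_succ_cons, List.take_zero, List.map_cons, List.map_nil,
      List.cons.injEq, and_true] at h
    obtain ⟨h0, h1, h2⟩ := h
    refine ⟨g, mem_base7Fix.2 ⟨hg, ?_⟩, h2⟩
    simp [base7, h0, h1]
  have htr1 : ∀ x ∈ M22Count.restPts [0, 1, 2], ∃ k ∈ base7Fix 3, k (i2p 3) = x := by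
    intro x hx
    simp only [M22Count.mem_restPts, List.mem_cons, List.not_mem_nil, or_false, forall_eq_or_imp,
      forall_eq] at hx
    obtain ⟨g, hg, h⟩ := M22Count.exists_map_base 4 (by decide +kernel) [i2p 0, i2p 1, i2p 2, x]
      (show 4 = (tuple5.take 4).length by decide +kernel)
      (by simp [hne 0 1, hne 0 2, hne 1 2, Ne.symm hx.1, Ne.symm hx.2.1, Ne.symm hx.2.2])
    simp only [tuple5, chain24, List.take_succ_cons, List.take_zero, List.map_cons, List.map_nil,
      List.cons.injEq, and_true] at h
    obtain ⟨h0, h1, h2, h3⟩ := h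
    refine ⟨g, mem_base7Fix.2 ⟨hg, ?_⟩, h3⟩
    simp [base7, h0, h1, h2]
  have htr2 : ∀ x ∈ M22Count.restPts [0, 1, 2, 3], ∃ k ∈ base7Fix 4, k (i2p 4) = x := by
    intro x hx
    simp only [M22Count.mem_restPts, List.mem_cons, List.not_mem_nil, or_false, forall_eq_or_imp,
      forall_eq] at hx
    obtain ⟨g, hg, h⟩ := exists_map_base5 [i2p 0, i2p 1, i2p 2, i2p 3, x] rfl
      (by simp [hne 0 1, hne 0 2, hne 0 3, hne 1 2, hne 1 3, hne 2 3, Ne.symm hx.1, Ne.symm hx.2.1,
        Ne.symm hx.2.2.1, Ne.symm hx.2.2.2])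
    simp only [List.map_cons, List.map_nil, List.cons.injEq, and_true] at h
    obtain ⟨h0, h1, h2, h3, h4⟩ := h
    refine ⟨g, mem_base7Fix.2 ⟨hg, ?_⟩, h4⟩
    simp [base7, h0, h1, h2, h3]
  have cA : (M22Count.restPts [0]).card = 23 := by decide +kernel
  have c0 : (M22Count.restPts [0, 1]).card = 22 := by decide +kernel
  have c1 : (M22Count.restPts [0, 1, 2]).card = 21 := by decide +kernel
  have c2 : (M22Count.restPts [0, 1, 2, 3]).card = 20 := by decide +kernel
  have hfix : ∀ {j : ℕ} {k : Equiv.Perm GolayPt}, k ∈ base7Fix j → ∀ i ∈ base7.take j,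
      k (i2p i) = i2p i := fun hk => (mem_base7Fix.1 hk).2
  have hconj : ∀ k ∈ base7Fix 1, ∀ g ∈ ordSet24 n, k * g * k⁻¹ ∈ ordSet24 n := by
    intro k hk g hg
    have hk' : k ∈ M24 := (mem_base7Fix.1 hk).1
    exact mem_ordSet24.2 ⟨mul_mem (mul_mem hk' (mem_ordSet24.1 hg).1) (inv_mem hk'),
      (MulEquiv.orderOf_eq (MulAut.conj k) g).trans (mem_ordSet24.1 hg).2⟩
  -- keeping a condition on one image under conjugation
  have hkeep : ∀ (K : Subgroup (Equiv.Perm GolayPt)) (S : Finset (Equiv.Perm GolayPt)) (i a : ℕ),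
      (∀ k ∈ K, ∀ g ∈ S, k * g * k⁻¹ ∈ S) → (∀ k ∈ K, k (i2p i) = i2p i) →
      (∀ k ∈ K, k (i2p a) = i2p a) → ∀ k ∈ K, ∀ g ∈ S.filter fun g => g (i2p i) = i2p a,
        k * g * k⁻¹ ∈ S.filter fun g => g (i2p i) = i2p a := by
    intro K S i a hS hi ha k hk g hg
    rw [Finset.mem_filter] at hg ⊢
    refine ⟨hS k hk g hg.1, ?_⟩
    simp only [Equiv.Perm.mul_apply, hi _ (inv_mem hk), hg.2]
    exact ha k hk
  have hA : ((ordSet24 n).filter fun g => g (i2p 0) = i2p 0).card = M23Count.countOf23 n := by
    rw [← M23Count.card_ordSet23]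
    congr 1
    ext g
    simp only [Finset.mem_filter, mem_ordSet24, M23Count.mem_ordSet23]
    tauto
  rw [M12Count.card_split (ordSet24 n) (base7Fix 1) (M22Count.restPts [0]) (i2p 0) (i2p 0)
    (i2p 1) hconj (fun k hk => hfix hk 0 (by simp [base7])) htrA (by simp [M22Count.mem_restPts])
    (fun g _ => by
      simp only [Finset.mem_insert, M22Count.mem_restPts, List.mem_cons, List.not_mem_nil,
        or_false, forall_eq]
      tauto), cA, hA]
  rw [M12Count.card_split
    ((ordSet24 n).filter fun g => g (i2p 0) = i2p 1)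
    (base7Fix 2) (M22Count.restPts [0, 1]) (i2p 1) (i2p 0) (i2p 2)
    (hkeep _ _ 0 1
      (fun k hk => hconj k (base7Fix_antitone (by norm_num) hk))
      (fun k hk => hfix hk 0 (by simp [base7])) (fun k hk => hfix hk 1 (by simp [base7])))
    (fun k hk => hfix hk 1 (by simp [base7])) htr0 (by simp [M22Count.mem_restPts])
    (fun g hg => by
      simp only [Finset.mem_filter] at hg
      have n0 := avoid g 0 1 1 (by norm_num) (by norm_num) (by norm_num) hg.2
      simp only [Finset.mem_insert, M22Count.mem_restPts, List.mem_cons, List.not_mem_nil,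
        or_false, forall_eq_or_imp, forall_eq]
      tauto), c0]
  rw [M12Count.card_split
    (((ordSet24 n).filter fun g => g (i2p 0) = i2p 1).filter fun g => g (i2p 1) = i2p 0)
    (base7Fix 3) (M22Count.restPts [0, 1, 2]) (i2p 2) (i2p 2) (i2p 3)
    (hkeep _ _ 1 0
      (hkeep _ _ 0 1
      (fun k hk => hconj k (base7Fix_antitone (by norm_num) hk))
      (fun k hk => hfix hk 0 (by simp [base7])) (fun k hk => hfix hk 1 (by simp [base7])))
      (fun k hk => hfix hk 1 (by simp [base7])) (fun k hk => hfix hk 0 (by simp [base7])))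
    (fun k hk => hfix hk 2 (by simp [base7])) htr1 (by simp [M22Count.mem_restPts])
    (fun g hg => by
      simp only [Finset.mem_filter] at hg
      have n0 := avoid g 0 2 1 (by norm_num) (by norm_num) (by norm_num) hg.1.2
      have n1 := avoid g 1 2 0 (by norm_num) (by norm_num) (by norm_num) hg.2
      simp only [Finset.mem_insert, M22Count.mem_restPts, List.mem_cons, List.not_mem_nil,
        or_false, forall_eq_or_imp, forall_eq]
      tauto), c1]
  rw [M12Count.card_split
    (((ordSet24 n).filter fun g => g (i2p 0) = i2p 1).filter fun g => g (i2p 1) = i2p 2)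
    (base7Fix 3) (M22Count.restPts [0, 1, 2]) (i2p 2) (i2p 0) (i2p 3)
    (hkeep _ _ 1 2
      (hkeep _ _ 0 1
      (fun k hk => hconj k (base7Fix_antitone (by norm_num) hk))
      (fun k hk => hfix hk 0 (by simp [base7])) (fun k hk => hfix hk 1 (by simp [base7])))
      (fun k hk => hfix hk 1 (by simp [base7])) (fun k hk => hfix hk 2 (by simp [base7])))
    (fun k hk => hfix hk 2 (by simp [base7])) htr1 (by simp [M22Count.mem_restPts])
    (fun g hg => by
      simp only [Finset.mem_filter] at hg
      have n0 := avoid g 0 2 1 (by norm_num) (by norm_num) (by norm_num) hg.1.2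
      have n1 := avoid g 1 2 2 (by norm_num) (by norm_num) (by norm_num) hg.2
      simp only [Finset.mem_insert, M22Count.mem_restPts, List.mem_cons, List.not_mem_nil,
        or_false, forall_eq_or_imp, forall_eq]
      tauto), c1]
  rw [M12Count.card_split
    ((((ordSet24 n).filter fun g => g (i2p 0) = i2p 1).filter fun g => g (i2p 1) = i2p 0).filter fun g => g (i2p 2) = i2p 2)
    (base7Fix 4) (M22Count.restPts [0, 1, 2, 3]) (i2p 3) (i2p 3) (i2p 4)
    (hkeep _ _ 2 2
      (hkeep _ _ 1 0
      (hkeep _ _ 0 1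
      (fun k hk => hconj k (base7Fix_antitone (by norm_num) hk))
      (fun k hk => hfix hk 0 (by simp [base7])) (fun k hk => hfix hk 1 (by simp [base7])))
      (fun k hk => hfix hk 1 (by simp [base7])) (fun k hk => hfix hk 0 (by simp [base7])))
      (fun k hk => hfix hk 2 (by simp [base7])) (fun k hk => hfix hk 2 (by simp [base7])))
    (fun k hk => hfix hk 3 (by simp [base7])) htr2 (by simp [M22Count.mem_restPts])
    (fun g hg => by
      simp only [Finset.mem_filter] at hg
      have n0 := avoid g 0 3 1 (by norm_num) (by norm_num) (by norm_num) hg.1.1.2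
      have n1 := avoid g 1 3 0 (by norm_num) (by norm_num) (by norm_num) hg.1.2
      have n2 := avoid g 2 3 2 (by norm_num) (by norm_num) (by norm_num) hg.2
      simp only [Finset.mem_insert, M22Count.mem_restPts, List.mem_cons, List.not_mem_nil,
        or_false, forall_eq_or_imp, forall_eq]
      tauto), c2]
  rw [M12Count.card_split
    ((((ordSet24 n).filter fun g => g (i2p 0) = i2p 1).filter fun g => g (i2p 1) = i2p 0).filter fun g => g (i2p 2) = i2p 3)
    (base7Fix 4) (M22Count.restPts [0, 1, 2, 3]) (i2p 3) (i2p 2) (i2p 4)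
    (hkeep _ _ 2 3
      (hkeep _ _ 1 0
      (hkeep _ _ 0 1
      (fun k hk => hconj k (base7Fix_antitone (by norm_num) hk))
      (fun k hk => hfix hk 0 (by simp [base7])) (fun k hk => hfix hk 1 (by simp [base7])))
      (fun k hk => hfix hk 1 (by simp [base7])) (fun k hk => hfix hk 0 (by simp [base7])))
      (fun k hk => hfix hk 2 (by simp [base7])) (fun k hk => hfix hk 3 (by simp [base7])))
    (fun k hk => hfix hk 3 (by simp [base7])) htr2 (by simp [M22Count.mem_restPts])
    (fun g hg => by
      simp only [Finset.mem_filter] at hg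
      have n0 := avoid g 0 3 1 (by norm_num) (by norm_num) (by norm_num) hg.1.1.2
      have n1 := avoid g 1 3 0 (by norm_num) (by norm_num) (by norm_num) hg.1.2
      have n2 := avoid g 2 3 3 (by norm_num) (by norm_num) (by norm_num) hg.2
      simp only [Finset.mem_insert, M22Count.mem_restPts, List.mem_cons, List.not_mem_nil,
        or_false, forall_eq_or_imp, forall_eq]
      tauto), c2]
  rw [M12Count.card_split
    ((((ordSet24 n).filter fun g => g (i2p 0) = i2p 1).filter fun g => g (i2p 1) = i2p 2).filter fun g => g (i2p 2) = i2p 0)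
    (base7Fix 4) (M22Count.restPts [0, 1, 2, 3]) (i2p 3) (i2p 3) (i2p 4)
    (hkeep _ _ 2 0
      (hkeep _ _ 1 2
      (hkeep _ _ 0 1
      (fun k hk => hconj k (base7Fix_antitone (by norm_num) hk))
      (fun k hk => hfix hk 0 (by simp [base7])) (fun k hk => hfix hk 1 (by simp [base7])))
      (fun k hk => hfix hk 1 (by simp [base7])) (fun k hk => hfix hk 2 (by simp [base7])))
      (fun k hk => hfix hk 2 (by simp [base7])) (fun k hk => hfix hk 0 (by simp [base7])))
    (fun k hk => hfix hk 3 (by simp [base7])) htr2 (by simp [M22Count.mem_restPts])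
    (fun g hg => by
      simp only [Finset.mem_filter] at hg
      have n0 := avoid g 0 3 1 (by norm_num) (by norm_num) (by norm_num) hg.1.1.2
      have n1 := avoid g 1 3 2 (by norm_num) (by norm_num) (by norm_num) hg.1.2
      have n2 := avoid g 2 3 0 (by norm_num) (by norm_num) (by norm_num) hg.2
      simp only [Finset.mem_insert, M22Count.mem_restPts, List.mem_cons, List.not_mem_nil,
        or_false, forall_eq_or_imp, forall_eq]
      tauto), c2]
  rw [M12Count.card_split
    ((((ordSet24 n).filter fun g => g (i2p 0) = i2p 1).filter fun g => g (i2p 1) = i2p 2).filter fun g => g (i2p 2) = i2p 3)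
    (base7Fix 4) (M22Count.restPts [0, 1, 2, 3]) (i2p 3) (i2p 0) (i2p 4)
    (hkeep _ _ 2 3
      (hkeep _ _ 1 2
      (hkeep _ _ 0 1
      (fun k hk => hconj k (base7Fix_antitone (by norm_num) hk))
      (fun k hk => hfix hk 0 (by simp [base7])) (fun k hk => hfix hk 1 (by simp [base7])))
      (fun k hk => hfix hk 1 (by simp [base7])) (fun k hk => hfix hk 2 (by simp [base7])))
      (fun k hk => hfix hk 2 (by simp [base7])) (fun k hk => hfix hk 3 (by simp [base7])))
    (fun k hk => hfix hk 3 (by simp [base7])) htr2 (by simp [M22Count.mem_restPts])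
    (fun g hg => by
      simp only [Finset.mem_filter] at hg
      have n0 := avoid g 0 3 1 (by norm_num) (by norm_num) (by norm_num) hg.1.1.2
      have n1 := avoid g 1 3 2 (by norm_num) (by norm_num) (by norm_num) hg.1.2
      have n2 := avoid g 2 3 3 (by norm_num) (by norm_num) (by norm_num) hg.2
      simp only [Finset.mem_insert, M22Count.mem_restPts, List.mem_cons, List.not_mem_nil,
        or_false, forall_eq_or_imp, forall_eq]
      tauto), c2]
  rw [card_coset24 n 1 0 2 3 quadWA _ (by decide +kernel) ordsA_check (by decide +kernel),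
    card_coset24 n 1 0 2 4 quadWB _ (by decide +kernel) ordsB_check (by decide +kernel),
    card_coset24 n 1 0 3 2 quadWC _ (by decide +kernel) ordsC_check (by decide +kernel),
    card_coset24 n 1 0 3 4 quadWD _ (by decide +kernel) ordsD_check (by decide +kernel),
    card_coset24 n 1 2 0 3 quadWE _ (by decide +kernel) ordsE_check (by decide +kernel),
    card_coset24 n 1 2 0 4 quadWF _ (by decide +kernel) ordsF_check (by decide +kernel),
    card_coset24 n 1 2 3 0 quadWG _ (by decide +kernel) ordsG_check (by decide +kernel),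
    card_coset24 n 1 2 3 4 quadWH _ (by decide +kernel) ordsH_check (by decide +kernel)]
  rfl

/-- The number of elements of a given order. -/
theorem cnt_M24 (n : ℕ) : cnt ↥Cfsg.M24 n = countOf24 n := by
  classical
  rw [cnt, ← card_ordSet24, ← Nat.card_eq_finsetCard (ordSet24 n)]
  exact Nat.card_congr
    { toFun := fun g => ⟨g.1.1, mem_ordSet24.2 ⟨g.1.2, (Subgroup.orderOf_coe g.1).trans g.2⟩⟩
      invFun := fun g => ⟨⟨g.1, (mem_ordSet24.1 g.2).1⟩, by
        rw [← Subgroup.orderOf_coe]
        exact (mem_ordSet24.1 g.2).2⟩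
      left_inv := fun _ => rfl
      right_inv := fun _ => rfl }

theorem countOf24_check :
    ((List.range 24).all fun n => countOf24 n == 0 || decide (countOf24 n ∈ countValues)) = true ∧
    ∀ c ∈ countValues, ∃ n ∈ List.range 24, countOf24 n = c := by
  decide +kernel

theorem countOf24_large {n : ℕ} (hn : 24 ≤ n) : countOf24 n = 0 := by
  have h : (ordsA ++ ordsB ++ ordsC ++ ordsD ++ ordsE ++ ordsF ++ ordsG ++ ordsH).all
      (fun x => decide (x < 24)) = true := by
    decide +kernel
  simp only [List.all_eq_true, decide_eq_true_eq, List.mem_append] at h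
  have z : ∀ l : List ℕ, (∀ x ∈ l, x < 24) → l.count n = 0 := fun l hl =>
    List.count_eq_zero.2 fun hm => absurd (hl n hm) (by omega)
  rw [countOf24, M23Count.countOf23_large hn, z ordsA (fun x hx => h x (by tauto)),
    z ordsB (fun x hx => h x (by tauto)),
    z ordsC (fun x hx => h x (by tauto)),
    z ordsD (fun x hx => h x (by tauto)),
    z ordsE (fun x hx => h x (by tauto)),
    z ordsF (fun x hx => h x (by tauto)),
    z ordsG (fun x hx => h x (by tauto)),
    z ordsH (fun x hx => h x (by tauto))]

/-- The element-order counts of the Mathieu group of degree 24 take exactly the listed values. -/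
theorem countValues_M24 :
    (∀ n, cnt ↥Cfsg.M24 n ≠ 0 → cnt ↥Cfsg.M24 n ∈ countValues) ∧
    (∀ c ∈ countValues, ∃ n, cnt ↥Cfsg.M24 n = c) := by
  refine ⟨fun n hn => ?_, fun c hc => ?_⟩
  · rw [cnt_M24] at hn ⊢
    rcases lt_or_ge n 24 with h | h
    · have := List.all_eq_true.1 countOf24_check.1 n (List.mem_range.2 h)
      simp only [Bool.or_eq_true, beq_iff_eq, decide_eq_true_eq] at this
      exact this.resolve_left hn
    · exact absurd (countOf24_large h) hn
  · obtain ⟨n, -, hn⟩ := countOf24_check.2 c hc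
    exact ⟨n, (cnt_M24 n).trans hn⟩

/-- The Mathieu group of degree 24 satisfies the counting hypothesis. -/
theorem countHyp_M24 : CountHyp ↥Cfsg.M24 :=
  ⟨CfsgLib.Mathieu.card_M24, countValues_M24.1, countValues_M24.2⟩

end CfsgLib.M24Count
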