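import Cfsg.Agent.M24Count.Defs

/-!
The two-core of the centraliser of an involution of class A: a frame `Q = U₁ U₂` and the closed side.
-/

set_option autoImplicit false

namespace CfsgLib.M24Count

universe u

/-- The two-core `Q` of the centraliser of `t` with the side `U` that will be the octad, `U'` the
other side. -/
structure Frame {G : Type u} [Group G] (t : G) (Q U U' : Subgroup G) : Prop where
  isA : IsA t
  card_Q : Nat.card Q = 128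
  Q_le : Q ≤ Subgroup.centralizer ({t} : Set G)
  Q_normal : ∀ g : G, Commute g t → ∀ a ∈ Q, g * a * g⁻¹ ∈ Q
  Q_simple : ∀ L : Subgroup G, Q ≤ L → L ≤ Subgroup.centralizer ({t} : Set G) →
    (∀ g : G, Commute g t → ∀ a ∈ L, g * a * g⁻¹ ∈ L) →
    L = Q ∨ L = Subgroup.centralizer ({t} : Set G)
  card_U : Nat.card U = 16
  card_U' : Nat.card U' = 16
  U_le : U ≤ Q
  U'_le : U' ≤ Q
  inf : U ⊓ U' = Subgroup.zpowers t
  gen : ∀ q ∈ Q, ∃ a ∈ U, ∃ b ∈ U', q = a * b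
  comm : ∀ a ∈ U, ∀ b ∈ U, a * b = b * a
  comm' : ∀ a ∈ U', ∀ b ∈ U', a * b = b * a
  sq : ∀ a ∈ U, a * a = 1
  sq' : ∀ a ∈ U', a * a = 1
  pairing : ∀ a ∈ U, a ≠ 1 → a ≠ t → ∃ b ∈ U', a * b ≠ b * a
  pairing' : ∀ b ∈ U', b ≠ 1 → b ≠ t → ∃ a ∈ U, a * b ≠ b * a
  normal : ∀ g : G, Commute g t → ∀ a ∈ U, g * a * g⁻¹ ∈ U
  normal' : ∀ g : G, Commute g t → ∀ a ∈ U', g * a * g⁻¹ ∈ U'
  trans : ∀ a ∈ U, ∀ b ∈ U, a ≠ 1 → a ≠ t → b ≠ 1 → b ≠ t → ∃ g : G, Commute g t ∧ g * a * g⁻¹ = b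
  trans' : ∀ a ∈ U', ∀ b ∈ U', a ≠ 1 → a ≠ t → b ≠ 1 → b ≠ t →
    ∃ g : G, Commute g t ∧ g * a * g⁻¹ = b
  pure : ∀ a ∈ U, a ≠ 1 → IsA a
  pure' : ∀ a ∈ U', a ≠ 1 → IsA a
  /-- The mixed involutions are not of class A. -/
  mixed : ∀ a ∈ U, ∀ b ∈ U', a ∉ Subgroup.zpowers t → b ∉ Subgroup.zpowers t → a * b = b * a →
    orderOf (a * b) = 2 ∧ ¬ IsA (a * b)
  /-- No element of `U` commuting with a mixed involution, outside its span, commutes with the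
  same 512 elements. -/
  side : ∀ a ∈ U, ∀ b ∈ U', ∀ v ∈ U, a ∉ Subgroup.zpowers t → b ∉ Subgroup.zpowers t →
    a * b = b * a → v * b = b * v → v ∉ Subgroup.zpowers t → v * a⁻¹ ∉ Subgroup.zpowers t →
    Nat.card ↥(Subgroup.centralizer ({v} : Set G) ⊓ Subgroup.centralizer ({a * b} : Set G)) < 512

end CfsgLib.M24Count
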