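/-
The closed side of a frame is an octad subgroup.
-/
import Cfsg.Agent.M24Count.CoreDefs
import Mathlib.GroupTheory.GroupAction.Quotient

set_option autoImplicit false

open scoped Pointwise

namespace CfsgLib.M24Count

universe u

variable {G : Type u} [Group G] [Finite G] {t : G} {Q U U' : Subgroup G}

namespace Frame

variable (F : Frame t Q U U')
include F

omit [Finite G] in
theorem t_mem : t ∈ U := by
  have h : t ∈ U ⊓ U' := by rw [F.inf]; exact Subgroup.mem_zpowers t
  exact h.1

omit [Finite G] in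
theorem t_ne_one : t ≠ 1 := fun he => by
  have := F.isA.1
  rw [he, orderOf_one] at this
  norm_num at this

omit [Finite G] in
/-- `Q` acts trivially on `U` modulo `⟨t⟩`. -/
theorem commutator_mem {q a : G} (hq : q ∈ Q) (ha : a ∈ U) :
    q * a * q⁻¹ * a⁻¹ ∈ Subgroup.zpowers t := by
  obtain ⟨x, hx, y, hy, rfl⟩ := F.gen q hq
  have hQc : ∀ r ∈ Q, Commute r t := fun r hr => Subgroup.mem_centralizer_singleton_iff.mp (F.Q_le hr)
  have hya : y * a * y⁻¹ * a⁻¹ ∈ Subgroup.zpowers t := by
    rw [← F.inf, Subgroup.mem_inf]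
    refine ⟨mul_mem (F.normal y (hQc y (F.U'_le hy)) a ha) (inv_mem ha), ?_⟩
    rw [show y * a * y⁻¹ * a⁻¹ = y * (a * y⁻¹ * a⁻¹) by group]
    exact mul_mem hy (F.normal' a (hQc a (F.U_le ha)) y⁻¹ (inv_mem hy))
  obtain ⟨k, hk⟩ := Subgroup.mem_zpowers_iff.mp hya
  have hxt : Commute x (t ^ k) := (hQc x (F.U_le hx)).zpow_right k
  have h1 : x * y * a * (x * y)⁻¹ * a⁻¹ = t ^ k := by
    calc x * y * a * (x * y)⁻¹ * a⁻¹ = x * (y * a * y⁻¹ * a⁻¹) * (a * x⁻¹ * a⁻¹) := by group
      _ = x * t ^ k * (a * x⁻¹ * a⁻¹) := by rw [hk]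
      _ = x * t ^ k * x⁻¹ := by rw [F.comm a ha x⁻¹ (inv_mem hx), mul_inv_cancel_right]
      _ = t ^ k := by rw [hxt.eq, mul_inv_cancel_right]
  rw [h1]
  exact Subgroup.mem_zpowers_iff.mpr ⟨k, rfl⟩

theorem card_zpowers_t : Nat.card (Subgroup.zpowers t) = 2 := by
  rw [Nat.card_zpowers, F.isA.1]

theorem self_cent : Subgroup.centralizer (U : Set G) = U := by
  have hUc : U ≤ Subgroup.centralizer (U : Set G) := fun a ha =>
    Subgroup.mem_centralizer_iff.mpr fun b hb => F.comm b hb a ha
  refine le_antisymm ?_ hUc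
  have hCt : Subgroup.centralizer (U : Set G) ≤ Subgroup.centralizer ({t} : Set G) :=
    Subgroup.centralizer_le (Set.singleton_subset_iff.mpr F.t_mem)
  have hQC : ∀ c ∈ Q, c ∈ Subgroup.centralizer (U : Set G) → c ∈ U := by
    intro c hc hcU
    obtain ⟨a, ha, b, hb, rfl⟩ := F.gen c hc
    have hbU : b ∈ Subgroup.centralizer (U : Set G) := by
      simpa using mul_mem (inv_mem (hUc ha)) hcU
    refine mul_mem ha ?_
    by_cases hb1 : b = 1
    · rw [hb1]; exact one_mem _
    by_cases hbt : b = t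
    · rw [hbt]; exact F.t_mem
    obtain ⟨a', ha', hne⟩ := F.pairing' b hb hb1 hbt
    exact absurd (Subgroup.mem_centralizer_iff.mp hbU a' ha') hne
  have hconj : ∀ g : G, Commute g t →
      ∀ x ∈ Q ⊔ Subgroup.centralizer (U : Set G), g * x * g⁻¹ ∈ Q ⊔ Subgroup.centralizer (U : Set G) := by
    intro g hg
    have hmap : (Q ⊔ Subgroup.centralizer (U : Set G)).map (MulAut.conj g).toMonoidHom ≤
        Q ⊔ Subgroup.centralizer (U : Set G) := by
      rw [Subgroup.map_sup]
      refine sup_le ?_ ?_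
      · rintro _ ⟨x, hx, rfl⟩
        exact Subgroup.mem_sup_left (F.Q_normal g hg x hx)
      · rintro _ ⟨x, hx, rfl⟩
        refine Subgroup.mem_sup_right (Subgroup.mem_centralizer_iff.mpr fun e he => ?_)
        have he' : g⁻¹ * e * g ∈ U := by simpa using F.normal g⁻¹ hg.inv_left e he
        have h := Subgroup.mem_centralizer_iff.mp hx _ he'
        change e * (g * x * g⁻¹) = g * x * g⁻¹ * e
        calc e * (g * x * g⁻¹) = g * ((g⁻¹ * e * g) * x) * g⁻¹ := by group
          _ = g * (x * (g⁻¹ * e * g)) * g⁻¹ := by rw [h]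
          _ = g * x * g⁻¹ * e := by group
    exact fun x hx => hmap ⟨x, hx, rfl⟩
  rcases F.Q_simple _ le_sup_left (sup_le F.Q_le hCt) hconj with h | h
  · intro c hc
    exact hQC c (h ▸ Subgroup.mem_sup_right hc) hc
  · exfalso
    -- the centraliser of `t` would fix each coset of `⟨t⟩` in `U`
    have htriv : ∀ g : G, Commute g t → ∀ a ∈ U, g * a * g⁻¹ * a⁻¹ ∈ Subgroup.zpowers t := by
      have hle : Q ⊔ Subgroup.centralizer (U : Set G) ≤
          Subgroup.centralizer ({t} : Set G) := sup_le F.Q_le hCt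
      let K : Subgroup G :=
        { carrier := {g | Commute g t ∧ ∀ a ∈ U, g * a * g⁻¹ * a⁻¹ ∈ Subgroup.zpowers t}
          one_mem' := ⟨Commute.one_left t, fun a _ => by simp⟩
          mul_mem' := fun {g k} hg hk => by
            refine ⟨hg.1.mul_left hk.1, fun a ha => ?_⟩
            have hka : k * a * k⁻¹ ∈ U := F.normal k hk.1 a ha
            rw [show g * k * a * (g * k)⁻¹ * a⁻¹ =
              (g * (k * a * k⁻¹) * g⁻¹ * (k * a * k⁻¹)⁻¹) * (k * a * k⁻¹ * a⁻¹) by group]
            exact mul_mem (hg.2 _ hka) (hk.2 a ha)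
          inv_mem' := fun {g} hg => by
            refine ⟨hg.1.inv_left, fun a ha => ?_⟩
            have hga : g⁻¹ * a * g ∈ U := by simpa using F.normal g⁻¹ hg.1.inv_left a ha
            rw [show g⁻¹ * a * g⁻¹⁻¹ * a⁻¹ = (g * (g⁻¹ * a * g) * g⁻¹ * (g⁻¹ * a * g)⁻¹)⁻¹ by group]
            exact inv_mem (hg.2 _ hga) }
      have hK : Q ⊔ Subgroup.centralizer (U : Set G) ≤ K := by
        refine sup_le (fun q hq => ⟨Subgroup.mem_centralizer_singleton_iff.mp (F.Q_le hq),
          fun a ha => F.commutator_mem hq ha⟩) (fun c hc => ⟨Subgroup.mem_centralizer_singleton_iff.mp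
          (hCt hc), fun a ha => ?_⟩)
        rw [← Subgroup.mem_centralizer_iff.mp hc a ha]
        simp
      intro g hg a ha
      rw [h] at hK
      exact (hK (Subgroup.mem_centralizer_singleton_iff.mpr hg)).2 a ha
    obtain ⟨a, ha, ha'⟩ : ∃ a ∈ U, a ∉ Subgroup.zpowers t := by
      by_contra hn
      push Not at hn
      have := Subgroup.card_dvd_of_le (show U ≤ Subgroup.zpowers t from hn)
      rw [F.card_U, F.card_zpowers_t] at this
      norm_num at this
    have hsub : U ≤ Subgroup.zpowers t ⊔ Subgroup.zpowers a := by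
      intro b hb
      by_cases hb' : b ∈ Subgroup.zpowers t
      · exact Subgroup.mem_sup_left hb'
      · obtain ⟨g, hg, rfl⟩ := F.trans a ha b hb (fun he => ha' (he ▸ one_mem _))
          (fun he => ha' (he ▸ Subgroup.mem_zpowers t)) (fun he => hb' (he ▸ one_mem _))
          (fun he => hb' (he ▸ Subgroup.mem_zpowers t))
        rw [show g * a * g⁻¹ = (g * a * g⁻¹ * a⁻¹) * a by group]
        exact Subgroup.mul_mem_sup (htriv g hg a ha) (Subgroup.mem_zpowers a)
    have hat : Subgroup.zpowers a ≤ Subgroup.normalizer (Subgroup.zpowers t : Set G) := by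
      rw [Subgroup.zpowers_le]
      refine Subgroup.mem_normalizer_fintype fun x hx => ?_
      obtain ⟨k, rfl⟩ := Subgroup.mem_zpowers_iff.mp hx
      have hc : Commute a (t ^ k) := (show Commute a t from F.comm a ha t F.t_mem).zpow_right k
      rw [SetLike.mem_coe, hc.eq, mul_inv_cancel_right]
      exact Subgroup.mem_zpowers_iff.mpr ⟨k, rfl⟩
    have hfour : Nat.card ↥(Subgroup.zpowers t ⊔ Subgroup.zpowers a) ≤ 4 := by
      have h2 : Nat.card (Subgroup.zpowers a) ≤ 2 := by
        rw [Nat.card_zpowers]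
        exact Nat.le_of_dvd (by norm_num) (orderOf_dvd_of_pow_eq_one (by rw [pow_two]; exact F.sq a ha))
      rw [← SetLike.coe_sort_coe, Subgroup.coe_mul_of_right_le_normalizer_left _ _ hat]
      calc Nat.card ↥((Subgroup.zpowers t : Set G) * (Subgroup.zpowers a : Set G))
          ≤ Nat.card (Subgroup.zpowers t : Set G) * Nat.card (Subgroup.zpowers a : Set G) :=
            Set.natCard_mul_le
        _ ≤ 2 * 2 := by
            exact Nat.mul_le_mul F.card_zpowers_t.le h2
        _ = 4 := rfl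
    have := Subgroup.card_le_of_le hsub
    rw [F.card_U] at this
    omega

/-- The closed side of a frame is an octad subgroup. -/
theorem octad (h : Setup G)
    (hclosed : ∀ v ∈ U, v ≠ 1 → v ≠ t →
      ∃ g : G, g * t * g⁻¹ = v ∧ U.map (MulAut.conj g).toMonoidHom = U) :
    Octad U := by
  classical
  haveI := Fintype.ofFinite G
  have hto : ∀ u ∈ U, u ≠ 1 → ∃ g ∈ Subgroup.normalizer (U : Set G), g * t * g⁻¹ = u := by
    intro u hu h1
    by_cases hut : u = t
    · exact ⟨1, one_mem _, by rw [hut]; group⟩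
    · obtain ⟨g, hg, hmap⟩ := hclosed u hu h1 hut
      refine ⟨g, Subgroup.mem_normalizer_fintype fun e he => ?_, hg⟩
      rw [SetLike.mem_coe]
      conv => rw [← hmap]
      exact ⟨e, he, rfl⟩
  have hct : ∀ c : G, Commute c t → c ∈ Subgroup.normalizer (U : Set G) := fun c hc =>
    Subgroup.mem_normalizer_fintype fun e he => F.normal c hc e he
  have hti : ∀ g : G, ∀ u ∈ U, u ≠ 1 → g * u * g⁻¹ ∈ U → g ∈ Subgroup.normalizer (U : Set G) := by
    intro g u hu h1 hg
    have h2 : g * u * g⁻¹ ≠ 1 := fun he => h1 (by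
      simpa [mul_assoc] using congrArg (fun r => g⁻¹ * r * g) he)
    obtain ⟨n, hn, hnu⟩ := hto u hu h1
    obtain ⟨m, hm, hmw⟩ := hto _ hg h2
    have hk : m⁻¹ * g * n ∈ Subgroup.normalizer (U : Set G) := by
      refine hct _ (mul_inv_eq_iff_eq_mul.mp ?_)
      calc m⁻¹ * g * n * t * (m⁻¹ * g * n)⁻¹ = m⁻¹ * (g * (n * t * n⁻¹) * g⁻¹) * m := by group
        _ = m⁻¹ * (g * u * g⁻¹) * m := by rw [hnu]
        _ = m⁻¹ * (m * t * m⁻¹) * m := by rw [hmw]
        _ = t := by group
    have := mul_mem (mul_mem hm hk) (inv_mem hn)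
    rwa [show m * (m⁻¹ * g * n) * n⁻¹ = g by group] at this
  refine ⟨F.card_U, F.comm, F.sq, F.self_cent, ?_, F.pure, ?_, ?_, hti⟩
  · set N := Subgroup.normalizer (U : Set G) with hNdef
    let X := {w : G // w ∈ U ∧ w ≠ 1}
    letI : MulAction N X :=
      { smul := fun n w => ⟨(n : G) * w.1 * (n : G)⁻¹,
          (Subgroup.mem_normalizer_iff.mp n.2 w.1).mp w.2.1,
          fun he => w.2.2 (by simpa [mul_assoc] using congrArg (fun r => (n : G)⁻¹ * r * (n : G)) he)⟩
        one_smul := fun w => Subtype.ext (show (1 : G) * w.1 * (1 : G)⁻¹ = w.1 by group)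
        mul_smul := fun a b w => Subtype.ext
          (show (a : G) * b * w.1 * ((a : G) * b)⁻¹ = a * ((b : G) * w.1 * (b : G)⁻¹) * (a : G)⁻¹ by
            group) }
    let t0 : X := ⟨t, F.t_mem, F.t_ne_one⟩
    have horb : MulAction.orbit N t0 = Set.univ := Set.eq_univ_of_forall fun w => by
      obtain ⟨n, hn, he⟩ := hto w.1 w.2.1 w.2.2
      exact ⟨⟨n, hn⟩, Subtype.ext he⟩
    have hX : Nat.card X = 15 := by
      have h16 := F.card_U
      rw [show Nat.card U = (U : Set G).toFinset.card from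
        (Nat.card_coe_set_eq (U : Set G)).trans (Set.ncard_eq_toFinset_card' _)] at h16
      change Nat.card {w : G // w ∈ U ∧ w ≠ 1} = 15
      rw [Nat.card_eq_fintype_card, Fintype.card_subtype,
        show (Finset.univ.filter fun w => w ∈ U ∧ w ≠ 1) = (U : Set G).toFinset.erase 1 by
          ext w; simp [and_comm], Finset.card_erase_of_mem (by simp), h16]
    have hst : Nat.card (MulAction.stabilizer N t0) = 21504 := by
      rw [← h.cent_isA t F.isA]
      refine Nat.card_congr
        { toFun := fun n => ⟨(n.1 : G), Subgroup.mem_centralizer_singleton_iff.mpr ?_⟩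
          invFun := fun c => ⟨⟨c.1, hct c.1 (Subgroup.mem_centralizer_singleton_iff.mp c.2)⟩, ?_⟩
          left_inv := fun _ => rfl
          right_inv := fun _ => rfl }
      · exact mul_inv_eq_iff_eq_mul.mp (congrArg Subtype.val n.2)
      · exact Subtype.ext (mul_inv_eq_iff_eq_mul.mpr (Subgroup.mem_centralizer_singleton_iff.mp c.2))
    have h2 := Nat.card_congr (MulAction.orbitProdStabilizerEquivGroup N t0)
    rw [Nat.card_prod, horb, Nat.card_congr (Equiv.Set.univ X), hX, hst] at h2
    omega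
  · intro u hu h1 c hc
    refine hti c u hu h1 ?_
    rw [show c * u = u * c from Subgroup.mem_centralizer_singleton_iff.mp hc, mul_inv_cancel_right]
    exact hu
  · intro u hu w hw h1 h2
    obtain ⟨n, hn, rfl⟩ := hto u hu h1
    obtain ⟨m, hm, rfl⟩ := hto w hw h2
    exact ⟨m * n⁻¹, mul_mem hm (inv_mem hn), by group⟩

end Frame

end CfsgLib.M24Count
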