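import Cfsg.Agent.M24Count.Ovoids
import Mathlib.GroupTheory.GroupAction.Hom
import Mathlib.Data.Fintype.BigOperators
import Mathlib.Algebra.Group.Action.Defs

/-!
The twenty-four points of the geometry: the sets of vertices meeting each line once.
-/

set_option autoImplicit false

namespace CfsgLib.M24Count

universe u v

namespace Geom

variable {G : Type u} {V : Type v} [Group G] [MulAction G V] (Γ : Geom G V)

include Γ in
theorem ovoid_nonempty {S : Set V} (hS : Ovoid Γ S) : S.Nonempty := by
  obtain ⟨x⟩ : Nonempty V := (Nat.card_pos_iff.1 (by rw [Γ.card_V]; norm_num)).1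
  obtain ⟨T, hT⟩ : ∃ T : Finset (Fin 8), T.card = 4 := ⟨{0, 1, 2, 3}, by decide⟩
  obtain ⟨w, hw, -⟩ := Γ.exists_near x hT
  have h3 := (Γ.near_partner x w hw).1
  obtain ⟨w', z, hxz, -⟩ := Set.nonempty_of_ncard_ne_zero
    (s := {w' | ∃ z, Γ.adj x z ∧ Γ.adj z w ∧ Γ.adj z w' ∧ Γ.adj w w'}) (by omega)
  obtain ⟨y, ⟨hxy, hzy⟩, -⟩ := Γ.line x z hxz
  rcases hS x z y hxz hxy hzy with h | h | h
  · exact ⟨x, h.1⟩
  · exact ⟨z, h.2.1⟩
  · exact ⟨y, h.2.2⟩

include Γ in
theorem card_ovoids : Nat.card {S : Set V // Ovoid Γ S} = 24 := by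
  classical
  have : Finite V := Γ.finite_vertices
  let _ : Fintype V := Fintype.ofFinite V
  let Ω : Finset (Finset V) := Finset.univ.filter fun S : Finset V => Ovoid Γ (S : Set V)
  have hΩ : Nat.card {S : Set V // Ovoid Γ S} = Ω.card := by
    rw [← Nat.card_eq_finsetCard]
    exact Nat.card_congr
      { toFun := fun S => ⟨Set.toFinset S.1, by simp [Ω, S.2]⟩
        invFun := fun S => ⟨(S.1 : Set V), (Finset.mem_filter.1 S.2).2⟩
        left_inv := fun S => Subtype.ext (Set.coe_toFinset _)
        right_inv := fun S => Subtype.ext (by simp) }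
  let P : Finset (V × Finset V) := (Finset.univ ×ˢ Ω).filter fun p => p.1 ∈ p.2
  have h1 : P.card = 759 * 8 := by
    rw [Finset.card_eq_sum_card_fiberwise (f := Prod.fst) (t := Finset.univ)
      fun _ _ => Finset.mem_univ _, Finset.sum_const_nat (m := 8) fun x _ => ?_,
      Finset.card_univ, ← Nat.card_eq_fintype_card, Γ.card_V]
    rw [← Γ.ncard_ovoid_through x, ← Set.ncard_coe_finset]
    refine Set.ncard_congr (fun p _ => ((p.2 : Finset V) : Set V)) ?_ ?_ ?_
    · intro p hp
      simp only [P, Ω, Finset.coe_filter, Finset.mem_filter, Finset.mem_product, Finset.mem_univ,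
        true_and, Set.mem_ofPred_eq] at hp
      exact ⟨hp.1.1, hp.2 ▸ hp.1.2⟩
    · intro p q hp hq h
      simp only [Finset.coe_filter, Set.mem_ofPred_eq] at hp hq
      exact Prod.ext (hp.2.trans hq.2.symm) (Finset.coe_injective h)
    · rintro S ⟨hS, hx⟩
      exact ⟨(x, S.toFinset), by simp [P, Ω, hS, hx], Set.coe_toFinset S⟩
  have h2 : P.card = Ω.card * 253 := by
    rw [Finset.card_eq_sum_card_fiberwise (f := Prod.snd) (t := Ω) fun p hp =>
      (Finset.mem_product.1 (Finset.mem_filter.1 hp).1).2,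
      Finset.sum_const_nat (m := 253) fun S hS => ?_]
    have hS' : Ovoid Γ (S : Set V) := (Finset.mem_filter.1 hS).2
    obtain ⟨x, hx⟩ := Γ.ovoid_nonempty hS'
    obtain ⟨i, hi⟩ := Γ.eq_star hS' hx
    have h : (P.filter fun p => p.2 = S) = S.map ⟨fun y => (y, S), fun a b h => congrArg Prod.fst h⟩ := by
      ext ⟨y, T⟩
      simp only [P, Finset.mem_filter, Finset.mem_product, Finset.mem_univ, true_and,
        Finset.mem_map]
      constructor
      · rintro ⟨⟨-, hy⟩, rfl⟩
        exact ⟨y, hy, rfl⟩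
      · rintro ⟨a, ha, heq⟩
        obtain ⟨rfl, rfl⟩ := Prod.mk.inj heq
        exact ⟨⟨hS, ha⟩, rfl⟩
    rw [h, Finset.card_map, ← Set.ncard_coe_finset, hi, Γ.ncard_star]
  omega

/-- The twenty-four points. -/
theorem hasPoints [FaithfulSMul G V] (Γ : Geom G V) : HasPoints G V := by
  classical
  have : Finite V := Γ.finite_vertices
  let Ω := {S : Set V // Ovoid Γ S}
  obtain ⟨e⟩ : Nonempty (Ω ≃ Fin 24) := ⟨Finite.equivFinOfCardEq Γ.card_ovoids⟩
  let _ : MulAction G Ω :=
    { smul := fun g S => ⟨(fun w => g • w) '' S.1, S.2.image_smul g⟩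
      one_smul := fun S => Subtype.ext (show (fun w => (1 : G) • w) '' S.1 = S.1 by simp)
      mul_smul := fun g h S => Subtype.ext
        (show (fun w => (g * h) • w) '' S.1 = (fun w => g • w) '' ((fun w => h • w) '' S.1) by
          simp [Set.image_image, mul_smul]) }
  let act : G →* Equiv.Perm (Fin 24) := e.permCongrHom.toMonoidHom.comp (MulAction.toPermHom G Ω)
  let blk : V → Finset (Fin 24) := fun x => Finset.univ.filter fun k => x ∈ (e.symm k).1
  let pnt : V → Fin 8 → Fin 24 := fun x i => e ⟨Γ.star x i, Γ.ovoid_star x i⟩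
  have hblk' : ∀ x, blk x = Finset.univ.image (pnt x) := by
    intro x
    ext k
    simp only [blk, pnt, Finset.mem_filter, Finset.mem_univ, true_and, Finset.mem_image]
    constructor
    · intro hk
      obtain ⟨i, hi⟩ := Γ.eq_star (e.symm k).2 hk
      exact ⟨i, by rw [← Equiv.eq_symm_apply]; exact Subtype.ext hi.symm⟩
    · rintro ⟨i, rfl⟩
      rw [Equiv.symm_apply_apply]
      exact Γ.self_mem_star x i
  have hcard : ∀ x, (blk x).card = 8 := fun x => by
    rw [hblk', Finset.card_image_of_injective _ fun i j h =>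
      Γ.star_injective x (congrArg Subtype.val (e.injective h)), Finset.card_univ, Fintype.card_fin]
  have hmeet : ∀ x w, x ≠ w → (blk x ∩ blk w).card ≤ 4 := by
    intro x w hne
    have hsub : blk x ∩ blk w ⊆
        (Finset.univ.filter fun i => w ∈ Γ.star x i).image (pnt x) := by
      intro k hk
      rw [hblk' x] at hk
      simp only [Finset.mem_inter, Finset.mem_image, Finset.mem_univ, true_and, blk,
        Finset.mem_filter] at hk
      obtain ⟨⟨i, rfl⟩, hw⟩ := hk
      refine Finset.mem_image_of_mem _ (Finset.mem_filter.2 ⟨Finset.mem_univ i, ?_⟩)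
      simpa [pnt] using hw
    refine (Finset.card_le_card hsub).trans (Finset.card_image_le.trans ?_)
    rcases Γ.cases x w with h | h | h | h
    · exact absurd h hne
    · simp [Γ.not_mem_star_adj h]
    · rw [show (Finset.univ.filter fun i => w ∈ Γ.star x i) = Γ.tet x w by
        ext i; simp [Γ.mem_star_near h], Γ.tet_card x w h]
    · rw [show (Finset.univ.filter fun i => w ∈ Γ.star x i) = Γ.duad x w by
        ext i; simp [Γ.mem_star_far h], Γ.duad_card x w h]
      norm_num
  have hmem : ∀ (g : G) (x : V) (S : Ω), g • x ∈ (g • S).1 ↔ x ∈ S.1 := fun g x S => by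
    show g • x ∈ (fun w => g • w) '' S.1 ↔ x ∈ S.1
    exact (MulAction.injective g).mem_set_image
  have hact : ∀ (g : G) (k : Fin 24), e.symm (act g k) = g • e.symm k := fun g k => by
    show e.symm (e (g • e.symm k)) = _
    rw [Equiv.symm_apply_apply]
  have heq : ∀ g x, blk (g • x) = (blk x).image (act g) := by
    intro g x
    symm
    refine Finset.eq_of_subset_of_card_le ?_ ?_
    · intro k hk
      simp only [blk, Finset.mem_image, Finset.mem_filter, Finset.mem_univ, true_and] at hk ⊢
      obtain ⟨j, hj, rfl⟩ := hk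
      rw [hact]
      exact (hmem g x _).2 hj
    · rw [Finset.card_image_of_injective _ (act g).injective, hcard, hcard]
  refine ⟨act, blk, (injective_iff_map_eq_one act).2 fun g hg => ?_, hcard, heq, hmeet⟩
  refine eq_of_smul_eq_smul (α := V) fun x => ?_
  rw [one_smul]
  by_contra hne
  have h := hmeet _ _ hne
  rw [heq, hg, Equiv.Perm.coe_one, Finset.image_id, Finset.inter_self, hcard] at h
  omega

end Geom

end CfsgLib.M24Count
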