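import Cfsg.Agent.M24Count.NotNine
import Cfsg.Agent.M24Count.ModelSide
import Cfsg.Agent.M24Count.Octad
import Cfsg.Agent.M24Count.Closed
import Cfsg.Agent.M24Count.GeomExists
import Cfsg.Agent.M24Count.Points
import Cfsg.Agent.M24Count.Final

/-!
The recognition of `M₂₄` by order and element-order counts from its two inputs: the order 504
of the centraliser of an element of order three commuting with one of order seven, and a frame at an involution of class A.
-/

set_option autoImplicit false

namespace CfsgLib.M24Count

universe u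

variable {G : Type u} [Group G] [Finite G]

/-- A frame yields an octad subgroup. -/
theorem exists_octad_of_frame (hs : Setup G) {t : G} {Q U U' : Subgroup G}
    (F : Frame t Q U U') : Octad U :=
  F.octad hs fun _ hv h1 h2 => F.closed hs hv h1 h2

/-- An octad subgroup identifies the group. -/
theorem iso_M24_of_octad (hs : Setup G) {E : Subgroup G} (h : Octad E) :
    Nonempty (G ≃* ↥Cfsg.M24) := by
  obtain ⟨V, _, _, ⟨Γ⟩⟩ := exists_geom hs h
  exact iso_M24_of_points hs.card Γ.card_V Γ.hasPoints

/-- The counting hypothesis follows from the order and the set of counts. -/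
theorem countHyp_of_nse (hcard : Nat.card G = Nat.card ↥Cfsg.M24)
    (hnse : {c : ℕ | 0 < c ∧ ∃ n : ℕ, c = Nat.card {g : G // orderOf g = n}} =
      {c : ℕ | 0 < c ∧ ∃ n : ℕ, c = Nat.card {g : ↥Cfsg.M24 // orderOf g = n}}) :
    CountHyp G := by
  refine ⟨hcard.trans countHyp_M24.card, fun n hn => ?_, fun c hc => ?_⟩
  · have h : cnt G n ∈ {c : ℕ | 0 < c ∧ ∃ k : ℕ, c = Nat.card {g : G // orderOf g = k}} :=
      ⟨Nat.pos_of_ne_zero hn, n, rfl⟩
    rw [hnse] at h
    obtain ⟨h0, m, hm⟩ := h
    rw [hm]
    exact countHyp_M24.mem m fun e => by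
      simp only [cnt] at e
      omega
  · obtain ⟨m, hm⟩ := countHyp_M24.surj c hc
    have hc0 : 0 < c := by
      simp only [countValues, Finset.mem_insert, Finset.mem_singleton] at hc
      omega
    have h : c ∈ {c : ℕ | 0 < c ∧ ∃ k : ℕ, c = Nat.card {g : ↥Cfsg.M24 // orderOf g = k}} :=
      ⟨hc0, m, hm.symm⟩
    rw [← hnse] at h
    obtain ⟨-, k, hk⟩ := h
    exact ⟨k, hk.symm⟩

/-- The assembly from the two inputs: the centraliser of an element of order three commuting with
one of order seven, and a frame. -/
theorem iso_M24_of_inputs (h : CountHyp G)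
    (ha : ∀ f x : G, orderOf f = 7 → orderOf x = 3 → Commute f x →
      Nat.card (Subgroup.centralizer ({x} : Set G)) = 504)
    (hframe : Setup G → ∃ (t : G) (Q U U' : Subgroup G), Frame t Q U U') :
    Nonempty (G ≃* ↥Cfsg.M24) := by
  obtain ⟨t, Q, U, U', F⟩ := hframe (h.setup_of_cent_three ha)
  exact iso_M24_of_octad (h.setup_of_cent_three ha)
    (exists_octad_of_frame (h.setup_of_cent_three ha) F)

end CfsgLib.M24Count
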