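import Cfsg.Agent.M24Count.Defs
import Cfsg.Agent.M23Count.CoreLocal
import Cfsg.Agent.Chars.Apps.Burnside
import Mathlib.GroupTheory.Sylow
import Mathlib.GroupTheory.PGroup
import Mathlib.GroupTheory.Index

/-!
The centraliser of an involution outside class A: its two-core `R` has order 64, contains its
centraliser and the quotient is the symmetric group on five letters.

The centraliser of an element of order 5 inside has order 20 and the normaliser 80. Hence every
solvable normal subgroup is a 2-group; a group of order `2 ^ k * 15` without solvable normal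
subgroups embeds in `S₅`, and the normaliser of order 80 forces `|R| = 64`.
-/

set_option autoImplicit false
set_option linter.style.haveILetI false

namespace CfsgLib.M24Count

universe u

namespace CentB

open Subgroup

variable {X : Type u} [Group X] [Finite X]

theorem solvable_of_dvd {q k : ℕ} (hq : q.Prime) (h : Nat.card X ∣ 2 ^ k * q) :
    Group.IsSolvable X :=
  CfsgLib.Chars.Apps.isSolvable_of_primeFactors_subset X Nat.prime_two hq fun r hr hd => by
    rcases (Nat.Prime.dvd_mul hr).1 (hd.trans h) with h' | h'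
    · exact Or.inl ((Nat.prime_dvd_prime_iff_eq hr Nat.prime_two).1 (hr.dvd_of_dvd_pow h'))
    · exact Or.inr ((Nat.prime_dvd_prime_iff_eq hr hq).1 h')

/-- Every nontrivial solvable normal subgroup is excluded. -/
def NoRadical (X : Type u) [Group X] : Prop :=
  ∀ N : Subgroup X, N.Normal → Group.IsSolvable N → N = ⊥

variable {k : ℕ}

theorem index_cases (hc : Nat.card X = 2 ^ k * 15) (H : Subgroup X) (h2 : 2 ^ k ∣ Nat.card H) :
    H.index ∈ ({1, 3, 5, 15} : Finset ℕ) ∧ Nat.card H * H.index = 2 ^ k * 15 := by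
  have e := H.card_mul_index
  rw [hc] at e
  refine ⟨?_, e⟩
  obtain ⟨m, hm⟩ := h2
  rw [hm, mul_assoc] at e
  have e' : m * H.index = 15 := mul_left_cancel₀ (by positivity) e
  have : H.index ∈ Nat.divisors 15 := Nat.mem_divisors.2 ⟨Dvd.intro_left _ e', by norm_num⟩
  simpa [show Nat.divisors 15 = {1, 3, 5, 15} from by decide] using this

theorem perm_injective (hr : NoRadical X) (H : Subgroup X) (hs : Group.IsSolvable H) :
    Function.Injective (MulAction.toPermHom X (X ⧸ H)) := by
  rw [← MonoidHom.ker_eq_bot_iff, ← Subgroup.normalCore_eq_ker]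
  haveI := hs
  exact hr _ H.normalCore_normal
    (solvable_of_solvable_injective (f := Subgroup.inclusion H.normalCore_le)
      (Subgroup.inclusion_injective _))

theorem no_index_three (hk : 2 ≤ k) (hc : Nat.card X = 2 ^ k * 15) (hr : NoRadical X)
    (H : Subgroup X) (hH : H.index = 3) : False := by
  have e := H.card_mul_index
  rw [hc, hH] at e
  have hs : Group.IsSolvable H := solvable_of_dvd (q := 5) (k := k) Nat.prime_five
    (dvd_of_eq (by omega))
  have h := Subgroup.card_dvd_of_injective _ (perm_injective hr H hs)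
  rw [hc, Nat.card_perm, ← Subgroup.index_eq_card, hH] at h
  have h4 : (2 : ℕ) ^ 2 ∣ 2 ^ k := pow_dvd_pow 2 hk
  have : 4 ∣ Nat.factorial 3 := (h4.trans (Dvd.intro _ rfl)).trans h
  norm_num [Nat.factorial] at this

theorem exists_perm_five (hk : 2 ≤ k) (hc : Nat.card X = 2 ^ k * 15) (hr : NoRadical X) :
    ∃ φ : X →* Equiv.Perm (Fin 5), Function.Injective φ := by
  classical
  haveI : Fact (Nat.Prime 2) := ⟨Nat.prime_two⟩
  suffices hH : ∃ H : Subgroup X, H.index = 5 ∧ 2 ^ k ∣ Nat.card H by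
    obtain ⟨H, hH, h2⟩ := hH
    have e := H.card_mul_index
    rw [hc, hH] at e
    have hs : Group.IsSolvable H := solvable_of_dvd (q := 3) (k := k) Nat.prime_three
      (dvd_of_eq (by omega))
    let eq5 : X ⧸ H ≃ Fin 5 := Finite.equivFinOfCardEq (by rw [← Subgroup.index_eq_card, hH])
    exact ⟨eq5.permCongrHom.toMonoidHom.comp (MulAction.toPermHom X (X ⧸ H)),
      eq5.permCongrHom.injective.comp (perm_injective hr H hs)⟩
  obtain ⟨S⟩ : Nonempty (Sylow 2 X) := inferInstance
  have hS : Nat.card S = 2 ^ k := by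
    rw [S.card_eq_multiplicity, hc]
    congr 1
    rw [Nat.factorization_mul (by positivity) (by norm_num)]
    simp [Nat.factorization_eq_zero_of_not_dvd, Nat.prime_two.factorization_self]
  have hk1 : (2 : ℕ) ^ 2 ≤ 2 ^ k := Nat.pow_le_pow_right (show 0 < 2 by norm_num) hk
  -- no overgroup of `S` has index 1 unless it is everything
  have step : ∀ H : Subgroup X, (S : Subgroup X) ≤ H → H ≠ ⊤ →
      H.index = 5 ∨ (H.index = 15 ∧ H = (S : Subgroup X)) := by
    intro H hle hne
    have h2 : 2 ^ k ∣ Nat.card H := hS ▸ Subgroup.card_dvd_of_le hle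
    obtain ⟨hi, e⟩ := index_cases hc H h2
    simp only [Finset.mem_insert, Finset.mem_singleton] at hi
    rcases hi with h | h | h | h15
    · exact absurd (Subgroup.index_eq_one.1 h) hne
    · exact (no_index_three hk hc hr H h).elim
    · exact Or.inl h
    · refine Or.inr ⟨h15, (Subgroup.eq_of_le_of_card_ge hle ?_).symm⟩
      rw [h15] at e
      rw [hS]; omega
  have solv2 : ∀ D : Subgroup X, D ≤ (S : Subgroup X) → Group.IsSolvable D := fun D hD => by
    refine solvable_of_dvd (q := 3) (k := k) Nat.prime_three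
      ((Subgroup.card_dvd_of_le hD).trans ?_)
    rw [hS]; exact Dvd.intro _ rfl
  by_cases hN : Subgroup.normalizer ((S : Subgroup X) : Set X) = ⊤
  · have := hr _ (Subgroup.normalizer_eq_top_iff.1 hN) (solv2 _ le_rfl)
    rw [← Subgroup.card_eq_one] at this
    omega
  rcases step _ Subgroup.le_normalizer hN with h5 | ⟨h15, hNS⟩
  · exact ⟨_, h5, hS ▸ Subgroup.card_dvd_of_le Subgroup.le_normalizer⟩
  have hn15 : Nat.card (Sylow 2 X) = 15 := S.card_eq_index_normalizer.trans h15
  -- a second Sylow subgroup meeting `S` in index two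
  have stab : ∀ T : Sylow 2 X, MulAction.stabilizer (↥(S : Subgroup X)) T =
      ((S : Subgroup X) ⊓ (T : Subgroup X)).subgroupOf (S : Subgroup X) := by
    intro T
    rw [← S.2.inf_normalizer_sylow T]
    ext s
    simp only [MulAction.mem_stabilizer_iff, Subgroup.mem_subgroupOf, Subgroup.mem_inf]
    exact ⟨fun h => ⟨s.2, Sylow.smul_eq_iff_mem_normalizer.1 h⟩,
      fun h => Sylow.smul_eq_iff_mem_normalizer.2 h.2⟩
  have orb : ∀ T : Sylow 2 X,
      Nat.card (MulAction.orbit (↥(S : Subgroup X)) T) *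
        Nat.card ↥((S : Subgroup X) ⊓ (T : Subgroup X)) = 2 ^ k := by
    intro T
    rw [← hS, ← Nat.card_congr (Subgroup.subgroupOfEquivOfLe
      (inf_le_left (a := (S : Subgroup X)) (b := (T : Subgroup X)))).toEquiv, ← stab T]
    rw [← Subgroup.index_mul_card (MulAction.stabilizer (↥(S : Subgroup X)) T),
      MulAction.index_stabilizer, Nat.card_coe_set_eq]
  obtain ⟨T, hT⟩ : ∃ T : Sylow 2 X, Nat.card (MulAction.orbit (↥(S : Subgroup X)) T) = 2 := by
    by_contra hno
    push Not at hno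
    have h4 : ∀ T : Sylow 2 X, T ≠ S →
        4 ∣ Nat.card (MulAction.orbit (↥(S : Subgroup X)) T) := by
      intro T hT
      obtain ⟨j, -, hj⟩ := (Nat.dvd_prime_pow Nat.prime_two).1 (Dvd.intro _ (orb T))
      rw [hj]
      rcases j with _ | _ | j
      · refine absurd ?_ hT
        have := orb T
        rw [hj, pow_zero, one_mul, ← hS] at this
        have hle : (S : Subgroup X) ≤ (T : Subgroup X) :=
          inf_eq_left.1 (Subgroup.eq_of_le_of_card_ge inf_le_left this.ge)
        exact Sylow.ext (S.3 T.2 hle)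
      · exact absurd (by rw [hj]; rfl) (hno T)
      · exact Dvd.intro (2 ^ j) (by ring)
    have hSfix : Nat.card (MulAction.orbit (↥(S : Subgroup X)) S) = 1 := by
      have := orb S
      rw [inf_idem, hS] at this
      exact mul_right_cancel₀ (b := 2 ^ k) (by positivity) (by rw [this, one_mul])
    have hsum := Nat.card_congr (MulAction.selfEquivSigmaOrbits (↥(S : Subgroup X)) (Sylow 2 X))
    haveI : Fintype (Quotient (MulAction.orbitRel (↥(S : Subgroup X)) (Sylow 2 X))) :=
      Fintype.ofFinite _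
    rw [hn15, Nat.card_sigma] at hsum
    rw [← Finset.add_sum_erase _ _ (Finset.mem_univ
      (Quotient.mk (MulAction.orbitRel (↥(S : Subgroup X)) (Sylow 2 X)) S))] at hsum
    have hrest : 4 ∣ ∑ ω ∈ Finset.univ.erase
        (Quotient.mk (MulAction.orbitRel (↥(S : Subgroup X)) (Sylow 2 X)) S),
        Nat.card (MulAction.orbit (↥(S : Subgroup X)) ω.out) := by
      refine Finset.dvd_sum fun ω hω => h4 _ fun h => (Finset.mem_erase.1 hω).1 ?_
      rw [← Quotient.out_eq ω, h]
    have hfix' : Nat.card (MulAction.orbit (↥(S : Subgroup X))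
        (Quotient.mk (MulAction.orbitRel (↥(S : Subgroup X)) (Sylow 2 X)) S).out) = 1 := by
      rw [MulAction.orbit_eq_iff.2 (Quotient.mk_out (s := MulAction.orbitRel _ _) S), hSfix]
    omega
  have hD : Nat.card ↥((S : Subgroup X) ⊓ (T : Subgroup X)) * 2 = 2 ^ k := by
    have := orb T; rw [hT] at this; omega
  set D := (S : Subgroup X) ⊓ (T : Subgroup X) with hDdef
  have hTcard : Nat.card T = 2 ^ k := by rw [T.card_eq_multiplicity, ← S.card_eq_multiplicity, hS]
  have le_norm : ∀ A : Subgroup X, D ≤ A → Nat.card A = 2 ^ k →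
      A ≤ Subgroup.normalizer (D : Set X) := by
    intro A hle hA
    rw [← Subgroup.normal_subgroupOf_iff_le_normalizer hle]
    refine Subgroup.normal_of_index_eq_two ?_
    have e := (D.subgroupOf A).card_mul_index
    rw [Nat.card_congr (Subgroup.subgroupOfEquivOfLe hle).toEquiv, hA, ← hD] at e
    exact mul_left_cancel₀ Nat.card_pos.ne' e
  have hND : Subgroup.normalizer (D : Set X) ≠ ⊤ := fun h => by
    have := hr _ (Subgroup.normalizer_eq_top_iff.1 h) (solv2 _ inf_le_left)
    rw [← Subgroup.card_eq_one] at this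
    omega
  rcases step _ (le_norm _ inf_le_left hS) hND with h5 | ⟨-, hDS⟩
  · exact ⟨_, h5, hS ▸ Subgroup.card_dvd_of_le (le_norm _ inf_le_left hS)⟩
  · exfalso
    have hTS : (T : Subgroup X) ≤ (S : Subgroup X) := hDS ▸ le_norm _ inf_le_right hTcard
    have : D = (T : Subgroup X) := inf_eq_right.2 hTS
    rw [this, hTcard] at hD
    omega

theorem perm_five_normalizer : ∀ s : Equiv.Perm (Fin 5), s ^ 5 = 1 → s ≠ 1 →
    (Finset.univ.filter fun a : Equiv.Perm (Fin 5) => a * s * a⁻¹ = s ∨ a * s * a⁻¹ = s ^ 2 ∨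
      a * s * a⁻¹ = s ^ 3 ∨ a * s * a⁻¹ = s ^ 4).card ≤ 20 := by
  decide +kernel

theorem perm_five_involution : ∀ s : Equiv.Perm (Fin 5), s * s = 1 → s ≠ 1 →
    (Finset.univ.filter fun a : Equiv.Perm (Fin 5) => a * s = s * a).card ≤ 12 := by
  decide +kernel

theorem perm_five_card : Nat.card (Equiv.Perm (Fin 5)) = 120 := by
  rw [Nat.card_perm, Nat.card_fin]; rfl

/-- The hypotheses on the centraliser as a group by itself. -/
structure Cent (H : Type u) [Group H] : Prop where
  card : Nat.card H = 7680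
  exists_five : ∃ f : H, orderOf f = 5
  cent : ∀ f : H, orderOf f = 5 → Nat.card (Subgroup.centralizer ({f} : Set H)) = 20
  norm : ∀ f : H, orderOf f = 5 →
    Nat.card (Subgroup.normalizer (Subgroup.zpowers f : Set H)) = 80

variable {H : Type u} [Group H] [Finite H]

theorem dvd_card_of_sup_eq_top {A N : Subgroup H} [N.Normal] (h : A ⊔ N = ⊤) :
    Nat.card H ∣ Nat.card A * Nat.card N := by
  have h1 : Nat.card H = N.index * Nat.card N := (N.index_mul_card).symm
  have h2 : N.index ∣ Nat.card A := by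
    have hrel : N.relIndex A = N.index := by
      rw [← Subgroup.relIndex_top_right N, ← h, Subgroup.relIndex_sup_right]
    exact hrel ▸ Subgroup.relIndex_dvd_card N A
  rw [h1]
  exact mul_dvd_mul_right h2 _

theorem Cent.no_three (hC : Cent H) (L : Subgroup H) [L.Normal] (h3 : 3 ∣ Nat.card L)
    (h5 : ¬ 5 ∣ Nat.card L) : False := by
  haveI : Fact (Nat.Prime 3) := ⟨Nat.prime_three⟩
  haveI : Fact (Nat.Prime 5) := ⟨Nat.prime_five⟩
  obtain ⟨P⟩ : Nonempty (Sylow 3 L) := inferInstance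
  have hL : Nat.card L ∣ 7680 := hC.card ▸ Subgroup.card_subgroup_dvd_card L
  have hP : Nat.card P = 3 := by
    rw [P.card_eq_multiplicity]
    have h1 : 1 ≤ (Nat.card L).factorization 3 :=
      (Nat.Prime.dvd_iff_one_le_factorization Nat.prime_three Nat.card_pos.ne').1 h3
    have h2 : (Nat.card L).factorization 3 ≤ (7680 : ℕ).factorization 3 :=
      (Nat.factorization_le_iff_dvd Nat.card_pos.ne' (by norm_num)).2 hL 3
    have h3' : (7680 : ℕ).factorization 3 = 1 := by
      rw [show (7680 : ℕ) = 3 * 2560 from rfl, Nat.factorization_mul (by norm_num) (by norm_num)]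
      simp [Nat.factorization_eq_zero_of_not_dvd, Nat.prime_three.factorization_self]
    rw [show (Nat.card L).factorization 3 = 1 by omega, pow_one]
  set T := (P : Subgroup L).map L.subtype with hTdef
  have hT : Nat.card T = 3 := by rw [hTdef, Subgroup.card_map_of_injective L.subtype_injective, hP]
  have hd := dvd_card_of_sup_eq_top (Sylow.normalizer_sup_eq_top P)
  rw [hC.card] at hd
  have h5N : 5 ∣ Nat.card (Subgroup.normalizer (T : Set H)) :=
    ((Nat.Prime.dvd_mul Nat.prime_five).1 ((show 5 ∣ 7680 by norm_num).trans hd)).resolve_right h5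
  obtain ⟨f, hf⟩ := exists_prime_orderOf_dvd_card' 5 h5N
  have hf' : orderOf (f : H) = 5 := by rwa [Subgroup.orderOf_coe]
  obtain ⟨x, hx⟩ := exists_prime_orderOf_dvd_card' (G := T) 3 (dvd_of_eq hT.symm)
  have hx' : orderOf (x : H) = 3 := by rwa [Subgroup.orderOf_coe]
  have hTz : T = Subgroup.zpowers (x : H) := (Subgroup.eq_of_le_of_card_ge
    (Subgroup.zpowers_le.2 x.2) (by rw [Nat.card_zpowers, hx', hT])).symm
  have hconj : ∀ g ∈ Subgroup.normalizer (T : Set H),
      g * (x : H) * g⁻¹ = x ∨ g * (x : H) * g⁻¹ = (x : H)⁻¹ := by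
    intro g hg
    have hm₀ : g * (x : H) * g⁻¹ ∈ T := (Subgroup.mem_normalizer_iff.1 hg _).1 x.2
    have hm : g * (x : H) * g⁻¹ ∈ Subgroup.zpowers (x : H) := hTz.le hm₀
    obtain ⟨i, hi⟩ := Subgroup.mem_zpowers_iff.1 hm
    have hi3 : (x : H) ^ i = (x : H) ^ (i % 3) := by
      rw [← zpow_mod_orderOf, hx']; rfl
    have hne : g * (x : H) * g⁻¹ ≠ 1 := fun h => by
      rw [conj_eq_one_iff] at h
      rw [h, orderOf_one] at hx'
      norm_num at hx'
    have h3 : (x : H) ^ (3 : ℕ) = 1 := hx' ▸ pow_orderOf_eq_one (x : H)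
    have h0 := Int.emod_nonneg i (show (3 : ℤ) ≠ 0 by norm_num)
    have h1 := Int.emod_lt_of_pos i (show (0 : ℤ) < 3 by norm_num)
    rw [hi3] at hi
    interval_cases hh : i % 3
    · exact absurd (by rw [← hi, zpow_zero]) hne
    · exact Or.inl (by rw [← hi, zpow_one])
    · refine Or.inr ?_
      rw [← hi]
      refine eq_inv_of_mul_eq_one_left ?_
      calc (x : H) ^ (2 : ℤ) * x = (x : H) ^ (3 : ℕ) := by group
        _ = 1 := h3
  have hfix : ∀ g ∈ Subgroup.normalizer (T : Set H), Commute (g * g) (x : H) := by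
    intro g hg
    refine (mul_inv_eq_iff_eq_mul.1 ?_ : g * g * (x : H) = x * (g * g))
    have e : g * g * (x : H) * (g * g)⁻¹ = g * (g * (x : H) * g⁻¹) * g⁻¹ := by group
    rw [e]
    rcases hconj g hg with h | h
    · rw [h, h]
    · rw [h, show g * (x : H)⁻¹ * g⁻¹ = (g * (x : H) * g⁻¹)⁻¹ by group, h, inv_inv]
  have hcom : Commute (f : H) (x : H) := by
    have h5' : (f : H) ^ 5 = 1 := hf' ▸ pow_orderOf_eq_one (f : H)
    have e : (f : H) = ((f : H) * f) ^ 3 := by
      rw [← pow_two, ← pow_mul, show 2 * 3 = 5 + 1 from rfl, pow_add, h5', one_mul, pow_one]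
    rw [e]
    exact (hfix _ f.2).pow_left 3
  have hd3 : orderOf (x : H) ∣ 20 := hC.cent _ hf' ▸ (Subgroup.orderOf_mk (x : H)
    (Subgroup.mem_centralizer_singleton_iff.2 hcom.eq.symm) ▸ orderOf_dvd_natCard _)
  rw [hx'] at hd3
  norm_num at hd3

theorem Cent.no_five (hC : Cent H) (L : Subgroup H) [L.Normal] (h5 : 5 ∣ Nat.card L)
    (h3 : ¬ 3 ∣ Nat.card L) : False := by
  haveI : Fact (Nat.Prime 5) := ⟨Nat.prime_five⟩
  obtain ⟨P⟩ : Nonempty (Sylow 5 L) := inferInstance
  obtain ⟨f, hf⟩ := exists_prime_orderOf_dvd_card' 5 h5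
  have hf' : orderOf (f : H) = 5 := by rwa [Subgroup.orderOf_coe]
  have hd := dvd_card_of_sup_eq_top (Sylow.normalizer_sup_eq_top P)
  rw [hC.card] at hd
  have hP : Nat.card P = 5 := by
    obtain ⟨j, hj⟩ := P.2.exists_card_eq
    have hd5 : 5 ^ j ∣ 7680 := hC.card ▸ hj ▸ ((Subgroup.card_subgroup_dvd_card (P : Subgroup L)).trans
      (Subgroup.card_subgroup_dvd_card L))
    have h1 : 5 ∣ Nat.card P := P.dvd_card_of_dvd_card h5
    rcases j with _ | _ | j
    · simp [hj] at h1
    · exact hj.trans (pow_one 5)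
    · exact absurd ((Nat.pow_dvd_pow 5 (by omega : 2 ≤ j + 2)).trans hd5) (by norm_num)
  set T := (P : Subgroup L).map L.subtype with hTdef
  have hT : Nat.card T = 5 := by rw [hTdef, Subgroup.card_map_of_injective L.subtype_injective, hP]
  obtain ⟨x, hx⟩ := exists_prime_orderOf_dvd_card' (G := T) 5 (dvd_of_eq hT.symm)
  have hx' : orderOf (x : H) = 5 := by rwa [Subgroup.orderOf_coe]
  have hTz : T = Subgroup.zpowers (x : H) := (Subgroup.eq_of_le_of_card_ge
    (Subgroup.zpowers_le.2 x.2) (by rw [Nat.card_zpowers, hx', hT])).symm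
  rw [hTz, hC.norm _ hx'] at hd
  exact h3 ((Nat.Prime.dvd_mul Nat.prime_three).1 ((show 3 ∣ 7680 by norm_num).trans hd)
    |>.resolve_left (by norm_num))

theorem Cent.isPGroup_of_solvable (hC : Cent H) : ∀ (n : ℕ) (L : Subgroup H), L.Normal →
    Group.IsSolvable L → Nat.card L = n → IsPGroup 2 L := by
  intro n
  induction n using Nat.strong_induction_on with
  | _ n ih =>
  intro L hL hs hn
  by_cases h35 : ¬ 3 ∣ Nat.card L ∧ ¬ 5 ∣ Nat.card L
  · have hd : Nat.card L ∣ 2 ^ 9 * 15 := by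
      rw [show (2 : ℕ) ^ 9 * 15 = 7680 from rfl, ← hC.card]
      exact Subgroup.card_subgroup_dvd_card L
    have hcop : (Nat.card L).Coprime 15 := by
      rw [show (15 : ℕ) = 3 * 5 from rfl]
      exact Nat.Coprime.mul_right ((Nat.prime_three.coprime_iff_not_dvd.2 h35.1).symm)
        ((Nat.prime_five.coprime_iff_not_dvd.2 h35.2).symm)
    obtain ⟨j, -, hj⟩ := (Nat.dvd_prime_pow Nat.prime_two).1 (hcop.dvd_of_dvd_mul_right hd)
    exact IsPGroup.of_card hj
  exfalso
  haveI := hL
  by_cases h3 : 3 ∣ Nat.card L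
  swap
  · exact hC.no_five L (by tauto) h3
  by_cases h5 : 5 ∣ Nat.card L
  swap
  · exact hC.no_three L h3 h5
  -- the derived subgroup is smaller, hence a 2-group
  haveI := hs
  set D : Subgroup H := (commutator L).map L.subtype with hD
  have hDn : D.Normal := inferInstance
  have hlt : Nat.card D < n := by
    rw [hD, Subgroup.card_map_of_injective L.subtype_injective, ← hn]
    haveI : Nontrivial L := Finite.one_lt_card_iff_nontrivial.1
      (lt_of_lt_of_le (by norm_num) (Nat.le_of_dvd Nat.card_pos h5))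
    refine lt_of_le_of_ne (Subgroup.card_le_card_group _) fun he => ?_
    have h : commutator L < ⊤ := by
      simpa [commutator_def] using Group.IsSolvable.commutator_lt_of_ne_bot (G := L) (H := ⊤) top_ne_bot
    exact h.ne (Subgroup.eq_top_of_card_eq (commutator L) he)
  haveI : Group.IsSolvable ↥(commutator L) :=
    solvable_of_solvable_injective (f := (commutator L).subtype) (commutator L).subtype_injective
  have hDs : Group.IsSolvable D := solvable_of_surjective
    (f := (L.subtype.subgroupMap (commutator L))) (L.subtype.subgroupMap_surjective _)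
  have hD2 : IsPGroup 2 D := ih _ hlt D hDn hDs rfl
  obtain ⟨jD, hjD⟩ := hD2.exists_card_eq
  have hD' : ∀ {p : ℕ} (x : L), p.Prime → orderOf x = p → p ≠ 2 → x ∉ commutator L := by
    intro p x hp hx hp2 hm
    have := (Subgroup.orderOf_mk (x : H) (Subgroup.mem_map_of_mem L.subtype hm : (x : H) ∈ D)) ▸
      orderOf_dvd_natCard (⟨(x : H), Subgroup.mem_map_of_mem L.subtype hm⟩ : D)
    rw [Subgroup.orderOf_coe, hx, hjD] at this
    exact hp2 ((Nat.prime_dvd_prime_iff_eq hp Nat.prime_two).1 (hp.dvd_of_dvd_pow this))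
  let π : L →* Abelianization L := Abelianization.of
  let M₀ : Subgroup L := ((powMonoidHom (2 ^ 9 * 3)).comp π).ker
  have hM₀ : M₀.Characteristic := by
    rw [Subgroup.characteristic_iff_comap_eq]
    intro φ
    ext x
    simp only [Subgroup.mem_comap, M₀, MonoidHom.mem_ker, MonoidHom.comp_apply,
      powMonoidHom_apply, ← map_pow, MulEquiv.coe_toMonoidHom]
    rw [← MonoidHom.mem_ker, ← MonoidHom.mem_ker, Abelianization.ker_of]
    have := (inferInstance : (commutator L).Characteristic)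
    rw [Subgroup.characteristic_iff_comap_eq] at this
    exact SetLike.ext_iff.1 (this φ) _
  haveI := hM₀
  set M : Subgroup H := M₀.map L.subtype with hM
  haveI : M.Normal := inferInstance
  have hMc : Nat.card M = Nat.card M₀ := Subgroup.card_map_of_injective L.subtype_injective
  haveI : Fact (Nat.Prime 3) := ⟨Nat.prime_three⟩
  haveI : Fact (Nat.Prime 5) := ⟨Nat.prime_five⟩
  refine hC.no_three M ?_ ?_
  · obtain ⟨x, hx⟩ := exists_prime_orderOf_dvd_card' 3 h3
    have hm : x ∈ M₀ := by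
      show π x ^ (2 ^ 9 * 3) = 1
      rw [← map_pow, mul_comm, pow_mul, ← hx, pow_orderOf_eq_one, one_pow, map_one]
    rw [hMc, ← hx, ← Subgroup.orderOf_mk x hm]
    exact orderOf_dvd_natCard _
  · intro h
    rw [hMc] at h
    obtain ⟨x, hx⟩ := exists_prime_orderOf_dvd_card' 5 h
    have hx' : orderOf (x : L) = 5 := by rwa [Subgroup.orderOf_coe]
    have hm : π (x : L) ^ (2 ^ 9 * 3) = 1 := x.2
    rw [← map_pow, pow_mod_orderOf (x : L) (2 ^ 9 * 3) |>.symm, hx'] at hm
    rw [show 2 ^ 9 * 3 % 5 = 1 from rfl, pow_one, ← MonoidHom.mem_ker, Abelianization.ker_of] at hm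
    exact hD' _ Nat.prime_five hx' (by norm_num) hm

/-- The two-core of the centraliser. -/
theorem Cent.exists_core (hC : Cent H) :
    ∃ (R : Subgroup H) (φ : H →* Equiv.Perm (Fin 5)), Function.Surjective φ ∧ φ.ker = R ∧
      Nat.card R = 64 ∧ R.Normal ∧ Subgroup.centralizer (R : Set H) ≤ R ∧
      (∀ L : Subgroup H, L.Normal → IsPGroup 2 L → L ≤ R) ∧
      ∀ f : H, orderOf f = 5 → Nat.card ↥(R ⊓ Subgroup.centralizer ({f} : Set H)) = 4 := by
  classical
  haveI : Fact (Nat.Prime 5) := ⟨Nat.prime_five⟩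
  haveI : Fact (Nat.Prime 2) := ⟨Nat.prime_two⟩
  haveI : Nonempty {L : Subgroup H // L.Normal ∧ IsPGroup 2 L} :=
    ⟨⟨⊥, inferInstance, IsPGroup.of_bot⟩⟩
  obtain ⟨⟨R, hRn, hR2⟩, hmax⟩ := Finite.exists_max
    (fun L : {L : Subgroup H // L.Normal ∧ IsPGroup 2 L} => Nat.card (L : Subgroup H))
  haveI := hRn
  have hmax' : ∀ L : Subgroup H, L.Normal → IsPGroup 2 L → L ≤ R := by
    intro L hLn hL2
    haveI := hLn
    have hsup : IsPGroup 2 ↥(R ⊔ L) := hR2.to_sup_of_normal_right hL2
    have := hmax ⟨R ⊔ L, Subgroup.sup_normal R L, hsup⟩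
    exact le_sup_right.trans (Subgroup.eq_of_le_of_card_ge le_sup_left this).ge
  obtain ⟨r, hr⟩ := hR2.exists_card_eq
  set π := QuotientGroup.mk' R with hπ
  have hsolR : Group.IsSolvable R := solvable_of_dvd (q := 3) (k := r) Nat.prime_three
    (hr ▸ Dvd.intro _ rfl)
  have hrad : NoRadical (H ⧸ R) := by
    intro N hN hNs
    set L := N.comap π with hL
    have hLn : L.Normal := hN.comap π
    have hRL : R ≤ L := fun x hx => by
      show π x ∈ N
      rw [hπ, QuotientGroup.mk'_apply, (QuotientGroup.eq_one_iff x).2 hx]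
      exact one_mem N
    haveI := hsolR
    haveI := hNs
    have hLs : Group.IsSolvable L := solvable_of_ker_le_range (Subgroup.inclusion hRL)
      (π.subgroupComap N) (fun x hx => by
        have hx' : π (x : H) = 1 := congrArg Subtype.val (MonoidHom.mem_ker.1 hx)
        exact ⟨⟨x, (QuotientGroup.eq_one_iff _).1 hx'⟩, rfl⟩)
    have hLR := hmax' L hLn (hC.isPGroup_of_solvable _ L hLn hLs rfl)
    refine eq_bot_iff.2 fun y hy => ?_
    obtain ⟨x, rfl⟩ := QuotientGroup.mk'_surjective R y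
    exact Subgroup.mem_bot.2 ((QuotientGroup.eq_one_iff x).2 (hLR hy))
  have hcardX : Nat.card (H ⧸ R) * 2 ^ r = 2 ^ 9 * 15 := by
    rw [← hr, ← Subgroup.card_eq_card_quotient_mul_card_subgroup, hC.card]; rfl
  have hr9 : r ≤ 9 := by
    have h : 2 ^ r ∣ 2 ^ 9 * 15 := Dvd.intro_left _ hcardX
    exact (Nat.pow_dvd_pow_iff_le_right (by norm_num)).1
      ((Nat.Coprime.pow_left r (by norm_num : Nat.Coprime 2 15)).dvd_of_dvd_mul_right h)
  have hX : Nat.card (H ⧸ R) = 2 ^ (9 - r) * 15 :=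
    mul_right_cancel₀ (b := 2 ^ r) (by positivity) (by
      rw [hcardX, mul_right_comm, ← pow_add, Nat.sub_add_cancel hr9])
  -- elements of order five
  have five : ∀ f : H, orderOf f = 5 →
      (∃ c, Nat.card ↥(R ⊓ Subgroup.centralizer ({f} : Set H)) = c ∧ c ∣ 4) ∧
      Nat.card ((Subgroup.normalizer (Subgroup.zpowers f : Set H)).map π) *
        Nat.card ↥(R ⊓ Subgroup.centralizer ({f} : Set H)) = 80 ∧ π f ≠ 1 := by
    intro f hf
    have hfR : ∀ i : ℤ, f ^ i ∈ R → f ^ i = 1 := by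
      intro i hi
      have h1 : orderOf (f ^ i) ∣ Nat.card R := Subgroup.orderOf_mk (f ^ i) hi ▸ orderOf_dvd_natCard _
      have h2 : orderOf (f ^ i) ∣ orderOf f :=
        orderOf_dvd_of_mem_zpowers (Subgroup.zpow_mem _ (Subgroup.mem_zpowers f) i)
      rw [hr] at h1
      rw [hf] at h2
      exact orderOf_eq_one_iff.1 (Nat.eq_one_of_dvd_coprimes
        (Nat.Coprime.pow_left r (by norm_num : Nat.Coprime 2 5)) h1 h2)
    have hNR : Subgroup.normalizer (Subgroup.zpowers f : Set H) ⊓ R =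
        R ⊓ Subgroup.centralizer ({f} : Set H) := by
      ext x
      constructor
      · rintro ⟨hx, hxR⟩
        refine ⟨hxR, ?_⟩
        have h1 : x * f * x⁻¹ * f⁻¹ ∈ Subgroup.zpowers f :=
          mul_mem ((Subgroup.mem_normalizer_iff.1 hx f).1 (Subgroup.mem_zpowers f))
            (inv_mem (Subgroup.mem_zpowers f))
        have h2 : x * f * x⁻¹ * f⁻¹ ∈ R := by
          rw [show x * f * x⁻¹ * f⁻¹ = x * (f * x⁻¹ * f⁻¹) by group]
          exact mul_mem hxR (hRn.conj_mem _ (inv_mem hxR) f)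
        obtain ⟨i, hi⟩ := Subgroup.mem_zpowers_iff.1 h1
        have := hfR i (hi ▸ h2)
        rw [hi, mul_inv_eq_one, mul_inv_eq_iff_eq_mul] at this
        exact Subgroup.mem_centralizer_singleton_iff.2 this
      · rintro ⟨hxR, hx⟩
        exact ⟨Subgroup.centralizer_le_normalizer _ (by
          rw [Subgroup.zpowers_eq_closure, Subgroup.centralizer_closure]; exact hx), hxR⟩
    refine ⟨⟨_, rfl, ?_⟩, ?_, ?_⟩
    · have h1 : Nat.card ↥(R ⊓ Subgroup.centralizer ({f} : Set H)) ∣ 20 :=
        hC.cent f hf ▸ Subgroup.card_dvd_of_le inf_le_right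
      have h2 : Nat.card ↥(R ⊓ Subgroup.centralizer ({f} : Set H)) ∣ 2 ^ r :=
        hr ▸ Subgroup.card_dvd_of_le inf_le_left
      exact (Nat.Coprime.coprime_dvd_left h2
        (Nat.Coprime.pow_left r (by norm_num : Nat.Coprime 2 5))).dvd_of_dvd_mul_right
        (show _ ∣ 4 * 5 from h1)
    · rw [← hC.norm f hf, ← hNR]
      set N := Subgroup.normalizer (Subgroup.zpowers f : Set H)
      have e1 : (π.domRestrict N).range = N.map π := MonoidHom.domRestrict_range N π
      have e2 : (π.domRestrict N).ker.map N.subtype = N ⊓ R := by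
        rw [MonoidHom.ker_domRestrict, hπ, QuotientGroup.ker_mk', Subgroup.subgroupOf_map_subtype,
          inf_comm]
      rw [← e1, ← e2, Subgroup.card_map_of_injective N.subtype_injective, ← Subgroup.index_ker,
        Subgroup.index_mul_card]
    · intro h
      have := hfR 1 (by rw [zpow_one]; exact (QuotientGroup.eq_one_iff f).1 h)
      rw [zpow_one] at this
      rw [this, orderOf_one] at hf
      norm_num at hf
  obtain ⟨f, hf⟩ := hC.exists_five
  obtain ⟨⟨c, hc, hc4⟩, hNc, hfne⟩ := five f hf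
  rw [hc] at hNc
  have hk : 2 ≤ 9 - r := by
    have h20 : 20 ∣ Nat.card ((Subgroup.normalizer (Subgroup.zpowers f : Set H)).map π) := by
      obtain ⟨d, hd⟩ := hc4
      refine ⟨d, mul_right_cancel₀ (b := c) (fun h => by simp [h] at hNc) ?_⟩
      rw [hNc, mul_assoc, mul_comm d, ← hd]; norm_num
    have h4 : 2 ^ 2 ∣ 2 ^ (9 - r) * 15 :=
      hX ▸ ((show 2 ^ 2 ∣ 20 by norm_num).trans h20).trans (Subgroup.card_subgroup_dvd_card _)
    exact (Nat.pow_dvd_pow_iff_le_right (by norm_num)).1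
      ((Nat.Coprime.pow_left 2 (by norm_num : Nat.Coprime 2 15)).dvd_of_dvd_mul_right h4)
  obtain ⟨ψ, hψ⟩ := exists_perm_five hk hX hrad
  have hXd : Nat.card (H ⧸ R) ∣ 120 := perm_five_card ▸ Subgroup.card_dvd_of_injective ψ hψ
  -- the normaliser of a five-cycle has order 20
  have hN20 : ∀ g : H, orderOf g = 5 →
      Nat.card ((Subgroup.normalizer (Subgroup.zpowers g : Set H)).map π) ≤ 20 := by
    intro g hg
    obtain ⟨-, -, hgne⟩ := five g hg
    set s := ψ (π g) with hs
    have hg5 : g ^ 5 = 1 := hg ▸ pow_orderOf_eq_one g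
    have hs5 : s ^ 5 = 1 := by rw [hs, ← map_pow, ← map_pow, hg5, map_one, map_one]
    have hs1 : s ≠ 1 := fun h => hgne (hψ (h.trans (map_one ψ).symm))
    refine le_trans ?_ (perm_five_normalizer s hs5 hs1)
    rw [← Nat.card_eq_finsetCard]
    refine Nat.card_le_card_of_injective (fun y => ⟨ψ (y : H ⧸ R), ?_⟩)
      fun a b h => Subtype.ext (hψ (congrArg Subtype.val h))
    obtain ⟨x, hx, hxy⟩ := y.2
    obtain ⟨i, hi⟩ := Subgroup.mem_zpowers_iff.1
      ((Subgroup.mem_normalizer_iff.1 hx g).1 (Subgroup.mem_zpowers g))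
    have e : ψ (y : H ⧸ R) * s * (ψ (y : H ⧸ R))⁻¹ = s ^ i := by
      rw [← hxy, hs, ← map_mul, ← map_inv, ← map_mul, ← map_mul, ← map_inv, ← map_mul, ← hi,
        map_zpow, map_zpow]
    have hi5 : s ^ i = s ^ (i % 5) := by
      conv_lhs => rw [← Int.mul_ediv_add_emod i 5]
      rw [zpow_add, zpow_mul, show s ^ (5 : ℤ) = 1 from hs5, one_zpow, one_mul]
    simp only [Finset.mem_filter, Finset.mem_univ, true_and]
    have hne : s ^ i ≠ 1 := fun h => hs1 (conj_eq_one_iff.1 (e.trans h))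
    rw [e, hi5]
    have h0 := Int.emod_nonneg i (show (5 : ℤ) ≠ 0 by norm_num)
    have h1 := Int.emod_lt_of_pos i (show (0 : ℤ) < 5 by norm_num)
    interval_cases hh : i % 5
    · exact absurd (by rw [hi5, zpow_zero]) hne
    · exact Or.inl (zpow_one s)
    · exact Or.inr (Or.inl rfl)
    · exact Or.inr (Or.inr (Or.inl rfl))
    · exact Or.inr (Or.inr (Or.inr rfl))
  have hc_eq : ∀ g : H, orderOf g = 5 →
      Nat.card ↥(R ⊓ Subgroup.centralizer ({g} : Set H)) = 4 := by
    intro g hg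
    obtain ⟨⟨d, hd, hd4⟩, hNd, -⟩ := five g hg
    rw [hd] at hNd ⊢
    have hle := hN20 g hg
    have hd' := Nat.le_of_dvd (by norm_num) hd4
    nlinarith
  have hX120 : Nat.card (H ⧸ R) = 120 := by
    have hN : Nat.card ((Subgroup.normalizer (Subgroup.zpowers f : Set H)).map π) = 20 := by
      have := hc_eq f hf
      rw [hc] at this
      rw [this] at hNc
      omega
    have h23 : 9 - r ≤ 3 := by
      have h := hX ▸ hXd
      exact (Nat.pow_dvd_pow_iff_le_right (by norm_num : 1 < 2)).1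
        (Nat.dvd_of_mul_dvd_mul_right (by norm_num : 0 < 15) (show 2 ^ (9 - r) * 15 ∣ 2 ^ 3 * 15 from h))
    rcases (show 9 - r = 2 ∨ 9 - r = 3 by omega) with h | h
    · exfalso
      refine no_index_three hk hX hrad ((Subgroup.normalizer (Subgroup.zpowers f : Set H)).map π) ?_
      have e := Subgroup.card_mul_index ((Subgroup.normalizer (Subgroup.zpowers f : Set H)).map π)
      rw [hN, hX, h] at e
      omega
    · rw [hX, h]; rfl
  have hψs : Function.Surjective ψ :=
    (Function.Injective.bijective_of_nat_card_le hψ (by rw [perm_five_card, hX120])).2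
  have h64 : Nat.card R = 64 := by
    rw [hr] at *
    rw [hX120] at hcardX
    omega
  refine ⟨R, ψ.comp π, hψs.comp (QuotientGroup.mk'_surjective R), ?_, h64, hRn, ?_, hmax', hc_eq⟩
  · rw [← MonoidHom.comap_ker, (MonoidHom.ker_eq_bot_iff ψ).2 hψ, MonoidHom.comap_bot, hπ,
      QuotientGroup.ker_mk']
  · set K := Subgroup.centralizer (R : Set H) with hK
    haveI : K.Normal := inferInstance
    refine hmax' K inferInstance ?_
    by_cases h5 : 5 ∣ Nat.card K
    · obtain ⟨g, hg⟩ := exists_prime_orderOf_dvd_card' 5 h5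
      have hg' : orderOf (g : H) = 5 := by rwa [Subgroup.orderOf_coe]
      have hle : R ≤ Subgroup.centralizer ({(g : H)} : Set H) := fun x hx =>
        Subgroup.mem_centralizer_singleton_iff.2 (Subgroup.mem_centralizer_iff.1 g.2 x hx)
      have := hc_eq _ hg'
      rw [inf_eq_left.2 hle, h64] at this
      norm_num at this
    · refine hC.isPGroup_of_solvable _ K inferInstance (solvable_of_dvd (q := 3) (k := 9)
        Nat.prime_three ?_) rfl
      have hd : Nat.card K ∣ 2 ^ 9 * 3 * 5 := by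
        rw [show (2 : ℕ) ^ 9 * 3 * 5 = 7680 from rfl, ← hC.card]
        exact Subgroup.card_subgroup_dvd_card K
      exact ((Nat.prime_five.coprime_iff_not_dvd.2 h5).symm).dvd_of_dvd_mul_right hd

theorem card_image_mul {R : Subgroup H} {φ : H →* Equiv.Perm (Fin 5)} (hker : φ.ker = R)
    (A : Subgroup H) : Nat.card (A.map φ) * Nat.card ↥(R ⊓ A) = Nat.card A := by
  have e1 : (φ.domRestrict A).range = A.map φ := MonoidHom.domRestrict_range A φ
  have e2 : (φ.domRestrict A).ker.map A.subtype = R ⊓ A := by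
    rw [MonoidHom.ker_domRestrict, hker, Subgroup.subgroupOf_map_subtype]
  rw [← e1, ← e2, Subgroup.card_map_of_injective A.subtype_injective, ← Subgroup.index_ker,
    Subgroup.index_mul_card]

/-- An element with a large centraliser lies in the core. -/
theorem mem_core_of_large {R : Subgroup H} {φ : H →* Equiv.Perm (Fin 5)} (hker : φ.ker = R)
    (h64 : Nat.card R = 64) (hsc : Subgroup.centralizer (R : Set H) ≤ R) {s : H} (hs : s * s = 1)
    (hbig : 512 ≤ Nat.card (Subgroup.centralizer ({s} : Set H))) : s ∈ R := by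
  classical
  set A := Subgroup.centralizer ({s} : Set H) with hA
  by_contra hsR
  have hlt : R ⊓ A < R := lt_of_le_of_ne inf_le_left fun he => hsR (hsc
    (Subgroup.mem_centralizer_iff.2 fun r hr =>
      Subgroup.mem_centralizer_singleton_iff.1 ((inf_eq_left.1 he) hr)))
  have hRA : Nat.card ↥(R ⊓ A) ≤ 32 := by
    obtain ⟨j, hj, e⟩ := (Nat.dvd_prime_pow Nat.prime_two).1
      ((show 2 ^ 6 = Nat.card R from h64.symm) ▸ Subgroup.card_dvd_of_le hlt.le)
    rw [e]
    rcases (show j ≤ 5 ∨ j = 6 by omega) with h | h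
    · exact Nat.pow_le_pow_right (show 0 < 2 by norm_num) h
    · exact absurd (Subgroup.eq_of_le_of_card_ge hlt.le (by rw [e, h, h64]; norm_num)) hlt.ne
  have hi : Nat.card (A.map φ) ≤ 12 := by
    refine le_trans ?_ (perm_five_involution (φ s) (by rw [← map_mul, hs, map_one])
      fun h => hsR (hker ▸ MonoidHom.mem_ker.2 h))
    rw [← Nat.card_eq_finsetCard]
    refine Nat.card_le_card_of_injective (fun y => ⟨(y : Equiv.Perm (Fin 5)), ?_⟩)
      fun a b h => Subtype.ext (Subtype.mk.inj h)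
    obtain ⟨x, hx, hxy⟩ := y.2
    simp only [Finset.mem_filter, Finset.mem_univ, true_and]
    rw [← hxy, ← map_mul, ← map_mul, Subgroup.mem_centralizer_singleton_iff.1 hx]
  have := card_image_mul hker A
  have := Nat.mul_le_mul hi hRA
  omega

/-- An element of order five has as many fixed points on an invariant set as its size mod 5. -/
theorem fixed_mod_five {f : H} (hf : f ^ 5 = 1) (N : Subgroup H)
    (hN : ∀ x ∈ N, f * x * f⁻¹ ∈ N) :
    Nat.card ↥(N ⊓ Subgroup.centralizer ({f} : Set H)) % 5 = Nat.card N % 5 := by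
  classical
  haveI : Fact (Nat.Prime 5) := ⟨Nat.prime_five⟩
  have hall : ∀ y ∈ Subgroup.zpowers f, ∀ x ∈ N, y * x * y⁻¹ ∈ N := by
    intro y hy x hx
    have hN' : f ∈ Subgroup.normalizer (N : Set H) := Subgroup.mem_normalizer_fintype hN
    exact (Subgroup.mem_normalizer_iff.1 ((Subgroup.zpowers_le.2 hN') hy) x).1 hx
  letI : MulAction ↥(Subgroup.zpowers f) N :=
    { smul := fun y x => ⟨(y : H) * x * (y : H)⁻¹, hall y y.2 x x.2⟩
      one_smul := fun x => Subtype.ext (show (1 : H) * x * 1⁻¹ = x by simp)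
      mul_smul := fun y z x => Subtype.ext (show ((y : H) * z) * x * ((y : H) * z)⁻¹ =
        (y : H) * ((z : H) * x * (z : H)⁻¹) * (y : H)⁻¹ by group) }
  have hp : IsPGroup 5 ↥(Subgroup.zpowers f) := by
    rcases (Nat.dvd_prime Nat.prime_five).1 (orderOf_dvd_of_pow_eq_one hf) with h | h
    · exact IsPGroup.of_card (n := 0) (by rw [Nat.card_zpowers, h]; rfl)
    · exact IsPGroup.of_card (n := 1) (by rw [Nat.card_zpowers, h]; rfl)
  have h := (hp.card_modEq_card_fixedPoints N).symm
  rw [Nat.ModEq] at h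
  rw [← h]
  congr 1
  refine Nat.card_congr
    { toFun := fun x => ⟨⟨x, x.2.1⟩, fun y => Subtype.ext ?_⟩
      invFun := fun x => ⟨x.1, x.1.2, Subgroup.mem_centralizer_singleton_iff.2 ?_⟩
      left_inv := fun x => rfl
      right_inv := fun x => rfl }
  · show (y : H) * x * (y : H)⁻¹ = x
    obtain ⟨i, hi⟩ := Subgroup.mem_zpowers_iff.1 y.2
    have hc : Commute f (x : H) := (Subgroup.mem_centralizer_singleton_iff.1 x.2.2).symm
    rw [← hi, (hc.zpow_left i).eq, mul_inv_cancel_right]
  · have := congrArg Subtype.val (x.2 ⟨f, Subgroup.mem_zpowers f⟩)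
    exact (mul_inv_eq_iff_eq_mul.1 (this : f * (x.1 : H) * f⁻¹ = x.1)).symm

set_option maxHeartbeats 800000 in
/-- The shape forced on a non-abelian core with an element of large centraliser. -/
theorem Cent.bad_core (hC : Cent H) {R : Subgroup H} {φ : H →* Equiv.Perm (Fin 5)}
    (hφ : Function.Surjective φ) (hker : φ.ker = R) (h64 : Nat.card R = 64)
    (hsc : Subgroup.centralizer (R : Set H) ≤ R)
    (hfix : ∀ f : H, orderOf f = 5 → Nat.card ↥(R ⊓ Subgroup.centralizer ({f} : Set H)) = 4)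
    {b : H} (hb1 : b ≠ 1) (hbc : ∀ x, b * x = x * b)
    {s : H} (hs : s * s = 1) (hsR : s ∈ R) (hne : ∃ r ∈ R, s * r ≠ r * s)
    (hbig : 512 ≤ Nat.card (Subgroup.centralizer ({s} : Set H))) :
    Nat.card (Subgroup.centralizer (R : Set H)) = 4 ∧
      (∀ f : H, orderOf f = 5 → ∀ x ∈ Subgroup.centralizer (R : Set H), f * x = x * f) ∧
      ∃ c ∈ Subgroup.centralizer (R : Set H), c ≠ 1 ∧
        ∀ r ∈ R, ∀ x ∈ R, r * x * r⁻¹ * x⁻¹ = 1 ∨ r * x * r⁻¹ * x⁻¹ = c := by
  classical
  haveI : Fact (Nat.Prime 5) := ⟨Nat.prime_five⟩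
  haveI : Fact (Nat.Prime 2) := ⟨Nat.prime_two⟩
  haveI hRn : R.Normal := hker ▸ φ.normal_ker
  set K := Subgroup.centralizer (R : Set H) with hK
  haveI : K.Normal := inferInstance
  set A := Subgroup.centralizer ({s} : Set H) with hA
  have memA : ∀ {x : H}, x ∈ A ↔ x * s = s * x := Subgroup.mem_centralizer_singleton_iff
  have hbR : b ∈ R := hsc (Subgroup.mem_centralizer_iff.2 fun r _ => (hbc r).symm)
  have hbK : b ∈ K := Subgroup.mem_centralizer_iff.2 fun r _ => (hbc r).symm
  -- elements of `R` fixed by `f` commute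
  have habel : ∀ f : H, orderOf f = 5 → ∀ x ∈ R, ∀ y ∈ R, f * x = x * f → f * y = y * f →
      x * y = y * x := by
    intro f hf x hx y hy hfx hfy
    have hcomm := IsPGroup.commutative_of_card_eq_prime_sq (p := 2)
      (G := ↥(R ⊓ Subgroup.centralizer ({f} : Set H))) (hfix f hf)
    exact congrArg Subtype.val (hcomm
      ⟨x, hx, Subgroup.mem_centralizer_singleton_iff.2 hfx.symm⟩
      ⟨y, hy, Subgroup.mem_centralizer_singleton_iff.2 hfy.symm⟩)
  -- an invariant subgroup of index two contains every fixed point, else meets its complement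
  have trick : ∀ f : H, orderOf f = 5 → ∀ N M : Subgroup H, M ≤ N → M ≠ N →
      Nat.card N = 2 * Nat.card M → (∀ x ∈ N, f * x * f⁻¹ ∈ N) → (∀ x ∈ M, f * x * f⁻¹ ∈ M) →
      (∃ j, Nat.card M = 2 ^ j) → ∃ x ∈ N, x ∉ M ∧ f * x = x * f := by
    intro f hf N M hMN _ hcard hN hM ⟨j, hj⟩
    by_contra hno
    push Not at hno
    have h5 : f ^ 5 = 1 := hf ▸ pow_orderOf_eq_one f
    have e : N ⊓ Subgroup.centralizer ({f} : Set H) = M ⊓ Subgroup.centralizer ({f} : Set H) := by
      refine le_antisymm (fun x hx => ⟨?_, hx.2⟩) (inf_le_inf_right _ hMN)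
      by_contra hxM
      exact hno x hx.1 hxM (Subgroup.mem_centralizer_singleton_iff.1 hx.2).symm
    have h1 := fixed_mod_five h5 N hN
    rw [e, fixed_mod_five h5 M hM, hcard] at h1
    have : 5 ∣ Nat.card M := by omega
    rw [hj] at this
    exact absurd (Nat.prime_five.dvd_of_dvd_pow this) (by norm_num)
  have hRconj : ∀ f : H, ∀ x ∈ R, f * x * f⁻¹ ∈ R := fun f x hx => hRn.conj_mem x hx f
  have pow2 : ∀ N : Subgroup H, N ≤ R → ∃ j, Nat.card N = 2 ^ j := by
    intro N hN
    obtain ⟨j, -, hj⟩ := (Nat.dvd_prime_pow Nat.prime_two).1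
      ((show 2 ^ 6 = Nat.card R from h64.symm) ▸ Subgroup.card_dvd_of_le hN)
    exact ⟨j, hj⟩
  -- the stabiliser in `R`
  have hlt : R ⊓ A < R := lt_of_le_of_ne inf_le_left fun he => by
    obtain ⟨r, hr, hrs⟩ := hne
    exact hrs (memA.1 ((inf_eq_left.1 he) hr)).symm
  obtain ⟨j, hj⟩ := pow2 _ (inf_le_left (a := R) (b := A))
  have hj5 : j ≤ 5 := by
    by_contra h
    refine hlt.ne (Subgroup.eq_of_le_of_card_ge hlt.le ?_)
    rw [h64, hj]
    exact (show 64 ≤ 2 ^ j from (show 2 ^ 6 ≤ 2 ^ j from Nat.pow_le_pow_right (show 0 < 2 by norm_num) (by omega)))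
  have himg : Nat.card (A.map φ) ∣ 120 := perm_five_card ▸ Subgroup.card_subgroup_dvd_card _
  have hmul := card_image_mul hker A
  rw [hj] at hmul
  -- no element of order five centralises `s`
  have hsf : ∀ f : H, orderOf f = 5 → f * s ≠ s * f := by
    intro f hf hfs
    have h5 : f ^ 5 = 1 := hf ▸ pow_orderOf_eq_one f
    have hfA : f ∈ A := memA.2 hfs
    have hi : ∀ x ∈ R ⊓ A, f * x * f⁻¹ ∈ R ⊓ A := fun x hx =>
      ⟨hRconj f x hx.1, A.mul_mem (A.mul_mem hfA hx.2) (A.inv_mem hfA)⟩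
    have e : (R ⊓ A) ⊓ Subgroup.centralizer ({f} : Set H) =
        R ⊓ Subgroup.centralizer ({f} : Set H) :=
      le_antisymm (inf_le_inf_right _ inf_le_left) fun x hx => ⟨⟨hx.1, memA.2 (habel f hf x hx.1 s hsR
        (Subgroup.mem_centralizer_singleton_iff.1 hx.2).symm hfs)⟩, hx.2⟩
    have h1 := fixed_mod_five h5 _ hi
    rw [e, hfix f hf, hj] at h1
    have h2 : Nat.card (A.map φ) ≤ 120 := Nat.le_of_dvd (by norm_num) himg
    have hj2 : j = 2 := by interval_cases j <;> first | rfl | (norm_num at h1)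
    subst hj2
    have := hmul ▸ hbig
    omega
  have h24 : Nat.card (A.map φ) ∣ 24 := by
    refine (Nat.Coprime.dvd_of_dvd_mul_right ?_ (show _ ∣ 24 * 5 from himg))
    refine Nat.Coprime.symm (Nat.prime_five.coprime_iff_not_dvd.2 fun h5 => ?_)
    obtain ⟨f, hf⟩ := exists_prime_orderOf_dvd_card' 5
      (show 5 ∣ Nat.card A from hmul ▸ h5.mul_right _)
    exact hsf f (by rwa [Subgroup.orderOf_coe]) (memA.1 f.2)
  have hj5' : j = 5 ∧ Nat.card (A.map φ) = 24 := by
    have hle := Nat.le_of_dvd (by norm_num) h24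
    have hpow : 2 ^ j ≤ 32 := Nat.pow_le_pow_right (show 0 < 2 by norm_num) hj5
    have hb' : 512 ≤ Nat.card (A.map φ) * 2 ^ j := hmul ▸ hbig
    have hj' : j = 5 := by
      by_contra h
      have : 2 ^ j ≤ 2 ^ 4 := Nat.pow_le_pow_right (show 0 < 2 by norm_num) (by omega)
      have := Nat.mul_le_mul hle this
      omega
    refine ⟨hj', ?_⟩
    subst hj'
    obtain ⟨d, hd⟩ := h24
    rcases Nat.lt_or_ge d 2 with h | h
    · interval_cases d <;> omega
    · have := Nat.mul_le_mul_left (Nat.card (A.map φ)) h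
      omega
  rw [hj5'.1] at hj
  obtain ⟨r₀, hr₀R, hr₀⟩ := hne
  have hr₀A : r₀ ∉ A := fun h => hr₀ (memA.1 h).symm
  set c := r₀ * s * r₀⁻¹ * s⁻¹ with hc
  have hMidx : ((R ⊓ A).subgroupOf R).index = 2 := by
    have e := ((R ⊓ A).subgroupOf R).card_mul_index
    rw [Nat.card_congr (Subgroup.subgroupOfEquivOfLe inf_le_left).toEquiv, hj, h64] at e
    omega
  have coset : ∀ x ∈ R, x ∉ A → r₀⁻¹ * x ∈ A := by
    intro x hx hxA
    have := (Subgroup.mul_mem_iff_of_index_two hMidx (a := (⟨r₀, hr₀R⟩ : R)⁻¹)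
      (b := (⟨x, hx⟩ : R))).2 (by simp [Subgroup.mem_subgroupOf, hr₀A, hxA])
    exact this.2
  have move : ∀ x ∈ R, x ∉ A → x * s * x⁻¹ = c * s := by
    intro x hx hxA
    have h := memA.1 (coset x hx hxA)
    calc x * s * x⁻¹ = r₀ * (r₀⁻¹ * x * s) * x⁻¹ := by group
      _ = r₀ * (s * (r₀⁻¹ * x)) * x⁻¹ := by rw [h]
      _ = c * s := by rw [hc]; group
  have hc1 : c ≠ 1 := fun h => hr₀ (by
    rw [hc, mul_inv_eq_one, mul_inv_eq_iff_eq_mul] at h
    exact h.symm)
  have fixA : ∀ a ∈ A, a * c * a⁻¹ = c := by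
    intro a ha
    have hx : a * r₀ * a⁻¹ ∉ A := fun h => hr₀A (by
      have := mul_mem (mul_mem (inv_mem ha) h) ha
      simpa [mul_assoc] using this)
    have h := move _ (hRconj a r₀ hr₀R) hx
    calc a * c * a⁻¹ = (a * r₀ * a⁻¹) * (a * s * a⁻¹) * (a * r₀ * a⁻¹)⁻¹ * (a * s * a⁻¹)⁻¹ := by
          rw [hc]; group
      _ = (a * r₀ * a⁻¹) * s * (a * r₀ * a⁻¹)⁻¹ * s⁻¹ := by
          rw [show a * s * a⁻¹ = s by rw [memA.1 ha]; group]
      _ = c := by rw [h]; group
  have hsA : s ∈ A := memA.2 rfl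
  have hcinv : c⁻¹ = c := by
    have h' := move r₀ hr₀R hr₀A
    have h1 : s * c * s⁻¹ = c := fixA s hsA
    have hs' : s⁻¹ = s := inv_eq_of_mul_eq_one_left hs
    have hcs : (c * s) * (c * s) = 1 := by
      rw [← h']
      calc r₀ * s * r₀⁻¹ * (r₀ * s * r₀⁻¹) = r₀ * (s * s) * r₀⁻¹ := by group
        _ = 1 := by rw [hs]; group
    rw [hs'] at h1
    refine inv_eq_of_mul_eq_one_left ?_
    calc c * c = c * (s * c * s) := by rw [h1]
      _ = 1 := by rw [← hcs]; group
  have fixR : ∀ x ∈ R, x * c = c * x := by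
    have hr : r₀ * c * r₀⁻¹ = c := by
      have hr2 : r₀ * r₀ ∈ A :=
        ((Subgroup.mul_mem_iff_of_index_two hMidx (a := (⟨r₀, hr₀R⟩ : R))
          (b := (⟨r₀, hr₀R⟩ : R))).2 (by simp [Subgroup.mem_subgroupOf, hr₀A])).2
      have hcomm : r₀ * r₀ * s = s * (r₀ * r₀) := memA.1 hr2
      refine Eq.trans ?_ hcinv
      calc r₀ * c * r₀⁻¹ = (r₀ * r₀ * s) * r₀⁻¹ * s⁻¹ * r₀⁻¹ := by rw [hc]; group
        _ = c⁻¹ := by rw [hcomm, hc]; group
    intro x hx
    by_cases hxA : x ∈ A
    · exact mul_inv_eq_iff_eq_mul.1 (fixA x hxA)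
    · have e := fixA _ (coset x hx hxA)
      refine mul_inv_eq_iff_eq_mul.1 ?_
      calc x * c * x⁻¹ = r₀ * ((r₀⁻¹ * x) * c * (r₀⁻¹ * x)⁻¹) * r₀⁻¹ := by group
        _ = c := by rw [e, hr]
  have hcR : c ∈ R := mul_mem (mul_mem (mul_mem hr₀R hsR) (inv_mem hr₀R)) (inv_mem hsR)
  have hcK : c ∈ K := Subgroup.mem_centralizer_iff.2 fun r hr => fixR r hr
  have hKne : K ≠ R := fun h => hr₀ (by
    have := h ▸ hsR
    exact (Subgroup.mem_centralizer_iff.1 this r₀ hr₀R).symm)
  have hKle : Nat.card K ≤ 32 := by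
    obtain ⟨i, hi⟩ := pow2 K hsc
    rw [hi]
    show 2 ^ i ≤ 2 ^ 5
    refine Nat.pow_le_pow_right (show 0 < 2 by norm_num) ?_
    by_contra h
    refine hKne (Subgroup.eq_of_le_of_card_ge hsc ?_)
    rw [hi, h64]
    exact (show 2 ^ 6 ≤ 2 ^ i from Nat.pow_le_pow_right (show 0 < 2 by norm_num) (by omega))
  -- centre of index at most two is impossible
  have hK16 : Nat.card K ≤ 16 := by
    obtain ⟨i, hi⟩ := pow2 K hsc
    by_contra h
    have hK32 : Nat.card K = 32 := by
      rw [hi] at h hKle ⊢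
      have h4 : 4 < i := by
        by_contra h4
        exact h (Nat.pow_le_pow_right (show 0 < 2 by norm_num) (by omega) |>.trans (le_refl (2 ^ 4)))
      have h6 : i ≤ 5 := by
        by_contra h6
        have := Nat.pow_le_pow_right (show 1 ≤ 2 by norm_num) (show 6 ≤ i by omega)
        omega
      rw [show i = 5 by omega]; rfl
    have hidx : (K.subgroupOf R).index = 2 := by
      have e := (K.subgroupOf R).card_mul_index
      rw [Nat.card_congr (Subgroup.subgroupOfEquivOfLe hsc).toEquiv, hK32, h64] at e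
      omega
    have hsK : s ∉ K := fun hm => hr₀ (Subgroup.mem_centralizer_iff.1 hm r₀ hr₀R).symm
    by_cases hrK : r₀ ∈ K
    · exact hr₀ (Subgroup.mem_centralizer_iff.1 hrK s hsR)
    have := ((Subgroup.mul_mem_iff_of_index_two hidx (a := (⟨s, hsR⟩ : R))
      (b := (⟨r₀, hr₀R⟩ : R))).2 (by simp [Subgroup.mem_subgroupOf, hsK, hrK]))
    have h2 := Subgroup.mem_centralizer_iff.1 (Subgroup.mem_subgroupOf.1 this) s hsR
    exact hr₀ (by simpa [mul_assoc] using h2)
  -- the element `c` is central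
  have hcfix : ∀ f : H, orderOf f = 5 → f * c = c * f := by
    intro f hf
    have h5 : f ^ 5 = 1 := hf ▸ pow_orderOf_eq_one f
    -- the stabiliser of `c` has index one or five
    set S := Subgroup.centralizer ({c} : Set H) with hS
    have hAS : A ⊔ R ≤ S := sup_le (fun a ha => Subgroup.mem_centralizer_singleton_iff.2
      (mul_inv_eq_iff_eq_mul.1 (fixA a ha))) fun x hx =>
        Subgroup.mem_centralizer_singleton_iff.2 (fixR x hx)
    have hS24 : 24 * 64 ∣ Nat.card S := by
      have e := card_image_mul hker (A ⊔ R)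
      rw [inf_eq_left.2 le_sup_right, h64, Subgroup.map_sup,
        show R.map φ = ⊥ from (Subgroup.map_eq_bot_iff _).2 hker.ge, sup_bot_eq, hj5'.2] at e
      exact e ▸ Subgroup.card_dvd_of_le hAS
    by_contra hfc
    have hfS : f ∉ S := fun hm => hfc (Subgroup.mem_centralizer_singleton_iff.1 hm)
    have hidx5 : S.index = 5 := by
      obtain ⟨d, hd⟩ := hS24
      have e := S.card_mul_index
      rw [hd, hC.card] at e
      have : d * S.index = 5 := by
        have : 24 * 64 * (d * S.index) = 24 * 64 * 5 := by rw [← mul_assoc, e]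
        omega
      rcases Nat.prime_five.eq_one_or_self_of_dvd S.index (Dvd.intro_left _ this) with h | h
      · exact absurd ((Subgroup.index_eq_one.1 h).symm ▸ Subgroup.mem_top f) hfS
      · exact h
    -- then `K` is too large
    have hmod := fixed_mod_five h5 K fun x hx => (inferInstance : K.Normal).conj_mem x hx f
    have hKf : Nat.card ↥(K ⊓ Subgroup.centralizer ({f} : Set H)) ∈ ({2, 4} : Finset ℕ) := by
      have hd : Nat.card ↥(K ⊓ Subgroup.centralizer ({f} : Set H)) ∣ 4 :=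
        hfix f hf ▸ Subgroup.card_dvd_of_le (inf_le_inf_right _ hsc)
      have h1 : 1 < Nat.card ↥(K ⊓ Subgroup.centralizer ({f} : Set H)) := by
        haveI : Nontrivial ↥(K ⊓ Subgroup.centralizer ({f} : Set H)) :=
          ⟨⟨⟨b, hbK, Subgroup.mem_centralizer_singleton_iff.2 (hbc f)⟩, 1,
            fun h => hb1 (congrArg Subtype.val h)⟩⟩
        exact Finite.one_lt_card
      obtain ⟨k, hk, e⟩ := (Nat.dvd_prime_pow Nat.prime_two).1
        (show Nat.card ↥(K ⊓ Subgroup.centralizer ({f} : Set H)) ∣ 2 ^ 2 from hd)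
      rw [e] at h1 ⊢
      interval_cases k <;> simp at h1 ⊢
    obtain ⟨i, hi⟩ := pow2 K hsc
    have hlt' : Nat.card ↥(K ⊓ Subgroup.centralizer ({f} : Set H)) < Nat.card K := by
      refine lt_of_le_of_ne (Subgroup.card_le_of_le inf_le_left) fun he => hfc ?_
      have := (Subgroup.eq_of_le_of_card_ge inf_le_left he.ge).ge hcK
      exact (Subgroup.mem_centralizer_singleton_iff.1 this.2).symm
    have hi4 : i ≤ 4 := by
      by_contra h
      have := Nat.pow_le_pow_right (show 1 ≤ 2 by norm_num) (show 5 ≤ i by omega)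
      omega
    simp only [Finset.mem_insert, Finset.mem_singleton] at hKf
    rw [hi] at hmod hlt'
    rcases hKf with h | h <;> rw [h] at hmod hlt' <;> interval_cases i <;> omega
  -- elements with all commutators in `⟨c⟩`
  have cc : c * c = 1 := by nth_rewrite 1 [← hcinv]; exact inv_mul_cancel c
  let R₀ : Subgroup H :=
    { carrier := {x | x ∈ R ∧ ∀ r ∈ R, r * x * r⁻¹ * x⁻¹ = 1 ∨ r * x * r⁻¹ * x⁻¹ = c}
      one_mem' := ⟨one_mem R, fun r _ => Or.inl (by group)⟩
      mul_mem' := fun {x y} hx hy => ⟨mul_mem hx.1 hy.1, fun r hr => by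
        have e : r * (x * y) * r⁻¹ * (x * y)⁻¹ =
            (r * x * r⁻¹ * x⁻¹) * (x * (r * y * r⁻¹ * y⁻¹) * x⁻¹) := by group
        have hxc : x * c * x⁻¹ = c := by rw [fixR x hx.1, mul_inv_cancel_right]
        rcases hx.2 r hr with h | h <;> rcases hy.2 r hr with h' | h'
        · left; rw [e, h, h']; group
        · right; rw [e, h, h', hxc, one_mul]
        · right; rw [e, h, h']; group
        · left; rw [e, h, h', hxc, cc]⟩
      inv_mem' := fun {x} hx => ⟨inv_mem hx.1, fun r hr => by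
        have e : r * x⁻¹ * r⁻¹ * x⁻¹⁻¹ = x⁻¹ * (r * x * r⁻¹ * x⁻¹)⁻¹ * x := by group
        rcases hx.2 r hr with h | h
        · left; rw [e, h]; group
        · right
          rw [e, h, hcinv, fixR x⁻¹ (inv_mem hx.1)]
          group⟩ }
  have hsR₀ : s ∈ R₀ := by
    refine ⟨hsR, fun r hr => ?_⟩
    by_cases hrA : r ∈ A
    · left; rw [memA.1 hrA]; group
    · right; rw [move r hr hrA]; group
  have hKR₀ : K ≤ R₀ := fun x hx => ⟨hsc hx, fun r hr => Or.inl (by
    rw [Subgroup.mem_centralizer_iff.1 hx r hr]; group)⟩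
  have hR₀c : ∀ f : H, orderOf f = 5 → ∀ x ∈ R₀, f * x * f⁻¹ ∈ R₀ := by
    intro f hf x hx
    refine ⟨hRconj f x hx.1, fun r hr => ?_⟩
    have e : r * (f * x * f⁻¹) * r⁻¹ * (f * x * f⁻¹)⁻¹ =
        f * ((f⁻¹ * r * f) * x * (f⁻¹ * r * f)⁻¹ * x⁻¹) * f⁻¹ := by group
    have hr' : f⁻¹ * r * f ∈ R := by simpa using hRconj f⁻¹ r hr
    rcases hx.2 _ hr' with h | h
    · left; rw [e, h]; group
    · right; rw [e, h, hcfix f hf]; group
  -- the fixed points are central
  have central : ∀ f : H, orderOf f = 5 → ∀ v ∈ R₀, f * v = v * f → v ∈ K := by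
    intro f hf v hv hfv
    refine Subgroup.mem_centralizer_iff.2 fun r hr => ?_
    by_contra hrv
    set M := R ⊓ Subgroup.centralizer ({v} : Set H) with hM
    have hMi : ∀ x ∈ M, f * x * f⁻¹ ∈ M := fun x hx => ⟨hRconj f x hx.1, by
      have hfC : f ∈ Subgroup.centralizer ({v} : Set H) :=
        Subgroup.mem_centralizer_singleton_iff.2 hfv
      exact Subgroup.mul_mem _ (Subgroup.mul_mem _ hfC hx.2) (Subgroup.inv_mem _ hfC)⟩
    have hrM : r ∉ M := fun h => hrv (Subgroup.mem_centralizer_singleton_iff.1 h.2)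
    have hidx : (M.subgroupOf R).index = 2 := by
      refine Subgroup.index_eq_two_iff.2 ⟨⟨r, hr⟩, fun x => ?_⟩
      have hx := hv.2 x x.2
      have hr' := hv.2 r hr
      have iff1 : ∀ y : R, (y ∈ M.subgroupOf R ↔ (y : H) * v * (y : H)⁻¹ * v⁻¹ = 1) := fun y => by
        rw [Subgroup.mem_subgroupOf, hM, Subgroup.mem_inf, Subgroup.mem_centralizer_singleton_iff,
          mul_inv_eq_one, mul_inv_eq_iff_eq_mul]
        simp
      have hr1 : r * v * r⁻¹ * v⁻¹ = c := hr'.resolve_left fun h => hrM ((iff1 ⟨r, hr⟩).2 h)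
      have e : ((x : H) * r) * v * ((x : H) * r)⁻¹ * v⁻¹ =
          (x : H) * (r * v * r⁻¹ * v⁻¹) * (x : H)⁻¹ * ((x : H) * v * (x : H)⁻¹ * v⁻¹) := by group
      rw [iff1, iff1, Subgroup.coe_mul, e, hr1, fixR x x.2, mul_inv_cancel_right]
      rcases hx with h | h
      · refine Or.inr ⟨h, ?_⟩; rw [h, mul_one]; exact hc1
      · refine Or.inl ⟨by rw [h, cc], by rw [h]; exact hc1⟩
    have hcard : Nat.card R = 2 * Nat.card M := by
      have e := (M.subgroupOf R).card_mul_index
      rw [Nat.card_congr (Subgroup.subgroupOfEquivOfLe (inf_le_left : M ≤ R)).toEquiv, hidx, ← hM] at e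
      omega
    obtain ⟨x, hx, hxM, hfx⟩ := trick f hf R M inf_le_left (fun h => hrM (h ▸ hr)) hcard
      (hRconj f) hMi (pow2 M inf_le_left)
    exact hxM ⟨hx, Subgroup.mem_centralizer_singleton_iff.2 (habel f hf x hx v hv.1 hfx hfv)⟩
  have hR₀ : R₀ = R := by
    obtain ⟨f, hf⟩ := hC.exists_five
    have h5 : f ^ 5 = 1 := hf ▸ pow_orderOf_eq_one f
    have hle : R₀ ≤ R := fun x hx => hx.1
    obtain ⟨i, hi⟩ := pow2 R₀ hle
    have hm := fixed_mod_five h5 R₀ (hR₀c f hf)
    obtain ⟨l, hl⟩ := pow2 (R₀ ⊓ Subgroup.centralizer ({f} : Set H)) (inf_le_left.trans hle)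
    have hd : Nat.card ↥(R₀ ⊓ Subgroup.centralizer ({f} : Set H)) ∣ 4 :=
      hfix f hf ▸ Subgroup.card_dvd_of_le (inf_le_inf_right _ hle)
    have hl2 : l ≤ 2 := (Nat.pow_dvd_pow_iff_le_right (show 1 < 2 by norm_num)).1 (hl ▸ hd)
    have hl1 : l ≠ 0 := fun h => hb1 (by
      have := Subgroup.eq_bot_of_card_eq _ (hl.trans (by rw [h]; rfl))
      exact Subgroup.mem_bot.1 (this ▸ (⟨hKR₀ hbK,
        Subgroup.mem_centralizer_singleton_iff.2 (hbc f)⟩ :
          b ∈ R₀ ⊓ Subgroup.centralizer ({f} : Set H))))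
    have hi6 : i ≤ 6 := by
      have := Subgroup.card_le_of_le hle
      rw [hi, h64] at this
      exact (Nat.pow_le_pow_iff_right (show 1 < 2 by norm_num)).1 this
    have hil : l < i := by
      rw [← Nat.pow_lt_pow_iff_right (show 1 < 2 by norm_num), ← hi, ← hl]
      refine lt_of_le_of_ne (Subgroup.card_le_of_le inf_le_left) fun he => hsf f hf ?_
      have := (Subgroup.eq_of_le_of_card_ge inf_le_left he.ge).ge hsR₀
      exact (Subgroup.mem_centralizer_singleton_iff.1 this.2).symm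
    rw [hl, hi] at hm
    by_contra hne'
    have hi5 : i ≠ 6 := fun h => hne' (Subgroup.eq_of_le_of_card_ge hle (by rw [hi, h, h64]; rfl))
    -- the remaining case: index two, meeting the fixed points in `⟨b⟩`
    have hcase : i = 5 ∧ l = 1 := by
      interval_cases l <;> interval_cases i <;> omega
    -- some fixed point lies outside
    have hlt4 : Nat.card ↥(R₀ ⊓ Subgroup.centralizer ({f} : Set H)) <
        Nat.card ↥(R ⊓ Subgroup.centralizer ({f} : Set H)) := by
      rw [hfix f hf, hl, hcase.2]; norm_num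
    obtain ⟨v, hvR, hv0⟩ := SetLike.exists_of_lt (lt_of_le_of_ne (inf_le_inf_right _ hle)
      fun h => hlt4.ne (by rw [h]) : R₀ ⊓ Subgroup.centralizer ({f} : Set H) <
        R ⊓ Subgroup.centralizer ({f} : Set H))
    have hfv : f * v = v * f := (Subgroup.mem_centralizer_singleton_iff.1 hvR.2).symm
    have hvR₀ : v ∉ R₀ := fun h => hv0 ⟨h, hvR.2⟩
    refine hvR₀ (hKR₀ (Subgroup.mem_centralizer_iff.2 fun r hr => ?_))
    by_contra hrv
    have hidx0 : (R₀.subgroupOf R).index = 2 := by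
      have e := (R₀.subgroupOf R).card_mul_index
      rw [Nat.card_congr (Subgroup.subgroupOfEquivOfLe hle).toEquiv, hi, hcase.1, h64] at e
      omega
    set M := R₀ ⊓ Subgroup.centralizer ({v} : Set H) with hM
    have hfC : f ∈ Subgroup.centralizer ({v} : Set H) :=
      Subgroup.mem_centralizer_singleton_iff.2 hfv
    have hMi : ∀ x ∈ M, f * x * f⁻¹ ∈ M := fun x hx => ⟨hR₀c f hf x hx.1,
      Subgroup.mul_mem _ (Subgroup.mul_mem _ hfC hx.2) (Subgroup.inv_mem _ hfC)⟩
    have hMne : M ≠ R₀ := fun h => hrv (by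
      by_cases hr0 : r ∈ R₀
      · exact Subgroup.mem_centralizer_singleton_iff.1 (h ▸ hr0 : r ∈ M).2
      · have h1 := (Subgroup.mul_mem_iff_of_index_two hidx0 (a := (⟨r, hr⟩ : R))
          (b := (⟨v, hvR.1⟩ : R))).2 (by simp [Subgroup.mem_subgroupOf, hr0, hvR₀])
        have h2 : r * v * v = v * (r * v) :=
          Subgroup.mem_centralizer_singleton_iff.1 (h ▸ Subgroup.mem_subgroupOf.1 h1 : r * v ∈ M).2
        exact mul_right_cancel (h2.trans (mul_assoc v r v).symm))
    obtain ⟨x₀, hx₀, hx₀M⟩ := SetLike.exists_of_lt (lt_of_le_of_ne inf_le_left hMne : M < R₀)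
    have hidx : (M.subgroupOf R₀).index = 2 := by
      refine Subgroup.index_eq_two_iff.2 ⟨⟨x₀, hx₀⟩, fun x => ?_⟩
      have iff1 : ∀ y : R₀, (y ∈ M.subgroupOf R₀ ↔ v * (y : H) * v⁻¹ * (y : H)⁻¹ = 1) := fun y => by
        rw [Subgroup.mem_subgroupOf, hM, Subgroup.mem_inf, Subgroup.mem_centralizer_singleton_iff,
          mul_inv_eq_one, mul_inv_eq_iff_eq_mul]
        simp [eq_comm]
      have hxc := x.2.2 v hvR.1
      have h0 : v * x₀ * v⁻¹ * x₀⁻¹ = c :=
        (hx₀.2 v hvR.1).resolve_left fun h => hx₀M ((iff1 ⟨x₀, hx₀⟩).2 h)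
      have e : v * ((x : H) * x₀) * v⁻¹ * ((x : H) * x₀)⁻¹ =
          (v * (x : H) * v⁻¹ * (x : H)⁻¹) * ((x : H) * (v * x₀ * v⁻¹ * x₀⁻¹) * (x : H)⁻¹) := by
        group
      rw [iff1, iff1, Subgroup.coe_mul, e, h0, fixR x x.2.1, mul_inv_cancel_right]
      rcases hxc with h | h
      · refine Or.inr ⟨h, ?_⟩; rw [h, one_mul]; exact hc1
      · refine Or.inl ⟨by rw [h, cc], by rw [h]; exact hc1⟩
    have hcard : Nat.card R₀ = 2 * Nat.card M := by
      have e := (M.subgroupOf R₀).card_mul_index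
      rw [Nat.card_congr (Subgroup.subgroupOfEquivOfLe (inf_le_left : M ≤ R₀)).toEquiv, hidx, ← hM] at e
      omega
    obtain ⟨x, hx, hxM, hfx⟩ := trick f hf R₀ M inf_le_left hMne hcard (hR₀c f hf) hMi
      (pow2 M (inf_le_left.trans hle))
    exact hxM ⟨hx, Subgroup.mem_centralizer_singleton_iff.2 (habel f hf x hx.1 v hvR.1 hfx hfv)⟩
  have hallK : ∀ f : H, orderOf f = 5 → R ⊓ Subgroup.centralizer ({f} : Set H) ≤ K :=
    fun f hf v hv => central f hf v (hR₀.symm ▸ hv.1)
      (Subgroup.mem_centralizer_singleton_iff.1 hv.2).symm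
  have hK4 : Nat.card K = 4 := by
    obtain ⟨f, hf⟩ := hC.exists_five
    have hm := fixed_mod_five (hf ▸ pow_orderOf_eq_one f) K
      fun x hx => (inferInstance : K.Normal).conj_mem x hx f
    have e : K ⊓ Subgroup.centralizer ({f} : Set H) = R ⊓ Subgroup.centralizer ({f} : Set H) :=
      le_antisymm (inf_le_inf_right _ hsc) fun x hx => ⟨hallK f hf hx, hx.2⟩
    have h4 : 4 ≤ Nat.card K := hfix f hf ▸ Subgroup.card_le_of_le (hallK f hf)
    rw [e, hfix f hf] at hm
    obtain ⟨i, hi⟩ := pow2 K hsc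
    rw [hi] at hm h4 hK16 ⊢
    have hi4 : i ≤ 4 := (Nat.pow_le_pow_iff_right (show 1 < 2 by norm_num)).1
      (hK16.trans (le_refl (2 ^ 4)))
    interval_cases i <;> omega
  refine ⟨hK4, ?_, c, hcK, hc1, fun r hr x hx => (hR₀.symm ▸ hx : x ∈ R₀).2 r hr⟩
  intro f hf x hx
  have := (Subgroup.eq_of_le_of_card_ge (hallK f hf) (by rw [hK4, hfix f hf])).ge hx
  exact (Subgroup.mem_centralizer_singleton_iff.1 this.2).symm

theorem perm_five_commute' : ∀ s : Equiv.Perm (Fin 5), s ^ 5 = 1 → s ≠ 1 →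
    (Finset.univ.filter fun t : Equiv.Perm (Fin 5) => t * t = 1 ∧ s * t = t * s) = {1} := by
  decide +kernel

theorem perm_five_commute (s t : Equiv.Perm (Fin 5)) (hs : s ^ 5 = 1) (hs1 : s ≠ 1)
    (ht : t * t = 1) (hc : s * t = t * s) : t = 1 :=
  Finset.mem_singleton.1 (perm_five_commute' s hs hs1 ▸ Finset.mem_filter.2
    ⟨Finset.mem_univ t, ht, hc⟩)

end CentB

namespace Setup

open Subgroup

variable {G : Type u} [Group G] [Finite G]

theorem map_centralizer {C : Subgroup G} (x : C) :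
    (Subgroup.centralizer ({x} : Set C)).map C.subtype =
      C ⊓ Subgroup.centralizer ({(x : G)} : Set G) := by
  ext y
  constructor
  · rintro ⟨z, hz, rfl⟩
    exact ⟨z.2, Subgroup.mem_centralizer_singleton_iff.2
      (congrArg Subtype.val (Subgroup.mem_centralizer_singleton_iff.1 hz))⟩
  · rintro ⟨hy, hyx⟩
    exact ⟨⟨y, hy⟩, Subgroup.mem_centralizer_singleton_iff.2
      (Subtype.ext (Subgroup.mem_centralizer_singleton_iff.1 hyx)), rfl⟩

theorem map_normalizer {C : Subgroup G} (x : C) :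
    (Subgroup.normalizer (Subgroup.zpowers x : Set C)).map C.subtype =
      C ⊓ Subgroup.normalizer (Subgroup.zpowers (x : G) : Set G) := by
  have hz : ∀ z : C, (z : G) ∈ Subgroup.zpowers (x : G) ↔ z ∈ Subgroup.zpowers x := fun z => by
    simp only [Subgroup.mem_zpowers_iff, Subtype.ext_iff, SubgroupClass.coe_zpow]
  ext y
  constructor
  · rintro ⟨z, hzn, rfl⟩
    refine ⟨z.2, Subgroup.mem_normalizer_fintype fun n hn => ?_⟩
    obtain ⟨i, rfl⟩ := Subgroup.mem_zpowers_iff.1 hn
    exact (hz (z * x ^ i * z⁻¹)).2 ((Subgroup.mem_normalizer_iff.1 hzn _).1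
      (Subgroup.zpow_mem _ (Subgroup.mem_zpowers x) i))
  · rintro ⟨hy, hyn⟩
    refine ⟨⟨y, hy⟩, Subgroup.mem_normalizer_fintype fun n hn => ?_, rfl⟩
    exact (hz (⟨y, hy⟩ * n * ⟨y, hy⟩⁻¹)).1
      ((Subgroup.mem_normalizer_iff.1 hyn _).1 ((hz n).2 hn))

/-- The centraliser and the normaliser of an element of order five inside `C(b)`, and the four
group of the involutions commuting with it. -/
theorem five_facts (h : Setup G) {b f : G} (hb : orderOf b = 2) (hA : ¬ IsA b)
    (hf : orderOf f = 5) (hfb : Commute f b) :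
    Nat.card ↥(Subgroup.centralizer ({b} : Set G) ⊓ Subgroup.centralizer ({f} : Set G)) = 20 ∧
      Nat.card ↥(Subgroup.centralizer ({b} : Set G) ⊓
        Subgroup.normalizer (Subgroup.zpowers f : Set G)) = 80 ∧
      (∀ t, orderOf t = 2 → Commute t f → ∃ y : G, Commute y f ∧ y * b * y⁻¹ = t) ∧
      ∃ w, orderOf w = 2 ∧ w ≠ b ∧ Commute w f ∧ Commute w b := by
  classical
  haveI : Fact (Nat.Prime 5) := ⟨Nat.prime_five⟩
  set T := {t : G // orderOf t = 2 ∧ Commute t f}
  have hT : Nat.card T = 3 := (h.invol_five f hf).1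
  have stab : ∀ b' : G, orderOf b' = 2 → Commute f b' →
      Nat.card ↥(Subgroup.centralizer ({b'} : Set G) ⊓ Subgroup.centralizer ({f} : Set G)) = 20 ∧
      Nat.card ↥(Subgroup.centralizer ({b'} : Set G) ⊓
        Subgroup.normalizer (Subgroup.zpowers f : Set G)) = 80 := by
    intro b' hb' hfb'
    have hA' : ¬ IsA b' := (h.invol_five f hf).2 b' hb' hfb'.symm
    set N := Subgroup.normalizer (Subgroup.zpowers f : Set G) with hN
    set C := Subgroup.centralizer ({b'} : Set G) with hC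
    set D := Subgroup.centralizer ({f} : Set G) with hD
    have hDN : D ≤ N := by
      rw [hN, hD, ← Subgroup.centralizer_closure ({f} : Set G), ← Subgroup.zpowers_eq_closure]
      exact Subgroup.centralizer_le_normalizer _
    have orb_le : ∀ A : Subgroup G, A ≤ N →
        Nat.card {w : G // ∃ a ∈ A, a * b' * a⁻¹ = w} ≤ 3 := by
      intro A hA
      rw [← hT]
      refine Nat.card_le_card_of_injective (fun w => (⟨w.1, ?_⟩ : T))
        fun u v e => Subtype.ext (congrArg (fun t : T => (t : G)) e)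
      obtain ⟨a, ha, hw⟩ := w.2
      rw [← hw]
      refine ⟨(MulAut.conj a).orderOf_eq b' |>.trans hb', ?_⟩
      have hm : a⁻¹ * f * a⁻¹⁻¹ ∈ Subgroup.zpowers f :=
        (Subgroup.mem_normalizer_iff.1 (inv_mem (hA ha)) f).1 (Subgroup.mem_zpowers f)
      obtain ⟨i, hi⟩ := Subgroup.mem_zpowers_iff.1 hm
      have hc : Commute (a * b' * a⁻¹) (a * f ^ i * a⁻¹) := by
        have := (hfb'.symm.zpow_right i).map (MulAut.conj a).toMonoidHom
        simpa using this
      rwa [hi, show a * (a⁻¹ * f * a⁻¹⁻¹) * a⁻¹ = f by group] at hc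
    have eN := CfsgLib.M23Count.CoreLocal.conj_orbit_card N b'
    have hNc : Nat.card N = 240 := h.norm_five f hf
    rw [hNc] at eN
    replace eN : Nat.card ↥(C ⊓ N) *
        Nat.card {w : G // ∃ a ∈ N, a * b' * a⁻¹ = w} = 240 := by rw [inf_comm]; exact eN
    have lN := orb_le N le_rfl
    have hC7 : Nat.card C = 7680 := h.cent_not_isA b' hb' hA'
    set f' : C := ⟨f, Subgroup.mem_centralizer_singleton_iff.2 hfb'.eq⟩
    have hf' : orderOf f' = 5 := by rw [← hf, ← Subgroup.orderOf_coe]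
    have hp : IsPGroup 5 ↥(Subgroup.zpowers f') :=
      IsPGroup.of_card (n := 1) (by rw [Nat.card_zpowers, hf', pow_one])
    obtain ⟨P, hP⟩ := hp.exists_le_sylow
    have hPz : (P : Subgroup C) = Subgroup.zpowers f' := by
      refine (Subgroup.eq_of_le_of_card_ge hP ?_).symm
      rw [Nat.card_zpowers, hf', P.card_eq_multiplicity, hC7,
        show (7680 : ℕ) = 1536 * 5 from rfl, Nat.factorization_mul (by norm_num) (by norm_num)]
      simp [Nat.factorization_eq_zero_of_not_dvd, Nat.prime_five.factorization_self]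
    have hmod := card_sylow_modEq_one 5 C
    rw [P.card_eq_index_normalizer, Nat.ModEq] at hmod
    have hidx : (Subgroup.normalizer (Subgroup.zpowers f' : Set C)).index % 5 = 1 := by
      rw [← hPz]; exact hmod
    have eI := Subgroup.card_mul_index (Subgroup.normalizer (Subgroup.zpowers f' : Set C))
    rw [← Subgroup.card_map_of_injective (f := C.subtype) C.subtype_injective, map_normalizer,
      hC7] at eI
    have eI' : Nat.card ↥(C ⊓ N) * (Subgroup.normalizer (Subgroup.zpowers f' : Set C)).index =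
        7680 := eI
    have h80 : Nat.card ↥(C ⊓ N) = 80 := by
      generalize Nat.card {w : G // ∃ a ∈ N, a * b' * a⁻¹ = w} = o at eN lN
      generalize (Subgroup.normalizer (Subgroup.zpowers f' : Set C)).index = q at eI' hidx
      interval_cases o
      · omega
      · rw [show Nat.card ↥(C ⊓ N) = 240 by omega] at eI'; omega
      · rw [show Nat.card ↥(C ⊓ N) = 120 by omega] at eI'; omega
      · omega
    refine ⟨?_, h80⟩
    have eD := CfsgLib.M23Count.CoreLocal.conj_orbit_card D b'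
    have hDc : Nat.card D = 60 := h.cent_five f hf
    rw [hDc] at eD
    replace eD : Nat.card ↥(C ⊓ D) *
        Nat.card {w : G // ∃ a ∈ D, a * b' * a⁻¹ = w} = 60 := by rw [inf_comm]; exact eD
    have lD := orb_le D hDN
    have hd : Nat.card ↥(C ⊓ D) ∣ 80 := h80 ▸ Subgroup.card_dvd_of_le (inf_le_inf_left _ hDN)
    generalize Nat.card {w : G // ∃ a ∈ D, a * b' * a⁻¹ = w} = o at eD lD
    interval_cases o
    · omega
    · exact absurd hd (by rw [show Nat.card ↥(C ⊓ D) = 60 by omega]; norm_num)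
    · exact absurd hd (by rw [show Nat.card ↥(C ⊓ D) = 30 by omega]; norm_num)
    · omega
  obtain ⟨h20, h80⟩ := stab b hb hfb
  have trans : ∀ t, orderOf t = 2 → Commute t f → ∃ y : G, Commute y f ∧ y * b * y⁻¹ = t := by
    have eD := CfsgLib.M23Count.CoreLocal.conj_orbit_card (Subgroup.centralizer ({f} : Set G)) b
    rw [h.cent_five f hf, inf_comm, h20] at eD
    have mk : ∀ w : {w : G // ∃ a ∈ Subgroup.centralizer ({f} : Set G), a * b * a⁻¹ = w},
        orderOf (w : G) = 2 ∧ Commute (w : G) f := by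
      rintro ⟨w, a, ha, rfl⟩
      refine ⟨(MulAut.conj a).orderOf_eq b |>.trans hb, ?_⟩
      have hc : Commute a f := Subgroup.mem_centralizer_singleton_iff.1 ha
      exact ((hc.mul_left hfb.symm).mul_left hc.inv_left)
    intro t ht htf
    have hbij : Function.Bijective (fun w => (⟨w.1, mk w⟩ : T) :
        {w : G // ∃ a ∈ Subgroup.centralizer ({f} : Set G), a * b * a⁻¹ = w} → T) :=
      Function.Injective.bijective_of_nat_card_le
        (fun u v e => Subtype.ext (congrArg (fun x : T => (x : G)) e)) (by rw [hT]; omega)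
    obtain ⟨⟨w, a, ha, hw⟩, e⟩ := hbij.2 ⟨t, ht, htf⟩
    exact ⟨a, Subgroup.mem_centralizer_singleton_iff.1 ha, hw.trans (congrArg Subtype.val e)⟩
  refine ⟨h20, h80, trans, ?_⟩
  obtain ⟨⟨b', hb', hb'f⟩, hne⟩ : ∃ t : T, (t : G) ≠ b := by
    haveI : Nontrivial T := Finite.one_lt_card_iff_nontrivial.1 (by omega)
    obtain ⟨x, y, hxy⟩ := exists_pair_ne T
    by_cases hx : (x : G) = b
    · exact ⟨y, fun hy => hxy (Subtype.ext (hx.trans hy.symm))⟩
    · exact ⟨x, hx⟩
  set D := Subgroup.centralizer ({f} : Set G)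
  set A := (Subgroup.centralizer ({b} : Set G) ⊓ D).subgroupOf D
  set B := (Subgroup.centralizer ({b'} : Set G) ⊓ D).subgroupOf D
  have cardA : Nat.card A = 20 := by
    rw [Nat.card_congr (Subgroup.subgroupOfEquivOfLe inf_le_right).toEquiv]; exact h20
  have cardB : Nat.card B = 20 := by
    rw [Nat.card_congr (Subgroup.subgroupOfEquivOfLe inf_le_right).toEquiv]
    exact (stab b' hb' hb'f.symm).1
  have hle : (A ⊓ B).index ≤ A.index * B.index := Subgroup.index_inf_le
  have eA := A.card_mul_index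
  have eB := B.card_mul_index
  have eAB := (A ⊓ B).card_mul_index
  rw [show Nat.card D = 60 from h.cent_five f hf] at eA eB eAB
  rw [cardA] at eA
  rw [cardB] at eB
  have hd : Nat.card ↥(A ⊓ B) ∣ 20 := cardA ▸ Subgroup.card_dvd_of_le inf_le_left
  have hge : 60 ≤ Nat.card ↥(A ⊓ B) * 9 := by
    rw [show A.index = 3 by omega, show B.index = 3 by omega] at hle
    have := Nat.mul_le_mul_left (Nat.card ↥(A ⊓ B)) hle
    omega
  haveI : Fact (Nat.Prime 2) := ⟨Nat.prime_two⟩
  have h2 : 2 ∣ Nat.card ↥(A ⊓ B) := by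
    obtain ⟨m, hm⟩ := hd
    have hm2 : m ≤ 2 := by
      by_contra hcon
      have := Nat.mul_le_mul_left (Nat.card ↥(A ⊓ B)) (show 3 ≤ m by omega)
      omega
    interval_cases m <;> omega
  obtain ⟨x, hx⟩ := exists_prime_orderOf_dvd_card' 2 h2
  have hx2 : orderOf ((x : D) : G) = 2 := by rwa [Subgroup.orderOf_coe, Subgroup.orderOf_coe]
  have hxf : Commute ((x : D) : G) f := Subgroup.mem_centralizer_singleton_iff.1 (x : D).2
  have hxb : Commute ((x : D) : G) b :=
    Subgroup.mem_centralizer_singleton_iff.1 (Subgroup.mem_subgroupOf.1 x.2.1).1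
  have hxb' : Commute ((x : D) : G) b' :=
    Subgroup.mem_centralizer_singleton_iff.1 (Subgroup.mem_subgroupOf.1 x.2.2).1
  by_cases hxe : ((x : D) : G) = b
  · exact ⟨b', hb', hne, hb'f, (hxe ▸ hxb').symm⟩
  · exact ⟨_, hx2, hxe, hxf, hxb⟩

theorem cent_facts (h : Setup G) {b : G} (hb : orderOf b = 2) (hA : ¬ IsA b) :
    CentB.Cent ↥(Subgroup.centralizer ({b} : Set G)) := by
  haveI : Fact (Nat.Prime 5) := ⟨Nat.prime_five⟩
  have hc := h.cent_not_isA b hb hA
  refine ⟨hc, exists_prime_orderOf_dvd_card' 5 (by rw [hc]; norm_num), fun f hf => ?_, fun f hf => ?_⟩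
  all_goals
    have hfG : orderOf (f : G) = 5 := by rwa [Subgroup.orderOf_coe]
    have hfb : Commute (f : G) b := Subgroup.mem_centralizer_singleton_iff.1 f.2
    obtain ⟨h20, h80, -⟩ := h.five_facts hb hA hfG hfb
    rw [← Subgroup.card_map_of_injective
      (f := (Subgroup.centralizer ({b} : Set G)).subtype) (Subgroup.subtype_injective _)]
  · rw [map_centralizer]; exact h20
  · rw [map_normalizer]; exact h80

/-- A 2-group normalised by a subgroup of index at most two lies in a normal 2-group. -/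
theorem le_normal_two_group {H : Type u} [Group H] [Finite H] (A0 R : Subgroup H)
    (hA : A0.index ≤ 2) (hR : R ≤ A0) (hRn : A0 ≤ Subgroup.normalizer (R : Set H))
    (hR2 : IsPGroup 2 R) : ∃ J : Subgroup H, J.Normal ∧ IsPGroup 2 J ∧ R ≤ J := by
  rcases (show A0.index = 1 ∨ A0.index = 2 by
    have := A0.index_ne_zero_of_finite; omega) with h1 | h2
  · refine ⟨R, Subgroup.normalizer_eq_top_iff.1 (eq_top_iff.2 ?_), hR2, le_rfl⟩
    rw [← Subgroup.index_eq_one.1 h1]; exact hRn
  haveI hAn := Subgroup.normal_of_index_eq_two h2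
  obtain ⟨g, hg⟩ : ∃ g, g ∉ A0 := by
    by_contra hc
    push Not at hc
    rw [Subgroup.index_eq_one.2 (Subgroup.eq_top_iff' A0 |>.2 hc)] at h2
    omega
  set R' := R.map (MulAut.conj g).toMonoidHom with hR'
  have hR'A : R' ≤ A0 := by
    rintro x ⟨r, hr, rfl⟩
    exact hAn.conj_mem r (hR hr) g
  have hconj : ∀ a ∈ A0, ∀ x ∈ R, a * x * a⁻¹ ∈ R := fun a ha x hx =>
    (Subgroup.mem_normalizer_iff.1 (hRn ha) x).1 hx
  have hconj' : ∀ a ∈ A0, ∀ x ∈ R', a * x * a⁻¹ ∈ R' := by
    rintro a ha x ⟨r, hr, rfl⟩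
    refine ⟨(g⁻¹ * a * g) * r * (g⁻¹ * a * g)⁻¹, hconj _ (by simpa using hAn.conj_mem a ha g⁻¹) r hr, ?_⟩
    simp [mul_assoc]
  refine ⟨R ⊔ R', ?_, hR2.to_sup_of_normal_left' (hR2.map _) ?_, le_sup_left⟩
  · have hA0 : A0 ≤ Subgroup.normalizer ((R ⊔ R' : Subgroup H) : Set H) := fun a ha => by
      refine Subgroup.mem_normalizer_fintype fun x hx => ?_
      have hle : R ⊔ R' ≤ (R ⊔ R').comap (MulAut.conj a).toMonoidHom := sup_le
        (fun x hx => le_sup_left (α := Subgroup H) (hconj a ha x hx))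
        (fun x hx => le_sup_right (α := Subgroup H) (hconj' a ha x hx))
      exact hle hx
    have hgn : g ∈ Subgroup.normalizer ((R ⊔ R' : Subgroup H) : Set H) := by
      refine Subgroup.mem_normalizer_fintype fun x hx => ?_
      have hle : R ⊔ R' ≤ (R ⊔ R').comap (MulAut.conj g).toMonoidHom := sup_le
        (fun x hx => le_sup_right (α := Subgroup H) ⟨x, hx, rfl⟩)
        (fun x hx => by
          obtain ⟨r, hr, rfl⟩ := hx
          refine le_sup_left (α := Subgroup H) ?_
          show g * (g * r * g⁻¹) * g⁻¹ ∈ R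
          rw [show g * (g * r * g⁻¹) * g⁻¹ = (g * g) * r * (g * g)⁻¹ by group]
          exact hconj _ ((Subgroup.mul_mem_iff_of_index_two h2).2 (by simp [hg])) r hr)
      exact hle hx
    refine Subgroup.normalizer_eq_top_iff.1 (eq_top_iff.2 fun x _ => ?_)
    by_cases hx : x ∈ A0
    · exact hA0 hx
    · have : g⁻¹ * x ∈ A0 := (Subgroup.mul_mem_iff_of_index_two h2).2 (by simp [hg, hx])
      have := Subgroup.mul_mem _ hgn (hA0 this)
      rwa [mul_inv_cancel_left] at this
  · exact hR'A.trans hRn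

/-- The two-core of the centraliser of an involution outside class A. -/
theorem exists_core (h : Setup G) {b : G} (hb : orderOf b = 2) (hA : ¬ IsA b) :
    ∃ (R : Subgroup G) (φ : ↥(Subgroup.centralizer ({b} : Set G)) →* Equiv.Perm (Fin 5)),
      Function.Surjective φ ∧ φ.ker = R.subgroupOf (Subgroup.centralizer ({b} : Set G)) ∧
      R ≤ Subgroup.centralizer ({b} : Set G) ∧ Nat.card R = 64 ∧ b ∈ R ∧
      (∀ g : G, Commute g b → ∀ r ∈ R, g * r * g⁻¹ ∈ R) ∧
      (∀ x : G, Commute x b → (∀ r ∈ R, x * r = r * x) → x ∈ R) ∧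
      (∀ L : Subgroup G, L ≤ Subgroup.centralizer ({b} : Set G) → IsPGroup 2 L →
        (∀ g : G, Commute g b → ∀ x ∈ L, g * x * g⁻¹ ∈ L) → L ≤ R) ∧
      (∀ f : G, orderOf f = 5 → Commute f b →
        Nat.card ↥(R ⊓ Subgroup.centralizer ({f} : Set G)) = 4) ∧
      ∀ s : G, s * s = 1 → Commute s b →
        512 ≤ Nat.card ↥(Subgroup.centralizer ({b} : Set G) ⊓ Subgroup.centralizer ({s} : Set G)) →
        s ∈ R ∧ ∀ r ∈ R, s * r = r * s := by
  classical
  have hC := h.cent_facts hb hA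
  set C := Subgroup.centralizer ({b} : Set G) with hCdef
  obtain ⟨R, φ, hφ, hker, h64, hRn, hsc, hmax, hfix⟩ := hC.exists_core
  haveI := hRn
  have hι := C.subtype_injective
  have memR : ∀ x : C, (x : G) ∈ R.map C.subtype ↔ x ∈ R := fun x => Subgroup.mem_map_iff_mem hι
  have hcard : ∀ A : Subgroup C, Nat.card (A.map C.subtype) = Nat.card A := fun A =>
    Subgroup.card_map_of_injective hι
  have conjR : ∀ g : G, Commute g b → ∀ r ∈ R.map C.subtype, g * r * g⁻¹ ∈ R.map C.subtype := by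
    rintro g hg r ⟨r', hr', rfl⟩
    exact (memR (⟨g, Subgroup.mem_centralizer_singleton_iff.2 hg.eq⟩ * r' *
      ⟨g, Subgroup.mem_centralizer_singleton_iff.2 hg.eq⟩⁻¹)).2 (hRn.conj_mem r' hr' _)
  have hmaxG : ∀ L : Subgroup G, L ≤ C → IsPGroup 2 L →
      (∀ g : G, Commute g b → ∀ x ∈ L, g * x * g⁻¹ ∈ L) → L ≤ R.map C.subtype := by
    intro L hL hL2 hLn
    have hn : (L.subgroupOf C).Normal := ⟨fun x hx g => Subgroup.mem_subgroupOf.2
      (hLn g (Subgroup.mem_centralizer_singleton_iff.1 g.2) x hx)⟩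
    have := hmax _ hn (hL2.comap_subtype (K := C))
    intro x hx
    exact (memR ⟨x, hL hx⟩).2 (this (Subgroup.mem_subgroupOf.2 hx))
  set b' : C := ⟨b, Subgroup.mem_centralizer_singleton_iff.2 rfl⟩
  have hbc : ∀ x : C, b' * x = x * b' := fun x =>
    Subtype.ext (Subgroup.mem_centralizer_singleton_iff.1 x.2).symm
  have hb1 : b' ≠ 1 := fun e => by
    have : b = 1 := congrArg Subtype.val e
    rw [this, orderOf_one] at hb
    omega
  have hbb : b * b = 1 := by rw [← pow_two, ← hb, pow_orderOf_eq_one]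
  have hbR : b' ∈ R := hsc (Subgroup.mem_centralizer_iff.2 fun r _ => (hbc r).symm)
  refine ⟨R.map C.subtype, φ, hφ, ?_, Subgroup.map_subtype_le R, (hcard R).trans h64,
    (memR b').2 hbR, conjR, ?_, hmaxG, ?_, ?_⟩
  · rw [hker]
    ext x
    rw [Subgroup.mem_subgroupOf, memR]
  · intro x hx hxr
    exact (memR ⟨x, Subgroup.mem_centralizer_singleton_iff.2 hx.eq⟩).2
      (hsc (Subgroup.mem_centralizer_iff.2 fun r hr =>
        Subtype.ext (hxr r ((memR r).2 hr)).symm))
  · intro f hf hfb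
    set f' : C := ⟨f, Subgroup.mem_centralizer_singleton_iff.2 hfb.eq⟩ with hf'
    rw [← hfix f' (by rw [← Subgroup.orderOf_coe]; exact hf), ← hcard,
      Subgroup.map_inf _ _ _ hι, map_centralizer, ← inf_assoc,
      inf_eq_left.2 (Subgroup.map_subtype_le R)]
  intro s hs hsb hbig
  set s' : C := ⟨s, Subgroup.mem_centralizer_singleton_iff.2 hsb.eq⟩ with hs'
  have hss : s' * s' = 1 := Subtype.ext hs
  have hbig' : 512 ≤ Nat.card (Subgroup.centralizer ({s'} : Set C)) := by
    rw [← hcard, map_centralizer]; exact hbig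
  have hsR := CentB.mem_core_of_large hker h64 hsc hss hbig'
  refine ⟨(memR s').2 hsR, ?_⟩
  by_contra hne
  obtain ⟨r, hr, hrs⟩ : ∃ r ∈ R, s' * r ≠ r * s' := by
    by_contra hall
    push Not at hall
    refine hne fun r hr => ?_
    obtain ⟨r', hr', rfl⟩ := hr
    exact congrArg Subtype.val (hall r' hr')
  obtain ⟨hK4, hKf, c, hcK, hc1, hcomm⟩ :=
    hC.bad_core hφ hker h64 hsc hfix hb1 hbc hss hsR ⟨r, hr, hrs⟩ hbig'
  obtain ⟨f', hf'⟩ := hC.exists_five
  set K := Subgroup.centralizer (R : Set C) with hK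
  set f : G := (f' : G)
  have hfG : orderOf f = 5 := by rwa [Subgroup.orderOf_coe]
  have hfb : Commute f b := Subgroup.mem_centralizer_singleton_iff.1 f'.2
  obtain ⟨-, -, trans, w, hw2, hwb, hwf, hwbc⟩ := h.five_facts hb hA hfG hfb
  have hKeq : K = R ⊓ Subgroup.centralizer ({f'} : Set C) :=
    Subgroup.eq_of_le_of_card_ge (fun x hx =>
      ⟨hsc hx, Subgroup.mem_centralizer_singleton_iff.2 (hKf f' hf' x hx).symm⟩)
      (by rw [hK4, hfix f' hf'])
  set w' : C := ⟨w, Subgroup.mem_centralizer_singleton_iff.2 hwbc.eq⟩ with hw'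
  have hww : w' * w' = 1 := Subtype.ext (by
    show w * w = 1
    rw [← pow_two, ← hw2, pow_orderOf_eq_one])
  have hwK : w' ∈ K := by
    rw [hKeq]
    refine ⟨hker ▸ MonoidHom.mem_ker.2 (CentB.perm_five_commute (φ f') (φ w') ?_ ?_ ?_ ?_),
      Subgroup.mem_centralizer_singleton_iff.2 (Subtype.ext hwf.eq)⟩
    · have h5 : f' ^ 5 = 1 := hf' ▸ pow_orderOf_eq_one f'
      rw [← map_pow, h5, map_one]
    · intro e
      have : f' ∈ R ⊓ Subgroup.centralizer ({f'} : Set C) :=
        ⟨hker ▸ MonoidHom.mem_ker.2 e, Subgroup.mem_centralizer_singleton_iff.2 rfl⟩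
      have hd := orderOf_dvd_natCard (⟨f', this⟩ : ↥(R ⊓ Subgroup.centralizer ({f'} : Set C)))
      rw [Subgroup.orderOf_mk, hf', hfix f' hf'] at hd
      norm_num at hd
    · rw [← map_mul, hww, map_one]
    · rw [← map_mul, ← map_mul]
      exact congrArg φ (Subtype.ext hwf.eq.symm)
  have hbK : b' ∈ K := Subgroup.mem_centralizer_iff.2 fun r _ => (hbc r).symm
  have hne1 : w' ≠ b' := fun e => hwb (congrArg Subtype.val e)
  have hw1 : w' ≠ 1 := fun e => by
    have : w = 1 := congrArg Subtype.val e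
    rw [this, orderOf_one] at hw2
    omega
  -- every element of `K` is one of `1, b, w, b w`
  have hKmem : ∀ x ∈ K, x = 1 ∨ x = b' ∨ x = w' ∨ x = b' * w' := by
    intro x hx
    have hbb' : b' * b' = 1 := Subtype.ext hbb
    let F : Finset C := {1, b', w', b' * w'}
    have hF : F.card = 4 := by
      have e1 : b' * w' ≠ 1 := fun e => hne1 (by
        rw [← inv_eq_of_mul_eq_one_right e, inv_eq_of_mul_eq_one_right hbb'])
      have e2 : b' * w' ≠ b' := fun e => hw1 (mul_eq_left.1 e)
      have e3 : b' * w' ≠ w' := fun e => hb1 (mul_eq_right.1 e)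
      simp [F, hb1.symm, hw1.symm, hne1.symm, e1.symm, e2.symm, e3.symm]
    have hFK : ∀ y ∈ F, y ∈ K := by
      intro y hy
      simp only [F, Finset.mem_insert, Finset.mem_singleton] at hy
      rcases hy with rfl | rfl | rfl | rfl
      exacts [one_mem K, hbK, hwK, mul_mem hbK hwK]
    haveI : Fintype K := Fintype.ofFinite _
    have hFeq : F = (Finset.univ : Finset K).map ⟨Subtype.val, Subtype.val_injective⟩ :=
      Finset.eq_of_subset_of_card_le (fun y hy => Finset.mem_map.2 ⟨⟨y, hFK y hy⟩, by simp, rfl⟩)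
        (by rw [Finset.card_map, Finset.card_univ, ← Nat.card_eq_fintype_card, hK4, hF])
    have : x ∈ F := hFeq ▸ Finset.mem_map.2 ⟨⟨x, hx⟩, by simp, rfl⟩
    simpa [F] using this
  have hKinv : ∀ x ∈ K, x * x = 1 := by
    intro x hx
    have hbb' : b' * b' = 1 := Subtype.ext hbb
    rcases hKmem x hx with rfl | rfl | rfl | rfl
    · exact one_mul 1
    · exact hbb'
    · exact hww
    · calc b' * w' * (b' * w') = b' * (w' * b') * w' := by group
        _ = b' * (b' * w') * w' := by rw [hbc w']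
        _ = b' * b' * (w' * w') := by group
        _ = 1 := by rw [hbb', hww, one_mul]
  have hord : ∀ x ∈ K, x ≠ 1 → orderOf (x : G) = 2 ∧ Commute (x : G) f := fun x hx hx1 =>
    ⟨by rw [Subgroup.orderOf_coe]; exact orderOf_eq_prime (by rw [pow_two]; exact hKinv x hx) hx1,
      congrArg Subtype.val (hKf f' hf' x hx).symm⟩
  -- a commutator different from one
  have hrs' : r * s' * r⁻¹ * s'⁻¹ = c := (hcomm r hr s' hsR).resolve_left fun e => hrs (by
    rw [mul_inv_eq_one, mul_inv_eq_iff_eq_mul] at e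
    exact e.symm)
  have key : ∀ t ∈ K, t ≠ 1 → t ≠ b' → ∃ y : G, y * b * y⁻¹ = (t : G) ∧ y * (c : G) = (c : G) * y := by
    intro t htK ht1 htb
    obtain ⟨ht2, htf⟩ := hord t htK ht1
    obtain ⟨y, hyf, hy⟩ := trans _ ht2 htf
    refine ⟨y, hy, ?_⟩
    set C' := Subgroup.centralizer ({(t : G)} : Set G) with hC'
    set R₁ := R.map C.subtype with hR₁
    have hyC : ∀ x : G, x ∈ C ↔ y * x * y⁻¹ ∈ C' := by
      intro x
      rw [hCdef, hC', Subgroup.mem_centralizer_singleton_iff, Subgroup.mem_centralizer_singleton_iff,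
        ← hy]
      constructor
      · intro e
        calc y * x * y⁻¹ * (y * b * y⁻¹) = y * (x * b) * y⁻¹ := by group
          _ = y * b * y⁻¹ * (y * x * y⁻¹) := by rw [e]; group
      · intro e
        calc x * b = y⁻¹ * (y * x * y⁻¹ * (y * b * y⁻¹)) * y := by group
          _ = b * x := by rw [e]; group
    have hRC' : R₁ ≤ C' := by
      rintro x ⟨x', hx', rfl⟩
      exact Subgroup.mem_centralizer_singleton_iff.2
        (congrArg Subtype.val (Subgroup.mem_centralizer_iff.1 htK x' hx'))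
    -- `C(b) ⊓ C(t)` has index at most two in `C(t)`
    have hC'7 : Nat.card C' = 7680 :=
      h.cent_not_isA _ ht2 ((h.invol_five f hfG).2 _ ht2 htf)
    have horb : Nat.card {v : G // ∃ a ∈ C, a * (t : G) * a⁻¹ = v} ≤ 2 := by
      let F : Finset G := {(w : G), b * w}
      refine le_trans (Nat.card_le_card_of_injective (fun v => (⟨v.1, ?_⟩ : F))
        fun u v e => Subtype.ext (congrArg (fun z : F => (z : G)) e)) ?_
      · obtain ⟨a, ha, hv⟩ := v.2
        set a' : C := ⟨a, ha⟩
        have hm : a' * t * a'⁻¹ ∈ K := (inferInstance : K.Normal).conj_mem t htK a'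
        have hm1 : a' * t * a'⁻¹ ≠ 1 := fun e => ht1 (conj_eq_one_iff.1 e)
        have hmb : a' * t * a'⁻¹ ≠ b' := fun e => htb (by
          have e' : t = a'⁻¹ * b' * a' := by rw [← e]; group
          rw [e', mul_assoc, hbc a', inv_mul_cancel_left])
        rw [← hv]
        show a * (t : G) * a⁻¹ ∈ F
        rcases hKmem _ hm with e | e | e | e
        · exact absurd e hm1
        · exact absurd e hmb
        · simp only [F, Finset.mem_insert, Finset.mem_singleton]
          exact Or.inl (congrArg Subtype.val e)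
        · simp only [F, Finset.mem_insert, Finset.mem_singleton]
          exact Or.inr (congrArg Subtype.val e)
      · rw [Nat.card_eq_finsetCard]
        exact Finset.card_le_two
    have eC := CfsgLib.M23Count.CoreLocal.conj_orbit_card C (t : G)
    rw [hC.card] at eC
    set A0 := (C ⊓ C').subgroupOf C' with hA0
    have hidx : A0.index ≤ 2 := by
      have e := A0.card_mul_index
      rw [Nat.card_congr (Subgroup.subgroupOfEquivOfLe inf_le_right).toEquiv, hC'7] at e
      have hpos : 0 < Nat.card ↥(C ⊓ C') := Nat.card_pos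
      have e1 : A0.index = Nat.card {v : G // ∃ a ∈ C, a * (t : G) * a⁻¹ = v} :=
        mul_left_cancel₀ hpos.ne' (e.trans eC.symm)
      omega
    obtain ⟨J, hJn, hJ2, hRJ⟩ := le_normal_two_group A0 (R₁.subgroupOf C') hidx
      (fun x hx => Subgroup.mem_subgroupOf.2 ⟨Subgroup.map_subtype_le R (Subgroup.mem_subgroupOf.1 hx),
        x.2⟩)
      (fun a ha => Subgroup.mem_normalizer_fintype fun x hx => Subgroup.mem_subgroupOf.2 (conjR a
        (Subgroup.mem_centralizer_singleton_iff.1 (Subgroup.mem_subgroupOf.1 ha).1) x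
        (Subgroup.mem_subgroupOf.1 hx)))
      ((IsPGroup.of_card (n := 6) ((hcard R).trans h64)).comap_subtype)
    -- the core of `C(t)` is the conjugate of `R`
    set L := (J.map C'.subtype).map (MulAut.conj y⁻¹).toMonoidHom with hL
    have hLle : L ≤ R₁ := by
      refine hmaxG L ?_ ((hJ2.map _).map _) ?_
      · rintro x ⟨z, ⟨z', -, rfl⟩, rfl⟩
        refine (hyC _).2 ?_
        convert z'.2 using 1
        simp [mul_assoc]
      · rintro g hg x ⟨z, ⟨z', hz', rfl⟩, rfl⟩
        have hg' : y * g * y⁻¹ ∈ C' := (hyC g).1 (Subgroup.mem_centralizer_singleton_iff.2 hg.eq)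
        refine ⟨_, ⟨⟨_, hg'⟩ * z' * ⟨_, hg'⟩⁻¹, hJn.conj_mem z' hz' _, rfl⟩, ?_⟩
        simp [mul_assoc]
    have hyR : ∀ x ∈ R₁, y⁻¹ * x * y ∈ R₁ := fun x hx => hLle
      ⟨x, ⟨⟨x, hRC' hx⟩, hRJ (Subgroup.mem_subgroupOf.2 hx), rfl⟩, by simp⟩
    -- so `y` fixes the commutator
    obtain ⟨u, hu, hue⟩ := hyR _ ((memR r).2 hr)
    obtain ⟨v, hv, hve⟩ := hyR _ ((memR s').2 hsR)
    simp only [Subgroup.coe_subtype] at hue hve
    have e : ((u * v * u⁻¹ * v⁻¹ : C) : G) = y⁻¹ * (c : G) * y := by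
      rw [← hrs']
      push_cast
      rw [hue, hve]
      group
    rcases hcomm u hu v hv with e' | e'
    · rw [e', Subgroup.coe_one] at e
      exfalso
      refine hc1 (Subtype.ext ?_)
      have : (c : G) = y * 1 * y⁻¹ := by rw [e]; group
      simpa using this
    · rw [e'] at e
      calc y * (c : G) = y * (y⁻¹ * (c : G) * y) := by rw [← e]
        _ = (c : G) * y := by group
  by_cases hcb : c = b'
  · obtain ⟨y, hy, hyc⟩ := key w' hwK hw1 hne1
    rw [hcb] at hyc
    exact hwb (hy.symm.trans (mul_inv_eq_iff_eq_mul.2 hyc))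
  · obtain ⟨y, hy, hyc⟩ := key c hcK hc1 hcb
    refine hcb (Subtype.ext ?_)
    have : y * b * y⁻¹ = y * (c : G) * y⁻¹ := hy.trans (mul_inv_eq_iff_eq_mul.2 hyc).symm
    exact (mul_left_cancel (mul_right_cancel this)).symm

/-- The centraliser of an element of order five in the centraliser of an involution. -/
theorem cent_five_inf (h : Setup G) {b f : G} (hb : orderOf b = 2) (hf : orderOf f = 5)
    (hfb : Commute f b) :
    Nat.card ↥(Subgroup.centralizer ({b} : Set G) ⊓ Subgroup.centralizer ({f} : Set G)) = 20 :=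
  (h.five_facts hb ((h.invol_five f hf).2 b hb hfb.symm) hf hfb).1

end Setup

end CfsgLib.M24Count
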