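import Cfsg.Agent.M24Count.CoreIface
import Cfsg.Agent.M24Count.CentB

/-!
The two-core of the centraliser of an involution not of class A, in the form of `BCore`.
-/

set_option autoImplicit false

namespace CfsgLib.M24Count

universe u

/-- `CoreStmt.ExistsBCore` holds in every finite group. -/
theorem existsBCore {G : Type u} [Group G] [Finite G] : CoreStmt.ExistsBCore G := by
  intro h b hb hA
  obtain ⟨R, φ, hφ, hker, hle, h64, -, hn, hself, -, hfive, hbig⟩ := h.exists_core hb hA
  refine ⟨R,
    { card := h64
      le := hle
      normal := hn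
      self := fun x hx hr => hself x hx fun r hr' => (hr r hr').eq
      five := hfive
      quot := ⟨φ, hφ, hker⟩
      big := fun s hs hsb hcard => ?_ }⟩
  obtain ⟨h1, h2⟩ := hbig s (by rw [← pow_two, ← hs, pow_orderOf_eq_one]) hsb hcard
  exact ⟨h1, fun r hr => (h2 r hr).symm⟩

end CfsgLib.M24Count
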