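import Cfsg.Agent.M24Count.CoreIface
import Mathlib.GroupTheory.Perm.Fin
import Mathlib.GroupTheory.Perm.Sign
import Mathlib.GroupTheory.Perm.Cycle.Type
import Mathlib.GroupTheory.Index

/-!
No abelian subgroup of order 128 in the centraliser of an involution not of class A.

The image in `S₅` of such a subgroup has order 2 or 4 and contains a double transposition, whose
conjugate makes with it an element of order 5; an element of order 5 then centralises at least 16
elements of the two-core, against 4.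
-/

set_option autoImplicit false

namespace CfsgLib.M24Count

universe u

namespace CoreAbelian

open Equiv

theorem double_conj : ∀ σ : Perm (Fin 5), σ ≠ 1 → σ * σ = 1 → Perm.sign σ = 1 →
    ∃ π : Perm (Fin 5),
      σ * (π * σ * π⁻¹) ≠ 1 ∧ (σ * (π * σ * π⁻¹)) ^ 5 = 1 := by
  decide +kernel

theorem double_cent : ∀ σ : Perm (Fin 5), σ ≠ 1 → σ * σ = 1 → Perm.sign σ = 1 →
    (Finset.univ.filter fun π : Perm (Fin 5) => π * σ = σ * π).card = 8 ∧
      ∃ π ρ : Perm (Fin 5), π * σ = σ * π ∧ ρ * σ = σ * ρ ∧ π * ρ ≠ ρ * π := by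
  decide +kernel

/-- An abelian subgroup of even order of `A₅`-part in `S₅`: a double transposition and a bound. -/
theorem abelian_two (A : Subgroup (Perm (Fin 5))) (hA : ∀ x ∈ A, ∀ y ∈ A, x * y = y * x)
    (hd : Nat.card A ∣ 128) (h4 : 4 ∣ Nat.card A) :
    Nat.card A = 4 ∧ ∃ σ ∈ A, σ ≠ 1 ∧ σ * σ = 1 ∧ Perm.sign σ = 1 := by
  have : Fact (Nat.Prime 2) := ⟨Nat.prime_two⟩
  have h120 : Nat.card A ∣ 120 := by
    have := A.card_subgroup_dvd_card
    rwa [Nat.card_perm, Nat.card_fin] at this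
  have hg : Nat.card A ∣ 8 := by
    have h : Nat.card A ∣ Nat.gcd 128 120 := Nat.dvd_gcd hd h120
    exact h
  let ψ : ↥A →* ℤˣ := Perm.sign.comp A.subtype
  have hk : 2 ∣ Nat.card ψ.ker := by
    have hmul := Subgroup.card_mul_index ψ.ker
    rw [Subgroup.index_ker] at hmul
    have hr : Nat.card ψ.range ∣ 2 := by
      have := ψ.range.card_subgroup_dvd_card
      rwa [Nat.card_eq_fintype_card (α := ℤˣ), Fintype.card_units_int] at this
    rcases (Nat.dvd_prime Nat.prime_two).1 hr with h | h <;> rw [h] at hmul <;> omega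
  obtain ⟨σ, hσ⟩ := exists_prime_orderOf_dvd_card' (G := ↥ψ.ker) 2 hk
  have hσ1 : ((σ : ↥A) : Perm (Fin 5)) ≠ 1 := by
    intro h
    have : σ = 1 := Subtype.ext (Subtype.ext h)
    rw [this, orderOf_one] at hσ
    omega
  have hσ2 : ((σ : ↥A) : Perm (Fin 5)) * ((σ : ↥A) : Perm (Fin 5)) = 1 := by
    have := pow_orderOf_eq_one σ
    rw [hσ, pow_two] at this
    simpa using congrArg (fun z : ↥ψ.ker => ((z : ↥A) : Perm (Fin 5))) this
  have hσs : Perm.sign ((σ : ↥A) : Perm (Fin 5)) = 1 := σ.2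
  refine ⟨?_, _, (σ : ↥A).2, hσ1, hσ2, hσs⟩
  by_contra hne
  have h8 : Nat.card A = 8 := by
    have hle := Nat.le_of_dvd (by norm_num) hg
    obtain ⟨j, hj⟩ := h4
    have hpos : 0 < Nat.card A := Nat.card_pos
    omega
  obtain ⟨hc, π, ρ, hπ, hρ, hne'⟩ := double_cent _ hσ1 hσ2 hσs
  classical
  have hsub : (Finset.univ.filter fun x : Perm (Fin 5) => x ∈ A) ⊆
      Finset.univ.filter fun x : Perm (Fin 5) => x * (σ : ↥A) = (σ : ↥A) * x := by
    intro x hx
    rw [Finset.mem_filter] at hx ⊢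
    exact ⟨hx.1, hA x hx.2 _ (σ : ↥A).2⟩
  have heq := Finset.eq_of_subset_of_card_le hsub (by
    rw [hc, ← h8, Nat.card_eq_fintype_card, Fintype.card_subtype])
  have hmem : ∀ x : Perm (Fin 5),
      x * (σ : ↥A) = (σ : ↥A) * x → x ∈ A := by
    intro x hx
    have : x ∈ Finset.univ.filter fun x : Perm (Fin 5) => x ∈ A := by
      rw [heq, Finset.mem_filter]
      exact ⟨Finset.mem_univ _, hx⟩
    exact (Finset.mem_filter.1 this).2
  exact hne' (hA π (hmem π hπ) ρ (hmem ρ hρ))

theorem card_mul_rel {G : Type u} [Group G] {H K : Subgroup G} (h : H ≤ K) :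
    Nat.card H * H.relIndex K = Nat.card K := by
  rw [← Nat.card_congr (Subgroup.subgroupOfEquivOfLe h).toEquiv, Subgroup.relIndex]
  exact Subgroup.card_mul_index _

end CoreAbelian

open CoreAbelian

/-- There is no abelian subgroup of order 128 in the centraliser of a non-A involution. -/
theorem noAbelian {G : Type u} [Group G] [Finite G] : CoreStmt.NoAbelian G := by
  intro b R hB Q hQ hQle hcomm
  obtain ⟨φ, hsurj, hker⟩ := hB.quot
  let ι : ↥Q →* ↥(Subgroup.centralizer ({b} : Set G)) := Subgroup.inclusion hQle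
  let ψ : ↥Q →* Equiv.Perm (Fin 5) := φ.comp ι
  have hkmem : ∀ x : ↥Q, x ∈ ψ.ker ↔ (x : G) ∈ R := by
    intro x
    rw [MonoidHom.mem_ker, MonoidHom.comp_apply, ← MonoidHom.mem_ker, hker,
      Subgroup.mem_subgroupOf]
    rfl
  have hkcard : Nat.card ψ.ker = Nat.card ↥(R ⊓ Q) := by
    refine Nat.card_congr
      { toFun := fun x => ⟨((x : ↥Q) : G), (hkmem _).1 x.2, (x : ↥Q).2⟩
        invFun := fun y => ⟨⟨(y : G), y.2.2⟩, (hkmem _).2 y.2.1⟩
        left_inv := fun x => rfl
        right_inv := fun y => rfl }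
  have hmul : Nat.card ↥(R ⊓ Q) * Nat.card ψ.range = 128 := by
    rw [← hkcard, ← Subgroup.index_ker, Subgroup.card_mul_index, hQ]
  have hR64 : Nat.card ↥(R ⊓ Q) ∣ 64 := hB.card ▸ Subgroup.card_dvd_of_le inf_le_left
  have hne64 : Nat.card ↥(R ⊓ Q) ≠ 64 := by
    intro h
    have heq : R ⊓ Q = R := Subgroup.eq_of_le_of_card_ge inf_le_left (by rw [h, hB.card])
    have hQR : Q ≤ R := fun x hx => hB.self x
      (Subgroup.mem_centralizer_singleton_iff.1 (hQle hx))
      fun r hr => hcomm x hx r (by rw [← heq] at hr; exact hr.2)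
    have := Subgroup.card_dvd_of_le hQR
    rw [hB.card, hQ] at this
    norm_num at this
  have h4 : 4 ∣ Nat.card ψ.range := by
    obtain ⟨i, hi, hk⟩ := (Nat.dvd_prime_pow Nat.prime_two).1
      (show Nat.card ↥(R ⊓ Q) ∣ 2 ^ 6 from hR64)
    rw [hk] at hmul hne64
    interval_cases i <;> omega
  have hAcomm : ∀ x ∈ ψ.range, ∀ y ∈ ψ.range, x * y = y * x := by
    rintro _ ⟨x, rfl⟩ _ ⟨y, rfl⟩
    rw [← map_mul, ← map_mul]
    exact congrArg ψ (Subtype.ext (hcomm _ x.2 _ y.2))
  obtain ⟨hA4, σ, ⟨g, hg⟩, hσ1, hσ2, hσs⟩ :=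
    abelian_two ψ.range hAcomm (Dvd.intro_left _ hmul) h4
  have hk32 : Nat.card ↥(R ⊓ Q) = 32 := by rw [hA4] at hmul; omega
  obtain ⟨π, hπ1, hπ5⟩ := double_conj σ hσ1 hσ2 hσs
  obtain ⟨c, hc⟩ := hsurj π
  have hgc : (g : G) ∈ Subgroup.centralizer ({b} : Set G) := hQle g.2
  set h : ↥(Subgroup.centralizer ({b} : Set G)) := ι g * (c * ι g * c⁻¹) with hh
  have hφh : φ h = σ * (π * σ * π⁻¹) := by
    rw [hh, ← hg, ← hc]
    simp only [map_mul, map_inv]
    rfl
  have ho5 : orderOf (φ h) = 5 := by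
    rw [hφh]
    have : Fact (Nat.Prime 5) := ⟨by norm_num⟩
    exact orderOf_eq_prime hπ5 hπ1
  have hd5 : 5 ∣ orderOf h := ho5 ▸ orderOf_map_dvd φ h
  set f : ↥(Subgroup.centralizer ({b} : Set G)) := h ^ (orderOf h / 5) with hf
  have hof : orderOf (f : G) = 5 := by
    rw [Subgroup.orderOf_coe, hf, orderOf_pow_orderOf_div (orderOf_pos h).ne' hd5]
  have hfb : Commute (f : G) b := Subgroup.mem_centralizer_singleton_iff.1 f.2
  set S : Subgroup G := R ⊓ Q with hS
  set T : Subgroup G := S.map (MulAut.conj (c : G)).toMonoidHom with hT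
  have hTR : T ≤ R := by
    rintro _ ⟨s, hs, rfl⟩
    exact hB.normal _ (Subgroup.mem_centralizer_singleton_iff.1 c.2) s hs.1
  have hTcard : Nat.card T = 32 := by
    rw [hT, ← hk32]
    exact (Nat.card_congr
      (S.equivMapOfInjective _ (MulAut.conj (c : G)).injective).toEquiv).symm
  have hbig : 16 ≤ Nat.card ↥(S ⊓ T) := by
    have h1 : S.relIndex R = 2 := by
      have := card_mul_rel (H := S) (K := R) inf_le_left
      rw [hk32, hB.card] at this
      omega
    have h2 : T.relIndex R = 2 := by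
      have := card_mul_rel hTR
      rw [hTcard, hB.card] at this
      omega
    have h3 := Subgroup.relIndex_inf_le (H := S) (K := T) (L := R)
    rw [h1, h2] at h3
    have h4' := card_mul_rel (H := S ⊓ T) (K := R)
      (inf_le_left.trans inf_le_left)
    rw [hB.card] at h4'
    nlinarith
  have hle : S ⊓ T ≤ R ⊓ Subgroup.centralizer ({(f : G)} : Set G) := by
    intro r hr
    refine ⟨hr.1.1, Subgroup.mem_centralizer_singleton_iff.2 ?_⟩
    have hcg : Commute r ((c : G) * (g : G) * (c : G)⁻¹) := by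
      obtain ⟨s, hs, hrs⟩ := hr.2
      rw [← hrs]
      have hsg : Commute s (g : G) := hcomm s hs.2 _ g.2
      exact hsg.map (MulAut.conj (c : G)).toMonoidHom
    have hrh : Commute r (h : G) := by
      have h0 : (h : G) = (g : G) * ((c : G) * (g : G) * (c : G)⁻¹) := rfl
      rw [h0]
      exact (show Commute r (g : G) from hcomm r hr.1.2 _ g.2).mul_right hcg
    have hrf : Commute r (f : G) := by
      rw [hf, SubgroupClass.coe_pow]
      exact hrh.pow_right _
    exact hrf.eq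
  have hfin := Nat.le_of_dvd Nat.card_pos (Subgroup.card_dvd_of_le hle)
  rw [hB.five (f : G) hof hfb] at hfin
  omega

end CfsgLib.M24Count
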