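import Cfsg.Agent.M24Count.CoreBasic
import Cfsg.Agent.Simple168.Two
import Mathlib.GroupTheory.Nilpotent

/-!
An involution not of class A inside the two-core of an involution of class A.
-/

set_option autoImplicit false
set_option linter.style.haveILetI false

namespace CfsgLib.M24Count

universe u

variable {G : Type u} [Group G] [Finite G]

theorem card_inf_mul_map {H : Type*} [Group H] {C : Subgroup G} (π : ↥C →* H) (P : Subgroup ↥C) :
    Nat.card ↥(π.ker ⊓ P) * Nat.card (P.map π) = Nat.card P := by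
  have h := ((π.comp P.subtype).ker).card_mul_index
  rw [Subgroup.index_ker, MonoidHom.range_comp, Subgroup.range_subtype] at h
  have e : Nat.card (π.comp P.subtype).ker = Nat.card ↥(π.ker ⊓ P) :=
    Nat.card_congr ⟨fun p => ⟨p.1.1, p.2, p.1.2⟩, fun p => ⟨⟨p.1, p.2.2⟩, p.2.1⟩,
      fun _ => rfl, fun _ => rfl⟩
  rw [e] at h
  exact h

/-- Some involution not of class A centralises a subgroup of order 512 of `C(t)`. -/
theorem Setup.exists_b (h : Setup G) {t : G} (ht : IsA t) :
    ∃ b : G, orderOf b = 2 ∧ ¬ IsA b ∧ Commute b t ∧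
      512 ∣ Nat.card ↥(Subgroup.centralizer ({t} : Set G) ⊓ Subgroup.centralizer ({b} : Set G)) := by
  classical
  haveI : Fact (Nat.Prime 5) := ⟨by norm_num⟩
  haveI : Fact (Nat.Prime 2) := ⟨by norm_num⟩
  obtain ⟨f, hf⟩ := exists_prime_orderOf_dvd_card' (G := G) 5 (by rw [h.card]; norm_num)
  obtain ⟨h3, hB⟩ := h.invol_five f hf
  haveI : Nonempty {t : G // orderOf t = 2 ∧ Commute t f} :=
    (Nat.card_pos_iff.1 (h3 ▸ (by norm_num : 0 < 3))).1
  obtain ⟨⟨b, hb2, hbf⟩⟩ := ‹Nonempty {t : G // orderOf t = 2 ∧ Commute t f}›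
  have hbA : ¬ IsA b := hB b hb2 hbf
  set Cb := Subgroup.centralizer ({b} : Set G) with hCb
  obtain ⟨P⟩ := (inferInstance : Nonempty (Sylow 2 ↥Cb))
  have hP : Nat.card (P : Subgroup ↥Cb) = 512 := by
    rw [Sylow.card_eq_multiplicity, h.cent_not_isA b hb2 hbA, show (7680 : ℕ) = 2 ^ 9 * 15 from rfl,
      Nat.factorization_mul (by norm_num) (by norm_num), Finsupp.add_apply,
      Nat.factorization_pow_self Nat.prime_two,
      Nat.factorization_eq_zero_of_not_dvd (by norm_num : ¬ 2 ∣ 15)]
    norm_num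
  obtain ⟨S, hS⟩ := (P.isPGroup'.map Cb.subtype).exists_le_sylow
  have hS1024 : Nat.card (S : Subgroup G) = 1024 := by
    rw [Sylow.card_eq_multiplicity, h.card, show (244823040 : ℕ) = 2 ^ 10 * 239085 from rfl,
      Nat.factorization_mul (by norm_num) (by norm_num), Finsupp.add_apply,
      Nat.factorization_pow_self Nat.prime_two,
      Nat.factorization_eq_zero_of_not_dvd (by norm_num : ¬ 2 ∣ 239085)]
    norm_num
  haveI : Nontrivial ↥(S : Subgroup G) :=
    Finite.one_lt_card_iff_nontrivial.1 (by rw [hS1024]; norm_num)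
  haveI := S.isPGroup'.center_nontrivial
  obtain ⟨z, hz⟩ := exists_prime_orderOf_dvd_card' (G := ↥(Subgroup.center ↥(S : Subgroup G))) 2 (by
    obtain ⟨n, hn⟩ := (S.isPGroup'.to_subgroup (Subgroup.center ↥(S : Subgroup G))).exists_card_eq
    have h1 : 1 < Nat.card (Subgroup.center ↥(S : Subgroup G)) :=
      Finite.one_lt_card_iff_nontrivial.2 inferInstance
    rw [hn] at h1 ⊢
    exact dvd_pow_self 2 (fun e => by rw [e] at h1; norm_num at h1))
  set w : G := ((z : ↥(S : Subgroup G)) : G) with hw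
  have hw2 : orderOf w = 2 := by rw [hw, Subgroup.orderOf_coe, Subgroup.orderOf_coe, hz]
  have hwS : ∀ s ∈ (S : Subgroup G), Commute s w := fun s hs =>
    congrArg Subtype.val (Subgroup.mem_center_iff.1 z.2 ⟨s, hs⟩)
  have hwA : IsA w := by
    by_contra hA
    have := Subgroup.card_dvd_of_le (show (S : Subgroup G) ≤ Subgroup.centralizer ({w} : Set G)
      from fun s hs => mem_cen.2 (hwS s hs))
    rw [hS1024, h.cent_not_isA w hw2 hA] at this
    norm_num at this
  obtain ⟨g, hg⟩ := isConj_iff.1 (h.isA_conj w t hwA ht)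
  refine ⟨g * b * g⁻¹, ?_, fun hA => hbA ?_, ?_, ?_⟩
  · rw [show g * b * g⁻¹ = MulAut.conj g b from rfl, MulEquiv.orderOf_eq, hb2]
  · have := hA.conj g⁻¹
    rwa [show g⁻¹ * (g * b * g⁻¹) * g⁻¹⁻¹ = b by group] at this
  · have hbP : b ∈ (P : Subgroup ↥Cb).map Cb.subtype := by
      have hbc : (⟨b, mem_cen.2 (Commute.refl b)⟩ : ↥Cb) ∈ Subgroup.center ↥Cb :=
        Subgroup.mem_center_iff.2 fun x => Subtype.ext (mem_cen.1 x.2).eq
      have hsup : (P : Subgroup ↥Cb) ⊔ Subgroup.zpowers ⟨b, mem_cen.2 (Commute.refl b)⟩ = P := by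
        refine P.3 ?_ le_sup_left
        haveI : (Subgroup.zpowers (⟨b, mem_cen.2 (Commute.refl b)⟩ : ↥Cb)).Normal := ⟨fun n hn g => by
          obtain ⟨i, rfl⟩ := Subgroup.mem_zpowers_iff.1 hn
          rw [Subgroup.mem_center_iff.1 (Subgroup.zpow_mem _ hbc i) g, mul_inv_cancel_right]
          exact hn⟩
        refine P.isPGroup'.to_sup_of_normal_right ?_
        exact IsPGroup.of_card (n := 1) (by
          rw [Nat.card_zpowers, ← Subgroup.orderOf_coe]; exact hb2)
      refine ⟨⟨b, mem_cen.2 (Commute.refl b)⟩, ?_, rfl⟩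
      rw [SetLike.mem_coe, ← hsup]
      exact Subgroup.mem_sup_right (Subgroup.mem_zpowers _)
    rw [← hg]
    exact (hwS b (hS hbP)).map (MulAut.conj g).toMonoidHom
  · have hle : ((P : Subgroup ↥Cb).map Cb.subtype).map (MulAut.conj g).toMonoidHom ≤
        Subgroup.centralizer ({t} : Set G) ⊓ Subgroup.centralizer ({g * b * g⁻¹} : Set G) := by
      rintro _ ⟨x, hx, rfl⟩
      obtain ⟨p, hp, rfl⟩ := hx
      refine ⟨mem_cen.2 ?_, mem_cen.2 ?_⟩
      · rw [← hg]
        exact (hwS _ (hS ⟨p, hp, rfl⟩)).map (MulAut.conj g).toMonoidHom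
      · exact (mem_cen.1 p.2).map (MulAut.conj g).toMonoidHom
    have := Subgroup.card_dvd_of_le hle
    rwa [Subgroup.card_map_of_injective (MulAut.conj g).injective,
      Subgroup.card_map_of_injective Cb.subtype_injective, hP] at this

namespace TwoCore

variable {t : G} {Q : Subgroup G} (K : TwoCore t Q)
include K

theorem quot_card (h : Setup G) (ht : IsA t) :
    (Q.subgroupOf (Subgroup.centralizer ({t} : Set G))).index = 168 := by
  have h1 := (Q.subgroupOf (Subgroup.centralizer ({t} : Set G))).card_mul_index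
  rw [Nat.card_congr (Subgroup.subgroupOfEquivOfLe K.le).toEquiv, K.card, h.cent_isA t ht] at h1
  omega

theorem normal_subgroupOf : (Q.subgroupOf (Subgroup.centralizer ({t} : Set G))).Normal :=
  ⟨fun n hn g => K.normal _ (mem_cen.1 g.2) _ hn⟩

theorem quot_simple (h : Setup G) (ht : IsA t)
    [(Q.subgroupOf (Subgroup.centralizer ({t} : Set G))).Normal] :
    IsSimpleGroup (↥(Subgroup.centralizer ({t} : Set G)) ⧸
      Q.subgroupOf (Subgroup.centralizer ({t} : Set G))) := by
  set C := Subgroup.centralizer ({t} : Set G) with hC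
  set π := QuotientGroup.mk' (Q.subgroupOf C) with hπ
  haveI : Nontrivial (↥C ⧸ Q.subgroupOf C) := by
    rw [← Finite.one_lt_card_iff_nontrivial]
    show 1 < (Q.subgroupOf C).index
    rw [K.quot_card h ht]
    norm_num
  refine { eq_bot_or_eq_top_of_normal := fun N hN => ?_ }
  have hle : Q.subgroupOf C ≤ N.comap π := fun x hx => by
    have h1 : π x = 1 := (QuotientGroup.eq_one_iff x).2 hx
    rw [Subgroup.mem_comap, h1]; exact one_mem _
  have hQ : Q ≤ (N.comap π).map C.subtype := fun q hq => ⟨⟨q, K.le hq⟩, hle hq, rfl⟩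
  rcases K.simple ((N.comap π).map C.subtype) hQ (Subgroup.map_subtype_le _) (by
    rintro g hg _ ⟨n, hn, rfl⟩
    exact ⟨⟨g, mem_cen.2 hg⟩ * n * ⟨g, mem_cen.2 hg⟩⁻¹,
      (inferInstance : (N.comap π).Normal).conj_mem n hn _, rfl⟩) with e | e
  · left
    rw [eq_bot_iff]
    intro x hx
    obtain ⟨c, rfl⟩ := QuotientGroup.mk'_surjective _ x
    rw [Subgroup.mem_bot]
    refine (QuotientGroup.eq_one_iff c).2 ?_
    rw [Subgroup.mem_subgroupOf, ← e]
    exact ⟨c, hx, rfl⟩
  · right
    rw [eq_top_iff]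
    intro x _
    obtain ⟨c, rfl⟩ := QuotientGroup.mk'_surjective _ x
    obtain ⟨d, hd, hd'⟩ : (c : G) ∈ (N.comap π).map C.subtype := by rw [e]; exact c.2
    rwa [show d = c from Subtype.ext hd'] at hd

theorem card_over (h : Setup G) (ht : IsA t) {P : Subgroup G} (hQP : Q ≤ P)
    (hPC : P ≤ Subgroup.centralizer ({t} : Set G)) :
    P = Subgroup.centralizer ({t} : Set G) ∨ Nat.card P ≤ 3072 := by
  set C := Subgroup.centralizer ({t} : Set G) with hC
  haveI := K.normal_subgroupOf
  haveI := K.quot_simple h ht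
  set π := QuotientGroup.mk' (Q.subgroupOf C) with hπ
  have h168 : Nat.card (↥C ⧸ Q.subgroupOf C) = 168 := K.quot_card h ht
  have hle : π.ker ≤ P.subgroupOf C := by
    rw [hπ, QuotientGroup.ker_mk']
    exact fun x hx => hQP hx
  have hm := card_inf_mul_map π (P.subgroupOf C)
  rw [inf_of_le_left hle, hπ, QuotientGroup.ker_mk', ← hπ,
    Nat.card_congr (Subgroup.subgroupOfEquivOfLe K.le).toEquiv, K.card,
    Nat.card_congr (Subgroup.subgroupOfEquivOfLe hPC).toEquiv] at hm
  by_cases htop : (P.subgroupOf C).map π = ⊤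
  · left
    refine Subgroup.eq_of_le_of_card_ge hPC ?_
    rw [htop, Subgroup.card_top, h168] at hm
    rw [← hm, h.cent_isA t ht]
  · right
    have := Simple168.card_le_of_ne_top h168 htop
    omega

/-- An involution of `C(t)` centralising 512 elements of it lies in the two-core. -/
theorem mem_of_big (h : Setup G) (ht : IsA t) {b : G} (hb2 : orderOf b = 2) (hbt : Commute b t)
    (h512 : 512 ∣ Nat.card ↥(Subgroup.centralizer ({t} : Set G) ⊓
      Subgroup.centralizer ({b} : Set G))) : b ∈ Q := by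
  classical
  set C := Subgroup.centralizer ({t} : Set G) with hC
  haveI : Fact (Nat.Prime 2) := ⟨by norm_num⟩
  haveI := K.normal_subgroupOf
  haveI := K.quot_simple h ht
  set π := QuotientGroup.mk' (Q.subgroupOf C) with hπ
  have h168 : Nat.card (↥C ⧸ Q.subgroupOf C) = 168 := K.quot_card h ht
  by_contra hbQ
  set bc : ↥C := ⟨b, mem_cen.2 hbt⟩ with hbc
  have hπb : orderOf (π bc) = 2 := by
    refine orderOf_eq_prime ?_ ?_
    · rw [← map_pow, show bc ^ 2 = 1 from Subtype.ext (by
        push_cast; rw [hbc, ← hb2, pow_orderOf_eq_one]), map_one]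
    · intro e
      exact hbQ ((QuotientGroup.eq_one_iff bc).1 e)
  obtain ⟨S, hS⟩ := Simple168.exists_sylow_of_involution h168 hπb
  have hcard8 : Nat.card (Subgroup.centralizer ({π bc} : Set (↥C ⧸ Q.subgroupOf C))) = 8 := by
    rw [← hS, Simple168.zc_centralizer, Simple168.card_two h168]
  -- every conjugate of `b` centralises at least 64 elements of `Q`
  have h64 : ∀ g : G, Commute g t →
      64 ≤ Nat.card ↥(Q ⊓ Subgroup.centralizer ({g * b * g⁻¹} : Set G)) := by
    intro g hg
    set P := C ⊓ Subgroup.centralizer ({b} : Set G) with hP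
    have hm := card_inf_mul_map π (P.subgroupOf C)
    have hle : (P.subgroupOf C).map π ≤ Subgroup.centralizer ({π bc} : Set _) := by
      rintro _ ⟨x, hx, rfl⟩
      rw [SetLike.mem_coe, Subgroup.mem_subgroupOf] at hx
      exact mem_cen.2 ((show Commute x bc from Subtype.ext (mem_cen.1 hx.2).eq).map π)
    have h8 := hcard8 ▸ Subgroup.card_le_of_le hle
    have hk : Nat.card ↥(π.ker ⊓ P.subgroupOf C) = Nat.card ↥(Q ⊓ P) := by
      rw [hπ, QuotientGroup.ker_mk', show Q.subgroupOf C ⊓ P.subgroupOf C = (Q ⊓ P).subgroupOf C from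
        (Subgroup.comap_inf Q P C.subtype).symm,
        Nat.card_congr (Subgroup.subgroupOfEquivOfLe (inf_le_left.trans K.le)).toEquiv]
    rw [hk, Nat.card_congr (Subgroup.subgroupOfEquivOfLe inf_le_left).toEquiv] at hm
    have h5 : 512 ≤ Nat.card P := Nat.le_of_dvd Nat.card_pos h512
    generalize Nat.card ↥P = cP at hm h5
    have h64b : 64 ≤ Nat.card ↥(Q ⊓ P) := by
      by_contra hlt
      have := Nat.mul_le_mul (show Nat.card ↥(Q ⊓ P) ≤ 63 by omega) h8
      rw [hm] at this
      omega
    refine h64b.trans (Nat.card_le_card_of_injective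
      (fun x => ⟨g * x * g⁻¹, K.normal g hg _ x.2.1,
        mem_cen.2 ((mem_cen.1 x.2.2.2).map (MulAut.conj g).toMonoidHom)⟩) ?_)
    intro x y e
    exact Subtype.ext (mul_left_cancel (mul_right_cancel (congrArg Subtype.val e)))
  -- the chain of subgroups generated by conjugates of `b`
  have step : ∀ k : ℕ, ∃ P D : Subgroup G, Q ≤ P ∧ P ≤ C ∧ D ≤ Q ∧
      (∀ q ∈ Q, ∀ d ∈ D, q * d * q⁻¹ ∈ D) ∧
      P ≤ Q ⊔ (C ⊓ Subgroup.centralizer (D : Set G)) ∧
      128 ≤ 2 ^ k * Nat.card D ∧ (P = C ∨ 128 * 2 ^ k ≤ Nat.card P) := by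
    intro k
    induction k with
    | zero => exact ⟨Q, Q, le_rfl, K.le, le_rfl,
        fun q hq d hd => mul_mem (mul_mem hq hd) (inv_mem hq), le_sup_left,
        by rw [K.card]; norm_num, Or.inr (by rw [K.card]; norm_num)⟩
    | succ k ih =>
      obtain ⟨P, D, hQP, hPC, hDQ, hDn, hPD, hD, hP⟩ := ih
      by_cases htop : P = C
      · exact ⟨P, D, hQP, hPC, hDQ, hDn, hPD, hD.trans (Nat.mul_le_mul_right _
          (Nat.pow_le_pow_right (by norm_num) (Nat.le_succ k))), Or.inl htop⟩
      obtain ⟨g, hg, hgP⟩ : ∃ g : G, Commute g t ∧ g * b * g⁻¹ ∉ P := by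
        by_contra hne
        push Not at hne
        let L : Subgroup G := ⨅ g : {g : G // Commute g t}, P.map (MulAut.conj (g : G)).toMonoidHom
        have hmem : ∀ x, x ∈ L ↔ ∀ g : G, Commute g t → g⁻¹ * x * g ∈ P := by
          intro x
          rw [Subgroup.mem_iInf]
          constructor
          · intro hx g hg
            obtain ⟨p, hp, e⟩ := hx ⟨g, hg⟩
            rw [← e]
            show g⁻¹ * (g * p * g⁻¹) * g ∈ P
            rwa [show g⁻¹ * (g * p * g⁻¹) * g = p by group]
          · intro hx g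
            exact ⟨_, hx g g.2, by show (g : G) * ((g : G)⁻¹ * x * g) * (g : G)⁻¹ = x; group⟩
        have hbL : b ∈ L := (hmem b).2 fun g hg => by
          have := hne g⁻¹ hg.inv_left
          rwa [inv_inv] at this
        rcases K.simple L (fun q hq => (hmem q).2 fun g hg => hQP (by
            have := K.normal _ hg.inv_left q hq
            rwa [inv_inv] at this))
          (fun x hx => hPC (by simpa using (hmem x).1 hx 1 (Commute.one_left t)))
          (fun k hk x hx => (hmem _).2 fun g hg => by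
            have := (hmem x).1 hx (k⁻¹ * g) (hk.inv_left.mul_left hg)
            rwa [show g⁻¹ * (k * x * k⁻¹) * g = (k⁻¹ * g)⁻¹ * x * (k⁻¹ * g) by group]) with e | e
        · exact hbQ (e ▸ hbL)
        · refine htop (le_antisymm hPC fun x hx => ?_)
          have hxL : x ∈ L := e.symm ▸ hx
          simpa using (hmem x).1 hxL 1 (Commute.one_left t)
      set c := g * b * g⁻¹ with hc
      have hct : Commute c t := (hg.mul_left hbt).mul_left hg.inv_left
      set E := Q ⊓ Subgroup.centralizer ({c} : Set G) with hE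
      have hE64 : 64 ≤ Nat.card E := h64 g hg
      have hEn : ∀ q ∈ Q, ∀ d ∈ E, q * d * q⁻¹ ∈ E := by
        haveI : (E.subgroupOf Q).Normal := by
          have hm := (E.subgroupOf Q).card_mul_index
          rw [Nat.card_congr (Subgroup.subgroupOfEquivOfLe inf_le_left).toEquiv, K.card] at hm
          have hle : (E.subgroupOf Q).index ≤ 2 := by
            by_contra hlt
            have := Nat.mul_le_mul hE64 (show 3 ≤ (E.subgroupOf Q).index by omega)
            exact absurd (this.trans_eq hm) (by norm_num)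
          rcases (show (E.subgroupOf Q).index = 1 ∨ (E.subgroupOf Q).index = 2 by
              have := Subgroup.index_ne_zero_of_finite (H := E.subgroupOf Q); omega) with e | e
          · rw [Subgroup.index_eq_one.1 e]; infer_instance
          · exact Subgroup.normal_of_index_eq_two e
        intro q hq d hd
        exact (inferInstance : (E.subgroupOf Q).Normal).conj_mem ⟨d, (show d ∈ Q from hd.1)⟩ hd ⟨q, hq⟩
      refine ⟨P ⊔ Subgroup.zpowers c, D ⊓ E, hQP.trans le_sup_left,
        sup_le hPC (Subgroup.zpowers_le.2 (mem_cen.2 hct)), inf_le_left.trans hDQ,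
        fun q hq d hd => ⟨hDn q hq d hd.1, hEn q hq d hd.2⟩, sup_le (hPD.trans ?_) ?_, ?_, ?_⟩
      · exact sup_le_sup_left (inf_le_inf_left _ (Subgroup.centralizer_le inf_le_left)) _
      · rw [Subgroup.zpowers_le]
        refine Subgroup.mem_sup_right (Subgroup.mem_inf.2 ⟨mem_cen.2 hct, ?_⟩)
        rw [Subgroup.mem_centralizer_iff]
        exact fun d hd => (mem_cen.1 (hd.2 : d ∈ E).2).eq
      · -- `D ⊓ E` has index at most two in `D`
        have hinj : Function.Injective (fun p : ↥D ⧸ (D ⊓ E).subgroupOf D =>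
            Quotient.map' (fun d : ↥D => (⟨d, hDQ d.2⟩ : ↥Q)) (fun a a' haa => by
              rw [QuotientGroup.leftRel_apply] at haa ⊢
              exact haa.2) p : ↥D ⧸ (D ⊓ E).subgroupOf D → ↥Q ⧸ E.subgroupOf Q) := by
          intro p p'
          induction p using Quotient.inductionOn' with
          | h a =>
            induction p' using Quotient.inductionOn' with
            | h a' =>
              intro e
              refine Quotient.sound' ?_
              simp only [Quotient.map'_mk''] at e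
              rw [QuotientGroup.leftRel_apply, Subgroup.mem_subgroupOf]
              have e' := QuotientGroup.leftRel_apply.1 (Quotient.exact' e)
              exact Subgroup.mem_inf.2 ⟨D.mul_mem (D.inv_mem a.2) a'.2, e'⟩
        have h1 := Nat.card_le_card_of_injective _ hinj
        have h2 := ((D ⊓ E).subgroupOf D).card_mul_index
        have h3 := (E.subgroupOf Q).card_mul_index
        rw [Nat.card_congr (Subgroup.subgroupOfEquivOfLe inf_le_left).toEquiv] at h2 h3
        rw [K.card] at h3
        have h4 : Nat.card D ≤ 2 * Nat.card ↥(D ⊓ E) := by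
          have h1' : ((D ⊓ E).subgroupOf D).index ≤ 2 := h1.trans (by
            show (E.subgroupOf Q).index ≤ 2
            by_contra hlt
            have := Nat.mul_le_mul hE64 (show 3 ≤ (E.subgroupOf Q).index by omega)
            exact absurd (this.trans_eq h3) (by norm_num))
          rw [← h2]
          calc _ ≤ Nat.card ↥(D ⊓ E) * 2 := Nat.mul_le_mul_left _ h1'
            _ = _ := mul_comm _ _
        calc 128 ≤ 2 ^ k * Nat.card D := hD
          _ ≤ 2 ^ k * (2 * Nat.card ↥(D ⊓ E)) := Nat.mul_le_mul_left _ h4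
          _ = _ := by rw [pow_succ]; ring
      · right
        rcases hP with e | hP
        · exact absurd e htop
        have hlt : P < P ⊔ Subgroup.zpowers c := lt_of_le_of_ne le_sup_left fun e => hgP (by
          rw [e]; exact Subgroup.mem_sup_right (Subgroup.mem_zpowers c))
        obtain ⟨m, hm⟩ := Subgroup.card_dvd_of_le hlt.le
        have h2 : 2 ≤ m := by
          by_contra hm2
          refine hlt.ne (Subgroup.eq_of_le_of_card_ge hlt.le ?_)
          rw [hm]
          calc Nat.card P * m ≤ Nat.card P * 1 := Nat.mul_le_mul_left _ (by omega)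
            _ = _ := mul_one _
        rw [hm, pow_succ, ← mul_assoc]
        exact Nat.mul_le_mul hP h2
  obtain ⟨P, D, hQP, hPC, hDQ, hDn, hPD, hD, hP⟩ := step 5
  have htop : P = C := (K.card_over h ht hQP hPC).resolve_right fun e => by
    rcases hP with h' | h'
    · rw [h', h.cent_isA t ht] at e
      omega
    · norm_num at h'
      omega
  -- an element of order seven centralises `D`
  obtain ⟨f, hf, hft⟩ := ht.2
  have hfm : f ∈ Q ⊔ (C ⊓ Subgroup.centralizer (D : Set G)) :=
    hPD (htop ▸ mem_cen.2 hft)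
  have hQN : Q ≤ Subgroup.normalizer ((C ⊓ Subgroup.centralizer (D : Set G) : Subgroup G) : Set G) := by
    intro q hq
    rw [Subgroup.mem_normalizer_iff]
    have key : ∀ q ∈ Q, ∀ a ∈ C ⊓ Subgroup.centralizer (D : Set G),
        q * a * q⁻¹ ∈ C ⊓ Subgroup.centralizer (D : Set G) := by
      intro q hq a ha
      refine Subgroup.mem_inf.2 ⟨C.mul_mem (C.mul_mem (K.le hq) ha.1) (C.inv_mem (K.le hq)), ?_⟩
      rw [Subgroup.mem_centralizer_iff]
      intro d hd
      have h1 : (q⁻¹ * d * q) * a = a * (q⁻¹ * d * q) := Subgroup.mem_centralizer_iff.1 ha.2 _ (by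
        have := hDn _ (inv_mem hq) d hd
        rwa [inv_inv] at this)
      calc d * (q * a * q⁻¹) = q * ((q⁻¹ * d * q) * a) * q⁻¹ := by group
        _ = q * (a * (q⁻¹ * d * q)) * q⁻¹ := by rw [h1]
        _ = q * a * q⁻¹ * d := by group
    intro a
    refine ⟨key q hq a, fun ha => ?_⟩
    have := key _ (inv_mem hq) _ ha
    rwa [show q⁻¹ * (q * a * q⁻¹) * q⁻¹⁻¹ = a by group] at this
  obtain ⟨q, hq, a, ha, hqa⟩ : ∃ q ∈ Q, ∃ a ∈ C ⊓ Subgroup.centralizer (D : Set G), q * a = f := by
    rw [← SetLike.mem_coe, Subgroup.coe_mul_of_left_le_normalizer_right _ _ hQN] at hfm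
    exact hfm
  have hconj : ∀ n : ℕ, ∀ d ∈ D, f ^ n * d * (f ^ n)⁻¹ = q ^ n * d * (q ^ n)⁻¹ := by
    intro n
    induction n with
    | zero => simp
    | succ n ih =>
      intro d hd
      have hd' : q ^ n * d * (q ^ n)⁻¹ ∈ D := hDn _ (pow_mem hq n) d hd
      calc f ^ (n + 1) * d * (f ^ (n + 1))⁻¹ = f * (f ^ n * d * (f ^ n)⁻¹) * f⁻¹ := by
            rw [pow_succ']; group
        _ = q * (a * (q ^ n * d * (q ^ n)⁻¹) * a⁻¹) * q⁻¹ := by rw [ih d hd, ← hqa]; group
        _ = q * (q ^ n * d * (q ^ n)⁻¹) * q⁻¹ := by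
            rw [← Subgroup.mem_centralizer_iff.1 ha.2 _ hd', mul_inv_cancel_right]
        _ = _ := by rw [pow_succ']; group
  have hDle : D ≤ Subgroup.zpowers t := fun d hd => by
    refine K.seven f hf hft d (hDQ hd) ?_
    have h1 := hconj 512 d hd
    have hq512 : q ^ 512 = 1 := by
      have h2 := orderOf_dvd_iff_pow_eq_one.1 (Subgroup.orderOf_dvd_natCard Q hq)
      rw [K.card] at h2
      rw [show 512 = 128 * 4 from rfl, pow_mul, h2, one_pow]
    have hf512 : f ^ 512 = f := by
      rw [show 512 = 7 * 73 + 1 from rfl, pow_succ, pow_mul, ← hf, pow_orderOf_eq_one, one_pow,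
        one_mul]
    rw [hq512, hf512, one_mul, inv_one, mul_one] at h1
    exact (mul_inv_eq_iff_eq_mul.1 h1).symm
  have := Subgroup.card_le_of_le hDle
  rw [Nat.card_zpowers, ht.1] at this
  norm_num at hD
  omega

end TwoCore

end CfsgLib.M24Count
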