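import Cfsg.Agent.M24Count.CoreIface
import Cfsg.Agent.M23Count.CoreLocal
import Mathlib.GroupTheory.Perm.Cycle.Type
import Mathlib.GroupTheory.PGroup
import Mathlib.Tactic.FinCases

/-!
Elementary facts about the two-core: the action of an element of order seven on its sections.
-/

set_option autoImplicit false
set_option linter.style.haveILetI false

namespace CfsgLib.M24Count

universe u

variable {G : Type u} [Group G]

theorem mem_cen {a b : G} : a ∈ Subgroup.centralizer ({b} : Set G) ↔ Commute a b :=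
  Subgroup.mem_centralizer_singleton_iff

theorem IsA.ne_one {t : G} (ht : IsA t) : t ≠ 1 := fun e => by
  have := ht.1
  rw [e, orderOf_one] at this
  norm_num at this

theorem IsA.mul_self {t : G} (ht : IsA t) : t * t = 1 := by
  rw [← pow_two, ← ht.1, pow_orderOf_eq_one]

theorem IsA.conj {t : G} (ht : IsA t) (g : G) : IsA (g * t * g⁻¹) := by
  obtain ⟨h2, f, hf, hc⟩ := ht
  refine ⟨?_, g * f * g⁻¹, ?_, ?_⟩
  · rw [show g * t * g⁻¹ = MulAut.conj g t from rfl, MulEquiv.orderOf_eq, h2]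
  · rw [show g * f * g⁻¹ = MulAut.conj g f from rfl, MulEquiv.orderOf_eq, hf]
  · exact hc.map (MulAut.conj g).toMonoidHom

theorem mem_zp {t : G} (ht : t * t = 1) {x : G} :
    x ∈ Subgroup.zpowers t ↔ x = 1 ∨ x = t := by
  constructor
  · intro hx
    obtain ⟨i, rfl⟩ := Subgroup.mem_zpowers_iff.1 hx
    rcases Int.even_or_odd i with ⟨k, rfl⟩ | ⟨k, rfl⟩
    · left; rw [zpow_add]; exact M23Count.CoreLocal.zpow_sq_one ht k
    · right
      rw [zpow_add, zpow_one, two_mul, zpow_add, M23Count.CoreLocal.zpow_sq_one ht k, one_mul]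
  · rintro (e | e) <;> subst e
    · exact one_mem _
    · exact Subgroup.mem_zpowers _

theorem conj_mem_zp {t x g : G} (ht : t * t = 1) (hg : Commute g t)
    (hx : x ∈ Subgroup.zpowers t) : g * x * g⁻¹ = x := by
  rcases (mem_zp ht).1 hx with e | e <;> subst e
  · group
  · rw [hg.eq, mul_inv_cancel_right]

/-- Powers of a conjugating element. -/
theorem conj_pow_mem {f : G} {P : G → Prop} (hP : ∀ x, P x → P (f * x * f⁻¹)) (n : ℕ) {x : G}
    (hx : P x) : P (f ^ n * x * (f ^ n)⁻¹) := by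
  induction n with
  | zero => simpa using hx
  | succ n ih =>
    have := hP _ ih
    rwa [show f * (f ^ n * x * (f ^ n)⁻¹) * f⁻¹ = f ^ (n + 1) * x * (f ^ (n + 1))⁻¹ by
      rw [pow_succ']; group] at this

theorem conj_pow_step (f x : G) (a b : ℕ) :
    f ^ a * (f ^ b * x * (f ^ b)⁻¹) * (f ^ a)⁻¹ = f ^ (a + b) * x * (f ^ (a + b))⁻¹ := by
  rw [pow_add]; group

/-- The fixed points of an element of prime order on a finite invariant set. -/
theorem card_modEq_fixed [Finite G] {p : ℕ} [Fact p.Prime] {f : G} (hf : orderOf f = p)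
    (P : G → Prop) (hP : ∀ x, P x → P (f * x * f⁻¹)) :
    Nat.card {x : G // P x} ≡ Nat.card {x : G // P x ∧ Commute x f} [MOD p] := by
  have hfin : IsOfFinOrder f := isOfFinOrder_of_finite f
  have hz : ∀ a ∈ Subgroup.zpowers f, ∀ x, P x → P (a * x * a⁻¹) := by
    intro a ha x hx
    obtain ⟨n, rfl⟩ := hfin.mem_powers_iff_mem_zpowers.2 ha
    exact conj_pow_mem hP n hx
  letI : MulAction ↥(Subgroup.zpowers f) {x : G // P x} :=
    { smul := fun a x => ⟨(a : G) * x * (a : G)⁻¹, hz _ a.2 _ x.2⟩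
      one_smul := fun x => Subtype.ext (by
        show ((1 : ↥(Subgroup.zpowers f)) : G) * x * ((1 : ↥(Subgroup.zpowers f)) : G)⁻¹ = x
        simp)
      mul_smul := fun a b x => Subtype.ext (by
        show ((a * b : ↥(Subgroup.zpowers f)) : G) * x * ((a * b : ↥(Subgroup.zpowers f)) : G)⁻¹ =
          (a : G) * ((b : G) * x * (b : G)⁻¹) * (a : G)⁻¹
        push_cast
        group) }
  have hp : IsPGroup p ↥(Subgroup.zpowers f) :=
    IsPGroup.of_card (n := 1) (by rw [Nat.card_zpowers, hf, pow_one])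
  have hmem : ∀ x : {x : G // P x},
      x ∈ MulAction.fixedPoints ↥(Subgroup.zpowers f) {x : G // P x} ↔ Commute (x : G) f := by
    intro x
    constructor
    · intro hx
      have h1 : f * (x : G) * f⁻¹ = x := congrArg Subtype.val (hx ⟨f, Subgroup.mem_zpowers f⟩)
      exact (mul_inv_eq_iff_eq_mul.1 h1).symm
    · intro hc a
      obtain ⟨i, hi⟩ := Subgroup.mem_zpowers_iff.1 a.2
      refine Subtype.ext ?_
      show (a : G) * x * (a : G)⁻¹ = x
      rw [← hi, ((hc.zpow_right i).symm).eq, mul_inv_cancel_right]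
  have h := hp.card_modEq_card_fixedPoints {x : G // P x}
  rwa [Nat.card_congr ((Equiv.subtypeEquivRight hmem).trans
    (Equiv.subtypeSubtypeEquivSubtypeInter P (fun x => Commute x f)))] at h

/-- The orbit of `x` under the centraliser of `t`. -/
def orb (t x : G) : Set G := {w | ∃ g : G, Commute g t ∧ g * x * g⁻¹ = w}

theorem orb_card_mul [Finite G] (t x : G) :
    Nat.card ↥(Subgroup.centralizer ({t} : Set G) ⊓ Subgroup.centralizer ({x} : Set G)) *
      Nat.card ↥(orb t x) = Nat.card (Subgroup.centralizer ({t} : Set G)) := by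
  have h := M23Count.CoreLocal.conj_orbit_card (Subgroup.centralizer ({t} : Set G)) x
  refine Eq.trans (congrArg _ (Nat.card_congr (Equiv.subtypeEquivRight fun w => ?_))) h
  constructor
  · rintro ⟨g, hg, e⟩; exact ⟨g, mem_cen.2 hg, e⟩
  · rintro ⟨g, hg, e⟩; exact ⟨g, mem_cen.1 hg, e⟩

theorem self_mem_orb (t x : G) : x ∈ orb t x := ⟨1, Commute.one_left t, by group⟩

theorem mem_orb_symm {t x y : G} (h : y ∈ orb t x) : orb t y = orb t x := by
  obtain ⟨g, hg, rfl⟩ := h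
  ext w
  constructor
  · rintro ⟨k, hk, rfl⟩; exact ⟨k * g, hk.mul_left hg, by group⟩
  · rintro ⟨k, hk, rfl⟩; exact ⟨k * g⁻¹, hk.mul_left hg.inv_left, by group⟩

theorem isA_of_mem_orb {t x y : G} (h : y ∈ orb t x) (hx : IsA x) : IsA y := by
  obtain ⟨g, -, rfl⟩ := h
  exact hx.conj g

/-- The elements of `C(t)` moving every element of `M` within its coset of `N`. -/
def secKer (t : G) (M N : Subgroup G) (hM : ∀ g : G, Commute g t → ∀ a ∈ M, g * a * g⁻¹ ∈ M)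
    (hN : ∀ g : G, Commute g t → ∀ a ∈ N, g * a * g⁻¹ ∈ N) : Subgroup G where
  carrier := {g | Commute g t ∧ ∀ m ∈ M, g * m * g⁻¹ * m⁻¹ ∈ N}
  one_mem' := ⟨Commute.one_left t, fun m _ => by simp⟩
  mul_mem' := by
    rintro g k ⟨hg, hg'⟩ ⟨hk, hk'⟩
    refine ⟨hg.mul_left hk, fun m hm => ?_⟩
    have h1 := mul_mem (hN g hg _ (hk' m hm)) (hg' m hm)
    rwa [show g * (k * m * k⁻¹ * m⁻¹) * g⁻¹ * (g * m * g⁻¹ * m⁻¹) = g * k * m * (g * k)⁻¹ * m⁻¹ by
      group] at h1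
  inv_mem' := by
    rintro g ⟨hg, hg'⟩
    refine ⟨hg.inv_left, fun m hm => ?_⟩
    have h1 := inv_mem (hg' _ (hM _ hg.inv_left m hm))
    rwa [show (g * (g⁻¹ * m * g⁻¹⁻¹) * g⁻¹ * (g⁻¹ * m * g⁻¹⁻¹)⁻¹)⁻¹ = g⁻¹ * m * g⁻¹⁻¹ * m⁻¹ by
      group] at h1

namespace TwoCore

variable {t : G} {Q : Subgroup G} (K : TwoCore t Q)
include K

theorem commute_t {x : G} (hx : x ∈ Q) : Commute x t := mem_cen.1 (K.le hx)

variable [Finite G] {f : G} (ht : IsA t) (hf : orderOf f = 7) (hft : Commute f t)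
include ht hf hft

theorem modSeven (P : G → Prop) (hP : ∀ x, P x → P (f * x * f⁻¹)) (hPQ : ∀ x, P x → x ∈ Q) :
    Nat.card {x : G // P x} ≡ Nat.card {x : G // P x ∧ x ∈ Subgroup.zpowers t} [MOD 7] := by
  haveI : Fact (Nat.Prime 7) := ⟨by norm_num⟩
  suffices he : Nat.card {x : G // P x ∧ Commute x f} =
      Nat.card {x : G // P x ∧ x ∈ Subgroup.zpowers t} from he ▸ card_modEq_fixed hf P hP
  refine Nat.card_congr (Equiv.subtypeEquivRight fun x => and_congr_right fun hx => ?_)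
  refine ⟨fun hc => K.seven f hf hft x (hPQ x hx) hc, fun hz => ?_⟩
  rcases (mem_zp ht.mul_self).1 hz with e | e <;> subst e
  · exact Commute.one_left f
  · exact hft.symm

theorem card_sub {N : Subgroup G} (hN : N ≤ Q) (htN : t ∈ N)
    (hinv : ∀ a ∈ N, f * a * f⁻¹ ∈ N) :
    Nat.card N = 2 ∨ Nat.card N = 16 ∨ Nat.card N = 128 := by
  have h := K.modSeven ht hf hft (fun x => x ∈ N) hinv (fun x hx => hN hx)
  have h2 : Nat.card {x : G // x ∈ N ∧ x ∈ Subgroup.zpowers t} = 2 := by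
    rw [Nat.card_congr (Equiv.subtypeEquivRight (q := fun x => x ∈ Subgroup.zpowers t) fun x =>
      ⟨fun h => h.2, fun h => ⟨(Subgroup.zpowers_le.2 htN) h, h⟩⟩)]
    exact (Nat.card_zpowers t).trans ht.1
  rw [h2] at h
  have hd : Nat.card N ∈ Nat.divisors 128 :=
    Nat.mem_divisors.2 ⟨K.card ▸ Subgroup.card_dvd_of_le hN, by norm_num⟩
  revert h
  change Nat.card ↥N ≡ 2 [MOD 7] → _
  generalize Nat.card ↥N = n at hd ⊢
  fin_cases hd <;> decide

theorem fixed_coset {N : Subgroup G} (hN : N ≤ Q) (htN : t ∈ N)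
    (hinv : ∀ a ∈ N, f * a * f⁻¹ ∈ N) {x : G} (hx : x ∈ Q) (hfx : x⁻¹ * (f * x * f⁻¹) ∈ N) :
    x ∈ N := by
  by_contra hne
  have hP : ∀ w, x⁻¹ * w ∈ N → x⁻¹ * (f * w * f⁻¹) ∈ N := fun w hw => by
    have h1 := mul_mem hfx (hinv _ hw)
    rwa [show x⁻¹ * (f * x * f⁻¹) * (f * (x⁻¹ * w) * f⁻¹) = x⁻¹ * (f * w * f⁻¹) by group] at h1
  have h := K.modSeven ht hf hft (fun w => x⁻¹ * w ∈ N) hP (fun w hw => by
    have := mul_mem hx (hN hw)
    rwa [mul_inv_cancel_left] at this)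
  have e : {w : G // x⁻¹ * w ∈ N} ≃ ↥N :=
    (Equiv.mulLeft x⁻¹).subtypeEquiv fun _ => Iff.rfl
  have h0 : Nat.card {w : G // x⁻¹ * w ∈ N ∧ w ∈ Subgroup.zpowers t} = 0 := by
    haveI : IsEmpty {w : G // x⁻¹ * w ∈ N ∧ w ∈ Subgroup.zpowers t} := ⟨fun w => hne (by
      have h1 : (w : G) * (x⁻¹ * w)⁻¹ ∈ N :=
        mul_mem ((Subgroup.zpowers_le.2 htN) w.2.2) (inv_mem w.2.1)
      rwa [show (w : G) * (x⁻¹ * (w : G))⁻¹ = x by group] at h1)⟩
    exact Nat.card_of_isEmpty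
  rw [h0, Nat.card_congr e] at h
  rcases K.card_sub ht hf hft hN htN hinv with e' | e' | e' <;> rw [e'] at h <;>
    exact absurd h (by decide)

/-- An element of order seven permutes the nontrivial cosets of a section of order eight
transitively. -/
theorem trans_seven {M N : Subgroup G} (hM : M ≤ Q) (hNM : N ≤ M) (htN : t ∈ N)
    (hMi : ∀ a ∈ M, f * a * f⁻¹ ∈ M) (hNi : ∀ a ∈ N, f * a * f⁻¹ ∈ N)
    (h8 : Nat.card M = 8 * Nat.card N) {x y : G} (hx : x ∈ M) (hxN : x ∉ N) (hy : y ∈ M)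
    (hyN : y ∉ N) : ∃ i : ℕ, (f ^ i * x * (f ^ i)⁻¹)⁻¹ * y ∈ N := by
  classical
  have hpow : ∀ i : ℕ, f ^ i * x * (f ^ i)⁻¹ ∈ M ∧ f ^ i * x * (f ^ i)⁻¹ ∉ N := by
    intro i
    refine ⟨conj_pow_mem (P := fun w => w ∈ M) hMi i hx, fun h => hxN ?_⟩
    obtain ⟨k, hk⟩ : ∃ k, (k + i) % 7 = 0 := ⟨7 - i % 7, by omega⟩
    have h1 := conj_pow_mem (P := fun w => w ∈ N) hNi k h
    rwa [conj_pow_step, ← Nat.div_add_mod (k + i) 7, hk, add_zero, pow_mul, ← hf,
      pow_orderOf_eq_one, one_pow, one_mul, inv_one, mul_one] at h1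
  have hinj : ∀ i j : ℕ, i < j → j < 7 →
      (f ^ i * x * (f ^ i)⁻¹)⁻¹ * (f ^ j * x * (f ^ j)⁻¹) ∉ N := by
    intro i j hij hj hmem
    set w := f ^ i * x * (f ^ i)⁻¹ with hw
    obtain ⟨k, rfl⟩ := Nat.exists_eq_add_of_lt hij
    rw [show i + k + 1 = (k + 1) + i by omega, ← conj_pow_step, ← hw] at hmem
    have hw' := hpow i
    rw [← hw] at hw'
    have hf' : orderOf (f ^ (k + 1)) = 7 := by
      rw [orderOf_pow, hf]
      have : Nat.gcd 7 (k + 1) = 1 :=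
        (Nat.Prime.coprime_iff_not_dvd (by norm_num)).2 fun h => by
          have := Nat.le_of_dvd (by omega) h
          omega
      rw [this]
    exact hw'.2 (K.fixed_coset ht hf' (hft.pow_left _) (hNM.trans hM) htN
      (fun a ha => conj_pow_mem (P := fun w => w ∈ N) hNi (k + 1) ha) (hM hw'.1) hmem)
  let F : Fin 7 × ↥N → {m : ↥M // (m : G) ∉ N} := fun p =>
    ⟨⟨f ^ (p.1 : ℕ) * x * (f ^ (p.1 : ℕ))⁻¹ * p.2, mul_mem (hpow _).1 (hNM p.2.2)⟩, fun h =>
      (hpow (p.1 : ℕ)).2 (by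
        have := mul_mem h (inv_mem p.2.2)
        simpa using this)⟩
  have hFi : Function.Injective F := by
    rintro ⟨i, n⟩ ⟨j, m⟩ e
    have e' : f ^ (i : ℕ) * x * (f ^ (i : ℕ))⁻¹ * n = f ^ (j : ℕ) * x * (f ^ (j : ℕ))⁻¹ * m :=
      congrArg (fun z : {m : ↥M // (m : G) ∉ N} => ((z : ↥M) : G)) e
    have hij : i = j := by
      rcases lt_trichotomy (i : ℕ) (j : ℕ) with hl | hl | hl
      · refine absurd ?_ (hinj _ _ hl j.isLt)
        rw [eq_mul_inv_of_mul_eq e'.symm]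
        simpa [mul_assoc] using mul_mem n.2 (inv_mem m.2)
      · exact Fin.ext hl
      · refine absurd ?_ (hinj _ _ hl i.isLt)
        rw [eq_mul_inv_of_mul_eq e']
        simpa [mul_assoc] using mul_mem m.2 (inv_mem n.2)
    subst hij
    exact Prod.ext rfl (Subtype.ext (mul_left_cancel e'))
  have hcard : Nat.card {m : ↥M // (m : G) ∉ N} = 7 * Nat.card N := by
    have h2 := Nat.card_congr (Equiv.sumCompl fun m : ↥M => (m : G) ∈ N)
    rw [Nat.card_sum, show Nat.card {m : ↥M // (m : G) ∈ N} = Nat.card ↥N from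
      Nat.card_congr ⟨fun m => ⟨m.1, m.2⟩, fun n => ⟨⟨n, hNM n.2⟩, n.2⟩, fun _ => rfl, fun _ => rfl⟩,
      h8] at h2
    show Nat.card {m : ↥M // ¬ (m : G) ∈ N} = _
    omega
  have hbij : Function.Bijective F := (Nat.bijective_iff_injective_and_card F).2
    ⟨hFi, by rw [Nat.card_prod, Nat.card_fin, hcard]⟩
  obtain ⟨⟨i, n⟩, hin⟩ := hbij.2 ⟨⟨y, hy⟩, hyN⟩
  refine ⟨i, ?_⟩
  have e : f ^ (i : ℕ) * x * (f ^ (i : ℕ))⁻¹ * n = y :=
    congrArg (fun z : {m : ↥M // (m : G) ∉ N} => ((z : ↥M) : G)) hin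
  rw [← e, inv_mul_cancel_left]
  exact n.2

/-- A section of order eight is elementary abelian. -/
theorem section_sq {M N : Subgroup G} (hM : M ≤ Q) (hNM : N ≤ M) (htN : t ∈ N)
    (hMi : ∀ a ∈ M, f * a * f⁻¹ ∈ M) (hNi : ∀ a ∈ N, f * a * f⁻¹ ∈ N)
    (hMN : ∀ g ∈ M, ∀ a ∈ N, g * a * g⁻¹ ∈ N)
    (h8 : Nat.card M = 8 * Nat.card N) :
    (∀ x ∈ M, x * x ∈ N) ∧ ∀ x ∈ M, ∀ y ∈ M, x * y * x⁻¹ * y⁻¹ ∈ N := by
  obtain ⟨x, hx, hxN⟩ : ∃ x ∈ M, x ∉ N := by
    by_contra hne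
    push Not at hne
    have := Subgroup.card_le_of_le (show M ≤ N from hne)
    have : 0 < Nat.card N := Nat.card_pos
    omega
  obtain ⟨y, hy, hyN, hy2⟩ : ∃ y ∈ M, y ∉ N ∧ y * y ∈ N := by
    have h128 : x ^ 2 ^ 7 ∈ N := by
      rw [show (2 : ℕ) ^ 7 = 128 from rfl, ← K.card]
      rw [orderOf_dvd_iff_pow_eq_one.1 (Subgroup.orderOf_dvd_natCard Q (hM hx))]
      exact one_mem _
    have key : ∀ n : ℕ, ∀ y ∈ M, y ∉ N → y ^ 2 ^ n ∈ N → ∃ y ∈ M, y ∉ N ∧ y * y ∈ N := by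
      intro n
      induction n with
      | zero => intro y _ hyN h; exact absurd (by simpa using h) hyN
      | succ n ih =>
        intro y hy hyN h
        by_cases h2 : y * y ∈ N
        · exact ⟨y, hy, hyN, h2⟩
        · exact ih _ (mul_mem hy hy) h2 (by rwa [← pow_two, ← pow_mul, ← pow_succ'])
    exact key 7 x hx hxN h128
  have sq : ∀ z ∈ M, z * z ∈ N := by
    intro z hz
    by_cases hzN : z ∈ N
    · exact mul_mem hzN hzN
    obtain ⟨i, hi⟩ := K.trans_seven ht hf hft hM hNM htN hMi hNi h8 hy hyN hz hzN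
    set w := f ^ i * y * (f ^ i)⁻¹ with hw
    have hwM : w ∈ M := conj_pow_mem (P := fun a => a ∈ M) hMi i hy
    have hw2 : w * w ∈ N := by
      have := conj_pow_mem (P := fun a => a ∈ N) hNi i hy2
      rwa [show f ^ i * (y * y) * (f ^ i)⁻¹ = w * w by rw [hw]; group] at this
    have := mul_mem hw2 (mul_mem (hMN _ (inv_mem hwM) _ hi) hi)
    rwa [show w * w * (w⁻¹ * (w⁻¹ * z) * w⁻¹⁻¹ * (w⁻¹ * z)) = z * z by group] at this
  refine ⟨sq, fun a ha b hb => ?_⟩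
  have := mul_mem (mul_mem (sq a ha) (sq _ (mul_mem (inv_mem ha) hb))) (sq _ (inv_mem hb))
  rwa [show a * a * (a⁻¹ * b * (a⁻¹ * b)) * (b⁻¹ * b⁻¹) = a * b * a⁻¹ * b⁻¹ by group] at this

/-- A normal section of order eight is faithful for `C(t)/Q`. -/
theorem mem_of_section {M N : Subgroup G} (hM : M ≤ Q) (hNM : N ≤ M) (htN : t ∈ N)
    (hMn : ∀ g : G, Commute g t → ∀ a ∈ M, g * a * g⁻¹ ∈ M)
    (hNn : ∀ g : G, Commute g t → ∀ a ∈ N, g * a * g⁻¹ ∈ N)
    (h8 : Nat.card M = 8 * Nat.card N) (hQ : ∀ q ∈ Q, ∀ m ∈ M, q * m * q⁻¹ * m⁻¹ ∈ N)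
    {g : G} (hg : Commute g t) (hgm : ∀ m ∈ M, g * m * g⁻¹ * m⁻¹ ∈ N) : g ∈ Q := by
  set L := secKer t M N hMn hNn with hL
  have hnorm : ∀ k : G, Commute k t → ∀ a ∈ L, k * a * k⁻¹ ∈ L := by
    rintro k hk a ⟨ha, ha'⟩
    refine ⟨(hk.mul_left ha).mul_left hk.inv_left, fun m hm => ?_⟩
    have := hNn k hk _ (ha' _ (hMn _ hk.inv_left m hm))
    rwa [show k * (a * (k⁻¹ * m * k⁻¹⁻¹) * a⁻¹ * (k⁻¹ * m * k⁻¹⁻¹)⁻¹) * k⁻¹ =
      k * a * k⁻¹ * m * (k * a * k⁻¹)⁻¹ * m⁻¹ by group] at this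
  rcases K.simple L (fun q hq => ⟨K.commute_t hq, hQ q hq⟩) (fun a ha => mem_cen.2 ha.1) hnorm with
    e | e
  · rw [← e]; exact ⟨hg, hgm⟩
  · exfalso
    have hfL : f ∈ L := e ▸ mem_cen.2 hft
    have hle : M ≤ N := fun m hm => K.fixed_coset ht hf hft (hNM.trans hM) htN (hNn f hft) (hM hm) (by
      have := hNn _ (K.commute_t (hM hm)).inv_left _ (hfL.2 m hm)
      rwa [show m⁻¹ * (f * m * f⁻¹ * m⁻¹) * m⁻¹⁻¹ = m⁻¹ * (f * m * f⁻¹) by group] at this)
    have := Subgroup.card_le_of_le hle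
    have : 0 < Nat.card N := Nat.card_pos
    omega

end TwoCore

end CfsgLib.M24Count
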