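import Mathlib.Algebra.BigOperators.Fin
import Mathlib.Algebra.CharP.Two
import Mathlib.Data.ZMod.Basic
import Mathlib.Tactic.Ring

/-!
A quadratic form on seven bits.
-/

set_option autoImplicit false

namespace CfsgLib.M24Count

/-- The second elementary symmetric function of seven bits. -/
def etwo (v : Fin 7 → ZMod 2) : ZMod 2 := ∑ i : Fin 7, ∑ j : Fin 7, if i < j then v i * v j else 0

theorem etwo_add (u w : Fin 7 → ZMod 2) (hu : ∑ i, u i = 0) :
    etwo (u + w) = etwo u + etwo w + ∑ i, u i * w i := by
  have key : etwo (u + w) + ∑ i, u i * w i = etwo u + etwo w + (∑ i, u i) * ∑ i, w i := by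
    simp only [etwo, Fin.sum_univ_seven, Pi.add_apply]
    simp [Fin.lt_def]
    ring
  rw [hu, zero_mul, add_zero] at key
  rw [← key, add_assoc, CharTwo.add_self_eq_zero, add_zero]

theorem etwo_single : ∀ j : Fin 7, etwo (fun i => if i = j then 0 else 1) = 1 := by decide

theorem three_zeros : ∀ v : Fin 7 → ZMod 2, ∑ i, v i = 0 → etwo v = 0 → v ≠ 0 →
    (Finset.univ.filter fun i => v i = 0).card = 3 := by decide +kernel

end CfsgLib.M24Count
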