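import Cfsg.Agent.M24Count.CoreOrbit
import Cfsg.Agent.Simple168.Maximal
import Cfsg.Agent.M24Count.CoreBits

/-!
An orbit of length 14 on the two-core spans a subgroup of order 16, and there is no orbit of length 28
of involutions.
-/

set_option autoImplicit false
set_option linter.style.haveILetI false

namespace CfsgLib.M24Count

universe u

variable {G : Type u} [Group G] [Finite G]

/-- The stabiliser of a class modulo `t`. -/
theorem card_stab_mod {t x q : G} (hq : Commute q t) (hqx : q * x * q⁻¹ = x * t) :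
    Nat.card {g : G // Commute g t ∧ (g * x * g⁻¹ = x ∨ g * x * g⁻¹ = x * t)} ≤
      2 * Nat.card ↥(Subgroup.centralizer ({t} : Set G) ⊓ Subgroup.centralizer ({x} : Set G)) := by
  classical
  set S := Subgroup.centralizer ({t} : Set G) ⊓ Subgroup.centralizer ({x} : Set G) with hS
  let F : {g : G // Commute g t ∧ (g * x * g⁻¹ = x ∨ g * x * g⁻¹ = x * t)} → Bool × ↥S := fun g =>
    if hg : (g : G) * x * (g : G)⁻¹ = x then
      (false, ⟨g, mem_cen.2 g.2.1, mem_cen.2 (mul_inv_eq_iff_eq_mul.1 hg)⟩)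
    else (true, ⟨q⁻¹ * g, mem_cen.2 (hq.inv_left.mul_left g.2.1), mem_cen.2 (by
      refine mul_inv_eq_iff_eq_mul.1 ?_
      rw [show q⁻¹ * (g : G) * x * (q⁻¹ * (g : G))⁻¹ = q⁻¹ * ((g : G) * x * (g : G)⁻¹) * q by group,
        g.2.2.resolve_left hg, ← hqx]
      group)⟩)
  have hF : Function.Injective F := by
    rintro ⟨a, ha⟩ ⟨a', ha'⟩ e
    simp only [F] at e
    split_ifs at e with h1 h2 <;> simp only [Prod.mk.injEq, Bool.false_eq_true, Bool.true_eq_false,
      false_and, true_and] at e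
    · exact Subtype.ext (congrArg (fun z : ↥S => (z : G)) e :)
    · exact Subtype.ext (mul_left_cancel (congrArg (fun z : ↥S => (z : G)) e :))
  refine (Nat.card_le_card_of_injective F hF).trans ?_
  rw [Nat.card_prod, Nat.card_eq_fintype_card (α := Bool), Fintype.card_bool]

namespace ExtCore

variable {t : G} {Q : Subgroup G} (K : ExtCore t Q) (ht : IsA t)
include K ht

/-- An orbit of length 14 spans a subgroup of order 16. -/
theorem sided_of_small (h : Setup G) (hCI : CoreStmt.CenterIndex G)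
    (hS7 : CoreStmt.SevenPoints.{u}) {x : G} (hx : x ∈ Q) (hxz : x ∉ Subgroup.zpowers t)
    (h14 : Nat.card ↥(orb t x) = 14)
    (hb : x * x = 1 ∨ ∃ b ∈ Q, b ∉ Subgroup.zpowers t ∧ b * b = 1 ∧ Nat.card ↥(orb t b) = 42) :
    ∃ U, Sided t Q U ∧ x ∈ U := by
  classical
  obtain ⟨f, hf, hft⟩ := ht.2
  have ht2 := ht.mul_self
  have htn : ∀ g : G, Commute g t → ∀ e ∈ Subgroup.zpowers t, g * e * g⁻¹ = e :=
    fun g hg e he => conj_mem_zp ht2 hg he
  set a : ℕ → G := fun k => f ^ k * x * (f ^ k)⁻¹ with ha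
  have haQ : ∀ k, a k ∈ Q := fun k => K.normal _ (hft.pow_left k) x hx
  have haorb : ∀ k, a k ∈ orb t x := fun k => ⟨f ^ k, hft.pow_left k, rfl⟩
  have ha0 : a 0 = x := by simp [ha]
  have haper : ∀ k, a (k % 7) = a k := fun k => by
    show f ^ (k % 7) * x * (f ^ (k % 7))⁻¹ = _
    rw [← hf, pow_mod_orderOf]
  have hastep : ∀ i k, f ^ i * a k * (f ^ i)⁻¹ = a (i + k) := fun i k => conj_pow_step f x i k
  have hdist : ∀ i j : ℕ, i < j → j < 7 → (a i)⁻¹ * a j ∉ Subgroup.zpowers t := by
    intro i j hij hj hmem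
    obtain ⟨k, rfl⟩ := Nat.exists_eq_add_of_lt hij
    rw [show i + k + 1 = (k + 1) + i by omega, ← hastep] at hmem
    have hf' : orderOf (f ^ (k + 1)) = 7 := by
      rw [orderOf_pow, hf]
      have : Nat.gcd 7 (k + 1) = 1 :=
        (Nat.Prime.coprime_iff_not_dvd (by norm_num)).2 fun h => by
          have := Nat.le_of_dvd (by omega) h
          omega
      rw [this]
    refine K.orb_not_zp ht hxz (haorb i) (K.toTwoCore.fixed_coset ht hf' (hft.pow_left _)
      (Subgroup.zpowers_le.2 K.mem) (Subgroup.mem_zpowers t)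
      (fun e he => by rw [htn _ (hft.pow_left _) e he]; exact he) (haQ i) hmem)
  have hcls : ∀ w ∈ orb t x, ∃! i : Fin 7, (a i)⁻¹ * w ∈ Subgroup.zpowers t := by
    let F : Fin 7 × ↥(Subgroup.zpowers t) → ↥(orb t x) := fun p => ⟨a p.1 * p.2, by
      rcases (mem_zp ht2).1 p.2.2 with e | e <;> rw [e]
      · rw [mul_one]; exact haorb _
      · rw [← mem_orb_symm (haorb p.1)]
        exact K.mul_t_mem_orb ht (haQ _) (K.orb_not_zp ht hxz (haorb _))⟩
    have key : ∀ (i j : Fin 7) (w : G), (a i)⁻¹ * w ∈ Subgroup.zpowers t →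
        (a j)⁻¹ * w ∈ Subgroup.zpowers t → i = j := by
      intro i j w hi hj
      have hij : (a i)⁻¹ * a j ∈ Subgroup.zpowers t := by
        have := mul_mem hi (inv_mem hj)
        rwa [show (a i)⁻¹ * w * ((a j)⁻¹ * w)⁻¹ = (a i)⁻¹ * a j by group] at this
      rcases lt_trichotomy (i : ℕ) (j : ℕ) with hl | hl | hl
      · exact absurd hij (hdist _ _ hl j.isLt)
      · exact Fin.ext hl
      · have := inv_mem hij
        rw [mul_inv_rev, inv_inv] at this
        exact absurd this (hdist _ _ hl i.isLt)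
    have hFi : Function.Injective F := by
      rintro ⟨i, e⟩ ⟨j, e'⟩ hh
      have h' : a i * e = a j * e' := congrArg Subtype.val hh
      have hij : i = j := key i j (a i * e) (by rw [inv_mul_cancel_left]; exact e.2)
        (by rw [h', inv_mul_cancel_left]; exact e'.2)
      subst hij
      exact Prod.ext rfl (Subtype.ext (mul_left_cancel h'))
    have hbij : Function.Bijective F := (Nat.bijective_iff_injective_and_card F).2
      ⟨hFi, by rw [Nat.card_prod, Nat.card_fin, Nat.card_zpowers, ht.1, h14]⟩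
    intro w hw
    obtain ⟨⟨i, e⟩, he⟩ := hbij.2 ⟨w, hw⟩
    have he' : a i * e = w := congrArg Subtype.val he
    have hi : (a i)⁻¹ * w ∈ Subgroup.zpowers t := by rw [← he', inv_mul_cancel_left]; exact e.2
    exact ⟨i, hi, fun j hj => key j i w hj hi⟩
  -- the subgroup spanned by the orbit
  set W := Subgroup.closure (insert t (orb t x)) with hW
  have hWQ : W ≤ Q := (Subgroup.closure_le _).2 (Set.insert_subset K.mem fun w hw => K.orb_sub hx hw)
  have htW : t ∈ W := Subgroup.subset_closure (Set.mem_insert _ _)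
  have hxW : x ∈ W := Subgroup.subset_closure (Set.mem_insert_of_mem _ (self_mem_orb t x))
  have hWn : ∀ g : G, Commute g t → ∀ y ∈ W, g * y * g⁻¹ ∈ W := by
    intro g hg y hy
    have hle : W.map (MulAut.conj g).toMonoidHom ≤ W := by
      rw [hW, MonoidHom.map_closure, Subgroup.closure_le]
      rintro _ ⟨w, hw, rfl⟩
      rcases hw with e | hw
      · rw [e]
        show g * t * g⁻¹ ∈ _
        rw [hg.eq, mul_inv_cancel_right]; exact htW
      · refine Subgroup.subset_closure (Set.mem_insert_of_mem _ ?_)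
        obtain ⟨k, hk, rfl⟩ := hw
        exact ⟨g * k, hg.mul_left hk, by show _ = g * (k * x * k⁻¹) * g⁻¹; group⟩
    exact hle ⟨y, hy, rfl⟩
  rcases K.toTwoCore.card_sub ht hf hft hWQ htW (hWn f hft) with h2 | h16 | h128
  · refine absurd ?_ hxz
    have he : Subgroup.zpowers t = W := Subgroup.eq_of_le_of_card_ge (Subgroup.zpowers_le.2 htW)
      (by rw [h2, Nat.card_zpowers, ht.1])
    exact he ▸ hxW
  · exact ⟨W, K.sided ht hCI hf hft hWQ htW hWn h16, hxW⟩
  exfalso
  have hWeq : W = Q := Subgroup.eq_of_le_of_card_ge hWQ (by rw [h128, K.card])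
  -- additive functions vanishing on the generators vanish
  have gen : ∀ L : G → ZMod 2, (∀ y ∈ Q, ∀ z ∈ Q, L (y * z) = L y + L z) → L t = 0 →
      (∀ i : Fin 7, L (a i) = 0) → ∀ y ∈ Q, L y = 0 := by
    intro L hL hLt hLa y hy
    have hL1 : L 1 = 0 := by
      have := hL 1 (one_mem _) 1 (one_mem _)
      rw [one_mul] at this
      simpa using this
    rw [← hWeq, hW] at hy
    suffices y ∈ Q ∧ L y = 0 from this.2
    induction hy using Subgroup.closure_induction with
    | mem w hw =>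
      rcases hw with e | hw
      · rw [e]; exact ⟨K.mem, hLt⟩
      · refine ⟨K.orb_sub hx hw, ?_⟩
        obtain ⟨i, hi, -⟩ := hcls w hw
        have : w = a i * ((a i)⁻¹ * w) := by rw [mul_inv_cancel_left]
        rw [this, hL _ (haQ _) _ (Subgroup.zpowers_le.2 K.mem hi), hLa, zero_add]
        rcases (mem_zp ht2).1 hi with e | e <;> rw [e]
        · exact hL1
        · exact hLt
    | one => exact ⟨one_mem _, hL1⟩
    | mul y z _ _ hy hz => exact ⟨mul_mem hy.1 hz.1, by rw [hL _ hy.1 _ hz.1, hy.2, hz.2, add_zero]⟩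
    | inv y _ hy =>
      refine ⟨inv_mem hy.1, ?_⟩
      have := hL _ hy.1 _ (inv_mem hy.1)
      rw [mul_inv_cancel, hL1, hy.2, zero_add] at this
      exact this.symm
  have cf_t : ∀ y ∈ Q, cf y t = 0 := fun y hy => by
    rw [cf_eq_zero]; exact (K.toTwoCore.commute_t hy).eq
  have cf_self : ∀ y : G, cf y y = 0 := fun y => cf_eq_zero.2 rfl
  -- commutators of the generators
  set d : ℕ → ZMod 2 := fun k => cf x (a k) with hd
  have hcfd : ∀ i k, cf (a i) (a (i + k)) = d k := fun i k => by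
    rw [← hastep]
    exact cf_conj _ _ _
  have hd2 : ∀ k, d (2 * k) = d k := by
    intro k
    obtain ⟨y, hyt, hyf⟩ := h.exists_square ht hf hft
    have hyp : y * f ^ k * y⁻¹ = f ^ (2 * k) := by rw [← conj_pow, hyf, ← pow_mul]
    have hyk : y * a k * y⁻¹ = f ^ (2 * k) * (y * x * y⁻¹) * (f ^ (2 * k))⁻¹ := by
      rw [← hyp]; simp only [ha]; group
    obtain ⟨m, hm, -⟩ := hcls (y * x * y⁻¹) ⟨y, hyt, rfl⟩
    set e := (a m)⁻¹ * (y * x * y⁻¹) with he
    have hye : y * x * y⁻¹ = a m * e := by rw [he, mul_inv_cancel_left]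
    have heQ : e ∈ Q := Subgroup.zpowers_le.2 K.mem hm
    have hce : ∀ z ∈ Q, cf e z = 0 := fun z hz => K.cf_zp ht hm hz
    have hfe : f ^ (2 * k) * (a m * e) * (f ^ (2 * k))⁻¹ = a (2 * k + m) * e := by
      rw [← hastep, show f ^ (2 * k) * (a m * e) * (f ^ (2 * k))⁻¹ =
        f ^ (2 * k) * a m * (f ^ (2 * k))⁻¹ * (f ^ (2 * k) * e * (f ^ (2 * k))⁻¹) by group,
        htn _ (hft.pow_left _) e hm]
    have hcalc : d k = cf (a m * e) (a (2 * k + m) * e) := by
      rw [← hye, ← hfe, ← hye, ← hyk]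
      exact (cf_conj _ _ _).symm
    rw [hcalc, K.cf_mul_left ht (haQ _) heQ (mul_mem (haQ _) heQ),
      K.cf_mul_right ht (haQ _) heQ (haQ _), hce _ (mul_mem (haQ _) heQ),
      K.cf_symm ht (haQ m) heQ, hce _ (haQ _), add_zero, add_zero, add_comm (2 * k) (m : ℕ), hcfd]
  have hdneg : ∀ k, k ≤ 7 → d (7 - k) = d k := by
    intro k hk
    have h1 := hcfd k (7 - k)
    rw [show k + (7 - k) = 7 by omega, ← haper 7, Nat.mod_self, ha0,
      K.cf_symm ht (haQ _) hx] at h1
    exact h1.symm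
  have hdper : ∀ k, d (k % 7) = d k := fun k => by simp only [hd, haper]
  have hd0 : d 0 = 0 := by simp only [hd, ha0]; exact cf_self x
  have hd2' : d 2 = d 1 := hd2 1
  have hd4 : d 4 = d 1 := (hd2 2).trans hd2'
  have hd3 : d 3 = d 1 := (hdneg 4 (by norm_num)).trans hd4
  have hd5 : d 5 = d 1 := (hdneg 2 (by norm_num)).trans hd2'
  have hd6 : d 6 = d 1 := hdneg 1 (by norm_num)
  have hdall : ∀ k, k < 7 → d k = if k = 0 then 0 else d 1 := by
    intro k hk
    interval_cases k <;> simp [hd0, hd2', hd3, hd4, hd5, hd6]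
  have hd1 : d 1 = 1 := by
    rcases (show ∀ z : ZMod 2, z = 0 ∨ z = 1 by decide) (d 1) with e | e
    · refine absurd (K.centre x hx fun y hy => cf_eq_zero.1 ?_) hxz
      refine gen (fun z => cf x z) (fun y hy z hz => K.cf_mul_right ht hy hz hx) (cf_t x hx) ?_ y hy
      intro i
      show d i = 0
      rw [hdall _ i.isLt, e, ite_self]
    · exact e
  have hcfa : ∀ i j : Fin 7, cf (a i) (a j) = if i = j then 0 else 1 := by
    intro i j
    rcases lt_trichotomy (i : ℕ) (j : ℕ) with hl | hl | hl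
    · obtain ⟨k, hk⟩ := Nat.exists_eq_add_of_lt hl
      rw [if_neg (fun e => by rw [e] at hl; exact lt_irrefl _ hl), hk, add_assoc, hcfd,
        hdall _ (by omega), if_neg (by omega), hd1]
    · rw [Fin.ext hl, if_pos rfl]; exact cf_self _
    · obtain ⟨k, hk⟩ := Nat.exists_eq_add_of_lt hl
      rw [if_neg (fun e => by rw [e] at hl; exact lt_irrefl _ hl), K.cf_symm ht (haQ _) (haQ _), hk,
        add_assoc, hcfd, hdall _ (by omega), if_neg (by omega), hd1]
  -- the product of the seven generators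
  set P : ℕ → G := fun n => ((List.range n).map a).prod with hP
  have hPs : ∀ n, P (n + 1) = P n * a n := fun n => by
    simp [hP, List.range_succ]
  have hP0 : P 0 = 1 := by simp [hP]
  have hPQ : ∀ n, P n ∈ Q := fun n => by
    induction n with
    | zero => rw [hP0]; exact one_mem _
    | succ n ih => rw [hPs]; exact mul_mem ih (haQ n)
  have hProt : ∀ n, x * (f * P n * f⁻¹) = P (n + 1) := by
    intro n
    induction n with
    | zero => rw [hP0, hPs, hP0, ha0]; group
    | succ n ih =>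
      rw [hPs (n + 1)]
      conv_lhs => rw [hPs n]
      rw [← ih, show n + 1 = 1 + n by omega, ← hastep, pow_one]
      group
  have hP7 : P 7 ∈ Subgroup.zpowers t := by
    refine K.toTwoCore.fixed_coset ht hf hft (Subgroup.zpowers_le.2 K.mem) (Subgroup.mem_zpowers t)
      (fun e he => by rw [htn _ hft e he]; exact he) (hPQ 7) ?_
    have h1 : x * (f * P 7 * f⁻¹) = P 7 * x := by
      rw [hProt, hPs, ← haper 7, Nat.mod_self, ha0]
    have h2 := K.comm _ (inv_mem (hPQ 7)) _ (inv_mem hx)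
    rwa [inv_inv, inv_inv, show (P 7)⁻¹ * x⁻¹ * P 7 * x = (P 7)⁻¹ * (x⁻¹ * (P 7 * x)) by group,
      ← h1, inv_mul_cancel_left] at h2
  have hcfP : ∀ y ∈ Q, ∀ n, cf y (P n) = ∑ k ∈ Finset.range n, cf y (a k) := by
    intro y hy n
    induction n with
    | zero => rw [hP0, Finset.sum_range_zero, cf_eq_zero, one_mul, mul_one]
    | succ n ih => rw [hPs, K.cf_mul_right ht (hPQ n) (haQ n) hy, ih, Finset.sum_range_succ]
  have hsum : ∀ y ∈ Q, ∑ i : Fin 7, cf y (a i) = 0 := fun y hy => by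
    rw [Fin.sum_univ_eq_sum_range (fun k => cf y (a k)) 7, ← hcfP y hy, K.cf_symm ht hy (hPQ 7)]
    exact K.cf_zp ht hP7 hy
  have hqa : ∀ k, qf (a k) = qf x := fun k => by
    simp only [qf, eps, ha]
    rw [show f ^ k * x * (f ^ k)⁻¹ * (f ^ k * x * (f ^ k)⁻¹) = f ^ k * (x * x) * (f ^ k)⁻¹ by group]
    exact if_congr conj_eq_one_iff rfl rfl
  have hqP : ∀ n, n ≤ 7 → qf (P n) = n * qf x + ∑ k ∈ Finset.range n, (k : ZMod 2) := by
    intro n
    induction n with
    | zero => intro _; rw [hP0, qf_eq_zero.2 (one_mul 1)]; simp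
    | succ n ih =>
      intro hn
      have hcn : cf (P n) (a n) = n := by
        have h1 : cf (a n) (P n) = ∑ k ∈ Finset.range n, (1 : ZMod 2) := by
          rw [hcfP _ (haQ n)]
          refine Finset.sum_congr rfl fun k hk => ?_
          rw [Finset.mem_range] at hk
          have := hcfa ⟨n, by omega⟩ ⟨k, by omega⟩
          rwa [if_neg (fun e => by simp [Fin.ext_iff] at e; omega)] at this
        rw [K.cf_symm ht (hPQ n) (haQ n), h1]; simp
      rw [hPs, K.qf_mul ht (hPQ n) (haQ n), ih (by omega), hqa, hcn, Finset.sum_range_succ]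
      push_cast
      ring
  have hqx : qf x = 1 := by
    have h1 := hqP 7 le_rfl
    have h2 : qf (P 7) = 0 := by
      rw [qf_eq_zero]
      rcases (mem_zp ht2).1 hP7 with e | e <;> rw [e]
      · exact one_mul 1
      · exact ht2
    rw [h2] at h1
    revert h1
    generalize qf x = z
    revert z
    decide
  rcases hb with hx2 | ⟨b, hbQ, hbz, hb2, hb42⟩
  · rw [qf_eq_zero.2 hx2] at hqx
    exact absurd hqx (by decide)
  -- coordinates
  set v : G → Fin 7 → ZMod 2 := fun y i => cf y (a i) with hv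
  have hdot : ∀ y ∈ Q, ∀ z ∈ Q, cf y z = ∑ i, v y i * v z i := by
    intro y hy z hz
    have h0 := gen (fun z => cf y z + ∑ i, v y i * v z i) (fun p hp r hr => by
      simp only [hv]
      rw [K.cf_mul_right ht hp hr hy]
      simp only [K.cf_mul_left ht hp hr (haQ _), mul_add, Finset.sum_add_distrib]
      ring) (by
      simp only [hv]
      rw [cf_t y hy, zero_add]
      exact Finset.sum_eq_zero fun i _ => by rw [K.cf_zp ht (Subgroup.mem_zpowers t) (haQ _), mul_zero])
      (fun j => by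
        have hs := hsum y hy
        simp only [hv, hcfa, mul_ite, mul_zero, mul_one]
        have e : ∑ i : Fin 7, (if j = i then 0 else cf y (a i)) = ∑ i : Fin 7, cf y (a i) + cf y (a j) := by
          rw [← Finset.sum_erase_add Finset.univ (fun i : Fin 7 => if j = i then 0 else cf y (a i))
              (Finset.mem_univ j), if_pos rfl, add_zero,
            ← Finset.sum_erase_add Finset.univ (fun i : Fin 7 => cf y (a i)) (Finset.mem_univ j),
            add_assoc, CharTwo.add_self_eq_zero, add_zero]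
          exact Finset.sum_congr rfl fun i hi => if_neg (Finset.ne_of_mem_erase hi).symm
        rw [e, hs, zero_add, CharTwo.add_self_eq_zero]) z hz
    exact CharTwo.add_eq_zero.1 h0
  have hq : ∀ y ∈ Q, qf y = etwo (v y) := by
    intro y hy
    have hvmul : ∀ p ∈ Q, ∀ r ∈ Q, v (p * r) = v p + v r := fun p hp r hr =>
      funext fun i => K.cf_mul_left ht hp hr (haQ _)
    have hvz : ∀ e ∈ Subgroup.zpowers t, qf e = 0 ∧ v e = 0 := fun e he => by
      refine ⟨qf_eq_zero.2 ?_, funext fun i => K.cf_zp ht he (haQ _)⟩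
      rcases (mem_zp ht2).1 he with e' | e' <;> rw [e']
      · exact one_mul 1
      · exact ht2
    have hz0 : etwo (0 : Fin 7 → ZMod 2) = 0 := by decide
    rw [← hWeq, hW] at hy
    suffices y ∈ Q ∧ qf y = etwo (v y) from this.2
    induction hy using Subgroup.closure_induction with
    | mem w hw =>
      rcases hw with e | hw
      · rw [e]
        obtain ⟨e1, e2⟩ := hvz t (Subgroup.mem_zpowers t)
        exact ⟨K.mem, by rw [e1, e2, hz0]⟩
      · refine ⟨K.orb_sub hx hw, ?_⟩
        obtain ⟨i, hi, -⟩ := hcls w hw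
        obtain ⟨e1, e2⟩ := hvz _ hi
        have he : w = a i * ((a i)⁻¹ * w) := by rw [mul_inv_cancel_left]
        have heQ := Subgroup.zpowers_le.2 K.mem hi
        rw [he, K.qf_mul ht (haQ _) heQ, hvmul _ (haQ _) _ heQ, e1, e2, add_zero, add_zero,
          K.cf_symm ht (haQ _) heQ, K.cf_zp ht hi (haQ _), add_zero, hqa, hqx]
        rw [show v (a i) = fun j => if j = i then 0 else 1 from funext fun j => by
          simp only [hv, hcfa]; exact if_congr eq_comm rfl rfl, etwo_single]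
    | one =>
      obtain ⟨e1, e2⟩ := hvz 1 (one_mem _)
      exact ⟨one_mem _, by rw [e1, e2, hz0]⟩
    | mul p r _ _ hp hr =>
      refine ⟨mul_mem hp.1 hr.1, ?_⟩
      rw [K.qf_mul ht hp.1 hr.1, hvmul _ hp.1 _ hr.1, etwo_add _ _ (hsum p hp.1), hp.2, hr.2,
        hdot _ hp.1 _ hr.1]
    | inv p _ hp =>
      refine ⟨inv_mem hp.1, ?_⟩
      have hpp := K.sq p hp.1
      obtain ⟨e1, e2⟩ := hvz _ (inv_mem hpp)
      have he : p⁻¹ = p * (p * p)⁻¹ := by group
      rw [he, hvmul _ hp.1 _ (Subgroup.zpowers_le.2 K.mem (inv_mem hpp)), e2, add_zero,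
        K.qf_mul ht hp.1 (Subgroup.zpowers_le.2 K.mem (inv_mem hpp)), e1, add_zero,
        K.cf_symm ht hp.1 (Subgroup.zpowers_le.2 K.mem (inv_mem hpp)),
        K.cf_zp ht (inv_mem hpp) hp.1, add_zero]
      exact hp.2
  have hvinj : ∀ y ∈ Q, v y = 0 → y ∈ Subgroup.zpowers t := fun y hy hy0 =>
    K.centre y hy fun z hz => cf_eq_zero.1 (by
      rw [hdot y hy z hz, hy0]; simp)
  set T := Finset.univ.filter fun i => v b i = 0 with hT
  have hT3 : T.card = 3 := three_zeros _ (hsum b hbQ) (by rw [← hq b hbQ, qf_eq_zero.2 hb2])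
    (fun e => hbz (hvinj b hbQ e))
  -- the action on seven points
  set C := Subgroup.centralizer ({t} : Set G) with hC
  have himg : ∀ (g : ↥C) (i : Fin 7), (g : G) * a i * (g : G)⁻¹ ∈ orb t x := fun g i => by
    obtain ⟨k, hk, e⟩ := haorb i
    exact ⟨(g : G) * k, (mem_cen.1 g.2).mul_left hk, by rw [← e]; group⟩
  obtain ⟨s, hs, hsu⟩ : ∃ s : ↥C → Fin 7 → Fin 7,
      (∀ g i, (a (s g i))⁻¹ * ((g : G) * a i * (g : G)⁻¹) ∈ Subgroup.zpowers t) ∧
      ∀ (g : ↥C) (i j : Fin 7), (a j)⁻¹ * ((g : G) * a i * (g : G)⁻¹) ∈ Subgroup.zpowers t →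
        j = s g i :=
    ⟨fun g i => (hcls _ (himg g i)).choose, fun g i => (hcls _ (himg g i)).choose_spec.1,
      fun g i j hj => (hcls _ (himg g i)).choose_spec.2 j hj⟩
  have hs1 : ∀ i, s 1 i = i := fun i => (hsu 1 i i (by simp)).symm
  have hsm : ∀ g k i, s (g * k) i = s g (s k i) := fun g k i => by
    refine (hsu (g * k) i _ ?_).symm
    have h1 := hs g (s k i)
    have h2 := hs k i
    have h3 := mul_mem h1 h2
    rw [← htn _ (mem_cen.1 g.2) _ h2] at h3
    push_cast
    convert h3 using 1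
    group
  obtain ⟨σ, hσs⟩ : ∃ σ : ↥C →* Equiv.Perm (Fin 7), ∀ g i, σ g i = s g i := ⟨
    { toFun := fun g =>
        { toFun := s g
          invFun := s g⁻¹
          left_inv := fun i => by rw [← hsm, inv_mul_cancel, hs1]
          right_inv := fun i => by rw [← hsm, mul_inv_cancel, hs1] }
      map_one' := Equiv.ext hs1
      map_mul' := fun g k => Equiv.ext (hsm g k) }, fun _ _ => rfl⟩
  have hQker : Q.subgroupOf C ≤ σ.ker := by
    intro g hg
    refine Equiv.ext fun i => (hσs g i).trans (hsu g i i ?_).symm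
    have hgQ : (g : G) ∈ Q := Subgroup.mem_subgroupOf.1 hg
    have := K.comm _ (inv_mem (haQ i)) _ hgQ
    rwa [inv_inv, show (a i)⁻¹ * (g : G) * a i * (g : G)⁻¹ = (a i)⁻¹ * ((g : G) * a i * (g : G)⁻¹) by
      group] at this
  have hker : σ.ker = Q.subgroupOf C := by
    refine le_antisymm (fun g hg => ?_) hQker
    rcases K.simple (σ.ker.map C.subtype) (fun q hq => ⟨⟨q, K.le hq⟩, hQker (x := ⟨q, K.le hq⟩) (Subgroup.mem_subgroupOf.2 hq), rfl⟩)
      (Subgroup.map_subtype_le _) (by
        rintro k hk _ ⟨n, hn, rfl⟩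
        exact ⟨⟨k, mem_cen.2 hk⟩ * n * ⟨k, mem_cen.2 hk⟩⁻¹,
          σ.normal_ker.conj_mem n hn _, rfl⟩) with e | e
    · rw [Subgroup.mem_subgroupOf, ← e]
      exact ⟨g, hg, rfl⟩
    · exfalso
      obtain ⟨n, hn, hn'⟩ : f ∈ σ.ker.map C.subtype := e ▸ mem_cen.2 hft
      have h1 : σ n 0 = 0 := by rw [MonoidHom.mem_ker.1 hn]; rfl
      have h2 := hs n 0
      rw [← hσs n 0, h1, show (n : G) = f from hn'] at h2
      have h3 : f * a ((0 : Fin 7) : ℕ) * f⁻¹ = a 1 := by
        have := hastep 1 0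
        rwa [pow_one] at this
      rw [h3] at h2
      exact hdist 0 1 one_pos (by norm_num) h2
  haveI := K.toTwoCore.normal_subgroupOf
  haveI := K.toTwoCore.quot_simple h ht
  have hidx : (Q.subgroupOf C).index = 168 := K.toTwoCore.quot_card h ht
  have hr : Nat.card σ.range = 168 := by rw [← Subgroup.index_ker, hker, hidx]
  haveI hsr : IsSimpleGroup σ.range := MulEquiv.isSimpleGroup
    ((QuotientGroup.quotientKerEquivRange σ).symm.trans (QuotientGroup.quotientMulEquivOfEq hker))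
  have hQc : Nat.card σ.ker = 128 := by
    rw [hker, Nat.card_congr (Subgroup.subgroupOfEquivOfLe K.le).toEquiv, K.card]
  set Sb := (C ⊓ Subgroup.centralizer ({b} : Set G)).subgroupOf C with hSb
  have hm512 : Nat.card ↥(C ⊓ Subgroup.centralizer ({b} : Set G)) = 512 := by
    have := orb_card_mul t b
    rw [hb42, h.cent_isA t ht] at this
    change Nat.card ↥(C ⊓ Subgroup.centralizer ({b} : Set G)) * 42 = 21504 at this
    omega
  have hS8 : Nat.card (Sb.map σ) = 8 := by
    have h1 := card_inf_mul_map σ Sb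
    rw [hker, hSb, show Q.subgroupOf C ⊓ (C ⊓ Subgroup.centralizer ({b} : Set G)).subgroupOf C =
      (Q ⊓ (C ⊓ Subgroup.centralizer ({b} : Set G))).subgroupOf C from
        (Subgroup.comap_inf _ _ C.subtype).symm,
      Nat.card_congr (Subgroup.subgroupOfEquivOfLe (inf_le_left.trans K.le)).toEquiv,
      Nat.card_congr (Subgroup.subgroupOfEquivOfLe inf_le_left).toEquiv, hm512, ← inf_assoc,
      inf_eq_left.2 K.le, K.card_cen ht hbQ hbz] at h1
    change 64 * Nat.card (Sb.map σ) = 512 at h1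
    omega
  have hvconj : ∀ (g : ↥C) (i : Fin 7), v ((g : G) * b * (g : G)⁻¹) (σ g i) = v b i := by
    intro g i
    have h1 := hs g i
    set e := (a (s g i))⁻¹ * ((g : G) * a i * (g : G)⁻¹) with he
    have heq : (g : G) * a i * (g : G)⁻¹ = a (s g i) * e := by rw [he, mul_inv_cancel_left]
    have heQ := Subgroup.zpowers_le.2 K.mem h1
    have hgb := K.normal _ (mem_cen.1 g.2) b hbQ
    show cf _ (a (σ g i)) = cf b (a i)
    rw [hσs g i]
    rw [← cf_conj (g : G) b (a i), heq, K.cf_mul_right ht (haQ _) heQ hgb,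
      K.cf_symm ht hgb heQ, K.cf_zp ht h1 hgb, add_zero]
  have hbig := hS7 σ hr hsr T hT3 Sb (by rw [hS8]) (fun g hg => by
    have hgb : (g : G) * b * (g : G)⁻¹ = b := by
      have hg' : Commute (g : G) b :=
        mem_cen.1 (hg : (g : G) ∈ C ⊓ Subgroup.centralizer ({b} : Set G)).2
      rw [hg'.eq, mul_inv_cancel_right]
    refine Finset.eq_of_subset_of_card_le (fun j hj => ?_) (by
      rw [Finset.card_image_of_injective _ (σ g).injective])
    obtain ⟨i, hi, rfl⟩ := Finset.mem_image.1 hj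
    rw [hT, Finset.mem_filter] at hi ⊢
    refine ⟨Finset.mem_univ _, ?_⟩
    have := hvconj g i
    rw [hgb] at this
    rw [this]; exact hi.2)
  rw [hQc] at hbig
  obtain ⟨q, hq', hqb⟩ := K.exists_swap ht hbQ hbz
  have hstab := card_stab_mod (K.toTwoCore.commute_t hq') hqb
  rw [hm512] at hstab
  have hle : Nat.card {g : ↥C // T.image (σ g) = T} ≤
      Nat.card {g : G // Commute g t ∧ (g * b * g⁻¹ = b ∨ g * b * g⁻¹ = b * t)} := by
    refine Nat.card_le_card_of_injective (fun g => ⟨((g : ↥C) : G), mem_cen.1 g.1.2, ?_⟩)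
      (fun g g' e => Subtype.ext (Subtype.ext (congrArg Subtype.val e :)))
    obtain ⟨g, hg⟩ := g
    have hgb := K.normal _ (mem_cen.1 g.2) b hbQ
    have hvv : v ((g : G) * b * (g : G)⁻¹) = v b := by
      funext j
      obtain ⟨i, rfl⟩ := (σ g).surjective j
      rw [hvconj]
      have hiff : i ∈ T ↔ σ g i ∈ T := by
        conv_rhs => rw [← hg]
        rw [Finset.mem_image]
        exact ⟨fun hi => ⟨i, hi, rfl⟩, fun ⟨k, hk, e⟩ => (σ g).injective e ▸ hk⟩
      simp only [hT, Finset.mem_filter, Finset.mem_univ, true_and] at hiff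
      rcases (show ∀ z : ZMod 2, z = 0 ∨ z = 1 by decide) (v b i) with e | e
      · rw [e, hiff.1 e]
      · rcases (show ∀ z : ZMod 2, z = 0 ∨ z = 1 by decide) (v b (σ g i)) with e' | e'
        · rw [hiff.2 e'] at e; exact absurd e (by decide)
        · rw [e, e']
    have hz : b⁻¹ * ((g : G) * b * (g : G)⁻¹) ∈ Subgroup.zpowers t := by
      refine hvinj _ (mul_mem (inv_mem hbQ) hgb) (funext fun i => ?_)
      show cf (b⁻¹ * ((g : G) * b * (g : G)⁻¹)) (a i) = 0
      rw [inv_eq_of_mul_eq_one_right hb2, K.cf_mul_left ht hbQ hgb (haQ _)]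
      exact CharTwo.add_eq_zero.2 (congrFun hvv i).symm
    rcases (mem_zp ht2).1 hz with e | e
    · exact Or.inl (inv_mul_eq_one.1 e).symm
    · exact Or.inr (inv_mul_eq_iff_eq_mul.1 e)
  omega

/-- The involutions of the two-core do not form orbits of lengths 42 and 28. -/
theorem no_twentyeight (h : Setup G) (hCI : CoreStmt.CenterIndex G)
    (hS7 : CoreStmt.SevenPoints.{u}) {b v : G} (hb : b ∈ Q) (hbz : b ∉ Subgroup.zpowers t)
    (hb2 : b * b = 1) (hb42 : Nat.card ↥(orb t b) = 42) (hv : v ∈ Q)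
    (hvz : v ∉ Subgroup.zpowers t) (hv28 : Nat.card ↥(orb t v) = 28)
    (hall : ∀ x ∈ Q, x ∉ Subgroup.zpowers t → x * x = 1 → x ∈ orb t b ∨ x ∈ orb t v) : False := by
  classical
  set C := Subgroup.centralizer ({t} : Set G) with hC
  haveI := K.toTwoCore.normal_subgroupOf
  haveI := K.toTwoCore.quot_simple h ht
  set π := QuotientGroup.mk' (Q.subgroupOf C) with hπ
  have hidx : (Q.subgroupOf C).index = 168 := K.toTwoCore.quot_card h ht
  have h168 : Nat.card (↥C ⧸ Q.subgroupOf C) = 168 := hidx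
  have hker : π.ker = Q.subgroupOf C := QuotientGroup.ker_mk' _
  have hm768 : Nat.card ↥(C ⊓ Subgroup.centralizer ({v} : Set G)) = 768 := by
    have := orb_card_mul t v
    rw [hv28, h.cent_isA t ht] at this
    change Nat.card ↥(C ⊓ Subgroup.centralizer ({v} : Set G)) * 28 = 21504 at this
    omega
  set M := ((C ⊓ Subgroup.centralizer ({v} : Set G)).subgroupOf C).map π with hM
  have hM12 : Nat.card M = 12 := by
    have h1 := card_inf_mul_map π ((C ⊓ Subgroup.centralizer ({v} : Set G)).subgroupOf C)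
    rw [hker, show Q.subgroupOf C ⊓ (C ⊓ Subgroup.centralizer ({v} : Set G)).subgroupOf C =
      (Q ⊓ (C ⊓ Subgroup.centralizer ({v} : Set G))).subgroupOf C from
        (Subgroup.comap_inf _ _ C.subtype).symm,
      Nat.card_congr (Subgroup.subgroupOfEquivOfLe (inf_le_left.trans K.le)).toEquiv,
      Nat.card_congr (Subgroup.subgroupOfEquivOfLe inf_le_left).toEquiv, hm768, ← inf_assoc,
      inf_eq_left.2 K.le, K.card_cen ht hv hvz, ← hM] at h1
    omega
  obtain ⟨V, hV, hMV⟩ := Simple168.le_normalizer_four h168 (M := M) (by rw [hM12]; norm_num)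
  set N := Subgroup.normalizer (V : Set (↥C ⧸ Q.subgroupOf C)) with hN
  have hN24 : Nat.card N = 24 := Simple168.card_normalizer_four h168 hV
  obtain ⟨gq, hgq, hgM⟩ : ∃ g ∈ N, g ∉ M := by
    by_contra hne
    push Not at hne
    have := Subgroup.card_le_of_le (show N ≤ M from hne)
    omega
  obtain ⟨g, rfl⟩ := QuotientGroup.mk'_surjective _ gq
  have hidx2 : (M.subgroupOf N).index = 2 := by
    have h1 := (M.subgroupOf N).card_mul_index
    rw [Nat.card_congr (Subgroup.subgroupOfEquivOfLe hMV).toEquiv, hM12, hN24] at h1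
    omega
  -- fixing the class of `v` is the same as lying over `M`
  have hfix : ∀ k : ↥C, π k ∈ M →
      (k : G) * v * (k : G)⁻¹ = v ∨ (k : G) * v * (k : G)⁻¹ = v * t := by
    rintro k ⟨c, hc, e⟩
    have hq : c⁻¹ * k ∈ Q.subgroupOf C := by
      rw [← hker, MonoidHom.mem_ker, map_mul, map_inv, e, inv_mul_cancel]
    have hcv : (c : G) * v * (c : G)⁻¹ = v := by
      have hc' : Commute (c : G) v :=
        mem_cen.1 (hc : (c : G) ∈ C ⊓ Subgroup.centralizer ({v} : Set G)).2
      rw [hc'.eq, mul_inv_cancel_right]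
    have hkk : (k : G) * v * (k : G)⁻¹ =
        (c : G) * (((c⁻¹ * k : ↥C) : G) * v * ((c⁻¹ * k : ↥C) : G)⁻¹) * (c : G)⁻¹ := by
      push_cast; group
    rw [hkk]
    have hq' : ((c⁻¹ * k : ↥C) : G) ∈ Q := hq
    rcases K.conj_or ht hv hq' with e' | e' <;> rw [e']
    · exact Or.inl hcv
    · right
      rw [show (c : G) * (v * t) * (c : G)⁻¹ = (c : G) * v * (c : G)⁻¹ * ((c : G) * t * (c : G)⁻¹) by
        group, hcv, (mem_cen.1 c.2).eq, mul_inv_cancel_right]
  obtain ⟨q, hqQ, hqv⟩ := K.exists_swap ht hv hvz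
  have hfix' : ∀ k : ↥C, ((k : G) * v * (k : G)⁻¹ = v ∨ (k : G) * v * (k : G)⁻¹ = v * t) →
      π k ∈ M := by
    intro k hk
    rcases hk with e | e
    · exact ⟨k, ⟨k.2, mem_cen.2 (mul_inv_eq_iff_eq_mul.1 e)⟩, rfl⟩
    · let qc : ↥C := ⟨q, K.le hqQ⟩
      refine ⟨qc⁻¹ * k, Subgroup.mem_subgroupOf.2 (Subgroup.mem_inf.2 ⟨(qc⁻¹ * k).2, mem_cen.2 ?_⟩),
        ?_⟩
      · refine mul_inv_eq_iff_eq_mul.1 ?_
        push_cast
        show q⁻¹ * (k : G) * v * (q⁻¹ * (k : G))⁻¹ = v
        rw [show q⁻¹ * (k : G) * v * (q⁻¹ * (k : G))⁻¹ = q⁻¹ * ((k : G) * v * (k : G)⁻¹) * q by group,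
          e, ← hqv]
        group
      · rw [map_mul, map_inv, show π qc = 1 from (QuotientGroup.eq_one_iff _).2 hqQ,
          inv_one, one_mul]
  set v' := (g : G) * v * (g : G)⁻¹ with hv'
  have hv'Q : v' ∈ Q := K.normal _ (mem_cen.1 g.2) v hv
  set w := v * v' with hw
  have hwQ : w ∈ Q := mul_mem hv hv'Q
  have hwz : w ∉ Subgroup.zpowers t := by
    intro hz
    refine hgM (hfix' g ?_)
    have hvv : v * v ∈ Subgroup.zpowers t := K.sq v hv
    have : v⁻¹ * v' ∈ Subgroup.zpowers t := by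
      have := mul_mem (inv_mem hvv) hz
      rwa [hw, show (v * v)⁻¹ * (v * v') = v⁻¹ * v' by group] at this
    rcases (mem_zp ht.mul_self).1 this with e | e
    · exact Or.inl (inv_mul_eq_one.1 e).symm
    · exact Or.inr (inv_mul_eq_iff_eq_mul.1 e)
  -- elements over `N` fix the class of `w`
  have hmodc : ∀ (p r : G), p = r ∨ p = r * t → r⁻¹ * p ∈ Subgroup.zpowers t := by
    rintro p r (e | e) <;> subst e
    · rw [inv_mul_cancel]; exact one_mem _
    · rw [inv_mul_cancel_left]; exact Subgroup.mem_zpowers t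
  have hwfix : ∀ k : ↥C, π k ∈ N →
      (k : G) * w * (k : G)⁻¹ = w ∨ (k : G) * w * (k : G)⁻¹ = w * t := by
    intro k hk
    have hNmul : ∀ p r : ↥C, π p ∈ N → π r ∈ N →
        (π (p * r) ∈ M ↔ (π p ∈ M ↔ π r ∈ M)) := fun p r hp hr => by
      have := Subgroup.mul_mem_iff_of_index_two hidx2 (a := ⟨π p, hp⟩) (b := ⟨π r, hr⟩)
      simpa [Subgroup.mem_subgroupOf] using this
    have hinvM : ∀ p : ↥C, π p⁻¹ ∈ M ↔ π p ∈ M := fun p => by rw [map_inv, M.inv_mem_iff]
    have hgM' : π g ∉ M := hgM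
    have hgN : π g⁻¹ ∈ N := by rw [map_inv]; exact N.inv_mem hgq
    have hgk : π (g⁻¹ * k) ∈ N := by rw [map_mul]; exact N.mul_mem hgN hk
    have hkg : π (k * g) ∈ N := by rw [map_mul]; exact N.mul_mem hk hgq
    have heQ : ∀ {e : G}, e ∈ Subgroup.zpowers t → e ∈ Q := fun he => Subgroup.zpowers_le.2 K.mem he
    have hcen : ∀ {e : G}, e ∈ Subgroup.zpowers t → ∀ y ∈ Q, e * y = y * e := fun he y hy =>
      ((mul_inv_eq_iff_eq_mul.1 (conj_mem_zp ht.mul_self (K.toTwoCore.commute_t hy) he))).symm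
    suffices hz : w⁻¹ * ((k : G) * w * (k : G)⁻¹) ∈ Subgroup.zpowers t by
      rcases (mem_zp ht.mul_self).1 hz with e | e
      · exact Or.inl (inv_mul_eq_one.1 e).symm
      · exact Or.inr (inv_mul_eq_iff_eq_mul.1 e)
    have hkw : (k : G) * w * (k : G)⁻¹ =
        ((k : G) * v * (k : G)⁻¹) * ((k : G) * v' * (k : G)⁻¹) := by rw [hw]; group
    by_cases hkM : π k ∈ M
    · -- both classes are fixed
      have hgkg : π (g⁻¹ * k * g) ∈ M := by
        rw [hNmul _ _ hgk hgq, hNmul _ _ hgN hk, hinvM]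
        simp [hgM', hkM]
      have e1 := hmodc _ _ (hfix k hkM)
      have e2 : v'⁻¹ * ((k : G) * v' * (k : G)⁻¹) ∈ Subgroup.zpowers t := by
        have := hmodc _ _ (hfix _ hgkg)
        rw [← conj_mem_zp ht.mul_self (mem_cen.1 g.2) this] at this
        convert this using 1
        rw [hv']
        push_cast
        group
      rw [hkw, hw]
      generalize (k : G) * v * (k : G)⁻¹ = p at e1 ⊢
      generalize (k : G) * v' * (k : G)⁻¹ = r at e2 ⊢
      have h3 := mul_mem e1 e2
      have key : (v * v')⁻¹ * (p * r) = (v⁻¹ * p) * (v'⁻¹ * r) := by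
        calc (v * v')⁻¹ * (p * r) = v'⁻¹ * (v⁻¹ * p) * r := by group
          _ = (v⁻¹ * p) * v'⁻¹ * r := by rw [← hcen e1 _ (inv_mem hv'Q)]
          _ = _ := by group
      rwa [key]
    · -- the two classes are exchanged
      have h1M : π (g⁻¹ * k) ∈ M := by
        rw [hNmul _ _ hgN hk, hinvM]
        simp [hgM', hkM]
      have h2M : π (k * g) ∈ M := by
        rw [hNmul _ _ hk hgq]
        simp [hgM', hkM]
      have e1 : v'⁻¹ * ((k : G) * v * (k : G)⁻¹) ∈ Subgroup.zpowers t := by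
        have := hmodc _ _ (hfix _ h1M)
        rw [← conj_mem_zp ht.mul_self (mem_cen.1 g.2) this] at this
        convert this using 1
        rw [hv']
        push_cast
        group
      have e2 : v⁻¹ * ((k : G) * v' * (k : G)⁻¹) ∈ Subgroup.zpowers t := by
        have := hmodc _ _ (hfix _ h2M)
        convert this using 1
        rw [hv']
        push_cast
        group
      rw [hkw, hw]
      generalize (k : G) * v * (k : G)⁻¹ = p at e1 ⊢
      generalize (k : G) * v' * (k : G)⁻¹ = r at e2 ⊢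
      have e3 : (v * v')⁻¹ * (v' * v) ∈ Subgroup.zpowers t := by
        have := K.comm _ (inv_mem hv'Q) _ (inv_mem hv)
        rwa [inv_inv, inv_inv, show v'⁻¹ * v⁻¹ * v' * v = (v * v')⁻¹ * (v' * v) by group] at this
      have h3 := mul_mem e3 (mul_mem e1 e2)
      have key : (v * v')⁻¹ * (p * r) =
          (v * v')⁻¹ * (v' * v) * ((v'⁻¹ * p) * (v⁻¹ * r)) := by
        calc (v * v')⁻¹ * (p * r) = (v * v')⁻¹ * (v' * ((v'⁻¹ * p) * v) * (v⁻¹ * r)) := by group
          _ = _ := by rw [hcen e1 _ hv]; group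
      rwa [key]
  obtain ⟨q', hq'Q, hq'w⟩ := K.exists_swap ht hwQ hwz
  have hstab := card_stab_mod (K.toTwoCore.commute_t hq'Q) hq'w
  have hNc : Nat.card (N.comap π) = 24 * 128 := by
    have h1 := (N.comap π).card_mul_index
    rw [Subgroup.index_comap_of_surjective _ (QuotientGroup.mk'_surjective _), h.cent_isA t ht] at h1
    have h2 := N.card_mul_index
    rw [hN24, h168] at h2
    rw [show N.index = 7 by omega] at h1
    omega
  have hle : Nat.card (N.comap π) ≤
      Nat.card {g : G // Commute g t ∧ (g * w * g⁻¹ = w ∨ g * w * g⁻¹ = w * t)} :=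
    Nat.card_le_card_of_injective
      (fun k => ⟨((k : ↥C) : G), mem_cen.1 k.1.2, hwfix k.1 k.2⟩)
      (fun k k' e => Subtype.ext (Subtype.ext (congrArg Subtype.val e :)))
  have hn14 : Nat.card ↥(orb t w) = 14 := by
    have h1 := orb_card_mul t w
    rw [h.cent_isA t ht] at h1
    obtain ⟨h14, -⟩ := K.orb_dvd ht h hwQ hwz
    have hpos : 0 < Nat.card ↥(orb t w) := by
      haveI : Nonempty ↥(orb t w) := ⟨⟨w, self_mem_orb t w⟩⟩
      exact Nat.card_pos
    have hlt : Nat.card ↥(orb t w) ≤ 14 := by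
      by_contra hgt
      have := Nat.mul_le_mul (show 1536 ≤ Nat.card ↥(Subgroup.centralizer ({t} : Set G) ⊓
        Subgroup.centralizer ({w} : Set G)) by omega) (show 15 ≤ Nat.card ↥(orb t w) by omega)
      omega
    have := Nat.le_of_dvd hpos h14
    omega
  obtain ⟨U, hU, hwU⟩ := K.sided_of_small ht h hCI hS7 hwQ hwz hn14
    (Or.inr ⟨b, hb, hbz, hb2, hb42⟩)
  rcases hall w hwQ hwz (hU.sq w hwU) with e | e <;>
    (have := mem_orb_symm e; rw [this] at hn14; omega)

end ExtCore

end CfsgLib.M24Count
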