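import Cfsg.Agent.M24Count.CoreB

/-!
The two-core of the centraliser of an involution of class A is extraspecial.
-/

set_option autoImplicit false
set_option linter.style.haveILetI false

namespace CfsgLib.M24Count

universe u

variable {G : Type u} [Group G]

/-- An extraspecial two-core. -/
structure ExtCore (t : G) (Q : Subgroup G) : Prop extends TwoCore t Q where
  comm : ∀ x ∈ Q, ∀ y ∈ Q, x * y * x⁻¹ * y⁻¹ ∈ Subgroup.zpowers t
  sq : ∀ x ∈ Q, x * x ∈ Subgroup.zpowers t
  centre : ∀ x ∈ Q, (∀ y ∈ Q, x * y = y * x) → x ∈ Subgroup.zpowers t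

/-- Conjugation of `C(t)` on a section. -/
def conjSec {t : G} {M N : Subgroup G} (hM : ∀ g : G, Commute g t → ∀ a ∈ M, g * a * g⁻¹ ∈ M)
    (hN : ∀ g : G, Commute g t → ∀ a ∈ N, g * a * g⁻¹ ∈ N) [(N.subgroupOf M).Normal] :
    ↥(Subgroup.centralizer ({t} : Set G)) →* MulAut (↥M ⧸ N.subgroupOf M) where
  toFun g :=
    { toFun := Quotient.map' (fun m : ↥M => (⟨(g : G) * m * (g : G)⁻¹, hM _ (mem_cen.1 g.2) _ m.2⟩ : ↥M))
        (fun a b hab => by
          rw [QuotientGroup.leftRel_apply, Subgroup.mem_subgroupOf] at hab ⊢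
          have := hN _ (mem_cen.1 g.2) _ hab
          push_cast at this ⊢
          rwa [show (g : G) * ((a : G)⁻¹ * b) * (g : G)⁻¹ =
            ((g : G) * a * (g : G)⁻¹)⁻¹ * ((g : G) * b * (g : G)⁻¹) by group] at this)
      invFun := Quotient.map' (fun m : ↥M => (⟨(g : G)⁻¹ * m * (g : G)⁻¹⁻¹,
          hM _ (mem_cen.1 g.2).inv_left _ m.2⟩ : ↥M))
        (fun a b hab => by
          rw [QuotientGroup.leftRel_apply, Subgroup.mem_subgroupOf] at hab ⊢
          have := hN _ (mem_cen.1 g.2).inv_left _ hab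
          push_cast at this ⊢
          rwa [show (g : G)⁻¹ * ((a : G)⁻¹ * b) * (g : G)⁻¹⁻¹ =
            ((g : G)⁻¹ * a * (g : G)⁻¹⁻¹)⁻¹ * ((g : G)⁻¹ * b * (g : G)⁻¹⁻¹) by group] at this)
      left_inv := fun x => by
        induction x using Quotient.inductionOn' with
        | h a => exact congrArg Quotient.mk'' (Subtype.ext (by
            show (g : G)⁻¹ * ((g : G) * a * (g : G)⁻¹) * (g : G)⁻¹⁻¹ = a; group))
      right_inv := fun x => by
        induction x using Quotient.inductionOn' with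
        | h a => exact congrArg Quotient.mk'' (Subtype.ext (by
            show (g : G) * ((g : G)⁻¹ * a * (g : G)⁻¹⁻¹) * (g : G)⁻¹ = a; group))
      map_mul' := fun x y => by
        induction x using Quotient.inductionOn' with
        | h a =>
          induction y using Quotient.inductionOn' with
          | h b => exact congrArg Quotient.mk'' (Subtype.ext (by
              show (g : G) * ((a : G) * b) * (g : G)⁻¹ =
                (g : G) * a * (g : G)⁻¹ * ((g : G) * b * (g : G)⁻¹)
              group)) }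
  map_one' := MulEquiv.ext fun x => by
    induction x using Quotient.inductionOn' with
    | h a => exact congrArg Quotient.mk'' (Subtype.ext (by
        show ((1 : ↥(Subgroup.centralizer ({t} : Set G))) : G) * a *
          ((1 : ↥(Subgroup.centralizer ({t} : Set G))) : G)⁻¹ = a
        simp))
  map_mul' g k := MulEquiv.ext fun x => by
    induction x using Quotient.inductionOn' with
    | h a => exact congrArg Quotient.mk'' (Subtype.ext (by
        show ((g * k : ↥(Subgroup.centralizer ({t} : Set G))) : G) * a *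
            ((g * k : ↥(Subgroup.centralizer ({t} : Set G))) : G)⁻¹ =
          (g : G) * ((k : G) * a * (k : G)⁻¹) * (g : G)⁻¹
        push_cast
        group))

namespace TwoCore

variable [Finite G] {t : G} {Q : Subgroup G} (K : TwoCore t Q)
include K

/-- A normal subgroup of order 16 with commutators in `⟨t⟩` is elementary abelian. -/
theorem elementary (hCI : CoreStmt.CenterIndex G) {f : G} (ht : IsA t) (hf : orderOf f = 7)
    (hft : Commute f t) {U : Subgroup G} (hU : U ≤ Q) (htU : t ∈ U)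
    (hUi : ∀ a ∈ U, f * a * f⁻¹ ∈ U) (h16 : Nat.card U = 16) :
    (∀ a ∈ U, ∀ b ∈ U, a * b = b * a) ∧ ∀ a ∈ U, a * a = 1 := by
  have hNi : ∀ a ∈ Subgroup.zpowers t, f * a * f⁻¹ ∈ Subgroup.zpowers t :=
    fun a ha => by rw [conj_mem_zp ht.mul_self hft ha]; exact ha
  have htQ : ∀ x ∈ Q, ∀ e ∈ Subgroup.zpowers t, x * e * x⁻¹ ∈ Subgroup.zpowers t :=
    fun x hx e he => by rw [conj_mem_zp ht.mul_self (K.commute_t hx) he]; exact he
  have hle : Subgroup.zpowers t ≤ U := Subgroup.zpowers_le.2 htU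
  have h8 : Nat.card U = 8 * Nat.card (Subgroup.zpowers t) := by
    rw [h16, Nat.card_zpowers, ht.1]
  obtain ⟨hsq, hcm⟩ := K.section_sq ht hf hft hU hle (Subgroup.mem_zpowers t) hUi hNi
    (fun x hx => htQ x (hU hx)) h8
  set Z := U ⊓ Subgroup.centralizer (U : Set G) with hZ
  have htc : t ∈ Subgroup.centralizer (U : Set G) :=
    Subgroup.mem_centralizer_iff.2 fun x hx => (K.commute_t (hU hx)).eq
  have hZi : ∀ a ∈ Z, f * a * f⁻¹ ∈ Z := by
    intro a ha
    refine Subgroup.mem_inf.2 ⟨hUi a ha.1, Subgroup.mem_centralizer_iff.2 fun x hx => ?_⟩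
    have hx' : f⁻¹ * x * f ∈ U := by
      have h7 := conj_pow_mem (P := fun w => w ∈ U) hUi 6 hx
      rwa [show f ^ 6 = f⁻¹ from eq_inv_of_mul_eq_one_left (by
        rw [← pow_succ]; show f ^ 7 = 1; rw [← hf]; exact pow_orderOf_eq_one f), inv_inv] at h7
    calc x * (f * a * f⁻¹) = f * ((f⁻¹ * x * f) * a) * f⁻¹ := by group
      _ = f * (a * (f⁻¹ * x * f)) * f⁻¹ := by rw [Subgroup.mem_centralizer_iff.1 ha.2 _ hx']
      _ = f * a * f⁻¹ * x := by group
  have hZU : Z = U := by
    refine Subgroup.eq_of_le_of_card_ge inf_le_left ?_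
    rcases K.card_sub ht hf hft (inf_le_left.trans hU) (Subgroup.mem_inf.2 ⟨htU, htc⟩) hZi with
      e | e | e
    · refine absurd ?_ (hCI t U ht.mul_self (Subgroup.mem_inf.2 ⟨htU, htc⟩) hcm
        (fun x hx => (Subgroup.zpowers_le.2 (Subgroup.mem_inf.2 ⟨htU, htc⟩) : _ ≤ Z) (hsq x hx)))
      rw [h16, e]
    · rw [h16, e]
    · rw [h16, e]; norm_num
  have hab : ∀ a ∈ U, ∀ b ∈ U, a * b = b * a := fun a ha b hb =>
    (Subgroup.mem_centralizer_iff.1 (hZU.symm ▸ hb : b ∈ Z).2 a ha)
  refine ⟨hab, ?_⟩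
  by_contra hne
  push Not at hne
  obtain ⟨a, ha, ha2⟩ := hne
  have haz : a ∉ Subgroup.zpowers t := fun hz => by
    rcases (mem_zp ht.mul_self).1 hz with e | e <;> subst e
    · exact ha2 (one_mul 1)
    · exact ha2 ht.mul_self
  have hall : ∀ y ∈ U, y ∉ Subgroup.zpowers t → y * y = t := by
    intro y hy hyz
    obtain ⟨i, hi⟩ := K.trans_seven ht hf hft hU hle (Subgroup.mem_zpowers t) hUi hNi h8 ha haz hy hyz
    set c := f ^ i * a * (f ^ i)⁻¹ with hc
    have hcU : c ∈ U := conj_pow_mem (P := fun w => w ∈ U) hUi i ha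
    have hcc : c * c = t := by
      rw [hc, show f ^ i * a * (f ^ i)⁻¹ * (f ^ i * a * (f ^ i)⁻¹) = f ^ i * (a * a) * (f ^ i)⁻¹ by
        group, ((mem_zp ht.mul_self).1 (hsq a ha)).resolve_left ha2, (hft.pow_left i).eq,
        mul_inv_cancel_right]
    rcases (mem_zp ht.mul_self).1 hi with e | e
    · rw [← inv_mul_eq_one.1 e, hcc]
    · rw [show y = c * t from inv_mul_eq_iff_eq_mul.1 e,
        show c * t * (c * t) = c * (t * c) * t by group, ← (K.commute_t (hU hcU)).eq,
        show c * (c * t) * t = c * c * (t * t) by group, ht.mul_self, mul_one, hcc]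
  obtain ⟨y, hy, hyz⟩ : ∃ y ∈ U, y ∉ Subgroup.zpowers t ⊔ Subgroup.zpowers a := by
    by_contra hne
    push Not at hne
    have haU := Subgroup.card_le_of_le (show U ≤ _ from hne)
    have hprod : Nat.card ↥(Subgroup.zpowers t ⊔ Subgroup.zpowers a) ≤ 2 * 4 := by
      have hnorm : Subgroup.zpowers a ≤ Subgroup.normalizer (Subgroup.zpowers t : Set G) := by
        rw [Subgroup.zpowers_le, Subgroup.mem_normalizer_iff]
        intro x
        refine ⟨fun hx => htQ a (hU ha) x hx, fun hx => ?_⟩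
        have := htQ a⁻¹ (inv_mem (hU ha)) _ hx
        rwa [show a⁻¹ * (a * x * a⁻¹) * a⁻¹⁻¹ = x by group] at this
      have hset := Subgroup.coe_mul_of_right_le_normalizer_left _ _ hnorm
      let F : ↥(Subgroup.zpowers t) × ↥(Subgroup.zpowers a) →
          ↥(Subgroup.zpowers t ⊔ Subgroup.zpowers a) := fun p =>
        ⟨p.1 * p.2, mul_mem (Subgroup.mem_sup_left p.1.2) (Subgroup.mem_sup_right p.2.2)⟩
      have hF : Function.Surjective F := by
        rintro ⟨x, hx⟩
        rw [← SetLike.mem_coe, hset] at hx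
        obtain ⟨p, hp, r, hr, e⟩ := hx
        exact ⟨(⟨p, hp⟩, ⟨r, hr⟩), Subtype.ext e⟩
      have h4 : orderOf a ≤ 4 := orderOf_le_of_pow_eq_one (by norm_num) (by
        rw [show a ^ 4 = a * a * (a * a) by simp only [pow_succ, pow_zero, one_mul, mul_assoc], ((mem_zp ht.mul_self).1 (hsq a ha)).resolve_left ha2,
          ht.mul_self])
      refine (Nat.card_le_card_of_surjective F hF).trans ?_
      rw [Nat.card_prod, Nat.card_zpowers, Nat.card_zpowers, ht.1]
      exact Nat.mul_le_mul_left _ h4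
    omega
  have hay : a * y ∉ Subgroup.zpowers t := fun hz => hyz (by
    have := mul_mem (Subgroup.mem_sup_right (inv_mem (Subgroup.mem_zpowers a)) :
      a⁻¹ ∈ Subgroup.zpowers t ⊔ Subgroup.zpowers a) (Subgroup.mem_sup_left hz)
    rwa [inv_mul_cancel_left] at this)
  have hyz' : y ∉ Subgroup.zpowers t := fun hz => hyz (Subgroup.mem_sup_left hz)
  have e1 := hall (a * y) (mul_mem ha hy) hay
  rw [show a * y * (a * y) = a * (y * a) * y by group, ← hab a ha y hy,
    show a * (a * y) * y = a * a * (y * y) by group, hall y hy hyz',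
    ((mem_zp ht.mul_self).1 (hsq a ha)).resolve_left ha2, ht.mul_self] at e1
  exact ht.ne_one e1.symm

/-- The two-core is extraspecial. -/
theorem extCore (h : Setup G) (hNA : CoreStmt.NoAbelian G) (hCI : CoreStmt.CenterIndex G)
    (hQL : CoreStmt.QuadLinear.{u}) (ht : IsA t) {b : G} {R : Subgroup G} (hbR : BCore b R)
    (hbQ : b ∈ Q) : ExtCore t Q := by
  classical
  haveI : Fact (Nat.Prime 2) := ⟨by norm_num⟩
  obtain ⟨f, hf, hft⟩ := ht.2
  have ht2 := ht.mul_self
  have hle : Subgroup.zpowers t ≤ Q := Subgroup.zpowers_le.2 K.mem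
  have hQi : ∀ a ∈ Q, f * a * f⁻¹ ∈ Q := K.normal f hft
  have htn : ∀ g : G, Commute g t → ∀ a ∈ Subgroup.zpowers t, g * a * g⁻¹ ∈ Subgroup.zpowers t :=
    fun g hg a ha => by rw [conj_mem_zp ht2 hg ha]; exact ha
  have htcom : ∀ x ∈ Q, ∀ e ∈ Subgroup.zpowers t, x * e = e * x := fun x hx e he => by
    rw [← mul_inv_eq_iff_eq_mul]; exact conj_mem_zp ht2 (K.commute_t hx) he
  haveI : ((Subgroup.zpowers t).subgroupOf Q).Normal :=
    ⟨fun n hn g => htn _ (K.commute_t g.2) _ hn⟩
  -- the second centre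
  set π := QuotientGroup.mk' ((Subgroup.zpowers t).subgroupOf Q) with hπ
  set Z2 := ((Subgroup.center (↥Q ⧸ (Subgroup.zpowers t).subgroupOf Q)).comap π).map Q.subtype
    with hZ2
  have hmem : ∀ x : G, x ∈ Z2 ↔ x ∈ Q ∧ ∀ y ∈ Q, x * y * x⁻¹ * y⁻¹ ∈ Subgroup.zpowers t := by
    intro x
    constructor
    · rintro ⟨x, hx, rfl⟩
      refine ⟨x.2, fun y hy => ?_⟩
      have h1 := Subgroup.mem_center_iff.1 (Subgroup.mem_comap.1 hx) (π ⟨y, hy⟩)
      have h2 : π (x * ⟨y, hy⟩ * x⁻¹ * ⟨y, hy⟩⁻¹) = 1 := by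
        rw [map_mul, map_mul, map_mul, map_inv, map_inv, ← h1]; group
      let y' : ↥Q := ⟨y, hy⟩
      exact (QuotientGroup.eq_one_iff (N := (Subgroup.zpowers t).subgroupOf Q)
        (x * y' * x⁻¹ * y'⁻¹)).1 h2
    · rintro ⟨hx, hc⟩
      refine ⟨⟨x, hx⟩, Subgroup.mem_comap.2 (Subgroup.mem_center_iff.2 fun w => ?_), rfl⟩
      obtain ⟨y, rfl⟩ := QuotientGroup.mk'_surjective _ w
      have h2 : π (⟨x, hx⟩ * y * ⟨x, hx⟩⁻¹ * y⁻¹) = 1 :=
        (QuotientGroup.eq_one_iff _).2 (hc y y.2)
      rw [map_mul, map_mul, map_mul, map_inv, map_inv, mul_inv_eq_one, mul_inv_eq_iff_eq_mul] at h2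
      exact h2.symm
  have hZn : ∀ g : G, Commute g t → ∀ a ∈ Z2, g * a * g⁻¹ ∈ Z2 := by
    intro g hg a ha
    obtain ⟨haQ, hac⟩ := (hmem a).1 ha
    refine (hmem _).2 ⟨K.normal g hg a haQ, fun y hy => ?_⟩
    have hy' := K.normal _ hg.inv_left y hy
    have := htn g hg _ (hac _ hy')
    rwa [show g * (a * (g⁻¹ * y * g⁻¹⁻¹) * a⁻¹ * (g⁻¹ * y * g⁻¹⁻¹)⁻¹) * g⁻¹ =
      g * a * g⁻¹ * y * (g * a * g⁻¹)⁻¹ * y⁻¹ by group] at this
  have htZ : t ∈ Z2 := (hmem t).2 ⟨K.mem, fun y hy => by
    rw [← (K.commute_t hy).eq, mul_inv_cancel_right, mul_inv_cancel]; exact one_mem _⟩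
  have hZ2Q : Z2 ≤ Q := fun x hx => ((hmem x).1 hx).1
  have hne2 : Nat.card Z2 ≠ 2 := by
    have hpQ : IsPGroup 2 ↥Q := IsPGroup.of_card (n := 7) (by rw [K.card]; norm_num)
    haveI : Nontrivial (↥Q ⧸ (Subgroup.zpowers t).subgroupOf Q) := by
      rw [← Finite.one_lt_card_iff_nontrivial]
      show 1 < ((Subgroup.zpowers t).subgroupOf Q).index
      have h1 := ((Subgroup.zpowers t).subgroupOf Q).card_mul_index
      rw [Nat.card_congr (Subgroup.subgroupOfEquivOfLe hle).toEquiv, Nat.card_zpowers, ht.1,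
        K.card] at h1
      omega
    haveI := (hpQ.to_quotient ((Subgroup.zpowers t).subgroupOf Q)).center_nontrivial
    intro h2
    obtain ⟨z, hz⟩ := exists_ne (1 : ↥(Subgroup.center (↥Q ⧸ (Subgroup.zpowers t).subgroupOf Q)))
    obtain ⟨x, hx⟩ := QuotientGroup.mk'_surjective _
      (z : ↥Q ⧸ (Subgroup.zpowers t).subgroupOf Q)
    have hxZ : (x : G) ∈ Z2 := ⟨x, Subgroup.mem_comap.2 (by rw [hπ, hx]; exact z.2), rfl⟩
    have he : Subgroup.zpowers t = Z2 := Subgroup.eq_of_le_of_card_ge (Subgroup.zpowers_le.2 htZ)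
      (by rw [h2, Nat.card_zpowers, ht.1])
    refine hz (Subtype.ext ?_)
    rw [← hx]
    exact (QuotientGroup.eq_one_iff x).2 (show (x : G) ∈ Subgroup.zpowers t from he ▸ hxZ)
  -- the derived subgroup
  have comm : ∀ x ∈ Q, ∀ y ∈ Q, x * y * x⁻¹ * y⁻¹ ∈ Subgroup.zpowers t := by
    rcases (K.card_sub ht hf hft hZ2Q htZ (hZn f hft)).resolve_left hne2 with h16 | h128
    swap
    · intro x hx
      exact ((hmem x).1 ((Subgroup.eq_of_le_of_card_ge hZ2Q (by rw [h128, K.card])).symm ▸ hx)).2
    obtain ⟨-, hU2⟩ := K.elementary hCI ht hf hft hZ2Q htZ (hZn f hft) h16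
    obtain ⟨hsqU, hcmU⟩ := K.section_sq ht hf hft le_rfl hZ2Q htZ hQi (hZn f hft)
      (fun q hq => hZn q (K.commute_t hq)) (by rw [K.card, h16])
    haveI : (Z2.subgroupOf Q).Normal := ⟨fun n hn g => hZn _ (K.commute_t g.2) _ hn⟩
    haveI : ((Subgroup.zpowers t).subgroupOf Z2).Normal :=
      ⟨fun n hn g => htn _ (K.commute_t (hZ2Q g.2)) _ hn⟩
    letI : CommGroup (↥Q ⧸ Z2.subgroupOf Q) :=
      { (inferInstance : Group (↥Q ⧸ Z2.subgroupOf Q)) with
        mul_comm := fun a b => by
          induction a using QuotientGroup.induction_on with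
          | H a =>
            induction b using QuotientGroup.induction_on with
            | H b =>
              refine (QuotientGroup.eq.2 ?_)
              rw [Subgroup.mem_subgroupOf]
              have := hcmU _ (inv_mem b.2) _ (inv_mem a.2)
              push_cast
              rwa [inv_inv, inv_inv, show (b : G)⁻¹ * (a : G)⁻¹ * b * a = ((a : G) * b)⁻¹ * (b * a)
                by group] at this }
    letI : CommGroup (↥Z2 ⧸ (Subgroup.zpowers t).subgroupOf Z2) :=
      { (inferInstance : Group (↥Z2 ⧸ (Subgroup.zpowers t).subgroupOf Z2)) with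
        mul_comm := fun a b => by
          induction a using QuotientGroup.induction_on with
          | H a =>
            induction b using QuotientGroup.induction_on with
            | H b =>
              refine (QuotientGroup.eq.2 ?_)
              rw [Subgroup.mem_subgroupOf]
              have := ((hmem _).1 (inv_mem b.2)).2 _ (inv_mem (hZ2Q a.2))
              push_cast
              rwa [inv_inv, inv_inv, show (b : G)⁻¹ * (a : G)⁻¹ * b * a = ((a : G) * b)⁻¹ * (b * a)
                by group] at this }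
    have hidx : ∀ (M N : Subgroup G), N ≤ M → Nat.card M = 8 * Nat.card N →
        (N.subgroupOf M).index = 8 := by
      intro M N hNM h8
      have h1 := (N.subgroupOf M).card_mul_index
      rw [Nat.card_congr (Subgroup.subgroupOfEquivOfLe hNM).toEquiv, h8, mul_comm 8] at h1
      exact Nat.eq_of_mul_eq_mul_left Nat.card_pos h1
    set ρ := conjSec (M := Q) (N := Z2) K.normal hZn with hρ
    set σ := conjSec (M := Z2) (N := Subgroup.zpowers t) hZn htn with hσ
    have hker : ρ.ker = Q.subgroupOf (Subgroup.centralizer ({t} : Set G)) := by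
      ext g
      rw [MonoidHom.mem_ker, Subgroup.mem_subgroupOf]
      constructor
      · intro hg
        refine K.mem_of_section ht hf hft le_rfl hZ2Q htZ K.normal hZn (by rw [K.card, h16])
          (fun q hq m hm => hcmU q hq m hm) (mem_cen.1 g.2) fun m hm => ?_
        have h1 := DFunLike.congr_fun hg (QuotientGroup.mk (⟨m, hm⟩ : ↥Q))
        have h2 := Subgroup.mem_subgroupOf.1 (QuotientGroup.eq.1 h1.symm)
        push_cast at h2
        have h3 := hZn _ (K.commute_t hm) _ h2
        rwa [show m * (m⁻¹ * ((g : G) * m * (g : G)⁻¹)) * m⁻¹ = (g : G) * m * (g : G)⁻¹ * m⁻¹ by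
          group] at h3
      · intro hg
        refine MulEquiv.ext fun x => ?_
        induction x using QuotientGroup.induction_on with
        | H m =>
          symm
          refine QuotientGroup.eq.2 ?_
          rw [Subgroup.mem_subgroupOf]
          push_cast
          have := hcmU _ (inv_mem m.2) _ hg
          rwa [inv_inv, show (m : G)⁻¹ * (g : G) * m * (g : G)⁻¹ = (m : G)⁻¹ * ((g : G) * m * (g : G)⁻¹)
            by group] at this
    have hr : Nat.card ρ.range = 168 := by
      rw [← Subgroup.index_ker, hker, K.quot_card h ht]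
    have hlin := hQL (A := ↥Q ⧸ Z2.subgroupOf Q) (B := ↥Z2 ⧸ (Subgroup.zpowers t).subgroupOf Z2)
      (hidx Q Z2 hZ2Q (by rw [K.card, h16])) (fun a => by
        induction a using QuotientGroup.induction_on with
        | H a => exact (QuotientGroup.eq_one_iff _).2 (hsqU a a.2))
      (hidx Z2 _ (Subgroup.zpowers_le.2 htZ) (by rw [h16, Nat.card_zpowers, ht.1])) (fun a => by
        induction a using QuotientGroup.induction_on with
        | H a => exact (QuotientGroup.eq_one_iff _).2 (by
            show ((a : G) * a) ∈ Subgroup.zpowers t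
            rw [hU2 a a.2]; exact one_mem _))
      ρ σ hr (fun w hw => by
        induction w using QuotientGroup.induction_on with
        | H a =>
          refine (QuotientGroup.eq_one_iff _).2 ?_
          have h1 := Subgroup.mem_subgroupOf.1
            (QuotientGroup.eq.1 (hw ⟨f, mem_cen.2 hft⟩).symm)
          push_cast at h1
          exact K.fixed_coset ht hf hft hle (Subgroup.mem_zpowers t) (htn f hft) (hZ2Q a.2) h1)
      (Quotient.lift (fun x : ↥Q => QuotientGroup.mk (⟨(x : G) * x, hsqU x x.2⟩ : ↥Z2))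
        (fun x y hxy => by
          refine QuotientGroup.eq.2 ?_
          have hu : (x : G)⁻¹ * y ∈ Z2 := by
            have hu' : x⁻¹ * y ∈ Z2.subgroupOf Q := QuotientGroup.leftRel_apply.1 hxy
            exact hu'
          rw [Subgroup.mem_subgroupOf]
          push_cast
          have h2 := inv_mem (((hmem _).1 hu).2 _ (inv_mem x.2))
          rwa [show ((x : G)⁻¹ * y * (x : G)⁻¹ * ((x : G)⁻¹ * y)⁻¹ * (x : G)⁻¹⁻¹)⁻¹ =
            (x : G)⁻¹ * ((x : G)⁻¹ * y) * x * ((x : G)⁻¹ * y)⁻¹ by group,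
            inv_eq_of_mul_eq_one_right (hU2 _ hu),
            show (x : G)⁻¹ * ((x : G)⁻¹ * y) * x * ((x : G)⁻¹ * y) = ((x : G) * x)⁻¹ * (y * y) by
              group] at h2))
      ((QuotientGroup.eq_one_iff _).2 (by
        show ((1 : ↥Q) : G) * ((1 : ↥Q) : G) ∈ Subgroup.zpowers t
        simp))
      (fun c a => by
        induction a using QuotientGroup.induction_on with
        | H a => exact congrArg QuotientGroup.mk (Subtype.ext (by
            show ((c : G) * a * (c : G)⁻¹) * ((c : G) * a * (c : G)⁻¹) =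
              (c : G) * ((a : G) * a) * (c : G)⁻¹
            group)))
    intro x hx y hy
    have h1 := Subgroup.mem_subgroupOf.1 (QuotientGroup.eq.1
      (hlin (QuotientGroup.mk ⟨x, hx⟩) (QuotientGroup.mk ⟨y, hy⟩)))
    push_cast at h1
    set e := (x * y * (x * y))⁻¹ * (x * x * (y * y)) with he
    have hex : e * x = x * e := (htcom x hx e h1).symm
    have key : y * x * e = x * y := by
      have h3 : x * y * (x * y) * e = x * x * (y * y) := by rw [he, mul_inv_cancel_left]
      have h4 : y * e = e * y := htcom y hy e h1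
      rw [show x * y * (x * y) * e = x * (y * x * (y * e)) by group, h4,
        show x * (y * x * (e * y)) = x * (y * x * e * y) by group,
        show x * x * (y * y) = x * (x * y * y) by group] at h3
      exact mul_right_cancel (mul_left_cancel h3)
    rw [← key, show y * x * e * x⁻¹ * y⁻¹ = y * (x * e) * x⁻¹ * y⁻¹ by group, ← hex,
      show y * (e * x) * x⁻¹ * y⁻¹ = y * e * y⁻¹ by group]
    exact htn y (K.commute_t hy) e h1
  -- squares and centre
  set Z := Q ⊓ Subgroup.centralizer (Q : Set G) with hZ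
  have hsqZ : ∀ x ∈ Q, x * x ∈ Z := fun x hx => by
    refine Subgroup.mem_inf.2 ⟨mul_mem hx hx, Subgroup.mem_centralizer_iff.2 fun y hy => ?_⟩
    set e := x * y * x⁻¹ * y⁻¹ with he
    have he1 := comm x hx y hy
    have hee : e * e = 1 := by
      rcases (mem_zp ht2).1 he1 with e' | e' <;> rw [show e = _ from e']
      · exact one_mul 1
      · exact ht2
    have hxy : x * y = e * (y * x) := by rw [he]; group
    calc y * (x * x) = (e * e) * (y * x) * x := by rw [hee]; group
      _ = e * (x * y) * x := by rw [hxy]; group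
      _ = x * (e * (y * x)) := by
        rw [show e * (x * y) * x = (e * x) * y * x by group, ← htcom x hx e he1]; group
      _ = x * x * y := by rw [← hxy]; group
  have htcen : t ∈ Z := Subgroup.mem_inf.2 ⟨K.mem,
    Subgroup.mem_centralizer_iff.2 fun y hy => (K.commute_t hy).eq⟩
  have hZi : ∀ a ∈ Z, f * a * f⁻¹ ∈ Z := fun a ha => by
    refine Subgroup.mem_inf.2 ⟨hQi a ha.1, Subgroup.mem_centralizer_iff.2 fun y hy => ?_⟩
    have hy' := K.normal _ hft.inv_left y hy
    calc y * (f * a * f⁻¹) = f * ((f⁻¹ * y * f⁻¹⁻¹) * a) * f⁻¹ := by group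
      _ = f * (a * (f⁻¹ * y * f⁻¹⁻¹)) * f⁻¹ := by rw [Subgroup.mem_centralizer_iff.1 ha.2 _ hy']
      _ = f * a * f⁻¹ * y := by group
  have hZ2' : Subgroup.zpowers t = Z := by
    refine Subgroup.eq_of_le_of_card_ge (Subgroup.zpowers_le.2 htcen) ?_
    rcases K.card_sub ht hf hft inf_le_left htcen hZi with e | e | e
    · rw [e, Nat.card_zpowers, ht.1]
    · exact absurd (by rw [K.card, e]) (hCI t Q ht2 htcen comm hsqZ)
    · exfalso
      have hQZ : Q ⊓ Subgroup.centralizer (Q : Set G) = Q :=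
        Subgroup.eq_of_le_of_card_ge inf_le_left (by rw [K.card, ← hZ, e])
      have hab : ∀ x ∈ Q, ∀ y ∈ Q, x * y = y * x := fun x hx y hy =>
        Subgroup.mem_centralizer_iff.1 (hQZ.symm ▸ hy : y ∈ Q ⊓ _).2 x hx
      exact hNA b R hbR Q K.card (fun q hq => mem_cen.2 (hab q hq b hbQ)) hab
  exact ⟨K, comm, fun x hx => hZ2' ▸ hsqZ x hx,
    fun x hx hc => hZ2' ▸ Subgroup.mem_inf.2 ⟨hx, Subgroup.mem_centralizer_iff.2 fun y hy => (hc y hy).symm⟩⟩

end TwoCore

end CfsgLib.M24Count
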