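import Cfsg.Agent.M24Count.CoreIface

/-!
Two facts on forms of two-groups with commutators in a subgroup of order two: the commutator form
has no radical of index eight, and the Gauss sum of the squaring map has square `2 * |X|`.
-/

set_option autoImplicit false

namespace CfsgLib.M24Count

universe u

section Forms

variable {G : Type u} [Group G]

theorem forms_zpowers_two {t e : G} (ht : t * t = 1) (he : e ∈ Subgroup.zpowers t) :
    e = 1 ∨ e = t := by
  obtain ⟨m, rfl⟩ := Subgroup.mem_zpowers_iff.1 he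
  rcases Int.even_or_odd m with ⟨k, hk⟩ | ⟨k, hk⟩
  · left
    rw [hk, zpow_add, ← (Commute.refl t).mul_zpow, ht, one_zpow]
  · right
    rw [hk, zpow_add, zpow_one, two_mul, zpow_add, ← (Commute.refl t).mul_zpow, ht, one_zpow,
      one_mul]

theorem forms_pair {t : G} (ht : t * t = 1) {X : Subgroup G}
    (hc : ∀ x ∈ X, ∀ y ∈ X, x * y * x⁻¹ * y⁻¹ ∈ Subgroup.zpowers t)
    {x y : G} (hx : x ∈ X) (hy : y ∈ X) : x * y = y * x ∨ x * y = t * (y * x) := by
  rcases forms_zpowers_two ht (hc x hx y hy) with h | h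
  · left
    calc x * y = (x * y * x⁻¹ * y⁻¹) * (y * x) := by group
      _ = y * x := by rw [h, one_mul]
  · right
    calc x * y = (x * y * x⁻¹ * y⁻¹) * (y * x) := by group
      _ = t * (y * x) := by rw [h]

theorem forms_move {t x a b : G} (ht : t * t = 1) (hta : a * t = t * a) (ha : x * a = t * (a * x))
    (hb : x * b = t * (b * x)) : x * (a * b) = (a * b) * x := by
  calc x * (a * b) = x * a * b := by group
    _ = t * (a * (x * b)) := by rw [ha]; group
    _ = t * ((a * t) * (b * x)) := by rw [hb]; group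
    _ = (t * t) * (a * b * x) := by rw [hta]; group
    _ = a * b * x := by rw [ht, one_mul]

/-- The commutator form has no radical of index eight. -/
theorem centerIndex [Finite G] : CoreStmt.CenterIndex G := by
  intro t X ht htZ hc hsq hcard
  set Z : Subgroup G := X ⊓ Subgroup.centralizer (X : Set G) with hZ
  obtain ⟨htX, htc⟩ := Subgroup.mem_inf.1 htZ
  have hZmem : ∀ {a : G}, a ∈ Z ↔ a ∈ X ∧ ∀ b ∈ X, b * a = a * b := by
    intro a
    rw [hZ, Subgroup.mem_inf, Subgroup.mem_centralizer_iff]
    rfl
  have htcomm : ∀ a ∈ X, a * t = t * a := fun a ha => Subgroup.mem_centralizer_iff.1 htc a ha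
  set K : G → Subgroup G := fun x => X ⊓ Subgroup.centralizer ({x} : Set G) with hK
  have hKmem : ∀ {x a : G}, a ∈ K x ↔ a ∈ X ∧ x * a = a * x := by
    intro x a
    rw [hK, Subgroup.mem_inf, Subgroup.mem_centralizer_singleton_iff]
    exact and_congr_right fun _ => eq_comm
  have hZ0 : 0 < Nat.card Z := Nat.card_pos
  -- the centraliser of a non-central element has index two
  have half : ∀ x ∈ X, x ∉ Z → Nat.card (K x) = 4 * Nat.card Z := by
    intro x hx hxZ
    obtain ⟨y₀, hy₀, hne⟩ : ∃ y₀ ∈ X, x * y₀ ≠ y₀ * x := by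
      by_contra hh
      push Not at hh
      exact hxZ (hZmem.2 ⟨hx, fun b hb => (hh b hb).symm⟩)
    have hy : x * y₀ = t * (y₀ * x) := (forms_pair ht hc hx hy₀).resolve_left hne
    have key : ∀ a ∈ X, a ∉ K x → y₀ * a ∈ K x := by
      intro a ha hna
      have h2 : x * a = t * (a * x) :=
        (forms_pair ht hc hx ha).resolve_left fun e => hna (hKmem.2 ⟨ha, e⟩)
      exact hKmem.2 ⟨X.mul_mem hy₀ ha, forms_move ht (htcomm _ hy₀) hy h2⟩
    have hle : (K x) ≤ X := inf_le_left
    classical
    have e : ↥X ≃ ↥(K x) ⊕ ↥(K x) :=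
      { toFun := fun a => if h : (a : G) ∈ K x then Sum.inl ⟨a, h⟩
          else Sum.inr ⟨y₀ * a, key a a.2 h⟩
        invFun := fun s => Sum.elim (fun k : ↥(K x) => ⟨k, hle k.2⟩)
          (fun k : ↥(K x) => ⟨y₀⁻¹ * k, X.mul_mem (X.inv_mem hy₀) (hle k.2)⟩) s
        left_inv := fun a => by
          by_cases h : (a : G) ∈ K x <;> simp [h]
        right_inv := fun s => by
          rcases s with k | k
          · simp
          · have : y₀⁻¹ * (k : G) ∉ K x := fun h => hne <| by
              have hy' : y₀ ∈ K x := by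
                have := (K x).mul_mem k.2 ((K x).inv_mem h)
                simpa using this
              exact (hKmem.1 hy').2
            simp [this] }
    have := Nat.card_congr e
    rw [Nat.card_sum] at this
    omega
  obtain ⟨x, hx, hxZ⟩ : ∃ x ∈ X, x ∉ Z := by
    by_contra hh
    push Not at hh
    have := Subgroup.card_le_of_le (H := X) (K := Z) hh
    omega
  have hxx : x * x ∈ Z := hsq x hx
  -- a second element
  obtain ⟨z, hzK, hz1, hz2⟩ : ∃ z ∈ K x, z ∉ Z ∧ z * x⁻¹ ∉ Z := by
    by_contra hh
    push Not at hh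
    classical
    have inj : Function.Injective (fun k : ↥(K x) => if h : (k : G) ∈ Z then
        (Sum.inl ⟨k, h⟩ : ↥Z ⊕ ↥Z) else Sum.inr ⟨(k : G) * x⁻¹, hh k k.2 h⟩) := by
      intro a b hab
      simp only at hab
      split_ifs at hab
      · simp only [Sum.inl.injEq, Subtype.mk.injEq] at hab
        exact Subtype.ext hab
      · simp only [Sum.inr.injEq, Subtype.mk.injEq] at hab
        exact Subtype.ext (mul_right_cancel hab)
    have := Nat.card_le_card_of_injective _ inj
    rw [Nat.card_sum, half x hx hxZ] at this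
    omega
  obtain ⟨hzX, hzx⟩ := hKmem.1 hzK
  obtain ⟨y₀, hy₀, hne⟩ : ∃ y₀ ∈ X, x * y₀ ≠ y₀ * x := by
    by_contra hh
    push Not at hh
    exact hxZ (hZmem.2 ⟨hx, fun b hb => (hh b hb).symm⟩)
  have hy : y₀ * x = t * (x * y₀) :=
    (forms_pair ht hc hy₀ hx).resolve_left fun e => hne e.symm
  -- one of `z`, `z * x` commutes with `y₀`
  obtain ⟨k, hkX, hkx, hky, hk1, hk2⟩ : ∃ k ∈ X, x * k = k * x ∧ y₀ * k = k * y₀ ∧ k ∉ Z ∧
      k * x⁻¹ ∉ Z := by
    rcases forms_pair ht hc hy₀ hzX with h | h
    · exact ⟨z, hzX, hzx, h, hz1, hz2⟩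
    · refine ⟨z * x, X.mul_mem hzX hx, ?_, forms_move ht (htcomm _ hzX) h hy, fun hm => hz2 ?_,
        fun hm => hz1 (by simpa using hm)⟩
      · rw [← mul_assoc, hzx]
      · have := Z.mul_mem hm (Z.inv_mem hxx)
        simpa [mul_assoc] using this
  set J : Subgroup G := K x ⊓ K k with hJ
  have hJmem : ∀ {a : G}, a ∈ J ↔ a ∈ X ∧ x * a = a * x ∧ k * a = a * k := by
    intro a
    rw [hJ, Subgroup.mem_inf, hKmem, hKmem]
    tauto
  have hZJ : ∀ a ∈ Z, a ∈ J := fun a ha =>
    hJmem.2 ⟨(hZmem.1 ha).1, (hZmem.1 ha).2 x hx, (hZmem.1 ha).2 k hkX⟩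
  have hxJ : x ∈ J := hJmem.2 ⟨hx, rfl, hkx.symm⟩
  have hkJ : k ∈ J := hJmem.2 ⟨hkX, hkx, rfl⟩
  have hy₀J : y₀ ∉ J := fun h => hne (hJmem.1 h).2.1
  have hy₀K : y₀ ∈ K k := hKmem.2 ⟨hy₀, hky.symm⟩
  have hdvd : Nat.card J ∣ Nat.card (K k) := Subgroup.card_dvd_of_le inf_le_right
  have hneq : Nat.card J ≠ Nat.card (K k) := fun h =>
    hy₀J ((Subgroup.eq_of_le_of_card_ge (inf_le_right : J ≤ K k) h.ge).symm.le hy₀K)
  have h3 : 3 * Nat.card Z ≤ Nat.card J := by
    have hv : ∀ i, ![1, x, k] i ∈ J := by
      intro i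
      fin_cases i
      · exact J.one_mem
      · exact hxJ
      · exact hkJ
    have inj : Function.Injective (fun p : Fin 3 × ↥Z =>
        (⟨(p.2 : G) * ![1, x, k] p.1, J.mul_mem (hZJ _ p.2.2) (hv p.1)⟩ : ↥J)) := by
      rintro ⟨i, a⟩ ⟨j, b⟩ hab
      have hab' : (a : G) * ![1, x, k] i = b * ![1, x, k] j := congrArg Subtype.val hab
      have hd : ![1, x, k] i * (![1, x, k] j)⁻¹ ∈ Z := by
        have he : ![1, x, k] i * (![1, x, k] j)⁻¹ = (a : G)⁻¹ * b := by
          rw [eq_inv_mul_iff_mul_eq, ← mul_assoc, hab', mul_inv_cancel_right]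
        rw [he]
        exact Z.mul_mem (Z.inv_mem a.2) b.2
      have nx : x⁻¹ ∉ Z := fun e => hxZ (by simpa using Z.inv_mem e)
      have nk : k⁻¹ ∉ Z := fun e => hk1 (by simpa using Z.inv_mem e)
      have nkx : x * k⁻¹ ∉ Z := fun e => hk2 (by simpa using Z.inv_mem e)
      have hij : i = j := by
        fin_cases i <;> fin_cases j <;>
          first | rfl | (exfalso; simp only [Matrix.cons_val_zero, Matrix.cons_val_one,
            Matrix.cons_val_two, Matrix.cons_val, Fin.isValue, Fin.zero_eta, Fin.mk_one,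
            Fin.reduceFinMk, Matrix.head_cons, Matrix.tail_cons, one_mul, inv_one, mul_one,
            nx, nk, nkx, hxZ, hk1, hk2] at hd)
      subst hij
      exact Prod.ext rfl (Subtype.ext (mul_right_cancel hab'))
    have := Nat.card_le_card_of_injective _ inj
    simpa [Nat.card_prod] using this
  rw [half k hkX hk1] at hdvd hneq
  obtain ⟨m, hm⟩ := hdvd
  rcases Nat.lt_or_ge m 2 with hm' | hm'
  · interval_cases m <;> omega
  · have := Nat.mul_le_mul_left (Nat.card J) hm'
    omega

open Classical in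
/-- The square of the Gauss sum. -/
theorem gaussSum [Finite G] : CoreStmt.GaussSum G := by
  intro t X ht ht1 htX hcen hc hsq hrad
  haveI : Fintype ↥X := Fintype.ofFinite _
  set ε : ↥X → ℤ := fun x => if (x : G) * x = 1 then 1 else -1 with hε
  set c : ↥X → ↥X → ℤ := fun x y => if (x : G) * y = y * x then 1 else -1 with hcdef
  have hbad : ∀ g : G, g ≠ t * g := fun g h => ht1 (mul_eq_right.1 h.symm)
  have hxx : ∀ x : ↥X, (x : G) * x = 1 ∨ (x : G) * x = t := fun x =>
    forms_zpowers_two ht (hsq x x.2)
  have hprod : ∀ x y : ↥X, ε (x * y) = ε x * ε y * c x y := by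
    intro x y
    rcases forms_pair ht hc x.2 y.2 with h | h
    · have hm : ((x : G) * y) * (x * y) = (x : G) * x * ((y : G) * y) := by
        calc ((x : G) * y) * (x * y) = (x : G) * (y * x) * y := by group
          _ = (x : G) * x * ((y : G) * y) := by rw [← h]; group
      simp only [hε, hcdef, Subgroup.coe_mul]
      simp only [hm]
      simp only [if_pos h]
      rcases hxx x with a | a <;> rcases hxx y with b | b <;> simp [a, b, ht, ht1]
    · have h' : (y : G) * x = t * (x * y) := by rw [h, ← mul_assoc, ht, one_mul]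
      have hm : ((x : G) * y) * (x * y) = t * ((x : G) * x * ((y : G) * y)) := by
        calc ((x : G) * y) * (x * y) = (x : G) * (y * x) * y := by group
          _ = ((x : G) * t) * (x * y) * y := by rw [h']; group
          _ = t * ((x : G) * x * ((y : G) * y)) := by rw [hcen _ x.2]; group
      have hn : ¬ (x : G) * y = y * x := fun e => hbad _ (e.symm.trans h)
      simp only [hε, hcdef, Subgroup.coe_mul]
      simp only [hm]
      simp only [if_neg hn]
      rcases hxx x with a | a <;> rcases hxx y with b | b <;> simp [a, b, ht, ht1]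
  have hεsq : ∀ x, ε x * ε x = 1 := fun x => by simp only [hε]; split_ifs <;> norm_num
  have inner : ∀ z : ↥X, ∑ x, c x z =
      if (z : G) ∈ Subgroup.zpowers t then (Fintype.card ↥X : ℤ) else 0 := by
    intro z
    split_ifs with hz
    · have : ∀ x : ↥X, c x z = 1 := fun x => if_pos <| by
        rcases forms_zpowers_two ht hz with e | e
        · rw [e, mul_one, one_mul]
        · rw [e]; exact hcen _ x.2
      rw [Finset.sum_congr rfl fun x _ => this x]
      simp
    · obtain ⟨w, hw, hwz⟩ : ∃ w ∈ X, w * (z : G) ≠ z * w := by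
        by_contra hh
        push Not at hh
        exact hz (hrad z z.2 fun y hy => (hh y hy).symm)
      have hw' : w * (z : G) = t * (z * w) := (forms_pair ht hc hw z.2).resolve_left hwz
      have flip : ∀ x : ↥X, c (⟨w, hw⟩ * x) z = - c x z := by
        intro x
        rcases forms_pair ht hc x.2 z.2 with h | h
        · have h2 : (w * x : G) * z = t * ((z : G) * (w * x)) := by
            calc (w * x : G) * z = w * ((x : G) * z) := by group
              _ = (w * (z : G)) * x := by rw [h]; group
              _ = t * ((z : G) * (w * x)) := by rw [hw']; group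
          have hn : ¬ (w * x : G) * z = (z : G) * (w * x) := fun e => hbad _ (e.symm.trans h2)
          simp [hcdef, h, hn]
        · have h2 : (w * x : G) * z = (z : G) * (w * x) := by
            calc (w * x : G) * z = w * ((x : G) * z) := by group
              _ = (w * t) * ((z : G) * x) := by rw [h]; group
              _ = t * (w * (z : G)) * x := by rw [hcen _ hw]; group
              _ = (t * t) * ((z : G) * (w * x)) := by rw [hw']; group
              _ = (z : G) * (w * x) := by rw [ht, one_mul]
          have hn : ¬ (x : G) * z = (z : G) * x := fun e => hbad _ (e.symm.trans h)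
          simp [hcdef, h2, hn]
      have h2 : ∑ x, c (⟨w, hw⟩ * x) z = ∑ x, c x z :=
        Equiv.sum_comp (Equiv.mulLeft (⟨w, hw⟩ : ↥X)) (fun x => c x z)
      rw [Finset.sum_congr rfl fun x _ => flip x, Finset.sum_neg_distrib] at h2
      omega
  have hS : (∑ x, ε x) ^ 2 = 2 * (Fintype.card ↥X : ℤ) := by
    calc (∑ x, ε x) ^ 2 = ∑ x, ∑ y, ε x * ε y := by rw [sq, Finset.sum_mul_sum]
      _ = ∑ x, ∑ z, ε x * ε (x * z) := by
          refine Finset.sum_congr rfl fun x _ => ?_
          exact (Equiv.sum_comp (Equiv.mulLeft x) (fun y => ε x * ε y)).symm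
      _ = ∑ x, ∑ z, ε z * c x z := by
          refine Finset.sum_congr rfl fun x _ => Finset.sum_congr rfl fun z _ => ?_
          rw [hprod x z, ← mul_assoc, ← mul_assoc, hεsq, one_mul]
      _ = ∑ z, ε z * ∑ x, c x z := by
          rw [Finset.sum_comm]
          exact Finset.sum_congr rfl fun z _ => (Finset.mul_sum _ _ _).symm
      _ = 2 * (Fintype.card ↥X : ℤ) := by
          have ne : (1 : ↥X) ≠ ⟨t, htX⟩ := fun e => ht1 (congrArg Subtype.val e).symm
          rw [← Finset.sum_subset (Finset.subset_univ ({1, ⟨t, htX⟩} : Finset ↥X)) fun z _ hz => ?_,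
            Finset.sum_pair ne, inner, inner]
          · simp [hε, ht, two_mul, Subgroup.mem_zpowers t, Subgroup.one_mem]
          · rw [inner, if_neg, mul_zero]
            intro hm
            apply hz
            rcases forms_zpowers_two ht hm with e | e
            · exact Finset.mem_insert.2 (Or.inl (Subtype.ext e))
            · exact Finset.mem_insert_of_mem (Finset.mem_singleton.2 (Subtype.ext e))
  have hcount : Nat.card {x : G // x ∈ X ∧ x * x = 1} =
      (Finset.univ.filter fun x : ↥X => (x : G) * x = 1).card := by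
    rw [← Nat.card_eq_finsetCard]
    exact Nat.card_congr
      { toFun := fun x => ⟨⟨x.1, x.2.1⟩, by simp [x.2.2]⟩
        invFun := fun x => ⟨x.1.1, x.1.2, (Finset.mem_filter.1 x.2).2⟩
        left_inv := fun _ => rfl
        right_inv := fun _ => rfl }
  have hsum : ∑ x, ε x =
      2 * ((Finset.univ.filter fun x : ↥X => (x : G) * x = 1).card : ℤ) - Fintype.card ↥X := by
    have : ∀ x, ε x = 2 * (if (x : G) * x = 1 then (1 : ℤ) else 0) - 1 := fun x => by
      simp only [hε]; split_ifs <;> norm_num
    rw [Finset.sum_congr rfl fun x _ => this x, Finset.sum_sub_distrib, ← Finset.mul_sum,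
      Finset.sum_boole]
    simp
  rw [hcount, Nat.card_eq_fintype_card, ← hsum, hS]

end Forms

end CfsgLib.M24Count
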