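import Cfsg.Agent.M24Count.CoreDefs

/-!
Interfaces of the two cores used to build a frame: `O₂` of the centraliser of an involution of class A
and `O₂` of the centraliser of another involution. The propositions `CoreStmt.*` are the statements
of the parts of the construction.
-/

set_option autoImplicit false

namespace CfsgLib.M24Count

universe u

/-- The two-core of the centraliser of `t`. -/
structure TwoCore {G : Type u} [Group G] (t : G) (Q : Subgroup G) : Prop where
  card : Nat.card Q = 128
  le : Q ≤ Subgroup.centralizer ({t} : Set G)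
  mem : t ∈ Q
  normal : ∀ g : G, Commute g t → ∀ a ∈ Q, g * a * g⁻¹ ∈ Q
  simple : ∀ L : Subgroup G, Q ≤ L → L ≤ Subgroup.centralizer ({t} : Set G) →
    (∀ g : G, Commute g t → ∀ a ∈ L, g * a * g⁻¹ ∈ L) →
    L = Q ∨ L = Subgroup.centralizer ({t} : Set G)
  seven : ∀ f : G, orderOf f = 7 → Commute f t → ∀ q ∈ Q, Commute q f → q ∈ Subgroup.zpowers t

/-- The two-core of the centraliser of an involution `b` not of class A, with quotient `S₅`. -/
structure BCore {G : Type u} [Group G] (b : G) (R : Subgroup G) : Prop where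
  card : Nat.card R = 64
  le : R ≤ Subgroup.centralizer ({b} : Set G)
  normal : ∀ g : G, Commute g b → ∀ a ∈ R, g * a * g⁻¹ ∈ R
  self : ∀ x : G, Commute x b → (∀ r ∈ R, Commute x r) → x ∈ R
  five : ∀ f : G, orderOf f = 5 → Commute f b →
    Nat.card ↥(R ⊓ Subgroup.centralizer ({f} : Set G)) = 4
  quot : ∃ φ : ↥(Subgroup.centralizer ({b} : Set G)) →* Equiv.Perm (Fin 5),
    Function.Surjective φ ∧ φ.ker = R.subgroupOf (Subgroup.centralizer ({b} : Set G))
  big : ∀ s : G, orderOf s = 2 → Commute s b →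
    512 ≤ Nat.card ↥(Subgroup.centralizer ({b} : Set G) ⊓ Subgroup.centralizer ({s} : Set G)) →
    s ∈ R ∧ ∀ r ∈ R, Commute r s

namespace CoreStmt

/-- Step 0 for the involutions not of class A. -/
def ExistsBCore (G : Type u) [Group G] [Finite G] : Prop :=
  Setup G → ∀ b : G, orderOf b = 2 → ¬ IsA b → ∃ R : Subgroup G, BCore b R

/-- The centraliser of an involution of class A has no normal Sylow 2-subgroup. -/
def NotSylowTwoNormal (G : Type u) [Group G] [Finite G] : Prop :=
  Setup G → ∀ t : G, IsA t → ∀ T : Subgroup G, Nat.card T = 1024 →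
    T ≤ Subgroup.centralizer ({t} : Set G) →
    (∀ g : G, Commute g t → ∀ a ∈ T, g * a * g⁻¹ ∈ T) → False

/-- Step 0 for the involutions of class A, given the previous statement. -/
def ExistsTwoCore (G : Type u) [Group G] [Finite G] : Prop :=
  NotSylowTwoNormal G → Setup G → ∀ t : G, IsA t → ∃ Q : Subgroup G, TwoCore t Q

/-- No abelian subgroup of order 128 in the centraliser of a non-A involution. -/
def NoAbelian (G : Type u) [Group G] [Finite G] : Prop :=
  ∀ (b : G) (R : Subgroup G), BCore b R → ∀ Q : Subgroup G, Nat.card Q = 128 →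
    Q ≤ Subgroup.centralizer ({b} : Set G) → (∀ x ∈ Q, ∀ y ∈ Q, x * y = y * x) → False

/-- No alternating form of rank three. -/
def CenterIndex (G : Type u) [Group G] [Finite G] : Prop :=
  ∀ (t : G) (X : Subgroup G), t * t = 1 → t ∈ X ⊓ Subgroup.centralizer (X : Set G) →
    (∀ x ∈ X, ∀ y ∈ X, x * y * x⁻¹ * y⁻¹ ∈ Subgroup.zpowers t) →
    (∀ x ∈ X, x * x ∈ X ⊓ Subgroup.centralizer (X : Set G)) →
    Nat.card X ≠ 8 * Nat.card ↥(X ⊓ Subgroup.centralizer (X : Set G))

/-- The square of the signed number of solutions of `x² = 1` in an extraspecial group. -/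
def GaussSum (G : Type u) [Group G] [Finite G] : Prop :=
  ∀ (t : G) (X : Subgroup G), t * t = 1 → t ≠ 1 → t ∈ X → (∀ x ∈ X, x * t = t * x) →
    (∀ x ∈ X, ∀ y ∈ X, x * y * x⁻¹ * y⁻¹ ∈ Subgroup.zpowers t) →
    (∀ x ∈ X, x * x ∈ Subgroup.zpowers t) →
    (∀ x ∈ X, (∀ y ∈ X, x * y = y * x) → x ∈ Subgroup.zpowers t) →
    (2 * (Nat.card {x : G // x ∈ X ∧ x * x = 1} : ℤ) - Nat.card X) ^ 2 = 2 * Nat.card X

/-- An equivariant map between three-dimensional modules of a group inducing `GL(3,2)` is linear. -/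
def QuadLinear : Prop :=
  ∀ {C A B : Type u} [Group C] [CommGroup A] [CommGroup B], Nat.card A = 8 →
    (∀ a : A, a * a = 1) → Nat.card B = 8 → (∀ b : B, b * b = 1) →
    ∀ (ρ : C →* MulAut A) (σ : C →* MulAut B), Nat.card ρ.range = 168 →
      (∀ b : B, (∀ c : C, σ c b = b) → b = 1) →
      ∀ q : A → B, q 1 = 1 → (∀ (c : C) (a : A), q (ρ c a) = σ c (q a)) →
        ∀ a a' : A, q (a * a') = q a * q a'

/-- In a simple group of order 168 on seven points, the stabiliser of a set of three points with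
order divisible by 8 has order at least 24. -/
def SevenPoints : Prop :=
  ∀ {C : Type u} [Group C] [Finite C] (σ : C →* Equiv.Perm (Fin 7)),
    Nat.card σ.range = 168 → IsSimpleGroup σ.range → ∀ (T : Finset (Fin 7)), T.card = 3 →
      ∀ S : Subgroup C, 8 ∣ Nat.card (S.map σ) → (∀ g ∈ S, T.image (σ g) = T) →
        24 * Nat.card σ.ker ≤ Nat.card {g : C // T.image (σ g) = T}

end CoreStmt

end CfsgLib.M24Count
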