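import Cfsg.Agent.M24Count.CoreIface

/-!
An equivariant map between three-dimensional modules over the field of two elements is linear when
the group induces all automorphisms of the source and fixes nothing in the target.
-/

set_option autoImplicit false
set_option linter.style.haveILetI false

namespace CfsgLib.M24Count

universe u

namespace CoreLinear

variable {A : Type u} [CommGroup A]

/-- An independent triple. -/
def Indep (t : A × A × A) : Prop :=
  t.1 ≠ 1 ∧ t.2.1 ≠ 1 ∧ t.2.1 ≠ t.1 ∧ t.2.2 ≠ 1 ∧ t.2.2 ≠ t.1 ∧ t.2.2 ≠ t.2.1 ∧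
    t.2.2 ≠ t.1 * t.2.1

theorem mul_ne {a b : A} (h2 : ∀ a : A, a * a = 1) (ha : a ≠ b) : a * b ≠ 1 := fun h =>
  ha (mul_right_cancel (h.trans (h2 b).symm))

/-- Every element is a product of members of an independent triple. -/
theorem cover (hc : Nat.card A = 8) (h2 : ∀ a : A, a * a = 1) {t : A × A × A} (ht : Indep t)
    (x : A) :
    x = 1 ∨ x = t.1 ∨ x = t.2.1 ∨ x = t.1 * t.2.1 ∨ x = t.2.2 ∨ x = t.1 * t.2.2 ∨
      x = t.2.1 * t.2.2 ∨ x = t.1 * t.2.1 * t.2.2 := by
  classical
  haveI : Finite A := Nat.finite_of_card_ne_zero (by rw [hc]; norm_num)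
  letI := Fintype.ofFinite A
  obtain ⟨a, b, w⟩ := t
  obtain ⟨h1, h3, h4, h5, h6, h7, h8⟩ := ht
  simp only at *
  set K : Subgroup A :=
    { carrier := {x | x = 1 ∨ x = a ∨ x = b ∨ x = a * b}
      one_mem' := Or.inl rfl
      mul_mem' := by
        have e1 : b * a = a * b := mul_comm b a
        have e2 : a * (a * b) = b := by rw [← mul_assoc, h2, one_mul]
        have e3 : b * (a * b) = a := by rw [mul_comm a b, ← mul_assoc, h2, one_mul]
        have e4 : a * b * a = b := by rw [mul_comm, e2]
        have e5 : a * b * b = a := by rw [mul_assoc, h2, mul_one]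
        rintro x y (rfl | rfl | rfl | rfl) (rfl | rfl | rfl | rfl) <;>
          simp only [Set.mem_ofPred_eq, one_mul, mul_one, h2, e1, e2, e3, e4, e5, true_or, or_true]
      inv_mem' := by
        intro x hx
        have : x⁻¹ = x := inv_eq_of_mul_eq_one_right (h2 x)
        simpa [this] using hx } with hK
  have hsub : ({1, a, b, a * b} : Finset A) ∪ ({1, a, b, a * b} : Finset A).image (· * w) =
      Finset.univ := by
    refine Finset.eq_univ_of_card _ ?_
    have hdis : Disjoint ({1, a, b, a * b} : Finset A)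
        (({1, a, b, a * b} : Finset A).image (· * w)) := by
      rw [Finset.disjoint_left]
      intro x hx hxi
      obtain ⟨y, hy, rfl⟩ := Finset.mem_image.1 hxi
      simp only [Finset.mem_insert, Finset.mem_singleton] at hx hy
      have hyK : y ∈ K := hy
      have hxK : y * w ∈ K := hx
      have hwK : w ∈ K := by simpa using mul_mem (inv_mem hyK) hxK
      rcases hwK with e | e | e | e
      exacts [h5 e, h6 e, h7 e, h8 e]
    have hab : a * b ≠ 1 := mul_ne h2 (Ne.symm h4)
    have hcard : ({1, a, b, a * b} : Finset A).card = 4 := by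
      have p1 : a * b ≠ a := fun e => h3 (mul_eq_left.1 e)
      have p2 : a * b ≠ b := fun e => h1 (mul_eq_right.1 e)
      simp [Ne.symm h1, Ne.symm h3, Ne.symm h4, Ne.symm hab, Ne.symm p1, Ne.symm p2]
    rw [Finset.card_union_of_disjoint hdis,
      Finset.card_image_of_injective _ (mul_left_injective w), hcard, ← Nat.card_eq_fintype_card, hc]
  have hx := Finset.mem_univ x
  rw [← hsub] at hx
  simp only [Finset.mem_union, Finset.mem_insert, Finset.mem_singleton, Finset.mem_image] at hx
  rcases hx with h | ⟨y, hy, rfl⟩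
  · tauto
  · rcases hy with rfl | rfl | rfl | rfl
    · rw [one_mul]; tauto
    · tauto
    · tauto
    · tauto

theorem exists_indep (hc : Nat.card A = 8) {a b : A} (ha : a ≠ 1) (hb : b ≠ 1) (hab : b ≠ a) :
    ∃ w, Indep (a, b, w) := by
  classical
  haveI : Finite A := Nat.finite_of_card_ne_zero (by rw [hc]; norm_num)
  letI := Fintype.ofFinite A
  have h : ({1, a, b, a * b} : Finset A).card < (Finset.univ : Finset A).card := by
    refine lt_of_le_of_lt Finset.card_le_four ?_
    rw [Finset.card_univ, ← Nat.card_eq_fintype_card, hc]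
    norm_num
  obtain ⟨w, -, hw⟩ := Finset.exists_mem_notMem_of_card_lt_card h
  simp only [Finset.mem_insert, Finset.mem_singleton, not_or] at hw
  exact ⟨w, ha, hb, hab, hw.1, hw.2.1, hw.2.2.1, hw.2.2.2⟩

theorem card_indep_le (hc : Nat.card A = 8) (h2 : ∀ a : A, a * a = 1) :
    Nat.card {t : A × A × A // Indep t} ≤ 168 := by
  classical
  haveI : Finite A := Nat.finite_of_card_ne_zero (by rw [hc]; norm_num)
  letI := Fintype.ofFinite A
  let S : Finset (Σ _ : A, Σ _ : A, A) :=
    ((Finset.univ : Finset A).erase 1).sigma fun a =>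
      (((Finset.univ : Finset A).erase 1).erase a).sigma fun b =>
        (Finset.univ : Finset A) \ {1, a, b, a * b}
  have hc' : (Finset.univ : Finset A).card = 8 := by
    rw [Finset.card_univ, ← Nat.card_eq_fintype_card, hc]
  have hS : S.card = 168 := by
    rw [Finset.card_sigma]
    have hin : ∀ a ∈ (Finset.univ : Finset A).erase 1,
        ((((Finset.univ : Finset A).erase 1).erase a).sigma fun b =>
          (Finset.univ : Finset A) \ {1, a, b, a * b}).card = 24 := by
      intro a ha
      rw [Finset.card_sigma]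
      have hb : ∀ b ∈ ((Finset.univ : Finset A).erase 1).erase a,
          ((Finset.univ : Finset A) \ {1, a, b, a * b}).card = 4 := by
        intro b hb
        simp only [Finset.mem_erase, Finset.mem_univ, and_true] at ha hb
        have hab : a * b ≠ 1 := mul_ne h2 (Ne.symm hb.1)
        have p1 : a * b ≠ a := fun e => hb.2 (mul_eq_left.1 e)
        have p2 : a * b ≠ b := fun e => ha (mul_eq_right.1 e)
        rw [Finset.card_sdiff_of_subset (Finset.subset_univ _), hc']
        simp [Ne.symm ha, Ne.symm hb.1, Ne.symm hb.2, Ne.symm hab, Ne.symm p1, Ne.symm p2]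
      rw [Finset.sum_congr rfl hb, Finset.sum_const, smul_eq_mul,
        Finset.card_erase_of_mem ha, Finset.card_erase_of_mem (Finset.mem_univ _), hc']
    rw [Finset.sum_congr rfl hin, Finset.sum_const, smul_eq_mul,
      Finset.card_erase_of_mem (Finset.mem_univ _), hc']
  rw [← hS, Nat.card_eq_fintype_card, ← Fintype.card_coe]
  refine Fintype.card_le_of_injective (fun t => ⟨⟨t.1.1, t.1.2.1, t.1.2.2⟩, ?_⟩) ?_
  · obtain ⟨h1, h3, h4, h5, h6, h7, h8⟩ := t.2
    simp [S, h1, h3, h4, h5, h6, h7, h8]
  · intro t t' h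
    simp only [Subtype.mk.injEq, Sigma.mk.inj_iff, heq_eq_eq] at h
    exact Subtype.ext (Prod.ext h.1 (Prod.ext h.2.1 h.2.2))

/-- A group inducing all 168 automorphisms is transitive on independent triples. -/
theorem exists_map {C : Type u} [Group C] (hc : Nat.card A = 8) (h2 : ∀ a : A, a * a = 1)
    (ρ : C →* MulAut A) (hρ : Nat.card ρ.range = 168) {a b w a' b' w' : A}
    (ht : Indep (a, b, w)) (ht' : Indep (a', b', w')) :
    ∃ c : C, ρ c a = a' ∧ ρ c b = b' ∧ ρ c w = w' := by
  classical
  haveI : Finite A := Nat.finite_of_card_ne_zero (by rw [hc]; norm_num)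
  let f : ρ.range → {t : A × A × A // Indep t} := fun φ =>
    ⟨(φ.1 a, φ.1 b, φ.1 w), by
      obtain ⟨h1, h3, h4, h5, h6, h7, h8⟩ := ht
      refine ⟨?_, ?_, ?_, ?_, ?_, ?_, ?_⟩ <;> simp only [ne_eq, ← map_mul, map_eq_one_iff _
        φ.1.injective, φ.1.injective.eq_iff] <;> assumption⟩
  have hf : Function.Injective f := by
    intro φ ψ h
    have h' := congrArg Subtype.val h
    simp only [f, Prod.mk.injEq] at h'
    obtain ⟨e1, e2, e3⟩ := h'
    refine Subtype.ext (MulEquiv.ext fun x => ?_)
    rcases cover hc h2 ht x with rfl | rfl | rfl | rfl | rfl | rfl | rfl | rfl <;>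
      simp only [map_one, map_mul, e1, e2, e3]
  have hs : Function.Surjective f :=
    (Nat.bijective_iff_injective_and_card f |>.2 ⟨hf, le_antisymm
      (Nat.card_le_card_of_injective f hf) ((card_indep_le hc h2).trans hρ.ge)⟩).2
  obtain ⟨⟨φ, c, rfl⟩, hφ⟩ := hs ⟨(a', b', w'), ht'⟩
  have h' := congrArg Subtype.val hφ
  simp only [f, Prod.mk.injEq] at h'
  exact ⟨c, h'⟩

end CoreLinear

open CoreLinear in
theorem quadLinear : CoreStmt.QuadLinear.{u} := by
  intro C A B _ _ _ hA hA2 hB hB2 ρ σ hρ hfix q hq1 hq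
  classical
  have two : ∀ {a b a' b' : A}, a ≠ 1 → b ≠ 1 → b ≠ a → a' ≠ 1 → b' ≠ 1 → b' ≠ a' →
      ∃ c : C, ρ c a = a' ∧ ρ c b = b' := by
    intro a b a' b' h1 h2 h3 h4 h5 h6
    obtain ⟨w, hw⟩ := exists_indep hA h1 h2 h3
    obtain ⟨w', hw'⟩ := exists_indep hA h4 h5 h6
    obtain ⟨c, e1, e2, -⟩ := exists_map hA hA2 ρ hρ hw hw'
    exact ⟨c, e1, e2⟩
  by_cases hinj : Function.Injective q
  swap
  · -- a repeated value makes the map trivial
    have hconst : ∀ a : A, q a = 1 := by
      simp only [Function.Injective, not_forall] at hinj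
      obtain ⟨x, y, hxy, hne⟩ := hinj
      obtain ⟨u, v, hu, hv, huv, hq'⟩ :
          ∃ u v : A, u ≠ 1 ∧ v ≠ 1 ∧ v ≠ u ∧ q u = q v := by
        by_cases hx : x = 1
        · subst hx
          rw [hq1] at hxy
          obtain ⟨w, hy, hw⟩ : ∃ w : A, y ≠ 1 ∧ w ≠ 1 ∧ w ≠ y := by
            haveI : Finite A := Nat.finite_of_card_ne_zero (by rw [hA]; norm_num)
            letI := Fintype.ofFinite A
            have h : ({1, y} : Finset A).card < (Finset.univ : Finset A).card := by
              refine lt_of_le_of_lt Finset.card_le_two ?_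
              rw [Finset.card_univ, ← Nat.card_eq_fintype_card, hA]
              norm_num
            obtain ⟨w, -, hw⟩ := Finset.exists_mem_notMem_of_card_lt_card h
            simp only [Finset.mem_insert, Finset.mem_singleton, not_or] at hw
            exact ⟨w, Ne.symm hne, hw⟩
          obtain ⟨c, hc, -⟩ := two hy hw.1 hw.2 hw.1 hy (Ne.symm hw.2)
          refine ⟨y, w, hy, hw.1, hw.2, ?_⟩
          rw [← hc, hq, ← hxy, map_one]
        · by_cases hy : y = 1
          · subst hy
            rw [hq1] at hxy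
            obtain ⟨w, hw⟩ : ∃ w : A, w ≠ 1 ∧ w ≠ x := by
              haveI : Finite A := Nat.finite_of_card_ne_zero (by rw [hA]; norm_num)
              letI := Fintype.ofFinite A
              have h : ({1, x} : Finset A).card < (Finset.univ : Finset A).card := by
                refine lt_of_le_of_lt Finset.card_le_two ?_
                rw [Finset.card_univ, ← Nat.card_eq_fintype_card, hA]
                norm_num
              obtain ⟨w, -, hw⟩ := Finset.exists_mem_notMem_of_card_lt_card h
              simp only [Finset.mem_insert, Finset.mem_singleton, not_or] at hw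
              exact ⟨w, hw⟩
            obtain ⟨c, hc, -⟩ := two hx hw.1 hw.2 hw.1 hx (Ne.symm hw.2)
            refine ⟨x, w, hx, hw.1, hw.2, ?_⟩
            rw [← hc, hq, hxy, map_one]
          · exact ⟨x, y, hx, hy, Ne.symm hne, hxy⟩
      have hall : ∀ a : A, a ≠ 1 → q a = q u := by
        intro a ha
        by_cases hau : a = u
        · rw [hau]
        obtain ⟨c, e1, e2⟩ := two hu hv huv hu ha hau
        rw [← e2, hq, ← hq', ← hq, e1]
      intro a
      by_cases ha : a = 1
      · rw [ha, hq1]
      rw [hall a ha]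
      refine hfix _ fun c => ?_
      rw [← hq]
      exact hall _ fun h => hu ((ρ c).injective (h.trans (map_one _).symm))
    intro a a'
    rw [hconst, hconst, hconst, one_mul]
  haveI : Finite A := Nat.finite_of_card_ne_zero (by rw [hA]; norm_num)
  haveI : Finite B := Nat.finite_of_card_ne_zero (by rw [hB]; norm_num)
  have hbij : Function.Bijective q :=
    (Nat.bijective_iff_injective_and_card q).2 ⟨hinj, by omega⟩
  intro a b
  by_cases ha : a = 1
  · rw [ha, one_mul, hq1, one_mul]
  by_cases hb : b = 1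
  · rw [hb, mul_one, hq1, mul_one]
  by_cases hab : b = a
  · rw [hab, hA2, hq1, hB2]
  have hp : a * b ≠ 1 := mul_ne hA2 (Ne.symm hab)
  have hpa : a * b ≠ a := fun e => hb (mul_eq_left.1 e)
  have hpb : a * b ≠ b := fun e => ha (mul_eq_right.1 e)
  obtain ⟨x, hx⟩ := hbij.2 (q a * q b * q (a * b))
  suffices hx1 : x = 1 by
    rw [hx1, hq1] at hx
    have := congrArg (· * q (a * b)) hx
    simpa [mul_assoc, hB2] using this
  by_contra hx1
  have fix : ∀ c : C, σ c (q a * q b * q (a * b)) = q a * q b * q (a * b) → ρ c x = x :=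
    fun c hc => hinj (by rw [hq, hx, hc])
  have img : ∀ c : C, σ c (q a * q b * q (a * b)) =
      q (ρ c a) * q (ρ c b) * q (ρ c a * ρ c b) := fun c => by
    rw [← map_mul (ρ c), hq, hq, hq, map_mul, map_mul]
  obtain ⟨w, hw⟩ := exists_indep hA ha hb hab
  by_cases hxa : x = a
  · obtain ⟨c, e1, e2⟩ := two ha hb hab hb ha (Ne.symm hab)
    refine hab ?_
    have := fix c (by rw [img, e1, e2, mul_comm b a, mul_comm (q b) (q a)])
    rw [hxa, e1] at this
    exact this
  by_cases hxb : x = b
  · obtain ⟨c, e1, e2⟩ := two ha hb hab hb ha (Ne.symm hab)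
    refine hab ?_
    have := fix c (by rw [img, e1, e2, mul_comm b a, mul_comm (q b) (q a)])
    rw [hxb, e2] at this
    exact this.symm
  by_cases hxp : x = a * b
  · obtain ⟨c, e1, e2⟩ := two ha hb hab ha hp hpa
    refine hpb ?_
    have := fix c (by
      rw [img, e1, e2, ← mul_assoc a a b, hA2, one_mul, mul_right_comm])
    rw [hxp, map_mul, e1, e2, ← mul_assoc a a b, hA2, one_mul] at this
    exact this.symm
  have ht : Indep (a, b, x) := ⟨ha, hb, hab, hx1, hxa, hxb, hxp⟩
  have ht' : Indep (a, b, a * x) := by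
    refine ⟨ha, hb, hab, mul_ne hA2 (Ne.symm hxa), fun e => hx1 (mul_eq_left.1 e),
      fun e => hxp ?_, fun e => hxb (mul_left_cancel e)⟩
    have := congrArg (a * ·) e
    simpa [← mul_assoc, hA2] using this
  obtain ⟨c, e1, e2, e3⟩ := exists_map hA hA2 ρ hρ ht ht'
  have := fix c (by rw [img, e1, e2])
  rw [e3] at this
  exact ha (mul_eq_right.1 this)

end CfsgLib.M24Count
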