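import Cfsg.Agent.M24Count.CoreExt

/-!
Orbits of the centraliser of `t` on the extraspecial two-core and the two bilinear functions on it.
-/

set_option autoImplicit false
set_option linter.style.haveILetI false

namespace CfsgLib.M24Count

universe u

variable {G : Type u} [Group G]

/-- An elementary abelian normal subgroup of order 16, transitive outside `⟨t⟩`. -/
structure Sided (t : G) (Q U : Subgroup G) : Prop where
  card : Nat.card U = 16
  le : U ≤ Q
  mem : t ∈ U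
  comm : ∀ a ∈ U, ∀ b ∈ U, a * b = b * a
  sq : ∀ a ∈ U, a * a = 1
  normal : ∀ g : G, Commute g t → ∀ a ∈ U, g * a * g⁻¹ ∈ U
  orb_eq : ∀ a ∈ U, a ∉ Subgroup.zpowers t →
    orb t a = {w | w ∈ U ∧ w ∉ Subgroup.zpowers t}

/-- `0` at the identity, `1` elsewhere. -/
noncomputable def eps (e : G) : ZMod 2 := by classical exact if e = 1 then 0 else 1

/-- The commutator as a function with values in `ZMod 2`. -/
noncomputable def cf (x y : G) : ZMod 2 := eps (x * y * x⁻¹ * y⁻¹)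

/-- The square as a function with values in `ZMod 2`. -/
noncomputable def qf (x : G) : ZMod 2 := eps (x * x)

theorem eps_mul {t a b : G} (ht : t * t = 1) (ht1 : t ≠ 1) (ha : a ∈ Subgroup.zpowers t)
    (hb : b ∈ Subgroup.zpowers t) : eps (a * b) = eps a + eps b := by
  rcases (mem_zp ht).1 ha with e | e <;> rcases (mem_zp ht).1 hb with e' | e' <;> subst e <;>
    subst e' <;> simp [eps, ht, ht1] <;> decide

theorem cf_eq_zero {x y : G} : cf x y = 0 ↔ x * y = y * x := by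
  rw [cf, eps]
  constructor
  · intro h
    split_ifs at h with hc
    · rwa [mul_inv_eq_one, mul_inv_eq_iff_eq_mul] at hc
    · exact absurd h (by decide)
  · intro h
    rw [if_pos (by rw [h, mul_inv_cancel_right, mul_inv_cancel])]

theorem qf_eq_zero {x : G} : qf x = 0 ↔ x * x = 1 := by
  rw [qf, eps]
  constructor
  · intro h
    split_ifs at h with hc
    · exact hc
    · exact absurd h (by decide)
  · intro h
    rw [if_pos h]

theorem cf_conj (g x y : G) : cf (g * x * g⁻¹) (g * y * g⁻¹) = cf x y := by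
  classical
  rw [cf, cf, eps, eps, show g * x * g⁻¹ * (g * y * g⁻¹) * (g * x * g⁻¹)⁻¹ * (g * y * g⁻¹)⁻¹ =
    g * (x * y * x⁻¹ * y⁻¹) * g⁻¹ by group]
  exact if_congr conj_eq_one_iff rfl rfl

/-- An element of `C(t)` squaring `f` by conjugation. -/
theorem Setup.exists_square [Finite G] (h : Setup G) {t f : G} (ht : IsA t) (hf : orderOf f = 7)
    (hft : Commute f t) : ∃ y : G, Commute y t ∧ y * f * y⁻¹ = f ^ 2 := by
  classical
  haveI : Fact (Nat.Prime 2) := ⟨by norm_num⟩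
  set N := Subgroup.normalizer (Subgroup.zpowers f : Set G) with hN
  set Cf := Subgroup.centralizer ({f} : Set G) with hCf
  have hexp : ∀ g ∈ N, ∃ i : ℕ, g * f * g⁻¹ = f ^ i := by
    intro g hg
    have h1 := (Subgroup.mem_normalizer_iff.1 hg f).1 (Subgroup.mem_zpowers f)
    obtain ⟨i, hi⟩ := (isOfFinOrder_of_finite f).mem_powers_iff_mem_zpowers.2 h1
    exact ⟨i, hi.symm⟩
  have hle : Cf ≤ N := fun g hg => Subgroup.mem_normalizer_iff.2 fun a => by
    have hc : ∀ k : ℤ, g * f ^ k * g⁻¹ = f ^ k := fun k => by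
      rw [((mem_cen.1 hg).zpow_right k).eq, mul_inv_cancel_right]
    constructor
    · intro ha
      obtain ⟨k, rfl⟩ := Subgroup.mem_zpowers_iff.1 ha
      exact ⟨k, (hc k).symm⟩
    · intro ha
      obtain ⟨k, hk⟩ := Subgroup.mem_zpowers_iff.1 ha
      refine ⟨k, ?_⟩
      rw [← hc k] at hk
      exact mul_left_cancel (mul_right_cancel hk)
  haveI hnorm : (Cf.subgroupOf N).Normal := by
    refine ⟨fun c hc g => ?_⟩
    rw [Subgroup.mem_subgroupOf] at hc ⊢
    push_cast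
    obtain ⟨i, hi⟩ := hexp (g⁻¹ : G) (inv_mem g.2)
    rw [inv_inv] at hi
    have h1 : (c : G) * ((g : G)⁻¹ * f * g) * (c : G)⁻¹ = (g : G)⁻¹ * f * g := by
      rw [hi, ((mem_cen.1 hc).pow_right i).eq, mul_inv_cancel_right]
    refine mem_cen.2 ((mul_inv_eq_iff_eq_mul).1 ?_)
    calc (g : G) * c * (g : G)⁻¹ * f * ((g : G) * c * (g : G)⁻¹)⁻¹
        = (g : G) * ((c : G) * ((g : G)⁻¹ * f * g) * (c : G)⁻¹) * (g : G)⁻¹ := by group
      _ = f := by rw [h1]; group
  have hidx : (Cf.subgroupOf N).index = 3 := by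
    have h1 := (Cf.subgroupOf N).card_mul_index
    rw [Nat.card_congr (Subgroup.subgroupOfEquivOfLe hle).toEquiv, h.cent_seven f hf,
      h.norm_seven f hf] at h1
    omega
  obtain ⟨g, hg, hgC⟩ : ∃ g ∈ N, g ∉ Cf := by
    by_contra hne
    push Not at hne
    have := Subgroup.card_le_of_le (show N ≤ Cf from hne)
    rw [h.norm_seven f hf, h.cent_seven f hf] at this
    omega
  -- two involutions commuting with `f` are conjugate in its centraliser
  have hcj : ∀ s : G, orderOf s = 2 → Commute s f → ∃ c ∈ Cf, c * s * c⁻¹ = t := by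
    intro s hs hsf
    have hsyl : ∀ (r : G) (hr : Commute r f), orderOf r = 2 →
        Nat.card (Subgroup.zpowers (⟨r, mem_cen.2 hr⟩ : ↥Cf)) =
          2 ^ (Nat.card ↥Cf).factorization 2 := by
      intro r hr h2
      rw [Nat.card_zpowers, ← Subgroup.orderOf_coe, h.cent_seven f hf,
        show (42 : ℕ) = 2 ^ 1 * 21 from rfl, Nat.factorization_mul (by norm_num) (by norm_num),
        Finsupp.add_apply, Nat.factorization_pow_self Nat.prime_two,
        Nat.factorization_eq_zero_of_not_dvd (by norm_num : ¬ 2 ∣ 21)]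
      exact h2
    obtain ⟨c, hc⟩ := MulAction.exists_smul_eq ↥Cf (Sylow.ofCard _ (hsyl s hsf hs))
      (Sylow.ofCard _ (hsyl t hft.symm ht.1))
    refine ⟨c, c.2, ?_⟩
    have h2 : c * (⟨s, mem_cen.2 hsf⟩ : ↥Cf) * c⁻¹ ∈
        Subgroup.zpowers (⟨t, mem_cen.2 hft.symm⟩ : ↥Cf) := by
      have := congrArg (fun P : Sylow 2 ↥Cf => (P : Subgroup ↥Cf)) hc
      simp only [Sylow.coe_subgroup_smul, Sylow.coe_ofCard] at this
      rw [← this]
      exact ⟨_, Subgroup.mem_zpowers _, rfl⟩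
    obtain ⟨k, hk⟩ := Subgroup.mem_zpowers_iff.1 h2
    have hk' : (c : G) * s * (c : G)⁻¹ ∈ Subgroup.zpowers t :=
      ⟨k, by simpa using congrArg Subtype.val hk⟩
    rcases (mem_zp ht.mul_self).1 hk' with e | e
    · exfalso
      have : s = 1 := conj_eq_one_iff.1 e
      rw [this, orderOf_one] at hs
      norm_num at hs
    · exact e
  obtain ⟨i, hi⟩ := hexp g hg
  have hgt : Commute (g * t * g⁻¹) f := by
    obtain ⟨j, hj⟩ := hexp g⁻¹ (inv_mem hg)
    rw [inv_inv] at hj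
    have h1 : Commute t (g⁻¹ * f * g) := by rw [hj]; exact hft.symm.pow_right j
    have h2 := h1.map (MulAut.conj g).toMonoidHom
    rwa [show (MulAut.conj g).toMonoidHom (g⁻¹ * f * g) = g * (g⁻¹ * f * g) * g⁻¹ from rfl,
      show g * (g⁻¹ * f * g) * g⁻¹ = f by group] at h2
  obtain ⟨c, hc, hct⟩ := hcj (g * t * g⁻¹)
    (by rw [show g * t * g⁻¹ = MulAut.conj g t from rfl, MulEquiv.orderOf_eq, ht.1]) hgt
  set y := c * g with hy
  have hyt : Commute y t := by
    refine mul_inv_eq_iff_eq_mul.1 ?_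
    rw [hy, show c * g * t * (c * g)⁻¹ = c * (g * t * g⁻¹) * c⁻¹ by group, hct]
  have hyi : y * f * y⁻¹ = f ^ i := by
    rw [hy, show c * g * f * (c * g)⁻¹ = c * (g * f * g⁻¹) * c⁻¹ by group, hi,
      ((mem_cen.1 hc).pow_right i).eq, mul_inv_cancel_right]
  have hi1 : i % 7 ≠ 1 := fun e => hgC (mem_cen.2 (mul_inv_eq_iff_eq_mul.1 (by
    rw [hi, ← pow_mod_orderOf, hf, e, pow_one])))
  have hy3 : Commute (y ^ 3) f := by
    have h1 := Subgroup.pow_index_mem (Cf.subgroupOf N) ⟨y, mul_mem (hle hc) hg⟩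
    rw [hidx, Subgroup.mem_subgroupOf] at h1
    exact mem_cen.1 h1
  have hpw : ∀ k : ℕ, y * f ^ k * y⁻¹ = f ^ (i * k) := fun k => by
    rw [← conj_pow, hyi, ← pow_mul]
  have h3 : f ^ (i * (i * i)) = f := by
    have e : y * (y * (y * f * y⁻¹) * y⁻¹) * y⁻¹ = f := by
      rw [show y * (y * (y * f * y⁻¹) * y⁻¹) * y⁻¹ = y ^ 3 * f * (y ^ 3)⁻¹ by
        simp only [pow_succ, pow_zero, one_mul]; group]
      rw [hy3.eq, mul_inv_cancel_right]
    rwa [hyi, hpw, hpw] at e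
  have h31 : i * (i * i) % 7 = 1 % 7 := by
    have := (pow_inj_mod (x := f) (n := i * (i * i)) (m := 1)).1 (by rw [h3, pow_one])
    rwa [hf] at this
  have hcases : i % 7 = 2 ∨ i % 7 = 4 := by
    have : i % 7 < 7 := Nat.mod_lt _ (by norm_num)
    rw [Nat.mul_mod, Nat.mul_mod i i, ] at h31
    interval_cases e : i % 7 <;> simp_all
  rcases hcases with e | e
  · exact ⟨y, hyt, by rw [hyi, ← pow_mod_orderOf, hf, e]⟩
  · refine ⟨y⁻¹, hyt.inv_left, ?_⟩
    have e2 : y * f ^ 2 * y⁻¹ = f := by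
      rw [hpw, ← pow_mod_orderOf, hf, Nat.mul_mod, e, pow_one]
    calc y⁻¹ * f * y⁻¹⁻¹ = y⁻¹ * (y * f ^ 2 * y⁻¹) * y⁻¹⁻¹ := by rw [e2]
      _ = f ^ 2 := by group

namespace ExtCore

variable {t : G} {Q : Subgroup G} (K : ExtCore t Q) (ht : IsA t)
include K ht

omit ht in
theorem orb_sub {x : G} (hx : x ∈ Q) {w : G} (hw : w ∈ orb t x) : w ∈ Q := by
  obtain ⟨g, hg, rfl⟩ := hw
  exact K.normal g hg x hx

theorem orb_not_zp {x : G} (hxz : x ∉ Subgroup.zpowers t) {w : G} (hw : w ∈ orb t x) :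
    w ∉ Subgroup.zpowers t := by
  obtain ⟨g, hg, rfl⟩ := hw
  intro h
  refine hxz ?_
  have := conj_mem_zp ht.mul_self hg.inv_left h
  rw [show g⁻¹ * (g * x * g⁻¹) * g⁻¹⁻¹ = x by group] at this
  exact this ▸ h

theorem conj_or {x q : G} (hx : x ∈ Q) (hq : q ∈ Q) : q * x * q⁻¹ = x ∨ q * x * q⁻¹ = x * t := by
  have h1 := K.comm q hq x hx
  rcases (mem_zp ht.mul_self).1 h1 with e | e
  · exact Or.inl (mul_inv_eq_one.1 e)
  · right
    rw [(K.toTwoCore.commute_t hx).eq, ← mul_inv_eq_iff_eq_mul]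
    exact e

theorem exists_swap {x : G} (hx : x ∈ Q) (hxz : x ∉ Subgroup.zpowers t) :
    ∃ q ∈ Q, q * x * q⁻¹ = x * t := by
  by_contra hne
  push Not at hne
  exact hxz (K.centre x hx fun y hy =>
    (mul_inv_eq_iff_eq_mul.1 ((K.conj_or ht hx hy).resolve_right (hne y hy))).symm)

theorem mul_t_mem_orb {x : G} (hx : x ∈ Q) (hxz : x ∉ Subgroup.zpowers t) : x * t ∈ orb t x := by
  obtain ⟨q, hq, e⟩ := K.exists_swap ht hx hxz
  exact ⟨q, K.toTwoCore.commute_t hq, e⟩

variable [Finite G]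

theorem card_cen {x : G} (hx : x ∈ Q) (hxz : x ∉ Subgroup.zpowers t) :
    Nat.card ↥(Q ⊓ Subgroup.centralizer ({x} : Set G)) = 64 := by
  classical
  have h := M23Count.CoreLocal.conj_orbit_card Q x
  have e : {w : G | ∃ a ∈ Q, a * x * a⁻¹ = w} = {x, x * t} := by
    ext w
    simp only [Set.mem_setOf_eq, Set.mem_insert_iff, Set.mem_singleton_iff]
    constructor
    · rintro ⟨a, ha, rfl⟩; exact K.conj_or ht hx ha
    · rintro (e | e) <;> subst e
      · exact ⟨1, one_mem _, by group⟩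
      · exact K.exists_swap ht hx hxz
  have h2 : Nat.card {w : G // ∃ a ∈ Q, a * x * a⁻¹ = w} = 2 := by
    show Nat.card ↥{w : G | ∃ a ∈ Q, a * x * a⁻¹ = w} = 2
    rw [e, Nat.card_coe_set_eq, Set.ncard_pair]
    intro h'
    exact ht.ne_one (left_eq_mul.1 h')
  rw [h2, K.card] at h
  omega

theorem orb_dvd (h : Setup G) {x : G} (hx : x ∈ Q) (hxz : x ∉ Subgroup.zpowers t) :
    14 ∣ Nat.card ↥(orb t x) ∧ Nat.card ↥(orb t x) ∣ 336 := by
  classical
  haveI : Fact (Nat.Prime 7) := ⟨by norm_num⟩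
  haveI : Fact (Nat.Prime 2) := ⟨by norm_num⟩
  set m := Nat.card ↥(Subgroup.centralizer ({t} : Set G) ⊓ Subgroup.centralizer ({x} : Set G))
    with hm
  have hmul := orb_card_mul t x
  rw [h.cent_isA t ht, ← hm] at hmul
  have h7 : ¬ 7 ∣ m := by
    intro hd
    obtain ⟨g, hg⟩ := exists_prime_orderOf_dvd_card' (G := ↥(Subgroup.centralizer ({t} : Set G) ⊓
      Subgroup.centralizer ({x} : Set G))) 7 hd
    rw [← Subgroup.orderOf_coe] at hg
    exact hxz (K.seven _ hg (mem_cen.1 g.2.1) x hx (mem_cen.1 g.2.2).symm)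
  have h64 : 64 ∣ m := by
    rw [← K.card_cen ht hx hxz]
    exact Subgroup.card_dvd_of_le (inf_le_inf_right _ K.le)
  have h2 : 2 ∣ Nat.card ↥(orb t x) := by
    by_contra hodd
    let σ : Equiv.Perm ↥(orb t x) := Function.Involutive.toPerm
      (fun w => ⟨(w : G) * t, by
        have e := K.mul_t_mem_orb ht (K.orb_sub hx w.2) (K.orb_not_zp ht hxz w.2)
        rwa [mem_orb_symm w.2] at e⟩)
      (fun w => Subtype.ext (by show (w : G) * t * t = w; rw [mul_assoc, ht.mul_self, mul_one]))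
    haveI := Fintype.ofFinite ↥(orb t x)
    obtain ⟨w, hw⟩ := Equiv.Perm.exists_fixed_point_of_prime (p := 2) (n := 1)
      (by rwa [← Nat.card_eq_fintype_card]) (σ := σ) (Equiv.ext fun w => Subtype.ext (by
        rw [pow_one, pow_two]
        show (w : G) * t * t = w
        rw [mul_assoc, ht.mul_self, mul_one]))
    have h' : (w : G) * t = w := congrArg Subtype.val hw
    exact ht.ne_one (mul_eq_left.1 h')
  constructor
  · have h7' : 7 ∣ Nat.card ↥(orb t x) := by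
      have h7d : 7 ∣ m * Nat.card ↥(orb t x) := by rw [hmul]; norm_num
      exact ((Nat.Prime.dvd_mul (by norm_num)).1 h7d).resolve_left h7
    exact Nat.Coprime.mul_dvd_of_dvd_of_dvd (by norm_num : Nat.Coprime 2 7) h2 h7'
  · obtain ⟨k, hk⟩ := h64
    refine ⟨k, ?_⟩
    rw [hk, mul_assoc] at hmul
    have h336 : k * Nat.card ↥(orb t x) = 336 := by omega
    rw [← h336, mul_comm]

theorem sided (hCI : CoreStmt.CenterIndex G) {f : G} (hf : orderOf f = 7) (hft : Commute f t)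
    {U : Subgroup G} (hU : U ≤ Q) (htU : t ∈ U)
    (hUn : ∀ g : G, Commute g t → ∀ a ∈ U, g * a * g⁻¹ ∈ U) (h16 : Nat.card U = 16) :
    Sided t Q U := by
  obtain ⟨hc, hs⟩ := K.toTwoCore.elementary hCI ht hf hft hU htU (hUn f hft) h16
  refine ⟨h16, hU, htU, hc, hs, hUn, fun a ha haz => Set.ext fun w => ⟨?_, ?_⟩⟩
  · intro hw
    refine ⟨?_, K.orb_not_zp ht haz hw⟩
    obtain ⟨g, hg, rfl⟩ := hw
    exact hUn g hg a ha
  · rintro ⟨hw, hwz⟩
    obtain ⟨i, hi⟩ := K.toTwoCore.trans_seven ht hf hft hU (Subgroup.zpowers_le.2 htU)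
      (Subgroup.mem_zpowers t) (hUn f hft)
      (fun e he => by rw [conj_mem_zp ht.mul_self hft he]; exact he)
      (by rw [h16, Nat.card_zpowers, ht.1]) ha haz hw hwz
    have horb : f ^ i * a * (f ^ i)⁻¹ ∈ orb t a := ⟨f ^ i, hft.pow_left i, rfl⟩
    rcases (mem_zp ht.mul_self).1 hi with e | e
    · rw [← inv_mul_eq_one.1 e]; exact horb
    · rw [inv_mul_eq_iff_eq_mul.1 e, ← mem_orb_symm horb]
      exact K.mul_t_mem_orb ht (K.orb_sub (hU ha) horb) (K.orb_not_zp ht haz horb)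

theorem cf_mul_left {x y z : G} (hx : x ∈ Q) (hy : y ∈ Q) (hz : z ∈ Q) :
    cf (x * y) z = cf x z + cf y z := by
  have h1 := K.comm y hy z hz
  have h2 := K.comm x hx z hz
  rw [cf, cf, cf, ← eps_mul ht.mul_self ht.ne_one h2 h1]
  congr 1
  calc x * y * z * (x * y)⁻¹ * z⁻¹
      = (x * (y * z * y⁻¹ * z⁻¹) * x⁻¹) * (x * z * x⁻¹ * z⁻¹) := by group
    _ = (y * z * y⁻¹ * z⁻¹) * (x * z * x⁻¹ * z⁻¹) := by
        rw [conj_mem_zp ht.mul_self (K.toTwoCore.commute_t hx) h1]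
    _ = _ := by
        obtain ⟨i, hi⟩ := Subgroup.mem_zpowers_iff.1 h1
        obtain ⟨j, hj⟩ := Subgroup.mem_zpowers_iff.1 h2
        rw [← hi, ← hj, ← zpow_add, ← zpow_add, add_comm]

theorem cf_symm {x y : G} (hx : x ∈ Q) (hy : y ∈ Q) : cf x y = cf y x := by
  have h1 := K.comm x hx y hy
  rcases (mem_zp ht.mul_self).1 h1 with e | e <;>
    rw [cf, cf, e, show y * x * y⁻¹ * x⁻¹ = (x * y * x⁻¹ * y⁻¹)⁻¹ by group, e]
  · rw [inv_one]
  · rw [inv_eq_of_mul_eq_one_right ht.mul_self]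

theorem cf_mul_right {x y z : G} (hx : x ∈ Q) (hy : y ∈ Q) (hz : z ∈ Q) :
    cf z (x * y) = cf z x + cf z y := by
  rw [K.cf_symm ht hz (mul_mem hx hy), K.cf_mul_left ht hx hy hz, K.cf_symm ht hx hz,
    K.cf_symm ht hy hz]

theorem cf_zp {e x : G} (he : e ∈ Subgroup.zpowers t) (hx : x ∈ Q) : cf e x = 0 := by
  rw [cf_eq_zero, ← mul_inv_eq_iff_eq_mul.1 (conj_mem_zp ht.mul_self (K.toTwoCore.commute_t hx) he)]

theorem qf_mul {x y : G} (hx : x ∈ Q) (hy : y ∈ Q) : qf (x * y) = qf x + qf y + cf x y := by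
  have h1 := K.sq x hx
  have h2 := K.sq y hy
  have h3 := K.comm x hx y hy
  rw [qf, qf, qf, cf, ← eps_mul ht.mul_self ht.ne_one h1 h2,
    ← eps_mul ht.mul_self ht.ne_one (mul_mem h1 h2) h3]
  congr 1
  have hyx : y * (x * x) * y⁻¹ = x * x := conj_mem_zp ht.mul_self (K.toTwoCore.commute_t hy) h1
  calc x * y * (x * y) = (x * y * x⁻¹ * y⁻¹) * (y * (x * x) * y⁻¹) * (y * y) := by group
    _ = (x * y * x⁻¹ * y⁻¹) * (x * x * (y * y)) := by rw [hyx, mul_assoc]
    _ = _ := by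
        obtain ⟨i, hi⟩ := Subgroup.mem_zpowers_iff.1 h3
        obtain ⟨j, hj⟩ := Subgroup.mem_zpowers_iff.1 (mul_mem h1 h2)
        rw [← hi, ← hj, ← zpow_add, ← zpow_add, add_comm]

/-- Seventy involutions lie in the two-core besides `t`. -/
theorem card_invol (hG : CoreStmt.GaussSum G) :
    Nat.card {x : G // x ∈ Q ∧ x ∉ Subgroup.zpowers t ∧ x * x = 1} = 70 := by
  classical
  obtain ⟨f, hf, hft⟩ := ht.2
  have h := hG t Q ht.mul_self ht.ne_one K.mem (fun x hx => (K.toTwoCore.commute_t hx).eq) K.comm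
    K.sq K.centre
  rw [K.card] at h
  set n := Nat.card {x : G // x ∈ Q ∧ x * x = 1} with hn
  have hz : ∀ x ∈ Subgroup.zpowers t, x ∈ Q ∧ x * x = 1 := fun x hx => by
    rcases (mem_zp ht.mul_self).1 hx with e | e <;> subst e
    · exact ⟨one_mem _, one_mul 1⟩
    · exact ⟨K.mem, ht.mul_self⟩
  have h7 := K.toTwoCore.modSeven ht hf hft (fun x => x ∈ Q ∧ x * x = 1)
    (fun x hx => ⟨K.normal f hft x hx.1, by
      rw [show f * x * f⁻¹ * (f * x * f⁻¹) = f * (x * x) * f⁻¹ by group, hx.2, mul_one,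
        mul_inv_cancel]⟩) (fun x hx => hx.1)
  have h2 : Nat.card {x : G // (x ∈ Q ∧ x * x = 1) ∧ x ∈ Subgroup.zpowers t} = 2 := by
    rw [Nat.card_congr (Equiv.subtypeEquivRight (q := fun x => x ∈ Subgroup.zpowers t)
      fun x => ⟨fun h => h.2, fun h => ⟨hz x h, h⟩⟩)]
    exact (Nat.card_zpowers t).trans ht.1
  rw [h2, ← hn] at h7
  have hn72 : n = 72 := by
    have hle : n ≤ 128 := by
      rw [hn, ← K.card]
      exact Nat.card_le_card_of_injective (fun x => (⟨x.1, x.2.1⟩ : ↥Q))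
        (fun a b e => Subtype.ext (congrArg (fun z : ↥Q => (z : G)) e))
    have h' : (2 * (n : ℤ) - 128 - 16) * (2 * (n : ℤ) - 128 + 16) = 0 := by
      push_cast at h; linarith
    rcases mul_eq_zero.1 h' with e | e
    · omega
    · exfalso
      have : n = 56 := by omega
      rw [this] at h7
      exact absurd h7 (by decide)
  have hs := Nat.card_congr (Equiv.sumCompl fun x : {x : G // x ∈ Q ∧ x * x = 1} =>
    (x : G) ∈ Subgroup.zpowers t)
  rw [Nat.card_sum, Nat.card_congr (Equiv.subtypeSubtypeEquivSubtypeInter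
    (fun x => x ∈ Q ∧ x * x = 1) (fun x => x ∈ Subgroup.zpowers t)), h2,
    Nat.card_congr (Equiv.subtypeSubtypeEquivSubtypeInter
      (fun x => x ∈ Q ∧ x * x = 1) (fun x => x ∉ Subgroup.zpowers t)), ← hn, hn72] at hs
  rw [Nat.card_congr (Equiv.subtypeEquivRight (q := fun x => (x ∈ Q ∧ x * x = 1) ∧
    x ∉ Subgroup.zpowers t) fun x => ⟨fun h => ⟨⟨h.1, h.2.2⟩, h.2.1⟩, fun h => ⟨h.1.1, h.2, h.1.2⟩⟩)]
  omega

end ExtCore

end CfsgLib.M24Count
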