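import Cfsg.Agent.M24Count.CoreIface
import Cfsg.Agent.Simple168.Four

/-!
In a simple group of order 168 of permutations of seven points, a subgroup of order 8 fixing a set
of three points is contained in the stabiliser of order 24 of that set.
-/

set_option autoImplicit false

namespace CfsgLib.M24Count

universe u

/-- The permutations preserving a finite set of points. -/
def setStab (T : Finset (Fin 7)) : Subgroup (Equiv.Perm (Fin 7)) where
  carrier := {p | ∀ x, p x ∈ T ↔ x ∈ T}
  one_mem' x := Iff.rfl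
  mul_mem' {p q} hp hq x := (hp (q x)).trans (hq x)
  inv_mem' {p} hp x := by
    have := hp (p⁻¹ x)
    rw [Equiv.Perm.coe_inv, Equiv.apply_symm_apply] at this
    exact this.symm

theorem image_eq_iff_mem_setStab {T : Finset (Fin 7)} {p : Equiv.Perm (Fin 7)} :
    T.image p = T ↔ p ∈ setStab T := by
  constructor
  · intro hp x
    conv_lhs => rw [← hp]
    simp
  · intro hp
    refine Finset.eq_of_subset_of_card_le ?_ ?_
    · intro y hy
      obtain ⟨x, hx, rfl⟩ := Finset.mem_image.1 hy
      exact (hp x).2 hx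
    · rw [Finset.card_image_of_injective _ p.injective]

/-- An even 2-element on four points is trivial or a product of two transpositions, and there are
four of them. -/
theorem even_two_four : (∀ q : Equiv.Perm (Fin 4), Equiv.Perm.sign q = 1 → q ^ 8 = 1 →
      q * q = 1 ∧ (q ≠ 1 → ∀ i, q i ≠ i)) ∧
    (Finset.univ.filter fun q : Equiv.Perm (Fin 4) => Equiv.Perm.sign q = 1 ∧ q ^ 8 = 1).card = 4 := by
  decide +kernel

/-- The main step, inside the permutation group itself. -/
theorem card_setStab_inf (X : Subgroup (Equiv.Perm (Fin 7))) (hX : Nat.card X = 168)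
    (hs : IsSimpleGroup X) (T : Finset (Fin 7)) (hT : T.card = 3)
    (A : Subgroup (Equiv.Perm (Fin 7))) (hAX : A ≤ X) (hA : 8 ∣ Nat.card A) (hAT : A ≤ setStab T) :
    24 ≤ Nat.card ↥(setStab T ⊓ X) := by
  classical
  have heven : ∀ p ∈ X, Equiv.Perm.sign p = 1 := by
    intro p hp
    rcases (inferInstance : (Equiv.Perm.sign.comp X.subtype).ker.Normal).eq_bot_or_eq_top with h | h
    · have := Nat.card_le_card_of_injective _ ((MonoidHom.ker_eq_bot_iff _).1 h)
      rw [hX, Nat.card_eq_fintype_card, Fintype.card_units_int] at this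
      omega
    · have : (⟨p, hp⟩ : X) ∈ (Equiv.Perm.sign.comp X.subtype).ker := h ▸ Subgroup.mem_top _
      exact this
  have : Fact (Nat.Prime 2) := ⟨Nat.prime_two⟩
  obtain ⟨P, hP⟩ := Sylow.exists_subgroup_card_pow_prime (G := A) 2 (n := 3) (by simpa using hA)
  have hcP : Nat.card P = 8 := by rw [hP]; norm_num
  have hmem : ∀ p : P, ∀ x, ((p : A) : Equiv.Perm (Fin 7)) x ∈ T ↔ x ∈ T := fun p => hAT (p : A).2
  let ψ : P →* Equiv.Perm {x // x ∈ T} :=
    { toFun := fun p => ((p : A) : Equiv.Perm (Fin 7)).subtypePerm (hmem p)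
      map_one' := by ext x; simp
      map_mul' := fun p q => Equiv.ext fun x => Subtype.ext rfl }
  have hψ : ∀ p : P, p ∈ ψ.ker → ∀ x ∈ T, ((p : A) : Equiv.Perm (Fin 7)) x = x := by
    intro p hp x hx
    exact congrArg Subtype.val (DFunLike.congr_fun (MonoidHom.mem_ker.1 hp) ⟨x, hx⟩)
  have hcK4 : 4 ≤ Nat.card ψ.ker := by
    have h1 := Subgroup.card_mul_index ψ.ker
    rw [Subgroup.index_ker, hcP] at h1
    have h2 := Subgroup.card_subgroup_dvd_card ψ.range
    rw [Nat.card_perm, Nat.card_eq_fintype_card (α := {x // x ∈ T}), Fintype.card_coe, hT] at h2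
    have h3 : Nat.card ψ.range ∣ 8 := Dvd.intro_left _ h1
    have h4 : Nat.card ψ.range ≤ 2 := Nat.le_of_dvd (by norm_num) (Nat.dvd_gcd h2 h3)
    by_contra h5
    have : Nat.card ψ.ker * Nat.card ψ.range ≤ 3 * 2 := Nat.mul_le_mul (by omega) h4
    omega
  let e : {x // x ∉ T} ≃ Fin 4 := Fintype.equivFinOfCardEq (by
    rw [Fintype.card_subtype_compl, Fintype.card_coe, hT, Fintype.card_fin])
  have hmem' : ∀ p : P, ∀ x, ((p : A) : Equiv.Perm (Fin 7)) x ∉ T ↔ x ∉ T := fun p x =>
    not_congr (hmem p x)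
  let q : ψ.ker → Equiv.Perm (Fin 4) := fun p =>
    e.permCongr ((((p : P) : A) : Equiv.Perm (Fin 7)).subtypePerm (hmem' p))
  have hqv : ∀ (p : ψ.ker) (x : Fin 7) (hx : x ∉ T),
      q p (e ⟨x, hx⟩) = e ⟨(((p : P) : A) : Equiv.Perm (Fin 7)) x, (hmem' p x).2 hx⟩ := by
    intro p x hx
    simp [q]
  have hqinj : Function.Injective q := by
    intro p p' h
    refine Subtype.ext (Subtype.ext (Subtype.ext (Equiv.ext fun x => ?_)))
    by_cases hx : x ∈ T
    · rw [hψ _ p.2 x hx, hψ _ p'.2 x hx]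
    · have := hqv p x hx
      rw [h, hqv p' x hx] at this
      exact (congrArg Subtype.val (e.injective this)).symm
  have hqone : q 1 = 1 := by
    ext i
    simp [q]
  have hqmul : ∀ p p' : ψ.ker, q (p * p') = q p * q p' := by
    intro p p'
    ext i
    simp [q]
  let qh : ψ.ker →* Equiv.Perm (Fin 4) := MonoidHom.mk' q hqmul
  have hqs : ∀ p : ψ.ker, Equiv.Perm.sign (q p) = 1 := by
    intro p
    show Equiv.Perm.sign (e.permCongr _) = 1
    rw [Equiv.Perm.sign_permCongr, Equiv.Perm.sign_subtypePerm]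
    · exact heven _ (hAX ((p : P) : A).2)
    · intro x hx hxT
      exact hx (hψ _ p.2 x hxT)
  have hq8 : ∀ p : ψ.ker, q p ^ 8 = 1 := by
    intro p
    have h8 : (p : P) ^ 8 = 1 := hcP ▸ pow_card_eq_one'
    calc q p ^ 8 = qh (p ^ 8) := (map_pow qh p 8).symm
      _ = 1 := by rw [show p ^ 8 = 1 from Subtype.ext h8, map_one]
  have hcard : Nat.card ψ.ker = 4 := by
    refine le_antisymm ?_ hcK4
    have := Nat.card_le_card_of_injective
      (fun p => (⟨q p, hqs p, hq8 p⟩ : {s : Equiv.Perm (Fin 4) // Equiv.Perm.sign s = 1 ∧ s ^ 8 = 1}))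
      (fun a b h => hqinj (congrArg Subtype.val h))
    rwa [Nat.card_eq_fintype_card (α := {s : Equiv.Perm (Fin 4) // _}), Fintype.card_subtype,
      even_two_four.2] at this
  let ι : P →* X := (Subgroup.inclusion hAX).comp P.subtype
  have hι : Function.Injective ι := (Subgroup.inclusion_injective hAX).comp Subtype.val_injective
  set U : Subgroup X := ψ.ker.map ι with hU
  have hU4 : Nat.card U = 4 := by
    rw [hU, Subgroup.card_map_of_injective hι, hcard]
  have hU2 : ∀ x ∈ U, x * x = 1 := by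
    rintro _ ⟨p, hp, rfl⟩
    have := (even_two_four.1 _ (hqs ⟨p, hp⟩) (hq8 ⟨p, hp⟩)).1
    rw [← hqmul, ← hqone] at this
    rw [← map_mul, show p * p = 1 from congrArg Subtype.val (hqinj this), map_one]
  have hN := CfsgLib.Simple168.card_normalizer_four hX (CfsgLib.Simple168.isKleinFour_intro hU4 hU2)
  have hfix : ∀ y : Fin 7, (∀ u ∈ U, (u : Equiv.Perm (Fin 7)) y = y) → y ∈ T := by
    intro y hy
    by_contra hyT
    obtain ⟨⟨p, hp⟩, hp1⟩ : ∃ p : ψ.ker, p ≠ 1 := by
      have : Nontrivial ψ.ker := Finite.one_lt_card_iff_nontrivial.1 (by omega)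
      exact exists_ne 1
    have hne : q ⟨p, hp⟩ ≠ 1 := fun h => hp1 (hqinj (h.trans hqone.symm))
    refine (even_two_four.1 _ (hqs ⟨p, hp⟩) (hq8 ⟨p, hp⟩)).2 hne (e ⟨y, hyT⟩) ?_
    rw [hqv]
    exact congrArg e (Subtype.ext (hy _ ⟨p, hp, rfl⟩))
  have hfixT : ∀ u ∈ U, ∀ x ∈ T, (u : Equiv.Perm (Fin 7)) x = x := by
    rintro _ ⟨p, hp, rfl⟩ x hx
    exact hψ p hp x hx
  have hsub : ∀ n ∈ Subgroup.normalizer (U : Set X), ∀ x ∈ T,
      (n : Equiv.Perm (Fin 7)) x ∈ T := by
    intro n hn x hx
    refine hfix _ fun u hu => ?_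
    have hu' : n⁻¹ * u * n ∈ U := (Subgroup.mem_normalizer_iff''.1 hn u).1 hu
    have := congrArg (n : Equiv.Perm (Fin 7)) (hfixT _ hu' x hx)
    simpa using this
  have hle : (Subgroup.normalizer (U : Set X)).map X.subtype ≤ setStab T ⊓ X := by
    rintro _ ⟨n, hn, rfl⟩
    refine ⟨fun x => ⟨fun h => ?_, fun h => hsub n hn x h⟩, n.2⟩
    have := hsub n⁻¹ (Subgroup.inv_mem _ hn) _ h
    simpa using this
  have := Nat.card_mono (Set.toFinite _) hle
  calc 24 = Nat.card (Subgroup.normalizer (U : Set X)) := hN.symm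
    _ = Nat.card ((Subgroup.normalizer (U : Set X)).map X.subtype) :=
      (Subgroup.card_map_of_injective X.subtype_injective).symm
    _ ≤ _ := this

/-- The stabiliser of a set of three points. -/
theorem sevenPoints : CoreStmt.SevenPoints.{u} := by
  intro C _ _ σ h168 hsimp T hT S h8 hS
  have hAT : S.map σ ≤ setStab T := by
    rintro _ ⟨g, hg, rfl⟩
    exact image_eq_iff_mem_setStab.1 (hS g hg)
  have hbound := card_setStab_inf σ.range h168 hsimp T hT (S.map σ)
    (Subgroup.map_le_range σ S) h8 hAT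
  set D := (setStab T).comap σ with hD
  have hkerle : σ.ker ≤ D := fun g hg => by
    rw [hD, Subgroup.mem_comap, MonoidHom.mem_ker.1 hg]
    exact Subgroup.one_mem _
  have hr : (σ.comp D.subtype).range = setStab T ⊓ σ.range := by
    rw [MonoidHom.range_comp, Subgroup.range_subtype, hD, Subgroup.map_comap_eq, inf_comm]
  have hk : Nat.card (σ.comp D.subtype).ker = Nat.card σ.ker :=
    Nat.card_congr (Subgroup.subgroupOfEquivOfLe hkerle).toEquiv
  have hmul := Subgroup.card_mul_index (σ.comp D.subtype).ker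
  rw [Subgroup.index_ker, hr, hk] at hmul
  have hset : Nat.card {g : C // T.image (σ g) = T} = Nat.card D :=
    Nat.card_congr (Equiv.subtypeEquivRight fun g => by
      rw [hD, Subgroup.mem_comap, image_eq_iff_mem_setStab])
  rw [hset, ← hmul, mul_comm]
  exact Nat.mul_le_mul_left _ hbound

end CfsgLib.M24Count
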