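import Cfsg.Agent.M24Count.CoreSolvableAux
import Cfsg.Agent.M24Count.CoreIface
import Cfsg.Agent.M24Count.CoreForms

/-!
The centraliser of an involution of class A has no normal Sylow 2-subgroup.

If `T` were one, then the centre of `T` would be generated by `t`, an involution `u` of the other
class would have two conjugates `u`, `u t` under `T`, and the subgroup `W` of the elements of `T`
whose commutators with `T` lie in `⟨t⟩` would have order 16. So the centraliser of `u` and `t` would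
have order 1536 with a normal subgroup of order 512, which `S₅` does not allow.
-/

set_option autoImplicit false
set_option linter.style.haveILetI false

namespace CfsgLib.M24Count.CoreSolvable

open Subgroup
open CfsgLib.M23Count.CoreLocal (mem_centSingle conj_orbit_card)
open CfsgLib.M23Count (orderOf_conjugate)

universe u

variable {G : Type u} [Group G] [Finite G]

/-- A common setting: `T` a normal Sylow 2-subgroup of the centraliser of `t`. -/
structure Solv (t f : G) (T : Subgroup G) : Prop where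
  setup : Setup G
  isA : IsA t
  f_seven : orderOf f = 7
  f_comm : Commute f t
  card : Nat.card T = 1024
  le : T ≤ centralizer ({t} : Set G)
  normal : ∀ g : G, Commute g t → ∀ a ∈ T, g * a * g⁻¹ ∈ T

namespace Solv

variable {t f : G} {T : Subgroup G} (D : Solv t f T)
include D

omit [Finite G] in
theorem comm_t {x : G} (hx : x ∈ T) : Commute x t := mem_centSingle.1 (D.le hx)

omit [Finite G] in
theorem t_sq : t * t = 1 := by
  have := pow_orderOf_eq_one t
  rwa [D.isA.1, pow_two] at this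

omit [Finite G] in
theorem t_ne : t ≠ 1 := fun h => by
  have := D.isA.1
  rw [h, orderOf_one] at this
  norm_num at this

theorem mem_of_pow {x : G} (hx : Commute x t) {k : ℕ} (hk : x ^ 2 ^ k = 1) : x ∈ T := by
  haveI : Fact (Nat.Prime 2) := ⟨by norm_num⟩
  obtain ⟨j, _, hj⟩ := (Nat.dvd_prime_pow Nat.prime_two).1 (orderOf_dvd_of_pow_eq_one hk)
  have hp1 : IsPGroup 2 T := IsPGroup.of_card (n := 10) (by rw [D.card]; norm_num)
  have hp2 : IsPGroup 2 (zpowers x) := IsPGroup.of_card (n := j) (by rw [Nat.card_zpowers, hj])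
  have hle : zpowers x ≤ normalizer (T : Set G) := by
    rw [zpowers_le, mem_normalizer_iff]
    intro a
    refine ⟨fun ha => D.normal x hx a ha, fun ha => ?_⟩
    have := D.normal x⁻¹ hx.inv_left _ ha
    rwa [inv_inv, show x⁻¹ * (x * a * x⁻¹) * x = a by group] at this
  obtain ⟨n, hn⟩ := (hp1.to_sup_of_normal_left' hp2 hle).exists_card_eq
  have hC : T ⊔ zpowers x ≤ centralizer ({t} : Set G) :=
    sup_le D.le (zpowers_le.2 (mem_centSingle.2 hx))
  have hd := card_dvd_of_le hC
  rw [hn, D.setup.cent_isA t D.isA] at hd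
  have h10 : n ≤ 10 := by
    by_contra hlt
    have h11 : (2 : ℕ) ^ 11 ∣ 21504 := (pow_dvd_pow 2 (by omega : 11 ≤ n)).trans hd
    norm_num at h11
  have heq : T = T ⊔ zpowers x := eq_of_le_of_card_ge le_sup_left (by
    rw [hn, D.card]
    exact le_trans (Nat.pow_le_pow_right (by norm_num) h10) (by norm_num))
  rw [heq]
  exact le_sup_right (a := T) (mem_zpowers x)

theorem t_mem : t ∈ T := D.mem_of_pow (Commute.refl t) (k := 1) (by rw [pow_one, pow_two, D.t_sq])

theorem fixed_seven {x : G} (hx : x ∈ T) (hc : x * f = f * x) : x ∈ zpowers t := by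
  set A := T ⊓ centralizer ({f} : Set G) with hA
  have hle : zpowers t ≤ A := zpowers_le.2 ⟨D.t_mem, mem_centSingle.2 D.f_comm.symm.eq⟩
  have h1 : Nat.card A ∣ 1024 := D.card ▸ card_dvd_of_le inf_le_left
  have h2 : Nat.card A ∣ 42 := D.setup.cent_seven f D.f_seven ▸ card_dvd_of_le inf_le_right
  have h3 := Nat.le_of_dvd (by norm_num) ((Nat.dvd_gcd h1 h2).trans (by norm_num : Nat.gcd 1024 42 ∣ 2))
  rw [eq_of_le_of_card_ge hle (by rw [Nat.card_zpowers, D.isA.1]; exact h3)]
  exact ⟨hx, mem_centSingle.2 hc⟩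

/-- Subgroups of `T` invariant under `f`. -/
theorem card_invariant {X : Subgroup G} (hXT : X ≤ T) (htX : t ∈ X)
    (hinv : ∀ x ∈ X, f * x * f⁻¹ ∈ X) :
    Nat.card X = 2 ∨ Nat.card X = 16 ∨ Nat.card X = 128 ∨ Nat.card X = 1024 := by
  haveI : Fact (Nat.Prime 7) := ⟨by norm_num⟩
  have hnorm : ∀ a ∈ zpowers f, ∀ x ∈ X, a * x * a⁻¹ ∈ X := by
    intro a ha x hx
    have hfN : f ∈ normalizer (X : Set G) := Subgroup.mem_normalizer_fintype hinv
    exact (mem_normalizer_iff.1 (zpowers_le.2 hfN ha) x).1 hx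
  letI : MulAction ↥(zpowers f) ↥X :=
    { smul := fun a x => ⟨(a : G) * x * (a : G)⁻¹, hnorm a a.2 x x.2⟩
      one_smul := fun x => Subtype.ext (by
        show ((1 : ↥(zpowers f)) : G) * x * ((1 : ↥(zpowers f)) : G)⁻¹ = x
        simp)
      mul_smul := fun a b x => Subtype.ext (by
        show ((a * b : ↥(zpowers f)) : G) * x * ((a * b : ↥(zpowers f)) : G)⁻¹ =
          (a : G) * ((b : G) * x * (b : G)⁻¹) * (a : G)⁻¹
        push_cast
        group) }
  have hp : IsPGroup 7 ↥(zpowers f) :=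
    IsPGroup.of_card (n := 1) (by rw [Nat.card_zpowers, D.f_seven, pow_one])
  have hm := hp.card_modEq_card_fixedPoints ↥X
  have hfix : Nat.card ↥(MulAction.fixedPoints ↥(zpowers f) ↥X) = 2 := by
    rw [← D.isA.1, ← Nat.card_zpowers]
    refine Nat.card_congr
      { toFun := fun a => ⟨a.1.1, D.fixed_seven (hXT a.1.2) ?_⟩
        invFun := fun a => ⟨⟨a.1, zpowers_le.2 htX a.2⟩, ?_⟩
        left_inv := fun _ => rfl
        right_inv := fun _ => rfl }
    · have h1 : f * (a.1 : G) * f⁻¹ = a.1 := congrArg Subtype.val (a.2 ⟨f, mem_zpowers f⟩)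
      exact (mul_inv_eq_iff_eq_mul.1 h1).symm
    · intro b
      refine Subtype.ext ?_
      show (b : G) * (a : G) * (b : G)⁻¹ = a
      obtain ⟨i, hi⟩ := mem_zpowers_iff.1 b.2
      obtain ⟨j, hj⟩ := mem_zpowers_iff.1 a.2
      rw [← hi, ← hj, ((D.f_comm.zpow_left i).zpow_right j).eq, mul_inv_cancel_right]
  rw [hfix] at hm
  obtain ⟨k, hk, e⟩ := (Nat.dvd_prime_pow Nat.prime_two).1
    (show Nat.card X ∣ 2 ^ 10 by rw [show (2 : ℕ) ^ 10 = 1024 by norm_num, ← D.card]
                                 exact card_dvd_of_le hXT)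
  rw [e] at hm ⊢
  interval_cases k <;> simp_all [Nat.ModEq]

omit [Finite G] in
/-- Invariance of a characterised subset of `T`. -/
theorem conj_mem_T {g a : G} (hg : Commute g t) (ha : a ∈ T) :
    g * a * g⁻¹ ∈ T ∧ g⁻¹ * a * g ∈ T :=
  ⟨D.normal g hg a ha, by simpa using D.normal g⁻¹ hg.inv_left a ha⟩

/-- The centre of `T`. -/
theorem center_le {x : G} (hx : x ∈ T) (hc : ∀ y ∈ T, y * x = x * y) : x ∈ zpowers t := by
  let Z : Subgroup G :=
    { carrier := {z | z ∈ T ∧ (∀ y ∈ T, y * z = z * y) ∧ z * z = 1}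
      one_mem' := ⟨one_mem T, fun y _ => by simp, by simp⟩
      mul_mem' := fun {a b} ha hb => ⟨mul_mem ha.1 hb.1, fun y hy => by
          rw [← mul_assoc, ha.2.1 y hy, mul_assoc, hb.2.1 y hy, mul_assoc], by
          rw [show a * b * (a * b) = a * (b * a) * b by group]
          rw [← hb.2.1 a ha.1, show a * (a * b) * b = (a * a) * (b * b) by group, ha.2.2, hb.2.2,
            one_mul]⟩
      inv_mem' := fun {a} ha => by
        have : a⁻¹ = a := inv_eq_of_mul_eq_one_right ha.2.2
        simpa [this] using ha }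
  have htZ : t ∈ Z := ⟨D.t_mem, fun y hy => D.comm_t hy, D.t_sq⟩
  have hconj : ∀ g : G, Commute g t → ∀ z ∈ Z, g * z * g⁻¹ ∈ Z := by
    intro g hg z hz
    refine ⟨D.normal g hg z hz.1, fun y hy => ?_, ?_⟩
    · have := hz.2.1 _ (D.conj_mem_T hg hy).2
      calc y * (g * z * g⁻¹) = g * ((g⁻¹ * y * g) * z) * g⁻¹ := by group
        _ = g * (z * (g⁻¹ * y * g)) * g⁻¹ := by rw [this]
        _ = g * z * g⁻¹ * y := by group
    · rw [show g * z * g⁻¹ * (g * z * g⁻¹) = g * (z * z) * g⁻¹ by group, hz.2.2]; group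
  have hZA : ∀ z ∈ Z, z ≠ 1 → IsA z := by
    intro z hz hz1
    have hord : orderOf z = 2 := orderOf_eq_prime (by rw [pow_two, hz.2.2]) hz1
    by_contra hnA
    have hle : T ≤ centralizer ({z} : Set G) := fun y hy => mem_centSingle.2 (hz.2.1 y hy)
    have := card_dvd_of_le hle
    rw [D.card, D.setup.cent_not_isA z hord hnA] at this
    norm_num at this
  have hZ2 : Nat.card Z = 2 := by
    by_contra hne
    set N := normalizer (T : Set G) with hN
    have hCN : centralizer ({t} : Set G) ≤ N := fun g hg => by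
      rw [hN, mem_normalizer_iff]
      intro a
      refine ⟨fun ha => D.normal g (mem_centSingle.1 hg) a ha, fun ha => ?_⟩
      have := (D.conj_mem_T (mem_centSingle.1 hg) ha).2
      rwa [show g⁻¹ * (g * a * g⁻¹) * g = a by group] at this
    have horb : {w : G | ∃ g ∈ N, g * t * g⁻¹ = w} = (Z : Set G) \ {1} := by
      ext w
      constructor
      · rintro ⟨g, hg, rfl⟩
        have hmem : ∀ y, y ∈ T ↔ g * y * g⁻¹ ∈ T := mem_normalizer_iff.1 hg
        refine ⟨⟨(hmem t).1 D.t_mem, fun y hy => ?_, ?_⟩, ?_⟩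
        · have hy' : g⁻¹ * y * g ∈ T :=
            (hmem _).2 (by rwa [show g * (g⁻¹ * y * g) * g⁻¹ = y by group])
          calc y * (g * t * g⁻¹) = g * ((g⁻¹ * y * g) * t) * g⁻¹ := by group
            _ = g * (t * (g⁻¹ * y * g)) * g⁻¹ := by rw [(D.comm_t hy').eq]
            _ = g * t * g⁻¹ * y := by group
        · rw [show g * t * g⁻¹ * (g * t * g⁻¹) = g * (t * t) * g⁻¹ by group, D.t_sq]; group
        · intro h
          exact D.t_ne (conj_eq_one_iff.1 h)
      · rintro ⟨hw, hw1⟩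
        obtain ⟨g, hg⟩ := isConj_iff.1 (D.setup.isA_conj t w D.isA (hZA w hw hw1))
        refine ⟨g, ?_, hg⟩
        -- `T` is the normal Sylow subgroup of both centralisers
        have key : ∀ y ∈ T, g⁻¹ * y * g ∈ T := by
          intro y hy
          have hyw : y * (g * t * g⁻¹) = g * t * g⁻¹ * y := hg.symm ▸ hw.2.1 y hy
          refine D.mem_of_pow (k := 10) ?_ ?_
          · show g⁻¹ * y * g * t = t * (g⁻¹ * y * g)
            calc g⁻¹ * y * g * t = g⁻¹ * (y * (g * t * g⁻¹)) * g := by group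
              _ = g⁻¹ * (g * t * g⁻¹ * y) * g := by rw [hyw]
              _ = t * (g⁻¹ * y * g) := by group
          · have h1 : y ^ 1024 = 1 := by
              have := Subgroup.pow_mem T hy 0
              exact orderOf_dvd_iff_pow_eq_one.1 (D.card ▸ Subgroup.orderOf_dvd_natCard _ hy)
            have h2 : (g⁻¹ * y * g) ^ 1024 = g⁻¹ * y ^ 1024 * g := by
              have := conj_pow (a := g⁻¹) (b := y) (i := 1024)
              rwa [inv_inv] at this
            rw [show (2 : ℕ) ^ 10 = 1024 by norm_num, h2, h1]; group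
        have hinv : g⁻¹ ∈ N := Subgroup.mem_normalizer_fintype fun y hy => by
          rw [inv_inv]; exact key y hy
        simpa using inv_mem hinv
    have hcnt := conj_orbit_card N t
    rw [inf_eq_right.2 hCN, D.setup.cent_isA t D.isA,
      show Nat.card {w : G // ∃ g ∈ N, g * t * g⁻¹ = w} = Nat.card Z - 1 by
        show Nat.card ↥{w : G | ∃ g ∈ N, g * t * g⁻¹ = w} = _
        rw [horb, Nat.card_coe_set_eq, Set.ncard_sdiff_singleton_of_mem (one_mem Z),
          ← Nat.card_coe_set_eq]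
        rfl] at hcnt
    have hNd := card_subgroup_dvd_card N
    rw [← hcnt, D.setup.card] at hNd
    rcases D.card_invariant (X := Z) (fun z hz => hz.1) htZ
        (fun z hz => hconj f D.f_comm z hz) with h | h | h | h
    · exact hne h
    · rw [h] at hcnt
      -- `N/T` has order 315
      have hTN : T ≤ N := le_normalizer
      set T' := T.subgroupOf N with hT'
      haveI : T'.Normal := by rw [hT', hN]; infer_instance
      have hT'c : Nat.card T' = 1024 := by
        rw [hT', Nat.card_congr (subgroupOfEquivOfLe hTN).toEquiv, D.card]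
      have hQ : Nat.card (↥N ⧸ T') = 315 := by
        have := card_eq_card_quotient_mul_card_subgroup T'
        rw [← hcnt, hT'c] at this
        omega
      obtain ⟨q, hq⟩ := exists_order_35 hQ
      obtain ⟨y, rfl⟩ := QuotientGroup.mk'_surjective T' q
      obtain ⟨c, hc⟩ : 35 ∣ orderOf (y : G) := by
        rw [Subgroup.orderOf_coe, ← hq]
        exact orderOf_map_dvd _ y
      set z := (y : G) ^ c
      have hz35 : orderOf z = 35 := by
        have hpos := orderOf_pos (y : G)
        rw [show z = (y : G) ^ c from rfl, orderOf_pow, hc, Nat.gcd_mul_left_left,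
          Nat.mul_div_cancel _ (by rw [hc] at hpos; exact Nat.pos_of_mul_pos_left hpos)]
      have h7 : orderOf (z ^ 5) = 7 := by rw [orderOf_pow, hz35]; norm_num
      have h5 : orderOf (z ^ 7) = 5 := by rw [orderOf_pow, hz35]; norm_num
      have hmem : z ^ 7 ∈ centralizer ({z ^ 5} : Set G) :=
        mem_centSingle.2 ((Commute.refl z).pow_pow 7 5).eq
      have := Subgroup.orderOf_dvd_natCard _ hmem
      rw [h5, D.setup.cent_seven _ h7] at this
      norm_num at this
    · rw [h] at hNd; norm_num at hNd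
    · rw [h] at hNd; norm_num at hNd
  have hZt : Z = zpowers t := (eq_of_le_of_card_ge (zpowers_le.2 htZ)
    (by rw [hZ2, Nat.card_zpowers, D.isA.1])).symm
  -- the centre has only one involution, so it is cyclic and fixed by `f`
  let Z4 : Subgroup G :=
    { carrier := {z | z ∈ T ∧ (∀ y ∈ T, y * z = z * y) ∧ z * z ∈ zpowers t}
      one_mem' := ⟨one_mem T, fun y _ => by simp, by simp⟩
      mul_mem' := fun {a b} ha hb => ⟨mul_mem ha.1 hb.1, fun y hy => by
          rw [← mul_assoc, ha.2.1 y hy, mul_assoc, hb.2.1 y hy, mul_assoc], by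
          rw [show a * b * (a * b) = a * (b * a) * b by group, ← hb.2.1 a ha.1,
            show a * (a * b) * b = (a * a) * (b * b) by group]
          exact mul_mem ha.2.2 hb.2.2⟩
      inv_mem' := fun {a} ha => ⟨inv_mem ha.1, fun y hy => by
          have := ha.2.1 y hy
          rw [← mul_left_inj a, ← mul_right_inj a]
          calc a * (y * a⁻¹ * a) = a * y := by group
            _ = y * a := this.symm
            _ = a * (a⁻¹ * y * a) := by group, by
          rw [← mul_inv_rev]; exact inv_mem ha.2.2⟩ }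
  have hZ4 : Nat.card Z4 = 2 := by
    have hle4 : Nat.card Z4 ≤ 4 := by
      have hsq : ∀ a : Z4, ((a : G) * a) ∈ zpowers t := fun a => a.2.2.2
      let φ : Z4 →* zpowers t :=
        { toFun := fun a => ⟨(a : G) * a, hsq a⟩
          map_one' := Subtype.ext (by simp)
          map_mul' := fun a b => Subtype.ext (by
            show (a : G) * b * ((a : G) * b) = (a : G) * a * ((b : G) * b)
            rw [show (a : G) * b * ((a : G) * b) = a * (b * a) * b by group,
              ← b.2.2.1 a a.2.1]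
            group) }
      have hker : Nat.card φ.ker ≤ 2 := by
        rw [← D.isA.1, ← Nat.card_zpowers]
        refine Nat.card_le_card_of_injective (fun a => ⟨(a.1 : G), ?_⟩) ?_
        · exact hZt.le (show (a.1 : G) ∈ Z from
            ⟨a.1.2.1, a.1.2.2.1, congrArg Subtype.val (MonoidHom.mem_ker.1 a.2)⟩)
        · intro a b hab
          exact Subtype.ext (Subtype.ext (congrArg (fun z : zpowers t => (z : G)) hab))
      have hran : Nat.card φ.range ≤ 2 := by
        rw [← D.isA.1, ← Nat.card_zpowers]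
        exact Nat.le_of_dvd Nat.card_pos (card_subgroup_dvd_card _)
      have := card_eq_card_quotient_mul_card_subgroup φ.ker
      rw [Nat.card_congr (QuotientGroup.quotientKerEquivRange φ).toEquiv] at this
      rw [this]
      calc _ ≤ 2 * 2 := Nat.mul_le_mul hran hker
        _ = 4 := by norm_num
    rcases D.card_invariant (X := Z4) (fun z hz => hz.1)
        ⟨D.t_mem, fun y hy => D.comm_t hy, by rw [D.t_sq]; exact one_mem _⟩
        (fun z hz => ⟨D.normal f D.f_comm z hz.1, fun y hy => by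
          have := hz.2.1 _ (D.conj_mem_T D.f_comm hy).2
          calc y * (f * z * f⁻¹) = f * ((f⁻¹ * y * f) * z) * f⁻¹ := by group
            _ = f * (z * (f⁻¹ * y * f)) * f⁻¹ := by rw [this]
            _ = f * z * f⁻¹ * y := by group, by
          rw [show f * z * f⁻¹ * (f * z * f⁻¹) = f * (z * z) * f⁻¹ by group]
          obtain ⟨j, hj⟩ := mem_zpowers_iff.1 hz.2.2
          rw [← hj, (D.f_comm.zpow_right j).eq, mul_inv_cancel_right]
          exact zpow_mem (mem_zpowers t) j⟩) with h | h | h | h <;> omega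
  have h4t : Z4 = zpowers t := (eq_of_le_of_card_ge
    (zpowers_le.2 (show t ∈ Z4 from
      ⟨D.t_mem, fun y hy => D.comm_t hy, by rw [D.t_sq]; exact one_mem _⟩))
    (by rw [hZ4, Nat.card_zpowers, D.isA.1])).symm
  have hpow : ∀ k : ℕ, ∀ z ∈ T, (∀ y ∈ T, y * z = z * y) → z ^ 2 ^ k = 1 → z ∈ zpowers t := by
    intro k
    induction k with
    | zero => intro z _ _ h; simp only [pow_zero, pow_one] at h; rw [h]; exact one_mem _
    | succ k ih =>
      intro z hz hzc hzk
      rw [← h4t]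
      refine ⟨hz, hzc, ih (z * z) (mul_mem hz hz) (fun y hy => ?_) ?_⟩
      · rw [← mul_assoc, hzc y hy, mul_assoc, hzc y hy, mul_assoc]
      · rw [← pow_two, ← pow_mul, ← pow_succ']
        exact hzk
  refine hpow 10 x hx hc ?_
  rw [show (2 : ℕ) ^ 10 = 1024 by norm_num]
  exact orderOf_dvd_iff_pow_eq_one.1 (D.card ▸ Subgroup.orderOf_dvd_natCard _ hx)

/-- An involution of the other class with centraliser of index 2 in `T`. -/
theorem exists_u : ∃ u ∈ T, orderOf u = 2 ∧ ¬ IsA u ∧
    Nat.card ↥(T ⊓ centralizer ({u} : Set G)) = 512 := by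
  haveI : Fact (Nat.Prime 5) := ⟨by norm_num⟩
  haveI : Fact (Nat.Prime 2) := ⟨by norm_num⟩
  obtain ⟨h5, hh5⟩ := exists_prime_orderOf_dvd_card' (G := G) 5 (by rw [D.setup.card]; norm_num)
  obtain ⟨hc3, hB⟩ := D.setup.invol_five h5 hh5
  obtain ⟨⟨u₀, hu₀, hu5⟩⟩ : Nonempty {x : G // orderOf x = 2 ∧ Commute x h5} :=
    Nat.card_pos_iff.1 (by rw [hc3]; norm_num) |>.1
  have hu₀A := hB u₀ hu₀ hu5
  set C := centralizer ({u₀} : Set G)
  have huC : u₀ ∈ C := mem_centSingle.2 rfl
  obtain ⟨K, hK, hKle⟩ := Sylow.exists_subgroup_card_pow_prime_le (G := C) 2 (n := 1) (m := 9)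
    (by rw [D.setup.cent_not_isA u₀ hu₀ hu₀A]; norm_num) (zpowers ⟨u₀, huC⟩)
    (by rw [Nat.card_zpowers, Subgroup.orderOf_mk, hu₀, pow_one]) (by norm_num)
  set S₀ := K.map C.subtype with hS₀
  have hS₀c : Nat.card S₀ = 512 := by
    rw [hS₀, card_map_of_injective C.subtype_injective, hK]; norm_num
  have hu₀S : u₀ ∈ S₀ := ⟨⟨u₀, huC⟩, hKle (mem_zpowers _), rfl⟩
  have hS₀le : S₀ ≤ C := by rintro _ ⟨a, _, rfl⟩; exact a.2
  obtain ⟨P, hP⟩ := (IsPGroup.of_card (n := 9) (show Nat.card S₀ = 2 ^ 9 by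
    rw [hS₀c]; norm_num)).exists_le_sylow
  let T₀ : Sylow 2 G := Sylow.ofCard T (by
    rw [D.card, D.setup.card, show (244823040 : ℕ) = 2 ^ 10 * 239085 by norm_num,
      Nat.factorization_mul (by norm_num) (by norm_num), Finsupp.add_apply,
      Nat.Prime.factorization_pow (by norm_num), Finsupp.single_eq_same,
      Nat.factorization_eq_zero_of_not_dvd (by norm_num)]
    norm_num)
  obtain ⟨g, hg⟩ := MulAction.exists_smul_eq G P T₀
  have hmap : ∀ a ∈ S₀, g * a * g⁻¹ ∈ T := by
    intro a ha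
    have h1 : g * a * g⁻¹ ∈ ((g • P : Sylow 2 G) : Subgroup G) := by
      rw [Sylow.coe_subgroup_smul]
      exact ⟨a, hP ha, by simp⟩
    rwa [hg, Sylow.coe_ofCard] at h1
  have hord : orderOf (g * u₀ * g⁻¹) = 2 := by rw [orderOf_conjugate, hu₀]
  have hnA : ¬ IsA (g * u₀ * g⁻¹) := by
    rintro ⟨_, f', hf', hcf⟩
    refine hu₀A ⟨hu₀, g⁻¹ * f' * g, ?_, ?_⟩
    · rw [show g⁻¹ * f' * g = g⁻¹ * f' * g⁻¹⁻¹ by rw [inv_inv], orderOf_conjugate, hf']
    · show g⁻¹ * f' * g * u₀ = u₀ * (g⁻¹ * f' * g)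
      calc g⁻¹ * f' * g * u₀ = g⁻¹ * (f' * (g * u₀ * g⁻¹)) * g := by group
        _ = g⁻¹ * (g * u₀ * g⁻¹ * f') * g := by rw [hcf.eq]
        _ = u₀ * (g⁻¹ * f' * g) := by group
  refine ⟨g * u₀ * g⁻¹, hmap u₀ hu₀S, hord, hnA, ?_⟩
  set A := T ⊓ centralizer ({g * u₀ * g⁻¹} : Set G)
  have hle : S₀.map (MulAut.conj g).toMonoidHom ≤ A := by
    rintro _ ⟨a, ha, rfl⟩
    refine ⟨by simpa using hmap a ha, mem_centSingle.2 ?_⟩
    have := mem_centSingle.1 (hS₀le ha)
    simp only [MulEquiv.coe_toMonoidHom, MulAut.conj_apply]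
    calc g * a * g⁻¹ * (g * u₀ * g⁻¹) = g * (a * u₀) * g⁻¹ := by group
      _ = g * (u₀ * a) * g⁻¹ := by rw [this]
      _ = g * u₀ * g⁻¹ * (g * a * g⁻¹) := by group
  have h1 : 512 ≤ Nat.card A := by
    have := card_le_of_le hle
    rwa [card_map_of_injective (MulAut.conj g).injective, hS₀c] at this
  have h2 : Nat.card A ∣ 1024 := D.card ▸ card_dvd_of_le inf_le_left
  have h3 : Nat.card A ∣ 7680 := D.setup.cent_not_isA _ hord hnA ▸ card_dvd_of_le inf_le_right
  have h4 := Nat.le_of_dvd (by norm_num) ((Nat.dvd_gcd h2 h3).trans (by norm_num : Nat.gcd 1024 7680 ∣ 512))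
  omega

/-- The elements of `T` whose commutators with `T` lie in `⟨t⟩`. -/
def W : Subgroup G where
  carrier := {x | x ∈ T ∧ ∀ y ∈ T, y * x * y⁻¹ * x⁻¹ ∈ zpowers t}
  one_mem' := ⟨one_mem T, fun y _ => by simp⟩
  mul_mem' := fun {a b} ha hb => ⟨mul_mem ha.1 hb.1, fun y hy => by
    obtain ⟨j, hj⟩ := mem_zpowers_iff.1 (hb.2 y hy)
    have hat : Commute a (t ^ j) := (D.comm_t ha.1).zpow_right j
    have e : y * (a * b) * y⁻¹ * (a * b)⁻¹ =
        y * a * y⁻¹ * (y * b * y⁻¹ * b⁻¹) * a⁻¹ := by group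
    rw [e, ← hj, mul_assoc (y * a * y⁻¹), show t ^ j * a⁻¹ = a⁻¹ * t ^ j from
      (hat.inv_left.eq).symm, ← mul_assoc]
    exact mul_mem (ha.2 y hy) (zpow_mem (mem_zpowers t) j)⟩
  inv_mem' := fun {a} ha => ⟨inv_mem ha.1, fun y hy => by
    obtain ⟨j, hj⟩ := mem_zpowers_iff.1 (ha.2 y hy)
    have hat : Commute a (t ^ (-j)) := (D.comm_t ha.1).zpow_right _
    have e : y * a⁻¹ * y⁻¹ * a⁻¹⁻¹ = a⁻¹ * (y * a * y⁻¹ * a⁻¹)⁻¹ * a := by group
    rw [e, ← hj, ← zpow_neg, mul_assoc, ← hat.eq, ← mul_assoc, inv_mul_cancel, one_mul]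
    exact zpow_mem (mem_zpowers t) _⟩

omit [Finite G] in
theorem mem_W {x : G} : x ∈ D.W ↔ x ∈ T ∧ ∀ y ∈ T, y * x * y⁻¹ * x⁻¹ ∈ zpowers t := Iff.rfl

theorem t_mem_W : t ∈ D.W := ⟨D.t_mem, fun y hy => by
  rw [(D.comm_t hy).eq, mul_inv_cancel_right, mul_inv_cancel]; exact one_mem _⟩

omit [Finite G] in
theorem conj_W {g x : G} (hg : Commute g t) (hx : x ∈ D.W) : g * x * g⁻¹ ∈ D.W := by
  refine ⟨D.normal g hg x hx.1, fun y hy => ?_⟩
  obtain ⟨j, hj⟩ := mem_zpowers_iff.1 (hx.2 _ (D.conj_mem_T hg hy).2)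
  have e : y * (g * x * g⁻¹) * y⁻¹ * (g * x * g⁻¹)⁻¹ =
      g * ((g⁻¹ * y * g) * x * (g⁻¹ * y * g)⁻¹ * x⁻¹) * g⁻¹ := by group
  rw [e, ← hj, (hg.zpow_right j).eq, mul_inv_cancel_right]
  exact zpow_mem (mem_zpowers t) j

theorem sq_W {x : G} (hx : x ∈ D.W) : x * x ∈ zpowers t := by
  refine D.center_le (mul_mem hx.1 hx.1) fun y hy => ?_
  have hyx : y * x * y⁻¹ * x⁻¹ ∈ zpowers t := hx.2 y hy
  rcases eq_one_or_eq D.isA.1 hyx with h | h
  · have h' : y * x = x * y := mul_inv_eq_iff_eq_mul.1 (mul_inv_eq_one.1 h)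
    rw [← mul_assoc, h', mul_assoc, h', mul_assoc]
  · have h' : y * x = t * x * y :=
      mul_inv_eq_iff_eq_mul.1 (mul_inv_eq_iff_eq_mul.1 h)
    calc y * (x * x) = y * x * x := (mul_assoc _ _ _).symm
      _ = t * x * y * x := by rw [h']
      _ = t * x * (y * x) := mul_assoc _ _ _
      _ = t * x * (t * x * y) := by rw [h']
      _ = t * (x * t) * (x * y) := by group
      _ = t * t * (x * x * y) := by rw [(D.comm_t hx.1).eq]; group
      _ = x * x * y := by rw [D.t_sq, one_mul]

theorem pair_W {u : G} (hu : u ∈ T) (hu2 : orderOf u = 2) (hnA : ¬ IsA u)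
    (h512 : Nat.card ↥(T ⊓ centralizer ({u} : Set G)) = 512) : u ∈ D.W ∧ u ∉ zpowers t := by
  have hut : u ∉ zpowers t := fun h => by
    rcases eq_one_or_eq D.isA.1 h with e | e
    · rw [e, orderOf_one] at hu2; norm_num at hu2
    · exact hnA (e ▸ D.isA)
  have horb := conj_orbit_card T u
  rw [h512, D.card] at horb
  set O := {w : G | ∃ a ∈ T, a * u * a⁻¹ = w} with hO
  have hO2 : O.ncard = 2 := by
    rw [← Nat.card_coe_set_eq]
    have : Nat.card {w : G // ∃ a ∈ T, a * u * a⁻¹ = w} = 2 := by omega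
    exact this
  obtain ⟨v, w, hvw, hO'⟩ := Set.ncard_eq_two.1 hO2
  have huO : u ∈ O := ⟨1, one_mem T, by group⟩
  -- the other conjugate
  obtain ⟨u', hu'ne, hu'O, hmem⟩ : ∃ u', u' ≠ u ∧ u' ∈ O ∧ ∀ z ∈ O, z = u ∨ z = u' := by
    have huvw : u = v ∨ u = w := by
      have := huO
      rw [hO'] at this
      simpa using this
    rcases huvw with rfl | rfl
    · exact ⟨w, hvw.symm, by rw [hO']; simp, fun z hz => by rw [hO'] at hz; simpa using hz⟩
    · exact ⟨v, hvw, by rw [hO']; simp, fun z hz => by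
        rw [hO'] at hz
        rcases hz with h | h
        · exact Or.inr h
        · exact Or.inl h⟩
  have hstep : ∀ a ∈ T, ∀ z ∈ O, a * z * a⁻¹ ∈ O := by
    rintro a ha z ⟨b, hb, rfl⟩
    exact ⟨a * b, mul_mem ha hb, by group⟩
  have hperm : ∀ a ∈ T, (a * u * a⁻¹ = u ∧ a * u' * a⁻¹ = u') ∨
      (a * u * a⁻¹ = u' ∧ a * u' * a⁻¹ = u) := by
    intro a ha
    rcases hmem _ (hstep a ha u huO) with h | h <;>
      rcases hmem _ (hstep a ha u' hu'O) with h' | h'
    · exact absurd (by simpa using h.trans h'.symm) hu'ne.symm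
    · exact Or.inl ⟨h, h'⟩
    · exact Or.inr ⟨h, h'⟩
    · exact absurd (by simpa using h.trans h'.symm) hu'ne.symm
  have hcomm : u * u' = u' * u := by
    rcases hperm u hu with ⟨_, h⟩ | ⟨h, _⟩
    · exact mul_inv_eq_iff_eq_mul.1 h
    · exact absurd (by simpa using h.symm) hu'ne
  have hu'T : u' ∈ T := by
    obtain ⟨a, ha, rfl⟩ := hu'O
    exact mul_mem (mul_mem ha hu) (inv_mem ha)
  have hc : u' * u ∈ zpowers t := D.center_le (mul_mem hu'T hu) fun a ha => by
    have e : a * (u' * u) * a⁻¹ = (a * u' * a⁻¹) * (a * u * a⁻¹) := by group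
    refine mul_inv_eq_iff_eq_mul.1 ?_
    rw [e]
    rcases hperm a ha with ⟨h, h'⟩ | ⟨h, h'⟩ <;> rw [h, h']
    exact hcomm
  refine ⟨⟨hu, fun a ha => ?_⟩, hut⟩
  have hui : u⁻¹ = u := inv_eq_of_mul_eq_one_right (by
    have := pow_orderOf_eq_one u
    rwa [hu2, pow_two] at this)
  rcases hperm a ha with ⟨h, _⟩ | ⟨h, _⟩
  · rw [h, mul_inv_cancel]; exact one_mem _
  · rw [h, hui]; exact hc

theorem card_W (hCI : CoreStmt.CenterIndex G) (hGS : CoreStmt.GaussSum G)
    (hne : ∃ u ∈ D.W, u ∉ zpowers t) : Nat.card D.W = 16 := by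
  have hle : D.W ≤ T := fun x hx => hx.1
  have hinv : ∀ x ∈ D.W, f * x * f⁻¹ ∈ D.W := fun x hx => D.conj_W D.f_comm hx
  rcases D.card_invariant hle D.t_mem_W hinv with h | h | h | h
  · obtain ⟨u, hu, hut⟩ := hne
    refine absurd ?_ hut
    rwa [eq_of_le_of_card_ge (zpowers_le.2 D.t_mem_W) (by rw [h, Nat.card_zpowers, D.isA.1])]
  · exact h
  · exfalso
    -- order 128
    set Z := D.W ⊓ centralizer (D.W : Set G) with hZdef
    set K := T ⊓ centralizer (D.W : Set G) with hKdef
    have hp := pairing_card (t := t) (T := T) D.isA.1 hle D.t_mem_W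
      (fun y hy => D.comm_t hy) (fun w hw y hy => hw.2 y hy)
      (fun w hw hc => D.center_le hw.1 hc)
    rw [h, D.card, ← hKdef] at hp
    have hK : Nat.card K = 16 := by omega
    have htZ : t ∈ Z := ⟨D.t_mem_W, mem_centralizer_iff.2 fun w hw => D.comm_t (hle hw)⟩
    have hZK : Z ≤ K := fun x hx => ⟨hle hx.1, hx.2⟩
    have hcentW : ∀ g x, Commute g t → x ∈ centralizer (D.W : Set G) →
        g * x * g⁻¹ ∈ centralizer (D.W : Set G) := fun g x hg hx =>
      mem_centralizer_iff.2 fun w hw => by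
        have hw' : g⁻¹ * w * g ∈ D.W := by
          have := D.conj_W hg.inv_left hw
          rwa [inv_inv] at this
        have := mem_centralizer_iff.1 hx _ hw'
        calc w * (g * x * g⁻¹) = g * ((g⁻¹ * w * g) * x) * g⁻¹ := by group
          _ = g * (x * (g⁻¹ * w * g)) * g⁻¹ := by rw [this]
          _ = g * x * g⁻¹ * w := by group
    have hZ16 : Nat.card Z ∣ 16 := hK ▸ card_dvd_of_le hZK
    rcases D.card_invariant (X := Z) (fun x hx => hle hx.1) htZ
        (fun x hx => ⟨hinv x hx.1, hcentW f x D.f_comm hx.2⟩) with hz | hz | hz | hz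
    · -- `T = W K`, so the second centre of `K` lies in `W`
      have hinf : D.W ⊓ K ≤ Z := fun x hx => ⟨hx.1, hx.2.2⟩
      have hprod := CfsgLib.M24Count.CoreSolvable.card_mul_card_le' D.W K
      have hsup : D.W ⊔ K = T := by
        refine eq_of_le_of_card_ge (sup_le hle inf_le_left) ?_
        have := card_le_of_le hinf
        rw [h, hK] at hprod
        rw [D.card]
        nlinarith
      have hcenK : ∀ k : K, k ∈ center K → (k : G) ∈ zpowers t := by
        intro k hk
        refine D.center_le k.2.1 fun y hy => ?_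
        have hle' : D.W ⊔ K ≤ centralizer ({(k : G)} : Set G) := sup_le
          (fun w hw => mem_centSingle.2 (mem_centralizer_iff.1 k.2.2 w hw))
          (fun x hx => mem_centSingle.2 (congrArg Subtype.val (mem_center_iff.1 hk ⟨x, hx⟩)))
        exact mem_centSingle.1 (hle' (hsup.symm ▸ hy))
      have hcard2 : Nat.card (center K) ≤ 2 := by
        rw [← D.isA.1, ← Nat.card_zpowers]
        exact Nat.card_le_card_of_injective (fun k => ⟨((k : K) : G), hcenK k k.2⟩) fun a b hab =>
          Subtype.ext (Subtype.ext (congrArg (fun z : zpowers t => (z : G)) hab))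
      haveI : Fact (Nat.Prime 2) := ⟨by norm_num⟩
      have hpK : IsPGroup 2 K := IsPGroup.of_card (n := 4) (by rw [hK]; norm_num)
      have hq := card_eq_card_quotient_mul_card_subgroup (center K)
      rw [hK] at hq
      haveI : Nontrivial (↥K ⧸ center K) := Finite.one_lt_card_iff_nontrivial.1 (by
        rcases Nat.lt_or_ge 1 (Nat.card (↥K ⧸ center K)) with h1 | h1
        · exact h1
        · have h2 := Nat.mul_le_mul h1 hcard2
          omega)
      haveI := (hpK.to_quotient (center K)).center_nontrivial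
      obtain ⟨⟨q, hq'⟩, hq1⟩ := exists_ne (1 : center (↥K ⧸ center K))
      obtain ⟨x, rfl⟩ := QuotientGroup.mk'_surjective (center K) q
      have hx : ∀ y : K, (y : G) * x * (y : G)⁻¹ * (x : G)⁻¹ ∈ zpowers t := by
        intro y
        have hmem : y * x * y⁻¹ * x⁻¹ ∈ center K := by
          rw [← QuotientGroup.eq_one_iff]
          have := mem_center_iff.1 hq' (QuotientGroup.mk' (center K) y)
          simp only [QuotientGroup.mk'_apply] at this
          rw [QuotientGroup.mk_mul, QuotientGroup.mk_mul, QuotientGroup.mk_mul, QuotientGroup.mk_inv,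
            QuotientGroup.mk_inv, this, mul_inv_cancel_right, mul_inv_cancel]
        simpa using hcenK _ hmem
      let N : Subgroup G :=
        { carrier := {y | y * t = t * y ∧ y * (x : G) * y⁻¹ * (x : G)⁻¹ ∈ zpowers t}
          one_mem' := ⟨by simp, by simp⟩
          mul_mem' := fun {a b} ha hb => ⟨((show Commute a t from ha.1).mul_left hb.1).eq, by
            obtain ⟨j, hj⟩ := mem_zpowers_iff.1 hb.2
            have e : a * b * x * (a * b)⁻¹ * (x : G)⁻¹ =
                a * (b * x * b⁻¹ * (x : G)⁻¹) * a⁻¹ * (a * x * a⁻¹ * (x : G)⁻¹) := by group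
            rw [e, ← hj, ((show Commute a t from ha.1).zpow_right j).eq, mul_inv_cancel_right]
            exact mul_mem (zpow_mem (mem_zpowers t) j) ha.2⟩
          inv_mem' := fun {a} ha => ⟨((show Commute a t from ha.1).inv_left).eq, by
            obtain ⟨j, hj⟩ := mem_zpowers_iff.1 ha.2
            have hc : Commute a⁻¹ (t ^ (-j)) := ((show Commute a t from ha.1).inv_left).zpow_right _
            have e : a⁻¹ * x * a⁻¹⁻¹ * (x : G)⁻¹ =
                a⁻¹ * (a * x * a⁻¹ * (x : G)⁻¹)⁻¹ * a⁻¹⁻¹ := by group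
            rw [e, ← hj, ← zpow_neg, hc.eq, mul_inv_cancel_right]
            exact zpow_mem (mem_zpowers t) _⟩ }
      have hN : D.W ⊔ K ≤ N := sup_le
        (fun w hw => ⟨(D.comm_t (hle hw)).eq, by
          rw [mem_centralizer_iff.1 x.2.2 w hw, mul_inv_cancel_right, mul_inv_cancel]
          exact one_mem _⟩)
        (fun y hy => ⟨(D.comm_t hy.1).eq, hx ⟨y, hy⟩⟩)
      have hxW : (x : G) ∈ Z :=
        hinf ⟨⟨x.2.1, fun y hy => (hN (hsup.symm ▸ hy)).2⟩, x.2⟩
      have hxt : (x : G) ∈ zpowers t := by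
        rwa [eq_of_le_of_card_ge (zpowers_le.2 htZ) (by rw [hz, Nat.card_zpowers, D.isA.1])]
      apply hq1
      refine Subtype.ext ((QuotientGroup.eq_one_iff _).2 ?_)
      rw [mem_center_iff]
      intro y
      refine Subtype.ext ?_
      obtain ⟨j, hj⟩ := mem_zpowers_iff.1 hxt
      show (y : G) * x = x * y
      rw [← hj]
      exact ((D.comm_t y.2.1).zpow_right j).eq
    · exact hCI t D.W D.t_sq htZ (fun a ha b hb => hb.2 a (hle ha))
        (fun a ha => ⟨mul_mem ha ha, mem_centralizer_iff.2 fun w hw => by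
          obtain ⟨j, hj⟩ := mem_zpowers_iff.1 (D.sq_W ha)
          rw [← hj]
          exact ((D.comm_t (hle hw)).zpow_right j).eq⟩) (by rw [h, hz])
    · rw [hz] at hZ16; norm_num at hZ16
    · rw [hz] at hZ16; norm_num at hZ16
  · exfalso
    have hWT : D.W = T := eq_of_le_of_card_ge hle (by rw [h, D.card])
    have hg := hGS t T D.t_sq D.t_ne D.t_mem (fun x hx => D.comm_t hx)
      (fun a ha b hb => (hWT.symm ▸ hb : b ∈ D.W).2 a ha)
      (fun a ha => D.sq_W (hWT.symm ▸ ha))
      (fun a ha hc => D.center_le ha fun y hy => (hc y hy).symm)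
    rw [D.card] at hg
    set n := (2 * (Nat.card {x : G // x ∈ T ∧ x * x = 1} : ℤ) - ((1024 : ℕ) : ℤ))
    have h2 : n.natAbs ^ 2 = 2048 := by
      have := congrArg Int.natAbs hg
      rw [Int.natAbs_pow] at this
      simpa using this
    rcases Nat.lt_or_ge n.natAbs 46 with h46 | h46
    · have := Nat.pow_le_pow_left (Nat.le_of_lt_succ h46) 2
      omega
    · have := Nat.pow_le_pow_left h46 2
      omega

end Solv

theorem notSylowTwoNormal (hB : CoreStmt.ExistsBCore G) : CoreStmt.NotSylowTwoNormal G := by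
  intro h t ht T hT hTC hn
  obtain ⟨-, f, hf, hft⟩ := id ht
  have D : Solv t f T := ⟨h, ht, hf, hft, hT, hTC, hn⟩
  obtain ⟨u, hu, hu2, hnA, h512⟩ := D.exists_u
  obtain ⟨huW, hut⟩ := D.pair_W hu hu2 hnA h512
  have hW := D.card_W CfsgLib.M24Count.centerIndex CfsgLib.M24Count.gaussSum ⟨u, huW, hut⟩
  set C := centralizer ({t} : Set G) with hC
  set H := C ⊓ centralizer ({u} : Set G) with hH
  have horb := conj_orbit_card C u
  rw [h.cent_isA t ht, ← hH] at horb
  have hsmall : Nat.card {w : G // ∃ a ∈ C, a * u * a⁻¹ = w} ≤ 14 := by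
    have hsub : {w : G | ∃ a ∈ C, a * u * a⁻¹ = w} ⊆ (D.W : Set G) \ (zpowers t : Set G) := by
      rintro w ⟨a, ha, rfl⟩
      have hat : Commute a t := mem_centSingle.1 ha
      refine ⟨D.conj_W hat huW, fun hmem => hut ?_⟩
      obtain ⟨j, hj⟩ := mem_zpowers_iff.1 hmem
      refine mem_zpowers_iff.2 ⟨j, ?_⟩
      calc t ^ j = a⁻¹ * (a * t ^ j) := by group
        _ = a⁻¹ * (t ^ j * a) := by rw [(hat.zpow_right j).eq]
        _ = u := by rw [hj]; group
    show Nat.card ↥{w : G | ∃ a ∈ C, a * u * a⁻¹ = w} ≤ 14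
    rw [Nat.card_coe_set_eq]
    refine (Set.ncard_le_ncard hsub (Set.toFinite _)).trans ?_
    rw [Set.ncard_sdiff (zpowers_le.2 D.t_mem_W) (Set.toFinite _), ← Nat.card_coe_set_eq,
      ← Nat.card_coe_set_eq]
    show Nat.card D.W - Nat.card (zpowers t) ≤ 14
    rw [hW, Nat.card_zpowers, ht.1]
  have h1536 : Nat.card H = 1536 := by
    have hge : 1536 ≤ Nat.card H := by
      by_contra hlt
      have h2 : Nat.card H * Nat.card {w : G // ∃ a ∈ C, a * u * a⁻¹ = w} ≤ 1535 * 14 :=
        Nat.mul_le_mul (by omega) hsmall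
      omega
    have hd1 : Nat.card H ∣ 21504 :=
      (card_dvd_of_le (inf_le_left : H ≤ C)).trans (dvd_of_eq (h.cent_isA t ht))
    have hd2 : Nat.card H ∣ 7680 := (card_dvd_of_le (inf_le_right : H ≤ centralizer ({u} : Set G))).trans
      (dvd_of_eq (h.cent_not_isA u hu2 hnA))
    have hd := Nat.dvd_gcd hd1 hd2
    have := Nat.le_of_dvd (by norm_num) (hd.trans (by norm_num : Nat.gcd 21504 7680 ∣ 1536))
    omega
  obtain ⟨R, hR⟩ := hB h u hu2 hnA
  have hcu : Commute t u := (D.comm_t hu).symm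
  obtain ⟨-, hRt⟩ := hR.big t ht.1 hcu (by rw [inf_comm, ← hC, ← hH, h1536]; norm_num)
  have hRC : ∀ r ∈ R, Commute r t := fun r hr => hRt r hr
  have hRT : R ≤ T := fun r hr => D.mem_of_pow (hRC r hr) (k := 6) (by
    rw [show (2 : ℕ) ^ 6 = 64 by norm_num]
    exact orderOf_dvd_iff_pow_eq_one.1 (hR.card ▸ Subgroup.orderOf_dvd_natCard _ hr))
  set Cu := centralizer ({u} : Set G) with hCu
  obtain ⟨φ, -, hker⟩ := hR.quot
  set S := (T ⊓ Cu).subgroupOf Cu with hS
  set H' := H.subgroupOf Cu with hH'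
  have hkS : φ.ker ≤ S := by
    rw [hker]
    intro x hx
    exact mem_subgroupOf.2 ⟨hRT (mem_subgroupOf.1 hx), x.2⟩
  have hkH : φ.ker ≤ H' := by
    rw [hker]
    intro x hx
    exact mem_subgroupOf.2 ⟨mem_centSingle.2 (hRC _ (mem_subgroupOf.1 hx)), x.2⟩
  have hkc : Nat.card φ.ker = 64 := by
    rw [hker, Nat.card_congr (subgroupOfEquivOfLe hR.le).toEquiv, hR.card]
  have hS8 : Nat.card (S.map φ) = 8 := by
    have e : Nat.card S = 512 := by
      rw [hS, Nat.card_congr (subgroupOfEquivOfLe (inf_le_right : T ⊓ Cu ≤ Cu)).toEquiv, h512]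
    have := card_map_mul φ S hkS
    rw [hkc, e] at this
    omega
  have hH24 : Nat.card (H'.map φ) = 24 := by
    have e : Nat.card H' = 1536 := by
      rw [hH', Nat.card_congr (subgroupOfEquivOfLe (inf_le_right : H ≤ Cu)).toEquiv, h1536]
    have := card_map_mul φ H' hkH
    rw [hkc, e] at this
    omega
  haveI : Fact (Nat.Prime 3) := ⟨by norm_num⟩
  obtain ⟨⟨g, hg⟩, hg3⟩ := exists_prime_orderOf_dvd_card' (G := H'.map φ) 3 (by rw [hH24]; norm_num)
  rw [Subgroup.orderOf_mk] at hg3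
  refine no_normal_eight hS8 hg3 ?_
  obtain ⟨a, ha, rfl⟩ := hg
  rintro _ ⟨b, hb, rfl⟩
  refine ⟨a * b * a⁻¹, ?_, by simp⟩
  have hb' := mem_subgroupOf.1 hb
  exact mem_subgroupOf.2 ⟨D.normal _ (mem_centSingle.1 (mem_subgroupOf.1 ha).1) _ hb'.1,
    (a * b * a⁻¹).2⟩

end CfsgLib.M24Count.CoreSolvable

namespace CfsgLib.M24Count

universe u

/-- The centraliser of an involution of class A has no normal Sylow 2-subgroup. -/
theorem notSylowTwoNormal {G : Type u} [Group G] [Finite G] (hB : CoreStmt.ExistsBCore G) :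
    CoreStmt.NotSylowTwoNormal G :=
  CoreSolvable.notSylowTwoNormal hB

end CfsgLib.M24Count
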