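import Cfsg.Agent.M24Count.CoreIface
import Cfsg.Agent.S0998
import Cfsg.Agent.Classical.Linear.Card
import Mathlib.GroupTheory.PGroup
import Mathlib.GroupTheory.Transfer
import Mathlib.GroupTheory.Sylow
import Mathlib.GroupTheory.QuotientGroup.Basic
import Mathlib.GroupTheory.SpecificGroups.Cyclic

/-!
The normal subgroup of order 128 of the centraliser of an involution of class A.

The quotient of the centraliser by the involution has order 10752; an element of order 7 acts
without fixed points, so a normal subgroup of order prime to 7 has order 1, 8, 64 or 512; 512 is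
excluded by hypothesis, and 1 and 8 by the absence of simple groups of order 10752 and 1344.
-/

set_option autoImplicit false
set_option linter.style.haveILetI false

namespace CfsgLib.M24Count

universe u

namespace CoreTwo

section General

variable {G : Type u} [Group G]

theorem mem_cent {a b : G} : a ∈ Subgroup.centralizer ({b} : Set G) ↔ a * b = b * a :=
  Subgroup.mem_centralizer_singleton_iff

theorem zpow_invol {t : G} (ht : t * t = 1) (k : ℤ) : t ^ k = 1 ∨ t ^ k = t := by
  have h2 : t ^ (2 : ℤ) = 1 := by rw [zpow_two, ht]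
  rcases Int.even_or_odd k with ⟨m, rfl⟩ | ⟨m, rfl⟩
  · left; rw [← two_mul, zpow_mul, h2, one_zpow]
  · right; rw [zpow_add, zpow_mul, h2, one_zpow, one_mul, zpow_one]

/-- A group of order `21 * 2 ^ b` that is simple has order 168. -/
theorem card_of_simple {H : Type u} [Group H] [Finite H] [IsSimpleGroup H] {b : ℕ} (hb : 1 ≤ b)
    (hH : Nat.card H = 3 * 7 * 2 ^ b) : Nat.card H = 60 ∨ Nat.card H = 168 := by
  have hnc : ¬ IsCyclic H := by
    intro hcy
    haveI : Fact (Nat.Prime 2) := ⟨Nat.prime_two⟩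
    obtain ⟨z, hz⟩ := exists_prime_orderOf_dvd_card' (G := H) 2
      (by rw [hH]; exact Dvd.dvd.mul_left (dvd_pow_self 2 (by omega)) _)
    have hn : (Subgroup.zpowers z).Normal := ⟨fun n hn g => by
      rwa [hcy.commGroup.mul_comm g n, mul_inv_cancel_right]⟩
    have h1 : Nat.card (Subgroup.zpowers z) = 2 := by rw [Nat.card_zpowers, hz]
    rcases hn.eq_bot_or_eq_top with e | e
    · rw [e, Subgroup.card_bot] at h1; norm_num at h1
    · rw [e, Subgroup.card_top, hH] at h1
      have h3 : 0 < 2 ^ b := Nat.two_pow_pos b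
      omega
  rcases Cfsg.Agent.S0998.result hnc 3 2 7 b Nat.prime_three Nat.prime_two (by norm_num)
    (by norm_num) (by norm_num) (by norm_num) hH with
    ⟨F, _, _, hF, ⟨e⟩⟩ | ⟨F, _, _, hF, ⟨e⟩⟩
  all_goals
    have h' := CfsgLib.Classical.Linear.card_psl_two (F := F)
    rw [hF, ← Nat.card_congr e.toEquiv] at h'
    norm_num at h'
    omega

end General

section Quot

variable {Q : Type u} [Group Q] [Finite Q]

/-- A group of order 10752 with fixed-point-free elements of order 7 and no normal subgroup of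
order 512 has a normal subgroup of order 64 with simple quotient. -/
theorem exists_sixtyfour (hQ : Nat.card Q = 10752)
    (h7 : ∀ f : Q, orderOf f = 7 → Nat.card (Subgroup.centralizer ({f} : Set Q)) = 7)
    (hN7 : ∀ f : Q, orderOf f = 7 →
      Nat.card (Subgroup.normalizer (Subgroup.zpowers f : Set Q)) ∣ 21)
    (no512 : ∀ N : Subgroup Q, N.Normal → Nat.card N ≠ 512) :
    ∃ M : Subgroup Q, M.Normal ∧ Nat.card M = 64 ∧
      ∀ L : Subgroup Q, L.Normal → M ≤ L → L = M ∨ L = ⊤ := by
  classical
  haveI : Fact (Nat.Prime 7) := ⟨by norm_num⟩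
  obtain ⟨f, hf⟩ := exists_prime_orderOf_dvd_card' (G := Q) 7 (by rw [hQ]; norm_num)
  have hmemC : ∀ g : Q, g * f = f * g → g ∈ Subgroup.zpowers f := by
    intro g hg
    have he : Subgroup.zpowers f = Subgroup.centralizer ({f} : Set Q) := by
      refine Subgroup.eq_of_le_of_card_ge ?_ ?_
      · rw [Subgroup.zpowers_le, mem_cent]
      · rw [h7 f hf, Nat.card_zpowers, hf]
    rw [he]; exact mem_cent.2 hg
  -- a normal subgroup of order prime to seven
  have small : ∀ N : Subgroup Q, N.Normal → ¬ 7 ∣ Nat.card N →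
      Nat.card N = 1 ∨ Nat.card N = 8 ∨ Nat.card N = 64 := by
    intro N hN hn7
    letI : MulAction ↥(Subgroup.zpowers f) ↥N :=
      { smul := fun a n => ⟨(a : Q) * n * (a : Q)⁻¹, hN.conj_mem _ n.2 _⟩
        one_smul := fun n => Subtype.ext (by
          show ((1 : ↥(Subgroup.zpowers f)) : Q) * n * ((1 : ↥(Subgroup.zpowers f)) : Q)⁻¹ = n
          simp)
        mul_smul := fun a b n => Subtype.ext (by
          show ((a * b : ↥(Subgroup.zpowers f)) : Q) * n * ((a * b : ↥(Subgroup.zpowers f)) : Q)⁻¹ =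
            (a : Q) * ((b : Q) * n * (b : Q)⁻¹) * (a : Q)⁻¹
          push_cast
          group) }
    have hp : IsPGroup 7 ↥(Subgroup.zpowers f) :=
      IsPGroup.of_card (n := 1) (by rw [Nat.card_zpowers, hf, pow_one])
    have hm := hp.card_modEq_card_fixedPoints (↥N)
    have hfix : Nat.card ↥(MulAction.fixedPoints ↥(Subgroup.zpowers f) ↥N) = 1 := by
      rw [Nat.card_eq_one_iff_unique]
      refine ⟨⟨?_⟩, ⟨⟨1, fun a => Subtype.ext ?_⟩⟩⟩
      · rintro ⟨⟨a, ha⟩, hfa⟩ ⟨⟨b, hb⟩, hfb⟩
        have key : ∀ (c : Q) (hc : c ∈ N),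
            (⟨c, hc⟩ : ↥N) ∈ MulAction.fixedPoints ↥(Subgroup.zpowers f) ↥N → c = 1 := by
          intro c hc hfc
          have h1 : f * c * f⁻¹ = c := congrArg Subtype.val (hfc ⟨f, Subgroup.mem_zpowers f⟩)
          have h2 : c ∈ Subgroup.zpowers f := hmemC c (mul_inv_eq_iff_eq_mul.1 h1).symm
          have h3 : orderOf c ∣ 7 := by
            rw [← hf, ← Nat.card_zpowers f]
            exact Subgroup.orderOf_dvd_natCard _ h2
          rcases (Nat.dvd_prime (by norm_num)).1 h3 with h4 | h4
          · exact orderOf_eq_one_iff.1 h4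
          · exact absurd (h4 ▸ Subgroup.orderOf_dvd_natCard _ hc) hn7
        exact Subtype.ext (Subtype.ext ((key a ha hfa).trans (key b hb hfb).symm))
      · show (a : Q) * 1 * (a : Q)⁻¹ = 1
        group
    rw [hfix] at hm
    have hd : Nat.card N ∣ 1536 := by
      have h1 : Nat.card N ∣ 7 * 1536 := by
        have := Subgroup.card_subgroup_dvd_card N
        rwa [hQ] at this
      exact (Nat.Coprime.dvd_mul_left
        (((Nat.Prime.coprime_iff_not_dvd (by norm_num)).2 hn7).symm)).1 h1
    have hne := no512 N hN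
    generalize Nat.card N = n at hm hd hne ⊢
    obtain ⟨d₁, d₂, h1, h2, rfl⟩ : ∃ d₁ d₂, d₁ ∣ 512 ∧ d₂ ∣ 3 ∧ n = d₁ * d₂ := by
      obtain ⟨d₁, d₂, h1, h2, e⟩ := (Nat.dvd_mul).1 (show n ∣ 512 * 3 from hd)
      exact ⟨d₁, d₂, h1, h2, e.symm⟩
    obtain ⟨i, hi, rfl⟩ := (Nat.dvd_prime_pow Nat.prime_two).1 (show d₁ ∣ 2 ^ 9 from h1)
    revert hm hne
    rcases (Nat.dvd_prime Nat.prime_three).1 h2 with rfl | rfl <;>
      interval_cases i <;> decide
  -- a normal subgroup of order divisible by seven is everything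
  have large : ∀ N : Subgroup Q, N.Normal → 7 ∣ Nat.card N → N = ⊤ := by
    intro N hN hd7
    obtain ⟨f₁, hf₁⟩ := exists_prime_orderOf_dvd_card' (G := ↥N) 7 hd7
    have hf1 : orderOf (f₁ : Q) = 7 := by rw [Subgroup.orderOf_coe]; exact hf₁
    have hcardN : Nat.card N ∣ 7 * 1536 := by
      have := Subgroup.card_subgroup_dvd_card N
      rwa [hQ] at this
    have hsylcard : Nat.card (Subgroup.zpowers f₁) = 7 ^ (Nat.card ↥N).factorization 7 := by
      rw [Nat.card_zpowers, hf₁]
      have h1 : (Nat.card ↥N).factorization 7 = 1 := by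
        have h2 : ¬ 7 ^ 2 ∣ Nat.card ↥N := fun h =>
          absurd (h.trans hcardN) (by norm_num)
        have h3 : 1 ≤ (Nat.card ↥N).factorization 7 :=
          (Nat.Prime.pow_dvd_iff_le_factorization (by norm_num) Nat.card_pos.ne').1 (by simpa using hd7)
        have h4 : ¬ 2 ≤ (Nat.card ↥N).factorization 7 := fun h =>
          h2 ((Nat.Prime.pow_dvd_iff_le_factorization (by norm_num) Nat.card_pos.ne').2 h)
        omega
      rw [h1, pow_one]
    let P : Sylow 7 ↥N := Sylow.ofCard (Subgroup.zpowers f₁) hsylcard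
    have hsup := Sylow.normalizer_sup_eq_top P
    have hmap : (P : Subgroup ↥N).map N.subtype = Subgroup.zpowers (f₁ : Q) := by
      rw [Sylow.coe_ofCard, MonoidHom.map_zpowers]; rfl
    rw [hmap] at hsup
    set K := Subgroup.normalizer (Subgroup.zpowers (f₁ : Q) : Set Q) with hK
    have hidx : N.index ∣ 21 := by
      have hsur : Function.Surjective ((QuotientGroup.mk' N).comp K.subtype) := by
        rw [← MonoidHom.range_eq_top, MonoidHom.range_comp, Subgroup.range_subtype]
        have h1 := congrArg (Subgroup.map (QuotientGroup.mk' N)) hsup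
        rwa [Subgroup.map_sup, QuotientGroup.map_mk'_self, sup_bot_eq,
          Subgroup.map_top_of_surjective _ (QuotientGroup.mk'_surjective N)] at h1
      rw [Subgroup.index]
      exact (Subgroup.card_dvd_of_surjective _ hsur).trans (hN7 _ hf1)
    have hmul : Nat.card N * N.index = 10752 := by rw [Subgroup.card_mul_index, hQ]
    have hidx' : N.index ∣ 3 := by
      have h1 : N.index ∣ 1536 := by
        obtain ⟨k, hk⟩ := hd7
        exact ⟨k, by rw [hk] at hmul; nlinarith [hmul]⟩
      have := Nat.dvd_gcd hidx h1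
      exact this.trans (by norm_num)
    rcases (Nat.dvd_prime (by norm_num)).1 hidx' with h1 | h3
    · exact Subgroup.index_eq_one.1 h1
    exfalso
    have h3584 : Nat.card N = 3584 := by rw [h3] at hmul; omega
    -- the centraliser in `N` of the Sylow subgroup is its normaliser
    set K' := Subgroup.normalizer ((P : Subgroup ↥N) : Set ↥N)
    have hK'le : K'.map N.subtype ≤ K := by
      rintro _ ⟨n, hn, rfl⟩
      rw [hK, Subgroup.mem_normalizer_iff]
      intro a
      have hn' := Subgroup.mem_normalizer_iff.1 hn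
      rw [← hmap]
      constructor
      · rintro ⟨b, hb, rfl⟩
        exact ⟨n * b * n⁻¹, (hn' b).1 hb, by simp⟩
      · rintro ⟨b, hb, e⟩
        refine ⟨n⁻¹ * b * n, (hn' _).2 (by rwa [show n * (n⁻¹ * b * n) * n⁻¹ = b by group]), ?_⟩
        simp only [Subgroup.subtype_apply] at e ⊢
        push_cast
        rw [e]
        group
    have hK'7 : Nat.card K' = 7 := by
      have hd : Nat.card K' ∣ 21 := by
        rw [← Subgroup.card_map_of_injective (K := K') N.subtype_injective]
        exact (Subgroup.card_dvd_of_le hK'le).trans (hN7 _ hf1)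
      have hd' : Nat.card K' ∣ 3584 := h3584 ▸ Subgroup.card_subgroup_dvd_card K'
      have h7le : (P : Subgroup ↥N) ≤ K' := Subgroup.le_normalizer
      have h7 : Nat.card (P : Subgroup ↥N) = 7 := by rw [Sylow.coe_ofCard, Nat.card_zpowers, hf₁]
      have h1 : Nat.card K' ∣ 7 := (Nat.dvd_gcd hd hd').trans (by norm_num)
      exact Nat.dvd_antisymm h1 (h7 ▸ Subgroup.card_dvd_of_le h7le)
    have hKP : K' ≤ Subgroup.centralizer ((P : Subgroup ↥N) : Set ↥N) := by
      have he : (P : Subgroup ↥N) = K' := by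
        refine Subgroup.eq_of_le_of_card_ge Subgroup.le_normalizer ?_
        rw [hK'7, Sylow.coe_ofCard, Nat.card_zpowers, hf₁]
      rw [← he]
      intro a ha
      rw [Subgroup.mem_centralizer_iff]
      intro b hb
      simp only [SetLike.mem_coe] at ha hb
      obtain ⟨i, rfl⟩ := Subgroup.mem_zpowers_iff.1 ha
      obtain ⟨j, rfl⟩ := Subgroup.mem_zpowers_iff.1 hb
      rw [← zpow_add, ← zpow_add, add_comm]
    have hcomp := MonoidHom.ker_transferSylow_isComplement' P hKP
    set R := (MonoidHom.transferSylow P hKP).ker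
    have hRc : Nat.card R = 512 := by
      have := hcomp.card_mul_card
      rw [h3584, Sylow.coe_ofCard, Nat.card_zpowers, hf₁] at this
      omega
    have hmemR : ∀ n : ↥N, n ^ 512 = 1 → n ∈ R := by
      intro n hn
      rw [MonoidHom.mem_ker]
      have h1 : (MonoidHom.transferSylow P hKP n) ^ 512 = 1 := by rw [← map_pow, hn, map_one]
      have h2 : orderOf (MonoidHom.transferSylow P hKP n) ∣ 7 := by
        have := orderOf_dvd_natCard (MonoidHom.transferSylow P hKP n)
        have h7c : Nat.card (P : Subgroup ↥N) = 7 := by rw [Sylow.coe_ofCard, Nat.card_zpowers, hf₁]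
        rwa [h7c] at this
      have h3 := Nat.dvd_gcd (orderOf_dvd_of_pow_eq_one h1) h2
      norm_num at h3
      exact h3
    have hRn : (R.map N.subtype).Normal := by
      refine ⟨?_⟩
      rintro _ ⟨r, hr, rfl⟩ g
      refine ⟨⟨g * r * g⁻¹, hN.conj_mem _ r.2 g⟩, hmemR _ (Subtype.ext ?_), rfl⟩
      have hr512 : r ^ 512 = 1 := by
        have := Subgroup.orderOf_dvd_natCard R hr
        rw [hRc] at this
        exact orderOf_dvd_iff_pow_eq_one.1 this
      have hr' : (r : Q) ^ 512 = 1 := by rw [← SubmonoidClass.coe_pow, hr512]; rfl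
      push_cast
      rw [conj_pow, hr', mul_one, mul_inv_cancel]
    exact no512 _ hRn (by rw [Subgroup.card_map_of_injective N.subtype_injective, hRc])
  have ex64 : ∃ M : Subgroup Q, M.Normal ∧ Nat.card M = 64 := by
    by_contra hne
    push Not at hne
    -- a minimal case: a normal subgroup of order 1 or 8 with simple quotient
    obtain ⟨M, hMn, hMc, hMmax⟩ : ∃ M : Subgroup Q, M.Normal ∧
        (Nat.card M = 1 ∨ Nat.card M = 8) ∧
        ∀ L : Subgroup Q, L.Normal → M ≤ L → ¬ 7 ∣ Nat.card L → L = M := by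
      by_cases h8 : ∃ M : Subgroup Q, M.Normal ∧ Nat.card M = 8
      · obtain ⟨M, hM, hM8⟩ := h8
        refine ⟨M, hM, Or.inr hM8, fun L hL hle hd => ?_⟩
        have hge := Subgroup.card_le_of_le hle
        rcases small L hL hd with h | h | h
        · omega
        · exact (Subgroup.eq_of_le_of_card_ge hle (by rw [hM8, h])).symm
        · exact absurd h (hne L hL)
      · push Not at h8
        refine ⟨⊥, inferInstance, Or.inl Subgroup.card_bot, fun L hL _ hd => ?_⟩
        rcases small L hL hd with h | h | h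
        · exact Subgroup.eq_bot_of_card_eq _ h
        · exact absurd h (h8 L hL)
        · exact absurd h (hne L hL)
    haveI := hMn
    have hcard := Subgroup.card_eq_card_quotient_mul_card_subgroup M
    rw [hQ] at hcard
    haveI : Nontrivial (Q ⧸ M) := by
      rw [← Finite.one_lt_card_iff_nontrivial]
      rcases hMc with e | e <;> rw [e] at hcard <;> omega
    haveI : IsSimpleGroup (Q ⧸ M) :=
      { eq_bot_or_eq_top_of_normal := fun L hL => by
          have hsur := QuotientGroup.mk'_surjective M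
          by_cases h : 7 ∣ Nat.card (L.comap (QuotientGroup.mk' M))
          · right
            rw [← Subgroup.map_comap_eq_self_of_surjective hsur L, large _ (hL.comap _) h,
              Subgroup.map_top_of_surjective _ hsur]
          · left
            rw [← Subgroup.map_comap_eq_self_of_surjective hsur L,
              hMmax _ (hL.comap _) (QuotientGroup.le_comap_mk' M L) h,
              QuotientGroup.map_mk'_self] }
    rcases hMc with e | e <;> rw [e] at hcard
    · have h := card_of_simple (H := Q ⧸ M) (b := 9) (by norm_num) (by omega)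
      omega
    · have h := card_of_simple (H := Q ⧸ M) (b := 6) (by norm_num) (by omega)
      omega
  obtain ⟨M, hM, hM64⟩ := ex64
  refine ⟨M, hM, hM64, fun L hL hle => ?_⟩
  by_cases hd : 7 ∣ Nat.card L
  · exact Or.inr (large L hL hd)
  left
  have hge := Subgroup.card_le_of_le hle
  rcases small L hL hd with h | h | h
  · omega
  · omega
  · exact (Subgroup.eq_of_le_of_card_ge hle (by rw [hM64, h])).symm

end Quot

end CoreTwo

open CoreTwo

variable {G : Type u} [Group G] [Finite G]

/-- The centraliser in `C(t)` of an element of order 7 is cyclic of order 14. -/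
theorem Setup.cent_inf_seven (h : Setup G) {t f : G} (ht : orderOf t = 2) (hf : orderOf f = 7)
    (hc : Commute f t) : orderOf (f * t) = 14 ∧ Subgroup.zpowers (f * t) =
      Subgroup.centralizer ({t} : Set G) ⊓ Subgroup.centralizer ({f} : Set G) := by
  classical
  set D := Subgroup.centralizer ({t} : Set G) ⊓ Subgroup.centralizer ({f} : Set G) with hD
  have hord : orderOf (f * t) = 14 := by
    rw [hc.orderOf_mul_eq_mul_orderOf_of_coprime (by rw [hf, ht]; norm_num), hf, ht]
  refine ⟨hord, ?_⟩
  have hle : Subgroup.zpowers (f * t) ≤ D := by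
    rw [Subgroup.zpowers_le]
    exact ⟨mem_cent.2 (hc.mul_left (Commute.refl t)).eq,
      mem_cent.2 ((Commute.refl f).mul_left hc.symm).eq⟩
  have h14 : 14 ∣ Nat.card D := by
    have := Subgroup.card_dvd_of_le hle
    rwa [Nat.card_zpowers, hord] at this
  have h42 : Nat.card D ∣ 42 := h.cent_seven f hf ▸ Subgroup.card_dvd_of_le inf_le_right
  refine Subgroup.eq_of_le_of_card_ge hle ?_
  rw [Nat.card_zpowers, hord]
  by_contra hne
  have hD42 : Nat.card D = 42 := by
    obtain ⟨k, hk⟩ := h14
    rw [hk] at h42 hne ⊢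
    have h3 : k ∣ 3 := Nat.dvd_of_mul_dvd_mul_left (by norm_num : 0 < 14) (show 14 * k ∣ 14 * 3 from h42)
    rcases (Nat.dvd_prime Nat.prime_three).1 h3 with rfl | rfl <;> omega
  have hDC : D = Subgroup.centralizer ({f} : Set G) :=
    Subgroup.eq_of_le_of_card_ge inf_le_right (by rw [hD42, h.cent_seven f hf])
  set F := Subgroup.centralizer ({f} : Set G) with hF
  have htF : t ∈ F := mem_cent.2 hc.symm.eq
  set T : Subgroup ↥F := Subgroup.zpowers (⟨t, htF⟩ : ↥F) with hT
  haveI : T.Normal := ⟨fun n hn g => by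
    obtain ⟨i, rfl⟩ := Subgroup.mem_zpowers_iff.1 hn
    have hg : Commute (g : G) t := by
      have hgD : (g : G) ∈ D := by rw [hDC]; exact g.2
      exact mem_cent.1 hgD.1
    have hg' : Commute g (⟨t, htF⟩ : ↥F) := Subtype.ext hg.eq
    rw [(hg'.zpow_right i).eq, mul_inv_cancel_right]
    exact hn⟩
  have hTc : Nat.card T = 2 := by rw [hT, Nat.card_zpowers, ← Subgroup.orderOf_coe]; exact ht
  have hidx : T.index = 21 := by
    have := T.card_mul_index
    rw [hTc] at this
    have hF42 : Nat.card F = 42 := h.cent_seven f hf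
    omega
  have hall : ∀ s : {s : G // orderOf s = 2 ∧ Commute s f}, (s : G) = t := by
    rintro ⟨s, hs, hsf⟩
    have hm := Subgroup.pow_index_mem T (⟨s, mem_cent.2 hsf.eq⟩ : ↥F)
    rw [hidx] at hm
    obtain ⟨i, hi⟩ := Subgroup.mem_zpowers_iff.1 hm
    have hs2 : s ^ 2 = 1 := hs ▸ pow_orderOf_eq_one s
    have e : t ^ i = s := by
      have h1 := congrArg Subtype.val hi
      push_cast at h1
      rw [h1, show (21 : ℕ) = 2 * 10 + 1 from rfl, pow_succ, pow_mul, hs2, one_pow, one_mul]
    rcases zpow_invol (show t * t = 1 by rw [← pow_two, ← ht, pow_orderOf_eq_one]) i with h1 | h1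
    · rw [← e, h1, orderOf_one] at hs; norm_num at hs
    · exact (e ▸ h1 : s = t)
  have : Subsingleton {s : G // orderOf s = 2 ∧ Commute s f} :=
    ⟨fun a b => Subtype.ext ((hall a).trans (hall b).symm)⟩
  have h1 := Finite.card_le_one_iff_subsingleton.2 this
  rw [h.invol_seven f hf] at h1
  norm_num at h1

/-- The two-core of the centraliser of an involution of class A. -/
theorem existsTwoCore : CoreStmt.ExistsTwoCore G := by
  intro hno h t ht
  classical
  haveI : Fact (Nat.Prime 7) := ⟨by norm_num⟩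
  have ht' : orderOf t = 2 := ht.1
  set C := Subgroup.centralizer ({t} : Set G) with hCdef
  have hC : Nat.card C = 21504 := h.cent_isA t ht
  have ht2 : t * t = 1 := by rw [← pow_two, ← ht', pow_orderOf_eq_one]
  have ht1 : t ≠ 1 := fun e => by rw [e, orderOf_one] at ht'; norm_num at ht'
  have htC : t ∈ C := mem_cent.2 rfl
  set T : Subgroup ↥C := Subgroup.zpowers (⟨t, htC⟩ : ↥C) with hT
  haveI hTn : T.Normal := ⟨fun n hn g => by
    obtain ⟨i, rfl⟩ := Subgroup.mem_zpowers_iff.1 hn
    have hg : Commute g (⟨t, htC⟩ : ↥C) := Subtype.ext (mem_cent.1 g.2)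
    rw [(hg.zpow_right i).eq, mul_inv_cancel_right]
    exact hn⟩
  have hTmem : ∀ c : ↥C, c ∈ T → (c : G) = 1 ∨ (c : G) = t := by
    intro c hc
    obtain ⟨i, rfl⟩ := Subgroup.mem_zpowers_iff.1 hc
    push_cast
    exact zpow_invol ht2 i
  have hTcard : Nat.card T = 2 := by rw [hT, Nat.card_zpowers, ← Subgroup.orderOf_coe]; exact ht'
  have hQ : Nat.card (↥C ⧸ T) = 10752 := by
    have := Subgroup.card_eq_card_quotient_mul_card_subgroup T
    rw [hC, hTcard] at this
    omega
  set q := QuotientGroup.mk' T with hq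
  have qsur : Function.Surjective q := QuotientGroup.mk'_surjective T
  have qeq : ∀ a b : ↥C, q a = q b → (b : G) = a ∨ (b : G) = a * t := by
    intro a b e
    have hm : a⁻¹ * b ∈ T := QuotientGroup.eq.1 e
    rcases hTmem _ hm with e' | e'
    · left; push_cast at e'; exact (inv_mul_eq_one.1 e').symm
    · right; push_cast at e'; rw [← e']; group
  have hqt : q (⟨t, htC⟩ : ↥C) = 1 := (QuotientGroup.eq_one_iff _).2 (Subgroup.mem_zpowers _)
  have same : ∀ a : G, a ^ 7 = 1 → (a * t) ^ 7 = 1 → Commute a t → False := by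
    intro a h1 h2 hc
    rw [hc.mul_pow, h1, one_mul, show (7 : ℕ) = 2 * 3 + 1 from rfl, pow_succ, pow_mul, pow_two,
      ht2, one_pow, one_mul] at h2
    exact ht1 h2
  have lift7 : ∀ fq : ↥C ⧸ T, orderOf fq = 7 → ∃ f : ↥C, orderOf f = 7 ∧ q f = fq := by
    intro fq hfq
    obtain ⟨g, rfl⟩ := qsur fq
    have h7 : (q g) ^ 7 = 1 := by rw [← hfq, pow_orderOf_eq_one]
    have hg7 : g ^ 7 ∈ T := (QuotientGroup.eq_one_iff _).1 (by rw [← map_pow] at h7; exact h7)
    have hg14 : g ^ 14 = 1 := by
      rw [show (14 : ℕ) = 7 + 7 from rfl, pow_add]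
      rcases hTmem _ hg7 with e | e <;>
        (push_cast at e; exact Subtype.ext (by push_cast; rw [e]; simp [ht2]))
    have hq8 : q (g ^ 8) = q g := by rw [map_pow, pow_succ, h7, one_mul]
    refine ⟨g ^ 8, orderOf_eq_prime ?_ ?_, hq8⟩
    · rw [← pow_mul, show 8 * 7 = 14 * 4 from rfl, pow_mul, hg14, one_pow]
    · intro e
      rw [← hq8, e, map_one, orderOf_one] at hfq
      norm_num at hfq
  -- the centraliser and normaliser of an element of order seven in the quotient
  have q7 : ∀ fq : ↥C ⧸ T, orderOf fq = 7 →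
      Nat.card (Subgroup.centralizer ({fq} : Set (↥C ⧸ T))) = 7 ∧
      Nat.card (Subgroup.normalizer (Subgroup.zpowers fq : Set (↥C ⧸ T))) ∣ 21 := by
    intro fq hfq
    obtain ⟨f, hf, rfl⟩ := lift7 fq hfq
    have hfG : orderOf (f : G) = 7 := by rw [Subgroup.orderOf_coe]; exact hf
    have hft : Commute (f : G) t := mem_cent.1 f.2
    obtain ⟨-, hz⟩ := h.cent_inf_seven ht' hfG hft
    constructor
    · have he : Subgroup.centralizer ({q f} : Set (↥C ⧸ T)) = Subgroup.zpowers (q f) := by
        refine le_antisymm ?_ (by rw [Subgroup.zpowers_le, mem_cent])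
        intro gq hgq
        obtain ⟨g, rfl⟩ := qsur gq
        have e : q (g * f * g⁻¹) = q f := by
          rw [map_mul, map_mul, map_inv, mem_cent.1 hgq, mul_inv_cancel_right]
        have hfg : (g : G) * f * (g : G)⁻¹ = f := by
          rcases qeq _ _ e with e' | e'
          · push_cast at e'; exact e'.symm
          · exfalso
            push_cast at e'
            refine same ((g : G) * f * (g : G)⁻¹) ?_ ?_ ?_
            · rw [conj_pow, ← hfG, pow_orderOf_eq_one, mul_one, mul_inv_cancel]
            · rw [← e', ← hfG, pow_orderOf_eq_one]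
            · exact mem_cent.1 (g * f * g⁻¹ : ↥C).2
        have hgm : (g : G) ∈ Subgroup.zpowers ((f : G) * t) :=
          hz.symm ▸ ⟨g.2, mem_cent.2 (mul_inv_eq_iff_eq_mul.1 hfg)⟩
        obtain ⟨i, hi⟩ := Subgroup.mem_zpowers_iff.1 hgm
        rw [Subgroup.mem_zpowers_iff]
        refine ⟨i, ?_⟩
        have hgi : g = (f * ⟨t, htC⟩) ^ i := Subtype.ext (by push_cast; exact hi.symm)
        rw [hgi, map_zpow, map_mul, hqt, mul_one]
      rw [he, Nat.card_zpowers, hfq]
    · set K := Subgroup.normalizer (Subgroup.zpowers (q f) : Set (↥C ⧸ T))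
      have hKle : (K.comap q).map C.subtype ≤
          C ⊓ Subgroup.normalizer (Subgroup.zpowers (f : G) : Set G) := by
        rintro _ ⟨g, hg, rfl⟩
        refine ⟨g.2, ?_⟩
        have hg' : q g * q f * (q g)⁻¹ ∈ Subgroup.zpowers (q f) :=
          (Subgroup.mem_normalizer_iff.1 (Subgroup.mem_comap.1 hg) _).1 (Subgroup.mem_zpowers _)
        obtain ⟨i, hi⟩ := Subgroup.mem_zpowers_iff.1 hg'
        have e : q (f ^ i) = q (g * f * g⁻¹) := by rw [map_zpow, hi, map_mul, map_mul, map_inv]
        have hfg : (g : G) * f * (g : G)⁻¹ = (f : G) ^ i := by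
          rcases qeq _ _ e with e' | e'
          · push_cast at e'; exact e'
          · exfalso
            push_cast at e'
            refine same ((f : G) ^ i) ?_ ?_ (hft.zpow_left i)
            · rw [← zpow_natCast, ← zpow_mul, mul_comm, zpow_mul, zpow_natCast, ← hfG,
                pow_orderOf_eq_one, one_zpow]
            · rw [← e', conj_pow, ← hfG, pow_orderOf_eq_one, mul_one, mul_inv_cancel]
        have hmap : (Subgroup.zpowers (f : G)).map (MulAut.conj (g : G)).toMonoidHom =
            Subgroup.zpowers (f : G) := by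
          refine Subgroup.eq_of_le_of_card_ge ?_ ?_
          · rw [MonoidHom.map_zpowers, Subgroup.zpowers_le]
            show (g : G) * f * (g : G)⁻¹ ∈ _
            rw [hfg]; exact Subgroup.zpow_mem _ (Subgroup.mem_zpowers _) _
          · rw [Subgroup.card_map_of_injective (MulEquiv.injective _)]
        refine Subgroup.mem_normalizer_iff.2 ?_
        intro a
        show a ∈ Subgroup.zpowers (f : G) ↔ (g : G) * a * (g : G)⁻¹ ∈ Subgroup.zpowers (f : G)
        conv_rhs => rw [← hmap]
        exact (Subgroup.mem_map_iff_mem (MulEquiv.injective (MulAut.conj (g : G)))).symm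
      have hd := Subgroup.card_dvd_of_le hKle
      have hd' : Nat.card ↥(C ⊓ Subgroup.normalizer (Subgroup.zpowers (f : G) : Set G)) ∣ 42 := by
        have h1 : Nat.card ↥(C ⊓ Subgroup.normalizer (Subgroup.zpowers (f : G) : Set G)) ∣ 21504 :=
          hC ▸ Subgroup.card_dvd_of_le inf_le_left
        have h2 : Nat.card ↥(C ⊓ Subgroup.normalizer (Subgroup.zpowers (f : G) : Set G)) ∣ 126 :=
          h.norm_seven _ hfG ▸ Subgroup.card_dvd_of_le inf_le_right
        exact (Nat.dvd_gcd h1 h2).trans (by norm_num)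
      have hdd := hd.trans hd'
      rw [Subgroup.card_map_of_injective C.subtype_injective] at hdd
      have h1 := (K.comap q).card_mul_index
      rw [Subgroup.index_comap_of_surjective _ qsur, hC] at h1
      have h2 := K.card_mul_index
      rw [hQ] at h2
      have h3 : Nat.card (K.comap q) = 2 * Nat.card K := by
        refine Nat.eq_of_mul_eq_mul_right (Nat.pos_of_ne_zero (Subgroup.index_ne_zero_of_finite (H := K))) ?_
        rw [h1, mul_assoc, h2]; norm_num
      rw [h3] at hdd
      exact Nat.dvd_of_mul_dvd_mul_left (by norm_num : 0 < 2) hdd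
  have cardlift : ∀ M : Subgroup (↥C ⧸ T),
      Nat.card ↥((M.comap q).map C.subtype) = 2 * Nat.card M := by
    intro M
    rw [Subgroup.card_map_of_injective C.subtype_injective]
    have h1 := (M.comap q).card_mul_index
    rw [Subgroup.index_comap_of_surjective _ qsur, hC] at h1
    have h2 := M.card_mul_index
    rw [hQ] at h2
    refine Nat.eq_of_mul_eq_mul_right (Nat.pos_of_ne_zero (Subgroup.index_ne_zero_of_finite (H := M))) ?_
    rw [h1, mul_assoc, h2]; norm_num
  have liftnormal : ∀ M : Subgroup (↥C ⧸ T), M.Normal → ∀ g : G, Commute g t →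
      ∀ a ∈ (M.comap q).map C.subtype, g * a * g⁻¹ ∈ (M.comap q).map C.subtype := by
    rintro M hM g hg _ ⟨a, ha, rfl⟩
    exact ⟨⟨g, mem_cent.2 hg.eq⟩ * a * ⟨g, mem_cent.2 hg.eq⟩⁻¹,
      (hM.comap q).conj_mem a ha _, rfl⟩
  have no512 : ∀ N : Subgroup (↥C ⧸ T), N.Normal → Nat.card N ≠ 512 := fun N hN e =>
    hno h t ht ((N.comap q).map C.subtype) (by rw [cardlift, e]) (Subgroup.map_subtype_le _)
      (liftnormal N hN)
  obtain ⟨M, hMn, hM64, hMmax⟩ :=
    exists_sixtyfour hQ (fun f hf => (q7 f hf).1) (fun f hf => (q7 f hf).2) no512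
  refine ⟨(M.comap q).map C.subtype, by rw [cardlift, hM64], Subgroup.map_subtype_le _, ?_,
    liftnormal M hMn, ?_, ?_⟩
  · exact ⟨⟨t, htC⟩, by rw [SetLike.mem_coe, Subgroup.mem_comap, hqt]; exact one_mem _, rfl⟩
  · intro L hQL hLC hLn
    set L' := L.subgroupOf C with hL'
    have hL'n : L'.Normal := ⟨fun n hn g => by
      rw [hL', Subgroup.mem_subgroupOf] at hn ⊢
      push_cast
      exact hLn _ (mem_cent.1 g.2) _ hn⟩
    have hle : M.comap q ≤ L' := fun a ha => Subgroup.mem_subgroupOf.2 (hQL ⟨a, ha, rfl⟩)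
    have hker : q.ker ≤ L' := le_trans (MonoidHom.ker_le_comap q M) hle
    have hback : (L'.map q).comap q = L' := Subgroup.comap_map_eq_self hker
    have hML : M ≤ L'.map q := by
      rw [← Subgroup.map_comap_eq_self_of_surjective qsur M]
      exact Subgroup.map_mono hle
    have hLeq : L'.map C.subtype = L := by
      rw [hL', Subgroup.subgroupOf_map_subtype]; exact inf_eq_left.2 hLC
    rcases hMmax _ (hL'n.map q qsur) hML with e | e
    · left; rw [← hLeq, ← hback, e]
    · right; rw [← hLeq, ← hback, e, Subgroup.comap_top, ← MonoidHom.range_eq_map,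
        Subgroup.range_subtype]
  · intro f hf hft a ha haf
    obtain ⟨hord, hz⟩ := h.cent_inf_seven ht' hf hft
    have ham : a ∈ Subgroup.zpowers (f * t) :=
      hz.symm ▸ ⟨Subgroup.map_subtype_le _ ha, mem_cent.2 haf.eq⟩
    obtain ⟨i, rfl⟩ := Subgroup.mem_zpowers_iff.1 ham
    have h128 : orderOf ((f * t) ^ i) ∣ 128 := by
      have := Subgroup.orderOf_dvd_natCard _ ha
      rwa [cardlift, hM64] at this
    have h14 : orderOf ((f * t) ^ i) ∣ 14 := by
      have := Subgroup.orderOf_dvd_natCard _ ham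
      rwa [Nat.card_zpowers, hord] at this
    have h2 : orderOf ((f * t) ^ i) ∣ 2 := (Nat.dvd_gcd h128 h14).trans (by norm_num)
    have h2' : (f * t) ^ (i * 2) = 1 := by
      rw [zpow_mul, zpow_two, ← pow_two]
      exact orderOf_dvd_iff_pow_eq_one.1 h2
    have h7 : ((14 : ℕ) : ℤ) ∣ i * 2 := hord ▸ orderOf_dvd_iff_zpow_eq_one.2 h2'
    obtain ⟨l, rfl⟩ : (7 : ℤ) ∣ i := by omega
    have hf7 : f ^ (7 : ℤ) = 1 := by
      rw [show (7 : ℤ) = ((7 : ℕ) : ℤ) from rfl, zpow_natCast, ← hf, pow_orderOf_eq_one]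
    rw [hft.mul_zpow, zpow_mul, hf7, one_zpow, one_mul]
    exact Subgroup.zpow_mem _ (Subgroup.mem_zpowers t) _

end CfsgLib.M24Count
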