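import Cfsg.Agent.M24Count.CoreSide
import Cfsg.Agent.M24Count.CentBGlue
import Cfsg.Agent.M24Count.CoreSolvable
import Cfsg.Agent.M24Count.CoreTwo
import Cfsg.Agent.M24Count.CoreForms
import Cfsg.Agent.M24Count.CoreLinear
import Cfsg.Agent.M24Count.CoreSeven
import Cfsg.Agent.M24Count.CoreAbelian

/-!
The frame on the two-core of the centraliser of an involution of class A.
-/

set_option autoImplicit false
set_option linter.style.haveILetI false

namespace CfsgLib.M24Count

universe u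

variable {G : Type u} [Group G] [Finite G]

/-- The condition on the distinguished side. -/
def SideOk (t : G) (U U' : Subgroup G) : Prop :=
  ∀ a ∈ U, ∀ b ∈ U', ∀ v ∈ U, a ∉ Subgroup.zpowers t → b ∉ Subgroup.zpowers t →
    a * b = b * a → v * b = b * v → v ∉ Subgroup.zpowers t → v * a⁻¹ ∉ Subgroup.zpowers t →
    Nat.card ↥(Subgroup.centralizer ({v} : Set G) ⊓ Subgroup.centralizer ({a * b} : Set G)) < 512

namespace ExtCore

variable {t : G} {Q : Subgroup G} (K : ExtCore t Q) (ht : IsA t)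
include K ht

omit ht in
theorem sides_le (f : G) {U U' : Subgroup G} (hU : Sided t Q U) (hU' : Sided t Q U') (hft : Commute f t) :
    U ⊔ U' ≤ Q ∧ t ∈ U ⊔ U' ∧ ∀ g ∈ U ⊔ U', f * g * f⁻¹ ∈ U ⊔ U' := by
  refine ⟨sup_le hU.le hU'.le, Subgroup.mem_sup_left hU.mem, fun g hg => ?_⟩
  have hle : (U ⊔ U').map (MulAut.conj f).toMonoidHom ≤ U ⊔ U' := by
    rw [Subgroup.map_sup]
    refine sup_le_sup ?_ ?_ <;> rintro _ ⟨z, hz, rfl⟩
    · exact hU.normal f hft z hz
    · exact hU'.normal f hft z hz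
  exact hle ⟨g, hg, rfl⟩

theorem sup_eq {U U' : Subgroup G} (hU : Sided t Q U) (hU' : Sided t Q U')
    (hinf : U ⊓ U' = Subgroup.zpowers t) : U ⊔ U' = Q := by
  obtain ⟨f, hf, hft⟩ := ht.2
  obtain ⟨hle, htm, hinv⟩ := K.sides_le f hU hU' hft
  refine Subgroup.eq_of_le_of_card_ge hle ?_
  have h16 : 16 ≤ Nat.card ↥(U ⊔ U') := hU.card ▸ Subgroup.card_le_of_le le_sup_left
  rcases K.toTwoCore.card_sub ht hf hft hle htm hinv with e | e | e
  · omega
  · exfalso
    have h1 : U = U ⊔ U' := Subgroup.eq_of_le_of_card_ge le_sup_left (by rw [e, hU.card])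
    have h2 : U' ≤ U := h1 ▸ le_sup_right
    rw [inf_eq_right.2 h2] at hinf
    have h3 := hU'.card
    rw [hinf, Nat.card_zpowers, ht.1] at h3
    omega
  · rw [e, K.card]

theorem gen_eq {U U' : Subgroup G} (hU : Sided t Q U) (hU' : Sided t Q U')
    (hinf : U ⊓ U' = Subgroup.zpowers t) {q : G} (hq : q ∈ Q) : ∃ a ∈ U, ∃ b ∈ U', q = a * b := by
  have hnorm : U' ≤ Subgroup.normalizer (U : Set G) := fun g hg => by
    rw [Subgroup.mem_normalizer_iff]
    intro z
    have hc : Commute g t := K.toTwoCore.commute_t (hU'.le hg)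
    refine ⟨fun hz => hU.normal g hc z hz, fun hz => ?_⟩
    have := hU.normal g⁻¹ hc.inv_left _ hz
    rwa [show g⁻¹ * (g * z * g⁻¹) * g⁻¹⁻¹ = z by group] at this
  rw [← K.sup_eq ht hU hU' hinf, ← SetLike.mem_coe,
    Subgroup.coe_mul_of_right_le_normalizer_left _ _ hnorm] at hq
  obtain ⟨a, ha, b, hb, e⟩ := hq
  exact ⟨a, ha, b, hb, e.symm⟩

theorem pairing {U U' : Subgroup G} (hU : Sided t Q U) (hU' : Sided t Q U')
    (hinf : U ⊓ U' = Subgroup.zpowers t) {a : G} (ha : a ∈ U) (ha1 : a ≠ 1) (hat : a ≠ t) :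
    ∃ b ∈ U', a * b ≠ b * a := by
  by_contra hne
  push Not at hne
  have hz : a ∈ Subgroup.zpowers t := K.centre a (hU.le ha) fun y hy => by
    obtain ⟨p, hp, r, hr, rfl⟩ := K.gen_eq ht hU hU' hinf hy
    exact ((show Commute a p from hU.comm a ha p hp).mul_right (hne r hr)).eq
  rcases (mem_zp ht.mul_self).1 hz with e | e
  · exact ha1 e
  · exact hat e

theorem frame_of_sides {U U' : Subgroup G} (hU : Sided t Q U) (hU' : Sided t Q U')
    (hinf : U ⊓ U' = Subgroup.zpowers t)
    (hpure : ∀ a ∈ U, a ∉ Subgroup.zpowers t → IsA a)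
    (hpure' : ∀ a ∈ U', a ∉ Subgroup.zpowers t → IsA a)
    (hmixed : ∀ a ∈ U, ∀ b ∈ U', a ∉ Subgroup.zpowers t → b ∉ Subgroup.zpowers t →
      a * b = b * a → orderOf (a * b) = 2 ∧ ¬ IsA (a * b))
    (hside : SideOk t U U') : Frame t Q U U' := by
  have ht2 := ht.mul_self
  have hnz : ∀ x : G, x ≠ 1 → x ≠ t → x ∉ Subgroup.zpowers t := fun x h1 h2 hz =>
    ((mem_zp ht2).1 hz).elim h1 h2
  exact
    { isA := ht
      card_Q := K.card
      Q_le := K.le
      Q_normal := K.normal
      Q_simple := K.simple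
      card_U := hU.card
      card_U' := hU'.card
      U_le := hU.le
      U'_le := hU'.le
      inf := hinf
      gen := fun q hq => K.gen_eq ht hU hU' hinf hq
      comm := hU.comm
      comm' := hU'.comm
      sq := hU.sq
      sq' := hU'.sq
      pairing := fun a ha h1 h2 => K.pairing ht hU hU' hinf ha h1 h2
      pairing' := fun b hb h1 h2 => by
        obtain ⟨a, ha, hab⟩ := K.pairing ht hU' hU (by rw [inf_comm, hinf]) hb h1 h2
        exact ⟨a, ha, Ne.symm hab⟩
      normal := hU.normal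
      normal' := hU'.normal
      trans := fun a ha b hb h1 h2 h3 h4 => by
        have : b ∈ orb t a := by rw [hU.orb_eq a ha (hnz a h1 h2)]; exact ⟨hb, hnz b h3 h4⟩
        exact this
      trans' := fun a ha b hb h1 h2 h3 h4 => by
        have : b ∈ orb t a := by rw [hU'.orb_eq a ha (hnz a h1 h2)]; exact ⟨hb, hnz b h3 h4⟩
        exact this
      pure := fun a ha h1 => by
        by_cases h2 : a = t
        · exact h2 ▸ ht
        · exact hpure a ha (hnz a h1 h2)
      pure' := fun a ha h1 => by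
        by_cases h2 : a = t
        · exact h2 ▸ ht
        · exact hpure' a ha (hnz a h1 h2)
      mixed := hmixed
      side := hside }

/-- Elements of the two sides lying in the centre of the core of one mixed involution commute, and
they cannot. -/
theorem side_or {U U' : Subgroup G} (hU : Sided t Q U) (hU' : Sided t Q U')
    (hinf : U ⊓ U' = Subgroup.zpowers t) (hB : CoreStmt.ExistsBCore G) (h : Setup G)
    (hmixed : ∀ a ∈ U, ∀ b ∈ U', a ∉ Subgroup.zpowers t → b ∉ Subgroup.zpowers t →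
      a * b = b * a → orderOf (a * b) = 2 ∧ ¬ IsA (a * b))
    (horb : ∀ a ∈ U, ∀ b ∈ U', ∀ a' ∈ U, ∀ b' ∈ U', a ∉ Subgroup.zpowers t →
      b ∉ Subgroup.zpowers t → a' ∉ Subgroup.zpowers t → b' ∉ Subgroup.zpowers t →
      a * b = b * a → a' * b' = b' * a' → a * b ∈ orb t (a' * b')) :
    SideOk t U U' ∨ SideOk t U' U := by
  classical
  have ht2 := ht.mul_self
  by_contra hne
  rw [not_or] at hne
  simp only [SideOk, not_forall, not_lt] at hne
  obtain ⟨⟨a, ha, b, hb, v, hv, haz, hbz, hab, hvb, hvz, hva, hbig⟩,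
    ⟨c, hc, d, hd, w, hw, hcz, hdz, hcd, hwd, hwz, hwc, hbig'⟩⟩ := hne
  obtain ⟨g, hg, hge⟩ := horb a ha b hb d hd c hc haz hbz hdz hcz hab hcd.symm
  set v' := g * w * g⁻¹ with hv'
  set a' := g * d * g⁻¹ with ha'
  set b' := g * c * g⁻¹ with hb'
  have ha'U : a' ∈ U := hU.normal g hg d hd
  have hb'U : b' ∈ U' := hU'.normal g hg c hc
  have hv'U : v' ∈ U' := hU'.normal g hg w hw
  have heq : a' * b' = a * b := by rw [← hge, ha', hb']; group
  obtain ⟨e, hez, hae, hbe⟩ : ∃ e ∈ Subgroup.zpowers t, a' = a * e ∧ b' = e⁻¹ * b := by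
    refine ⟨a⁻¹ * a', ?_, by rw [mul_inv_cancel_left], ?_⟩
    · rw [← hinf]
      refine Subgroup.mem_inf.2 ⟨U.mul_mem (U.inv_mem ha) ha'U, ?_⟩
      rw [show a⁻¹ * a' = b * b'⁻¹ from by
        rw [eq_mul_inv_iff_mul_eq, mul_assoc, heq, inv_mul_cancel_left]]
      exact U'.mul_mem hb (U'.inv_mem hb'U)
    · rw [mul_inv_rev, inv_inv, mul_assoc, ← heq, inv_mul_cancel_left]
  have hQ : ∀ {x : G}, x ∈ U → x ∈ Q := fun hx => hU.le hx
  have hQ' : ∀ {x : G}, x ∈ U' → x ∈ Q := fun hx => hU'.le hx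
  -- `v'` commutes with `a`
  have hv'a : v' * a = a * v' := by
    have h1 : Commute v' a' := (show Commute w d from hwd).map (MulAut.conj g).toMonoidHom
    have h2 : Commute v' e := by
      rcases (mem_zp ht2).1 hez with e' | e' <;> rw [e']
      · exact Commute.one_right _
      · exact K.toTwoCore.commute_t (hQ' hv'U)
    have h3 : a = a' * e⁻¹ := by rw [hae, mul_inv_cancel_right]
    rw [h3]
    exact (h1.mul_right h2.inv_right).eq
  have hv'z : v' ∉ Subgroup.zpowers t := fun hz => hwz (by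
    have := conj_mem_zp ht2 hg.inv_left hz
    rw [hv', show g⁻¹ * (g * w * g⁻¹) * g⁻¹⁻¹ = w by group] at this
    exact this ▸ hz)
  have hv'b : v' * b⁻¹ ∉ Subgroup.zpowers t := fun hz => hwc (by
    have h1 : v' * b'⁻¹ ∈ Subgroup.zpowers t := by
      rw [hbe, mul_inv_rev, inv_inv, ← mul_assoc]; exact mul_mem hz hez
    have h2 := conj_mem_zp ht2 hg.inv_left h1
    rw [hv', hb', show g⁻¹ * (g * w * g⁻¹ * (g * c * g⁻¹)⁻¹) * g⁻¹⁻¹ = w * c⁻¹ by group] at h2
    exact h2 ▸ h1)
  -- both commute with the centre of the core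
  obtain ⟨he2, heA⟩ := hmixed a ha b hb haz hbz hab
  obtain ⟨R, hR⟩ := hB h _ he2 heA
  have ord2 : ∀ x, x ∉ Subgroup.zpowers t → x * x = 1 → orderOf x = 2 := fun x hxz hx2 =>
    haveI : Fact (Nat.Prime 2) := ⟨by norm_num⟩
    orderOf_eq_prime (by rw [pow_two]; exact hx2) (fun e => hxz (e ▸ one_mem _))
  have hvab : Commute v (a * b) := (show Commute v a from hU.comm v hv a ha).mul_right hvb
  have hv'ab : Commute v' (a * b) :=
    (show Commute v' a from hv'a).mul_right (hU'.comm v' hv'U b hb)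
  obtain ⟨hvR, hvcen⟩ := hR.big v (ord2 v hvz (hU.sq v hv)) hvab (by rwa [inf_comm])
  have hbig2 : 512 ≤ Nat.card ↥(Subgroup.centralizer ({a * b} : Set G) ⊓
      Subgroup.centralizer ({v'} : Set G)) := by
    refine hbig'.trans (Nat.card_le_card_of_injective (fun x => ⟨g * x * g⁻¹, ?_, ?_⟩) ?_)
    · refine mem_cen.2 ?_
      have := (mem_cen.1 x.2.2).map (MulAut.conj g).toMonoidHom
      rwa [show (MulAut.conj g).toMonoidHom (c * d) = a * b by
        show g * (c * d) * g⁻¹ = a * b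
        rw [hcd]; exact hge] at this
    · exact mem_cen.2 ((mem_cen.1 x.2.1).map (MulAut.conj g).toMonoidHom)
    · intro x y e
      exact Subtype.ext (mul_left_cancel (mul_right_cancel (congrArg Subtype.val e :)))
  obtain ⟨hv'R, -⟩ := hR.big v' (ord2 v' hv'z (hU'.sq v' hv'U)) hv'ab hbig2
  have hvv' : v' * v = v * v' := (hvcen v' hv'R).eq
  -- but they do not commute
  have cfz : ∀ {x y : G}, x * y = y * x → cf x y = 0 := fun h => cf_eq_zero.2 h
  set X := U ⊓ Subgroup.centralizer ({b} : Set G) with hX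
  have hX8 : Nat.card X ≤ 8 := by
    obtain ⟨k, hk⟩ := Subgroup.card_dvd_of_le (show X ≤ U from inf_le_left)
    rw [hU.card] at hk
    have : k ≠ 1 := fun e => by
      rw [e, mul_one] at hk
      have hXU : X = U := Subgroup.eq_of_le_of_card_ge inf_le_left (by rw [hU.card]; omega)
      obtain ⟨p, hp, hbp⟩ := K.pairing ht hU' hU (by rw [inf_comm, hinf]) hb
        (fun e => hbz (e ▸ one_mem _)) (fun e => hbz (e ▸ Subgroup.mem_zpowers _))
      exact hbp (mem_cen.1 ((hXU.symm ▸ hp : p ∈ X)).2).eq.symm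
    have hk0 : k ≠ 0 := fun e => by rw [e, mul_zero] at hk; norm_num at hk
    by_contra hgt
    have := Nat.mul_le_mul (show 9 ≤ Nat.card X by omega) (show 2 ≤ k by omega)
    omega
  set Y := X ⊓ Subgroup.centralizer ({v'} : Set G) with hY
  have hmemY : ∀ z : G, z ∈ U → z * b = b * z → z * v' = v' * z → z ∈ Y := fun z hz h1 h2 =>
    Subgroup.mem_inf.2 ⟨Subgroup.mem_inf.2 ⟨hz, mem_cen.2 h1⟩, mem_cen.2 h2⟩
  have htY : t ∈ Y := hmemY t hU.mem (K.toTwoCore.commute_t (hQ' hb)).symm.eq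
    (K.toTwoCore.commute_t (hQ' hv'U)).symm.eq
  have haY : a ∈ Y := hmemY a ha hab hv'a.symm
  have hvY : v ∈ Y := hmemY v hv hvb hvv'.symm
  have hY8 : 8 ≤ Nat.card Y := by
    have hfun : ∀ p : Bool × Bool × Bool, (if p.1 then t else 1) *
        ((if p.2.1 then a else 1) * if p.2.2 then v else 1) ∈ Y := fun p =>
      Y.mul_mem (by split_ifs <;> first | exact htY | exact one_mem _)
        (Y.mul_mem (by split_ifs <;> first | exact haY | exact one_mem _)
          (by split_ifs <;> first | exact hvY | exact one_mem _))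
    have hker : ∀ p q : Bool, (if p then a else 1) * (if q then v else 1) ∈ Subgroup.zpowers t →
        p = false ∧ q = false := by
      intro p q hz
      cases p <;> cases q <;> simp at hz ⊢
      · exact hvz hz
      · exact haz hz
      · refine hva ?_
        have h1 : v * a⁻¹ = a * v := by
          rw [inv_eq_of_mul_eq_one_right (hU.sq a ha), hU.comm v hv a ha]
        rwa [h1]
    let F : Bool × Bool × Bool → ↥Y := fun p => ⟨_, hfun p⟩
    have hinj : Function.Injective F := by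
      rintro ⟨p₀, p₁, p₂⟩ ⟨q₀, q₁, q₂⟩ e
      have e' : (if p₀ then t else 1) * ((if p₁ then a else 1) * if p₂ then v else 1) =
          (if q₀ then t else 1) * ((if q₁ then a else 1) * if q₂ then v else 1) :=
        congrArg Subtype.val e
      have hU2 : ∀ (p : Bool) (z : G), z ∈ U → (if p then z else 1) ∈ U := fun p z hz => by
        split_ifs; exacts [hz, one_mem _]
      have sqU : ∀ z ∈ U, z⁻¹ = z := fun z hz => inv_eq_of_mul_eq_one_right (hU.sq z hz)
      have key : (if xor p₁ q₁ then a else 1) * (if xor p₂ q₂ then v else 1) ∈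
          Subgroup.zpowers t := by
        have h1 : (if p₀ then t else 1) ∈ Subgroup.zpowers t := by
          split_ifs; exacts [Subgroup.mem_zpowers t, one_mem _]
        have h2 : (if q₀ then t else 1) ∈ Subgroup.zpowers t := by
          split_ifs; exacts [Subgroup.mem_zpowers t, one_mem _]
        have h3 : ((if q₁ then a else 1) * if q₂ then v else 1) *
            ((if p₁ then a else 1) * if p₂ then v else 1)⁻¹ ∈ Subgroup.zpowers t := by
          have : ((if q₁ then a else 1) * if q₂ then v else 1) *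
              ((if p₁ then a else 1) * if p₂ then v else 1)⁻¹ =
              (if q₀ then t else 1)⁻¹ * (if p₀ then t else 1) := by
            rw [mul_inv_eq_iff_eq_mul, mul_assoc, e', inv_mul_cancel_left]
          rw [this]; exact mul_mem (inv_mem h2) h1
        have hxor : ∀ (z : G), z ∈ U → ∀ p q : Bool,
            (if xor p q then z else 1) = (if q then z else 1) * (if p then z else 1) := by
          intro z hz p q
          cases p <;> cases q <;> simp [hU.sq z hz]
        rw [hxor a ha p₁ q₁, hxor v hv p₂ q₂]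
        have hpU : ((if p₁ then a else 1) * if p₂ then v else 1) ∈ U :=
          U.mul_mem (hU2 p₁ a ha) (hU2 p₂ v hv)
        rw [sqU _ hpU] at h3
        rwa [mul_assoc (if q₁ then a else 1) (if p₁ then a else 1),
          ← mul_assoc (if p₁ then a else 1) (if q₂ then v else 1),
          hU.comm _ (hU2 p₁ a ha) _ (hU2 q₂ v hv), mul_assoc (if q₂ then v else 1),
          ← mul_assoc (if q₁ then a else 1) (if q₂ then v else 1)]
      obtain ⟨h1, h2⟩ := hker _ _ key
      have e1 : p₁ = q₁ := by revert h1; cases p₁ <;> cases q₁ <;> simp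
      have e2 : p₂ = q₂ := by revert h2; cases p₂ <;> cases q₂ <;> simp
      subst e1; subst e2
      have e0 := mul_right_cancel e'
      have : p₀ = q₀ := by
        cases p₀ <;> cases q₀ <;> simp at e0 ⊢
        · exact ht.ne_one e0.symm
        · exact ht.ne_one e0
      subst this; rfl
    have := Nat.card_le_card_of_injective F hinj
    rwa [Nat.card_prod, Nat.card_prod, Nat.card_eq_fintype_card, Fintype.card_bool] at this
  have hXY : Y = X := Subgroup.eq_of_le_of_card_ge inf_le_left (hX8.trans hY8)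
  -- the centraliser of `b` in `U` is that of `v'`
  set X' := U ⊓ Subgroup.centralizer ({v'} : Set G) with hX'
  have hX'8 : Nat.card X' ≤ 8 := by
    obtain ⟨k, hk⟩ := Subgroup.card_dvd_of_le (show X' ≤ U from inf_le_left)
    rw [hU.card] at hk
    have : k ≠ 1 := fun e => by
      rw [e, mul_one] at hk
      have hXU : X' = U := Subgroup.eq_of_le_of_card_ge inf_le_left (by rw [hU.card]; omega)
      obtain ⟨p, hp, hbp⟩ := K.pairing ht hU' hU (by rw [inf_comm, hinf]) hv'U
        (fun e => hv'z (e ▸ one_mem _)) (fun e => hv'z (e ▸ Subgroup.mem_zpowers _))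
      exact hbp (mem_cen.1 ((hXU.symm ▸ hp : p ∈ X')).2).eq.symm
    have hk0 : k ≠ 0 := fun e => by rw [e, mul_zero] at hk; norm_num at hk
    by_contra hgt
    have := Nat.mul_le_mul (show 9 ≤ Nat.card X' by omega) (show 2 ≤ k by omega)
    omega
  have hX'Y : Y = X' := Subgroup.eq_of_le_of_card_ge
    (fun z hz => Subgroup.mem_inf.2 ⟨hz.1.1, hz.2⟩) (hX'8.trans hY8)
  have hprod : ∀ z ∈ U, cf (v' * b) z = 0 := by
    intro z hz
    rw [K.cf_mul_left ht (hQ' hv'U) (hQ' hb) (hQ hz)]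
    have h2 : ∀ c : ZMod 2, c = 0 ∨ c = 1 := by decide
    have hiff : cf v' z = 0 ↔ cf b z = 0 := by
      rw [cf_eq_zero, cf_eq_zero]
      constructor
      · intro h1
        have : z ∈ X := hXY ▸ hX'Y.symm ▸ (Subgroup.mem_inf.2 ⟨hz, mem_cen.2 h1.symm⟩ : z ∈ X')
        exact (mem_cen.1 this.2).eq.symm
      · intro h1
        have : z ∈ X' := hX'Y ▸ hXY.symm ▸ (Subgroup.mem_inf.2 ⟨hz, mem_cen.2 h1.symm⟩ : z ∈ X)
        exact (mem_cen.1 this.2).eq.symm
    rcases h2 (cf v' z) with e1 | e1 <;> rcases h2 (cf b z) with e2 | e2 <;> rw [e1, e2] at hiff ⊢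
    · decide
    · exact absurd (hiff.1 rfl) (by decide)
    · exact absurd (hiff.2 rfl) (by decide)
    · decide
  refine hv'b ?_
  rw [inv_eq_of_mul_eq_one_right (hU'.sq b hb)]
  refine K.centre _ (Q.mul_mem (hQ' hv'U) (hQ' hb)) fun y hy => ?_
  obtain ⟨p, hp, r, hr, rfl⟩ := K.gen_eq ht hU hU' hinf hy
  exact ((show Commute (v' * b) p from cf_eq_zero.1 (hprod p hp)).mul_right
    (hU'.comm _ (U'.mul_mem hv'U hb) r hr)).eq

end ExtCore

/-- The two-core of the centraliser of an involution of class A carries a frame. -/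
theorem Setup.exists_frame (h : Setup G) {t : G} (ht : IsA t) :
    ∃ Q U U', Frame t Q U U' := by
  classical
  have hB : CoreStmt.ExistsBCore G := existsBCore
  have hCI : CoreStmt.CenterIndex G := centerIndex
  obtain ⟨Q, K0⟩ := existsTwoCore (notSylowTwoNormal hB) h t ht
  obtain ⟨b, hb2, hbA, hbt, h512⟩ := h.exists_b ht
  have hbQ : b ∈ Q := K0.mem_of_big h ht hb2 hbt h512
  obtain ⟨R, hR⟩ := hB h b hb2 hbA
  have K : ExtCore t Q := K0.extCore h noAbelian hCI quadLinear ht hR hbQ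
  have ht2 := ht.mul_self
  have hbb : b * b = 1 := by rw [← pow_two, ← hb2, pow_orderOf_eq_one]
  have hbz : b ∉ Subgroup.zpowers t := fun hz => by
    rcases (mem_zp ht2).1 hz with e | e
    · rw [e, orderOf_one] at hb2; norm_num at hb2
    · exact hbA (e ▸ ht)
  have hb42 : Nat.card ↥(orb t b) = 42 := by
    obtain ⟨h14, -⟩ := K.orb_dvd ht h hbQ hbz
    have hmul := orb_card_mul t b
    rw [h.cent_isA t ht] at hmul
    obtain ⟨k, hk⟩ := h512
    rw [hk, mul_assoc] at hmul
    have h42 : k * Nat.card ↥(orb t b) = 42 := by omega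
    have hd : Nat.card ↥(orb t b) ∣ 42 := ⟨k, by rw [← h42, mul_comm]⟩
    obtain ⟨j, hj⟩ := h14
    have hj3 : j ∣ 3 := by
      rw [hj, show 42 = 14 * 3 from rfl] at hd
      exact Nat.dvd_of_mul_dvd_mul_left (by norm_num) hd
    rcases (Nat.dvd_prime (by norm_num)).1 hj3 with e | e
    · exfalso
      rw [e] at hj
      obtain ⟨U, hU, hbU⟩ := K.sided_of_small ht h hCI sevenPoints hbQ hbz hj (Or.inl hbb)
      exact hbA (K.side_isA ht h hB hU hbU hbz hj)
    · rw [hj, e]
  -- the seventy involutions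
  set Iv : Set G := {x | x ∈ Q ∧ x ∉ Subgroup.zpowers t ∧ x * x = 1} with hIv
  have hIv70 : Iv.ncard = 70 := K.card_invol ht gaussSum
  have horbIv : ∀ x ∈ Iv, orb t x ⊆ Iv := by
    rintro x ⟨hx, hxz, hx2⟩ w hw
    refine ⟨K.orb_sub hx hw, K.orb_not_zp ht hxz hw, ?_⟩
    obtain ⟨g, -, rfl⟩ := hw
    rw [show g * x * g⁻¹ * (g * x * g⁻¹) = g * (x * x) * g⁻¹ by group, hx2, mul_one, mul_inv_cancel]
  have hdisj : ∀ x y : G, y ∉ orb t x → Disjoint (orb t x) (orb t y) := fun x y hy =>
    Set.disjoint_left.2 fun w hw hw' => hy (by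
      rw [← mem_orb_symm hw, mem_orb_symm hw']; exact self_mem_orb t y)
  have hnc : ∀ x : G, (orb t x).ncard = Nat.card ↥(orb t x) := fun x =>
    (Nat.card_coe_set_eq _).symm
  have hbI : b ∈ Iv := ⟨hbQ, hbz, hbb⟩
  obtain ⟨v, hvI, hvb⟩ : ∃ v ∈ Iv, v ∉ orb t b := by
    by_contra hne
    push Not at hne
    have := Set.ncard_le_ncard (show Iv ⊆ orb t b from hne)
    rw [hIv70, hnc, hb42] at this
    omega
  have h2u : (orb t b ∪ orb t v).ncard = 42 + Nat.card ↥(orb t v) := by
    rw [Set.ncard_union_eq (hdisj b v hvb), hnc, hnc, hb42]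
  have hvn : Nat.card ↥(orb t v) = 14 := by
    have hle := Set.ncard_le_ncard (Set.union_subset (horbIv b hbI) (horbIv v hvI))
    rw [h2u, hIv70] at hle
    obtain ⟨⟨j, hj⟩, -⟩ := K.orb_dvd ht h hvI.1 hvI.2.1
    have hpos : 0 < Nat.card ↥(orb t v) := by
      haveI : Nonempty ↥(orb t v) := ⟨⟨v, self_mem_orb t v⟩⟩
      exact Nat.card_pos
    rcases (show j = 1 ∨ j = 2 by omega) with e | e
    · omega
    · exfalso
      rw [e] at hj
      have heq : orb t b ∪ orb t v = Iv := Set.eq_of_subset_of_ncard_le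
        (Set.union_subset (horbIv b hbI) (horbIv v hvI)) (by rw [h2u, hIv70, hj])
      refine K.no_twentyeight ht h hCI sevenPoints hbQ hbz hbb hb42 hvI.1 hvI.2.1 hj ?_
      intro x hx hxz hx2
      have : x ∈ orb t b ∪ orb t v := by rw [heq]; exact ⟨hx, hxz, hx2⟩
      exact this
  obtain ⟨v', hv'I, hv'ne⟩ : ∃ v' ∈ Iv, v' ∉ orb t b ∪ orb t v := by
    by_contra hne
    push Not at hne
    have := Set.ncard_le_ncard (show Iv ⊆ orb t b ∪ orb t v from hne)
    rw [hIv70, h2u, hvn] at this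
    omega
  simp only [Set.mem_union, not_or] at hv'ne
  have hdis3 : Disjoint (orb t b ∪ orb t v) (orb t v') :=
    Disjoint.union_left (hdisj b v' hv'ne.1) (hdisj v v' hv'ne.2)
  have h3u : (orb t b ∪ orb t v ∪ orb t v').ncard = 56 + Nat.card ↥(orb t v') := by
    rw [Set.ncard_union_eq hdis3, h2u, hnc, hvn]
  have hsub3 : orb t b ∪ orb t v ∪ orb t v' ⊆ Iv :=
    Set.union_subset (Set.union_subset (horbIv b hbI) (horbIv v hvI)) (horbIv v' hv'I)
  have hv'n : Nat.card ↥(orb t v') = 14 := by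
    have hle := Set.ncard_le_ncard hsub3
    rw [h3u, hIv70] at hle
    obtain ⟨⟨j, hj⟩, -⟩ := K.orb_dvd ht h hv'I.1 hv'I.2.1
    have hpos : 0 < Nat.card ↥(orb t v') := by
      haveI : Nonempty ↥(orb t v') := ⟨⟨v', self_mem_orb t v'⟩⟩
      exact Nat.card_pos
    omega
  have hall : orb t b ∪ orb t v ∪ orb t v' = Iv :=
    Set.eq_of_subset_of_ncard_le hsub3 (by rw [h3u, hIv70, hv'n])
  obtain ⟨U, hU, hvU⟩ := K.sided_of_small ht h hCI sevenPoints hvI.1 hvI.2.1 hvn (Or.inl hvI.2.2)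
  obtain ⟨U', hU', hv'U⟩ :=
    K.sided_of_small ht h hCI sevenPoints hv'I.1 hv'I.2.1 hv'n (Or.inl hv'I.2.2)
  have hUo : ∀ a ∈ U, a ∉ Subgroup.zpowers t → a ∈ orb t v := fun a ha haz => by
    rw [hU.orb_eq v hvU hvI.2.1]; exact ⟨ha, haz⟩
  have hU'o : ∀ a ∈ U', a ∉ Subgroup.zpowers t → a ∈ orb t v' := fun a ha haz => by
    rw [hU'.orb_eq v' hv'U hv'I.2.1]; exact ⟨ha, haz⟩
  have hinf : U ⊓ U' = Subgroup.zpowers t := by
    refine le_antisymm (fun a ha => ?_) (Subgroup.zpowers_le.2 (Subgroup.mem_inf.2 ⟨hU.mem, hU'.mem⟩))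
    by_contra haz
    exact Set.disjoint_left.1 (hdisj v v' hv'ne.2) (hUo a ha.1 haz) (hU'o a ha.2 haz)
  have hmix : ∀ a ∈ U, ∀ c ∈ U', a ∉ Subgroup.zpowers t → c ∉ Subgroup.zpowers t →
      a * c = c * a → a * c ∈ orb t b := by
    intro a ha c hc haz hcz hac
    have hacU : a * c ∉ U := fun hm => hcz (by
      rw [← hinf]
      refine Subgroup.mem_inf.2 ⟨?_, hc⟩
      have := U.mul_mem (U.inv_mem ha) hm
      rwa [inv_mul_cancel_left] at this)
    have hacU' : a * c ∉ U' := fun hm => haz (by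
      rw [← hinf]
      refine Subgroup.mem_inf.2 ⟨ha, ?_⟩
      have := U'.mul_mem hm (U'.inv_mem hc)
      rwa [mul_inv_cancel_right] at this)
    have hI : a * c ∈ Iv := by
      refine ⟨Q.mul_mem (hU.le ha) (hU'.le hc), fun hz => hacU ?_, ?_⟩
      · exact Subgroup.zpowers_le.2 hU.mem hz
      · calc a * c * (a * c) = a * (c * a) * c := by group
          _ = a * (a * c) * c := by rw [hac]
          _ = (a * a) * (c * c) := by group
          _ = 1 := by rw [hU.sq a ha, hU'.sq c hc, one_mul]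
    rw [← hall] at hI
    rcases hI with (h1 | h1) | h1
    · exact h1
    · refine absurd ?_ hacU
      rw [hU.orb_eq v hvU hvI.2.1] at h1
      exact h1.1
    · refine absurd ?_ hacU'
      rw [hU'.orb_eq v' hv'U hv'I.2.1] at h1
      exact h1.1
  have hmixed : ∀ a ∈ U, ∀ c ∈ U', a ∉ Subgroup.zpowers t → c ∉ Subgroup.zpowers t →
      a * c = c * a → orderOf (a * c) = 2 ∧ ¬ IsA (a * c) := by
    intro a ha c hc haz hcz hac
    have hm := hmix a ha c hc haz hcz hac
    refine ⟨?_, fun hA => ?_⟩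
    · obtain ⟨g, -, e⟩ := hm
      rw [← e, show g * b * g⁻¹ = MulAut.conj g b from rfl, MulEquiv.orderOf_eq, hb2]
    · exact hbA (isA_of_mem_orb (mem_orb_symm hm ▸ self_mem_orb t b) hA)
  have hp : ∀ a ∈ U, a ∉ Subgroup.zpowers t → IsA a := fun a ha haz =>
    K.side_isA ht h hB hU ha haz (by rw [mem_orb_symm (hUo a ha haz), hvn])
  have hp' : ∀ a ∈ U', a ∉ Subgroup.zpowers t → IsA a := fun a ha haz =>
    K.side_isA ht h hB hU' ha haz (by rw [mem_orb_symm (hU'o a ha haz), hv'n])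
  rcases K.side_or ht hU hU' hinf hB h hmixed (fun a ha c hc a' ha' c' hc' h1 h2 h3 h4 h5 h6 => by
      rw [mem_orb_symm (hmix a' ha' c' hc' h3 h4 h6)]
      exact hmix a ha c hc h1 h2 h5) with hs | hs
  · exact ⟨Q, U, U', K.frame_of_sides ht hU hU' hinf hp hp' hmixed hs⟩
  · exact ⟨Q, U', U, K.frame_of_sides ht hU' hU (by rw [inf_comm, hinf]) hp' hp
      (fun a ha c hc haz hcz hac => by rw [hac]; exact hmixed c hc a ha hcz haz hac.symm) hs⟩

end CfsgLib.M24Count
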