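import Cfsg.Agent.M24Count.CoreCase

/-!
The involutions outside `⟨t⟩` of a side are of class A.
-/

set_option autoImplicit false
set_option linter.style.haveILetI false

namespace CfsgLib.M24Count

universe u

variable {G : Type u} [Group G] [Finite G]

/-- An element of order three fixing modulo `N` a subgroup of index two fixes everything. -/
theorem fixed_step {x : G} (hx : x * x * x = 1) {P V N : Subgroup G} (hNV : N ≤ V) (hVP : V ≤ P)
    (h2 : Nat.card P = 2 * Nat.card V) (hxP : ∀ p ∈ P, x * p * x⁻¹ ∈ P)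
    (hxN : ∀ n ∈ N, x * n * x⁻¹ ∈ N) (hVN : ∀ v ∈ V, ∀ n ∈ N, v * n * v⁻¹ ∈ N)
    (hfix : ∀ v ∈ V, v⁻¹ * (x * v * x⁻¹) ∈ N) (hsq : ∀ v ∈ V, v * v ∈ N) {y : G} (hy : y ∈ P) :
    y⁻¹ * (x * y * x⁻¹) ∈ N := by
  by_cases hyV : y ∈ V
  · exact hfix y hyV
  have hidx : (V.subgroupOf P).index = 2 := by
    have h1 := (V.subgroupOf P).card_mul_index
    rw [Nat.card_congr (Subgroup.subgroupOfEquivOfLe hVP).toEquiv, h2, mul_comm 2] at h1
    exact Nat.eq_of_mul_eq_mul_left Nat.card_pos h1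
  have hxV : ∀ v ∈ V, x * v * x⁻¹ ∈ V := fun v hv => by
    have := V.mul_mem hv (hNV (hfix v hv))
    rwa [mul_inv_cancel_left] at this
  have hy'V : x * y * x⁻¹ ∉ V := fun hc => hyV (by
    have h1 := hxV _ (hxV _ hc)
    rwa [show x * (x * (x * y * x⁻¹) * x⁻¹) * x⁻¹ = x * x * x * y * (x * x * x)⁻¹ by group, hx,
      one_mul, inv_one, mul_one] at h1)
  set e := y⁻¹ * (x * y * x⁻¹) with he
  have heV : e ∈ V := by
    have h1 := (Subgroup.mul_mem_iff_of_index_two hidx (a := (⟨y, hy⟩ : ↥P)⁻¹)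
      (b := ⟨x * y * x⁻¹, hxP y hy⟩)).2 (by
        rw [Subgroup.inv_mem_iff, Subgroup.mem_subgroupOf, Subgroup.mem_subgroupOf]
        exact iff_of_false hyV hy'V)
    exact h1
  -- the third power gives `e ∈ N`
  set n1 := e⁻¹ * (x * e * x⁻¹) with hn1
  have hn1N : n1 ∈ N := hfix e heV
  have hprod : e * (x * e * x⁻¹) * (x * (x * e * x⁻¹) * x⁻¹) = 1 := by
    rw [he, show y⁻¹ * (x * y * x⁻¹) * (x * (y⁻¹ * (x * y * x⁻¹)) * x⁻¹) *
      (x * (x * (y⁻¹ * (x * y * x⁻¹)) * x⁻¹) * x⁻¹) = y⁻¹ * (x * x * x * y * (x * x * x)⁻¹) by group,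
      hx, one_mul, inv_one, mul_one, inv_mul_cancel]
  have hee : e * e * e ∈ N := by
    have hx2 : x * (x * e * x⁻¹) * x⁻¹ = e * n1 * (x * n1 * x⁻¹) := by
      rw [hn1]; group
    rw [hx2, show x * e * x⁻¹ = e * n1 by rw [hn1, mul_inv_cancel_left]] at hprod
    have h3 : e * e * e = ((e⁻¹ * n1 * e) * (n1 * (x * n1 * x⁻¹)))⁻¹ :=
      eq_inv_of_mul_eq_one_left (by
        calc e * e * e * ((e⁻¹ * n1 * e) * (n1 * (x * n1 * x⁻¹)))
            = e * (e * n1) * (e * n1 * (x * n1 * x⁻¹)) := by group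
          _ = 1 := hprod)
    rw [h3]
    have hk : (e⁻¹ * n1 * e) * (n1 * (x * n1 * x⁻¹)) ∈ N := by
      refine N.mul_mem ?_ (N.mul_mem hn1N (hxN _ hn1N))
      have := hVN _ (V.inv_mem heV) _ hn1N
      rwa [inv_inv] at this
    exact N.inv_mem hk
  have := N.mul_mem (N.inv_mem (hsq e heV)) hee
  rwa [inv_mul_cancel_left] at this

namespace ExtCore

variable {t : G} {Q : Subgroup G} (K : ExtCore t Q) (ht : IsA t)
include K ht

/-- An element of order three outside `Q` fixes at most one nontrivial class of a section of order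
eight. -/
theorem fixed_two {f x : G} (hf : orderOf f = 7) (hft : Commute f t) (hx : x * x * x = 1)
    (hxt : Commute x t) (hxQ : x ∉ Q) {M N : Subgroup G} (hM : M ≤ Q) (hNM : N ≤ M) (htN : t ∈ N)
    (hMn : ∀ g : G, Commute g t → ∀ a ∈ M, g * a * g⁻¹ ∈ M)
    (hNn : ∀ g : G, Commute g t → ∀ a ∈ N, g * a * g⁻¹ ∈ N)
    (h8 : Nat.card M = 8 * Nat.card N) {r r' : G} (hr : r ∈ M) (hrN : r ∉ N)
    (hrf : r⁻¹ * (x * r * x⁻¹) ∈ N) (hr' : r' ∈ M) (hr'N : r' ∉ N)
    (hr'f : r'⁻¹ * (x * r' * x⁻¹) ∈ N) : r⁻¹ * r' ∈ N := by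
  by_contra hne
  have hMN : ∀ m ∈ M, ∀ n ∈ N, m * n * m⁻¹ ∈ N := fun m hm n hn =>
    hNn m (K.toTwoCore.commute_t (hM hm)) n hn
  have hNz : ∀ e ∈ Subgroup.zpowers t, e ∈ N := fun e he => Subgroup.zpowers_le.2 htN he
  let F : Subgroup G :=
    { carrier := {m | m ∈ M ∧ m⁻¹ * (x * m * x⁻¹) ∈ N}
      one_mem' := ⟨one_mem _, by simp⟩
      mul_mem' := by
        rintro m k ⟨hm, hm'⟩ ⟨hk, hk'⟩
        refine ⟨M.mul_mem hm hk, ?_⟩
        have := N.mul_mem (hMN _ (M.inv_mem hk) _ hm') hk'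
        rwa [show k⁻¹ * (m⁻¹ * (x * m * x⁻¹)) * k⁻¹⁻¹ * (k⁻¹ * (x * k * x⁻¹)) =
          (m * k)⁻¹ * (x * (m * k) * x⁻¹) by group] at this
      inv_mem' := by
        rintro m ⟨hm, hm'⟩
        refine ⟨M.inv_mem hm, ?_⟩
        have := hMN _ hm _ (N.inv_mem hm')
        rwa [show m * (m⁻¹ * (x * m * x⁻¹))⁻¹ * m⁻¹ = m⁻¹⁻¹ * (x * m⁻¹ * x⁻¹) by group] at this }
  have hNF : N ≤ F := fun n hn =>
    ⟨hNM hn, N.mul_mem (N.inv_mem hn) (hNn x hxt n hn)⟩
  have hFM : F ≤ M := fun m hm => hm.1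
  have hrF : r ∈ F := ⟨hr, hrf⟩
  have hr'F : r' ∈ F := ⟨hr', hr'f⟩
  obtain ⟨k, hk⟩ := Subgroup.card_dvd_of_le hNF
  have hk8 : k ∣ 8 := by
    have hd := Subgroup.card_dvd_of_le hFM
    rw [h8, hk, mul_comm 8] at hd
    exact Nat.dvd_of_mul_dvd_mul_left Nat.card_pos hd
  have hkcases : k = 1 ∨ k = 2 ∨ k = 4 ∨ k = 8 := by
    have : k ≤ 8 := Nat.le_of_dvd (by norm_num) hk8
    interval_cases k <;> omega
  have hall : ∀ m ∈ M, m⁻¹ * (x * m * x⁻¹) ∈ N := by
    rcases hkcases with e | e | e | e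
    · refine absurd ?_ hrN
      rw [Subgroup.eq_of_le_of_card_ge hNF (by rw [hk, e, mul_one])]
      exact hrF
    · refine absurd ?_ hne
      have hidx : (N.subgroupOf F).index = 2 := by
        have h1 := (N.subgroupOf F).card_mul_index
        rw [Nat.card_congr (Subgroup.subgroupOfEquivOfLe hNF).toEquiv, hk, e] at h1
        exact Nat.eq_of_mul_eq_mul_left Nat.card_pos h1
      have := (Subgroup.mul_mem_iff_of_index_two hidx (a := (⟨r, hrF⟩ : ↥F)⁻¹) (b := ⟨r', hr'F⟩)).2 (by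
        rw [Subgroup.inv_mem_iff, Subgroup.mem_subgroupOf, Subgroup.mem_subgroupOf]
        exact iff_of_false hrN hr'N)
      exact this
    · intro m hm
      exact fixed_step hx hNF hFM (by rw [h8, hk, e]; ring) (hMn x hxt) (hNn x hxt)
        (fun v hv => hMN v (hFM hv)) (fun v hv => hv.2)
        (fun v hv => (K.toTwoCore.section_sq ht hf hft hM hNM htN (hMn f hft) (hNn f hft) hMN h8).1 v
          (hFM hv)) hm
    · intro m hm
      have hFM' : F = M := Subgroup.eq_of_le_of_card_ge hFM (by rw [h8, hk, e, mul_comm])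
      exact ((hFM' ▸ hm : m ∈ F)).2
  refine hxQ (K.toTwoCore.mem_of_section ht hf hft hM hNM htN hMn hNn h8
    (fun q hq m hm => hNz _ (K.comm q hq m (hM hm))) hxt fun m hm => ?_)
  have := hMN m hm _ (hall m hm)
  rwa [show m * (m⁻¹ * (x * m * x⁻¹)) * m⁻¹ = x * m * x⁻¹ * m⁻¹ by group] at this

/-- The elements of a side outside `⟨t⟩` are of class A. -/
theorem side_isA (h : Setup G) (hB : CoreStmt.ExistsBCore G) {U : Subgroup G} (hU : Sided t Q U)
    {a : G} (ha : a ∈ U) (haz : a ∉ Subgroup.zpowers t) (h14 : Nat.card ↥(orb t a) = 14) :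
    IsA a := by
  classical
  haveI : Fact (Nat.Prime 3) := ⟨by norm_num⟩
  haveI : Fact (Nat.Prime 2) := ⟨by norm_num⟩
  obtain ⟨f, hf, hft⟩ := ht.2
  have ht2 := ht.mul_self
  have ha2 : orderOf a = 2 := orderOf_eq_prime (by rw [pow_two]; exact hU.sq a ha)
    (fun e => haz (e ▸ one_mem _))
  by_contra hA
  have hat : Commute a t := K.toTwoCore.commute_t (hU.le ha)
  set C := Subgroup.centralizer ({t} : Set G) with hC
  set Ca := Subgroup.centralizer ({a} : Set G) with hCa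
  have hm : Nat.card ↥(C ⊓ Ca) = 1536 := by
    have := orb_card_mul t a
    rw [h14, h.cent_isA t ht] at this
    change Nat.card ↥(C ⊓ Ca) * 14 = 21504 at this
    omega
  obtain ⟨R, hR⟩ := hB h a ha2 hA
  obtain ⟨htR, hRt⟩ := hR.big t ht.1 hat.symm (by rw [inf_comm, hm]; norm_num)
  have hT5 : Nat.card ↥(orb a t) = 5 := by
    have := orb_card_mul a t
    rw [h.cent_not_isA a ha2 hA, inf_comm, hm] at this
    omega
  have hTR : ∀ s ∈ orb a t, s ∈ R ∧ Commute s t ∧ Commute s a ∧ s * s = 1 ∧ s ≠ 1 := by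
    rintro s ⟨g, hg, rfl⟩
    have hs := hR.normal g hg t htR
    refine ⟨hs, hRt _ hs, mem_cen.1 (hR.le hs), ?_, ?_⟩
    · rw [show g * t * g⁻¹ * (g * t * g⁻¹) = g * (t * t) * g⁻¹ by group, ht2, mul_one, mul_inv_cancel]
    · exact fun e => ht.ne_one (conj_eq_one_iff.1 e)
  obtain ⟨x, hx⟩ := exists_prime_orderOf_dvd_card' (G := ↥(C ⊓ Ca)) 3 (by rw [hm]; norm_num)
  rw [← Subgroup.orderOf_coe] at hx
  have hxt : Commute (x : G) t := mem_cen.1 x.2.1
  have hxa : Commute (x : G) a := mem_cen.1 x.2.2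
  have hx3 : (x : G) * x * x = 1 := by rw [← pow_three', ← hx, pow_orderOf_eq_one]
  have hxQ : (x : G) ∉ Q := fun hq => by
    have := Subgroup.orderOf_dvd_natCard Q hq
    rw [hx, K.card] at this
    norm_num at this
  haveI := K.toTwoCore.normal_subgroupOf
  haveI := K.toTwoCore.quot_simple h ht
  have h168 : Nat.card (↥C ⧸ Q.subgroupOf C) = 168 := K.toTwoCore.quot_card h ht
  -- the fixed points of `x` in the orbit
  have hfix : ∀ s ∈ orb a t, Commute (x : G) s → s = t ∨ s = a * t := by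
    intro s hs hxs
    obtain ⟨-, hst, hsa, hs2, hs1⟩ := hTR s hs
    have hsQ : s ∈ Q := by
      set π := QuotientGroup.mk' (Q.subgroupOf C) with hπ
      let sc : ↥C := ⟨s, mem_cen.2 hst⟩
      let xc : ↥C := ⟨x, mem_cen.2 hxt⟩
      have hxo : orderOf (π xc) = 3 := by
        refine orderOf_eq_prime ?_ (fun e => hxQ ((QuotientGroup.eq_one_iff xc).1 e))
        rw [← map_pow, show xc ^ 3 = 1 from Subtype.ext (by
          push_cast; rw [pow_three']; exact hx3), map_one]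
      have hmem := Simple168.mem_zpowers_of_commute h168 (g := π sc) (Or.inl hxo)
        ((show Commute sc xc from Subtype.ext hxs.symm.eq).map π)
      have hd := Subgroup.orderOf_dvd_natCard _ hmem
      rw [Nat.card_zpowers, hxo] at hd
      have h2 : orderOf (π sc) ∣ 2 := orderOf_dvd_of_pow_eq_one (by
        rw [← map_pow, show sc ^ 2 = 1 from Subtype.ext (by push_cast; rw [pow_two]; exact hs2),
          map_one])
      exact (QuotientGroup.eq_one_iff sc).1
        (orderOf_eq_one_iff.1 (Nat.dvd_one.1 ((Nat.dvd_gcd hd h2).trans (by norm_num))))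
    have hfx : s⁻¹ * ((x : G) * s * (x : G)⁻¹) = 1 := by
      rw [hxs.eq, mul_inv_cancel_right, inv_mul_cancel]
    have hzU : Subgroup.zpowers t ≤ U := Subgroup.zpowers_le.2 hU.mem
    have htn : ∀ g : G, Commute g t → ∀ e ∈ Subgroup.zpowers t, g * e * g⁻¹ ∈ Subgroup.zpowers t :=
      fun g hg e he => by rw [conj_mem_zp ht2 hg he]; exact he
    by_cases hsU : s ∈ U
    · by_cases hsz : s ∈ Subgroup.zpowers t
      · exact Or.inl (((mem_zp ht2).1 hsz).resolve_left hs1)
      have h8 : Nat.card U = 8 * Nat.card (Subgroup.zpowers t) := by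
        rw [hU.card, Nat.card_zpowers, ht.1]
      have := K.fixed_two ht hf hft hx3 hxt hxQ hU.le hzU (Subgroup.mem_zpowers t) hU.normal htn h8
        ha haz (by rw [hxa.eq, mul_inv_cancel_right, inv_mul_cancel]; exact one_mem _) hsU hsz
        (by rw [hfx]; exact one_mem _)
      rcases (mem_zp ht2).1 this with e | e
      · exfalso
        obtain ⟨g, hg, he⟩ := hs
        have hsa' : s = a := (inv_mul_eq_one.1 e).symm
        have : t = a := by
          have h1 : t = g⁻¹ * s * g := by rw [← he]; group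
          rw [h1, hsa', show g⁻¹ * a * g = g⁻¹ * (a * g) by group, ← hg.eq, inv_mul_cancel_left]
        exact haz (this ▸ Subgroup.mem_zpowers t)
      · exact Or.inr (inv_mul_eq_iff_eq_mul.1 e)
    · exfalso
      set P := Q ⊓ Ca with hP
      have hP64 : Nat.card P = 64 := K.card_cen ht (hU.le ha) haz
      have hUP : U ≤ P := fun u hu => Subgroup.mem_inf.2 ⟨hU.le hu, mem_cen.2 (hU.comm u hu a ha)⟩
      have hsP : s ∈ P := Subgroup.mem_inf.2 ⟨hsQ, mem_cen.2 hsa⟩
      have hQU : ∀ q ∈ Q, ∀ u ∈ U, q * u * q⁻¹ ∈ U := fun q hq =>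
        hU.normal q (K.toTwoCore.commute_t hq)
      let V : Subgroup G :=
        { carrier := {m | m ∈ P ∧ m⁻¹ * ((x : G) * m * (x : G)⁻¹) ∈ U}
          one_mem' := ⟨one_mem _, by simp⟩
          mul_mem' := by
            rintro m k ⟨hm, hm'⟩ ⟨hk, hk'⟩
            refine ⟨P.mul_mem hm hk, ?_⟩
            have := U.mul_mem (hQU _ (Q.inv_mem (hk : k ∈ P).1) _ hm') hk'
            rwa [show k⁻¹ * (m⁻¹ * ((x : G) * m * (x : G)⁻¹)) * k⁻¹⁻¹ *
              (k⁻¹ * ((x : G) * k * (x : G)⁻¹)) = (m * k)⁻¹ * ((x : G) * (m * k) * (x : G)⁻¹) by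
              group] at this
          inv_mem' := by
            rintro m ⟨hm, hm'⟩
            refine ⟨P.inv_mem hm, ?_⟩
            have := hQU _ (hm : m ∈ P).1 _ (U.inv_mem hm')
            rwa [show m * (m⁻¹ * ((x : G) * m * (x : G)⁻¹))⁻¹ * m⁻¹ =
              m⁻¹⁻¹ * ((x : G) * m⁻¹ * (x : G)⁻¹) by group] at this }
      have hUV : U ≤ V := fun u hu => ⟨hUP hu, U.mul_mem (U.inv_mem hu) (hU.normal _ hxt u hu)⟩
      have hVP : V ≤ P := fun m hm => hm.1
      have hsV : s ∈ V := ⟨hsP, by rw [hfx]; exact one_mem _⟩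
      have hxP : ∀ p ∈ P, (x : G) * p * (x : G)⁻¹ ∈ P := fun p hp => by
        refine Subgroup.mem_inf.2 ⟨K.normal _ hxt p hp.1, mem_cen.2 ?_⟩
        exact (hxa.mul_left (mem_cen.1 hp.2)).mul_left hxa.inv_left
      obtain ⟨k, hk⟩ := Subgroup.card_dvd_of_le hUV
      have hk4 : k ∣ 4 := by
        have hd := Subgroup.card_dvd_of_le hVP
        rw [hk, hU.card, hP64, show 64 = 16 * 4 from rfl] at hd
        exact Nat.dvd_of_mul_dvd_mul_left (by norm_num) hd
      have hall : ∀ y ∈ P, y⁻¹ * ((x : G) * y * (x : G)⁻¹) ∈ U := by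
        rcases (show k = 1 ∨ k = 2 ∨ k = 4 by
            have : k ≤ 4 := Nat.le_of_dvd (by norm_num) hk4
            interval_cases k <;> omega) with e | e | e
        · refine absurd ?_ hsU
          rw [Subgroup.eq_of_le_of_card_ge hUV (by rw [hk, e, mul_one])]
          exact hsV
        · intro y hy
          exact fixed_step hx3 hUV hVP (by rw [hk, e, hU.card, hP64]) hxP (hU.normal _ hxt)
            (fun v hv u hu => hQU v (hv : v ∈ V).1.1 u hu) (fun v hv => hv.2)
            (fun v hv => hzU (K.sq v (hv : v ∈ V).1.1)) hy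
        · intro y hy
          have hVP' : V = P := Subgroup.eq_of_le_of_card_ge hVP (by rw [hk, e, hU.card, hP64])
          exact ((hVP' ▸ hy : y ∈ V)).2
      obtain ⟨y, hy, hyU, hys⟩ : ∃ y ∈ P, y ∉ U ∧ s⁻¹ * y ∉ U := by
        by_contra hne
        push Not at hne
        let F : ↥U ⊕ ↥U → G := Sum.elim (fun u => (u : G)) (fun u => s * u)
        have hle : Nat.card ↥P ≤ Nat.card (↥U ⊕ ↥U) := by
          let F' : ↥P → ↥U ⊕ ↥U := fun p =>
            if hp : (p : G) ∈ U then Sum.inl ⟨p, hp⟩ else Sum.inr ⟨s⁻¹ * p, hne p p.2 hp⟩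
          refine Nat.card_le_card_of_injective F' fun p p' e => ?_
          simp only [F'] at e
          split_ifs at e with h1 h2
          · exact Subtype.ext (congrArg (fun z : ↥U => (z : G)) (Sum.inl.inj e) :)
          · exact Subtype.ext (mul_left_cancel (congrArg (fun z : ↥U => (z : G)) (Sum.inr.inj e) :))
        rw [Nat.card_sum, hU.card, hP64] at hle
        omega
      exact hys (K.fixed_two ht hf hft hx3 hxt hxQ le_rfl hU.le hU.mem K.normal hU.normal
        (by rw [K.card, hU.card]) hsQ hsU (by rw [hfx]; exact one_mem _) hy.1 hyU (hall y hy))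
  -- a second fixed point
  have hat' : a * t ∈ orb a t := by
    let D := {w : ↥(orb a t) // (w : G) ≠ t}
    have hxperm : ∀ w : D, (x : G) * (w.1 : G) * (x : G)⁻¹ ∈ orb a t ∧
        (x : G) * (w.1 : G) * (x : G)⁻¹ ≠ t := by
      intro w
      obtain ⟨g, hg, e⟩ := w.1.2
      refine ⟨⟨(x : G) * g, hxa.mul_left hg, by rw [← e]; group⟩, fun e' => w.2 ?_⟩
      have h1 : (w.1 : G) = (x : G)⁻¹ * t * (x : G) :=
        calc (w.1 : G) = (x : G)⁻¹ * ((x : G) * (w.1 : G) * (x : G)⁻¹) * (x : G) := by group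
          _ = _ := by rw [e']
      rw [h1, mul_assoc, ← hxt.eq, inv_mul_cancel_left]
    haveI := Fintype.ofFinite D
    let σ : Equiv.Perm D := Equiv.ofBijective (fun w => ⟨⟨_, (hxperm w).1⟩, (hxperm w).2⟩)
      (Finite.injective_iff_bijective.1 fun w w' e => Subtype.ext (Subtype.ext
        (mul_left_cancel (mul_right_cancel (congrArg (fun z : D => (z.1 : G)) e :)))))
    have hσ : ∀ w : D, ((σ w).1 : G) = (x : G) * (w.1 : G) * (x : G)⁻¹ := fun _ => rfl
    have hcard : ¬ 3 ∣ Fintype.card D := by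
      have h1 := Nat.card_congr (Equiv.sumCompl fun w : ↥(orb a t) => (w : G) = t)
      rw [Nat.card_sum, hT5, show Nat.card {w : ↥(orb a t) // (w : G) = t} = 1 from
        Nat.card_eq_one_iff_exists.2 ⟨⟨⟨t, self_mem_orb a t⟩, rfl⟩,
          fun w => Subtype.ext (Subtype.ext w.2)⟩] at h1
      rw [← Nat.card_eq_fintype_card]
      change 1 + Nat.card D = 5 at h1
      omega
    obtain ⟨w, hw⟩ := Equiv.Perm.exists_fixed_point_of_prime (p := 3) (n := 1) hcard (σ := σ) (by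
      refine Equiv.ext fun w => Subtype.ext (Subtype.ext ?_)
      rw [pow_one, pow_three']
      show ((σ (σ (σ w))).1 : G) = (w.1 : G)
      rw [hσ, hσ, hσ, show (x : G) * ((x : G) * ((x : G) * (w.1 : G) * (x : G)⁻¹) * (x : G)⁻¹) *
        (x : G)⁻¹ = (x : G) * x * x * (w.1 : G) * ((x : G) * x * x)⁻¹ by group, hx3, one_mul, inv_one,
        mul_one])
    have hw' : (x : G) * (w.1 : G) * (x : G)⁻¹ = w.1 :=
      (hσ w).symm.trans (congrArg (fun z : D => (z.1 : G)) hw)
    have := (hfix w.1 w.1.2 (mul_inv_eq_iff_eq_mul.1 hw')).resolve_left w.2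
    rw [← this]; exact w.1.2
  -- multiplication by `a` on five points
  have hmul : ∀ w ∈ orb a t, a * w ∈ orb a t := by
    rintro w ⟨g, hg, rfl⟩
    obtain ⟨k, hk, e⟩ := hat'
    refine ⟨g * k, hg.mul_left hk, ?_⟩
    rw [show g * k * t * (g * k)⁻¹ = g * (k * t * k⁻¹) * g⁻¹ by group, e,
      show g * (a * t) * g⁻¹ = (g * a * g⁻¹) * (g * t * g⁻¹) by group, hg.eq, mul_inv_cancel_right]
  haveI := Fintype.ofFinite ↥(orb a t)
  have haa : a * a = 1 := hU.sq a ha
  let τ : Equiv.Perm ↥(orb a t) := Function.Involutive.toPerm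
    (fun w => ⟨a * w, hmul w w.2⟩) (fun w => Subtype.ext (by
      show a * (a * (w : G)) = w
      rw [← mul_assoc, haa, one_mul]))
  obtain ⟨w, hw⟩ := Equiv.Perm.exists_fixed_point_of_prime (p := 2) (n := 1)
    (by rw [← Nat.card_eq_fintype_card, hT5]; norm_num) (σ := τ) (Equiv.ext fun w => Subtype.ext (by
      rw [pow_one, pow_two]
      show a * (a * (w : G)) = w
      rw [← mul_assoc, haa, one_mul]))
  have : a * (w : G) = w := congrArg Subtype.val hw
  exact haz (mul_eq_right.1 this ▸ one_mem _)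

end ExtCore

end CfsgLib.M24Count
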