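import Cfsg.Agent.M24Count.ThreeBase
import Cfsg.Agent.M23Count.CoreLocal
import Mathlib.GroupTheory.Transfer
import Mathlib.Data.Int.ModEq

/-!
General lemmas for the case that the centraliser of an involution of class A has a normal Sylow
2-subgroup: a group of order 315 has an element of order 35, no subgroup of order 24 of `S₅` has a
normal subgroup of order 8, and a counting form of the duality of a commutator pairing into a
subgroup of order two.
-/

set_option autoImplicit false
set_option linter.style.haveILetI false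

namespace CfsgLib.M24Count.CoreSolvable

open Subgroup
open CfsgLib.M23Count (card_mulAut_zpowers card_normalizer_inf)
open CfsgLib.M23Count.CoreLocal (mem_centSingle conj_orbit_card)

universe u

variable {G : Type u} [Group G] [Finite G]

theorem commute_of_normalizes {g y : G} (h : Nat.Coprime (orderOf y) (Nat.totient (orderOf g)))
    (hn : y ∈ normalizer (zpowers g : Set G)) : Commute g y := by
  set φ := (zpowers g).normalizerMonoidHom
  have h1 : orderOf (φ ⟨y, hn⟩) ∣ orderOf y :=
    (orderOf_map_dvd φ ⟨y, hn⟩).trans (by rw [Subgroup.orderOf_mk])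
  have h2 : orderOf (φ ⟨y, hn⟩) ∣ Nat.totient (orderOf g) :=
    (_root_.orderOf_dvd_natCard _).trans (by rw [card_mulAut_zpowers])
  have h3 : φ ⟨y, hn⟩ = 1 :=
    orderOf_eq_one_iff.1 (Nat.dvd_one.1 (h ▸ Nat.dvd_gcd h1 h2))
  have hk : (⟨y, hn⟩ : normalizer (zpowers g : Set G)) ∈ φ.ker := MonoidHom.mem_ker.2 h3
  rw [normalizerMonoidHom_ker, mem_subgroupOf] at hk
  exact mem_centralizer_iff.1 hk g (mem_zpowers g)

theorem exists_order_35 {Q : Type u} [Group Q] [Finite Q] (hQ : Nat.card Q = 315) :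
    ∃ x : Q, orderOf x = 35 := by
  haveI : Fact (Nat.Prime 5) := ⟨by norm_num⟩
  haveI : Fact (Nat.Prime 7) := ⟨by norm_num⟩
  obtain ⟨a, ha⟩ := exists_prime_orderOf_dvd_card' (G := Q) 5 (by rw [hQ]; norm_num)
  obtain ⟨b, hb⟩ := exists_prime_orderOf_dvd_card' (G := Q) 7 (by rw [hQ]; norm_num)
  have done : ∀ a b : Q, orderOf a = 5 → orderOf b = 7 → Commute a b → ∃ x : Q, orderOf x = 35 :=
    fun a b ha hb hc => ⟨a * b, by
      rw [hc.orderOf_mul_eq_mul_orderOf_of_coprime (by rw [ha, hb]; norm_num), ha, hb]⟩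
  by_contra hno
  have nc : ∀ a b : Q, orderOf a = 5 → orderOf b = 7 → ¬ Commute a b := fun a b h1 h2 h3 =>
    hno (done a b h1 h2 h3)
  have hb_norm : ∀ a' : Q, orderOf a' = 5 → a' ∉ normalizer (zpowers b : Set Q) := fun a' h1 h2 =>
    nc a' b h1 hb (commute_of_normalizes (by rw [h1, hb, Nat.totient_prime (by norm_num)]; norm_num)
      h2).symm
  have ha_norm : ∀ b' : Q, orderOf b' = 7 → b' ∉ normalizer (zpowers a : Set Q) := fun b' h1 h2 =>
    nc a b' ha h1 (commute_of_normalizes (by rw [h1, ha, Nat.totient_prime (by norm_num)]; norm_num)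
      h2)
  have hNb : Nat.card (normalizer (zpowers b : Set Q)) = 21 := by
    obtain ⟨n, hn, hmod⟩ := card_eq_norm_mul (p := 7) (m := 45) (by rw [hQ]) (by norm_num)
      (mem_top b) hb
    rw [card_top, hQ, inf_top_eq] at hn
    have h7 : 7 ∣ Nat.card (normalizer (zpowers b : Set Q)) :=
      hb ▸ Subgroup.orderOf_dvd_natCard _ (le_normalizer (mem_zpowers b))
    obtain ⟨c, hc⟩ := h7
    have h5 : ¬ 5 ∣ Nat.card (normalizer (zpowers b : Set Q)) := fun hd => by
      obtain ⟨a', ha'⟩ := exists_prime_orderOf_dvd_card' (G := normalizer (zpowers b : Set Q)) 5 hd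
      exact hb_norm a' (by rw [Subgroup.orderOf_coe, ha']) a'.2
    have hnd : n ∈ Nat.divisors 45 := Nat.mem_divisors.2 ⟨⟨c, by rw [hc] at hn; linarith⟩,
      by norm_num⟩
    rw [hc] at h5 hn ⊢
    rw [show Nat.divisors 45 = {1, 3, 5, 9, 15, 45} by decide] at hnd
    simp only [Finset.mem_insert, Finset.mem_singleton] at hnd
    rcases hnd with rfl | rfl | rfl | rfl | rfl | rfl <;> omega
  have hNa : Nat.card (normalizer (zpowers a : Set Q)) = 15 := by
    obtain ⟨n, hn, hmod⟩ := card_eq_norm_mul (p := 5) (m := 63) (by rw [hQ]) (by norm_num)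
      (mem_top a) ha
    rw [card_top, hQ, inf_top_eq] at hn
    have h5 : 5 ∣ Nat.card (normalizer (zpowers a : Set Q)) :=
      ha ▸ Subgroup.orderOf_dvd_natCard _ (le_normalizer (mem_zpowers a))
    obtain ⟨c, hc⟩ := h5
    have h7 : ¬ 7 ∣ Nat.card (normalizer (zpowers a : Set Q)) := fun hd => by
      obtain ⟨b', hb'⟩ := exists_prime_orderOf_dvd_card' (G := normalizer (zpowers a : Set Q)) 7 hd
      exact ha_norm b' (by rw [Subgroup.orderOf_coe, hb']) b'.2
    have hnd : n ∈ Nat.divisors 63 := Nat.mem_divisors.2 ⟨⟨c, by rw [hc] at hn; linarith⟩,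
      by norm_num⟩
    rw [hc] at h7 hn ⊢
    rw [show Nat.divisors 63 = {1, 3, 7, 9, 21, 63} by decide] at hnd
    simp only [Finset.mem_insert, Finset.mem_singleton] at hnd
    rcases hnd with rfl | rfl | rfl | rfl | rfl | rfl <;> omega
  let P : Sylow 5 Q := Sylow.ofCard (zpowers a) (by
    rw [Nat.card_zpowers, ha, hQ, show (315 : ℕ) = 5 * 63 by norm_num,
      Nat.factorization_mul (by norm_num) (by norm_num), Finsupp.add_apply,
      Nat.Prime.factorization_self (by norm_num),
      Nat.factorization_eq_zero_of_not_dvd (by norm_num)]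
    norm_num)
  have hP : normalizer ((P : Subgroup Q) : Set Q) ≤ centralizer ((P : Subgroup Q) : Set Q) := by
    intro y hy
    rw [Sylow.coe_ofCard] at hy ⊢
    have hc : Commute a y := commute_of_normalizes (by
      rw [ha, Nat.totient_prime (by norm_num)]
      have h15 : orderOf y ∣ 15 := hNa ▸ Subgroup.orderOf_dvd_natCard _ hy
      exact (Nat.Coprime.coprime_dvd_left h15 (by norm_num))) hy
    rw [mem_centralizer_iff]
    intro z hz
    obtain ⟨k, rfl⟩ := mem_zpowers_iff.1 hz
    exact (hc.zpow_left k).eq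
  have hcomp := MonoidHom.ker_transferSylow_isComplement' P hP
  set K := (MonoidHom.transferSylow P hP).ker with hK
  have hK63 : Nat.card K = 63 := by
    have h := hcomp.card_mul_card
    rw [Sylow.coe_ofCard, Nat.card_zpowers, ha, hQ] at h
    omega
  have hidx : K.index = 5 := by
    have h := K.card_mul_index
    rw [hK63, hQ] at h
    omega
  have hbK : b ∈ K := by
    have h1 : orderOf (QuotientGroup.mk' K b) ∣ 7 := hb ▸ orderOf_map_dvd _ b
    have h2 : orderOf (QuotientGroup.mk' K b) ∣ 5 :=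
      (_root_.orderOf_dvd_natCard _).trans (dvd_of_eq hidx)
    have h3 := Nat.dvd_one.1 (show orderOf (QuotientGroup.mk' K b) ∣ 1 from
      (show Nat.gcd 7 5 = 1 by norm_num) ▸ Nat.dvd_gcd h1 h2)
    exact (QuotientGroup.eq_one_iff b).1 (orderOf_eq_one_iff.1 h3)
  obtain ⟨n, hn, hmod⟩ := card_eq_norm_mul (p := 7) (m := 45) (by rw [hQ]) (by norm_num) hbK hb
  obtain ⟨c, hc⟩ : 7 ∣ Nat.card ↥(normalizer (zpowers b : Set Q) ⊓ K) :=
    hb ▸ Subgroup.orderOf_dvd_natCard _ ⟨le_normalizer (mem_zpowers b), hbK⟩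
  have hnd : n ∈ Nat.divisors 9 := Nat.mem_divisors.2 ⟨⟨c, by rw [hK63, hc] at hn; linarith⟩,
    by norm_num⟩
  rw [show Nat.divisors 9 = {1, 3, 9} by decide] at hnd
  simp only [Finset.mem_insert, Finset.mem_singleton] at hnd
  have h1 : n = 1 := by omega
  rw [hK63, h1, mul_one] at hn
  have hle := Subgroup.card_le_of_le (inf_le_left : normalizer (zpowers b : Set Q) ⊓ K ≤ _)
  omega

/-! ### The symmetric group of degree five -/

theorem perm_five_two_elements :
    (Finset.univ.filter fun x : Equiv.Perm (Fin 5) => x * x * (x * x) = 1).card = 56 := by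
  decide +kernel

/-- No element of order three of `S₅` normalises a subgroup of order 8. -/
theorem no_normal_eight {P : Subgroup (Equiv.Perm (Fin 5))} (hP : Nat.card P = 8)
    {g : Equiv.Perm (Fin 5)} (hg : orderOf g = 3) (hn : ∀ x ∈ P, g * x * g⁻¹ ∈ P) : False := by
  classical
  haveI : Fact (Nat.Prime 2) := ⟨by norm_num⟩
  have h120 : Nat.card (Equiv.Perm (Fin 5)) = 120 := by
    rw [Nat.card_perm, Nat.card_fin]; decide
  have hfac : (8 : ℕ) = 2 ^ (Nat.card (Equiv.Perm (Fin 5))).factorization 2 := by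
    rw [h120, show (120 : ℕ) = 2 ^ 3 * 15 by norm_num,
      Nat.factorization_mul (by norm_num) (by norm_num), Finsupp.add_apply,
      Nat.Prime.factorization_pow (by norm_num), Finsupp.single_eq_same,
      Nat.factorization_eq_zero_of_not_dvd (by norm_num)]
    norm_num
  let P₀ : Sylow 2 (Equiv.Perm (Fin 5)) := Sylow.ofCard P (hP.trans hfac)
  set N := normalizer ((P₀ : Subgroup (Equiv.Perm (Fin 5))) : Set (Equiv.Perm (Fin 5))) with hN
  have hgN : g ∈ N := by
    rw [hN, Sylow.coe_ofCard]
    exact Subgroup.mem_normalizer_fintype hn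
  have h3 : 3 ∣ Nat.card N := hg ▸ Subgroup.orderOf_dvd_natCard _ hgN
  have h8 : 8 ∣ Nat.card N := by
    rw [← hP, hN, Sylow.coe_ofCard]
    exact card_dvd_of_le le_normalizer
  have hidx : N.index ≤ 5 := by
    have h := N.card_mul_index
    rw [h120] at h
    have h24 := Nat.le_of_dvd Nat.card_pos (Nat.Coprime.mul_dvd_of_dvd_of_dvd (by norm_num) h3 h8)
    have := Nat.mul_le_mul_right N.index h24
    omega
  have hsyl : Nat.card (Sylow 2 (Equiv.Perm (Fin 5))) = N.index := Sylow.card_eq_index_normalizer P₀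
  have hQ : ∀ Q : Sylow 2 (Equiv.Perm (Fin 5)), Nat.card Q = 8 := fun Q =>
    (Sylow.card_eq_multiplicity Q).trans hfac.symm
  have hmem : ∀ x : Equiv.Perm (Fin 5), x * x * (x * x) = 1 →
      ∃ Q : Sylow 2 (Equiv.Perm (Fin 5)), x ∈ Q := by
    intro x hx
    obtain ⟨j, -, hj⟩ := (Nat.dvd_prime_pow Nat.prime_two).1
      (orderOf_dvd_of_pow_eq_one (show x ^ (2 ^ 2) = 1 by
        rw [show (2 : ℕ) ^ 2 = 2 + 2 by norm_num, pow_add, pow_two]; exact hx))
    obtain ⟨Q, hQx⟩ := (IsPGroup.of_card (n := j)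
      (show Nat.card (zpowers x) = 2 ^ j by rw [Nat.card_zpowers, hj])).exists_le_sylow
    exact ⟨Q, hQx (mem_zpowers x)⟩
  choose F hF using hmem
  have hle : Nat.card {x : Equiv.Perm (Fin 5) // x * x * (x * x) = 1} ≤
      Nat.card (Σ Q : Sylow 2 (Equiv.Perm (Fin 5)), Q) := by
    refine Nat.card_le_card_of_injective (fun x => ⟨F x.1 x.2, ⟨x.1, hF x.1 x.2⟩⟩) ?_
    intro a b hab
    exact Subtype.ext (congrArg (fun z : Σ Q : Sylow 2 (Equiv.Perm (Fin 5)), Q =>
      (z.2 : Equiv.Perm (Fin 5))) hab)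
  haveI := Fintype.ofFinite (Sylow 2 (Equiv.Perm (Fin 5)))
  rw [Nat.card_sigma, Finset.sum_congr rfl (fun Q _ => hQ Q), Finset.sum_const, Finset.card_univ,
    ← Nat.card_eq_fintype_card, hsyl, smul_eq_mul, Nat.card_eq_fintype_card, Fintype.card_subtype,
    perm_five_two_elements] at hle
  omega

/-! ### The commutator pairing into a subgroup of order two -/

theorem eq_one_or_eq {t : G} (ht : orderOf t = 2) {x : G} (hx : x ∈ zpowers t) :
    x = 1 ∨ x = t := by
  classical
  obtain ⟨n, hn, rfl⟩ := Finset.mem_image.1 (mem_zpowers_iff_mem_range_orderOf.1 hx)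
  rw [Finset.mem_range, ht] at hn
  interval_cases n
  · exact Or.inl (pow_zero t)
  · exact Or.inr (pow_one t)

theorem half {t y : G} (ht : orderOf t = 2) (A : Subgroup G)
    (hA : ∀ a ∈ A, a * y * a⁻¹ * y⁻¹ ∈ zpowers t) (hne : ∃ a ∈ A, a * y ≠ y * a) :
    2 * Nat.card ↥(A ⊓ centralizer ({y} : Set G)) = Nat.card A := by
  have hsub : {w : G | ∃ a ∈ A, a * y * a⁻¹ = w} = {y, t * y} := by
    ext w
    constructor
    · rintro ⟨a, ha, rfl⟩
      rcases eq_one_or_eq ht (hA a ha) with h | h
      · exact Or.inl (mul_inv_eq_one.1 h)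
      · exact Or.inr (mul_inv_eq_iff_eq_mul.1 h)
    · rintro (rfl | rfl)
      · exact ⟨1, one_mem A, by group⟩
      · obtain ⟨a, ha, hay⟩ := hne
        refine ⟨a, ha, ?_⟩
        rcases eq_one_or_eq ht (hA a ha) with h | h
        · exact absurd (mul_inv_eq_iff_eq_mul.1 (mul_inv_eq_one.1 h)) hay
        · exact mul_inv_eq_iff_eq_mul.1 h
  have h2 : Nat.card {w : G // ∃ a ∈ A, a * y * a⁻¹ = w} = 2 := by
    show Nat.card ↥{w : G | ∃ a ∈ A, a * y * a⁻¹ = w} = 2
    rw [hsub, Nat.card_coe_set_eq, Set.ncard_pair]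
    intro h
    have : t = 1 := mul_eq_right.1 h.symm
    rw [this, orderOf_one] at ht
    norm_num at ht
  have := conj_orbit_card A y
  rw [h2] at this
  linarith

theorem pairing_card {t : G} (ht : orderOf t = 2) {T W : Subgroup G} (_hWT : W ≤ T)
    (htW : t ∈ W) (htT : ∀ y ∈ T, y * t = t * y)
    (hW : ∀ w ∈ W, ∀ y ∈ T, y * w * y⁻¹ * w⁻¹ ∈ zpowers t)
    (hZ : ∀ w ∈ W, (∀ y ∈ T, y * w = w * y) → w ∈ zpowers t) :
    Nat.card ↥(T ⊓ centralizer (W : Set G)) * Nat.card W = 2 * Nat.card T := by
  classical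
  letI := Fintype.ofFinite G
  have cnt_eq : ∀ (A : Subgroup G) (x : G),
      Nat.card ↥(A ⊓ centralizer ({x} : Set G)) =
        (Finset.univ.filter fun a : A => (a : G) * x = x * a).card := by
    intro A x
    rw [← Fintype.card_subtype, ← Nat.card_eq_fintype_card]
    exact Nat.card_congr
      { toFun := fun a => ⟨⟨a.1, a.2.1⟩, mem_centSingle.1 a.2.2⟩
        invFun := fun a => ⟨a.1.1, a.1.2, mem_centSingle.2 a.2⟩
        left_inv := fun _ => rfl
        right_inv := fun _ => rfl }
  have hrow : ∀ w : W, 2 * (Finset.univ.filter fun y : T => (y : G) * w = w * y).card =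
      Nat.card T + if (w : G) ∈ zpowers t then Nat.card T else 0 := by
    intro w
    by_cases hw : (w : G) ∈ zpowers t
    · rw [if_pos hw, Finset.filter_true_of_mem, Finset.card_univ, ← Nat.card_eq_fintype_card,
        two_mul]
      intro y _
      rcases eq_one_or_eq ht hw with h | h <;> rw [h]
      · rw [one_mul, mul_one]
      · exact htT y y.2
    · rw [if_neg hw, add_zero, ← cnt_eq]
      refine half ht T (fun y hy => hW w w.2 y hy) ?_
      by_contra hall
      push Not at hall
      exact hw (hZ w w.2 hall)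
  have hcol : ∀ y : T, 2 * (Finset.univ.filter fun w : W => (y : G) * w = w * y).card =
      Nat.card W + if (y : G) ∈ centralizer (W : Set G) then Nat.card W else 0 := by
    intro y
    have e : (Finset.univ.filter fun w : W => (y : G) * w = w * y) =
        Finset.univ.filter fun w : W => (w : G) * y = y * w :=
      Finset.filter_congr fun w _ => ⟨Eq.symm, Eq.symm⟩
    rw [e]
    by_cases hy : (y : G) ∈ centralizer (W : Set G)
    · rw [if_pos hy, Finset.filter_true_of_mem, Finset.card_univ, ← Nat.card_eq_fintype_card,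
        two_mul]
      exact fun w _ => mem_centralizer_iff.1 hy w w.2
    · rw [if_neg hy, add_zero, ← cnt_eq]
      refine half ht W (fun w hw => ?_) ?_
      · have hmem := inv_mem (hW w hw y y.2)
        have e2 : w * y * w⁻¹ * (y : G)⁻¹ = ((y : G) * w * (y : G)⁻¹ * w⁻¹)⁻¹ := by group
        rw [e2]
        exact hmem
      · by_contra hall
        push Not at hall
        exact hy (mem_centralizer_iff.2 hall)
  have hswap : ∑ w : W, (Finset.univ.filter fun y : T => (y : G) * w = w * y).card =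
      ∑ y : T, (Finset.univ.filter fun w : W => (y : G) * w = w * y).card := by
    simp only [Finset.card_filter]
    exact Finset.sum_comm
  have hz2 : (Finset.univ.filter fun w : W => (w : G) ∈ zpowers t).card = 2 := by
    rw [← Fintype.card_subtype, ← Nat.card_eq_fintype_card, ← ht, ← Nat.card_zpowers]
    exact Nat.card_congr
      { toFun := fun a => ⟨a.1.1, a.2⟩
        invFun := fun a => ⟨⟨a.1, (zpowers_le.2 htW) a.2⟩, a.2⟩
        left_inv := fun _ => rfl
        right_inv := fun _ => rfl }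
  have hk : (Finset.univ.filter fun y : T => (y : G) ∈ centralizer (W : Set G)).card =
      Nat.card ↥(T ⊓ centralizer (W : Set G)) := by
    rw [← Fintype.card_subtype, ← Nat.card_eq_fintype_card]
    exact Nat.card_congr
      { toFun := fun a => ⟨a.1.1, a.1.2, a.2⟩
        invFun := fun a => ⟨⟨a.1, a.2.1⟩, a.2.2⟩
        left_inv := fun _ => rfl
        right_inv := fun _ => rfl }
  have hL : 2 * ∑ w : W, (Finset.univ.filter fun y : T => (y : G) * w = w * y).card =
      Nat.card W * Nat.card T + 2 * Nat.card T := by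
    rw [Finset.mul_sum, Finset.sum_congr rfl fun w _ => hrow w, Finset.sum_add_distrib,
      Finset.sum_const, smul_eq_mul, ← Finset.sum_filter, Finset.sum_const, smul_eq_mul, hz2,
      Finset.card_univ, ← Nat.card_eq_fintype_card]
  have hR : 2 * ∑ y : T, (Finset.univ.filter fun w : W => (y : G) * w = w * y).card =
      Nat.card T * Nat.card W +
        Nat.card ↥(T ⊓ centralizer (W : Set G)) * Nat.card W := by
    rw [Finset.mul_sum, Finset.sum_congr rfl fun y _ => hcol y, Finset.sum_add_distrib,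
      Finset.sum_const, smul_eq_mul, ← Finset.sum_filter, Finset.sum_const, smul_eq_mul, hk,
      Finset.card_univ, ← Nat.card_eq_fintype_card]
  rw [hswap, hR] at hL
  linarith

omit [Finite G] in
/-- The cardinality of an image with kernel inside. -/
theorem card_map_mul {H : Type*} [Group H] (φ : G →* H) (A : Subgroup G) (hA : φ.ker ≤ A) :
    Nat.card (A.map φ) * Nat.card φ.ker = Nat.card A := by
  have h := Subgroup.card_eq_card_quotient_mul_card_subgroup (φ.comp A.subtype).ker
  rw [Nat.card_congr (QuotientGroup.quotientKerEquivRange (φ.comp A.subtype)).toEquiv,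
    MonoidHom.range_comp, Subgroup.range_subtype] at h
  have e : (φ.comp A.subtype).ker = φ.ker.subgroupOf A := rfl
  rw [e, Nat.card_congr (Subgroup.subgroupOfEquivOfLe hA).toEquiv] at h
  exact h.symm

/-- The product formula as an inequality. -/
theorem card_mul_card_le' (A B : Subgroup G) :
    Nat.card A * Nat.card B ≤ Nat.card ↥(A ⊔ B) * Nat.card ↥(A ⊓ B) := by
  have key : ∀ {H K : Subgroup G}, H ≤ K → Nat.card H * H.relIndex K = Nat.card K := by
    intro H K h
    rw [← Subgroup.relIndex_bot_left, ← Subgroup.relIndex_bot_left K]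
    exact Subgroup.relIndex_mul_relIndex _ _ _ bot_le h
  have h1 : Nat.card ↥(A ⊓ B) * B.relIndex A = Nat.card A := by
    rw [← Subgroup.inf_relIndex_left A B]
    exact key inf_le_left
  have h2 : Nat.card ↥B * B.relIndex (A ⊔ B) = Nat.card ↥(A ⊔ B) := key le_sup_right
  have h3 : B.relIndex A ≤ B.relIndex (A ⊔ B) :=
    Subgroup.relIndex_le_of_le_right le_sup_left
      (by unfold Subgroup.relIndex; exact Subgroup.index_ne_zero_of_finite)
  calc Nat.card A * Nat.card B = Nat.card ↥(A ⊓ B) * B.relIndex A * Nat.card B := by rw [h1]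
    _ ≤ Nat.card ↥(A ⊓ B) * B.relIndex (A ⊔ B) * Nat.card B := by gcongr
    _ = Nat.card ↥(A ⊔ B) * Nat.card ↥(A ⊓ B) := by rw [← h2]; ring

end CfsgLib.M24Count.CoreSolvable
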