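import Cfsg.Agent.M24Count.CountsBasic

/-!
The two classes of involutions.

The class of an involution has `253 k` members with `k ≤ 171`. An element of order seven in the
centraliser makes `k` one of 10, 45, 80, one of order five one of 21, 56, 126, and otherwise `35`
divides `k`. When nine divides no centraliser of an involution, nine divides every `k`, which leaves
`45` and `126`, and these fill the 43263 involutions.
-/

set_option autoImplicit false
set_option linter.style.haveILetI false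

namespace CfsgLib.M24Count

open Subgroup

open CfsgLib.M12Count (mem_centralizer_of_commute commute_of_mem_centralizer exists_sylow_eq)
open CfsgLib.M23Count (orderOf_conjugate card_normalizer_inf index_centralizer_le)

universe u

section general

variable {G : Type u} [Group G] [Finite G]

/-- The conjugates of `g` are as many as the cosets of its centraliser. -/
theorem card_isConj (g : G) :
    Nat.card {x : G // IsConj g x} = (centralizer ({g} : Set G)).index := by
  refine (Nat.card_eq_of_bijective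
    (fun q : G ⧸ centralizer ({g} : Set G) =>
      (⟨q.out * g * q.out⁻¹, isConj_iff.2 ⟨q.out, rfl⟩⟩ : {x : G // IsConj g x})) ⟨?_, ?_⟩).symm
  · intro q r e
    exact CfsgLib.M23Count.conjMap_injective g (Subtype.ext (congrArg Subtype.val e :))
  · rintro ⟨x, hx⟩
    obtain ⟨a, rfl⟩ := isConj_iff.1 hx
    refine ⟨(a : G ⧸ centralizer ({g} : Set G)), Subtype.ext ?_⟩
    obtain ⟨c, hc⟩ := QuotientGroup.mk_out_eq_mul (centralizer ({g} : Set G)) a
    show (a : G ⧸ centralizer ({g} : Set G)).out * g * _⁻¹ = _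
    rw [hc]
    have hcg := mem_centralizer_singleton_iff.1 c.2
    rw [mul_assoc a (c : G) g, hcg]
    group

end general

namespace CountHyp

variable {G : Type u} [Group G] [Finite G] (h : CountHyp G)
include h

/-- The class of an involution has `253 k` members. -/
theorem exists_k {t : G} (ht : orderOf t = 2) : ∃ k : ℕ,
    k ≤ 171 ∧ Nat.card (centralizer ({t} : Set G)) * k = 967680 ∧
      (centralizer ({t} : Set G)).index = 253 * k := by
  set C := centralizer ({t} : Set G) with hC
  obtain ⟨h11, h23⟩ := h.not_dvd_large ht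
  have hd : Nat.card C ∣ 253 * 967680 := by
    have := card_subgroup_dvd_card C
    rwa [h.card] at this
  have hco : Nat.Coprime (Nat.card C) 253 := by
    rw [show 253 = 11 * 23 from rfl]
    exact Nat.Coprime.mul_right ((Nat.Prime.coprime_iff_not_dvd (by norm_num)).2 h11).symm
      ((Nat.Prime.coprime_iff_not_dvd (by norm_num)).2 h23).symm
  obtain ⟨k, hk⟩ := hco.dvd_of_dvd_mul_left hd
  have hidx := card_mul_index C
  rw [h.card] at hidx
  have hi : C.index = 253 * k := by
    refine Nat.eq_of_mul_eq_mul_left (Nat.card_pos : 0 < Nat.card C) ?_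
    rw [hidx, mul_left_comm, ← hk]; norm_num
  refine ⟨k, ?_, hk.symm, hi⟩
  have hle := index_centralizer_le ht
  rw [← hC, hi, show CfsgLib.M23Count.cnt G 2 = 43263 from h.cnt_two] at hle
  omega

omit h in
/-- An element of order `p` in `C(t)` counts its Sylow `p`-subgroups. -/
theorem sylow_count {p N M k : ℕ} [Fact p.Prime] {f t : G} (hf : orderOf f = p)
    (hft : Commute f t) (hN : Nat.card ↥(normalizer (zpowers f : Set G) ⊓
      centralizer ({t} : Set G)) = N)
    (hk : Nat.card (centralizer ({t} : Set G)) * k = 967680) (hM : N * M = 967680)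
    (hp : ¬ p * p ∣ 967680) : ∃ m : ℕ, m * k = M ∧ m % p = 1 := by
  set C := centralizer ({t} : Set G) with hC
  have hfC : f ∈ C := mem_centralizer_of_commute hft.symm
  have hpC : p ∣ Nat.card C := hf ▸ Subgroup.orderOf_dvd_natCard _ hfC
  obtain ⟨j, hj⟩ := hpC
  have hpj : ¬ p ∣ j := fun hd => hp
    ((Nat.mul_dvd_mul_left p hd).trans (by rw [← hj]; exact hk ▸ dvd_mul_right _ k))
  obtain ⟨P, hP⟩ := exists_sylow_eq (G := C) hj hpj (g := (⟨f, hfC⟩ : C))
    (by rw [Subgroup.orderOf_mk]; exact hf)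
  have hn := CfsgLib.SylowToolkit.card_normalizer_mul P
  rw [← hP, card_normalizer_inf hfC, hN] at hn
  refine ⟨Nat.card (Sylow p C), ?_, CfsgLib.SylowToolkit.card_sylow_mod⟩
  have hN0 : 0 < N := hN ▸ Nat.card_pos
  refine Nat.eq_of_mul_eq_mul_left hN0 ?_
  rw [← mul_assoc, hn, hk, hM]

theorem k_of_seven {f t : G} {k : ℕ} (hf : orderOf f = 7) (ht : orderOf t = 2)
    (hft : Commute f t) (hk : Nat.card (centralizer ({t} : Set G)) * k = 967680)
    (hle : k ≤ 171) : k = 3 ∨ k = 10 ∨ k = 24 ∨ k = 45 ∨ k = 80 := by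
  haveI : Fact (Nat.Prime 7) := ⟨by norm_num⟩
  obtain ⟨m, hm, hmod⟩ := sylow_count hf hft (h.norm_inf_seven hf ht hft.symm) hk
    (M := 23040) (by norm_num) (by norm_num)
  have key : ∀ k ∈ Finset.range 172, k ∣ 23040 → 23040 / k % 7 = 1 →
      k = 3 ∨ k = 10 ∨ k = 24 ∨ k = 45 ∨ k = 80 := by decide +kernel
  have hk0 : 0 < k := by
    rcases Nat.eq_zero_or_pos k with rfl | h0
    · omega
    · exact h0
  refine key k (Finset.mem_range.2 (by omega)) (hm ▸ dvd_mul_left k m) ?_
  rw [← hm, Nat.mul_div_cancel _ hk0, hmod]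

theorem k_of_five {f t : G} {k : ℕ} (hf : orderOf f = 5) (ht : orderOf t = 2)
    (hft : Commute f t) (hk : Nat.card (centralizer ({t} : Set G)) * k = 967680)
    (hle : k ≤ 171) : k = 1 ∨ k = 6 ∨ k = 16 ∨ k = 21 ∨ k = 36 ∨ k = 56 ∨ k = 96 ∨ k = 126 := by
  haveI : Fact (Nat.Prime 5) := ⟨by norm_num⟩
  obtain ⟨m, hm, hmod⟩ := sylow_count hf hft (h.norm_inf_five hf ht hft.symm) hk
    (M := 12096) (by norm_num) (by norm_num)
  have key : ∀ k ∈ Finset.range 172, k ∣ 12096 → 12096 / k % 5 = 1 →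
      k = 1 ∨ k = 6 ∨ k = 16 ∨ k = 21 ∨ k = 36 ∨ k = 56 ∨ k = 96 ∨ k = 126 := by decide +kernel
  have hk0 : 0 < k := by
    rcases Nat.eq_zero_or_pos k with rfl | h0
    · omega
    · exact h0
  refine key k (Finset.mem_range.2 (by omega)) (hm ▸ dvd_mul_left k m) ?_
  rw [← hm, Nat.mul_div_cancel _ hk0, hmod]

/-- An involution commuting with an element of order five commutes with none of order seven. -/
theorem not_isA_of_five {f t : G} (hf : orderOf f = 5) (hft : Commute f t) : ¬ IsA t := by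
  rintro ⟨ht, g, hg, hgt⟩
  obtain ⟨k, hle, hk, -⟩ := h.exists_k ht
  rcases h.k_of_seven hg ht hgt hk hle with e | e | e | e | e <;>
    rcases h.k_of_five hf ht hft hk hle with e' | e' | e' | e' | e' | e' | e' | e' <;> omega

omit h in
/-- A prime below nine dividing `C(t)` gives an element of that order commuting with `t`. -/
theorem exists_commute {p : ℕ} [Fact p.Prime] {t : G}
    (hd : p ∣ Nat.card (centralizer ({t} : Set G))) : ∃ f : G, orderOf f = p ∧ Commute f t := by
  obtain ⟨g, hg⟩ := exists_prime_orderOf_dvd_card' (G := centralizer ({t} : Set G)) p hd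
  exact ⟨g, by rw [Subgroup.orderOf_coe]; exact hg, (commute_of_mem_centralizer g.2).symm⟩

/-- The three kinds of involution, nine dividing no centraliser. -/
theorem k_cases (h9 : ∀ t : G, orderOf t = 2 → ¬ 9 ∣ Nat.card (centralizer ({t} : Set G)))
    {t : G} (ht : orderOf t = 2) :
    ∃ k : ℕ, Nat.card (centralizer ({t} : Set G)) * k = 967680 ∧
      (centralizer ({t} : Set G)).index = 253 * k ∧
        (IsA t ∧ k = 45 ∨ ¬ IsA t ∧ (∃ f : G, orderOf f = 5 ∧ Commute f t) ∧ k = 126) := by
  haveI : Fact (Nat.Prime 5) := ⟨by norm_num⟩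
  haveI : Fact (Nat.Prime 7) := ⟨by norm_num⟩
  obtain ⟨k, hle, hk, hi⟩ := h.exists_k ht
  refine ⟨k, hk, hi, ?_⟩
  set c := Nat.card (centralizer ({t} : Set G)) with hc
  have hk9 : 9 ∣ k := by
    -- `27 ∣ c * k` and `9 ∤ c`
    have h27 : 3 ^ 3 ∣ c * k := by rw [hk]; norm_num
    by_contra hn
    obtain ⟨a, b, ha, hb, hab⟩ := (Nat.dvd_mul).1 h27
    obtain ⟨i, hi3, rfl⟩ := (Nat.dvd_prime_pow Nat.prime_three).1 (hab ▸ dvd_mul_right a b)
    obtain ⟨j, hj3, rfl⟩ := (Nat.dvd_prime_pow Nat.prime_three).1 (hab ▸ dvd_mul_left b (3 ^ i))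
    rw [← pow_add] at hab
    have hij : i + j = 3 := Nat.pow_right_injective (show 2 ≤ 3 by norm_num) hab
    rcases Nat.lt_or_ge i 2 with hi2 | hi2
    · exact hn ((pow_dvd_pow 3 (show 2 ≤ j by omega)).trans hb)
    · exact h9 t ht ((pow_dvd_pow 3 hi2).trans ha)
  by_cases hA : IsA t
  · obtain ⟨-, f, hf, hft⟩ := hA
    refine Or.inl ⟨⟨ht, f, hf, hft⟩, ?_⟩
    rcases h.k_of_seven hf ht hft hk hle with e | e | e | e | e <;> omega
  · refine Or.inr ⟨hA, ?_⟩
    have h7 : ¬ 7 ∣ c := fun hd => hA ⟨ht, exists_commute hd⟩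
    have hk7 : 7 ∣ k := ((Nat.Prime.dvd_mul (by norm_num)).1
      (by rw [hk]; norm_num : 7 ∣ c * k)).resolve_left h7
    have h5 : 5 ∣ c := by
      by_contra h5
      have hk5 : 5 ∣ k := ((Nat.Prime.dvd_mul (by norm_num)).1
        (by rw [hk]; norm_num : 5 ∣ c * k)).resolve_left h5
      have : k ≠ 0 := by rintro rfl; simp at hk
      omega
    obtain ⟨f, hf, hft⟩ := exists_commute h5
    refine ⟨⟨f, hf, hft⟩, ?_⟩
    rcases h.k_of_five hf ht hft hk hle with e | e | e | e | e | e | e | e <;> omega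

theorem exists_isA : ∃ t : G, IsA t := by
  haveI : Fact (Nat.Prime 7) := ⟨by norm_num⟩
  obtain ⟨f, hf⟩ := exists_prime_orderOf_dvd_card' (G := G) 7 (by rw [h.card]; norm_num)
  obtain ⟨⟨t, ht, htf⟩⟩ := (Nat.card_pos_iff.1 (by rw [h.invol_seven hf]; norm_num :
    0 < Nat.card {t : G // orderOf t = 2 ∧ Commute t f})).1
  exact ⟨t, ht, f, hf, htf.symm⟩

/-- The `Setup`, once nine divides no centraliser of an involution. -/
theorem setup_of_not_nine
    (h9 : ∀ t : G, orderOf t = 2 → ¬ 9 ∣ Nat.card (centralizer ({t} : Set G))) : Setup G := by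
  have hA : ∀ t : G, IsA t → Nat.card (centralizer ({t} : Set G)) = 21504 ∧
      (centralizer ({t} : Set G)).index = 11385 := by
    intro t ht
    obtain ⟨k, hk, hi, ⟨-, rfl⟩ | ⟨hn, -⟩⟩ := h.k_cases h9 ht.1
    · omega
    · exact absurd ht hn
  have hB : ∀ t : G, orderOf t = 2 → ¬ IsA t →
      (∃ f : G, orderOf f = 5 ∧ Commute f t) ∧
        Nat.card (centralizer ({t} : Set G)) = 7680 := by
    intro t ht hn
    obtain ⟨k, hk, -, ⟨ha, -⟩ | ⟨-, hf, rfl⟩⟩ := h.k_cases h9 ht
    · exact absurd ha hn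
    · exact ⟨hf, by omega⟩
  obtain ⟨t₀, ht₀⟩ := h.exists_isA
  have hcA : Nat.card {t : G // IsA t} = 11385 := by
    rw [← (hA t₀ ht₀).2, ← card_isConj t₀]
    refine Nat.card_congr (Equiv.subtypeEquivRight fun t => ⟨fun ht => h.isA_conj ht₀ ht, ?_⟩)
    intro hc
    obtain ⟨a, rfl⟩ := isConj_iff.1 hc
    obtain ⟨ht, f, hf, hft⟩ := ht₀
    exact ⟨(orderOf_conjugate a t₀).trans ht, a * f * a⁻¹, (orderOf_conjugate a f).trans hf,
      (Commute.conj_iff a).2 hft⟩
  exact
    { card := h.card
      exists_isA := ⟨t₀, ht₀⟩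
      isA_conj := fun _ _ hs ht => h.isA_conj hs ht
      cent_isA := fun t ht => (hA t ht).1
      card_isA := hcA
      cent_not_isA := fun t ht hn => (hB t ht hn).2
      not_isA_conj := fun s t hs ht hsn htn => by
        obtain ⟨f, hf, hfs⟩ := (hB s hs hsn).1
        obtain ⟨f', hf', hft⟩ := (hB t ht htn).1
        exact h.fiveInv_conj hs hf hfs ht hf' hft
      cent_seven := fun _ hf => h.cent_seven hf
      norm_seven := fun _ hf => h.norm_seven hf
      invol_seven := fun _ hf => h.invol_seven hf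
      cent_five := fun _ hf => h.cent_five hf
      norm_five := fun _ hf => h.norm_five hf
      invol_five := fun _ hf => ⟨h.invol_five_card hf,
        fun _ _ htf => h.not_isA_of_five hf htf.symm⟩ }

end CountHyp

end CfsgLib.M24Count
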