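import Cfsg.Agent.M24Count.Defs
import Cfsg.Agent.M23Count.Counts

/-!
What the order `244823040` and the element-order counts of `M₂₄` give about the primes and about the
elements of orders five and seven.

The counts of the orders 1, 2, 3, 5, 7, 11, 23 are forced; the other eight values then fill the
group, so every other order that occurs has one of them, and no two orders share one. This decides
the centralisers of the elements of orders five and seven.
-/

set_option autoImplicit false
set_option linter.style.haveILetI false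

namespace CfsgLib.M24Count

open Subgroup

open CfsgLib.M12Count (count_modEq centralizer_le_normalizer_zpowers mem_centralizer_of_commute
  commute_of_mem_centralizer exists_sylow_eq)
open CfsgLib.M23Count (orderOf_conjugate card_orderOf_centralizer exists_conj_zpowers
  card_commute_of_zpowers commute_iff_of_zpowers_eq card_normalizer_zpowers_dvd)

universe u

/-- The orders whose counts are forced one by one. -/
def basicOrders : Finset ℕ := {1, 2, 3, 5, 7, 11, 23}

/-- The values taken at the other orders. -/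
def otherValues : Finset ℕ :=
  {5100480, 20401920, 15301440, 12241152, 40803840, 34974720, 32643072, 23316480}

section general

variable {G : Type u} [Group G] [Finite G]

theorem cnt_ne_zero {n : ℕ} {x : G} (hx : orderOf x = n) : cnt G n ≠ 0 :=
  (CfsgLib.OrderCounts.cnt_ne_zero_iff n).mpr ⟨x, hx⟩

theorem cnt_mul {p d k : ℕ} (hp : 1 < p) (hd : 1 < d) (hco : Nat.Coprime p d)
    (hk : ∀ x : G, orderOf x = p → Nat.card {y : G // orderOf y = d ∧ Commute x y} = k) :
    cnt G (p * d) = cnt G p * k :=
  CfsgLib.M23Count.cnt_mul hp hd hco hk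

theorem count_mod {p : ℕ} [Fact p.Prime] {x : G} (hx : orderOf x = p) (n : ℕ) :
    cnt G n % p = Nat.card {y : G // orderOf y = n ∧ Commute x y} % p :=
  count_modEq hx n

theorem two_dvd_commute (f : G) {d : ℕ} (hd : 3 ≤ d) :
    2 ∣ Nat.card {y : G // orderOf y = d ∧ Commute f y} :=
  card_orderOf_centralizer f d ▸
    (Nat.totient_even (by omega)).two_dvd.trans
      (Cfsg.Agent.S3995.totient_dvd_cnt (G := centralizer ({f} : Set G)) d)

theorem exists_of_card_commute_ne_zero {f : G} {d : ℕ}
    (hd : Nat.card {y : G // orderOf y = d ∧ Commute f y} ≠ 0) :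
    ∃ y : G, orderOf y = d ∧ Commute f y := by
  obtain ⟨⟨y, hy⟩⟩ := (Nat.card_pos_iff.1 (Nat.pos_of_ne_zero hd)).1
  exact ⟨y, hy⟩

/-- Three involutions commuting with `f` are permuted transitively by `C(f)` as soon as an element
of order three commutes with `f` and none of order six does. -/
theorem exists_conj_of_three {f t s : G}
    (h3 : Nat.card {y : G // orderOf y = 2 ∧ Commute y f} = 3)
    (hx : ∃ x : G, orderOf x = 3 ∧ Commute f x)
    (h6 : ∀ y : G, Commute f y → orderOf y ≠ 6) (ht : orderOf t = 2) (htf : Commute t f)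
    (hs : orderOf s = 2) (hsf : Commute s f) : ∃ g : G, Commute f g ∧ g * t * g⁻¹ = s := by
  obtain ⟨x, hx3, hfx⟩ := hx
  have hx' : x ^ 3 = 1 := hx3 ▸ pow_orderOf_eq_one x
  have hfix : x * t * x⁻¹ ≠ t := by
    intro e
    have hc : Commute x t := mul_inv_eq_iff_eq_mul.1 e
    refine h6 (x * t) (hfx.mul_right htf.symm) ?_
    rw [hc.orderOf_mul_eq_mul_orderOf_of_coprime (by rw [hx3, ht]; norm_num), hx3, ht]
  have hmem : ∀ i : ℕ, orderOf (x ^ i * t * (x ^ i)⁻¹) = 2 ∧ Commute (x ^ i * t * (x ^ i)⁻¹) f :=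
    fun i => ⟨(orderOf_conjugate _ t).trans ht,
      (((hfx.pow_right i).symm.mul_left htf).mul_left (hfx.pow_right i).inv_right.symm)⟩
  let F : Fin 3 → {y : G // orderOf y = 2 ∧ Commute y f} := fun i =>
    ⟨x ^ (i : ℕ) * t * (x ^ (i : ℕ))⁻¹, hmem i⟩
  have hne : ∀ j : ℕ, j % 3 ≠ 0 → x ^ j * t * (x ^ j)⁻¹ ≠ t := by
    intro j hj e
    refine hfix ?_
    have hc : Commute (x ^ j) t := mul_inv_eq_iff_eq_mul.1 e
    have hc' := hc.pow_left j
    rw [← pow_mul, ← pow_mod_orderOf, hx3, Nat.mul_mod,
      show j % 3 * (j % 3) % 3 = 1 by rcases (show j % 3 = 1 ∨ j % 3 = 2 by omega) with e | e <;> rw [e],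
      pow_one] at hc'
    exact mul_inv_eq_iff_eq_mul.2 hc'
  have hinj : Function.Injective F := by
    rintro ⟨i, hi⟩ ⟨j, hj⟩ e
    have e' : x ^ i * t * (x ^ i)⁻¹ = x ^ j * t * (x ^ j)⁻¹ := congrArg Subtype.val e
    by_contra hij
    refine hne (2 * j + i) ?_ ?_
    · simp only [Fin.mk.injEq] at hij
      omega
    calc x ^ (2 * j + i) * t * (x ^ (2 * j + i))⁻¹
        = x ^ (2 * j) * (x ^ i * t * (x ^ i)⁻¹) * (x ^ (2 * j))⁻¹ := by rw [pow_add]; group
      _ = x ^ (2 * j) * (x ^ j * t * (x ^ j)⁻¹) * (x ^ (2 * j))⁻¹ := by rw [e']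
      _ = x ^ (3 * j) * t * (x ^ (3 * j))⁻¹ := by
        rw [show 3 * j = 2 * j + j by omega, pow_add]; group
      _ = t := by rw [pow_mul, hx', one_pow, one_mul, inv_one, mul_one]
  haveI := Fintype.ofFinite {y : G // orderOf y = 2 ∧ Commute y f}
  have hb := (Fintype.bijective_iff_injective_and_card F).2
    ⟨hinj, by rw [Fintype.card_fin, ← Nat.card_eq_fintype_card, h3]⟩
  obtain ⟨i, hi⟩ := hb.2 ⟨s, hs, hsf⟩
  exact ⟨x ^ (i : ℕ), hfx.pow_right _, congrArg Subtype.val hi⟩

/-- The normaliser of `⟨f⟩` meets the centraliser of one of three transitively permuted involutions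
in a third. -/
theorem card_inf_mul_three {f t : G}
    (h3 : Nat.card {y : G // orderOf y = 2 ∧ Commute y f} = 3)
    (htr : ∀ s : G, orderOf s = 2 → Commute s f → ∃ g : G, Commute f g ∧ g * t * g⁻¹ = s)
    (ht : orderOf t = 2) (htf : Commute t f) :
    3 * Nat.card ↥(normalizer (zpowers f : Set G) ⊓ centralizer ({t} : Set G)) =
      Nat.card (normalizer (zpowers f : Set G)) := by
  set N := normalizer (zpowers f : Set G) with hN
  let I := {y : G // orderOf y = 2 ∧ Commute y f}
  choose g hg1 hg2 using fun s : I => htr s.1 s.2.1 s.2.2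
  have hgN : ∀ s, g s ∈ N := fun s =>
    centralizer_le_normalizer_zpowers f (mem_centralizer_of_commute (hg1 s))
  let F : I × ↥(N ⊓ centralizer ({t} : Set G)) → N := fun a =>
    ⟨g a.1 * a.2, mul_mem (hgN a.1) a.2.2.1⟩
  have key : ∀ a, (F a : G) * t * (F a : G)⁻¹ = (a.1 : G) := by
    rintro ⟨s, y, hy, hyt⟩
    show g s * y * t * (g s * y)⁻¹ = s
    rw [← hg2 s, mul_assoc (g s) y t, mem_centralizer_singleton_iff.1 hyt]
    group
  have hF : Function.Bijective F := by
    constructor
    · intro a b e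
      have h1 : a.1 = b.1 := Subtype.ext (by rw [← key a, ← key b, e])
      refine Prod.ext h1 (Subtype.ext ?_)
      have e' : g a.1 * (a.2 : G) = g b.1 * (b.2 : G) := congrArg Subtype.val e
      rw [h1] at e'
      exact mul_left_cancel e'
    · rintro ⟨n, hn⟩
      have hmem : n⁻¹ * f * n ∈ zpowers f :=
        (mem_normalizer_iff'' (H := zpowers f)).1 hn f |>.1 (mem_zpowers f)
      obtain ⟨k, hk⟩ := mem_zpowers_iff.1 hmem
      have hc : Commute (n * t * n⁻¹) f := by
        have h1 : Commute t (n⁻¹ * f * n) := hk ▸ htf.zpow_right k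
        simpa [mul_assoc] using (Commute.conj_iff n).2 h1
      let s : I := ⟨n * t * n⁻¹, (orderOf_conjugate n t).trans ht, hc⟩
      refine ⟨(s, ⟨(g s)⁻¹ * n, N.mul_mem (N.inv_mem (hgN s)) hn, ?_⟩), Subtype.ext ?_⟩
      · refine mem_centralizer_singleton_iff.2 ?_
        have e : g s * t * (g s)⁻¹ = n * t * n⁻¹ := hg2 s
        calc (g s)⁻¹ * n * t = (g s)⁻¹ * (n * t * n⁻¹) * n := by group
          _ = (g s)⁻¹ * (g s * t * (g s)⁻¹) * n := by rw [e]
          _ = t * ((g s)⁻¹ * n) := by group
      · show g s * ((g s)⁻¹ * n) = n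
        rw [mul_inv_cancel_left]
  rw [← Nat.card_eq_of_bijective F hF, Nat.card_prod, h3]

end general

namespace CountHyp

variable {G : Type u} [Group G] [Finite G] (h : CountHyp G)
include h

theorem cnt_two : cnt G 2 = 43263 := by
  obtain ⟨n, hn⟩ := h.surj 43263 (by decide)
  match n, hn with
  | 0, hn =>
    haveI : IsEmpty {g : G // orderOf g = 0} := ⟨fun g => (orderOf_pos (g : G)).ne' g.2⟩
    rw [cnt, Nat.card_of_isEmpty] at hn
    omega
  | 1, hn =>
    rw [show cnt G 1 = 1 from CfsgLib.OrderCounts.cnt_one] at hn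
    omega
  | 2, hn => exact hn
  | k + 3, hn =>
    have h2 : 2 ∣ cnt G (k + 3) :=
      (Nat.totient_even (by omega)).two_dvd.trans (Cfsg.Agent.S3995.totient_dvd_cnt _)
    rw [hn] at h2
    omega

theorem cnt_prime {p v : ℕ} (hp : p.Prime) (hp2 : 3 ≤ p) (hd : p ∣ Nat.card G)
    (key : ∀ c ∈ countValues, c % 2 = 0 → (c + 1) % p = 0 → c = v) : cnt G p = v := by
  have hne : cnt G p ≠ 0 := CfsgLib.OrderCounts.cnt_prime_ne_zero hp hd
  have he : 2 ∣ cnt G p :=
    (Nat.totient_even (by omega)).two_dvd.trans (Cfsg.Agent.S3995.totient_dvd_cnt _)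
  refine key _ (h.mem p hne) (Nat.mod_eq_zero_of_dvd he) ?_
  have h1 := Cfsg.Agent.S3995.dvd_sum_cnt (G := G) hp.ne_zero hd
  rw [hp.sum_divisors, CfsgLib.OrderCounts.cnt_one] at h1
  exact Nat.mod_eq_zero_of_dvd (Nat.add_comm 1 (cnt G p) ▸ h1)

theorem cnt_three : cnt G 3 = 712448 :=
  h.cnt_prime (by norm_num) le_rfl (by rw [h.card]; norm_num) (by decide)

theorem cnt_five : cnt G 5 = 4080384 :=
  h.cnt_prime (by norm_num) (by norm_num) (by rw [h.card]; norm_num) (by decide)

theorem cnt_seven : cnt G 7 = 11658240 :=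
  h.cnt_prime (by norm_num) (by norm_num) (by rw [h.card]; norm_num) (by decide)

theorem cnt_eleven : cnt G 11 = 22256640 :=
  h.cnt_prime (by norm_num) (by norm_num) (by rw [h.card]; norm_num) (by decide)

theorem cnt_twentythree : cnt G 23 = 21288960 :=
  h.cnt_prime (by norm_num) (by norm_num) (by rw [h.card]; norm_num) (by decide)

/-- The orders outside `basicOrders` that occur. -/
theorem exists_orders : ∃ S : Finset ℕ, (∀ n ∈ S, cnt G n ∈ otherValues) ∧
    Set.InjOn (cnt G) S ∧ ∀ n, n ∉ basicOrders → cnt G n ≠ 0 → n ∈ S := by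
  classical
  choose a ha using fun v : {x // x ∈ otherValues} =>
    h.surj v.1 ((by decide : otherValues ⊆ countValues) v.2)
  have hinj : Function.Injective a := fun v w e => Subtype.ext (by rw [← ha v, ← ha w, e])
  have hoff : ∀ v, a v ∉ basicOrders := by
    intro v hm
    have hv := v.2
    rw [← ha v] at hv
    simp only [basicOrders, Finset.mem_insert, Finset.mem_singleton] at hm
    rcases hm with e | e | e | e | e | e | e <;> rw [e] at hv
    · rw [show cnt G 1 = 1 from CfsgLib.OrderCounts.cnt_one] at hv; revert hv; decide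
    · rw [h.cnt_two] at hv; revert hv; decide
    · rw [h.cnt_three] at hv; revert hv; decide
    · rw [h.cnt_five] at hv; revert hv; decide
    · rw [h.cnt_seven] at hv; revert hv; decide
    · rw [h.cnt_eleven] at hv; revert hv; decide
    · rw [h.cnt_twentythree] at hv; revert hv; decide
  refine ⟨otherValues.attach.image a, fun n hn => ?_, fun m hm n hn e => ?_, fun n hn hne => ?_⟩
  · obtain ⟨v, -, rfl⟩ := Finset.mem_image.1 hn
    rw [ha v]
    exact v.2
  · obtain ⟨v, -, rfl⟩ := Finset.mem_image.1 hm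
    obtain ⟨w, -, rfl⟩ := Finset.mem_image.1 hn
    rw [ha v, ha w] at e
    rw [Subtype.ext e]
  by_contra hnS
  simp only [basicOrders, Finset.mem_insert, Finset.mem_singleton, not_or] at hn hoff
  have hsum := CfsgLib.SylowToolkit.one_add_sum_card_orderOf_le (G := G)
    (insert n ((otherValues.attach.image a) ∪ ({2, 3, 5, 7, 11, 23} : Finset ℕ))) (by
      simp only [Finset.mem_insert, Finset.mem_union, Finset.mem_image, Finset.mem_singleton]
      rintro (e | ⟨v, -, e⟩ | e)
      · exact hn.1 e.symm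
      · exact (hoff v).1 e
      · omega)
  change 1 + ∑ n ∈ _, cnt G n ≤ Nat.card G at hsum
  rw [Finset.sum_insert (by
      simp only [Finset.mem_union, Finset.mem_insert, Finset.mem_singleton, hn, or_self, or_false]
      exact hnS),
    Finset.sum_union (Finset.disjoint_left.2 fun m hm hm' => by
      obtain ⟨v, -, rfl⟩ := Finset.mem_image.1 hm
      have := hoff v
      simp only [Finset.mem_insert, Finset.mem_singleton] at hm'
      omega),
    Finset.sum_image (fun v _ w _ e => hinj e),
    Finset.sum_congr rfl (fun v _ => ha v), Finset.sum_attach otherValues (fun v => v),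
    show (∑ v ∈ otherValues, v) = 184785 * 0 + (5100480 + 20401920 + 15301440 + 12241152 +
      40803840 + 34974720 + 32643072 + 23316480) by decide +kernel,
    Finset.sum_insert (by decide), Finset.sum_insert (by decide), Finset.sum_insert (by decide),
    Finset.sum_insert (by decide), Finset.sum_pair (by decide), h.cnt_two, h.cnt_three,
    h.cnt_five, h.cnt_seven, h.cnt_eleven, h.cnt_twentythree, h.card] at hsum
  omega

/-- An order outside `basicOrders` has one of the other eight counts. -/
theorem cnt_composite {n : ℕ} (hn : n ∉ basicOrders) (hne : cnt G n ≠ 0) :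
    cnt G n ∈ otherValues := by
  obtain ⟨S, hS, -, hall⟩ := h.exists_orders
  exact hS n (hall n hn hne)

/-- Two orders outside `basicOrders` have different counts. -/
theorem cnt_inj {m n : ℕ} (hm : m ∉ basicOrders) (hn : n ∉ basicOrders) (hne : cnt G m ≠ 0)
    (e : cnt G m = cnt G n) : m = n := by
  obtain ⟨S, -, hinj, hall⟩ := h.exists_orders
  exact hinj (Finset.mem_coe.2 (hall m hm hne)) (Finset.mem_coe.2 (hall n hn (e ▸ hne))) e

theorem composite_cases {n : ℕ} (hn : n ∉ basicOrders) :
    cnt G n = 0 ∨ cnt G n = 5100480 ∨ cnt G n = 20401920 ∨ cnt G n = 15301440 ∨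
      cnt G n = 12241152 ∨ cnt G n = 40803840 ∨ cnt G n = 34974720 ∨ cnt G n = 32643072 ∨
      cnt G n = 23316480 := by
  by_cases hne : cnt G n = 0
  · exact Or.inl hne
  · exact Or.inr (by simpa [otherValues] using h.cnt_composite hn hne)

theorem norm_of_cnt {p m v n : ℕ} [Fact p.Prime] (hm : 244823040 = p * m) (hpm : ¬ p ∣ m)
    (hv : cnt G p = v) (hn : ∀ s, s * (p - 1) = v → 244823040 = n * s) {g : G}
    (hg : orderOf g = p) : Nat.card (normalizer (zpowers g : Set G)) = n := by
  have hG : Nat.card G = p * m := by rw [h.card, hm]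
  obtain ⟨P, hP⟩ := exists_sylow_eq hG hpm hg
  have e := CfsgLib.SylowToolkit.card_orderOf_eq_prime (G := G) hG hpm
  have hs := hn _ (e.symm.trans hv)
  have hN := CfsgLib.SylowToolkit.card_normalizer_mul P
  rw [h.card] at hN
  rw [hP]
  exact Nat.eq_of_mul_eq_mul_right Nat.card_pos (hN.trans hs)

theorem norm_five {f : G} (hf : orderOf f = 5) :
    Nat.card (normalizer (zpowers f : Set G)) = 240 :=
  haveI : Fact (Nat.Prime 5) := ⟨by norm_num⟩
  h.norm_of_cnt (m := 48964608) (by norm_num) (by norm_num) h.cnt_five (fun s hs => by omega) hf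

theorem norm_seven {f : G} (hf : orderOf f = 7) :
    Nat.card (normalizer (zpowers f : Set G)) = 126 :=
  haveI : Fact (Nat.Prime 7) := ⟨by norm_num⟩
  h.norm_of_cnt (m := 34974720) (by norm_num) (by norm_num) h.cnt_seven (fun s hs => by omega) hf

theorem norm_eleven {g : G} (hg : orderOf g = 11) :
    Nat.card (normalizer (zpowers g : Set G)) = 110 :=
  haveI : Fact (Nat.Prime 11) := ⟨by norm_num⟩
  h.norm_of_cnt (m := 22256640) (by norm_num) (by norm_num) h.cnt_eleven (fun s hs => by omega) hg

theorem norm_twentythree {g : G} (hg : orderOf g = 23) :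
    Nat.card (normalizer (zpowers g : Set G)) = 253 :=
  haveI : Fact (Nat.Prime 23) := ⟨by norm_num⟩
  h.norm_of_cnt (m := 10644480) (by norm_num) (by norm_num) h.cnt_twentythree
    (fun s hs => by omega) hg

theorem conj_five {f f' : G} (hf : orderOf f = 5) (hf' : orderOf f' = 5) :
    ∃ a : G, zpowers (a * f * a⁻¹) = zpowers f' :=
  haveI : Fact (Nat.Prime 5) := ⟨by norm_num⟩
  exists_conj_zpowers (m := 48964608) (by rw [h.card]) (by norm_num) hf hf'

theorem conj_seven {f f' : G} (hf : orderOf f = 7) (hf' : orderOf f' = 7) :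
    ∃ a : G, zpowers (a * f * a⁻¹) = zpowers f' :=
  haveI : Fact (Nat.Prime 7) := ⟨by norm_num⟩
  exists_conj_zpowers (m := 34974720) (by rw [h.card]) (by norm_num) hf hf'

theorem const_five {f f' : G} (hf : orderOf f = 5) (hf' : orderOf f' = 5) (d : ℕ) :
    Nat.card {y : G // orderOf y = d ∧ Commute f y} =
      Nat.card {y : G // orderOf y = d ∧ Commute f' y} := by
  obtain ⟨a, ha⟩ := h.conj_five hf hf'
  exact card_commute_of_zpowers ha d

theorem const_seven {f f' : G} (hf : orderOf f = 7) (hf' : orderOf f' = 7) (d : ℕ) :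
    Nat.card {y : G // orderOf y = d ∧ Commute f y} =
      Nat.card {y : G // orderOf y = d ∧ Commute f' y} := by
  obtain ⟨a, ha⟩ := h.conj_seven hf hf'
  exact card_commute_of_zpowers ha d

theorem cnt_five_mul {f : G} (hf : orderOf f = 5) {d : ℕ} (hd : 1 < d) (hco : Nat.Coprime 5 d) :
    cnt G (5 * d) = 4080384 * Nat.card {y : G // orderOf y = d ∧ Commute f y} := by
  rw [cnt_mul (by norm_num) hd hco fun x hx => h.const_five hx hf d, h.cnt_five]

theorem cnt_seven_mul {f : G} (hf : orderOf f = 7) {d : ℕ} (hd : 1 < d) (hco : Nat.Coprime 7 d) :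
    cnt G (7 * d) = 11658240 * Nat.card {y : G // orderOf y = d ∧ Commute f y} := by
  rw [cnt_mul (by norm_num) hd hco fun x hx => h.const_seven hx hf d, h.cnt_seven]

theorem two_commute_seven {f : G} (hf : orderOf f = 7) :
    Nat.card {y : G // orderOf y = 2 ∧ Commute f y} = 3 := by
  haveI : Fact (Nat.Prime 7) := ⟨by norm_num⟩
  have e := h.cnt_seven_mul hf (d := 2) (by norm_num) (by norm_num)
  have hv := h.composite_cases (n := 7 * 2) (by decide)
  have hm := count_mod hf 2
  rw [h.cnt_two] at hm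
  omega

theorem three_commute_seven {f : G} (hf : orderOf f = 7) :
    Nat.card {y : G // orderOf y = 3 ∧ Commute f y} = 2 := by
  haveI : Fact (Nat.Prime 7) := ⟨by norm_num⟩
  have e := h.cnt_seven_mul hf (d := 3) (by norm_num) (by norm_num)
  have hv := h.composite_cases (n := 7 * 3) (by decide)
  have hm := count_mod hf 3
  have h2 := two_dvd_commute f (show 3 ≤ 3 by norm_num)
  rw [h.cnt_three] at hm
  omega

theorem three_commute_five {f : G} (hf : orderOf f = 5) :
    Nat.card {y : G // orderOf y = 3 ∧ Commute f y} = 8 := by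
  haveI : Fact (Nat.Prime 5) := ⟨by norm_num⟩
  have e := h.cnt_five_mul hf (d := 3) (by norm_num) (by norm_num)
  have hv := h.composite_cases (n := 5 * 3) (by decide)
  have hm := count_mod hf 3
  have h2 := two_dvd_commute f (show 3 ≤ 3 by norm_num)
  rw [h.cnt_three] at hm
  omega

theorem cnt_fifteen : cnt G 15 = 32643072 := by
  haveI : Fact (Nat.Prime 5) := ⟨by norm_num⟩
  obtain ⟨f, hf⟩ := exists_prime_orderOf_dvd_card' (G := G) 5 (by rw [h.card]; norm_num)
  rw [show 15 = 5 * 3 from rfl, h.cnt_five_mul hf (by norm_num) (by norm_num),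
    h.three_commute_five hf]

theorem two_commute_five {f : G} (hf : orderOf f = 5) :
    Nat.card {y : G // orderOf y = 2 ∧ Commute f y} = 3 := by
  haveI : Fact (Nat.Prime 5) := ⟨by norm_num⟩
  have e := h.cnt_five_mul hf (d := 2) (by norm_num) (by norm_num)
  have hv := h.composite_cases (n := 5 * 2) (by decide)
  have hm := count_mod hf 2
  have hne : cnt G (5 * 2) ≠ 32643072 := fun e' =>
    absurd (h.cnt_inj (m := 5 * 2) (n := 15) (by decide) (by decide) (by rw [e']; norm_num)
      (e'.trans h.cnt_fifteen.symm)) (by norm_num)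
  rw [h.cnt_two] at hm
  omega

theorem cnt_ten : cnt G 10 = 12241152 := by
  haveI : Fact (Nat.Prime 5) := ⟨by norm_num⟩
  obtain ⟨f, hf⟩ := exists_prime_orderOf_dvd_card' (G := G) 5 (by rw [h.card]; norm_num)
  rw [show 10 = 5 * 2 from rfl, h.cnt_five_mul hf (by norm_num) (by norm_num),
    h.two_commute_five hf]

theorem cnt_fourteen : cnt G 14 = 34974720 := by
  haveI : Fact (Nat.Prime 7) := ⟨by norm_num⟩
  obtain ⟨f, hf⟩ := exists_prime_orderOf_dvd_card' (G := G) 7 (by rw [h.card]; norm_num)
  rw [show 14 = 7 * 2 from rfl, h.cnt_seven_mul hf (by norm_num) (by norm_num),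
    h.two_commute_seven hf]

theorem cnt_twentyone : cnt G 21 = 23316480 := by
  haveI : Fact (Nat.Prime 7) := ⟨by norm_num⟩
  obtain ⟨f, hf⟩ := exists_prime_orderOf_dvd_card' (G := G) 7 (by rw [h.card]; norm_num)
  rw [show 21 = 7 * 3 from rfl, h.cnt_seven_mul hf (by norm_num) (by norm_num),
    h.three_commute_seven hf]

theorem no_six_seven {f y : G} (hf : orderOf f = 7) (hy : Commute f y) : orderOf y ≠ 6 := by
  intro h6
  haveI : Nonempty {z : G // orderOf z = 6 ∧ Commute f z} := ⟨⟨y, h6, hy⟩⟩
  have hpos : 0 < Nat.card {z : G // orderOf z = 6 ∧ Commute f z} := Nat.card_pos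
  have e := h.cnt_seven_mul hf (d := 6) (by norm_num) (by norm_num)
  have hv := h.composite_cases (n := 7 * 6) (by decide)
  have h2 := two_dvd_commute f (show 3 ≤ 6 by norm_num)
  have hne : cnt G (7 * 6) ≠ 23316480 := fun e' =>
    absurd (h.cnt_inj (m := 7 * 6) (n := 21) (by decide) (by decide) (by rw [e']; norm_num)
      (e'.trans h.cnt_twentyone.symm)) (by norm_num)
  omega

theorem cent_seven {f : G} (hf : orderOf f = 7) :
    Nat.card (centralizer ({f} : Set G)) = 42 := by
  set C := centralizer ({f} : Set G) with hC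
  have hd := card_dvd_of_le (centralizer_le_normalizer_zpowers f)
  rw [h.norm_seven hf, ← hC] at hd
  have hN := card_normalizer_zpowers_dvd f
  rw [h.norm_seven hf, hf, show Nat.totient 7 = 6 by decide, ← hC] at hN
  have h7 : 7 ∣ Nat.card C :=
    hf ▸ Subgroup.orderOf_dvd_natCard _ (mem_centralizer_of_commute (Commute.refl f))
  obtain ⟨t, ht, hft⟩ := exists_of_card_commute_ne_zero
    (f := f) (d := 2) (by rw [h.two_commute_seven hf]; norm_num)
  have h2 : 2 ∣ Nat.card C := ht ▸ Subgroup.orderOf_dvd_natCard _ (mem_centralizer_of_commute hft)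
  have key : ∀ m ∈ (126 : ℕ).divisors, 7 ∣ m → 2 ∣ m → 126 ∣ m * 6 → m = 42 ∨ m = 126 := by
    decide
  refine (key _ (Nat.mem_divisors.2 ⟨hd, by norm_num⟩) h7 h2 hN).resolve_right fun h126 => ?_
  have e := h.cnt_seven_mul hf (d := 9) (by norm_num) (by norm_num)
  have hv := h.composite_cases (n := 7 * 9) (by decide)
  have h9 : 6 ∣ Nat.card {y : G // orderOf y = 9 ∧ Commute f y} :=
    card_orderOf_centralizer f 9 ▸ (show Nat.totient 9 = 6 by decide) ▸
      Cfsg.Agent.S3995.totient_dvd_cnt (G := C) 9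
  have h0 : Nat.card {y : G // orderOf y = 9 ∧ Commute f y} = 0 := by omega
  have hs := Cfsg.Agent.S3995.dvd_sum_cnt (G := C) (N := 9) (by norm_num)
    (by rw [h126]; norm_num)
  rw [show (9 : ℕ).divisors = {1, 3, 9} by decide, Finset.sum_insert (by decide),
    Finset.sum_pair (by decide), CfsgLib.OrderCounts.cnt_one,
    show Cfsg.Agent.S3995.cnt C 3 = 2 from
      (card_orderOf_centralizer f 3).trans (h.three_commute_seven hf),
    show Cfsg.Agent.S3995.cnt C 9 = 0 from (card_orderOf_centralizer f 9).trans h0] at hs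
  norm_num at hs

/-- The centraliser of an element of order five has order 60 and no element of order four, six or
twelve. -/
theorem five_shape {f : G} (hf : orderOf f = 5) :
    Nat.card (centralizer ({f} : Set G)) = 60 ∧
      ∀ d : ℕ, d = 4 ∨ d = 6 ∨ d = 12 →
        Nat.card {y : G // orderOf y = d ∧ Commute f y} = 0 := by
  classical
  set C := centralizer ({f} : Set G) with hC
  have hd := card_dvd_of_le (centralizer_le_normalizer_zpowers f)
  rw [h.norm_five hf, ← hC] at hd
  have hN := card_normalizer_zpowers_dvd f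
  rw [h.norm_five hf, hf, show Nat.totient 5 = 4 by decide, ← hC] at hN
  have h5 : 5 ∣ Nat.card C :=
    hf ▸ Subgroup.orderOf_dvd_natCard _ (mem_centralizer_of_commute (Commute.refl f))
  obtain ⟨k, hk⟩ := h5
  rw [hk] at hd hN
  have hk48 : k ∣ 48 := Nat.dvd_of_mul_dvd_mul_left (by norm_num : 0 < 5) (by simpa using hd)
  have key : ∀ m ∈ (48 : ℕ).divisors, 240 ∣ 5 * m * 4 → m = 12 ∨ m = 24 ∨ m = 48 := by decide
  have hk' := key _ (Nat.mem_divisors.2 ⟨hk48, by norm_num⟩) hN
  have hk0 : k ≠ 0 := by omega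
  -- the orders beyond three
  have hval : ∀ d ∈ k.divisors \ {1, 2, 3},
      Cfsg.Agent.S3995.cnt C d = 0 ∨
        Cfsg.Agent.S3995.cnt C d = 10 ∧ cnt G (5 * d) = 40803840 := by
    intro d hd
    simp only [Finset.mem_sdiff, Nat.mem_divisors, Finset.mem_insert, Finset.mem_singleton,
      not_or] at hd
    have hd0 : d ≠ 0 := by rintro rfl; exact hk0 (Nat.eq_zero_of_zero_dvd hd.1.1)
    have hco : Nat.Coprime 5 d := Nat.Coprime.coprime_dvd_right (hd.1.1.trans hk48) (by norm_num)
    have hi : Cfsg.Agent.S3995.cnt C d = Nat.card {y : G // orderOf y = d ∧ Commute f y} :=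
      card_orderOf_centralizer f d
    have e := h.cnt_five_mul hf (d := d) (by omega) hco
    have hnb : 5 * d ∉ basicOrders := by
      simp only [basicOrders, Finset.mem_insert, Finset.mem_singleton]
      omega
    have hv := h.composite_cases hnb
    have h2 := two_dvd_commute f (show 3 ≤ d by omega)
    have hne : cnt G (5 * d) ≠ 32643072 := fun e' =>
      absurd (h.cnt_inj hnb (n := 15) (by decide) (by rw [e']; norm_num)
        (e'.trans h.cnt_fifteen.symm)) (by omega)
    omega
  have hrest : ∑ d ∈ k.divisors \ {1, 2, 3}, Cfsg.Agent.S3995.cnt C d = 0 ∨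
      ∑ d ∈ k.divisors \ {1, 2, 3}, Cfsg.Agent.S3995.cnt C d = 10 := by
    by_cases hall : ∀ d ∈ k.divisors \ {1, 2, 3}, Cfsg.Agent.S3995.cnt C d = 0
    · exact Or.inl (Finset.sum_eq_zero hall)
    push Not at hall
    obtain ⟨d₀, hd₀, hd₀'⟩ := hall
    obtain ⟨he₀, hv₀⟩ := (hval d₀ hd₀).resolve_left hd₀'
    refine Or.inr ((Finset.sum_eq_single_of_mem d₀ hd₀ fun d hd hne => ?_).trans he₀)
    refine (hval d hd).resolve_right fun hh => hne ?_
    have hb : ∀ d ∈ k.divisors \ {1, 2, 3}, 5 * d ∉ basicOrders := by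
      intro d hd
      simp only [Finset.mem_sdiff, Nat.mem_divisors, Finset.mem_insert, Finset.mem_singleton,
        not_or] at hd
      have hd0 : d ≠ 0 := by rintro rfl; exact hk0 (Nat.eq_zero_of_zero_dvd hd.1.1)
      simp only [basicOrders, Finset.mem_insert, Finset.mem_singleton]
      omega
    exact Nat.eq_of_mul_eq_mul_left (by norm_num : 0 < 5) (h.cnt_inj (hb d hd) (hb d₀ hd₀)
      (by rw [hh.2]; norm_num) (hh.2.trans hv₀.symm))
  have hsub : ({1, 2, 3} : Finset ℕ) ⊆ k.divisors := by
    rcases hk' with e | e | e <;> rw [e] <;> decide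
  have hs := Cfsg.Agent.S3995.dvd_sum_cnt (G := C) (N := k) hk0 (by rw [hk]; exact dvd_mul_left k 5)
  rw [← Finset.sum_sdiff hsub, Finset.sum_insert (by decide), Finset.sum_pair (by decide),
    CfsgLib.OrderCounts.cnt_one,
    show Cfsg.Agent.S3995.cnt C 2 = 3 from
      (card_orderOf_centralizer f 2).trans (h.two_commute_five hf),
    show Cfsg.Agent.S3995.cnt C 3 = 8 from
      (card_orderOf_centralizer f 3).trans (h.three_commute_five hf)] at hs
  have hk12 : k = 12 := by
    rcases hk' with e | e | e <;> rcases hrest with r | r <;> rw [r, e] at hs <;> omega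
  subst hk12
  refine ⟨hk, fun d hd => ?_⟩
  rw [← card_orderOf_centralizer f d]
  rcases hrest with r | r
  · exact Finset.sum_eq_zero_iff.1 r d (by rcases hd with rfl | rfl | rfl <;> decide)
  · rw [r] at hs
    omega

theorem cent_five {f : G} (hf : orderOf f = 5) :
    Nat.card (centralizer ({f} : Set G)) = 60 :=
  (h.five_shape hf).1

theorem no_six_five {f y : G} (hf : orderOf f = 5) (hy : Commute f y) : orderOf y ≠ 6 := by
  intro h6
  haveI : Nonempty {z : G // orderOf z = 6 ∧ Commute f z} := ⟨⟨y, h6, hy⟩⟩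
  exact Nat.card_pos.ne' ((h.five_shape hf).2 6 (by norm_num))

theorem invol_seven {f : G} (hf : orderOf f = 7) :
    Nat.card {t : G // orderOf t = 2 ∧ Commute t f} = 3 := by
  rw [← h.two_commute_seven hf]
  exact Nat.card_congr (Equiv.subtypeEquivRight fun y =>
    and_congr_right fun _ => ⟨Commute.symm, Commute.symm⟩)

theorem invol_five_card {f : G} (hf : orderOf f = 5) :
    Nat.card {t : G // orderOf t = 2 ∧ Commute t f} = 3 := by
  rw [← h.two_commute_five hf]
  exact Nat.card_congr (Equiv.subtypeEquivRight fun y =>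
    and_congr_right fun _ => ⟨Commute.symm, Commute.symm⟩)

/-- `C(f)` permutes the three involutions commuting with `f` transitively. -/
theorem trans_seven {f t s : G} (hf : orderOf f = 7) (ht : orderOf t = 2) (htf : Commute t f)
    (hs : orderOf s = 2) (hsf : Commute s f) : ∃ g : G, Commute f g ∧ g * t * g⁻¹ = s :=
  exists_conj_of_three (h.invol_seven hf)
    (exists_of_card_commute_ne_zero (by rw [h.three_commute_seven hf]; norm_num))
    (fun _ hy => h.no_six_seven hf hy) ht htf hs hsf

theorem trans_five {f t s : G} (hf : orderOf f = 5) (ht : orderOf t = 2) (htf : Commute t f)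
    (hs : orderOf s = 2) (hsf : Commute s f) : ∃ g : G, Commute f g ∧ g * t * g⁻¹ = s :=
  exists_conj_of_three (h.invol_five_card hf)
    (exists_of_card_commute_ne_zero (by rw [h.three_commute_five hf]; norm_num))
    (fun _ hy => h.no_six_five hf hy) ht htf hs hsf

theorem norm_inf_seven {f t : G} (hf : orderOf f = 7) (ht : orderOf t = 2) (htf : Commute t f) :
    Nat.card ↥(normalizer (zpowers f : Set G) ⊓ centralizer ({t} : Set G)) = 42 := by
  have e := card_inf_mul_three (h.invol_seven hf)
    (fun s hs hsf => h.trans_seven hf ht htf hs hsf) ht htf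
  rw [h.norm_seven hf] at e
  omega

theorem norm_inf_five {f t : G} (hf : orderOf f = 5) (ht : orderOf t = 2) (htf : Commute t f) :
    Nat.card ↥(normalizer (zpowers f : Set G) ⊓ centralizer ({t} : Set G)) = 80 := by
  have e := card_inf_mul_three (h.invol_five_card hf)
    (fun s hs hsf => h.trans_five hf ht htf hs hsf) ht htf
  rw [h.norm_five hf] at e
  omega

theorem isA_conj {s t : G} (hs : IsA s) (ht : IsA t) : IsConj s t := by
  obtain ⟨hs2, f, hf, hfs⟩ := hs
  obtain ⟨ht2, f', hf', hft⟩ := ht
  obtain ⟨a, ha⟩ := h.conj_seven hf hf'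
  have hc : Commute f' (a * s * a⁻¹) :=
    (commute_iff_of_zpowers_eq ha _).1 ((Commute.conj_iff a).2 hfs)
  obtain ⟨g, -, hg⟩ := h.trans_seven hf' ((orderOf_conjugate a s).trans hs2) hc.symm ht2 hft.symm
  exact (isConj_iff.2 ⟨a, rfl⟩).trans (isConj_iff.2 ⟨g, hg⟩)

theorem fiveInv_conj {s t f f' : G} (hs : orderOf s = 2) (hf : orderOf f = 5) (hfs : Commute f s)
    (ht : orderOf t = 2) (hf' : orderOf f' = 5) (hft : Commute f' t) : IsConj s t := by
  obtain ⟨a, ha⟩ := h.conj_five hf hf'
  have hc : Commute f' (a * s * a⁻¹) :=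
    (commute_iff_of_zpowers_eq ha _).1 ((Commute.conj_iff a).2 hfs)
  obtain ⟨g, -, hg⟩ := h.trans_five hf' ((orderOf_conjugate a s).trans hs) hc.symm ht hft.symm
  exact (isConj_iff.2 ⟨a, rfl⟩).trans (isConj_iff.2 ⟨g, hg⟩)

/-- Eleven and twenty-three divide no centraliser of an involution. -/
theorem not_dvd_large {t : G} (ht : orderOf t = 2) :
    ¬ 11 ∣ Nat.card (centralizer ({t} : Set G)) ∧
      ¬ 23 ∣ Nat.card (centralizer ({t} : Set G)) := by
  constructor
  · intro hd
    haveI : Fact (Nat.Prime 11) := ⟨by norm_num⟩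
    obtain ⟨g, hg⟩ := exists_prime_orderOf_dvd_card' (G := centralizer ({t} : Set G)) 11 hd
    have hg' : orderOf (g : G) = 11 := by rw [Subgroup.orderOf_coe]; exact hg
    haveI : Nonempty {y : G // orderOf y = 2 ∧ Commute (g : G) y} :=
      ⟨⟨t, ht, (commute_of_mem_centralizer g.2).symm⟩⟩
    have hpos : 0 < Nat.card {y : G // orderOf y = 2 ∧ Commute (g : G) y} := Nat.card_pos
    have e := cnt_mul (G := G) (p := 11) (d := 2) (by norm_num) (by norm_num) (by norm_num)
      fun x hx => by
        obtain ⟨a, ha⟩ := exists_conj_zpowers (m := 22256640) (by rw [h.card]) (by norm_num) hx hg'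
        exact card_commute_of_zpowers ha 2
    rw [h.cnt_eleven] at e
    have hv := h.composite_cases (n := 11 * 2) (by decide)
    omega
  · intro hd
    haveI : Fact (Nat.Prime 23) := ⟨by norm_num⟩
    obtain ⟨g, hg⟩ := exists_prime_orderOf_dvd_card' (G := centralizer ({t} : Set G)) 23 hd
    have hg' : orderOf (g : G) = 23 := by rw [Subgroup.orderOf_coe]; exact hg
    have := Subgroup.orderOf_dvd_natCard _ (centralizer_le_normalizer_zpowers (g : G)
      (mem_centralizer_of_commute (commute_of_mem_centralizer g.2).symm))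
    rw [ht, h.norm_twentythree hg'] at this
    norm_num at this

end CountHyp

end CfsgLib.M24Count
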