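import Cfsg.Prelude.Def_Sporadic
import Mathlib.GroupTheory.Sylow
import Mathlib.GroupTheory.GroupAction.Basic
import Mathlib.Data.Fintype.Card

/-!
Shared definitions for the recognition of `M₂₄` by its order and its element-order counts.

Route: the counts give `Setup`; `Setup` gives an elementary abelian `E` of order 16 (`Octad`), one
conjugate containing each involution centralised by an element of order 7; the 759 conjugates form
a `Geom`. In it a point is a set of vertices meeting every line exactly once: eight contain each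
vertex, so there are 24, and the vertices are the blocks of a Steiner system `S(5, 8, 24)`.
-/

set_option autoImplicit false

namespace CfsgLib.M24Count

universe u v

/-- The number of elements of order `n`. -/
noncomputable def cnt (G : Type u) [Group G] (n : ℕ) : ℕ := Nat.card {g : G // orderOf g = n}

/-- The values taken by the element-order counts of `M₂₄`. -/
def countValues : Finset ℕ :=
  {1, 43263, 712448, 5100480, 4080384, 20401920, 11658240, 15301440, 12241152, 22256640,
    40803840, 34974720, 32643072, 23316480, 21288960}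

/-- The hypothesis on a group with the order and the set of counts of `M₂₄`. -/
structure CountHyp (G : Type u) [Group G] : Prop where
  card : Nat.card G = 244823040
  mem : ∀ n : ℕ, cnt G n ≠ 0 → cnt G n ∈ countValues
  surj : ∀ c ∈ countValues, ∃ n : ℕ, cnt G n = c

/-- An involution centralised by an element of order 7. -/
def IsA {G : Type u} [Group G] (t : G) : Prop :=
  orderOf t = 2 ∧ ∃ f : G, orderOf f = 7 ∧ Commute f t

/-- The facts read off from the counts. -/
structure Setup (G : Type u) [Group G] : Prop where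
  card : Nat.card G = 244823040
  exists_isA : ∃ t : G, IsA t
  isA_conj : ∀ s t : G, IsA s → IsA t → IsConj s t
  cent_isA : ∀ t : G, IsA t → Nat.card (Subgroup.centralizer ({t} : Set G)) = 21504
  card_isA : Nat.card {t : G // IsA t} = 11385
  cent_not_isA : ∀ t : G, orderOf t = 2 → ¬ IsA t →
    Nat.card (Subgroup.centralizer ({t} : Set G)) = 7680
  not_isA_conj : ∀ s t : G, orderOf s = 2 → orderOf t = 2 → ¬ IsA s → ¬ IsA t → IsConj s t
  cent_seven : ∀ f : G, orderOf f = 7 → Nat.card (Subgroup.centralizer ({f} : Set G)) = 42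
  norm_seven : ∀ f : G, orderOf f = 7 →
    Nat.card (Subgroup.normalizer (Subgroup.zpowers f : Set G)) = 126
  invol_seven : ∀ f : G, orderOf f = 7 → Nat.card {t : G // orderOf t = 2 ∧ Commute t f} = 3
  cent_five : ∀ f : G, orderOf f = 5 → Nat.card (Subgroup.centralizer ({f} : Set G)) = 60
  norm_five : ∀ f : G, orderOf f = 5 →
    Nat.card (Subgroup.normalizer (Subgroup.zpowers f : Set G)) = 240
  invol_five : ∀ f : G, orderOf f = 5 →
    Nat.card {t : G // orderOf t = 2 ∧ Commute t f} = 3 ∧
      ∀ t : G, orderOf t = 2 → Commute t f → ¬ IsA t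

/-- An elementary abelian subgroup of order 16 with normaliser `2⁴ : A₈`. -/
structure Octad {G : Type u} [Group G] (E : Subgroup G) : Prop where
  card : Nat.card E = 16
  comm : ∀ a ∈ E, ∀ b ∈ E, a * b = b * a
  sq : ∀ a ∈ E, a * a = 1
  self_cent : Subgroup.centralizer (E : Set G) = E
  norm_card : Nat.card (Subgroup.normalizer (E : Set G)) = 322560
  isA : ∀ u ∈ E, u ≠ 1 → IsA u
  cent_le : ∀ u ∈ E, u ≠ 1 →
    Subgroup.centralizer ({u} : Set G) ≤ Subgroup.normalizer (E : Set G)
  trans : ∀ u ∈ E, ∀ w ∈ E, u ≠ 1 → w ≠ 1 →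
    ∃ n ∈ Subgroup.normalizer (E : Set G), n * u * n⁻¹ = w
  ti : ∀ g : G, ∀ u ∈ E, u ≠ 1 → g * u * g⁻¹ ∈ E → g ∈ Subgroup.normalizer (E : Set G)

/-- The near hexagon on the 759 vertices seen from each vertex: `adj` disjointness, `tet` the four
points shared with a near vertex, `duad` the two shared with a far one. -/
structure Geom (G : Type u) (V : Type v) [Group G] [MulAction G V] where
  adj : V → V → Prop
  near : V → V → Prop
  far : V → V → Prop
  tet : V → V → Finset (Fin 8)
  duad : V → V → Finset (Fin 8)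
  card_V : Nat.card V = 759
  trans : ∀ x y : V, ∃ g : G, g • x = y
  adj_smul : ∀ (g : G) (x y : V), adj x y → adj (g • x) (g • y)
  adj_symm : ∀ x y : V, adj x y → adj y x
  adj_ne : ∀ x y : V, adj x y → x ≠ y
  line : ∀ x y : V, adj x y → ∃! z, adj x z ∧ adj y z
  cases : ∀ x w : V, x = w ∨ adj x w ∨ near x w ∨ far x w
  near_ne : ∀ x w : V, near x w → x ≠ w ∧ ¬ adj x w
  far_ne : ∀ x w : V, far x w → x ≠ w ∧ ¬ adj x w ∧ ¬ near x w
  tet_card : ∀ x w : V, near x w → (tet x w).card = 4
  duad_card : ∀ x w : V, far x w → (duad x w).card = 2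
  tet_fibre : ∀ (x : V) (T : Finset (Fin 8)), T.card = 4 →
    {w | near x w ∧ tet x w = T}.ncard = 4
  duad_fibre : ∀ (x : V) (d : Finset (Fin 8)), d.card = 2 →
    {w | far x w ∧ duad x w = d}.ncard = 16
  /-- The third points of the lines from a near vertex to the neighbours of `x`. -/
  near_partner : ∀ x w : V, near x w →
    {w' | ∃ z, adj x z ∧ adj z w ∧ adj z w' ∧ adj w w'}.ncard = 3 ∧
      ∀ z w' : V, adj x z → adj z w → adj z w' → adj w w' →
        near x w' ∧ tet x w' = (tet x w)ᶜ
  far_line : ∀ (x w : V) (T : Finset (Fin 8)), far x w → T.card = 4 → Disjoint T (duad x w) →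
    ∃ a b : V, adj w a ∧ adj w b ∧ adj a b ∧ near x a ∧ tet x a = T ∧
      far x b ∧ duad x b = (T ∪ duad x w)ᶜ
  line_cases : ∀ x a b c : V, x ≠ a → x ≠ b → x ≠ c → adj a b → adj a c → adj b c →
    ∃ a' b' c' : V, ({a', b', c'} : Set V) = {a, b, c} ∧
      ((adj x a' ∧ near x b' ∧ near x c' ∧ tet x c' = (tet x b')ᶜ) ∨
        (near x a' ∧ far x b' ∧ far x c' ∧ Disjoint (tet x a') (duad x b') ∧
          duad x c' = (tet x a' ∪ duad x b')ᶜ))

/-- A set of vertices meeting each line exactly once: the vertices on one point. -/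
def Ovoid {G : Type u} {V : Type v} [Group G] [MulAction G V] (Γ : Geom G V) (S : Set V) : Prop :=
  ∀ a b c : V, Γ.adj a b → Γ.adj a c → Γ.adj b c →
    (a ∈ S ∧ b ∉ S ∧ c ∉ S) ∨ (a ∉ S ∧ b ∈ S ∧ c ∉ S) ∨ (a ∉ S ∧ b ∉ S ∧ c ∈ S)

/-- Twenty-four points on which the 759 vertices are eight-sets meeting in at most four points. -/
def HasPoints (G : Type u) (V : Type v) [Group G] [MulAction G V] : Prop :=
  ∃ (act : G →* Equiv.Perm (Fin 24)) (blk : V → Finset (Fin 24)),
    Function.Injective act ∧ (∀ w, (blk w).card = 8) ∧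
      (∀ g w, blk (g • w) = (blk w).image (act g)) ∧ ∀ w w', w ≠ w' → (blk w ∩ blk w').card ≤ 4

end CfsgLib.M24Count
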