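import Mathlib.GroupTheory.SpecificGroups.Alternating
import Mathlib.GroupTheory.PGroup
import Mathlib.GroupTheory.GroupAction.Quotient

/-!
Auxiliary facts for the lines through the conjugates: even permutations with prescribed behaviour, and
groups of order nine on an elementary group of order sixteen.
-/

set_option autoImplicit false

namespace CfsgLib.M24Count.LinesAux

/-- An even permutation of eight points matching two colourings with at most seven colours and
equally many points of each colour. -/
theorem exists_even {β : Type*} [Fintype β] [DecidableEq β] (hβ : Fintype.card β < 8)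
    (k k' : Fin 8 → β)
    (h : ∀ b, (Finset.univ.filter fun i => k i = b).card = (Finset.univ.filter fun i => k' i = b).card) :
    ∃ σ : Equiv.Perm (Fin 8), σ ∈ alternatingGroup (Fin 8) ∧ ∀ i, k' (σ i) = k i := by
  have e : ∀ b, {i // k i = b} ≃ {i // k' i = b} := fun b =>
    Fintype.equivOfCardEq (by rw [Fintype.card_subtype, Fintype.card_subtype]; exact h b)
  let σ : Equiv.Perm (Fin 8) := Equiv.ofFiberEquiv e
  have hσ : ∀ i, k' (σ i) = k i := fun i => Equiv.ofFiberEquiv_map e i
  rcases Int.units_eq_one_or (Equiv.Perm.sign σ) with hs | hs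
  · exact ⟨σ, hs, hσ⟩
  obtain ⟨i, j, hij, he⟩ := Fintype.exists_ne_map_eq_of_card_lt k (by simpa using hβ)
  refine ⟨σ * Equiv.swap i j, ?_, fun l => ?_⟩
  · rw [Equiv.Perm.mem_alternatingGroup, map_mul, hs, Equiv.Perm.sign_swap hij]; decide
  · rw [Equiv.Perm.mul_apply, hσ]
    rcases eq_or_ne l i with rfl | hi
    · rw [Equiv.swap_apply_left, he]
    rcases eq_or_ne l j with rfl | hj
    · rw [Equiv.swap_apply_right, he]
    · rw [Equiv.swap_apply_of_ne_of_ne hi hj]

theorem conj_iterate {G : Type*} [Group G] {p e b : G} (hb : p * b * p⁻¹ = b)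
    (he : p * e * p⁻¹ = e * b) (n : ℕ) : p ^ n * e * (p ^ n)⁻¹ = e * b ^ n := by
  induction n with
  | zero => simp
  | succ n ih =>
    have hbn : p * b ^ n * p⁻¹ = b ^ n := by rw [← _root_.conj_pow, hb]
    calc p ^ (n + 1) * e * (p ^ (n + 1))⁻¹ = p * (p ^ n * e * (p ^ n)⁻¹) * p⁻¹ := by
          rw [pow_succ']; group
      _ = (p * e * p⁻¹) * (p * b ^ n * p⁻¹) := by rw [ih]; group
      _ = e * b ^ (n + 1) := by rw [he, hbn, mul_assoc, ← pow_succ']

/-- A homomorphism of a group of order nine to the permutations of three points has a kernel. -/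
theorem exists_ne_one_map_eq_one {G : Type*} [Group G] {P : Subgroup G} {S : Type*}
    (hP : Nat.card P = 9) (f : ↥P →* Equiv.Perm S) (hS : Nat.card S = 3) :
    ∃ p : ↥P, p ≠ 1 ∧ f p = 1 := by
  haveI : Finite S := Nat.finite_of_card_ne_zero (by omega)
  by_contra hno
  push Not at hno
  have hinj : Function.Injective f := (injective_iff_map_eq_one f).2 fun p hp => by
    by_contra h; exact hno p h hp
  have := Subgroup.card_dvd_of_injective f hinj
  rw [hP, Nat.card_perm, hS] at this
  norm_num [Nat.factorial] at this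

/-- A group of order nine normalising `E` of order 16 and `K ≤ E` of order 4 with trivial centraliser on
`E` moves a member of `K` and a coset of `K` in `E`. -/
theorem nine_moves {G : Type*} [Group G] [Finite G] (E K P : Subgroup G) (hE : Nat.card E = 16)
    (hK : Nat.card K = 4) (hKE : K ≤ E) (hsq : ∀ a ∈ E, a * a = 1)
    (hP : Nat.card P = 9) (hnE : ∀ p ∈ P, ∀ a ∈ E, p * a * p⁻¹ ∈ E)
    (hnK : ∀ p ∈ P, ∀ a ∈ K, p * a * p⁻¹ ∈ K)
    (hfaith : ∀ p ∈ P, (∀ a ∈ E, p * a * p⁻¹ = a) → p = 1) :
    (∃ p ∈ P, ∃ a ∈ K, p * a * p⁻¹ ≠ a) ∧ ∃ p ∈ P, ∃ e ∈ E, e⁻¹ * (p * e * p⁻¹) ∉ K := by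
  classical
  haveI : Fintype G := Fintype.ofFinite G
  have h9 : ∀ p ∈ P, p ^ 9 = 1 := fun p hp => by
    have := pow_card_eq_one' (x := (⟨p, hp⟩ : P))
    rw [hP] at this
    exact congrArg Subtype.val this
  -- trivial on `K` and on the cosets forces trivial
  have key : ∀ p ∈ P, (∀ a ∈ K, p * a * p⁻¹ = a) → (∀ e ∈ E, e⁻¹ * (p * e * p⁻¹) ∈ K) →
      p = 1 := by
    intro p hp h1 h2
    refine hfaith p hp fun e he => ?_
    set b := e⁻¹ * (p * e * p⁻¹) with hb
    have h3 := conj_iterate (p := p) (e := e) (b := b) (h1 b (h2 e he)) (by rw [hb]; group) 9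
    have hb2 : b * b = 1 := hsq b (hKE (h2 e he))
    rw [h9 p hp, show b ^ 9 = (b * b) ^ 4 * b by rw [← sq, ← pow_mul, ← pow_succ], hb2, one_pow,
      one_mul, inv_one, mul_one, one_mul, left_eq_mul] at h3
    rw [hb, inv_mul_eq_one] at h3
    exact h3.symm
  have small := fun {S} f hS => exists_ne_one_map_eq_one (S := S) (P := P) hP f hS
  constructor
  · by_contra hno
    push Not at hno
    -- the cosets of `K` other than `K`
    have hKn : ∀ p ∈ P, ∀ a, a ∈ K ↔ p * a * p⁻¹ ∈ K := fun p hp a => ⟨hnK p hp a, fun h => by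
      simpa [mul_assoc] using hnK p⁻¹ (inv_mem hp) _ h⟩
    let K' := K.subgroupOf E
    let act : ↥P → ↥E ⧸ K' → ↥E ⧸ K' := fun p => Quotient.map
      (fun e : ↥E => (⟨(p : G) * e * (p : G)⁻¹, hnE p p.2 e e.2⟩ : ↥E)) fun a b hab => by
        change QuotientGroup.leftRel K' _ _ at hab
        change QuotientGroup.leftRel K' _ _
        rw [QuotientGroup.leftRel_apply] at hab ⊢
        rw [Subgroup.mem_subgroupOf] at hab ⊢
        simpa [mul_assoc] using (hKn p p.2 _).1 hab
    have act_one : ∀ x, act 1 x = x := fun x => Quotient.inductionOn x fun e =>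
      congrArg (Quotient.mk _) (Subtype.ext (by simp))
    have act_mul : ∀ p q x, act (p * q) x = act p (act q x) := fun p q x =>
      Quotient.inductionOn x fun e => congrArg (Quotient.mk _) (Subtype.ext (by
        simp [mul_assoc]))
    have act_fix : ∀ p, act p (QuotientGroup.mk 1) = QuotientGroup.mk 1 := fun p =>
      congrArg (Quotient.mk _) (Subtype.ext (by simp))
    let f : ↥P →* Equiv.Perm {x : ↥E ⧸ K' // x ≠ QuotientGroup.mk 1} :=
      { toFun := fun p =>
          { toFun := fun x => ⟨act p x.1, fun h => x.2 (by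
              have h2 := congrArg (act p⁻¹) h
              rwa [← act_mul, inv_mul_cancel, act_one, act_fix] at h2)⟩
            invFun := fun x => ⟨act p⁻¹ x.1, fun h => x.2 (by
              have h2 := congrArg (act p) h
              rwa [← act_mul, mul_inv_cancel, act_one, act_fix] at h2)⟩
            left_inv := fun x => Subtype.ext (by
              show act p⁻¹ (act p x.1) = x.1
              rw [← act_mul, inv_mul_cancel, act_one])
            right_inv := fun x => Subtype.ext (by
              show act p (act p⁻¹ x.1) = x.1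
              rw [← act_mul, mul_inv_cancel, act_one]) }
        map_one' := Equiv.ext fun x => Subtype.ext (act_one x.1)
        map_mul' := fun p q => Equiv.ext fun x => Subtype.ext (act_mul p q x.1) }
    have hq : Nat.card (↥E ⧸ K') = 4 := by
      have := Subgroup.card_eq_card_quotient_mul_card_subgroup K'
      rw [hE, Nat.card_congr (Subgroup.subgroupOfEquivOfLe hKE).toEquiv, hK] at this
      omega
    obtain ⟨p, hp1, hp⟩ := small f (by
      rw [Nat.card_eq_fintype_card, Fintype.card_subtype_compl, Fintype.card_subtype_eq,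
        ← Nat.card_eq_fintype_card, hq])
    refine hp1 (Subtype.ext (key p p.2 (hno p p.2) fun e he => ?_))
    by_cases he' : (QuotientGroup.mk ⟨e, he⟩ : ↥E ⧸ K') = QuotientGroup.mk 1
    · rw [QuotientGroup.eq, Subgroup.mem_subgroupOf] at he'
      have heK : e ∈ K := by simpa using he'
      exact mul_mem (inv_mem heK) (hnK p p.2 e heK)
    · have h2 : act p (QuotientGroup.mk ⟨e, he⟩) = QuotientGroup.mk ⟨e, he⟩ :=
        congrArg Subtype.val (Equiv.ext_iff.1 hp ⟨_, he'⟩)
      have h3 := QuotientGroup.eq.1 h2.symm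
      rw [Subgroup.mem_subgroupOf] at h3
      simpa using h3
  · by_contra hno
    push Not at hno
    let f : ↥P →* Equiv.Perm {a : ↥K // a ≠ 1} :=
      { toFun := fun p =>
          { toFun := fun a => ⟨⟨(p : G) * a.1 * (p : G)⁻¹, hnK p p.2 _ a.1.2⟩, fun h => a.2
              (Subtype.ext (conj_eq_one_iff.1 (congrArg Subtype.val h)))⟩
            invFun := fun a => ⟨⟨(p : G)⁻¹ * a.1 * (p : G), by
              simpa using hnK (p : G)⁻¹ (inv_mem p.2) _ a.1.2⟩, fun h => a.2 (Subtype.ext (by
              have h2 : (p : G)⁻¹ * (a.1 : G) * (p : G)⁻¹⁻¹ = 1 := by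
                rw [inv_inv]; exact congrArg Subtype.val h
              exact conj_eq_one_iff.1 h2))⟩
            left_inv := fun a => Subtype.ext (Subtype.ext (by simp [mul_assoc]))
            right_inv := fun a => Subtype.ext (Subtype.ext (by simp [mul_assoc])) }
        map_one' := Equiv.ext fun a => Subtype.ext (Subtype.ext (by simp))
        map_mul' := fun p q => Equiv.ext fun a => Subtype.ext (Subtype.ext (by simp [mul_assoc])) }
    obtain ⟨p, hp1, hp⟩ := small f (by
      rw [Nat.card_eq_fintype_card, Fintype.card_subtype_compl, Fintype.card_subtype_eq,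
        ← Nat.card_eq_fintype_card, hK])
    refine hp1 (Subtype.ext (key p p.2 (fun a ha => ?_) (hno p p.2)))
    by_cases ha1 : a = 1
    · simp [ha1]
    · exact congrArg (fun x : {a : ↥K // a ≠ 1} => ((x.1 : ↥K) : G))
        (Equiv.ext_iff.1 hp ⟨⟨a, ha⟩, fun h => ha1 (congrArg Subtype.val h)⟩)

end CfsgLib.M24Count.LinesAux
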