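import Cfsg.Agent.M24Count.PreGeom
import Cfsg.Agent.M24Count.LinesAux
import Mathlib.Data.Set.Card

/-!
The lines: every edge of the disjointness graph on the conjugates is in a triangle, and in only one.
-/

set_option autoImplicit false
set_option linter.unusedSectionVars false

namespace CfsgLib.M24Count

open MulAction CfsgLib.GL4F2

universe u v

namespace PreGeom

variable {G : Type u} {V : Type v} [Group G] [MulAction G V] [Finite G] (P : PreGeom G V)

/-- The intersection of the subgroup at `x` with the stabiliser of `w`. -/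
def part (x w : V) : Subgroup G := P.sub x ⊓ stabilizer G w

theorem mem_part {x w : V} {e : G} : e ∈ P.part x w ↔ e ∈ P.sub x ∧ e • w = w := Iff.rfl

/-- The action of the stabiliser on the eight points. -/
noncomputable def perm (x : V) : ↥(stabilizer G x) →* Equiv.Perm (Fin 8) :=
  (alternatingGroup (Fin 8)).subtype.comp (starPerm.comp (P.ρ x))

theorem perm_eq_one {x : V} {n : ↥(stabilizer G x)} : P.perm x n = 1 ↔ (n : G) ∈ P.sub x := by
  rw [show P.perm x n = ((starPerm (P.ρ x n) : ↥(alternatingGroup (Fin 8))) :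
      Equiv.Perm (Fin 8)) from rfl, OneMemClass.coe_eq_one,
    ← map_one starPerm, starPerm_injective.eq_iff, ← MonoidHom.mem_ker, P.ρ_ker,
    Subgroup.mem_subgroupOf]

theorem perm_surj {x : V} {σ : Equiv.Perm (Fin 8)} (hσ : σ ∈ alternatingGroup (Fin 8)) :
    ∃ n : ↥(stabilizer G x), P.perm x n = σ := by
  obtain ⟨g, hg⟩ := equivAlt8.surjective ⟨σ, hσ⟩
  obtain ⟨n, rfl⟩ := P.ρ_surj x g
  exact ⟨n, congrArg Subtype.val hg⟩

theorem sub_fix {x : V} {e : G} (he : e ∈ P.sub x) : e • x = x := P.sub_le x he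

theorem mem_sub_smul (g : G) {x : V} {a : G} : a ∈ P.sub (g • x) ↔ g⁻¹ * a * g ∈ P.sub x := by
  rw [P.sub_smul, Subgroup.mem_map_equiv]
  simp [MulAut.conj_symm_apply]

theorem conj_sub {x : V} {g a : G} (ha : a ∈ P.sub x) : g * a * g⁻¹ ∈ P.sub (g • x) := by
  rw [P.mem_sub_smul]
  simpa [mul_assoc] using ha

theorem conj_sub' {x : V} {g : G} (hg : g • x = x) {a : G} (ha : a ∈ P.sub x) :
    g * a * g⁻¹ ∈ P.sub x := by simpa [hg] using P.conj_sub (g := g) ha

theorem conj_part {x w : V} {g a : G} (ha : a ∈ P.part x w) :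
    g * a * g⁻¹ ∈ P.part (g • x) (g • w) := by
  refine ⟨P.conj_sub ha.1, ?_⟩
  show (g * a * g⁻¹) • g • w = g • w
  rw [mul_smul, inv_smul_smul, mul_smul, show a • w = w from ha.2]

theorem mem_part_smul {x w : V} {g a : G} :
    g * a * g⁻¹ ∈ P.part (g • x) (g • w) ↔ a ∈ P.part x w := by
  refine ⟨fun h => ?_, fun h => P.conj_part h⟩
  simpa [mul_assoc] using P.conj_part (g := g⁻¹) h

theorem sub_inv {x : V} {a : G} (ha : a ∈ P.sub x) : a⁻¹ = a :=
  inv_eq_of_mul_eq_one_right (P.sub_sq x a ha)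

theorem ne_of_adj {x z : V} (h : P.adj x z) : x ≠ z := ((P.adj_iff x z).1 h).1

theorem not_adj_self (x : V) : ¬ P.adj x x := fun h => P.ne_of_adj h rfl

theorem card_part_adj {x z : V} (h : P.adj x z) : Nat.card ↥(P.part x z) = 8 :=
  ((P.adj_iff x z).1 h).2

theorem card_part_near {x w : V} (h : P.near x w) : Nat.card ↥(P.part x w) = 4 :=
  ((P.near_iff x w).1 h).2

theorem not_near_of_adj {x z : V} (h : P.adj x z) : ¬ P.near x z := fun h' => by
  have := (P.card_part_adj h).symm.trans (P.card_part_near h')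
  omega

theorem part_mul_mem {x z : V} (h : P.adj x z) {e e' : G} (he : e ∈ P.sub x)
    (he' : e' ∈ P.sub x) (h1 : e ∉ P.part x z) (h2 : e' ∉ P.part x z) : e * e' ∈ P.part x z := by
  have hidx : ((P.part x z).subgroupOf (P.sub x)).index = 2 := by
    have := ((P.part x z).subgroupOf (P.sub x)).index_mul_card
    rw [Nat.card_congr (Subgroup.subgroupOfEquivOfLe
      (show P.part x z ≤ P.sub x from inf_le_left)).toEquiv, P.card_part_adj h, P.sub_card] at this
    omega
  have h3 := Subgroup.mul_mem_iff_of_index_two hidx (a := ⟨e, he⟩) (b := ⟨e', he'⟩)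
  simp only [Subgroup.mem_subgroupOf, Subgroup.coe_mul] at h3
  exact h3.2 (iff_of_false h1 h2)

theorem smul_eq_partner {x z : V} (h : P.adj x z) {e e' : G} (he : e ∈ P.sub x)
    (he' : e' ∈ P.sub x) (h1 : e ∉ P.part x z) (h2 : e' ∉ P.part x z) : e • z = e' • z := by
  have h3 := P.part_mul_mem h he' he h2 h1
  rw [eq_comm]
  calc e' • z = e' • (e' * e) • z := by rw [show (e' * e) • z = z from h3.2]
    _ = e • z := by rw [← mul_smul, ← mul_assoc, P.sub_sq x e' he', one_mul]

theorem exists_not_part {x z : V} (h : P.adj x z) : ∃ e ∈ P.sub x, e ∉ P.part x z := by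
  by_contra hno
  push Not at hno
  have := P.card_part_adj h
  rw [show P.part x z = P.sub x from le_antisymm inf_le_left hno, P.sub_card] at this
  omega

theorem smul_ne {x w : V} {e : G} (he : e ∈ P.sub x) (h : e ∉ P.part x w) : e • w ≠ w :=
  fun e' => h ⟨he, e'⟩

theorem adj_smul_sub {x z : V} (h : P.adj x z) {e : G} (he : e ∈ P.sub x) : P.adj x (e • z) := by
  simpa [P.sub_fix he] using P.adj_smul e x z h

theorem part_smul_sub {x z : V} {e : G} (he : e ∈ P.sub x) :
    P.part x (e • z) = P.part x z := by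
  ext a
  constructor
  · intro ha
    refine ⟨ha.1, ?_⟩
    show a • z = z
    have : e • a • z = e • z := by
      rw [← mul_smul, P.sub_comm x e he a ha.1, mul_smul]; exact ha.2
    exact smul_left_cancel e this
  · intro ha
    refine ⟨ha.1, ?_⟩
    show a • e • z = e • z
    rw [← mul_smul, P.sub_comm x a ha.1 e he, mul_smul, show a • z = z from ha.2]

theorem conj_part_fix {x z : V} {g : G} (hx : g • x = x) (hz : g • z = z) {a : G} :
    g * a * g⁻¹ ∈ P.part x z ↔ a ∈ P.part x z := by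
  have := P.mem_part_smul (g := g) (x := x) (w := z) (a := a)
  rwa [hx, hz] at this

theorem smul_part_eq {x w : V} {g : G} (hg : g • x = x) {a : G} :
    a ∈ P.part x (g • w) ↔ g⁻¹ * a * g ∈ P.part x w := by
  have := P.mem_part_smul (g := g) (x := x) (w := w) (a := g⁻¹ * a * g)
  rw [hg] at this
  rw [← this]
  simp [mul_assoc]

/-- Every edge lies in a triangle. -/
theorem partner_spec {x z : V} (h : P.adj x z) {e : G} (he : e ∈ P.sub x)
    (h1 : e ∉ P.part x z) :
    e • z ≠ z ∧ e • z ≠ x ∧ P.adj x (e • z) ∧ P.adj z (e • z) ∧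
      ∀ a ∈ P.part z x, a • e • z = e • z := by
  have hne := P.smul_ne he h1
  have hadj := P.adj_smul_sub h he
  have hfix : ∀ a ∈ P.part z x, a • e • z = e • z := by
    intro a ha
    have hax : a • x = x := ha.2
    have haz : a • z = z := P.sub_fix ha.1
    rw [← mul_smul, show a * e = (a * e * a⁻¹) * a by group, mul_smul, haz]
    exact P.smul_eq_partner h (P.conj_sub' hax he) he
      (fun h2 => h1 ((P.conj_part_fix hax haz).1 h2)) h1
  refine ⟨hne, (P.ne_of_adj hadj).symm, hadj, ?_, hfix⟩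
  have hle : Nat.card ↥(P.part z x) ≤ Nat.card ↥(P.part z (e • z)) :=
    Subgroup.card_le_of_le (show P.part z x ≤ P.part z (e • z) from fun a ha => ⟨ha.1, hfix a ha⟩)
  rw [P.card_part_adj (P.adj_symm x z h)] at hle
  rcases P.cases z (e • z) with h' | h' | h' | h'
  · exact absurd h'.symm hne
  · exact h'
  · rw [P.card_part_near h'] at hle; omega
  · rw [show Nat.card ↥(P.part z (e • z)) = 1 from ((P.far_iff _ _).1 h').2] at hle; omega

theorem exists_third {x z : V} (h : P.adj x z) :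
    ∃ y, P.adj x y ∧ P.adj z y ∧ ∃ e ∈ P.sub x, e ∉ P.part x z ∧ e • z = y := by
  obtain ⟨e, he, h1⟩ := P.exists_not_part h
  obtain ⟨-, -, h2, h3, -⟩ := P.partner_spec h he h1
  exact ⟨e • z, h2, h3, e, he, h1, rfl⟩

theorem card_group (P : PreGeom G V) : Nat.card G = 759 * 322560 := by
  haveI : Finite V := Nat.finite_of_card_ne_zero (by rw [P.card_V]; norm_num)
  obtain ⟨x⟩ : Nonempty V := (Nat.card_pos_iff.1 (by rw [P.card_V]; norm_num)).1
  haveI : IsPretransitive G V := ⟨P.trans⟩
  rw [← (stabilizer G x).index_mul_card, index_stabilizer_of_transitive, P.card_V, P.card_stab]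

/-- A set around `x` closed under adjacency, reached from `x`, of size not dividing 759 is absurd. -/
theorem not_closed {x : V} (S : Set V)
    (hclosed : ∀ a ∈ S, ∀ b, P.adj a b → b ∈ S) (hx : x ∈ S)
    (hreach : ∀ a ∈ S, Relation.ReflTransGen P.adj x a) (hn : ¬ S.ncard ∣ 759) : False := by
  haveI : Finite V := Nat.finite_of_card_ne_zero (by rw [P.card_V]; norm_num)
  have hS : ∀ a, Relation.ReflTransGen P.adj x a → a ∈ S := by
    intro a ha
    induction ha with
    | refl => exact hx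
    | tail _ h ih => exact hclosed _ ih _ h
  have hmap : ∀ (g : G) (a b : V), Relation.ReflTransGen P.adj a b →
      Relation.ReflTransGen P.adj (g • a) (g • b) := fun g a b h =>
    Relation.ReflTransGen.lift (fun y => g • y) (fun a b h => P.adj_smul g a b h) _ _ h
  have hsymm : ∀ a b : V, Relation.ReflTransGen P.adj a b → Relation.ReflTransGen P.adj b a := by
    intro a b h
    induction h with
    | refl => rfl
    | tail _ h ih => exact Relation.ReflTransGen.head (P.adj_symm _ _ h) ih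
  let K : Subgroup G :=
    { carrier := {g | g • x ∈ S}
      one_mem' := by simpa using hx
      mul_mem' := fun {g h} hg hh => hS _ (by
        rw [mul_smul]; exact (hreach _ hg).trans (hmap g _ _ (hreach _ hh)))
      inv_mem' := fun {g} hg => hS _ (by
        have := hsymm _ _ (hmap g⁻¹ _ _ (hreach _ hg))
        rwa [inv_smul_smul] at this) }
  have hle : stabilizer G x ≤ K := fun g hg => by
    show g • x ∈ S
    rw [show g • x = x from hg]; exact hx
  have horb : orbit ↥K x = S := by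
    ext a
    refine ⟨?_, fun ha => ?_⟩
    · rintro ⟨⟨g, hg⟩, rfl⟩; exact hg
    · obtain ⟨g, rfl⟩ := P.trans x a
      exact ⟨⟨g, ha⟩, rfl⟩
  have h1 := (stabilizer ↥K x).index_mul_card
  rw [index_stabilizer, horb, show stabilizer ↥K x = (stabilizer G x).subgroupOf K from rfl,
    Nat.card_congr (Subgroup.subgroupOfEquivOfLe hle).toEquiv, P.card_stab] at h1
  have h2 := K.card_subgroup_dvd_card
  rw [P.card_group, ← h1] at h2
  exact hn (Nat.dvd_of_mul_dvd_mul_right (by norm_num) h2)

theorem part_conj_inj {x z : V} (h : P.adj x z) {a a' e : G} (ha : a ∈ P.part z x)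
    (ha' : a' ∈ P.part z x) (he : e ∈ P.sub x) (h1 : e ∉ P.part x z)
    (heq : a * e * a⁻¹ = a' * e * a'⁻¹) : a = a' := by
  set c := a⁻¹ * a' with hc
  have hcA : c ∈ P.part z x := mul_mem (inv_mem ha) ha'
  have hce : c * e * c⁻¹ = e := by
    calc c * e * c⁻¹ = a⁻¹ * (a' * e * a'⁻¹) * a := by rw [hc]; group
      _ = e := by rw [← heq]; group
  have hcomm : ∀ u ∈ P.part x z, c * u = u * c := fun u hu =>
    P.part_comm x z (P.ne_of_adj h) c hcA u hu
  have hcent : c ∈ Subgroup.centralizer (P.sub x : Set G) := by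
    rw [Subgroup.mem_centralizer_iff]
    intro u hu
    by_cases huH : u ∈ P.part x z
    · exact (hcomm u huH).symm
    · have h2 := P.part_mul_mem h he hu h1 huH
      have h3 := hcomm _ h2
      have hce' : c * e = e * c := mul_inv_eq_iff_eq_mul.1 hce
      have h5 : e * (c * u) = e * (u * c) := by
        rw [← mul_assoc, ← hce', mul_assoc, h3, mul_assoc]
      exact (mul_left_cancel h5).symm
  rw [P.sub_self_cent] at hcent
  have h4 : c ∈ P.sub x ⊓ P.sub z := ⟨hcent, hcA.1⟩
  rw [P.sub_disj x z (P.ne_of_adj h), Subgroup.mem_bot, hc, inv_mul_eq_one] at h4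
  exact h4

/-- The elations: `e ↦ a e a⁻¹` reaches the whole coset outside a hyperplane. -/
theorem exists_elation {x z : V} (h : P.adj x z) {e u : G} (he : e ∈ P.sub x)
    (h1 : e ∉ P.part x z) (hu : u ∈ P.part x z) : ∃ a ∈ P.part z x, a * e * a⁻¹ = e * u := by
  have hmem : ∀ a : ↥(P.part z x), e * ((a : G) * e * (a : G)⁻¹) ∈ P.part x z := by
    intro a
    have hax : (a : G) • x = x := a.2.2
    have haz : (a : G) • z = z := P.sub_fix a.2.1
    exact P.part_mul_mem h he (P.conj_sub' hax he) h1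
      fun h2 => h1 ((P.conj_part_fix hax haz).1 h2)
  let f : ↥(P.part z x) → ↥(P.part x z) := fun a => ⟨_, hmem a⟩
  have hf : Function.Injective f := fun a b hab => Subtype.ext (P.part_conj_inj h a.2 b.2 he h1
    (mul_left_cancel (congrArg Subtype.val hab)))
  obtain ⟨a, ha⟩ := (hf.bijective_of_nat_card_le (by
    rw [P.card_part_adj h, P.card_part_adj (P.adj_symm x z h)])).2 ⟨u, hu⟩
  refine ⟨a, a.2, ?_⟩
  have h2 : e * ((a : G) * e * (a : G)⁻¹) = u := congrArg Subtype.val ha
  rw [← h2, ← mul_assoc, P.sub_sq x e he, one_mul]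

theorem part_ne_sub {x z : V} (h : P.adj x z) {a : G} (ha : a ∈ P.part x z) {e : G}
    (he : e ∈ P.sub x) (h1 : e ∉ P.part x z) : a * e ∉ P.part x z := fun h2 =>
  h1 ((Subgroup.mul_mem_cancel_left _ ha).1 h2)

/-- The stabiliser of a vertex is transitive on its neighbours. -/
theorem exists_move_adj {x z₁ z₂ : V} (h₁ : P.adj x z₁) (h₂ : P.adj x z₂) :
    ∃ g : G, g • x = x ∧ g • z₁ = z₂ := by
  suffices ∃ g : G, g • x = x ∧ P.part x (g • z₁) = P.part x z₂ by
    obtain ⟨g, hg, hp⟩ := this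
    have hadj : P.adj x (g • z₁) := by simpa [hg] using P.adj_smul g x z₁ h₁
    obtain ⟨e, he, hez⟩ := (P.adj_part_iff x (g • z₁) z₂ hadj h₂).1 hp
    exact ⟨e * g, by rw [mul_smul, hg, P.sub_fix he], by rw [mul_smul, hez]⟩
  by_cases heq : P.part x z₁ = P.part x z₂
  · exact ⟨1, one_smul _ _, by rwa [one_smul]⟩
  set H := P.part x z₁ with hH
  set M := P.part x z₂ with hM
  obtain ⟨e, heH, heM⟩ : ∃ e ∈ H, e ∉ M := by
    by_contra hno
    push Not at hno
    exact heq (Subgroup.eq_of_le_of_card_ge hno (by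
      rw [hH, hM, P.card_part_adj h₁, P.card_part_adj h₂]))
  obtain ⟨m, hmM, hmH⟩ : ∃ m ∈ M, m ∉ H := by
    by_contra hno
    push Not at hno
    exact heq (Subgroup.eq_of_le_of_card_ge hno (by
      rw [hH, hM, P.card_part_adj h₁, P.card_part_adj h₂])).symm
  -- the third hyperplane through the intersection
  let N : Subgroup G :=
    { carrier := {a | a ∈ P.sub x ∧ (a ∈ H ↔ a ∈ M)}
      one_mem' := ⟨one_mem _, iff_of_true (one_mem _) (one_mem _)⟩
      mul_mem' := by
        rintro a b ⟨ha, ha'⟩ ⟨hb, hb'⟩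
        refine ⟨mul_mem ha hb, ?_⟩
        by_cases h3 : a ∈ H
        · rw [Subgroup.mul_mem_cancel_left _ h3, Subgroup.mul_mem_cancel_left _ (ha'.1 h3)]
          exact hb'
        · by_cases h4 : b ∈ H
          · rw [Subgroup.mul_mem_cancel_right _ h4, Subgroup.mul_mem_cancel_right _ (hb'.1 h4)]
            exact ha'
          · exact iff_of_true (P.part_mul_mem h₁ ha hb h3 h4)
              (P.part_mul_mem h₂ ha hb (fun h5 => h3 (ha'.2 h5)) (fun h5 => h4 (hb'.2 h5)))
      inv_mem' := by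
        rintro a ⟨ha, ha'⟩
        exact ⟨inv_mem ha, by rw [inv_mem_iff, inv_mem_iff]; exact ha'⟩ }
  have hNle : N ≤ P.sub x := fun a ha => ha.1
  have hNc : Nat.card N = 8 := by
    have hidx : (N.subgroupOf (P.sub x)).index = 2 := by
      rw [Subgroup.index_eq_two_iff]
      refine ⟨⟨e, heH.1⟩, fun b => ?_⟩
      simp only [Subgroup.mem_subgroupOf, Subgroup.coe_mul]
      show Xor ((b : G) * e ∈ N) ((b : G) ∈ N)
      have hb : ∀ c : G, c ∈ P.sub x → (c ∈ N ↔ (c ∈ H ↔ c ∈ M)) :=
        fun c hc => ⟨fun h3 => h3.2, fun h3 => ⟨hc, h3⟩⟩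
      rw [hb _ (mul_mem b.2 heH.1), hb _ b.2]
      have h3 : (b : G) * e ∈ H ↔ (b : G) ∈ H := Subgroup.mul_mem_cancel_right _ heH
      have h4 : (b : G) * e ∈ M ↔ (b : G) ∉ M := by
        refine ⟨fun h5 h6 => heM ((Subgroup.mul_mem_cancel_left _ h6).1 h5), fun h5 =>
          P.part_mul_mem h₂ b.2 heH.1 h5 heM⟩
      rw [h3, h4]
      by_cases p : (b : G) ∈ H <;> by_cases r : (b : G) ∈ M <;> simp [p, r, Xor]
    have := (N.subgroupOf (P.sub x)).index_mul_card
    rw [hidx, Nat.card_congr (Subgroup.subgroupOfEquivOfLe hNle).toEquiv, P.sub_card] at this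
    omega
  obtain ⟨n, hn, hnN⟩ := P.adj_part_surj x N hNle hNc
  change P.part x n = N at hnN
  have heN : e ∉ P.part x n := by rw [hnN]; exact fun h3 => heM (h3.2.1 heH)
  have hem : e * m ∈ P.part x n := by
    rw [hnN]
    exact ⟨mul_mem heH.1 hmM.1, iff_of_false (fun h3 => hmH ((Subgroup.mul_mem_cancel_left _ heH).1 h3))
      (fun h3 => heM ((Subgroup.mul_mem_cancel_right _ hmM).1 h3))⟩
  obtain ⟨a, ha, hae⟩ := P.exists_elation hn heH.1 heN hem
  rw [← mul_assoc, P.sub_sq x e heH.1, one_mul] at hae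
  have hax : a • x = x := ha.2
  have hfix : ∀ c ∈ P.part x n, a * c * a⁻¹ = c := fun c hc =>
    mul_inv_eq_iff_eq_mul.2 (P.part_comm x n (P.ne_of_adj hn) a ha c hc)
  refine ⟨a, hax, ?_⟩
  refine Subgroup.eq_of_le_of_card_ge ?_ ?_
  · intro d hd
    rw [P.smul_part_eq hax] at hd
    set d' := a⁻¹ * d * a with hd'
    have hda : d = a * d' * a⁻¹ := by rw [hd']; group
    show d ∈ M
    rw [hda]
    by_cases h3 : d' ∈ P.part x n
    · rw [hfix _ h3]
      rw [hnN] at h3
      exact h3.2.1 hd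
    · have h4 := P.part_mul_mem hn heH.1 hd.1 heN h3
      rw [show a * d' * a⁻¹ = (a * e * a⁻¹)⁻¹ * (a * (e * d') * a⁻¹) by group, hae, hfix _ h4]
      rw [hnN] at h4
      exact mul_mem (inv_mem hmM) (h4.2.1 (mul_mem heH hd))
  · rw [hM, P.card_part_adj h₂, P.card_part_adj (by simpa [hax] using P.adj_smul a x z₁ h₁)]

theorem exists_seven {x z : V} (h : P.adj x z) :
    ∃ f : G, f • x = x ∧ f • z = z ∧ orderOf f = 7 := by
  haveI : Finite V := Nat.finite_of_card_ne_zero (by rw [P.card_V]; norm_num)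
  have h1 := (stabilizer ↥(stabilizer G x) z).index_mul_card
  rw [index_stabilizer, P.card_stab] at h1
  have horb : orbit ↥(stabilizer G x) z = {w | P.adj x w} := by
    ext w
    refine ⟨?_, fun hw => ?_⟩
    · rintro ⟨g, rfl⟩
      have := P.adj_smul (g : G) x z h
      rwa [show (g : G) • x = x from g.2] at this
    · obtain ⟨g, hg, hgz⟩ := P.exists_move_adj h hw
      exact ⟨⟨g, hg⟩, hgz⟩
  rw [horb, P.ncard_adj] at h1
  haveI : Fact (Nat.Prime 7) := ⟨by norm_num⟩
  obtain ⟨⟨⟨f, hfx⟩, hfz⟩, hf⟩ := exists_prime_orderOf_dvd_card' 7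
    (show 7 ∣ Nat.card ↥(stabilizer ↥(stabilizer G x) z) by omega)
  rw [← Subgroup.orderOf_coe, ← Subgroup.orderOf_coe] at hf
  exact ⟨f, hfx, hfz, hf⟩

end PreGeom

end CfsgLib.M24Count
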