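import Cfsg.Agent.M24Count.LinesNear2

/-!
The other neighbours of a near vertex form one orbit: they are far, two to a line, with the two halves of
the complement of the tetrad as duads.
-/

set_option autoImplicit false
set_option linter.unusedSectionVars false

namespace CfsgLib.M24Count

open MulAction CfsgLib.GL4F2

universe u v

theorem conj_fun_iterate {G : Type*} [Group G] (p : G) : ∀ (n : ℕ) (a : G),
    (fun b => p * b * p⁻¹)^[n] a = p ^ n * a * (p ^ n)⁻¹
  | 0, a => by simp
  | n + 1, a => by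
    rw [Function.iterate_succ_apply', conj_fun_iterate p n a, pow_succ', mul_inv_rev]
    group

theorem eq_of_two_over {G : Type*} [Group G] [Finite G] {H M A : Subgroup G} (hH : Nat.card H = 8)
    (hM : Nat.card M = 8) (hA : Nat.card A = 4) (h1 : A ≤ H) (h2 : A ≤ M) {e : G} (he1 : e ∈ H)
    (he2 : e ∈ M) (he : e ∉ A) : H = M := by
  have hlt : A < H ⊓ M := lt_of_le_of_ne (le_inf h1 h2) fun h => he (h ▸ ⟨he1, he2⟩)
  have hd := Subgroup.card_dvd_of_le (inf_le_left : H ⊓ M ≤ H)
  rw [hH] at hd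
  have hle := Subgroup.card_le_of_le hlt.le
  rw [hA] at hle
  have h4 : Nat.card ↥(H ⊓ M : Subgroup G) ≠ 4 := fun h =>
    hlt.ne (Subgroup.eq_of_le_of_card_ge hlt.le (by rw [h, hA]))
  have h8 : Nat.card ↥(H ⊓ M : Subgroup G) = 8 := by
    have := Nat.le_of_dvd (by norm_num) hd
    interval_cases (Nat.card ↥(H ⊓ M : Subgroup G)) <;> first | rfl | omega | norm_num at hd
  exact (Subgroup.eq_of_le_of_card_ge inf_le_left (by rw [h8, hH])).symm.trans
    (Subgroup.eq_of_le_of_card_ge inf_le_right (by rw [h8, hM]))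

namespace PreGeom

variable {G : Type u} {V : Type v} [Group G] [MulAction G V] [Finite G] (P : PreGeom G V)

/-- The neighbours of a near vertex `u` off the three lines to `x`. -/
def other (x u : V) : Set V := {b | P.adj u b ∧ b ∉ P.mid x u ∧ ∀ z ∈ P.mid x u, ¬ P.adj z b}

theorem mid_symm {x u z : V} (hz : z ∈ P.mid x u) : z ∈ P.mid u x :=
  ⟨P.adj_symm _ _ hz.2, P.adj_symm _ _ hz.1⟩

theorem other_smul {x u b : V} {g : G} (hx : g • x = x) (hu : g • u = u) (hb : b ∈ P.other x u) :
    g • b ∈ P.other x u := by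
  have hx' : g⁻¹ • x = x := inv_smul_eq_iff.2 hx.symm
  have hu' : g⁻¹ • u = u := inv_smul_eq_iff.2 hu.symm
  refine ⟨by simpa [hu] using P.adj_smul g u b hb.1, fun h => hb.2.1 ?_, fun z hz h => ?_⟩
  · simpa using P.mid_smul hx' hu' h
  · exact hb.2.2 _ (P.mid_smul hx' hu' hz) (by simpa using P.adj_smul g⁻¹ z (g • b) h)

theorem ncard_other {x u : V} (hu : P.near x u) : (P.other x u).ncard = 24 := by
  haveI := P.finite_V
  obtain ⟨hp3, hpn⟩ := P.near_partner hu
  have heq : P.other x u = {b | P.adj u b} \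
      (P.mid x u ∪ {w' | ∃ z, P.adj x z ∧ P.adj z u ∧ P.adj z w' ∧ P.adj u w'}) := by
    ext b
    constructor
    · rintro ⟨h1, h2, h3⟩
      exact ⟨h1, fun h => h.elim h2 fun ⟨z, hz, hzu, hzb, _⟩ => h3 z ⟨hz, hzu⟩ hzb⟩
    · rintro ⟨h1, h2⟩
      exact ⟨h1, fun h => h2 (Or.inl h), fun z hz h => h2 (Or.inr ⟨z, hz.1, hz.2, h, h1⟩)⟩
  rw [heq, Set.ncard_sdiff, Set.ncard_union_eq, P.ncard_adj, P.ncard_mid hu, hp3]
  · rw [Set.disjoint_left]
    rintro b hb ⟨z, hz, hzu, hzb, hub⟩
    exact P.not_near_of_adj hb.1 (hpn z b hz hzu hzb hub).1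
  · rintro b (hb | ⟨z, -, -, -, hub⟩)
    · exact P.adj_symm _ _ hb.2
    · exact hub

theorem other_not_le {x u b : V} (hu : P.near x u) (hb : b ∈ P.other x u) :
    ¬ P.part u x ≤ P.part u b := by
  intro hle
  have hux := P.near_symm _ _ hu
  obtain ⟨e, he, heA⟩ : ∃ e ∈ P.part u b, e ∉ P.part u x := by
    by_contra hno
    push Not at hno
    have := Subgroup.card_le_of_le (show P.part u b ≤ P.part u x from hno)
    rw [P.card_part_adj hb.1, P.card_part_near hux] at this
    omega
  obtain ⟨z, hz, hze⟩ := P.mid_cover hux he.1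
  have heq := eq_of_two_over (P.card_part_adj hb.1) (P.card_part_adj hz.1) (P.card_part_near hux)
    hle (P.part_le_middle hz.1 hz.2 hux) he hze heA
  obtain ⟨e', he', hez⟩ := (P.adj_part_iff u z b hz.1 hb.1).1 heq.symm
  have hz' : z ∈ P.mid x u := ⟨P.adj_symm _ _ hz.2, P.adj_symm _ _ hz.1⟩
  by_cases h : b = z
  · exact hb.2.1 (h ▸ hz')
  · exact hb.2.2 z hz' (hez ▸ (P.adj_of_smul hz.1 he' (by rw [hez]; exact h)).1)

theorem inter_unique {x u b : V} (hu : P.near x u) (hb : b ∈ P.other x u) {a a' : G}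
    (ha : a ∈ P.part u x) (ha' : a' ∈ P.part u x) (h : a ∈ P.part u b) (h' : a' ∈ P.part u b)
    (h1 : a ≠ 1) (h1' : a' ≠ 1) : a = a' := by
  by_contra hne
  apply P.other_not_le hu hb
  set I := P.part u x ⊓ P.part u b
  have h3 : 3 ≤ Nat.card I := by
    haveI : Fintype ↥I := Fintype.ofFinite _
    rw [Nat.card_eq_fintype_card]
    exact Fintype.two_lt_card_iff.2 ⟨1, ⟨a, ha, h⟩, ⟨a', ha', h'⟩,
      fun e => h1 (congrArg Subtype.val e).symm, fun e => h1' (congrArg Subtype.val e).symm,
      fun e => hne (congrArg Subtype.val e)⟩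
  have hd := Subgroup.card_dvd_of_le (inf_le_left : I ≤ P.part u x)
  rw [P.card_part_near (P.near_symm _ _ hu)] at hd
  have h4 : Nat.card I = 4 := by
    have := Nat.le_of_dvd (by norm_num) hd
    interval_cases (Nat.card I) <;> first | rfl | norm_num at hd
  have := Subgroup.eq_of_le_of_card_ge (inf_le_left : I ≤ P.part u x)
    (by rw [h4, P.card_part_near (P.near_symm _ _ hu)])
  exact this ▸ inf_le_right

theorem exists_inter {x u b : V} (hu : P.near x u) (hb : b ∈ P.other x u) :
    (∃ a₀ ∈ P.part u x, a₀ ∈ P.part u b ∧ a₀ ≠ 1) ∧ ∃ a ∈ P.part u x, a ∉ P.part u b := by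
  obtain ⟨a, ha, ha'⟩ := SetLike.not_le_iff_exists.1 (P.other_not_le hu hb)
  refine ⟨?_, a, ha, ha'⟩
  haveI : Fintype ↥(P.part u x) := Fintype.ofFinite _
  have h4 : 2 < Fintype.card ↥(P.part u x) := by
    rw [← Nat.card_eq_fintype_card, P.card_part_near (P.near_symm _ _ hu)]; norm_num
  obtain ⟨c, hc1, hca⟩ : ∃ c : ↥(P.part u x), (c : G) ≠ 1 ∧ (c : G) ≠ a := by
    by_contra hno
    push Not at hno
    obtain ⟨p, q, r, hpq, hpr, hqr⟩ := Fintype.two_lt_card_iff.1 h4
    have hh : ∀ c : ↥(P.part u x), c = 1 ∨ c = ⟨a, ha⟩ := fun c => by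
      by_cases h : (c : G) = 1
      · exact Or.inl (Subtype.ext h)
      · exact Or.inr (Subtype.ext (hno c h))
    rcases hh p with rfl | rfl <;> rcases hh q with rfl | rfl <;> rcases hh r with rfl | rfl <;>
      contradiction
  by_cases hcb : (c : G) ∈ P.part u b
  · exact ⟨c, c.2, hcb, hc1⟩
  · refine ⟨a * c, mul_mem ha c.2, P.part_mul_mem hb.1 ha.1 c.2.1 ha' hcb, fun h => hca ?_⟩
    rw [← inv_eq_of_mul_eq_one_right h, P.sub_inv ha.1]

theorem smul_other {x u b : V} (hu : P.near x u) (hb : b ∈ P.other x u) {a : G}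
    (ha : a ∈ P.part u x) : a • b ∈ P.other x u ∧ P.part u (a • b) = P.part u b :=
  ⟨P.other_smul ha.2 (P.sub_fix ha.1) hb, P.part_smul_sub ha.1⟩

/-- An element of `part x u` but `1` moves every line. -/
theorem part_free {x u b : V} (hu : P.near x u) (hb : b ∈ P.other x u) {τ : G}
    (hτ : τ ∈ P.part x u) (hτ1 : τ ≠ 1) : P.part u (τ • b) ≠ P.part u b := by
  classical
  intro heq
  have hτu : τ • u = u := hτ.2
  have hM : ∀ e ∈ P.part u b, τ * e * τ⁻¹ ∈ P.part u b := fun e he => by
    have := P.conj_part (g := τ) he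
    rwa [hτu, heq] at this
  have hcomm : ∀ e ∈ P.part u b, ∀ e' ∈ P.part u b, e * e' = e' * e := fun e he e' he' =>
    P.sub_comm u e he.1 e' he'.1
  have hτ2 : τ * τ = 1 := P.sub_sq x τ hτ.1
  let φ : ↥(P.part u b) →* ↥(P.part u b) :=
    { toFun := fun e => ⟨e * (τ * e * τ⁻¹), mul_mem e.2 (hM e e.2)⟩
      map_one' := Subtype.ext (by simp)
      map_mul' := fun e e' => Subtype.ext (by
        show (e : G) * e' * (τ * (e * e') * τ⁻¹) = e * (τ * e * τ⁻¹) * (e' * (τ * e' * τ⁻¹))
        calc (e : G) * e' * (τ * (e * e') * τ⁻¹)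
              = (e : G) * (e' * (τ * e * τ⁻¹)) * (τ * e' * τ⁻¹) := by group
          _ = (e : G) * ((τ * e * τ⁻¹) * e') * (τ * e' * τ⁻¹) := by rw [hcomm _ e'.2 _ (hM e e.2)]
          _ = _ := by group) }
  have hker : φ.range ≤ φ.ker := by
    rintro _ ⟨e, rfl⟩
    rw [MonoidHom.mem_ker]
    refine Subtype.ext ?_
    show (e : G) * (τ * e * τ⁻¹) * (τ * ((e : G) * (τ * e * τ⁻¹)) * τ⁻¹) = 1
    have h2 : τ * ((e : G) * (τ * e * τ⁻¹)) * τ⁻¹ = (τ * e * τ⁻¹) * e := by
      calc τ * ((e : G) * (τ * e * τ⁻¹)) * τ⁻¹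
            = (τ * e * τ⁻¹) * ((τ * τ) * e * (τ * τ)⁻¹) := by group
        _ = _ := by rw [hτ2]; group
    rw [h2, show (e : G) * (τ * e * τ⁻¹) * ((τ * e * τ⁻¹) * e)
        = (e : G) * ((τ * e * τ⁻¹) * (τ * e * τ⁻¹)) * e by group,
      P.sub_sq u _ (hM e e.2).1, mul_one, P.sub_sq u _ e.2.1]
  have h8 : Nat.card φ.range * Nat.card φ.ker = 8 := by
    rw [← P.card_part_adj hb.1, ← Subgroup.index_ker, φ.ker.index_mul_card]
  have hle := Subgroup.card_le_of_le hker
  have h3 : 3 ≤ Nat.card φ.ker := by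
    by_contra h
    have := Nat.mul_le_mul (show Nat.card φ.range ≤ 2 by omega) (show Nat.card φ.ker ≤ 2 by omega)
    omega
  haveI : Fintype ↥φ.ker := Fintype.ofFinite _
  rw [Nat.card_eq_fintype_card] at h3
  obtain ⟨p, q, r, hpq, hpr, hqr⟩ := Fintype.two_lt_card_iff.1 (show 2 < Fintype.card ↥φ.ker by omega)
  have hin : ∀ e : ↥φ.ker, ((e : ↥(P.part u b)) : G) ∈ P.part u x := by
    rintro ⟨e, he⟩
    refine P.near_fix (P.near_symm _ _ hu) hτ hτ1 e.2.1 ?_
    have h0 : (e : G) * (τ * e * τ⁻¹) = 1 := congrArg Subtype.val he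
    have h5 : τ * e * τ⁻¹ = e := by
      rw [← inv_eq_of_mul_eq_one_right h0, P.sub_inv e.2.1]
    exact mul_inv_eq_iff_eq_mul.1 h5
  have key : ∀ e e' : ↥φ.ker, e ≠ 1 → e' ≠ 1 → e = e' := fun e e' h h' =>
    Subtype.ext (Subtype.ext (P.inter_unique hu hb (hin e) (hin e') e.1.2 e'.1.2
      (fun hh => h (Subtype.ext (Subtype.ext hh))) (fun hh => h' (Subtype.ext (Subtype.ext hh)))))
  by_cases hp : p = 1
  · exact hqr (key q r (fun h => hpq (hp.trans h.symm)) fun h => hpr (hp.trans h.symm))
  by_cases hq : q = 1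
  · exact hpr (key p r hp fun h => hqr (hq.trans h.symm))
  exact hpq (key p q hp hq)

/-- The stabiliser of `x` and a near vertex is transitive on its other neighbours. -/
theorem exists_move_other {x u b b' : V} (hu : P.near x u) (hb : b ∈ P.other x u)
    (hb' : b' ∈ P.other x u) : ∃ g : G, g • x = x ∧ g • u = u ∧ g • b = b' := by
  classical
  haveI := P.finite_V
  have hux := P.near_symm _ _ hu
  obtain ⟨⟨a₀, ha₀, ha₀b, ha₀1⟩, a, ha, hab⟩ := P.exists_inter hu hb
  obtain ⟨S, hS, hfix⟩ := P.exists_nine hu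
  obtain ⟨⟨p, hp, a₁, ha₁, hmove⟩, -⟩ := P.nine_moves_part hux hS
    (fun q hq => (hfix q hq).symm)
  obtain ⟨hpx, hpu⟩ := hfix p hp
  have hp9 : p ^ 9 = 1 := by
    have h9 : (⟨p, hp⟩ : ↥S) ^ 9 = 1 := by rw [← hS]; exact pow_card_eq_one'
    exact congrArg Subtype.val h9
  let s : Set G := {c | c ∈ P.part u x ∧ c ≠ 1}
  have hs : s.ncard = 3 := by
    have heq : s = (P.part u x : Set G) \ {1} := by ext c; simp [s]
    rw [heq, Set.ncard_sdiff_singleton_of_mem (P.part u x).one_mem, ← Nat.card_coe_set_eq]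
    exact congrArg (· - 1) (P.card_part_near hux)
  have hmap : ∀ c ∈ s, p * c * p⁻¹ ∈ s := fun c hc =>
    ⟨(P.conj_part_fix hpu hpx).2 hc.1, fun h => hc.2 (conj_eq_one_iff.1 h)⟩
  have hcyc := three_cycle s hs (fun c => p * c * p⁻¹) hmap
    (fun c _ => by rw [conj_fun_iterate, hp9]; simp)
    (a₀ := a₁) ⟨ha₁, fun h => hmove (by rw [h]; simp)⟩ hmove
  let f : Fin 3 × ↥(P.part x u) × Bool → G := fun q =>
    p ^ q.1.val * q.2.1 * (if q.2.2 then a else 1)
  have hf : ∀ q, f q • x = x ∧ f q • u = u := by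
    intro q
    have hpk : ∀ k : ℕ, p ^ k • x = x ∧ p ^ k • u = u := fun k => by
      induction k with
      | zero => simp
      | succ k ih =>
        exact ⟨by rw [pow_succ, mul_smul, hpx, ih.1], by rw [pow_succ, mul_smul, hpu, ih.2]⟩
    have hτx : (q.2.1 : G) • x = x := P.sub_fix q.2.1.2.1
    have hτu : (q.2.1 : G) • u = u := q.2.1.2.2
    have hax : a • x = x := ha.2
    have hau : a • u = u := P.sub_fix ha.1
    simp only [f]
    constructor <;> split_ifs <;>
      simp [mul_smul, hτx, hτu, hax, hau, (hpk q.1.val).1, (hpk q.1.val).2]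
  have hconj : ∀ q, f q * a₀ * (f q)⁻¹ = p ^ q.1.val * a₀ * (p ^ q.1.val)⁻¹ := by
    intro q
    have h1 : (if q.2.2 then a else 1) * a₀ * (if q.2.2 then a else 1)⁻¹ = a₀ := by
      split_ifs
      · exact mul_inv_eq_iff_eq_mul.2 (P.sub_comm u a ha.1 a₀ ha₀.1)
      · simp
    have h2 : (q.2.1 : G) * a₀ * (q.2.1 : G)⁻¹ = a₀ := by
      have := P.part_comm u x (P.ne_of_near hux) q.2.1 q.2.1.2 a₀ ha₀
      exact mul_inv_eq_iff_eq_mul.2 this
    calc f q * a₀ * (f q)⁻¹ = p ^ q.1.val * ((q.2.1 : G) * ((if q.2.2 then a else 1) * a₀ *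
          (if q.2.2 then a else 1)⁻¹) * (q.2.1 : G)⁻¹) * (p ^ q.1.val)⁻¹ := by simp only [f]; group
      _ = _ := by rw [h1, h2]
  have hinj : Function.Injective fun q => f q • b := by
    rintro ⟨k, τ, ε⟩ ⟨k', τ', ε'⟩ heq
    simp only at heq
    have hk : k = k' := by
      have hmem : ∀ q, f q * a₀ * (f q)⁻¹ ∈ P.part u x ∧ f q * a₀ * (f q)⁻¹ ∈ P.part u (f q • b) ∧
          f q * a₀ * (f q)⁻¹ ≠ 1 := by
        intro q
        refine ⟨(P.conj_part_fix (hf q).2 (hf q).1).2 ha₀, ?_, fun h => ha₀1 (conj_eq_one_iff.1 h)⟩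
        have := P.conj_part (g := f q) ha₀b
        rwa [(hf q).2] at this
      obtain ⟨h1, h2, h3⟩ := hmem (k, τ, ε)
      obtain ⟨h1', h2', h3'⟩ := hmem (k', τ', ε')
      have h4 := P.inter_unique hu (P.other_smul (hf (k', τ', ε')).1 (hf (k', τ', ε')).2 hb)
        h1 h1' (by rw [← heq]; exact h2) h2' h3 h3'
      rw [hconj, hconj] at h4
      have hne1 := (hcyc a₀ ⟨ha₀, ha₀1⟩).1
      have hne2 := (hcyc _ (hmap a₀ ⟨ha₀, ha₀1⟩)).1
      have hne3 : p * (p * a₀ * p⁻¹) * p⁻¹ ≠ a₀ := by
        intro h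
        have h9 : (fun c => p * c * p⁻¹)^[9] a₀ = a₀ := by rw [conj_fun_iterate, hp9]; simp
        simp only [Function.iterate_succ_apply', Function.iterate_zero_apply, h] at h9
        exact hne1 h9
      fin_cases k <;> fin_cases k' <;>
        simp only [pow_zero, pow_one, one_mul, inv_one, mul_one, sq, mul_inv_rev] at h4 ⊢ <;>
        first
          | rfl
          | (exfalso; simp only [← mul_assoc] at h4 hne1 hne2 hne3; first
              | exact hne1 h4 | exact hne1 h4.symm | exact hne2 h4 | exact hne2 h4.symm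
              | exact hne3 h4 | exact hne3 h4.symm)
    subst hk
    simp only [f, mul_smul] at heq
    have h5 := smul_left_cancel _ heq
    have hb₁ : ∀ ε : Bool, (if ε then a else 1) • b ∈ P.other x u ∧
        P.part u ((if ε then a else 1) • b) = P.part u b := by
      intro ε
      cases ε
      · simp [hb]
      · simpa using P.smul_other hu hb ha
    have hτ : τ = τ' := by
      by_contra hne
      have h6 : ((τ' : G)⁻¹ * τ) • (if ε then a else 1) • b = (if ε' then a else 1) • b := by
        rw [mul_smul, h5, inv_smul_smul]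
      refine P.part_free hu (hb₁ ε).1 (mul_mem (inv_mem τ'.2) τ.2)
        (fun h => hne (Subtype.ext (inv_mul_eq_one.1 h).symm)) ?_
      rw [h6, (hb₁ ε).2, (hb₁ ε').2]
    subst hτ
    have h7 := smul_left_cancel _ h5
    have hne : a • b ≠ b := P.smul_ne ha.1 hab
    cases ε <;> cases ε' <;> simp at h7 ⊢
    · exact hne h7.symm
    · exact hne h7
  have heq : Set.range (fun q => f q • b) = P.other x u := by
    refine Set.eq_of_subset_of_ncard_le ?_ ?_
    · rintro _ ⟨q, rfl⟩
      exact P.other_smul (hf q).1 (hf q).2 hb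
    · rw [P.ncard_other hu, Set.ncard_range_of_injective hinj, Nat.card_prod, Nat.card_prod,
        P.card_part_near hu]
      simp
  rw [← heq] at hb'
  obtain ⟨q, hq⟩ := hb'
  exact ⟨f q, (hf q).1, (hf q).2, hq⟩

/-- The other neighbours of a near vertex are far. -/
theorem other_far {x u b : V} (hu : P.near x u) (hb : b ∈ P.other x u) : P.far x b := by
  haveI := P.finite_V
  rcases P.cases x b with rfl | h | h | h
  · exact absurd (P.adj_symm _ _ hb.1) fun h => P.not_near_of_adj h hu
  · exact absurd ⟨h, P.adj_symm _ _ hb.1⟩ hb.2.1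
  · exfalso
    have hall : ∀ v c, P.near x v → c ∈ P.other x v → P.near x c := by
      intro v c hv hc
      obtain ⟨g, hgx, hgv⟩ := P.exists_move_near hv hu
      have hc' : g • c ∈ P.other x u := by
        have hgx' : g⁻¹ • x = x := inv_smul_eq_iff.2 hgx.symm
        have hgv' : g⁻¹ • u = v := inv_smul_eq_iff.2 hgv.symm
        refine ⟨by simpa [hgv] using P.adj_smul g v c hc.1, fun h' => hc.2.1 ?_, fun z hz h' => ?_⟩
        · exact ⟨by simpa using P.adj_smul_fix h'.1 hgx',
            by simpa [hgv'] using P.adj_smul g⁻¹ _ _ h'.2⟩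
        · exact hc.2.2 (g⁻¹ • z) ⟨P.adj_smul_fix hz.1 hgx',
            by simpa [hgv'] using P.adj_smul g⁻¹ _ _ hz.2⟩ (by simpa using P.adj_smul g⁻¹ _ _ h')
      obtain ⟨g', hgx'', -, hgb⟩ := P.exists_move_other hu hb hc'
      have h5 := P.near_smul_fix h hgx''
      rw [hgb] at h5
      simpa using P.near_smul_fix h5 (g := g⁻¹) (inv_smul_eq_iff.2 hgx.symm)
    let S : Set V := insert x ({w | P.adj x w} ∪ {w | P.near x w})
    have hSc : S.ncard = 311 := by
      show (insert x ({w | P.adj x w} ∪ {w | P.near x w})).ncard = 311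
      rw [Set.ncard_insert_of_notMem, Set.ncard_union_eq, P.ncard_adj, P.ncard_near]
      · exact Set.disjoint_left.2 fun w h1 h2 => P.not_near_of_adj h1 h2
      · rintro (h1 | h1)
        exacts [P.not_adj_self x h1, P.ne_of_near h1 rfl]
    refine P.not_closed (x := x) S ?_ (Set.mem_insert _ _) ?_ (by rw [hSc]; norm_num)
    · rintro v (rfl | hv | hv) c hc
      · exact Or.inr (Or.inl hc)
      · by_cases hcx : x = c
        · exact Or.inl hcx.symm
        · exact Or.inr (P.mid_path hv hc hcx)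
      · by_cases h1 : P.adj x c
        · exact Or.inr (Or.inl h1)
        right; right
        by_cases h2 : ∃ z ∈ P.mid x v, P.adj z c
        · obtain ⟨z, hz, hzc⟩ := h2
          exact P.near_third hv hz hzc hc
        · push Not at h2
          exact hall v c hv ⟨hc, fun h' => h1 h'.1, h2⟩
    · rintro v (rfl | hv | hv)
      · exact Relation.ReflTransGen.refl
      · exact Relation.ReflTransGen.single hv
      · obtain ⟨z, hz⟩ := Set.nonempty_of_ncard_ne_zero
          (show (P.mid x v).ncard ≠ 0 by rw [P.ncard_mid hv]; norm_num)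
        exact (Relation.ReflTransGen.single hz.1).tail hz.2
  · exact h

theorem not_near_of_far {x b : V} (h : P.far x b) : ¬ P.near x b := fun h' => by
  have := P.card_part_near h'
  rw [show Nat.card ↥(P.part x b) = 1 from ((P.far_iff x b).1 h).2] at this
  omega

theorem not_adj_of_far {x b : V} (h : P.far x b) : ¬ P.adj x b := fun h' => by
  have := P.card_part_adj h'
  rw [show Nat.card ↥(P.part x b) = 1 from ((P.far_iff x b).1 h).2] at this
  omega

theorem other_eq_far {x u : V} (hu : P.near x u) :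
    P.other x u = {b | P.far x b ∧ P.adj u b} := by
  ext b
  refine ⟨fun hb => ⟨P.other_far hu hb, hb.1⟩, fun ⟨h1, h2⟩ => ⟨h2, fun h => ?_, fun z hz h => ?_⟩⟩
  · exact P.not_adj_of_far h1 h.1
  · exact P.not_near_of_far h1 (P.near_third hu hz h h2)

/-- The third vertex of a line from a near vertex to a far one is far. -/
theorem third_far {x a b c : V} (ha : P.near x a) (hb : P.far x b) (hab : P.adj a b)
    (hac : P.adj a c) (hbc : P.adj b c) : P.far x c := by
  have hb' : b ∈ P.other x a := by rw [P.other_eq_far ha]; exact ⟨hb, hab⟩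
  refine P.other_far ha ⟨hac, fun h => ?_, fun z hz h => ?_⟩
  · exact hb'.2.2 c h (P.adj_symm _ _ hbc)
  · have := P.third_eq hac ⟨P.adj_symm _ _ hz.2, P.adj_symm _ _ h⟩ ⟨hab, P.adj_symm _ _ hbc⟩
    exact P.not_adj_of_far hb (this ▸ hz.1)

theorem exists_move_far {x w w' : V} (hw : P.far x w) (hw' : P.far x w') :
    ∃ g : G, g • x = x ∧ g • w = w' := by
  obtain ⟨n, hn⟩ := P.exists_move_tet x ((P.duad_card x w hw).trans (P.duad_card x w' hw').symm)
  have hfar : P.far x ((n : G) • w) := by
    simpa [show (n : G) • x = x from n.2] using P.far_smul n x w hw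
  obtain ⟨e, he, hew⟩ := (P.duad_eq_iff x ((n : G) • w) w' hfar hw').1
    ((P.duad_smul x w n hw).trans hn)
  exact ⟨e * n, by rw [mul_smul, show (n : G) • x = x from n.2, P.sub_fix he],
    by rw [mul_smul, hew]⟩

theorem ncard_near_far {x b : V} (hb : P.far x b) : {a | P.near x a ∧ P.adj a b}.ncard = 15 := by
  classical
  haveI := P.finite_V
  haveI : Fintype V := Fintype.ofFinite V
  set N := Finset.univ.filter fun u => P.near x u with hN
  set F := Finset.univ.filter fun u => P.far x u with hF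
  have hrow : ∀ u ∈ N, (F.filter fun c => P.adj u c).card = 24 := by
    intro u hu
    simp only [hN, Finset.mem_filter, Finset.mem_univ, true_and] at hu
    rw [← P.ncard_other hu, P.other_eq_far hu, ← Set.ncard_coe_finset]
    congr 1
    ext c
    simp [hF]
  have hconst : ∀ c ∈ F, (N.filter fun u => P.adj u c).card =
      {a | P.near x a ∧ P.adj a b}.ncard := by
    intro c hc
    simp only [hF, Finset.mem_filter, Finset.mem_univ, true_and] at hc
    obtain ⟨g, hg, hgb⟩ := P.exists_move_far hb hc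
    rw [← Set.ncard_image_of_injective _ (MulAction.injective g), ← Set.ncard_coe_finset]
    congr 1
    ext u
    simp only [hN, Finset.coe_filter, Finset.mem_filter, Finset.mem_univ, true_and,
      Set.mem_setOf_eq, Set.mem_image]
    constructor
    · rintro ⟨h1, h2⟩
      refine ⟨g⁻¹ • u, ⟨P.near_smul_fix h1 (g := g⁻¹) (inv_smul_eq_iff.2 hg.symm), ?_⟩,
        smul_inv_smul g u⟩
      have := P.adj_smul g⁻¹ u c h2
      rwa [← hgb, inv_smul_smul] at this
    · rintro ⟨u, hu, rfl⟩
      exact ⟨P.near_smul_fix hu.1 hg, hgb ▸ P.adj_smul g u b hu.2⟩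
  have h := Finset.sum_card_bipartiteAbove_eq_sum_card_bipartiteBelow (s := N) (t := F) P.adj
  simp only [Finset.bipartiteAbove, Finset.bipartiteBelow] at h
  rw [Finset.sum_congr rfl hrow, Finset.sum_congr rfl hconst, Finset.sum_const, Finset.sum_const,
    smul_eq_mul, smul_eq_mul, hN, hF, ← Set.ncard_coe_finset, ← Set.ncard_coe_finset] at h
  simp only [Finset.coe_filter, Finset.mem_univ, true_and] at h
  rw [P.ncard_near, P.ncard_far] at h
  omega

/-- Every line through a far vertex has a near vertex. -/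
theorem exists_near_on_line {x b c : V} (hb : P.far x b) (hbc : P.adj b c) (hc : ¬ P.near x c) :
    ∃ a, P.near x a ∧ P.adj a b ∧ P.adj a c := by
  haveI := P.finite_V
  set N : Set V := {a | P.near x a ∧ P.adj a b}
  have hth : ∀ a ∈ N, ∃ c, P.adj a c ∧ P.adj b c := fun a ha =>
    (P.existsUnique_third ha.2).exists
  choose! φ hφ using hth
  have hinj : Set.InjOn φ N := fun a ha a' ha' h =>
    P.third_eq (hφ a ha).2 ⟨P.adj_symm _ _ ha.2, P.adj_symm _ _ (hφ a ha).1⟩
      ⟨P.adj_symm _ _ ha'.2, h ▸ P.adj_symm _ _ (hφ a' ha').1⟩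
  have heq : φ '' N = {c | P.adj b c} \ N := by
    refine Set.eq_of_subset_of_ncard_le ?_ ?_
    · rintro _ ⟨a, ha, rfl⟩
      exact ⟨(hφ a ha).2, fun h =>
        P.not_near_of_far (P.third_far ha.1 hb ha.2 (hφ a ha).1 (hφ a ha).2) h.1⟩
    · rw [Set.ncard_sdiff (show N ⊆ {c | P.adj b c} from fun a ha => P.adj_symm _ _ ha.2),
        hinj.ncard_image, P.ncard_adj, P.ncard_near_far hb]
  have hmem : c ∈ φ '' N := by
    rw [heq]
    exact ⟨hbc, fun h => hc h.1⟩
  obtain ⟨a, ha, rfl⟩ := hmem
  exact ⟨a, ha.1, ha.2, (hφ a ha).1⟩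

/-- The two far vertices of a line have different duads. -/
theorem duad_ne {x u b c : V} (hu : P.near x u) (hb : b ∈ P.other x u) (huc : P.adj u c)
    (hbc : P.adj b c) : P.duad x b ≠ P.duad x c := by
  intro h
  have hfc := P.third_far hu (P.other_far hu hb) hb.1 huc hbc
  obtain ⟨e, he, rfl⟩ := (P.duad_eq_iff x b c (P.other_far hu hb) hfc).1 h
  have hne : e • b ≠ b := fun h' => P.ne_of_adj hbc h'.symm
  have h1 : P.adj (e • u) (e • b) := P.adj_smul e u b hb.1
  have h2 : P.adj (e • u) b := by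
    have := P.adj_smul e u (e • b) huc
    rwa [← mul_smul e e b, P.sub_sq x e he, one_smul] at this
  have heu : e • u = u := P.third_eq hbc ⟨P.adj_symm _ _ h2, P.adj_symm _ _ h1⟩
    ⟨P.adj_symm _ _ hb.1, P.adj_symm _ _ huc⟩
  refine P.part_free hu hb ⟨he, heu⟩ (fun h' => hne (by rw [h', one_smul])) ?_
  obtain ⟨-, a, ha, hab⟩ := P.exists_inter hu hb
  obtain ⟨-, -, h3, h4, -⟩ := P.partner_spec hb.1 ha.1 hab
  rw [P.third_eq hb.1 ⟨huc, hbc⟩ ⟨h3, h4⟩, P.part_smul_sub ha.1]

theorem filter_pair_card {α β : Type*} [Fintype α] [DecidableEq α] (T d : Finset α) (p : Bool × Bool) :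
    (Finset.univ.filter fun i => (decide (i ∈ T), decide (i ∈ d)) = p).card =
      ((if p.1 then T else Tᶜ) ∩ (if p.2 then d else dᶜ)).card := by
  congr 1
  ext i
  obtain ⟨p1, p2⟩ := p
  cases p1 <;> cases p2 <;> simp

/-- The duads seen from a near vertex avoid its tetrad, and the two on a line share its complement. -/
theorem duad_other {x u b : V} (hu : P.near x u) (hb : b ∈ P.other x u) :
    Disjoint (P.tet x u) (P.duad x b) ∧
      ∀ c, P.adj u c → P.adj b c → P.duad x c = (P.tet x u ∪ P.duad x b)ᶜ := by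
  classical
  haveI := P.finite_V
  set T := P.tet x u with hTdef
  set d := P.duad x b with hddef
  have hT : T.card = 4 := P.tet_card x u hu
  have hfb := P.other_far hu hb
  have hd : d.card = 2 := P.duad_card x b hfb
  obtain ⟨-, a, ha, hab⟩ := P.exists_inter hu hb
  have ha1 : a ≠ 1 := fun h => hab (h ▸ one_mem _)
  set σ := P.perm x ⟨a, ha.2⟩ with hσdef
  have hσ : ∀ i, σ i = i ↔ i ∈ T := fun i => P.perm_tet_iff hu (a := ⟨a, ha.2⟩) ha.1 ha1 i
  have hσ2 : ∀ i, σ (σ i) = i := by
    intro i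
    rw [← Equiv.Perm.mul_apply, hσdef, ← map_mul, show (⟨a, ha.2⟩ * ⟨a, ha.2⟩ :
      ↥(stabilizer G x)) = 1 from Subtype.ext (P.sub_sq u a ha.1), map_one, Equiv.Perm.one_apply]
  obtain ⟨-, -, huc, hbc, -⟩ := P.partner_spec hb.1 ha.1 hab
  have hdc : P.duad x (a • b) = d.image σ := P.duad_smul x b ⟨a, ha.2⟩ hfb
  have hne : d.image σ ≠ d := fun h => P.duad_ne hu hb huc hbc (hdc.trans h).symm
  have hk : (T ∩ d).card = 0 := by
    have hle : (T ∩ d).card ≤ 2 := hd ▸ Finset.card_le_card Finset.inter_subset_right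
    rcases (by omega : (T ∩ d).card = 0 ∨ (T ∩ d).card = 1 ∨ (T ∩ d).card = 2) with h | h | h
    · exact h
    · exfalso
      -- all sixteen crossing duads would occur equally often
      let D : Finset (Finset (Fin 8)) := (T ×ˢ Tᶜ).image fun q => {q.1, q.2}
      have hDc : D.card = 16 := by
        rw [Finset.card_image_of_injOn, Finset.card_product, Finset.card_compl, hT]
        · rfl
        rintro ⟨i, j⟩ hij ⟨i', j'⟩ hij' heq
        simp only [Finset.coe_product, Set.mem_prod, Finset.mem_coe, Finset.mem_compl] at hij hij'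
        simp only at heq
        have h1 : i ∈ ({i', j'} : Finset (Fin 8)) := heq ▸ (by simp)
        have h2 : j ∈ ({i', j'} : Finset (Fin 8)) := heq ▸ (by simp)
        simp only [Finset.mem_insert, Finset.mem_singleton] at h1 h2
        rcases h1 with rfl | rfl
        · rcases h2 with rfl | rfl
          · exact absurd hij.1 hij.2
          · rfl
        · exact absurd hij.1 hij'.2
      have hD : ∀ e : Finset (Fin 8), e ∈ D ↔ e.card = 2 ∧ (T ∩ e).card = 1 := by
        intro e
        simp only [D, Finset.mem_image, Finset.mem_product, Finset.mem_compl, Prod.exists]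
        constructor
        · rintro ⟨i, j, ⟨hi, hj⟩, rfl⟩
          refine ⟨Finset.card_pair (fun h => hj (h ▸ hi)), ?_⟩
          rw [Finset.inter_insert_of_mem hi, Finset.inter_singleton_of_notMem hj]
          simp
        · rintro ⟨he, he'⟩
          obtain ⟨i, j, hij, rfl⟩ := Finset.card_eq_two.1 he
          by_cases hi : i ∈ T <;> by_cases hj : j ∈ T
          · rw [Finset.inter_insert_of_mem hi, Finset.inter_singleton_of_mem hj,
              Finset.card_pair hij] at he'
            omega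
          · exact ⟨i, j, ⟨hi, hj⟩, rfl⟩
          · exact ⟨j, i, ⟨hj, hi⟩, Finset.pair_comm _ _⟩
          · rw [Finset.inter_insert_of_notMem hi, Finset.inter_singleton_of_notMem hj] at he'
            simp at he'
      have hdD : d ∈ D := (hD d).2 ⟨hd, h⟩
      haveI : Fintype V := Fintype.ofFinite V
      set O := (P.other x u).toFinset with hO
      have hmoved : ∀ g : G, g • x = x → g • u = u → ∀ c ∈ P.other x u, ∀ hgx : g ∈ stabilizer G x,
          P.duad x (g • c) = (P.duad x c).image (P.perm x ⟨g, hgx⟩) := fun g _ _ c hc hgx =>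
        P.duad_smul x c ⟨g, hgx⟩ (P.other_far hu hc)
      have hTfix : ∀ g : G, g • u = u → ∀ hgx : g ∈ stabilizer G x, ∀ i,
          P.perm x ⟨g, hgx⟩ i ∈ T ↔ i ∈ T := by
        intro g hgu hgx i
        have h1 : T.image (P.perm x ⟨g, hgx⟩) = T := by
          have := P.tet_smul x u ⟨g, hgx⟩ hu
          rw [hgu] at this
          exact this.symm
        refine ⟨fun hi => ?_, fun hi => h1 ▸ Finset.mem_image_of_mem _ hi⟩
        rw [← h1, Finset.mem_image] at hi
        obtain ⟨j, hj, hji⟩ := hi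
        exact (P.perm x ⟨g, hgx⟩).injective hji ▸ hj
      have hmaps : ∀ c ∈ O, P.duad x c ∈ D := by
        intro c hc
        rw [hO, Set.mem_toFinset] at hc
        obtain ⟨g, hgx, hgu, rfl⟩ := P.exists_move_other hu hb hc
        rw [hD, hmoved g hgx hgu b hb hgx, Finset.card_image_of_injective _ (Equiv.injective _)]
        refine ⟨hd, ?_⟩
        rw [show T ∩ d.image (P.perm x ⟨g, hgx⟩) = (T ∩ d).image (P.perm x ⟨g, hgx⟩) by
          ext i
          simp only [Finset.mem_inter, Finset.mem_image]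
          constructor
          · rintro ⟨hi, j, hj, rfl⟩; exact ⟨j, ⟨(hTfix g hgu hgx j).1 hi, hj⟩, rfl⟩
          · rintro ⟨j, ⟨hjT, hj⟩, rfl⟩; exact ⟨(hTfix g hgu hgx j).2 hjT, j, hj, rfl⟩,
          Finset.card_image_of_injective _ (Equiv.injective _), h]
      have hfib : ∀ e ∈ D, (O.filter fun c => P.duad x c = e).card =
          (O.filter fun c => P.duad x c = d).card := by
        intro e he
        rw [hD] at he
        obtain ⟨n, hn⟩ := P.exists_perm x (β := Bool × Bool) (by decide)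
          (fun i => (decide (i ∈ T), decide (i ∈ d))) (fun i => (decide (i ∈ T), decide (i ∈ e)))
          (fun p => by
            rw [filter_pair_card (β := Bool), filter_pair_card (β := Bool)]
            have k1 : ∀ q : Finset (Fin 8), q.card = 2 → (T ∩ q).card = 1 →
                (T ∩ q).card = 1 ∧ (T ∩ qᶜ).card = 3 ∧ (Tᶜ ∩ q).card = 1 ∧
                  (Tᶜ ∩ qᶜ).card = 3 := by
              intro q hq hq'
              have e1 := Finset.card_inter_add_card_sdiff T q
              have e2 := Finset.card_inter_add_card_sdiff q T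
              have e3 := Finset.card_union_add_card_inter T q
              rw [Finset.inter_comm q T] at e2
              have e4 : (Tᶜ ∩ qᶜ).card = 8 - (T ∪ q).card := by
                rw [← Finset.compl_union, Finset.card_compl, Fintype.card_fin]
              rw [← Finset.sdiff_eq_inter_compl T q, Finset.inter_comm Tᶜ q, ← Finset.sdiff_eq_inter_compl q T, e4]
              omega
            obtain ⟨a1, a2, a3, a4⟩ := k1 d hd h
            obtain ⟨b1, b2, b3, b4⟩ := k1 e he.1 he.2
            obtain ⟨p1, p2⟩ := p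
            cases p1 <;> cases p2 <;> simp [a1, a2, a3, a4, b1, b2, b3, b4])
        simp only [Prod.mk.injEq, decide_eq_decide] at hn
        have hTn : T.image (P.perm x n) = T := image_eq_of_colour fun i => (hn i).1
        have hdn : d.image (P.perm x n) = e := image_eq_of_colour fun i => (hn i).2
        obtain ⟨s, hs, hsu⟩ := (P.tet_eq_iff x ((n : G) • u) u (P.near_smul_fix hu n.2) hu).1
          ((P.tet_smul x u n hu).trans hTn)
        have hgx : s * (n : G) ∈ stabilizer G x := mul_mem (P.sub_le x hs) n.2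
        have hgu : (s * (n : G)) • u = u := by rw [mul_smul, hsu]
        have hperm : P.perm x ⟨s * n, hgx⟩ = P.perm x n := by
          rw [show (⟨s * n, hgx⟩ : ↥(stabilizer G x)) = ⟨s, P.sub_le x hs⟩ * n from rfl, map_mul,
            (P.perm_eq_one (n := ⟨s, P.sub_le x hs⟩)).2 hs, one_mul]
        symm
        refine Finset.card_bij' (fun c _ => (s * (n : G)) • c) (fun c _ => (s * (n : G))⁻¹ • c)
          ?_ ?_ (fun c _ => inv_smul_smul _ c) (fun c _ => smul_inv_smul _ c)
        · intro c hc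
          simp only [Finset.mem_filter, hO, Set.mem_toFinset] at hc ⊢
          refine ⟨P.other_smul hgx hgu hc.1, ?_⟩
          rw [hmoved _ hgx hgu c hc.1 hgx, hperm, hc.2, hdn]
        · intro c hc
          simp only [Finset.mem_filter, hO, Set.mem_toFinset] at hc ⊢
          have hgx' : (s * (n : G))⁻¹ ∈ stabilizer G x := inv_mem hgx
          have hgu' : (s * (n : G))⁻¹ • u = u := inv_smul_eq_iff.2 hgu.symm
          refine ⟨P.other_smul hgx' hgu' hc.1, ?_⟩
          rw [hmoved _ hgx' hgu' c hc.1 hgx', hc.2, show (⟨_, hgx'⟩ : ↥(stabilizer G x))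
            = (⟨s * n, hgx⟩)⁻¹ from rfl, map_inv, hperm, ← hdn, Finset.image_image]
          simp [Function.comp_def]
      have hsum := Finset.card_eq_sum_card_fiberwise (s := O) (t := D) (f := P.duad x) hmaps
      rw [Finset.sum_congr rfl hfib, Finset.sum_const, hDc, hO, ← Set.ncard_eq_toFinset_card',
        P.ncard_other hu, smul_eq_mul] at hsum
      omega
    · exfalso
      have hsub : d ⊆ T := by
        have := Finset.eq_of_subset_of_card_le (Finset.inter_subset_right : T ∩ d ⊆ d) (by omega)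
        exact this ▸ Finset.inter_subset_left
      apply hne
      refine image_eq_of_colour fun i => ?_
      by_cases hi : i ∈ T
      · rw [(hσ i).2 hi]
      · refine iff_of_false (fun h' => hi ?_) fun h' => hi (hsub h')
        have h1 := (hσ (σ i)).2 (hsub h')
        exact (hσ i).1 (σ.injective h1)
  have hdis : Disjoint T d := Finset.disjoint_iff_inter_eq_empty.2 (Finset.card_eq_zero.1 hk)
  refine ⟨hdis, fun c hc1 hc2 => ?_⟩
  rw [P.third_eq hb.1 ⟨hc1, hc2⟩ ⟨huc, hbc⟩, hdc]
  refine Finset.eq_of_subset_of_card_le (fun j hj => ?_) ?_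
  · obtain ⟨i, hi, rfl⟩ := Finset.mem_image.1 hj
    have hiT : i ∉ T := fun h => (Finset.disjoint_left.1 hdis h) hi
    rw [Finset.mem_compl, Finset.mem_union]
    rintro (h | h)
    · exact hiT ((hσ i).1 (σ.injective ((hσ _).2 h)))
    · apply hne
      have hne' : i ≠ σ i := fun e => hiT ((hσ i).1 e.symm)
      have hd2 : d = {i, σ i} := (Finset.eq_of_subset_of_card_le
        (by simp [Finset.insert_subset_iff, hi, h]) (by rw [hd, Finset.card_pair hne'])).symm
      rw [hd2, Finset.image_insert, Finset.image_singleton, hσ2, Finset.pair_comm]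
  · rw [Finset.card_image_of_injective _ σ.injective, Finset.card_compl,
      Finset.card_union_of_disjoint hdis, hT, hd]
    simp

/-- Any far vertex has a line to each tetrad avoiding its duad. -/
theorem far_line {x w : V} {T : Finset (Fin 8)} (hw : P.far x w) (hT : T.card = 4)
    (hdis : Disjoint T (P.duad x w)) :
    ∃ a b : V, P.adj w a ∧ P.adj w b ∧ P.adj a b ∧ P.near x a ∧ P.tet x a = T ∧
      P.far x b ∧ P.duad x b = (T ∪ P.duad x w)ᶜ := by
  classical
  haveI := P.finite_V
  obtain ⟨u, hu, huT⟩ := P.exists_near x hT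
  obtain ⟨b₀, hb₀⟩ := Set.nonempty_of_ncard_ne_zero
    (show (P.other x u).ncard ≠ 0 by rw [P.ncard_other hu]; norm_num)
  have hf₀ := P.other_far hu hb₀
  obtain ⟨hd₀, -⟩ := P.duad_other hu hb₀
  rw [huT] at hd₀
  have hcount : ∀ d : Finset (Fin 8), d.card = 2 → Disjoint T d → ∀ p : Bool × Bool,
      ((if p.1 then T else Tᶜ) ∩ (if p.2 then d else dᶜ)).card =
        if p.1 then (if p.2 then 0 else 4) else 2 := by
    intro d hd hTd p
    have e0 : T ∩ d = ∅ := Finset.disjoint_iff_inter_eq_empty.1 hTd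
    have e1 : T ∩ dᶜ = T := by
      ext i
      simpa using fun h => Finset.disjoint_left.1 hTd h
    have e2 : Tᶜ ∩ d = d := by
      ext i
      simpa using fun h h' => Finset.disjoint_left.1 hTd h' h
    obtain ⟨p1, p2⟩ := p
    cases p1 <;> cases p2 <;> simp [e0, e1, e2, hT, hd]
    rw [← Finset.compl_union, Finset.card_compl, Finset.card_union_of_disjoint hTd, hT, hd]
    simp
  obtain ⟨n, hn⟩ := P.exists_perm x (β := Bool × Bool) (by decide)
    (fun i => (decide (i ∈ T), decide (i ∈ P.duad x b₀)))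
    (fun i => (decide (i ∈ T), decide (i ∈ P.duad x w)))
    (fun p => by
      rw [filter_pair_card (β := Bool), filter_pair_card (β := Bool),
        hcount _ (P.duad_card x b₀ hf₀) hd₀, hcount _ (P.duad_card x w hw) hdis])
  simp only [Prod.mk.injEq, decide_eq_decide] at hn
  have hfar : P.far x ((n : G) • b₀) := by
    simpa [show (n : G) • x = x from n.2] using P.far_smul n x b₀ hf₀
  obtain ⟨e, he, hew⟩ := (P.duad_eq_iff x ((n : G) • b₀) w hfar hw).1
    ((P.duad_smul x b₀ n hf₀).trans (image_eq_of_colour fun i => (hn i).2))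
  set a := e • (n : G) • u with hadef
  have hna : P.near x a := P.near_smul_fix (P.near_smul_fix hu n.2) (P.sub_fix he)
  have haw : P.adj a w := hew ▸ P.adj_smul e _ _ (P.adj_smul n u b₀ hb₀.1)
  have hta : P.tet x a = T := by
    rw [← ((P.tet_eq_iff x ((n : G) • u) a (P.near_smul_fix hu n.2) hna).2 ⟨e, he, rfl⟩),
      P.tet_smul x u n hu, huT]
    exact image_eq_of_colour fun i => (hn i).1
  obtain ⟨b, hab, hwb⟩ := (P.existsUnique_third haw).exists
  have hwo : w ∈ P.other x a := by rw [P.other_eq_far hna]; exact ⟨hw, haw⟩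
  exact ⟨a, b, P.adj_symm _ _ haw, hwb, hab, hna, hta, P.third_far hna hw haw hab hwb,
    hta ▸ (P.duad_other hna hwo).2 b hab hwb⟩

end PreGeom

end CfsgLib.M24Count
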