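import Cfsg.Agent.M24Count.LinesUnique

/-!
The lines through a near vertex and a neighbour of `x`: three of them, their third vertices on the
complementary tetrad.
-/

set_option autoImplicit false
set_option linter.unusedSectionVars false

namespace CfsgLib.M24Count

open MulAction CfsgLib.GL4F2

universe u v

namespace PreGeom

variable {G : Type u} {V : Type v} [Group G] [MulAction G V] [Finite G] (P : PreGeom G V)

theorem ne_of_near {x w : V} (h : P.near x w) : x ≠ w := ((P.near_iff x w).1 h).1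

theorem adj_smul_fix {x z : V} (h : P.adj x z) {g : G} (hg : g • x = x) : P.adj x (g • z) := by
  simpa [hg] using P.adj_smul g x z h

theorem near_smul_fix {x w : V} (h : P.near x w) {g : G} (hg : g • x = x) : P.near x (g • w) := by
  simpa [hg] using P.near_smul g x w h

theorem perm_ne_one {x w : V} (hxw : x ≠ w) {a : ↥(stabilizer G x)} (ha : (a : G) ∈ P.sub w)
    (ha1 : (a : G) ≠ 1) : P.perm x a ≠ 1 := fun h => ha1 (by
  have h2 : (a : G) ∈ P.sub x ⊓ P.sub w := ⟨P.perm_eq_one.1 h, ha⟩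
  rwa [P.sub_disj x w hxw, Subgroup.mem_bot] at h2)

theorem perm_tet_iff {x w : V} (h : P.near x w) {a : ↥(stabilizer G x)} (ha : (a : G) ∈ P.sub w)
    (ha1 : (a : G) ≠ 1) (i : Fin 8) : P.perm x a i = i ↔ i ∈ P.tet x w :=
  P.tet_fix x w h a ha (fun e => ha1 (congrArg Subtype.val e)) i

theorem exists_near (x : V) {T : Finset (Fin 8)} (hT : T.card = 4) :
    ∃ w, P.near x w ∧ P.tet x w = T := by
  obtain ⟨w, hw⟩ := Set.nonempty_of_ncard_ne_zero
    (show {w | P.near x w ∧ P.tet x w = T}.ncard ≠ 0 by rw [P.tet_fibre x T hT]; norm_num)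
  exact ⟨w, hw⟩

theorem exists_far (x : V) {d : Finset (Fin 8)} (hd : d.card = 2) :
    ∃ w, P.far x w ∧ P.duad x w = d := by
  obtain ⟨w, hw⟩ := Set.nonempty_of_ncard_ne_zero
    (show {w | P.far x w ∧ P.duad x w = d}.ncard ≠ 0 by rw [P.duad_fibre x d hd]; norm_num)
  exact ⟨w, hw⟩

/-- The stabiliser realises every even colour-preserving recolouring. -/
theorem exists_perm (x : V) {β : Type} [Fintype β] [DecidableEq β] (hβ : Fintype.card β < 8)
    (k k' : Fin 8 → β)
    (h : ∀ b, (Finset.univ.filter fun i => k i = b).card =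
      (Finset.univ.filter fun i => k' i = b).card) :
    ∃ n : ↥(stabilizer G x), ∀ i, k' (P.perm x n i) = k i := by
  obtain ⟨σ, hσ, hk⟩ := LinesAux.exists_even hβ k k' h
  obtain ⟨n, rfl⟩ := P.perm_surj (x := x) hσ
  exact ⟨n, hk⟩

theorem image_eq_of_colour {σ : Equiv.Perm (Fin 8)} {S S' : Finset (Fin 8)}
    (h : ∀ i, σ i ∈ S' ↔ i ∈ S) : S.image σ = S' := by
  ext i
  simp only [Finset.mem_image]
  exact ⟨fun ⟨j, hj, e⟩ => e ▸ (h j).2 hj, fun hi => ⟨σ.symm i, (h _).1 (by simpa using hi), by simp⟩⟩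

theorem exists_move_tet (x : V) {T T' : Finset (Fin 8)} (hT : T.card = T'.card) :
    ∃ n : ↥(stabilizer G x), T.image (P.perm x n) = T' := by
  obtain ⟨n, hn⟩ := P.exists_perm x (β := Bool) (by decide) (fun i => decide (i ∈ T))
    (fun i => decide (i ∈ T')) (fun b => by
      cases b
      · simp only [decide_eq_false_iff_not, Finset.filter_not, Finset.filter_mem_eq_inter,
          Finset.univ_inter, Finset.card_sdiff_of_subset (Finset.subset_univ _), hT]
      · simp only [decide_eq_true_eq, Finset.filter_mem_eq_inter, Finset.univ_inter, hT])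
  exact ⟨n, image_eq_of_colour fun i => by simpa using hn i⟩

theorem exists_move_near {x w w' : V} (hw : P.near x w) (hw' : P.near x w') :
    ∃ g : G, g • x = x ∧ g • w = w' := by
  obtain ⟨n, hn⟩ := P.exists_move_tet x ((P.tet_card x w hw).trans (P.tet_card x w' hw').symm)
  obtain ⟨e, he, hew⟩ := (P.tet_eq_iff x ((n : G) • w) w' (P.near_smul_fix hw n.2) hw').1
    ((P.tet_smul x w n hw).trans hn)
  exact ⟨e * n, by rw [mul_smul, show (n : G) • x = x from n.2, P.sub_fix he],
    by rw [mul_smul, hew]⟩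

theorem card_stab_near {x w : V} (hw : P.near x w) :
    Nat.card ↥(stabilizer ↥(stabilizer G x) w) = 1152 := by
  have h1 := (stabilizer ↥(stabilizer G x) w).index_mul_card
  have horb : orbit ↥(stabilizer G x) w = {w' | P.near x w'} := by
    ext w'
    refine ⟨?_, fun hw' => ?_⟩
    · rintro ⟨g, rfl⟩; exact P.near_smul_fix hw g.2
    · obtain ⟨g, hg, hgw⟩ := P.exists_move_near hw hw'
      exact ⟨⟨g, hg⟩, hgw⟩
  rw [index_stabilizer, horb, P.ncard_near, P.card_stab] at h1
  omega

/-- A subgroup of order nine fixing `x` and a near vertex. -/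
theorem exists_nine {x w : V} (hw : P.near x w) :
    ∃ S : Subgroup G, Nat.card S = 9 ∧ ∀ p ∈ S, p • x = x ∧ p • w = w := by
  haveI : Fact (Nat.Prime 3) := ⟨Nat.prime_three⟩
  obtain ⟨S, hS⟩ := Sylow.exists_subgroup_card_pow_prime 3 (n := 2)
    (show 3 ^ 2 ∣ Nat.card ↥(stabilizer ↥(stabilizer G x) w) by rw [P.card_stab_near hw]; norm_num)
  let ι : ↥(stabilizer ↥(stabilizer G x) w) →* G :=
    (stabilizer G x).subtype.comp (stabilizer ↥(stabilizer G x) w).subtype
  have hι : Function.Injective ι := Subtype.val_injective.comp Subtype.val_injective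
  refine ⟨S.map ι, by rw [Subgroup.card_map_of_injective hι, hS]; norm_num, ?_⟩
  rintro _ ⟨p, -, rfl⟩
  exact ⟨p.1.2, p.2⟩

theorem commute_part {x w : V} (hxw : x ≠ w) {a b : G} (ha : a ∈ P.part w x)
    (hb : b ∈ P.part x w) : a * b * a⁻¹ = b :=
  mul_inv_eq_iff_eq_mul.2 (P.part_comm x w hxw a ha b hb)

theorem nine_moves_part {x w : V} (hw : P.near x w) {S : Subgroup G} (hS : Nat.card S = 9)
    (hfix : ∀ p ∈ S, p • x = x ∧ p • w = w) :
    (∃ p ∈ S, ∃ a ∈ P.part x w, p * a * p⁻¹ ≠ a) ∧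
      ∃ p ∈ S, ∃ e ∈ P.sub x, e⁻¹ * (p * e * p⁻¹) ∉ P.part x w := by
  refine LinesAux.nine_moves (P.sub x) (P.part x w) S (P.sub_card x) (P.card_part_near hw) inf_le_left
    (P.sub_sq x) hS (fun p hp a ha => P.conj_sub' (hfix p hp).1 ha)
    (fun p hp a ha => (P.conj_part_fix (hfix p hp).1 (hfix p hp).2).2 ha) fun p hp hc => ?_
  have hcent : p ∈ Subgroup.centralizer (P.sub x : Set G) := by
    rw [Subgroup.mem_centralizer_iff]
    exact fun a ha => (mul_inv_eq_iff_eq_mul.1 (hc a ha)).symm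
  rw [P.sub_self_cent] at hcent
  have h9 : (⟨p, hp⟩ : ↥S) ^ 9 = 1 := by rw [← hS]; exact pow_card_eq_one'
  have h9' : p ^ 9 = 1 := congrArg Subtype.val h9
  rwa [show p ^ 9 = (p * p) ^ 4 * p by rw [← sq, ← pow_mul, ← pow_succ], P.sub_sq x p hcent,
    one_pow, one_mul] at h9'

/-- Moving only two of a commuting triple: `a e a⁻¹ e⁻¹` falls into the part. -/
theorem near_move {x w : V} (hw : P.near x w) {a e : G} (ha : a ∈ P.part w x) (ha1 : a ≠ 1)
    (he : e ∈ P.sub x) : a * e * a⁻¹ * e ∈ P.part x w := by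
  have hax : a • x = x := ha.2
  have hc : a * e * a⁻¹ * e ∈ P.sub x := mul_mem (P.conj_sub' hax he) he
  show a * e * a⁻¹ * e ∈ P.sub x ⊓ stabilizer G w
  rw [P.part_eq_cent x w (P.ne_of_near hw) a ha ha1]
  refine ⟨hc, Subgroup.mem_centralizer_singleton_iff.2 ?_⟩
  have ha2 : a⁻¹ = a := P.sub_inv ha.1
  have haa : a * a = 1 := P.sub_sq w a ha.1
  have hcomm : (a * e * a⁻¹) * e = e * (a * e * a⁻¹) := P.sub_comm x _ (P.conj_sub' hax he) e he
  calc a * e * a⁻¹ * e * a = e * (a * e * a⁻¹) * a := by rw [hcomm]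
    _ = e * a * e := by group
    _ = (a * a) * (e * a * e) := by rw [haa, one_mul]
    _ = a * (a * e * a⁻¹ * e) := by rw [ha2]; group

theorem near_fix {x w : V} (hw : P.near x w) {a e : G} (ha : a ∈ P.part w x) (ha1 : a ≠ 1)
    (he : e ∈ P.sub x) (hc : a * e = e * a) : e ∈ P.part x w := by
  show e ∈ P.sub x ⊓ stabilizer G w
  rw [P.part_eq_cent x w (P.ne_of_near hw) a ha ha1]
  exact ⟨he, Subgroup.mem_centralizer_singleton_iff.2 hc.symm⟩

/-- The partner of `z` on a line through `x` is seen from `z`. -/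
theorem adj_of_smul {x z : V} (h : P.adj x z) {e : G} (he : e ∈ P.sub x) (hne : e • z ≠ z) :
    P.adj z (e • z) ∧ P.adj x (e • z) :=
  have h1 := P.partner_spec h he fun h2 => hne h2.2
  ⟨h1.2.2.2.1, h1.2.2.1⟩

/-- The part of a near vertex fixes the middle of their common lines. -/
theorem fix_middle {x z w : V} (hz : P.adj x z) (hw : P.adj z w) (hxw : P.near x w) {e : G}
    (he : e ∈ P.part x w) : e • z = z := by
  by_contra hne
  obtain ⟨h1, h2⟩ := P.adj_of_smul hz he.1 hne
  have h3 : P.adj (e • z) w := by simpa [show e • w = w from he.2] using P.adj_smul e z w hw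
  have := P.third_eq h1 ⟨P.adj_symm _ _ hz, P.adj_symm _ _ h2⟩ ⟨hw, h3⟩
  exact P.ne_of_near hxw this

theorem part_le_middle {x z w : V} (hz : P.adj x z) (hw : P.adj z w) (hxw : P.near x w) :
    P.part x w ≤ P.part x z := fun _ he => ⟨he.1, P.fix_middle hz hw hxw he⟩

/-- The part at `w` of a near vertex fixes the middle. -/
theorem fix_middle' {x z w : V} (hz : P.adj x z) (hw : P.adj z w) (hxw : P.near x w) {a : G}
    (ha : a ∈ P.part w x) : a • z = z :=
  P.fix_middle (x := w) (z := z) (w := x) (P.adj_symm _ _ hw) (P.adj_symm _ _ hz)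
    (P.near_symm _ _ hxw) ha

/-- A second neighbour off the line is near. -/
theorem near_of_path {x z w : V} (hz : P.adj x z) (hw : P.adj z w) (hxw : x ≠ w)
    (hn : ¬ P.adj x w) : P.near x w := by
  classical
  haveI := P.finite_V
  rcases P.cases x w with h | h | h | h
  · exact absurd h hxw
  · exact absurd h hn
  · exact h
  exfalso
  have hfar : Nat.card ↥(P.part x w) = 1 := ((P.far_iff x w).1 h).2
  have hzx := P.adj_symm _ _ hz
  set H := P.part x z with hH
  set M := P.part z w with hM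
  set A := P.part z x with hA
  obtain ⟨e, heM, heA⟩ : ∃ e ∈ M, e ∉ A := by
    by_contra hno
    push Not at hno
    have heq : M = A := Subgroup.eq_of_le_of_card_ge hno (by
      rw [hM, hA, P.card_part_adj hzx, P.card_part_adj hw])
    obtain ⟨e₂, he₂, rfl⟩ := (P.adj_part_iff z x w hzx hw).1 heq.symm
    have hne : e₂ • x ≠ x := hxw.symm
    exact hn (P.adj_of_smul hzx he₂ hne).1
  -- the members `h` with `e * h e h⁻¹` in `M ⊓ A`
  have hmem : ∀ h ∈ H, e * (h * e * h⁻¹) ∈ A := by
    intro h hh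
    have hx' : h • x = x := P.sub_fix hh.1
    have hz' : h • z = z := hh.2
    exact P.part_mul_mem hzx heM.1 (P.conj_sub' hz' heM.1) heA
      fun h2 => heA ((P.conj_part_fix hz' hx').1 h2)
  have hkey : ∀ h ∈ H, e * (h * e * h⁻¹) ∈ M → h • w = w ∨ h • w ≠ w ∧ P.part z (h • w) = M := by
    intro h hh hM'
    by_cases hw' : h • w = w
    · exact Or.inl hw'
    refine Or.inr ⟨hw', ?_⟩
    have hz' : h • z = z := hh.2
    refine Subgroup.eq_of_le_of_card_ge ?_ ?_
    · intro d hd
      rw [P.smul_part_eq hz'] at hd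
      set d' := h⁻¹ * d * h with hd'
      have hdd : d = h * d' * h⁻¹ := by rw [hd']; group
      rw [hdd]
      by_cases h3 : d' ∈ A
      · rw [P.commute_part (P.ne_of_adj hzx) hh h3]
        exact hd
      · have h4 := P.part_mul_mem hzx heM.1 hd.1 heA h3
        have hb : h * e * h⁻¹ ∈ M := by
          have := mul_mem (show e ∈ M from heM) hM'
          rwa [← mul_assoc, P.sub_sq z e heM.1, one_mul] at this
        rw [show h * d' * h⁻¹ = (h * e * h⁻¹)⁻¹ * (h * (e * d') * h⁻¹) by group,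
          P.commute_part (P.ne_of_adj hzx) hh h4]
        exact mul_mem (inv_mem hb) (mul_mem heM hd)
    · rw [hM, P.card_part_adj hw, P.card_part_adj (P.adj_smul_fix hw hz')]
  -- at least four such members; their images of `w` are at most two
  let f : ↥H → ↥A := fun h => ⟨e * (h * e * h⁻¹), hmem h h.2⟩
  have hf : Function.Injective f := fun a b hab => Subtype.ext (P.part_conj_inj hzx a.2 b.2 heM.1 heA
    (mul_left_cancel (congrArg Subtype.val hab)))
  have hfs := (hf.bijective_of_nat_card_le (by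
    rw [hA, hH, P.card_part_adj hzx, P.card_part_adj hz])).2
  obtain ⟨m₁, hm₁, hm₁1, m₂, hm₂, hm₂1, hne⟩ :
      ∃ m₁, m₁ ∈ A ⊓ M ∧ m₁ ≠ 1 ∧ ∃ m₂, m₂ ∈ A ⊓ M ∧ m₂ ≠ 1 ∧ m₁ ≠ m₂ := by
    have h4 : 3 ≤ Nat.card ↥(A ⊓ M : Subgroup G) := by
      by_contra hlt
      -- `M` has two classes modulo `A ⊓ M`
      have : Nat.card ↥M ≤ 2 * Nat.card ↥(A ⊓ M : Subgroup G) := by
        let g : ↥M → Bool × ↥(A ⊓ M : Subgroup G) := fun d =>
          if hd : (d : G) ∈ A then (true, ⟨d, hd, d.2⟩)
          else (false, ⟨e * d, P.part_mul_mem hzx heM.1 d.2.1 heA hd, mul_mem heM d.2⟩)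
        have hg : Function.Injective g := by
          intro a b hab
          simp only [g] at hab
          split_ifs at hab with h1 h2 h2 <;>
            simp only [Prod.mk.injEq, Bool.true_eq_false, Bool.false_eq_true, false_and, true_and,
              Subtype.mk.injEq] at hab
          · exact Subtype.ext (congrArg Subtype.val hab :)
          · exact Subtype.ext (mul_left_cancel (congrArg Subtype.val hab :))
        have := Nat.card_le_card_of_injective g hg
        rw [Nat.card_prod] at this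
        simpa using this
      have h8 : Nat.card ↥M = 8 := P.card_part_adj hw
      omega
    haveI : Fintype ↥(A ⊓ M : Subgroup G) := Fintype.ofFinite _
    rw [Nat.card_eq_fintype_card] at h4
    obtain ⟨a, b, c, hab, hac, hbc⟩ := Fintype.two_lt_card_iff.1 (by omega :
      2 < Fintype.card ↥(A ⊓ M : Subgroup G))
    by_cases ha1 : (a : G) = 1
    · exact ⟨b, b.2, fun e1 => hab (Subtype.ext (ha1.trans e1.symm)), c, c.2,
        fun e1 => hac (Subtype.ext (ha1.trans e1.symm)), fun e1 => hbc (Subtype.ext e1)⟩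
    by_cases hb1 : (b : G) = 1
    · exact ⟨a, a.2, ha1, c, c.2, fun e1 => hbc (Subtype.ext (hb1.trans e1.symm)),
        fun e1 => hac (Subtype.ext e1)⟩
    exact ⟨a, a.2, ha1, b, b.2, hb1, fun e1 => hab (Subtype.ext e1)⟩
  obtain ⟨⟨a, ha⟩, hfa⟩ := hfs ⟨m₁, hm₁.1⟩
  obtain ⟨⟨b, hb⟩, hfb⟩ := hfs ⟨m₂, hm₂.1⟩
  have hfa' : e * (a * e * a⁻¹) = m₁ := congrArg Subtype.val hfa
  have hfb' : e * (b * e * b⁻¹) = m₂ := congrArg Subtype.val hfb
  have hone : ∀ u ∈ H, u • w = w → u = 1 := by
    intro u hu huw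
    have hu' : u ∈ P.part x w := ⟨hu.1, huw⟩
    rw [(Subgroup.card_eq_one (H := P.part x w)).1 hfar, Subgroup.mem_bot] at hu'
    exact hu'
  have haw : a • w ≠ w := fun h' => by
    rw [hone a ha h'] at hfa'
    simp only [one_mul, inv_one, mul_one, P.sub_sq z e heM.1] at hfa'
    exact hm₁1 hfa'.symm
  have hbw : b • w ≠ w := fun h' => by
    rw [hone b hb h'] at hfb'
    simp only [one_mul, inv_one, mul_one, P.sub_sq z e heM.1] at hfb'
    exact hm₂1 hfb'.symm
  have hpa := ((hkey a ha (hfa' ▸ hm₁.2)).resolve_left haw).2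
  have hpb := ((hkey b hb (hfb' ▸ hm₂.2)).resolve_left hbw).2
  obtain ⟨e₁, he₁, he₁w⟩ :=
    (P.adj_part_iff z w (a • w) hw (P.adj_smul_fix hw ha.2)).1 hpa.symm
  obtain ⟨e₂, he₂, he₂w⟩ :=
    (P.adj_part_iff z w (b • w) hw (P.adj_smul_fix hw hb.2)).1 hpb.symm
  have heq : a • w = b • w := by
    rw [← he₁w, ← he₂w]
    exact P.smul_eq_partner hw he₁ he₂ (fun h' => haw (he₁w ▸ h'.2)) (fun h' => hbw (he₂w ▸ h'.2))
  have := hone (b⁻¹ * a) (mul_mem (inv_mem hb) ha) (by rw [mul_smul, heq, inv_smul_smul])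
  rw [inv_mul_eq_one] at this
  subst this
  exact hne (hfa'.symm.trans hfb')

end PreGeom

end CfsgLib.M24Count
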