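import Cfsg.Agent.M24Count.LinesNear

/-!
The three lines through a near vertex that meet the neighbours of `x`: their third vertices are near and
have the complementary tetrad.
-/

set_option autoImplicit false
set_option linter.unusedSectionVars false

namespace CfsgLib.M24Count

open MulAction CfsgLib.GL4F2

universe u v

/-- A map of period nine on three things that moves one of them is a three-cycle. -/
theorem three_cycle {α : Type*} (s : Set α) (hs : s.ncard = 3) (f : α → α)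
    (hmap : ∀ a ∈ s, f a ∈ s) (h9 : ∀ a ∈ s, f^[9] a = a) {a₀ : α} (ha₀ : a₀ ∈ s)
    (hmove : f a₀ ≠ a₀) :
    ∀ a ∈ s, f a ≠ a ∧ ∀ b ∈ s, b = a ∨ b = f a ∨ b = f (f a) := by
  have hinj : ∀ a ∈ s, ∀ b ∈ s, f a = f b → a = b := fun a ha b hb h => by
    rw [← h9 a ha, ← h9 b hb]
    exact congrArg f^[8] h
  have key : ∀ a ∈ s, f a ≠ a →
      f (f a) ≠ f a ∧ f (f a) ≠ a ∧ f (f (f a)) = a ∧ ∀ b ∈ s, b = a ∨ b = f a ∨ b = f (f a) := by
    intro a ha hne
    have hb := hmap a ha
    have h1 : f (f a) ≠ f a := fun h => hne (hinj _ hb _ ha h)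
    have h2 : f (f a) ≠ a := fun h => hne (by
      have h3 := h9 a ha
      simp only [Function.iterate_succ_apply', Function.iterate_zero_apply, h] at h3
      exact h3)
    have hall : ∀ b ∈ s, b = a ∨ b = f a ∨ b = f (f a) := by
      have hsub : ({a, f a, f (f a)} : Set α) ⊆ s := by
        rintro b (rfl | rfl | rfl)
        exacts [ha, hb, hmap _ hb]
      have heq := Set.eq_of_subset_of_ncard_le hsub (by
        rw [hs, Set.ncard_eq_three.2 ⟨a, f a, f (f a), hne.symm, h2.symm, h1.symm, rfl⟩])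
        (Set.finite_of_ncard_ne_zero (by rw [hs]; norm_num))
      intro b hb'
      rw [← heq] at hb'
      simpa using hb'
    refine ⟨h1, h2, ?_, hall⟩
    rcases hall _ (hmap _ (hmap _ hb)) with h | h | h
    · exact h
    · exact absurd (hinj _ (hmap _ hb) _ ha h) h2
    · exact absurd (hinj _ (hmap _ hb) _ hb h) h1
  intro a ha
  have hne : f a ≠ a := by
    obtain ⟨k1, k2, k3, k4⟩ := key a₀ ha₀ hmove
    rcases k4 a ha with rfl | rfl | rfl
    exacts [hmove, k1, k3.trans_ne k2.symm]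
  exact ⟨hne, (key a ha hne).2.2.2⟩

theorem smul_iterate_pow {G : Type*} [Group G] {α : Type*} [MulAction G α] (p : G) :
    ∀ (n : ℕ) (a : α), (fun b => p • b)^[n] a = p ^ n • a
  | 0, a => by simp
  | n + 1, a => by rw [Function.iterate_succ_apply', smul_iterate_pow p n, pow_succ', mul_smul]

namespace PreGeom

variable {G : Type u} {V : Type v} [Group G] [MulAction G V] [Finite G] (P : PreGeom G V)

/-- The common neighbours of two vertices. -/
def mid (x w : V) : Set V := {z | P.adj x z ∧ P.adj z w}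

theorem mid_smul {x w : V} {g : G} (hx : g • x = x) (hw : g • w = w) {z : V} (hz : z ∈ P.mid x w) :
    g • z ∈ P.mid x w :=
  ⟨P.adj_smul_fix hz.1 hx, by simpa [hw] using P.adj_smul g z w hz.2⟩

theorem mid_path {x z w : V} (hz : P.adj x z) (hw : P.adj z w) (hxw : x ≠ w) :
    P.adj x w ∨ P.near x w := by
  by_cases hn : P.adj x w
  · exact Or.inl hn
  · exact Or.inr (P.near_of_path hz hw hxw hn)

/-- A near vertex has three common neighbours with `x`. -/
theorem ncard_mid {x w : V} (hw : P.near x w) : (P.mid x w).ncard = 3 := by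
  classical
  haveI := P.finite_V
  haveI : Fintype V := Fintype.ofFinite V
  set N := Finset.univ.filter fun u => P.near x u with hN
  set A := Finset.univ.filter fun z => P.adj x z with hA
  have hconst : ∀ u ∈ N, (A.filter fun z => P.adj z u).card = (P.mid x w).ncard := by
    intro u hu
    simp only [hN, Finset.mem_filter, Finset.mem_univ, true_and] at hu
    obtain ⟨g, hg, hgw⟩ := P.exists_move_near hw hu
    rw [← Set.ncard_image_of_injective (P.mid x w) (MulAction.injective g), ← Set.ncard_coe_finset]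
    congr 1
    ext z
    simp only [hA, Finset.coe_filter, Finset.mem_univ, true_and, Finset.mem_filter,
      Set.mem_setOf_eq, Set.mem_image]
    constructor
    · rintro ⟨h1, h2⟩
      refine ⟨g⁻¹ • z, ⟨?_, ?_⟩, smul_inv_smul g z⟩
      · have := P.adj_smul_fix h1 (g := g⁻¹) (inv_smul_eq_iff.2 hg.symm)
        exact this
      · have := P.adj_smul g⁻¹ z u h2
        rwa [← hgw, inv_smul_smul] at this
    · rintro ⟨z, hz, rfl⟩
      exact ⟨P.adj_smul_fix hz.1 hg, hgw ▸ P.adj_smul g z w hz.2⟩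
  have hrow : ∀ z ∈ A, (N.filter fun u => P.adj z u).card = 28 := by
    intro z hz
    simp only [hA, Finset.mem_filter, Finset.mem_univ, true_and] at hz
    obtain ⟨y, hy, hzy, -⟩ := P.exists_third hz
    have hset : ((N.filter fun u => P.adj z u : Finset V) : Set V) = {u | P.adj z u} \ {x, y} := by
      ext u
      simp only [hN, Finset.coe_filter, Finset.mem_filter, Finset.mem_univ, true_and,
        Set.mem_setOf_eq, Set.mem_sdiff, Set.mem_insert_iff, Set.mem_singleton_iff]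
      constructor
      · rintro ⟨h1, h2⟩
        refine ⟨h2, ?_⟩
        rintro (rfl | rfl)
        · exact P.ne_of_near h1 rfl
        · exact P.not_near_of_adj hy h1
      · rintro ⟨h2, hu⟩
        push Not at hu
        refine ⟨(P.mid_path hz h2 hu.1.symm).resolve_left fun h3 => hu.2 ?_, h2⟩
        exact P.third_eq hz ⟨h3, h2⟩ ⟨hy, hzy⟩
    rw [← Set.ncard_coe_finset, hset, Set.ncard_sdiff, P.ncard_adj,
      Set.ncard_pair (P.ne_of_adj hy)]
    rintro u (rfl | rfl)
    exacts [P.adj_symm _ _ hz, hzy]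
  have h := Finset.sum_card_bipartiteAbove_eq_sum_card_bipartiteBelow (s := A) (t := N) P.adj
  simp only [Finset.bipartiteAbove, Finset.bipartiteBelow] at h
  rw [Finset.sum_congr rfl hrow, Finset.sum_congr rfl hconst, Finset.sum_const, Finset.sum_const,
    smul_eq_mul, smul_eq_mul, hA, hN, ← Set.ncard_coe_finset, ← Set.ncard_coe_finset] at h
  simp only [Finset.coe_filter, Finset.mem_univ, true_and] at h
  rw [P.ncard_adj, P.ncard_near] at h
  omega

theorem part_card_split {x w : V} (hw : P.near x w) {z z' : V} (hz : z ∈ P.mid x w)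
    (hz' : z' ∈ P.mid x w) (hne : z ≠ z') {e : G} (h1 : e ∈ P.part x z) (h2 : e ∈ P.part x z') :
    e ∈ P.part x w := by
  classical
  have hdiff : P.part x z ≠ P.part x z' := fun h => by
    obtain ⟨e', he', rfl⟩ := (P.adj_part_iff x z z' hz.1 hz'.1).1 h
    obtain ⟨h3, h4⟩ := P.adj_of_smul hz.1 he' hne.symm
    exact P.ne_of_near hw (P.third_eq h3 ⟨P.adj_symm _ _ hz.1, P.adj_symm _ _ h4⟩ ⟨hz.2, hz'.2⟩)
  by_contra hK
  set I := P.part x z ⊓ P.part x z' with hI
  have hlt : P.part x w < I := lt_of_le_of_ne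
    (le_inf (P.part_le_middle hz.1 hz.2 hw) (P.part_le_middle hz'.1 hz'.2 hw))
    fun h => hK (h ▸ ⟨h1, h2⟩ : e ∈ P.part x w)
  have hd1 := Subgroup.card_dvd_of_le (inf_le_left : I ≤ P.part x z)
  rw [P.card_part_adj hz.1] at hd1
  have hle := Subgroup.card_le_of_le hlt.le
  rw [P.card_part_near hw] at hle
  have h4 : Nat.card I ≠ 4 := fun h =>
    hlt.ne (Subgroup.eq_of_le_of_card_ge hlt.le (by rw [h, P.card_part_near hw]))
  have h8 : Nat.card I = 8 := by
    have := Nat.le_of_dvd (by norm_num) hd1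
    interval_cases (Nat.card I) <;> first | rfl | omega | norm_num at hd1
  have e1 : I = P.part x z := Subgroup.eq_of_le_of_card_ge inf_le_left (by
    rw [h8, P.card_part_adj hz.1])
  have e2 : I = P.part x z' := Subgroup.eq_of_le_of_card_ge inf_le_right (by
    rw [h8, P.card_part_adj hz'.1])
  exact hdiff (e1.symm.trans e2)

/-- The three hyperplanes cover the subgroup. -/
theorem mid_cover {x w : V} (hw : P.near x w) {e : G} (he : e ∈ P.sub x) :
    ∃ z ∈ P.mid x w, e ∈ P.part x z := by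
  classical
  by_cases hK : e ∈ P.part x w
  · obtain ⟨z, hz⟩ := Set.nonempty_of_ncard_ne_zero
      (show (P.mid x w).ncard ≠ 0 by rw [P.ncard_mid hw]; norm_num)
    exact ⟨z, hz, P.part_le_middle hz.1 hz.2 hw hK⟩
  haveI := P.finite_V
  haveI : Fintype G := Fintype.ofFinite G
  haveI : Fintype V := Fintype.ofFinite V
  let K := Finset.univ.filter fun a : G => a ∈ P.part x w
  let F := fun z => (Finset.univ.filter fun a : G => a ∈ P.part x z) \ K
  have hc : ∀ (H : Subgroup G), (Finset.univ.filter fun a : G => a ∈ H).card = Nat.card H := by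
    intro H
    rw [Nat.card_eq_fintype_card, ← Fintype.card_subtype]
  have hF : ∀ z ∈ (P.mid x w).toFinset, (F z).card = 4 := by
    intro z hz
    rw [Set.mem_toFinset] at hz
    rw [Finset.card_sdiff_of_subset, hc, hc, P.card_part_adj hz.1, P.card_part_near hw]
    intro a ha
    simp only [K, Finset.mem_filter, Finset.mem_univ, true_and] at ha ⊢
    exact P.part_le_middle hz.1 hz.2 hw ha
  have hdis : ((P.mid x w).toFinset : Set V).PairwiseDisjoint F := by
    intro z hz z' hz' hne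
    rw [Set.coe_toFinset] at hz hz'
    rw [Function.onFun, Finset.disjoint_left]
    intro a ha ha'
    simp only [F, K, Finset.mem_sdiff, Finset.mem_filter, Finset.mem_univ, true_and] at ha ha'
    exact ha.2 (P.part_card_split hw hz hz' hne ha.1 ha'.1)
  have hU : ((P.mid x w).toFinset.biUnion F) = (Finset.univ.filter fun a : G => a ∈ P.sub x) \ K := by
    refine Finset.eq_of_subset_of_card_le ?_ (le_of_eq ?_)
    · intro a ha
      simp only [Finset.mem_biUnion, F, K, Finset.mem_sdiff, Finset.mem_filter, Finset.mem_univ,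
        true_and] at ha ⊢
      obtain ⟨z, -, hz, hz'⟩ := ha
      exact ⟨hz.1, hz'⟩
    · rw [Finset.card_biUnion hdis, Finset.sum_congr rfl hF, Finset.sum_const,
        ← Set.ncard_eq_toFinset_card', P.ncard_mid hw,
        Finset.card_sdiff_of_subset, hc, hc, P.sub_card, P.card_part_near hw]
      · rfl
      · intro a ha
        simp only [K, Finset.mem_filter, Finset.mem_univ, true_and] at ha ⊢
        exact ha.1
  have hmem : e ∈ (P.mid x w).toFinset.biUnion F := by
    rw [hU]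
    simp [K, he, hK]
  simp only [Finset.mem_biUnion, F, Finset.mem_sdiff, Finset.mem_filter, Finset.mem_univ, true_and,
    Set.mem_toFinset] at hmem
  obtain ⟨z, hz, hze, -⟩ := hmem
  exact ⟨z, hz, hze⟩

/-- The stabiliser of `x` and a near vertex is transitive on their common neighbours. -/
theorem exists_move_mid {x w : V} (hw : P.near x w) {z₁ z₂ : V} (hz₁ : z₁ ∈ P.mid x w)
    (hz₂ : z₂ ∈ P.mid x w) : ∃ g : G, g • x = x ∧ g • w = w ∧ g • z₁ = z₂ := by
  obtain ⟨S, hS, hfix⟩ := P.exists_nine hw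
  obtain ⟨-, p, hp, e, he, hne⟩ := P.nine_moves_part hw hS hfix
  have hp9 : p ^ 9 = 1 := by
    have h9 : (⟨p, hp⟩ : ↥S) ^ 9 = 1 := by rw [← hS]; exact pow_card_eq_one'
    exact congrArg Subtype.val h9
  have hmove : ∃ z ∈ P.mid x w, p • z ≠ z := by
    by_contra hno
    push Not at hno
    obtain ⟨z, hz, hze⟩ := P.mid_cover hw he
    have hze' : p * e * p⁻¹ ∈ P.part x z := (P.conj_part_fix (hfix p hp).1 (hno z hz)).2 hze
    obtain ⟨z', hz', hne'⟩ :=
      Set.exists_ne_of_one_lt_ncard (show 1 < (P.mid x w).ncard by rw [P.ncard_mid hw]; norm_num) z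
    refine hne (P.part_card_split hw hz hz' hne'.symm (mul_mem (inv_mem hze) hze') ?_)
    by_cases h3 : e ∈ P.part x z'
    · exact mul_mem (inv_mem h3) ((P.conj_part_fix (hfix p hp).1 (hno z' hz')).2 h3)
    · rw [P.sub_inv he]
      exact P.part_mul_mem hz'.1 he hze'.1 h3
        fun h4 => h3 ((P.conj_part_fix (hfix p hp).1 (hno z' hz')).1 h4)
  obtain ⟨z₀, hz₀, hz₀'⟩ := hmove
  rcases (three_cycle (P.mid x w) (P.ncard_mid hw) (fun z => p • z)
    (fun z hz => P.mid_smul (hfix p hp).1 (hfix p hp).2 hz)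
    (fun z _ => by rw [smul_iterate_pow, hp9, one_smul]) hz₀ hz₀' z₁ hz₁).2 z₂ hz₂ with h | h | h
  · exact ⟨1, one_smul _ _, one_smul _ _, by rw [one_smul, h]⟩
  · exact ⟨p, (hfix p hp).1, (hfix p hp).2, h.symm⟩
  · exact ⟨p * p, by rw [mul_smul, (hfix p hp).1, (hfix p hp).1],
      by rw [mul_smul, (hfix p hp).2, (hfix p hp).2], by rw [mul_smul, h]⟩

/-- The third vertex of a line from a near vertex to a common neighbour is near. -/
theorem near_third {x z w w' : V} (hw : P.near x w) (hz : z ∈ P.mid x w) (h1 : P.adj z w')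
    (h2 : P.adj w w') : P.near x w' := by
  have hnw : ¬ P.adj x w := fun h => P.not_near_of_adj h hw
  have hne : x ≠ w' := fun h => hnw (P.adj_symm _ _ (h ▸ h2))
  refine (P.mid_path hz.1 h1 hne).resolve_left fun h3 => ?_
  exact P.ne_of_near hw (P.third_eq h1 ⟨P.adj_symm _ _ hz.1, P.adj_symm _ _ h3⟩
    ⟨hz.2, P.adj_symm _ _ h2⟩)

theorem part_third_le {x z w w' : V} (hw : P.near x w) (hz : z ∈ P.mid x w) (h1 : P.adj z w')
    (h2 : P.adj w w') {a : G} (hax : a • x = x) (haw : a • w = w) (haz : a • z = z) :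
    a • w' = w' :=
  P.third_eq hz.2 ⟨by simpa [haz] using P.adj_smul a z w' h1,
    by simpa [haw] using P.adj_smul a w w' h2⟩ ⟨h1, h2⟩

/-- The partner has the same or the complementary tetrad. -/
theorem tet_third_cases {x z w w' : V} (hw : P.near x w) (hz : z ∈ P.mid x w) (h1 : P.adj z w')
    (h2 : P.adj w w') : P.tet x w' = P.tet x w ∨ P.tet x w' = (P.tet x w)ᶜ := by
  classical
  have hw' := P.near_third hw hz h1 h2
  have hz' : z ∈ P.mid x w' := ⟨hz.1, h1⟩
  by_cases heq : P.tet x w' = P.tet x w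
  · exact Or.inl heq
  right
  set T := P.tet x w with hT
  set T' := P.tet x w' with hT'
  obtain ⟨i, hiT, hiT'⟩ : ∃ i ∈ T, i ∉ T' := by
    by_contra hno
    push Not at hno
    exact heq (Finset.eq_of_subset_of_card_le hno
      (by rw [P.tet_card x w' hw', P.tet_card x w hw])).symm
  haveI : Fintype ↥(P.part w' x) := Fintype.ofFinite _
  let orb : ↥(P.part w' x) → Fin 8 := fun a => P.perm x ⟨a, a.2.2⟩ i
  have hinj : Function.Injective orb := by
    intro a b hab
    by_contra hne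
    have hne' : ((b : G))⁻¹ * a ≠ 1 := fun h => hne (Subtype.ext (inv_mul_eq_one.1 h).symm)
    refine hiT' ((P.perm_tet_iff hw' (a := (⟨b, b.2.2⟩ : ↥(stabilizer G x))⁻¹ * ⟨a, a.2.2⟩)
      (mul_mem (inv_mem b.2.1) a.2.1) hne' i).1 ?_)
    rw [map_mul, map_inv, Equiv.Perm.mul_apply, show P.perm x ⟨a, a.2.2⟩ i = P.perm x ⟨b, b.2.2⟩ i
      from hab]
    simp
  -- the orbit stays in `T`
  have horb : ∀ a : ↥(P.part w' x), orb a ∈ T := by
    rintro ⟨a, ha⟩
    have ha' : a ∈ P.part w' w := ⟨ha.1, P.part_third_le hw' hz' hz.2 (P.adj_symm _ _ h2) ha.2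
      (P.sub_fix ha.1) (P.fix_middle' hz.1 h1 hw' ha)⟩
    obtain ⟨c, hc, hc1⟩ : ∃ c ∈ P.part w x, c ≠ 1 := by
      have h4 : P.part w x ≠ ⊥ := fun h => by
        have h5 := P.card_part_near (P.near_symm _ _ hw)
        rw [h, Subgroup.card_bot] at h5
        omega
      exact (Subgroup.ne_bot_iff_exists_ne_one.1 h4).elim fun c hc =>
        ⟨c, c.2, fun h => hc (Subtype.ext h)⟩
    have hc' : c ∈ P.part w w' := ⟨hc.1, P.part_third_le hw hz h1 h2 hc.2 (P.sub_fix hc.1)
      (P.fix_middle' hz.1 hz.2 hw hc)⟩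
    have hcomm := P.part_comm w w' (P.ne_of_adj h2) a ha' c hc'
    show P.perm x ⟨a, ha.2⟩ i ∈ T
    rw [hT, ← P.perm_tet_iff hw (a := ⟨c, hc.2⟩) hc.1 hc1, ← Equiv.Perm.mul_apply, ← map_mul,
      show (⟨c, hc.2⟩ * ⟨a, ha.2⟩ : ↥(stabilizer G x)) = ⟨a, ha.2⟩ * ⟨c, hc.2⟩ from
        Subtype.ext hcomm.symm, map_mul, Equiv.Perm.mul_apply,
      (P.perm_tet_iff hw (a := ⟨c, hc.2⟩) hc.1 hc1 i).2 hiT]
  have hnot : ∀ a, orb a ∉ T' := by
    rintro ⟨a, ha⟩ hmem
    by_cases ha1 : a = 1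
    · subst ha1
      apply hiT'
      have : orb ⟨1, ha⟩ = i := by
        show P.perm x ⟨1, ha.2⟩ i = i
        rw [show (⟨1, ha.2⟩ : ↥(stabilizer G x)) = 1 from rfl, map_one, Equiv.Perm.one_apply]
      rwa [this] at hmem
    · have h4 := (P.perm_tet_iff hw' (a := ⟨a, ha.2⟩) ha.1 ha1 _).2 hmem
      exact hiT' ((P.perm_tet_iff hw' (a := ⟨a, ha.2⟩) ha.1 ha1 i).1
        ((P.perm x ⟨a, ha.2⟩).injective h4))
  have himg : Finset.univ.image orb = T := Finset.eq_of_subset_of_card_le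
    (fun j hj => by
      obtain ⟨a, -, rfl⟩ := Finset.mem_image.1 hj
      exact horb a)
    (by rw [Finset.card_image_of_injective _ hinj, Finset.card_univ, ← Nat.card_eq_fintype_card,
      P.card_part_near (P.near_symm _ _ hw'), P.tet_card x w hw])
  refine Finset.eq_of_subset_of_card_le (fun j hj => ?_) ?_
  · rw [Finset.mem_compl, ← himg]
    intro hmem
    obtain ⟨a, -, rfl⟩ := Finset.mem_image.1 hmem
    exact hnot a hj
  · rw [Finset.card_compl, P.tet_card x w hw, P.tet_card x w' hw']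
    simp

/-- The partner has the complementary tetrad. -/
theorem tet_third {x z w w' : V} (hw : P.near x w) (hz : z ∈ P.mid x w) (h1 : P.adj z w')
    (h2 : P.adj w w') : P.tet x w' = (P.tet x w)ᶜ := by
  classical
  haveI := P.finite_V
  haveI : Fintype V := Fintype.ofFinite V
  refine (P.tet_third_cases hw hz h1 h2).resolve_left fun heq => ?_
  -- all three partners would be in the fibre of `w`
  set F : Set V := {u | P.near x u ∧ P.tet x u = P.tet x w} with hF
  have hthird : ∀ z₁ ∈ P.mid x w, ∃ u, P.adj z₁ u ∧ P.adj w u ∧ u ∈ F := by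
    intro z₁ hz₁
    obtain ⟨g, hgx, hgw, rfl⟩ := P.exists_move_mid hw hz hz₁
    refine ⟨g • w', P.adj_smul g _ _ h1, by simpa [hgw] using P.adj_smul g w w' h2, ?_, ?_⟩
    · exact P.near_smul_fix (P.near_third hw hz h1 h2) hgx
    · rw [P.tet_smul x w' ⟨g, hgx⟩ (P.near_third hw hz h1 h2), heq]
      exact ((P.tet_smul x w ⟨g, hgx⟩ hw).symm.trans (by rw [hgw]))
  choose! φ hφ using hthird
  have hinj : Set.InjOn φ (P.mid x w) := fun a ha b hb hab =>
    P.third_eq (hφ a ha).2.1 ⟨P.adj_symm _ _ ha.2, P.adj_symm _ _ (hφ a ha).1⟩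
      ⟨P.adj_symm _ _ hb.2, hab ▸ P.adj_symm _ _ (hφ b hb).1⟩
  have hwF : w ∈ F := ⟨hw, rfl⟩
  have hsub : φ '' P.mid x w = F \ {w} := by
    refine Set.eq_of_subset_of_ncard_le ?_ ?_
    · rintro _ ⟨a, ha, rfl⟩
      exact ⟨(hφ a ha).2.2, fun e => P.ne_of_adj (hφ a ha).2.1 e.symm⟩
    · rw [hinj.ncard_image, P.ncard_mid hw, Set.ncard_sdiff_singleton_of_mem hwF,
        P.tet_fibre x _ (P.tet_card x w hw)]
  have hclique : ∀ u ∈ F, ∀ u' ∈ F, u ≠ u' → P.adj u u' := by
    intro u hu u' hu' hne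
    obtain ⟨e, he, rfl⟩ := (P.tet_eq_iff x w u hw hu.1).1 hu.2.symm
    obtain ⟨e', he', rfl⟩ := (P.tet_eq_iff x w u' hw hu'.1).1 hu'.2.symm
    have hmem : (e⁻¹ * e') • w ∈ F \ {w} := by
      refine ⟨?_, fun h => hne ?_⟩
      · have hm : e⁻¹ * e' ∈ P.sub x := mul_mem (inv_mem he) he'
        have hn := P.near_smul_fix hw (P.sub_fix hm)
        exact ⟨hn, ((P.tet_eq_iff x w _ hw hn).2 ⟨_, hm, rfl⟩).symm⟩
      · rw [Set.mem_singleton_iff, mul_smul, inv_smul_eq_iff] at h
        exact h.symm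
    rw [← hsub] at hmem
    obtain ⟨a, ha, hae⟩ := hmem
    have := P.adj_smul e w (φ a) (hφ a ha).2.1
    rwa [hae, mul_smul, smul_inv_smul] at this
  obtain ⟨a, b, _, hab, -, -, hm⟩ := Set.ncard_eq_three.1 (P.ncard_mid hw)
  have ha : a ∈ P.mid x w := by rw [hm]; simp
  have hb : b ∈ P.mid x w := by rw [hm]; simp
  have h3 := hclique _ (hφ a ha).2.2 _ (hφ b hb).2.2 fun e => hab (hinj ha hb e)
  have h4 := P.third_eq (hφ a ha).2.1 ⟨P.adj_symm _ _ ha.2, P.adj_symm _ _ (hφ a ha).1⟩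
    ⟨(hφ b hb).2.1, h3⟩
  exact P.not_near_of_adj (h4 ▸ ha.1) (hφ b hb).2.2.1

/-- The partners of a near vertex. -/
theorem near_partner {x w : V} (hw : P.near x w) :
    {w' | ∃ z, P.adj x z ∧ P.adj z w ∧ P.adj z w' ∧ P.adj w w'}.ncard = 3 ∧
      ∀ z w' : V, P.adj x z → P.adj z w → P.adj z w' → P.adj w w' →
        P.near x w' ∧ P.tet x w' = (P.tet x w)ᶜ := by
  refine ⟨?_, fun z w' hz h0 h1 h2 => ⟨P.near_third hw ⟨hz, h0⟩ h1 h2,
    P.tet_third hw ⟨hz, h0⟩ h1 h2⟩⟩
  have hth : ∀ z ∈ P.mid x w, ∃ w', P.adj z w' ∧ P.adj w w' := fun z hz =>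
    (P.existsUnique_third hz.2).exists
  choose! φ hφ using hth
  have hinj : Set.InjOn φ (P.mid x w) := fun a ha b hb hab =>
    P.third_eq (hφ a ha).2 ⟨P.adj_symm _ _ ha.2, P.adj_symm _ _ (hφ a ha).1⟩
      ⟨P.adj_symm _ _ hb.2, hab ▸ P.adj_symm _ _ (hφ b hb).1⟩
  rw [← P.ncard_mid hw, ← hinj.ncard_image]
  congr 1
  ext w'
  constructor
  · rintro ⟨z, hz, h0, h1, h2⟩
    exact ⟨z, ⟨hz, h0⟩, P.third_eq h0 (hφ z ⟨hz, h0⟩) ⟨h1, h2⟩⟩
  · rintro ⟨z, hz, rfl⟩
    exact ⟨z, hz.1, hz.2, hφ z hz⟩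

end PreGeom

end CfsgLib.M24Count
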