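import Cfsg.Agent.M24Count.LinesBasic

/-!
The triangle on an edge of the disjointness graph is unique.
-/

set_option autoImplicit false
set_option linter.unusedSectionVars false

namespace CfsgLib.M24Count

open MulAction

universe u v

namespace PreGeom

variable {G : Type u} {V : Type v} [Group G] [MulAction G V] [Finite G] (P : PreGeom G V)

theorem finite_V (P : PreGeom G V) : Finite V :=
  Nat.finite_of_card_ne_zero (by rw [P.card_V]; norm_num)

/-- An element of order seven fixing `x` and `z` fixes no point of the hyperplane but `1`. -/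
theorem seven_free {x z : V} (h : P.adj x z) {f : G} (hfx : f • x = x) (hfz : f • z = z)
    (hf : orderOf f = 7) {d : G} (hd : d ∈ P.part x z) (hcd : f * d = d * f) : d = 1 := by
  classical
  by_contra hd1
  haveI : Fintype ↥(P.part x z) := Fintype.ofFinite _
  have hf7 : f ^ 7 = 1 := hf ▸ pow_orderOf_eq_one f
  -- conjugation by `f` on the hyperplane
  let σ : Equiv.Perm ↥(P.part x z) :=
    { toFun := fun a => ⟨f * a * f⁻¹, (P.conj_part_fix hfx hfz).2 a.2⟩
      invFun := fun a => ⟨f⁻¹ * a * f, (P.conj_part_fix hfx hfz (a := f⁻¹ * a * f)).1 (by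
        simp [mul_assoc])⟩
      left_inv := fun a => Subtype.ext (by simp [mul_assoc])
      right_inv := fun a => Subtype.ext (by simp [mul_assoc]) }
  have hσ : ∀ (k : ℕ) (a : ↥(P.part x z)), ((σ ^ k) a : G) = f ^ k * a * (f ^ k)⁻¹ := by
    intro k
    induction k with
    | zero => intro a; simp
    | succ k ih =>
      intro a
      rw [pow_succ', Equiv.Perm.mul_apply]
      show f * ((σ ^ k) a : G) * f⁻¹ = _
      rw [ih, pow_succ', mul_inv_rev]
      group
  haveI : Fact (Nat.Prime 7) := ⟨by norm_num⟩
  have hσ7 : σ ^ 7 = 1 := Equiv.ext fun a => Subtype.ext (by rw [hσ, hf7]; simp)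
  have hσ1 : σ = 1 := by
    by_contra hne
    have ho : orderOf σ = 7 := orderOf_eq_prime hσ7 hne
    have hcyc := (Equiv.Perm.card_compl_support_modEq (p := 7) (n := 1) (σ := σ) (by simpa using hσ7))
    have hsup : σ.support.card ≤ 6 := by
      have h2 : σ.support ⊆ (Finset.univ.erase (1 : ↥(P.part x z))).erase ⟨d, hd⟩ := by
        intro a ha
        rw [Equiv.Perm.mem_support] at ha
        refine Finset.mem_erase.2 ⟨fun e => ha ?_, Finset.mem_erase.2 ⟨fun e => ha ?_, Finset.mem_univ _⟩⟩
        · subst e
          exact Subtype.ext (mul_inv_eq_iff_eq_mul.2 hcd)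
        · subst e
          exact Subtype.ext (by simp [σ])
      refine (Finset.card_le_card h2).trans ?_
      rw [Finset.card_erase_of_mem (Finset.mem_erase.2
          ⟨fun e => hd1 (congrArg Subtype.val e), Finset.mem_univ _⟩),
        Finset.card_erase_of_mem (Finset.mem_univ _), Finset.card_univ, ← Nat.card_eq_fintype_card,
        P.card_part_adj h]
    have hdvd : 7 ∣ σ.support.card := by
      have := Equiv.Perm.sum_cycleType σ
      rw [← this]
      refine Multiset.dvd_sum fun n hn => ?_
      have hn7 := Equiv.Perm.dvd_of_mem_cycleType hn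
      rw [ho] at hn7
      exact ((Nat.dvd_prime (Fact.out : Nat.Prime 7)).1 hn7).resolve_left
        (by have := Equiv.Perm.one_lt_of_mem_cycleType hn; omega) ▸ dvd_rfl
    have : σ.support.card = 0 := by omega
    exact hne (Equiv.Perm.support_eq_empty_iff.1 (Finset.card_eq_zero.1 this))
  -- so `f` centralises the hyperplane, hence all of `sub x`
  have hc : ∀ a ∈ P.part x z, f * a * f⁻¹ = a := fun a ha =>
    congrArg Subtype.val (Equiv.ext_iff.1 hσ1 ⟨a, ha⟩)
  obtain ⟨e, he, he1⟩ := P.exists_not_part h
  have hfe : f * e * f⁻¹ ∉ P.part x z := fun h2 => he1 ((P.conj_part_fix hfx hfz).1 h2)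
  set b := e * (f * e * f⁻¹) with hb
  have hbH : b ∈ P.part x z := P.part_mul_mem h he (P.conj_sub' hfx he) he1 hfe
  have hfe' : f * e * f⁻¹ = e * b := by rw [hb, ← mul_assoc, P.sub_sq x e he, one_mul]
  have h7 := LinesAux.conj_iterate (p := f) (e := e) (b := b) (hc b hbH) hfe' 7
  rw [hf7, inv_one, mul_one, one_mul, left_eq_mul,
    show b ^ 7 = (b * b) ^ 3 * b by rw [← sq, ← pow_mul, ← pow_succ],
    P.sub_sq x b hbH.1, one_pow, one_mul] at h7
  rw [h7, mul_one] at hfe'
  have hcent : f ∈ Subgroup.centralizer (P.sub x : Set G) := by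
    rw [Subgroup.mem_centralizer_iff]
    intro a ha
    by_cases h3 : a ∈ P.part x z
    · exact (mul_inv_eq_iff_eq_mul.1 (hc a h3)).symm
    · have h4 := hc _ (P.part_mul_mem h he ha he1 h3)
      have h5 : f * a * f⁻¹ = a := by
        calc f * a * f⁻¹ = (f * e * f⁻¹)⁻¹ * (f * (e * a) * f⁻¹) := by group
          _ = a := by rw [hfe', h4]; group
      exact (mul_inv_eq_iff_eq_mul.1 h5).symm
  rw [P.sub_self_cent] at hcent
  have := orderOf_dvd_of_pow_eq_one (show f ^ 2 = 1 by rw [sq]; exact P.sub_sq x f hcent)
  rw [hf] at this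
  norm_num at this

/-- The neighbours of `x` off a line through it form one orbit of the stabiliser of the line. -/
theorem exists_move_off {x z y : V} (h : P.adj x z) (hy : P.adj x y)
    (hne : P.part x y ≠ P.part x z) {y₂ : V} (hy₂ : P.adj x y₂)
    (hne₂ : P.part x y₂ ≠ P.part x z) : ∃ g : G, g • x = x ∧ g • z = z ∧ g • y = y₂ := by
  classical
  haveI := P.finite_V
  haveI : Fintype V := Fintype.ofFinite V
  obtain ⟨f, hfx, hfz, hf⟩ := P.exists_seven h
  obtain ⟨e, heM, heH⟩ : ∃ e ∈ P.part x y, e ∉ P.part x z := by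
    by_contra hno
    push Not at hno
    exact hne (Subgroup.eq_of_le_of_card_ge hno (by rw [P.card_part_adj hy, P.card_part_adj h]))
  obtain ⟨s, hsH, hsM⟩ : ∃ s ∈ P.part x z, s ∉ P.part x y := by
    by_contra hno
    push Not at hno
    exact hne (Subgroup.eq_of_le_of_card_ge hno (by rw [P.card_part_adj h, P.card_part_adj hy])).symm
  obtain ⟨a₀, ha₀, ha₀e⟩ := P.exists_elation h heM.1 heH hsH
  have hax : a₀ • x = x := ha₀.2
  have haz : a₀ • z = z := P.sub_fix ha₀.1
  have hsx : s • x = x := P.sub_fix hsH.1
  have hsz : s • z = z := hsH.2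
  let m : Fin 7 × Bool × Bool → G := fun p =>
    f ^ p.1.val * (if p.2.1 then a₀ else 1) * (if p.2.2 then s else 1)
  have hmx : ∀ p, m p • x = x ∧ m p • z = z := by
    intro p
    have hp : ∀ k : ℕ, f ^ k • x = x ∧ f ^ k • z = z := fun k => by
      induction k with
      | zero => simp
      | succ k ih => exact ⟨by rw [pow_succ, mul_smul, hfx, ih.1], by rw [pow_succ, mul_smul, hfz, ih.2]⟩
    simp only [m]
    constructor <;> split_ifs <;>
      simp [mul_smul, hax, haz, hsx, hsz, (hp p.1.val).1, (hp p.1.val).2]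
  have hmS : ∀ p, P.adj x (m p • y) ∧ P.part x (m p • y) ≠ P.part x z := by
    intro p
    refine ⟨by simpa [(hmx p).1] using P.adj_smul (m p) x y hy, fun hh => hne ?_⟩
    ext a
    rw [← P.conj_part_fix (hmx p).1 (hmx p).2, ← hh,
      ← P.mem_part_smul (g := m p) (x := x) (w := y) (a := a), (hmx p).1]
  -- the 28 images are different
  have hK : ∀ d : G, d ∈ P.part x z → (d ∈ P.part x y ↔ a₀ * d * a₀⁻¹ ∈ P.part x (a₀ • y)) := by
    intro d _
    rw [← P.mem_part_smul (g := a₀) (x := x) (w := y) (a := d), hax]
  have hfix : ∀ d ∈ P.part x z, a₀ * d * a₀⁻¹ = d := fun d hd =>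
    mul_inv_eq_iff_eq_mul.2 (P.part_comm x z (P.ne_of_adj h) a₀ ha₀ d hd)
  have hinj : Function.Injective fun p => m p • y := by
    rintro ⟨i, b, c⟩ ⟨i', b', c'⟩ hp
    simp only at hp
    -- the intersection with the hyperplane determines `i`
    have hin : ∀ (k : Fin 7) (b c : Bool) (d : G), d ∈ P.part x z →
        (d ∈ P.part x (m (k, b, c) • y) ↔ (f ^ k.val)⁻¹ * d * f ^ k.val ∈ P.part x y) := by
      intro k b c d hd
      have hfk : f ^ k.val • x = x ∧ f ^ k.val • z = z := by
        simpa [m] using hmx (k, false, false)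
      have hdk : (f ^ k.val)⁻¹ * d * f ^ k.val ∈ P.part x z :=
        (P.conj_part_fix hfk.1 hfk.2).1 (by simpa [mul_assoc] using hd)
      simp only [m, mul_smul]
      rw [P.smul_part_eq hfk.1]
      set d' := (f ^ k.val)⁻¹ * d * f ^ k.val
      have h1 : d' ∈ P.part x ((if b then a₀ else 1) • (if c then s else 1) • y) ↔
          d' ∈ P.part x ((if c then s else 1) • y) := by
        cases b
        · simp
        · simp only [if_true]
          rw [P.smul_part_eq hax]
          conv_lhs => rw [show a₀⁻¹ * d' * a₀ = d' by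
            calc a₀⁻¹ * d' * a₀ = a₀⁻¹ * (a₀ * d' * a₀⁻¹) * a₀ := by rw [hfix _ hdk]
              _ = d' := by group]
      rw [h1]
      cases c
      · simp
      · simp only [if_true]
        rw [P.part_smul_sub hsH.1]
    have hi : i = i' := by
      by_contra hii
      -- a power of `f` keeps the intersection, hence fixes a nontrivial point
      set K := P.part x z ⊓ P.part x y with hKdef
      have hKc : Nat.card K ≤ 4 := by
        have hlt : K < P.part x z := lt_of_le_of_ne inf_le_left fun hh =>
          hsM ((hh.symm ▸ hsH : s ∈ K)).2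
        have hdvd := Subgroup.card_dvd_of_le (inf_le_left : K ≤ P.part x z)
        rw [P.card_part_adj h] at hdvd
        have : Nat.card K ≠ 8 := fun h8 => hlt.ne (Subgroup.eq_of_le_of_card_ge inf_le_left
          (by rw [h8, P.card_part_adj h]))
        rcases (Nat.dvd_prime_pow Nat.prime_two).1 (show Nat.card K ∣ 2 ^ 3 from hdvd) with
          ⟨j, hj, hje⟩
        interval_cases j <;> omega
      obtain ⟨d, hdK, hd1⟩ : ∃ d ∈ K, d ≠ 1 := by
        obtain ⟨t, ht, ht'⟩ : ∃ t ∈ P.part x z, t ∉ P.part x y := ⟨s, hsH, hsM⟩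
        by_contra hno
        push Not at hno
        -- otherwise two members of the hyperplane outside `part x y` are equal
        have : Nat.card ↥(P.part x z) ≤ 2 := by
          rw [← SetLike.coe_sort_coe, Nat.card_coe_set_eq]
          refine (Set.ncard_le_ncard (t := {1, t}) (fun u hu => ?_)).trans
            ((Set.ncard_insert_le _ _).trans (by rw [Set.ncard_singleton]))
          by_cases h3 : u ∈ P.part x y
          · exact Or.inl (hno u ⟨hu, h3⟩)
          · have h4 := hno (t * u) ⟨mul_mem ht hu, P.part_mul_mem hy ht.1 hu.1 ht' h3⟩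
            exact Or.inr (by
              rw [Set.mem_singleton_iff, ← inv_eq_of_mul_eq_one_right h4, P.sub_inv ht.1])
        rw [P.card_part_adj h] at this
        omega
      obtain ⟨g, hg⟩ : ∃ g : G, g = (f ^ i'.val)⁻¹ * f ^ i.val := ⟨_, rfl⟩
      have hgx : g • x = x ∧ g • z = z := by
        have e1 : f ^ i.val • x = x ∧ f ^ i.val • z = z := by simpa [m] using hmx (i, false, false)
        have e2 : f ^ i'.val • x = x ∧ f ^ i'.val • z = z := by
          simpa [m] using hmx (i', false, false)
        rw [hg]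
        simp only [mul_smul, inv_smul_eq_iff]
        exact ⟨by rw [e1.1, e2.1], by rw [e1.2, e2.2]⟩
      have hgK : ∀ u ∈ K, g * u * g⁻¹ ∈ K := by
        intro u hu
        have hu' : f ^ i.val * u * (f ^ i.val)⁻¹ ∈ P.part x z := by
          have e1 : f ^ i.val • x = x ∧ f ^ i.val • z = z := by simpa [m] using hmx (i, false, false)
          exact (P.conj_part_fix e1.1 e1.2).2 hu.1
        have h3 := (hin i b c _ hu').2 (by simpa [mul_assoc] using hu.2)
        rw [hp] at h3
        refine ⟨(P.conj_part_fix hgx.1 hgx.2).2 hu.1, ?_⟩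
        have h4 := (hin i' b' c' _ hu').1 h3
        simpa [hg, mul_assoc] using h4
      -- `g` is a generator of `⟨f⟩`, so `f` keeps `K`
      have hg7 : orderOf g = 7 := by
        haveI : Fact (Nat.Prime 7) := ⟨by norm_num⟩
        refine orderOf_eq_prime ?_ fun hh => hii ?_
        · have hf7 : f ^ 7 = 1 := hf ▸ pow_orderOf_eq_one f
          rw [hg, (Commute.inv_left (Commute.pow_pow_self f _ _)).mul_pow, inv_pow, ← pow_mul,
            ← pow_mul, mul_comm i'.val, mul_comm i.val, pow_mul, pow_mul, hf7, one_pow, one_pow,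
            inv_one, one_mul]
        · rw [hg, inv_mul_eq_one] at hh
          have := pow_injOn_Iio_orderOf (x := f) (by simpa [hf] using i'.isLt)
            (by simpa [hf] using i.isLt) hh
          exact (Fin.ext this).symm
      -- a group of order seven on at most three points is trivial
      haveI : Fintype ↥K := Fintype.ofFinite _
      haveI : Fact (Nat.Prime 7) := ⟨by norm_num⟩
      let τ : ↥K → ↥K := fun u => ⟨g * u * g⁻¹, hgK u u.2⟩
      have hτi : Function.Injective τ := fun u v huv =>
        Subtype.ext (mul_left_cancel (mul_right_cancel (congrArg Subtype.val huv)))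
      let τ' : Equiv.Perm ↥K := Equiv.ofBijective τ (Finite.injective_iff_bijective.1 hτi)
      have hτ : ∀ (k : ℕ) (u : ↥K), ((τ' ^ k) u : G) = g ^ k * u * (g ^ k)⁻¹ := by
        intro k
        induction k with
        | zero => intro u; simp
        | succ k ih =>
          intro u
          rw [pow_succ', Equiv.Perm.mul_apply]
          show g * ((τ' ^ k) u : G) * g⁻¹ = _
          rw [ih, pow_succ', mul_inv_rev]
          group
      have hτ7 : τ' ^ 7 = 1 := Equiv.ext fun u => Subtype.ext (by
        rw [hτ, ← hg7, pow_orderOf_eq_one]; simp)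
      have hτ1 : τ' = 1 := by
        by_contra hne1
        have hdvd := orderOf_dvd_card (x := τ')
        rw [orderOf_eq_prime hτ7 hne1, Fintype.card_perm, ← Nat.card_eq_fintype_card] at hdvd
        have := hdvd.trans (Nat.factorial_dvd_factorial hKc)
        norm_num [Nat.factorial] at this
      refine hd1 (P.seven_free h hgx.1 hgx.2 hg7 hdK.1 ?_)
      have := congrArg Subtype.val (Equiv.ext_iff.1 hτ1 ⟨d, hdK⟩)
      exact mul_inv_eq_iff_eq_mul.1 this
    subst hi
    simp only [m, mul_assoc, mul_smul, smul_left_cancel_iff] at hp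
    have hb : b = b' := by
      by_contra hbb
      -- one side keeps `part x y`, the other moves it by the elation
      have hM : ∀ c : Bool, P.part x ((if c then s else 1) • y) = P.part x y := by
        intro c; cases c
        · simp
        · simpa using P.part_smul_sub (z := y) hsH.1
      have key : ∀ c c' : Bool, a₀ • ((if c then s else 1) • y) ≠ (if c' then s else 1) • y := by
        intro c c' hh
        have h1 : a₀ * e * a₀⁻¹ ∈ P.part x y := by
          rw [← hM c', ← hh, P.smul_part_eq hax, hM c]
          simpa [mul_assoc] using heM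
        rw [ha₀e] at h1
        exact hsM ((Subgroup.mul_mem_cancel_left _ heM).1 h1)
      cases b <;> cases b' <;> simp only [Bool.false_eq_true, if_false, if_true, one_smul] at hp <;>
        first
          | exact hbb rfl
          | exact key _ _ hp
          | exact key _ _ hp.symm
    subst hb
    rw [smul_left_cancel_iff] at hp
    have hs : s • y ≠ y := P.smul_ne hsH.1 hsM
    have hc : c = c' := by
      cases c <;> cases c' <;> first
        | rfl
        | exact absurd (by simpa using hp) hs
        | exact absurd (by simpa using hp.symm) hs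
    rw [hc]
  -- so they are all of them
  have hcard : {w | P.adj x w ∧ P.part x w ≠ P.part x z}.ncard ≤ 28 := by
    obtain ⟨z', hz', -, e', he', he1, rfl⟩ := P.exists_third h
    have hsub : {w | P.adj x w ∧ P.part x w ≠ P.part x z} ⊆
        {w | P.adj x w} \ {z, e' • z} := by
      rintro w ⟨h1, h2⟩
      refine ⟨h1, ?_⟩
      rintro (rfl | rfl)
      · exact h2 rfl
      · exact h2 (P.part_smul_sub he')
    refine (Set.ncard_le_ncard hsub).trans ?_
    rw [Set.ncard_sdiff (by rintro w (rfl | rfl); exacts [h, hz']), P.ncard_adj,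
      Set.ncard_pair (P.smul_ne he' he1).symm]
  have himg : Set.range (fun p => m p • y) = {w | P.adj x w ∧ P.part x w ≠ P.part x z} := by
    refine Set.eq_of_subset_of_ncard_le (by rintro _ ⟨p, rfl⟩; exact hmS p) ?_
    rw [← Nat.card_coe_set_eq (Set.range _), Nat.card_range_of_injective hinj]
    simpa using hcard
  obtain ⟨p, hp⟩ : y₂ ∈ Set.range (fun p => m p • y) := by rw [himg]; exact ⟨hy₂, hne₂⟩
  exact ⟨m p, (hmx p).1, (hmx p).2, hp⟩

/-- The third vertex of a line is unique. -/
theorem eq_third {x z y : V} (h : P.adj x z) (hy : P.adj x y) (hzy : P.adj z y) {e : G}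
    (he : e ∈ P.sub x) (he1 : e ∉ P.part x z) : y = e • z := by
  classical
  haveI := P.finite_V
  by_contra hne
  have hext : ∀ {z y : V}, P.adj x z → P.adj x y → P.adj z y → P.part x y ≠ P.part x z →
      ∀ y₂, P.adj x y₂ → y₂ ≠ z → P.adj z y₂ := by
    intro z y h hy hzy hp y₂ hy₂ hy₂z
    by_cases hp₂ : P.part x y₂ = P.part x z
    · obtain ⟨e₂, he₂, rfl⟩ := (P.adj_part_iff x z y₂ h hy₂).1 hp₂.symm
      have he₂1 : e₂ ∉ P.part x z := fun h2 => hy₂z h2.2
      exact (P.partner_spec h he₂ he₂1).2.2.2.1
    · obtain ⟨g, -, hgz, rfl⟩ := P.exists_move_off h hy hp hy₂ hp₂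
      simpa [hgz] using P.adj_smul g z y hzy
  have hp : P.part x y ≠ P.part x z := by
    intro hp
    obtain ⟨e₂, he₂, rfl⟩ := (P.adj_part_iff x z y h hy).1 hp.symm
    have he₂1 : e₂ ∉ P.part x z := fun h2 => P.ne_of_adj hzy h2.2.symm
    exact hne (P.smul_eq_partner h he₂ he he₂1 he1)
  -- the neighbourhood of `x` is a clique
  have hclique : ∀ a b, P.adj x a → P.adj x b → a ≠ b → P.adj a b := by
    intro a b ha hb hab
    by_cases hpa : P.part x a = P.part x z
    · by_cases haz : a = z
      · subst haz; exact hext h hy hzy hp b hb hab.symm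
      · by_cases hpb : P.part x b = P.part x z
        · obtain ⟨e₂, he₂, rfl⟩ := (P.adj_part_iff x a b ha hb).1 (hpa.trans hpb.symm)
          exact (P.partner_spec ha he₂ fun h2 => hab h2.2.symm).2.2.2.1
        · -- `b` sees `z` off its own line, so everything
          exact P.adj_symm _ _ (hext hb h (P.adj_symm _ _ (hext h hy hzy hp b hb
            fun e2 => hpb (e2 ▸ rfl))) (Ne.symm hpb) a ha hab)
    · exact hext ha h (P.adj_symm _ _ (hext h hy hzy hp a ha fun e2 => hpa (e2 ▸ rfl)))
        (Ne.symm hpa) b hb hab.symm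
  -- so it is a component with 31 vertices
  let S : Set V := insert x {w | P.adj x w}
  have hSc : S.ncard = 31 := by
    show (insert x {w | P.adj x w}).ncard = 31
    rw [Set.ncard_insert_of_notMem (show x ∉ {w | P.adj x w} from P.not_adj_self x), P.ncard_adj]
  have hN : ∀ a, P.adj x a → {b | P.adj a b} = S \ {a} := by
    intro a ha
    refine (Set.eq_of_subset_of_ncard_le ?_ ?_).symm
    · rintro b ⟨hb | hb, hba⟩
      · exact hb ▸ P.adj_symm _ _ ha
      · exact hclique a b ha hb fun e2 => hba e2.symm
    · rw [P.ncard_adj, Set.ncard_sdiff_singleton_of_mem (show a ∈ S from Set.mem_insert_of_mem _ ha), hSc]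
  refine P.not_closed (x := x) S ?_ (Set.mem_insert _ _) ?_ (by rw [hSc]; norm_num)
  · rintro a (rfl | ha) b hb
    · exact Set.mem_insert_of_mem _ hb
    · have : b ∈ S \ {a} := hN a ha ▸ hb
      exact this.1
  · rintro a (rfl | ha)
    · exact Relation.ReflTransGen.refl
    · exact Relation.ReflTransGen.single ha

/-- Each edge is in exactly one triangle. -/
theorem existsUnique_third {x z : V} (h : P.adj x z) : ∃! y, P.adj x y ∧ P.adj z y := by
  obtain ⟨y, hy, hzy, e, he, he1, rfl⟩ := P.exists_third h
  exact ⟨_, ⟨hy, hzy⟩, fun w hw => P.eq_third h hw.1 hw.2 he he1⟩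

theorem third_eq {a b c c' : V} (hab : P.adj a b) (hc : P.adj a c ∧ P.adj b c)
    (hc' : P.adj a c' ∧ P.adj b c') : c = c' := (P.existsUnique_third hab).unique hc hc'

end PreGeom

end CfsgLib.M24Count
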