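import Cfsg.Agent.M24Count.CountsBasic

/-!
The element orders and the count at each: `4 ↦ 5100480`, `6 ↦ 20401920`, `8 ↦ 15301440`,
`12 ↦ 40803840`.

Apart from 10, 14, 15 and 21 an order outside the forced ones divides `27648` and has one of four
values; Frobenius' congruences for `1024`, `3072`, `108` and `54` leave one possibility.
-/

set_option autoImplicit false
set_option linter.style.haveILetI false

namespace CfsgLib.M24Count

open Subgroup

open CfsgLib.M12Count (centralizer_le_normalizer_zpowers mem_centralizer_of_commute)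

universe u

/-- The sum of the counts of the orders dividing `n`, given the orders of the four free values. -/
def divSum (n a b c d : ℕ) : ℕ :=
  (if 1 ∣ n then 1 else 0) + (if 2 ∣ n then 43263 else 0) + (if 3 ∣ n then 712448 else 0) +
    (if a ∣ n then 5100480 else 0) + (if b ∣ n then 20401920 else 0) +
    (if c ∣ n then 15301440 else 0) + (if d ∣ n then 40803840 else 0)

/-- The possible orders of the four free values. -/
def freeOrders : List ℕ := [4, 6, 8, 9, 12, 16, 18, 27, 32]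

/-- Whether four orders pass the congruences without being `4, 6, 8, 12`. -/
def badOrders (a b c d : ℕ) : Bool :=
  (divSum 1024 a b c d % 1024 == 0) && (divSum 3072 a b c d % 3072 == 0) &&
    (divSum 108 a b c d % 108 == 0) && (divSum 54 a b c d % 54 == 0) &&
    !(a == b) && !(a == c) && !(a == d) && !(b == c) && !(b == d) && !(c == d) &&
    (!(a == 16 || a == 32 || b == 16 || b == 32 || c == 16 || c == 32 || d == 16 || d == 32) ||
      (a == 8 || b == 8 || c == 8 || d == 8)) &&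
    !(a == 4 && b == 6 && c == 8 && d == 12)

theorem no_badOrders : (freeOrders.all fun a => freeOrders.all fun b => freeOrders.all fun c =>
    freeOrders.all fun d => !badOrders a b c d) = true := by
  decide +kernel

theorem congruence_key : ∀ a ∈ ({4, 6, 8, 9, 12, 16, 18, 27, 32} : Finset ℕ),
    ∀ b ∈ ({4, 6, 8, 9, 12, 16, 18, 27, 32} : Finset ℕ),
    ∀ c ∈ ({4, 6, 8, 9, 12, 16, 18, 27, 32} : Finset ℕ),
    ∀ d ∈ ({4, 6, 8, 9, 12, 16, 18, 27, 32} : Finset ℕ),
    a ≠ b ∧ a ≠ c ∧ a ≠ d ∧ b ≠ c ∧ b ≠ d ∧ c ≠ d →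
    (a = 16 ∨ a = 32 ∨ b = 16 ∨ b = 32 ∨ c = 16 ∨ c = 32 ∨ d = 16 ∨ d = 32 →
      a = 8 ∨ b = 8 ∨ c = 8 ∨ d = 8) →
    1024 ∣ divSum 1024 a b c d ∧ 3072 ∣ divSum 3072 a b c d ∧ 108 ∣ divSum 108 a b c d ∧
      54 ∣ divSum 54 a b c d →
    a = 4 ∧ b = 6 ∧ c = 8 ∧ d = 12 := by
  intro a ha b hb c hc d hd hne h8 hc4
  have mem : ∀ v ∈ ({4, 6, 8, 9, 12, 16, 18, 27, 32} : Finset ℕ), v ∈ freeOrders := by decide
  have := no_badOrders
  simp only [List.all_eq_true] at this
  have hbad := this a (mem a ha) b (mem b hb) c (mem c hc) d (mem d hd)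
  simp only [badOrders, Bool.not_eq_true', Bool.and_eq_false_iff, beq_eq_false_iff_ne,
    Bool.not_eq_false', Bool.or_eq_false_iff, Bool.and_eq_true, beq_iff_eq, Bool.or_eq_true,
    ne_eq, ← Nat.dvd_iff_mod_eq_zero, hc4.1, hc4.2.1, hc4.2.2.1, hc4.2.2.2, not_true_eq_false,
    hne.1, hne.2.1, hne.2.2.1, hne.2.2.2.1, hne.2.2.2.2.1, hne.2.2.2.2.2, false_or,
    or_false] at hbad
  omega

namespace CountHyp

variable {G : Type u} [Group G] [Finite G] (h : CountHyp G)
include h

theorem orders_dvd {n : ℕ} (hb : n ∉ basicOrders) (hne : cnt G n ≠ 0) (h10 : n ≠ 10)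
    (h14 : n ≠ 14) (h15 : n ≠ 15) (h21 : n ≠ 21) : n ∣ 27648 := by
  obtain ⟨x, hx⟩ := (CfsgLib.OrderCounts.cnt_ne_zero_iff n).mp hne
  simp only [basicOrders, Finset.mem_insert, Finset.mem_singleton, not_or] at hb
  have hpow : ∀ m, m ∣ n → orderOf (x ^ (n / m)) = m ∧ Commute (x ^ (n / m)) x := by
    intro m hm
    refine ⟨?_, (Commute.refl x).pow_left _⟩
    have hn0 : n ≠ 0 := hx ▸ (orderOf_pos x).ne'
    have hm0 : m ≠ 0 := fun e => hn0 (Nat.eq_zero_of_zero_dvd (e ▸ hm))
    rw [orderOf_pow_of_dvd (Nat.div_pos (Nat.le_of_dvd (Nat.pos_of_ne_zero hn0) hm)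
      (Nat.pos_of_ne_zero hm0)).ne' ((Nat.div_dvd_of_dvd hm).trans (dvd_of_eq hx.symm)), hx, Nat.div_div_self hm hn0]
  have hC : ∀ m, m ∣ n → n ∣ Nat.card (centralizer ({x ^ (n / m)} : Set G)) := fun m hm => by
    have := Subgroup.orderOf_dvd_natCard _ (mem_centralizer_of_commute (hpow m hm).2)
    rwa [hx] at this
  have h7 : ¬ 7 ∣ n := by
    intro hd
    have hn := hC 7 hd
    rw [h.cent_seven (hpow 7 hd).1] at hn
    have key : ∀ m ∈ (42 : ℕ).divisors, 7 ∣ m → m = 7 ∨ m = 14 ∨ m = 21 ∨ m = 42 := by decide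
    rcases key n (Nat.mem_divisors.2 ⟨hn, by norm_num⟩) hd with e | e | e | e
    · exact hb.2.2.2.2.1 e
    · exact h14 e
    · exact h21 e
    · have h6 : 6 ∣ n := by rw [e]; norm_num
      exact h.no_six_seven (hpow 7 hd).1 (((hpow 7 hd).2).pow_right (n / 6)) (hpow 6 h6).1
  have h5 : ¬ 5 ∣ n := by
    intro hd
    have hn := hC 5 hd
    rw [h.cent_five (hpow 5 hd).1] at hn
    have key : ∀ m ∈ (60 : ℕ).divisors, 5 ∣ m → m = 5 ∨ m = 10 ∨ m = 15 ∨ 4 ∣ m ∨ 6 ∣ m := by
      decide
    have none : ∀ d, d = 4 ∨ d = 6 ∨ d = 12 → ¬ d ∣ n := by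
      intro d hd' hdn
      haveI : Nonempty {y : G // orderOf y = d ∧ Commute (x ^ (n / 5)) y} :=
        ⟨⟨x ^ (n / d), (hpow d hdn).1, ((hpow 5 hd).2).pow_right _⟩⟩
      exact Nat.card_pos.ne' ((h.five_shape (hpow 5 hd).1).2 d hd')
    rcases key n (Nat.mem_divisors.2 ⟨hn, by norm_num⟩) hd with e | e | e | e | e
    · exact hb.2.2.2.1 e
    · exact h10 e
    · exact h15 e
    · exact none 4 (by norm_num) e
    · exact none 6 (by norm_num) e
  have h11 : ¬ 11 ∣ n := by
    intro hd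
    have hn := hC 11 hd
    have hn' := hn.trans (card_dvd_of_le (centralizer_le_normalizer_zpowers (x ^ (n / 11))))
    rw [h.norm_eleven (hpow 11 hd).1] at hn'
    have key : ∀ m ∈ (110 : ℕ).divisors, 11 ∣ m → m = 11 ∨ 2 ∣ m ∨ 5 ∣ m := by decide
    rcases key n (Nat.mem_divisors.2 ⟨hn', by norm_num⟩) hd with e | e | e
    · exact hb.2.2.2.2.2.1 e
    · exact (h.not_dvd_large (hpow 2 e).1).1 (hd.trans (hC 2 e))
    · exact h5 e
  have h23 : ¬ 23 ∣ n := by
    intro hd
    have hn := (hC 23 hd).trans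
      (card_dvd_of_le (centralizer_le_normalizer_zpowers (x ^ (n / 23))))
    rw [h.norm_twentythree (hpow 23 hd).1] at hn
    have key : ∀ m ∈ (253 : ℕ).divisors, 23 ∣ m → m = 23 ∨ 11 ∣ m := by decide
    rcases key n (Nat.mem_divisors.2 ⟨hn, by norm_num⟩) hd with e | e
    · exact hb.2.2.2.2.2.2 e
    · exact h11 e
  have hG : n ∣ 5 * 7 * 11 * 23 * 27648 := by
    have := _root_.orderOf_dvd_natCard x
    rw [hx, h.card] at this
    simpa using this
  refine Nat.Coprime.dvd_of_dvd_mul_left ?_ hG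
  refine Nat.Coprime.mul_right (Nat.Coprime.mul_right (Nat.Coprime.mul_right ?_ ?_) ?_) ?_
  · exact ((Nat.Prime.coprime_iff_not_dvd (by norm_num)).2 h5).symm
  · exact ((Nat.Prime.coprime_iff_not_dvd (by norm_num)).2 h7).symm
  · exact ((Nat.Prime.coprime_iff_not_dvd (by norm_num)).2 h11).symm
  · exact ((Nat.Prime.coprime_iff_not_dvd (by norm_num)).2 h23).symm

/-- The four counts left by the forced orders and by 10, 14, 15, 21, and the orders taking them. -/
theorem spectrum : cnt G 4 = 5100480 ∧ cnt G 6 = 20401920 ∧ cnt G 8 = 15301440 ∧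
    cnt G 12 = 40803840 ∧ ∀ n, n ∉ basicOrders → cnt G n ≠ 0 →
      n = 4 ∨ n = 6 ∨ n = 8 ∨ n = 10 ∨ n = 12 ∨ n = 14 ∨ n = 15 ∨ n = 21 := by
  obtain ⟨a, ha⟩ := h.surj 5100480 (by decide)
  obtain ⟨b, hb⟩ := h.surj 20401920 (by decide)
  obtain ⟨c, hc⟩ := h.surj 15301440 (by decide)
  obtain ⟨d, hd⟩ := h.surj 40803840 (by decide)
  have h1 : cnt G 1 = 1 := CfsgLib.OrderCounts.cnt_one
  have h2 := h.cnt_two
  have h3 := h.cnt_three
  have h5 := h.cnt_five
  have h7 := h.cnt_seven
  have h11 := h.cnt_eleven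
  have h23 := h.cnt_twentythree
  have h10 := h.cnt_ten
  have h14 := h.cnt_fourteen
  have h15 := h.cnt_fifteen
  have h21 := h.cnt_twentyone
  have off : ∀ v, (v = 5100480 ∨ v = 20401920 ∨ v = 15301440 ∨ v = 40803840) → ∀ n,
      cnt G n = v → n ∉ basicOrders ∧ n ≠ 10 ∧ n ≠ 14 ∧ n ≠ 15 ∧ n ≠ 21 := by
    intro v hv n hn
    refine ⟨fun hm => ?_, fun e => ?_, fun e => ?_, fun e => ?_, fun e => ?_⟩
    · simp only [basicOrders, Finset.mem_insert, Finset.mem_singleton] at hm
      rcases hm with rfl | rfl | rfl | rfl | rfl | rfl | rfl <;> omega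
    all_goals subst e; omega
  -- every other order is one of `a`, `b`, `c`, `d`
  have four : ∀ n, n ∉ basicOrders → cnt G n ≠ 0 → n ≠ 10 → n ≠ 14 → n ≠ 15 → n ≠ 21 →
      n = a ∨ n = b ∨ n = c ∨ n = d := by
    intro n hn hne n10 n14 n15 n21
    have inj : ∀ m, m ∉ basicOrders → cnt G n = cnt G m → n = m := fun m hm e =>
      h.cnt_inj hn hm hne e
    rcases h.composite_cases hn with e | e | e | e | e | e | e | e | e
    · exact absurd e hne
    · exact Or.inl (inj a (off _ (by simp) a ha).1 (e.trans ha.symm))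
    · exact Or.inr (Or.inl (inj b (off _ (by simp) b hb).1 (e.trans hb.symm)))
    · exact Or.inr (Or.inr (Or.inl (inj c (off _ (by simp) c hc).1 (e.trans hc.symm))))
    · exact absurd (inj 10 (by decide) (e.trans h10.symm)) n10
    · exact Or.inr (Or.inr (Or.inr (inj d (off _ (by simp) d hd).1 (e.trans hd.symm))))
    · exact absurd (inj 14 (by decide) (e.trans h14.symm)) n14
    · exact absurd (inj 15 (by decide) (e.trans h15.symm)) n15
    · exact absurd (inj 21 (by decide) (e.trans h21.symm)) n21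
  -- the order lies in a set of nine
  have hU : ∀ v, (v = 5100480 ∨ v = 20401920 ∨ v = 15301440 ∨ v = 40803840) → ∀ n,
      cnt G n = v → n ∈ ({4, 6, 8, 9, 12, 16, 18, 27, 32} : Finset ℕ) ∧
        ∀ m, m ∣ n → 4 ≤ m → m = a ∨ m = b ∨ m = c ∨ m = d := by
    intro v hv n hn
    obtain ⟨o1, o10, o14, o15, o21⟩ := off v hv n hn
    have hne : cnt G n ≠ 0 := by rw [hn]; omega
    have hd27 := h.orders_dvd o1 hne o10 o14 o15 o21
    have hsub : ∀ m, m ∣ n → 4 ≤ m → m = a ∨ m = b ∨ m = c ∨ m = d := by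
      intro m hm hm4
      obtain ⟨x, hx⟩ := (CfsgLib.OrderCounts.cnt_ne_zero_iff n).mp hne
      have hn0 : n ≠ 0 := hx ▸ (orderOf_pos x).ne'
      have hne' : cnt G m ≠ 0 := cnt_ne_zero (x := x ^ (n / m)) (by
        rw [orderOf_pow_of_dvd (Nat.div_pos (Nat.le_of_dvd (Nat.pos_of_ne_zero hn0) hm)
          (by omega)).ne' ((Nat.div_dvd_of_dvd hm).trans (dvd_of_eq hx.symm)), hx, Nat.div_div_self hm hn0])
      have hm27 := hm.trans hd27
      have hk : ∀ v ∈ ({1, 2, 3, 5, 7, 11, 23, 10, 14, 15, 21} : Finset ℕ), m ≠ v := by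
        intro v hv e
        subst e
        simp only [Finset.mem_insert, Finset.mem_singleton] at hv
        rcases hv with e | e | e | e | e | e | e | e | e | e | e <;> subst e <;>
          first
          | omega
          | norm_num at hm27
      refine four m ?_ hne' (hk 10 (by simp)) (hk 14 (by simp)) (hk 15 (by simp)) (hk 21 (by simp))
      simp only [basicOrders, Finset.mem_insert, Finset.mem_singleton, not_or]
      exact ⟨hk 1 (by simp), hk 2 (by simp), hk 3 (by simp), hk 5 (by simp), hk 7 (by simp),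
        hk 11 (by simp), hk 23 (by simp)⟩
    refine ⟨?_, hsub⟩
    obtain ⟨u, w, hu, hw, huw⟩ := Nat.dvd_mul.1 (show n ∣ 2 ^ 10 * 3 ^ 3 by simpa using hd27)
    obtain ⟨i, hi, rfl⟩ := (Nat.dvd_prime_pow Nat.prime_two).1 hu
    obtain ⟨j, hj, rfl⟩ := (Nat.dvd_prime_pow Nat.prime_three).1 hw
    have key : ∀ i < 11, ∀ j < 4, 2 ^ i * 3 ^ j ∉ basicOrders →
        ((((Finset.range (i + 1)) ×ˢ (Finset.range (j + 1))).image
          fun q => 2 ^ q.1 * 3 ^ q.2).filter (4 ≤ ·)).card ≤ 4 →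
        2 ^ i * 3 ^ j ∈ ({4, 6, 8, 9, 12, 16, 18, 27, 32} : Finset ℕ) := by
      decide +kernel
    rw [← huw] at o1 hsub ⊢
    refine key i (by omega) j (by omega) o1 ?_
    refine (Finset.card_le_card (t := {a, b, c, d}) fun m hm => ?_).trans Finset.card_le_four
    simp only [Finset.mem_filter, Finset.mem_image, Finset.mem_product, Finset.mem_range] at hm
    obtain ⟨⟨q, ⟨hq1, hq2⟩, rfl⟩, hm4⟩ := hm
    simpa using hsub _ (Nat.mul_dvd_mul (pow_dvd_pow 2 (by omega)) (pow_dvd_pow 3 (by omega))) hm4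
  obtain ⟨hUa, hda⟩ := hU _ (by simp) a ha
  obtain ⟨hUb, hdb⟩ := hU _ (by simp) b hb
  obtain ⟨hUc, hdc⟩ := hU _ (by simp) c hc
  obtain ⟨hUd, hdd⟩ := hU _ (by simp) d hd
  have hab : a ≠ b := fun e => by subst e; omega
  have hac : a ≠ c := fun e => by subst e; omega
  have had : a ≠ d := fun e => by subst e; omega
  have hbc : b ≠ c := fun e => by subst e; omega
  have hbd : b ≠ d := fun e => by subst e; omega
  have hcd : c ≠ d := fun e => by subst e; omega
  have h8 : a = 16 ∨ a = 32 ∨ b = 16 ∨ b = 32 ∨ c = 16 ∨ c = 32 ∨ d = 16 ∨ d = 32 →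
      a = 8 ∨ b = 8 ∨ c = 8 ∨ d = 8 := by
    intro hh
    rcases hh with e | e | e | e | e | e | e | e
    · have := hda 8 (by rw [e]; norm_num) (by norm_num); omega
    · have := hda 8 (by rw [e]; norm_num) (by norm_num); omega
    · have := hdb 8 (by rw [e]; norm_num) (by norm_num); omega
    · have := hdb 8 (by rw [e]; norm_num) (by norm_num); omega
    · have := hdc 8 (by rw [e]; norm_num) (by norm_num); omega
    · have := hdc 8 (by rw [e]; norm_num) (by norm_num); omega
    · have := hdd 8 (by rw [e]; norm_num) (by norm_num); omega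
    · have := hdd 8 (by rw [e]; norm_num) (by norm_num); omega
  -- Frobenius' congruences
  have hval : ∀ m, m ∣ 27648 → cnt G m =
      (if 1 = m then 1 else 0) + (if 2 = m then 43263 else 0) + (if 3 = m then 712448 else 0) +
        (if a = m then 5100480 else 0) + (if b = m then 20401920 else 0) +
        (if c = m then 15301440 else 0) + (if d = m then 40803840 else 0) := by
    intro m hm
    obtain ⟨oa, -⟩ := off _ (by simp) a ha
    obtain ⟨ob, -⟩ := off _ (by simp) b hb
    obtain ⟨oc, -⟩ := off _ (by simp) c hc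
    obtain ⟨od, -⟩ := off _ (by simp) d hd
    simp only [basicOrders, Finset.mem_insert, Finset.mem_singleton, not_or] at oa ob oc od
    by_cases m1 : 1 = m
    · subst m1; simp [h1, oa.1, ob.1, oc.1, od.1]
    by_cases m2 : 2 = m
    · subst m2; simp [h2, oa.2.1, ob.2.1, oc.2.1, od.2.1]
    by_cases m3 : 3 = m
    · subst m3; simp [h3, oa.2.2.1, ob.2.2.1, oc.2.2.1, od.2.2.1]
    by_cases ma : a = m
    · subst ma; simp [ha, m1, m2, m3, hab.symm, hac.symm, had.symm]
    by_cases mb : b = m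
    · subst mb; simp [hb, m1, m2, m3, ma, hbc.symm, hbd.symm]
    by_cases mc : c = m
    · subst mc; simp [hc, m1, m2, m3, ma, mb, hcd.symm]
    by_cases md : d = m
    · subst md; simp [hd, m1, m2, m3, ma, mb, mc]
    simp only [m1, m2, m3, ma, mb, mc, md, if_false, add_zero]
    by_contra hne
    have hk : ∀ v ∈ ({5, 7, 11, 23, 10, 14, 15, 21} : Finset ℕ), m ≠ v := by
      intro v hv e
      subst e
      simp only [Finset.mem_insert, Finset.mem_singleton] at hv
      rcases hv with e | e | e | e | e | e | e | e <;> subst e <;> norm_num at hm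
    rcases four m (by
      simp only [basicOrders, Finset.mem_insert, Finset.mem_singleton, not_or]
      exact ⟨Ne.symm m1, Ne.symm m2, Ne.symm m3, hk 5 (by simp), hk 7 (by simp), hk 11 (by simp),
        hk 23 (by simp)⟩) hne (hk 10 (by simp)) (hk 14 (by simp)) (hk 15 (by simp))
      (hk 21 (by simp)) with e | e | e | e
    · exact ma e.symm
    · exact mb e.symm
    · exact mc e.symm
    · exact md e.symm
  have cong : ∀ n, n ∣ 27648 → n ∣ divSum n a b c d := by
    intro n hn
    have hn0 : n ≠ 0 := fun e => by simp [e] at hn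
    have hs := Cfsg.Agent.S3995.dvd_sum_cnt (G := G) hn0 (hn.trans (by rw [h.card]; norm_num))
    change n ∣ ∑ m ∈ n.divisors, cnt G m at hs
    rw [Finset.sum_congr rfl fun m hm => hval m ((Nat.dvd_of_mem_divisors hm).trans hn)] at hs
    simpa [divSum, Finset.sum_add_distrib, Finset.sum_ite_eq, Nat.mem_divisors, hn0] using hs
  have h1024 := cong 1024 (by norm_num)
  have h3072 := cong 3072 (by norm_num)
  have h108 := cong 108 (by norm_num)
  have h54 := cong 54 (by norm_num)
  obtain ⟨e1, e2, e3, e4⟩ := congruence_key a hUa b hUb c hUc d hUd ⟨hab, hac, had, hbc, hbd, hcd⟩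
    h8 ⟨h1024, h3072, h108, h54⟩
  subst e1 e2 e3 e4
  refine ⟨ha, hb, hc, hd, fun n hn hne => ?_⟩
  by_cases n10 : n = 10
  · omega
  by_cases n14 : n = 14
  · omega
  by_cases n15 : n = 15
  · omega
  by_cases n21 : n = 21
  · omega
  have := four n hn hne n10 n14 n15 n21
  omega

theorem cnt_four : cnt G 4 = 5100480 := h.spectrum.1

theorem cnt_six : cnt G 6 = 20401920 := h.spectrum.2.1

theorem cnt_eight : cnt G 8 = 15301440 := h.spectrum.2.2.1

theorem cnt_twelve : cnt G 12 = 40803840 := h.spectrum.2.2.2.1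

theorem order_cases (x : G) : orderOf x ∈ basicOrders ∨ orderOf x = 4 ∨ orderOf x = 6 ∨
    orderOf x = 8 ∨ orderOf x = 10 ∨ orderOf x = 12 ∨ orderOf x = 14 ∨ orderOf x = 15 ∨
    orderOf x = 21 := by
  by_cases hb : orderOf x ∈ basicOrders
  · exact Or.inl hb
  · exact Or.inr (h.spectrum.2.2.2.2 _ hb (cnt_ne_zero rfl))

end CountHyp

end CfsgLib.M24Count
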