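import Cfsg.Agent.M24Count.CountsBasic

/-!
Elements of order three in a group with the counts of `M₂₄`: their centralisers have even order at
least 344, and the normaliser of `⟨x⟩` has order `126 n`, `n ≡ 1 (mod 7)`, if `x` commutes with
an element of order seven, and `60 m`, `m ≡ 1 (mod 5)`, if with one of order five.
-/

set_option autoImplicit false
set_option linter.style.haveILetI false

namespace CfsgLib.M24Count

open Subgroup

open CfsgLib.M12Count (centralizer_le_normalizer_zpowers mem_centralizer_of_commute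
  commute_of_mem_centralizer exists_sylow_eq)
open CfsgLib.M23Count (orderOf_conjugate card_orderOf_centralizer commute_iff_of_zpowers_eq
  card_normalizer_zpowers card_normalizer_zpowers_dvd card_mulAut_zpowers card_normalizer_inf)

universe u

section general

variable {G : Type u} [Group G] [Finite G]

theorem three_mem_normalizer_of_conj {z n : G} (hn : n * z * n⁻¹ ∈ zpowers z) :
    n ∈ normalizer (zpowers z : Set G) := by
  have e : (zpowers z).map (MulAut.conj n).toMonoidHom = zpowers z := by
    refine eq_of_le_of_card_ge ?_ ?_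
    · rw [MonoidHom.map_zpowers, zpowers_le]
      exact hn
    · rw [MonoidHom.map_zpowers, Nat.card_zpowers, Nat.card_zpowers]
      exact (orderOf_conjugate n z).ge
  rw [mem_normalizer_iff]
  intro y
  conv_rhs => rw [← e]
  simp only [mem_map, MulEquiv.coe_toMonoidHom, MulAut.conj_apply, mul_left_inj, mul_right_inj]
  exact ⟨fun hy => ⟨y, hy, rfl⟩, fun ⟨_, hw, hwy⟩ => hwy ▸ hw⟩

/-- Sylow's congruence inside a subgroup, for a prime dividing the order once. -/
theorem card_eq_norm_mul {p m : ℕ} [Fact p.Prime] (hG : Nat.card G = p * m) (hm : ¬ p ∣ m)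
    {H : Subgroup G} {g : G} (hgH : g ∈ H) (hg : orderOf g = p) :
    ∃ n, Nat.card H = Nat.card ↥(normalizer (zpowers g : Set G) ⊓ H) * n ∧ n % p = 1 := by
  obtain ⟨k, hk⟩ : p ∣ Nat.card H := hg ▸ Subgroup.orderOf_dvd_natCard _ hgH
  have hkp : ¬ p ∣ k := fun hd => hm (by
    have h2 : p * k ∣ p * m := hk ▸ hG ▸ card_subgroup_dvd_card H
    exact hd.trans (Nat.dvd_of_mul_dvd_mul_left (Fact.out : p.Prime).pos h2))
  obtain ⟨P, hP⟩ := exists_sylow_eq (G := H) hk hkp (g := ⟨g, hgH⟩)
    (by rw [Subgroup.orderOf_mk]; exact hg)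
  refine ⟨Nat.card (Sylow p H), ?_, CfsgLib.SylowToolkit.card_sylow_mod⟩
  rw [← card_normalizer_inf hgH, hP, CfsgLib.SylowToolkit.card_normalizer_mul P]

/-- An element of order three normalising a cyclic group of order five centralises it. -/
theorem commute_of_three_normalizes {g y : G} (hg : orderOf g = 5) (hy : orderOf y = 3)
    (hn : y ∈ normalizer (zpowers g : Set G)) : Commute g y := by
  set φ := (zpowers g).normalizerMonoidHom
  have h1 : orderOf (φ ⟨y, hn⟩) ∣ 3 :=
    (orderOf_map_dvd φ ⟨y, hn⟩).trans (by rw [Subgroup.orderOf_mk, hy])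
  have h2 : orderOf (φ ⟨y, hn⟩) ∣ 4 :=
    (_root_.orderOf_dvd_natCard _).trans (by
      rw [card_mulAut_zpowers, hg, show Nat.totient 5 = 4 by decide])
  have h3 : φ ⟨y, hn⟩ = 1 := orderOf_eq_one_iff.1 (Nat.dvd_one.1 (by
    simpa using Nat.dvd_gcd h1 h2))
  have hk : (⟨y, hn⟩ : normalizer (zpowers g : Set G)) ∈ φ.ker := MonoidHom.mem_ker.2 h3
  rw [normalizerMonoidHom_ker, mem_subgroupOf] at hk
  exact mem_centralizer_iff.1 hk g (mem_zpowers g)

/-- The elements of order three whose group is conjugate to `⟨z⟩`. -/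
def threeClass (z : G) : Set G :=
  {w | orderOf w = 3 ∧ ∃ a : G, zpowers (a * z * a⁻¹) = zpowers w}

theorem card_threeClass_mul {z : G} (hz : orderOf z = 3) :
    Nat.card (threeClass z) * Nat.card (normalizer (zpowers z : Set G)) = 2 * Nat.card G := by
  set N := normalizer (zpowers z : Set G) with hN
  have hord : ∀ (a : G) (i : Fin 2), orderOf (a * z ^ ((i : ℕ) + 1) * a⁻¹) = 3 := by
    intro a i
    rw [orderOf_conjugate, Nat.Coprime.orderOf_pow, hz]
    rw [hz]
    fin_cases i <;> decide
  have hpw : ∀ (a : G) (i : Fin 2),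
      zpowers (a * z * a⁻¹) = zpowers (a * z ^ ((i : ℕ) + 1) * a⁻¹) := by
    intro a i
    refine (eq_of_le_of_card_ge (zpowers_le.2 ?_) ?_).symm
    · rw [← conj_pow]
      exact pow_mem (mem_zpowers _) _
    · rw [Nat.card_zpowers, Nat.card_zpowers, hord, orderOf_conjugate, hz]
  let F : (G ⧸ N) × Fin 2 → threeClass z := fun p =>
    ⟨p.1.out * z ^ ((p.2 : ℕ) + 1) * p.1.out⁻¹, hord _ _, p.1.out, hpw _ _⟩
  have hF : Function.Bijective F := by
    constructor
    · rintro ⟨q, i⟩ ⟨r, j⟩ e
      have e' : q.out * z ^ ((i : ℕ) + 1) * q.out⁻¹ = r.out * z ^ ((j : ℕ) + 1) * r.out⁻¹ :=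
        congrArg Subtype.val e
      obtain rfl : q = r := by
        rw [← q.out_eq', ← r.out_eq', QuotientGroup.eq]
        have hz' : zpowers (q.out * z * q.out⁻¹) = zpowers (r.out * z * r.out⁻¹) := by
          rw [hpw q.out i, hpw r.out j, e']
        obtain ⟨k, hk⟩ := mem_zpowers_iff.1
          (hz' ▸ mem_zpowers (r.out * z * r.out⁻¹) : r.out * z * r.out⁻¹ ∈
            zpowers (q.out * z * q.out⁻¹))
        rw [conj_zpow] at hk
        refine three_mem_normalizer_of_conj (mem_zpowers_iff.2 ⟨k, ?_⟩)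
        calc z ^ k = q.out⁻¹ * (q.out * z ^ k * q.out⁻¹) * q.out := by group
          _ = q.out⁻¹ * (r.out * z * r.out⁻¹) * q.out := by rw [hk]
          _ = q.out⁻¹ * r.out * z * (q.out⁻¹ * r.out)⁻¹ := by group
      have e2 : z ^ ((i : ℕ) + 1) = z ^ ((j : ℕ) + 1) := mul_left_cancel (mul_right_cancel e')
      have hi := i.2
      have hj := j.2
      have e3 : (i : ℕ) + 1 = (j : ℕ) + 1 := pow_injOn_Iio_orderOf (x := z)
        (Set.mem_Iio.2 (by omega)) (Set.mem_Iio.2 (by omega)) e2
      exact Prod.ext rfl (Fin.ext (show (i : ℕ) = (j : ℕ) by omega))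
    · rintro ⟨w, hw, a, ha⟩
      obtain ⟨n, hn, hout⟩ : ∃ n ∈ N, a = ((a : G ⧸ N).out) * n :=
        ⟨(a : G ⧸ N).out⁻¹ * a, QuotientGroup.eq.1 (a : G ⧸ N).out_eq', by group⟩
      have hnz : n * z * n⁻¹ ∈ zpowers z :=
        ((mem_normalizer_iff.1 hn) z).1 (mem_zpowers z)
      have hw' : w ∈ zpowers ((a : G ⧸ N).out * z * ((a : G ⧸ N).out)⁻¹) := by
        have h1 : w ∈ zpowers (a * z * a⁻¹) := ha ▸ mem_zpowers w
        refine (zpowers_le.2 ?_) h1
        obtain ⟨k, hk⟩ := mem_zpowers_iff.1 hnz
        refine mem_zpowers_iff.2 ⟨k, ?_⟩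
        rw [conj_zpow, hk]
        conv_rhs => rw [hout]
        group
      classical
      obtain ⟨l, hl, hlw⟩ := Finset.mem_image.1
        ((IsOfFinOrder.mem_zpowers_iff_mem_range_orderOf (isOfFinOrder_of_finite _)).1 hw')
      rw [orderOf_conjugate, hz, Finset.mem_range] at hl
      have hl0 : l ≠ 0 := by
        rintro rfl
        rw [pow_zero] at hlw
        rw [← hlw, orderOf_one] at hw
        omega
      refine ⟨((a : G ⧸ N), ⟨l - 1, by omega⟩), Subtype.ext ?_⟩
      show _ * z ^ (l - 1 + 1) * _ = w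
      rw [← hlw, Nat.sub_add_cancel (Nat.one_le_iff_ne_zero.2 hl0), conj_pow]
  rw [← Nat.card_eq_of_bijective F hF, Nat.card_prod, Nat.card_eq_fintype_card (α := Fin 2),
    Fintype.card_fin, mul_comm _ 2, mul_assoc, ← N.card_mul_index, Subgroup.index]
  ring

end general

namespace CountHyp

variable {G : Type u} [Group G] [Finite G] (h : CountHyp G)
include h

/-- Bounds for the centraliser of an element of order three. -/
theorem cent_three_dvd {z : G} (hz : orderOf z = 3) :
    Nat.card (centralizer ({z} : Set G)) ∣ 967680 ∧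
      344 ≤ Nat.card (centralizer ({z} : Set G)) := by
  set C := centralizer ({z} : Set G) with hC
  have hmem : ∀ g : C, z ∈ normalizer (zpowers (g : G) : Set G) := fun g =>
    centralizer_le_normalizer_zpowers _
      (mem_centralizer_of_commute (commute_of_mem_centralizer g.2).symm)
  have h11 : ¬ 11 ∣ Nat.card C := by
    intro hd
    haveI : Fact (Nat.Prime 11) := ⟨by norm_num⟩
    obtain ⟨g, hg⟩ := exists_prime_orderOf_dvd_card' (G := C) 11 hd
    have := Subgroup.orderOf_dvd_natCard _ (hmem g)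
    rw [hz, h.norm_eleven (by rw [Subgroup.orderOf_coe]; exact hg)] at this
    norm_num at this
  have h23 : ¬ 23 ∣ Nat.card C := by
    intro hd
    haveI : Fact (Nat.Prime 23) := ⟨by norm_num⟩
    obtain ⟨g, hg⟩ := exists_prime_orderOf_dvd_card' (G := C) 23 hd
    have := Subgroup.orderOf_dvd_natCard _ (hmem g)
    rw [hz, h.norm_twentythree (by rw [Subgroup.orderOf_coe]; exact hg)] at this
    norm_num at this
  have hCd : Nat.card C ∣ 11 * 23 * 967680 := by
    simpa [h.card] using card_subgroup_dvd_card C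
  refine ⟨Nat.Coprime.dvd_of_dvd_mul_left (Nat.Coprime.mul_right ?_ ?_) hCd, ?_⟩
  · exact ((Nat.Prime.coprime_iff_not_dvd (by norm_num)).2 h11).symm
  · exact ((Nat.Prime.coprime_iff_not_dvd (by norm_num)).2 h23).symm
  · have hle := CfsgLib.M23Count.index_centralizer_le hz
    change C.index ≤ cnt G 3 at hle
    rw [h.cnt_three] at hle
    have hidx := card_mul_index C
    rw [h.card] at hidx
    by_contra hlt
    have := Nat.mul_le_mul (show Nat.card C ≤ 343 by omega) hle
    omega

theorem norm_three_dvd {z : G} (hz : orderOf z = 3) :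
    Nat.card (normalizer (zpowers z : Set G)) ∣ 967680 := by
  have h1 := card_normalizer_zpowers_dvd z
  rw [hz, show Nat.totient 3 = 2 by decide] at h1
  have h2 := h1.trans (Nat.mul_dvd_mul_right (h.cent_three_dvd hz).1 2)
  have h3 := card_subgroup_dvd_card (normalizer (zpowers z : Set G))
  rw [h.card] at h3
  exact (Nat.dvd_gcd h2 h3).trans (by norm_num)

/-- For `y` of order three commuting with an element of order five. -/
theorem norm_three_five {g y : G} (hg : orderOf g = 5) (hy : orderOf y = 3) (hgy : Commute g y) :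
    ∃ m, Nat.card (normalizer (zpowers y : Set G)) = 60 * m ∧ m % 5 = 1 := by
  haveI : Fact (Nat.Prime 5) := ⟨by norm_num⟩
  haveI : Fact (Nat.Prime 3) := ⟨Nat.prime_three⟩
  set Ng := normalizer (zpowers g : Set G) with hNg
  set H := normalizer (zpowers y : Set G) with hH
  have hyN : y ∈ Ng := centralizer_le_normalizer_zpowers g (mem_centralizer_of_commute hgy)
  have hgH : g ∈ H := centralizer_le_normalizer_zpowers y (mem_centralizer_of_commute hgy.symm)
  have h240 : Nat.card Ng = 3 * 80 := by rw [hNg, h.norm_five hg]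
  have hcnt : Nat.card {w : Ng // orderOf w = 3} = 8 := by
    rw [← h.three_commute_five hg]
    exact Nat.card_congr
      { toFun := fun w => ⟨(w.1 : G), by rw [Subgroup.orderOf_coe]; exact w.2,
          commute_of_three_normalizes hg (by rw [Subgroup.orderOf_coe]; exact w.2) w.1.2⟩
        invFun := fun w => ⟨⟨w.1, centralizer_le_normalizer_zpowers g
            (mem_centralizer_of_commute w.2.2)⟩, by rw [Subgroup.orderOf_mk]; exact w.2.1⟩
        left_inv := fun w => rfl
        right_inv := fun w => rfl }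
  obtain ⟨P, hP⟩ := exists_sylow_eq (G := Ng) h240 (by norm_num) (g := ⟨y, hyN⟩)
    (by rw [Subgroup.orderOf_mk]; exact hy)
  have hN := CfsgLib.SylowToolkit.card_normalizer_mul P
  rw [← hP, card_normalizer_inf hyN, h240] at hN
  have hS := CfsgLib.SylowToolkit.card_orderOf_eq_prime (G := Ng) h240 (by norm_num)
  rw [hcnt] at hS
  have hk : Nat.card ↥(Ng ⊓ H) = 60 := by
    rw [inf_comm]
    change Nat.card ↥(H ⊓ Ng) * _ = _ at hN
    rw [show Nat.card (Sylow 3 Ng) = 4 by omega] at hN
    omega
  obtain ⟨m, hm, hm1⟩ := card_eq_norm_mul (p := 5) (m := 48964608)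
    (by rw [h.card]) (by norm_num) hgH hg
  exact ⟨m, hk ▸ hm, hm1⟩

/-- For `x` of order three commuting with an element of order seven. -/
theorem norm_three_seven {f x : G} (hf : orderOf f = 7) (hx : orderOf x = 3) (hfx : Commute f x) :
    ∃ n, Nat.card (normalizer (zpowers x : Set G)) = 126 * n ∧ n % 7 = 1 ∧
      Nat.card (centralizer ({x} : Set G)) = 63 * n := by
  haveI : Fact (Nat.Prime 7) := ⟨by norm_num⟩
  set Nf := normalizer (zpowers f : Set G) with hNf
  set H := normalizer (zpowers x : Set G) with hH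
  have hpair : ∀ w : G, orderOf w = 3 → Commute f w → w ∈ zpowers x := by
    classical
    intro w hw hfw
    haveI := Fintype.ofFinite {y : G // orderOf y = 3 ∧ Commute f y}
    have hx2 : orderOf (x ^ 2) = 3 := by
      rw [Nat.Coprime.orderOf_pow (by rw [hx]; norm_num), hx]
    let F : Fin 2 → {y : G // orderOf y = 3 ∧ Commute f y} :=
      ![⟨x, hx, hfx⟩, ⟨x ^ 2, hx2, hfx.pow_right 2⟩]
    have hne : x ≠ x ^ 2 := fun e => by
      have := pow_injOn_Iio_orderOf (x := x) (Set.mem_Iio.2 (by omega : 1 < orderOf x))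
        (Set.mem_Iio.2 (by omega : 2 < orderOf x)) (by simpa using e)
      omega
    have hinj : Function.Injective F := by
      intro i j e
      fin_cases i <;> fin_cases j <;> simp [F, Subtype.ext_iff, hne, hne.symm] at e ⊢
    obtain ⟨i, hi⟩ := ((Fintype.bijective_iff_injective_and_card F).2 ⟨hinj, by
      rw [Fintype.card_fin, ← Nat.card_eq_fintype_card, h.three_commute_seven hf]⟩).2 ⟨w, hw, hfw⟩
    have hi' : ((F i : {y : G // orderOf y = 3 ∧ Commute f y}) : G) = w := congrArg Subtype.val hi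
    rw [← hi']
    fin_cases i
    · exact mem_zpowers x
    · exact pow_mem (mem_zpowers x) 2
  have hle : Nf ≤ H := by
    intro n hn
    refine three_mem_normalizer_of_conj (hpair _ ((orderOf_conjugate n x).trans hx) ?_)
    obtain ⟨k, hk⟩ := mem_zpowers_iff.1 ((mem_normalizer_iff''.1 hn f).1 (mem_zpowers f))
    have h1 : Commute (n⁻¹ * f * n) x := hk ▸ hfx.zpow_left k
    simpa [mul_assoc] using (Commute.conj_iff n).2 h1
  obtain ⟨n, hn, hn7⟩ := card_eq_norm_mul (p := 7) (m := 34974720)
    (by rw [h.card]) (by norm_num) (hle (centralizer_le_normalizer_zpowers f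
      (mem_centralizer_of_commute (Commute.refl f)))) hf
  rw [inf_eq_left.2 hle, h.norm_seven hf] at hn
  refine ⟨n, hn, hn7, ?_⟩
  have hcr := card_normalizer_zpowers x
  have hr : Nat.card (zpowers x).normalizerMonoidHom.range ∣ 2 := by
    have := card_subgroup_dvd_card (zpowers x).normalizerMonoidHom.range
    rwa [card_mulAut_zpowers, hx, show Nat.totient 3 = 2 by decide] at this
  rcases (Nat.dvd_prime Nat.prime_two).1 hr with hr1 | hr2
  · exfalso
    obtain ⟨t, ht, hft⟩ := exists_of_card_commute_ne_zero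
      (f := f) (d := 2) (by rw [h.two_commute_seven hf]; norm_num)
    have hC : centralizer ({x} : Set G) = H :=
      eq_of_le_of_card_ge (centralizer_le_normalizer_zpowers x) (by
        rw [hcr, hr1, mul_one])
    have htx : Commute x t := commute_of_mem_centralizer
      (hC.symm ▸ hle (centralizer_le_normalizer_zpowers f (mem_centralizer_of_commute hft)))
    refine h.no_six_seven hf (hfx.mul_right hft) ?_
    rw [htx.orderOf_mul_eq_mul_orderOf_of_coprime (by rw [hx, ht]; norm_num), hx, ht]
  · rw [hr2, ← hH, hn] at hcr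
    omega

/-- Every element of order three commutes with an involution. -/
theorem exists_invol_three {z : G} (hz : orderOf z = 3) :
    ∃ t : G, orderOf t = 2 ∧ Commute z t := by
  haveI : Fact (Nat.Prime 2) := ⟨Nat.prime_two⟩
  obtain ⟨hd, hge⟩ := h.cent_three_dvd hz
  have key : ∀ n ∈ (945 : ℕ).divisors, 344 ≤ n → n = 945 := by decide +kernel
  by_cases h2 : 2 ∣ Nat.card (centralizer ({z} : Set G))
  · obtain ⟨t, ht⟩ := exists_prime_orderOf_dvd_card' (G := centralizer ({z} : Set G)) 2 h2
    exact ⟨t, by rw [Subgroup.orderOf_coe]; exact ht, commute_of_mem_centralizer t.2⟩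
  exfalso
  have h945 : Nat.card (centralizer ({z} : Set G)) = 945 := by
    refine key _ (Nat.mem_divisors.2 ⟨?_, by norm_num⟩) hge
    refine Nat.Coprime.dvd_of_dvd_mul_left (m := 2 ^ 10) ?_ (by simpa using hd)
    exact ((Nat.Prime.coprime_iff_not_dvd Nat.prime_two).2 h2).symm.pow_right 10
  haveI : Fact (Nat.Prime 5) := ⟨by norm_num⟩
  obtain ⟨g, hg⟩ := exists_prime_orderOf_dvd_card' (G := centralizer ({z} : Set G)) 5
    (by rw [h945]; norm_num)
  obtain ⟨m, hm, -⟩ := h.norm_three_five (g := (g : G)) (by rw [Subgroup.orderOf_coe]; exact hg)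
    hz (commute_of_mem_centralizer g.2).symm
  have hN := card_normalizer_zpowers_dvd z
  rw [hz, h945, hm, show Nat.totient 3 = 2 by decide] at hN
  have : 4 ∣ 1890 := (Dvd.intro (15 * m) (by ring)).trans hN
  norm_num at this

/-- The four possible normalisers of an element of order three commuting with one of order
seven. -/
theorem norm_three_seven_cases {f x : G} (hf : orderOf f = 7) (hx : orderOf x = 3)
    (hfx : Commute f x) :
    ∃ n, (n = 8 ∨ n = 64 ∨ n = 512 ∨ n = 960) ∧
      Nat.card (normalizer (zpowers x : Set G)) = 126 * n ∧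
      Nat.card (centralizer ({x} : Set G)) = 63 * n := by
  obtain ⟨n, hN, hn7, hC⟩ := h.norm_three_seven hf hx hfx
  obtain ⟨-, hge⟩ := h.cent_three_dvd hx
  rw [hC] at hge
  have hd : n ∣ 7680 := by
    have := h.norm_three_dvd hx
    rw [hN] at this
    exact Nat.dvd_of_mul_dvd_mul_left (by norm_num : 0 < 126) (by simpa using this)
  have key : ∀ n ∈ (7680 : ℕ).divisors, n % 7 = 1 → 344 ≤ 63 * n →
      n = 8 ∨ n = 64 ∨ n = 512 ∨ n = 960 ∨ n = 15 ∨ n = 120 ∨ n = 7680 := by decide +kernel
  have hfive : 5 ∣ n → ∃ m, 126 * n = 60 * m ∧ m % 5 = 1 := by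
    intro h5
    haveI : Fact (Nat.Prime 5) := ⟨by norm_num⟩
    obtain ⟨g, hg⟩ := exists_prime_orderOf_dvd_card' (G := centralizer ({x} : Set G)) 5
      (by rw [hC]; exact dvd_mul_of_dvd_right h5 63)
    obtain ⟨m, hm, hm5⟩ := h.norm_three_five (g := (g : G))
      (by rw [Subgroup.orderOf_coe]; exact hg) hx (commute_of_mem_centralizer g.2).symm
    exact ⟨m, hN.symm.trans hm, hm5⟩
  refine ⟨n, ?_, hN, hC⟩
  rcases key n (Nat.mem_divisors.2 ⟨hd, by norm_num⟩) hn7 hge with e | e | e | e | e | e | e
  iterate 4 (first | exact Or.inl e | exact Or.inr (Or.inl e) | exact Or.inr (Or.inr (Or.inl e)) |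
    exact Or.inr (Or.inr (Or.inr e)))
  all_goals obtain ⟨m, hm, hm5⟩ := hfive (by omega)
  all_goals omega

end CountHyp

end CfsgLib.M24Count
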