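import Cfsg.Agent.M24Count.Counts
import Cfsg.Agent.M24Count.Spectrum
import Cfsg.Agent.M24Count.ThreeBase

/-!
Nine divides no centraliser of an involution, once an element of order three commuting with one of
order seven has centraliser of order 504.

Let `x` be such an element, `f` its partner. A subgroup of order nine through `x` centralises no
involution: the two-elements of its centraliser are then 1 or 4 in number, and four of them make the
Sylow 3-subgroups of `C(x)` lie in the normalisers of all subgroups of order seven. Hence an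
involution commuting with `x` has centraliser of 3-part 3 and `126 · 253` conjugates; an involution
commuting with `f` commutes with some `u` of order three with `27 ∣ |C(u)|`, so it is not of that
class, and the two classes fill all 43263 involutions.
-/

set_option autoImplicit false
set_option linter.style.haveILetI false

namespace CfsgLib.M24Count

open Subgroup
open scoped Pointwise

open CfsgLib.M12Count (centralizer_le_normalizer_zpowers mem_centralizer_of_commute
  commute_of_mem_centralizer exists_sylow_eq)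
open CfsgLib.M23Count (orderOf_conjugate card_normalizer_inf)

universe u

section general

variable {G : Type u} [Group G] [Finite G]

/-- A `p`-group acting by conjugation fixes as many elements of an invariant set modulo `p`. -/
theorem card_fixed_mod {p : ℕ} [Fact p.Prime] {P : Subgroup G} (hP : IsPGroup p P) (S : Set G)
    (hS : ∀ a ∈ P, ∀ s ∈ S, a * s * a⁻¹ ∈ S) :
    Nat.card S % p = Nat.card {s : G // s ∈ S ∧ ∀ a ∈ P, Commute a s} % p := by
  let ψ : P →* Equiv.Perm S :=
    { toFun := fun a => (MulAut.conj (a : G)).toEquiv.subtypeEquiv fun g =>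
        ⟨fun hg => hS _ a.2 g hg, fun hg => by
          have h1 := hS _ (inv_mem a.2) _ hg
          simpa [mul_assoc] using h1⟩
      map_one' := Equiv.ext fun g => Subtype.ext (by simp)
      map_mul' := fun a b => Equiv.ext fun g => Subtype.ext (by simp [mul_assoc]) }
  letI : MulAction P S := MulAction.compHom _ ψ
  refine (hP.card_modEq_card_fixedPoints S).trans (congrArg (· % p) (Nat.card_congr ?_))
  exact
    { toFun := fun g => ⟨g.1.1, g.1.2, fun a ha =>
        mul_inv_eq_iff_eq_mul.1 (congrArg Subtype.val (g.2 ⟨a, ha⟩))⟩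
      invFun := fun g => ⟨⟨g.1, g.2.1⟩, fun a =>
        Subtype.ext (mul_inv_eq_iff_eq_mul.2 (g.2.2 a a.2))⟩
      left_inv := fun g => rfl
      right_inv := fun g => rfl }

/-- Two commuting elements generate an abelian subgroup. -/
theorem commute_of_mem_sup {a b : G} (hab : Commute a b) :
    ∀ p ∈ zpowers a ⊔ zpowers b, ∀ q ∈ zpowers a ⊔ zpowers b, Commute p q := by
  intro p hp q hq
  have h1 : ∀ c : G, (Commute a c ∧ Commute b c) →
      zpowers a ⊔ zpowers b ≤ centralizer ({c} : Set G) := fun c hc =>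
    sup_le (zpowers_le.2 (mem_centralizer_of_commute hc.1.symm))
      (zpowers_le.2 (mem_centralizer_of_commute hc.2.symm))
  have ha := commute_of_mem_centralizer (h1 a ⟨Commute.refl a, hab.symm⟩ hq)
  have hb := commute_of_mem_centralizer (h1 b ⟨hab, Commute.refl b⟩ hq)
  exact (commute_of_mem_centralizer (h1 q ⟨ha, hb⟩ hp)).symm

/-- Conjugate elements have centralisers of equal order. -/
theorem card_centralizer_conjugate (a g : G) :
    Nat.card (centralizer ({a * g * a⁻¹} : Set G)) = Nat.card (centralizer ({g} : Set G)) := by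
  refine (Nat.card_congr ((MulAut.conj a).toEquiv.subtypeEquiv fun y => ?_)).symm
  rw [mem_centralizer_singleton_iff, mem_centralizer_singleton_iff]
  show y * g = g * y ↔ a * y * a⁻¹ * (a * g * a⁻¹) = a * g * a⁻¹ * (a * y * a⁻¹)
  rw [show a * y * a⁻¹ * (a * g * a⁻¹) = a * (y * g) * a⁻¹ by group,
    show a * g * a⁻¹ * (a * y * a⁻¹) = a * (g * y) * a⁻¹ by group, mul_left_inj, mul_right_inj]

theorem card_centralizer_sq {g : G} (hg : orderOf g = 3) :
    Nat.card (centralizer ({g ^ 2} : Set G)) = Nat.card (centralizer ({g} : Set G)) := by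
  have h1 : centralizer ({g ^ 2} : Set G) = centralizer ({g} : Set G) := by
    ext y
    rw [mem_centralizer_singleton_iff, mem_centralizer_singleton_iff]
    constructor
    · intro e
      have h4 : g = (g ^ 2) ^ 2 := by
        rw [← pow_mul, pow_succ g 3, ← hg, pow_orderOf_eq_one, one_mul]
      rw [h4]
      exact (show Commute y (g ^ 2) from e).pow_right 2
    · exact fun e => (show Commute y g from e).pow_right 2
  rw [h1]

end general

namespace CountHyp

variable {G : Type u} [Group G] [Finite G] (h : CountHyp G)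
include h

/-- A subgroup of order nine is normalised by no element of order seven. -/
theorem nine_not_normalized {E : Subgroup G} (hE : Nat.card E = 9) {f : G} (hf : orderOf f = 7) :
    f ∉ normalizer (E : Set G) := by
  intro hn
  haveI : Fact (Nat.Prime 7) := ⟨by norm_num⟩
  have hP : IsPGroup 7 (zpowers f) :=
    IsPGroup.of_card (n := 1) (by rw [Nat.card_zpowers, hf, pow_one])
  have hm := card_fixed_mod hP (E : Set G) fun a ha s hs =>
    ((mem_normalizer_iff.1 (zpowers_le.2 hn ha)) s).1 hs
  have hfix : Nat.card {s : G // s ∈ (E : Set G) ∧ ∀ a ∈ zpowers f, Commute a s} =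
      Nat.card ↥(E ⊓ centralizer ({f} : Set G)) := by
    refine Nat.card_congr (Equiv.subtypeEquivRight fun s => ?_)
    rw [mem_inf]
    refine and_congr_right fun _ => ⟨fun hc => mem_centralizer_of_commute (hc f (mem_zpowers f)),
      fun hc a ha => ?_⟩
    obtain ⟨k, rfl⟩ := mem_zpowers_iff.1 ha
    exact (commute_of_mem_centralizer hc).zpow_left k
  rw [hfix, show Nat.card (E : Set G) = 9 from hE] at hm
  have hd : Nat.card ↥(E ⊓ centralizer ({f} : Set G)) ∣ 9 :=
    hE ▸ card_dvd_of_le inf_le_left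
  have h9 : Nat.card ↥(E ⊓ centralizer ({f} : Set G)) = 9 := by
    have := Nat.le_of_dvd (by norm_num) hd
    interval_cases hc : Nat.card ↥(E ⊓ centralizer ({f} : Set G)) <;> omega
  have := card_dvd_of_le (inf_le_right : E ⊓ centralizer ({f} : Set G) ≤ _)
  rw [h9, h.cent_seven hf] at this
  norm_num at this

/-- An element of order seven normalising `⟨f⟩` lies in it. -/
theorem seven_mem_zpowers {f w : G} (hf : orderOf f = 7) (hw : orderOf w = 7)
    (hwN : w ∈ normalizer (zpowers f : Set G)) : w ∈ zpowers f := by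
  haveI : Fact (Nat.Prime 7) := ⟨by norm_num⟩
  set N := normalizer (zpowers f : Set G) with hN
  have hfN : f ∈ N := le_normalizer (mem_zpowers f)
  have hc : Nat.card N = 7 * 18 := by rw [hN, h.norm_seven hf]
  obtain ⟨P, hP⟩ := exists_sylow_eq (G := N) hc (by norm_num) (g := ⟨f, hfN⟩)
    (by rw [Subgroup.orderOf_mk]; exact hf)
  obtain ⟨Q, hQ⟩ := exists_sylow_eq (G := N) hc (by norm_num) (g := ⟨w, hwN⟩)
    (by rw [Subgroup.orderOf_mk]; exact hw)
  have h1 : Nat.card (Sylow 7 N) = 1 := by
    have hd := CfsgLib.SylowToolkit.card_sylow_dvd (G := N) (p := 7) (k := 1) (m := 18)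
      (by rw [pow_one]; exact hc) (by norm_num)
    have hmod := CfsgLib.SylowToolkit.card_sylow_mod (G := N) (p := 7)
    have := Nat.le_of_dvd (by norm_num) hd
    interval_cases hS : Nat.card (Sylow 7 N) <;> omega
  haveI : Subsingleton (Sylow 7 N) := (Nat.card_eq_one_iff_unique.mp h1).1
  have hmem : (⟨w, hwN⟩ : N) ∈ zpowers (⟨f, hfN⟩ : N) := by
    rw [hP, Subsingleton.elim P Q, ← hQ]
    exact mem_zpowers _
  obtain ⟨k, hk⟩ := mem_zpowers_iff.1 hmem
  exact mem_zpowers_iff.2 ⟨k, congrArg Subtype.val hk⟩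

/-- The elements with eighth power one are 1 modulo 3 in number. -/
theorem card_pow_eight : Nat.card {g : G // g ^ 8 = 1} % 3 = 1 := by
  classical
  haveI := Fintype.ofFinite G
  have e : Nat.card {g : G // g ^ 8 = 1} = ∑ d ∈ (8 : ℕ).divisors, cnt G d := by
    rw [Nat.card_eq_fintype_card, Fintype.card_subtype,
      Finset.card_eq_sum_card_fiberwise (f := orderOf) (t := (8 : ℕ).divisors) (fun g hg => by
        rw [Finset.mem_coe, Finset.mem_filter] at hg
        exact Nat.mem_divisors.mpr ⟨orderOf_dvd_of_pow_eq_one hg.2, by norm_num⟩)]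
    refine Finset.sum_congr rfl fun d hd => ?_
    rw [cnt, Nat.card_eq_fintype_card, Fintype.card_subtype, Finset.filter_filter]
    congr 1
    ext g
    simp only [Finset.mem_filter, Finset.mem_univ, true_and]
    exact ⟨fun hh => hh.2,
      fun hh => ⟨orderOf_dvd_iff_pow_eq_one.mp (hh ▸ Nat.dvd_of_mem_divisors hd), hh⟩⟩
  have h1 : cnt G 1 = 1 := CfsgLib.OrderCounts.cnt_one
  rw [e, show (8 : ℕ).divisors = {1, 2, 4, 8} by decide]
  simp [h1, h.cnt_two, h.cnt_four, h.cnt_eight]

/-- A non-identity element with cube one has order three. -/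
theorem orderOf_three_of_dvd {g : G} (hd : orderOf g ∣ 27) (hg : g ≠ 1) : orderOf g = 3 := by
  have h1 : orderOf g ≠ 1 := fun e => hg (orderOf_eq_one_iff.1 e)
  have hle := Nat.le_of_dvd (by norm_num) hd
  have hb : basicOrders = {1, 2, 3, 5, 7, 11, 23} := rfl
  rcases h.order_cases g with hm | e | e | e | e | e | e | e | e
  · rw [hb] at hm
    simp only [Finset.mem_insert, Finset.mem_singleton] at hm
    rcases hm with e | e | e | e | e | e | e <;> rw [e] at hd <;> first | omega | norm_num at hd
  all_goals rw [e] at hd; norm_num at hd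

variable (ha : ∀ f x : G, orderOf f = 7 → orderOf x = 3 → Commute f x →
  Nat.card (centralizer ({x} : Set G)) = 504)
include ha

/-- A subgroup of order nine through `x` centralises no involution. -/
theorem no_invol_nine {f x : G} (hf : orderOf f = 7) (hx : orderOf x = 3) (hfx : Commute f x)
    {E : Subgroup G} (hE : Nat.card E = 9) (hxE : x ∈ E)
    (hcomm : ∀ a ∈ E, ∀ b ∈ E, Commute a b) {t : G} (ht : orderOf t = 2)
    (htE : ∀ a ∈ E, Commute a t) : False := by
  haveI : Fact (Nat.Prime 2) := ⟨Nat.prime_two⟩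
  haveI : Fact (Nat.Prime 3) := ⟨Nat.prime_three⟩
  haveI : Fact (Nat.Prime 7) := ⟨by norm_num⟩
  set C := centralizer ({x} : Set G) with hCdef
  have hC : Nat.card C = 504 := ha f x hf hx hfx
  set D := centralizer (E : Set G) with hDdef
  have hDC : D ≤ C := centralizer_le (Set.singleton_subset_iff.2 hxE)
  have hED : E ≤ D := fun a hea => mem_centralizer_iff.2 fun b hb => hcomm b hb a hea
  have hEC : E ≤ C := hED.trans hDC
  obtain ⟨w, hw⟩ : 9 ∣ Nat.card D := hE ▸ card_dvd_of_le hED
  have hDd : Nat.card D ∣ 504 := hC ▸ card_dvd_of_le hDC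
  have hw56 : w ∣ 56 := by
    rw [hw] at hDd
    exact Nat.dvd_of_mul_dvd_mul_left (by norm_num : 0 < 9) hDd
  have h7 : ¬ 7 ∣ Nat.card D := by
    intro hd
    obtain ⟨g, hg⟩ := exists_prime_orderOf_dvd_card' (G := D) 7 hd
    have hle : E ≤ centralizer ({(g : G)} : Set G) := fun a hea =>
      mem_centralizer_of_commute ((mem_centralizer_iff.1 g.2 a hea).symm : Commute (g : G) a)
    have := card_dvd_of_le hle
    rw [hE, h.cent_seven (by rw [Subgroup.orderOf_coe]; exact hg)] at this
    norm_num at this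
  have htD : t ∈ D := mem_centralizer_iff.2 fun a hea => htE a hea
  have h2 : 2 ∣ Nat.card D := ht ▸ Subgroup.orderOf_dvd_natCard _ htD
  have hw8 : w ∣ 8 := by
    refine Nat.Coprime.dvd_of_dvd_mul_left (m := 7) ?_ hw56
    exact ((Nat.Prime.coprime_iff_not_dvd (by norm_num)).2
      fun hd => h7 (hw ▸ dvd_mul_of_dvd_right hd 9)).symm
  -- `w` is the number of elements of `D` with eighth power one
  set E' := E.subgroupOf D with hE'
  haveI : E'.Normal := ⟨fun a hea b => by
    rw [mem_subgroupOf] at hea ⊢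
    have hc : Commute (a : G) (b : G) := mem_centralizer_iff.1 b.2 a hea
    rw [Subgroup.coe_mul, Subgroup.coe_mul, Subgroup.coe_inv, ← hc.eq, mul_assoc, mul_inv_cancel,
      mul_one]
    exact hea⟩
  have hE'c : Nat.card E' = 9 := by
    rw [hE', Nat.card_congr (subgroupOfEquivOfLe hED).toEquiv, hE]
  have hidx : E'.index = w := by
    have := E'.card_mul_index
    rw [hE'c, hw] at this
    omega
  let F : {u : D // u ^ 8 = 1} × E' → D := fun q => q.1.1 * q.2.1
  have h9 : ∀ e : E', (e : D) ^ 9 = 1 := fun e => by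
    have h1 := congrArg Subtype.val (pow_card_eq_one' (G := E') (x := e))
    rwa [hE'c, Subgroup.coe_pow] at h1
  have hu9 : ∀ u : {u : D // u ^ 8 = 1}, u.1 ^ 9 = u.1 := fun u => by
    rw [pow_succ, u.2, one_mul]
  have hcu : ∀ (u : D) (e : E'), Commute u e := fun u e =>
    Subtype.ext (mem_centralizer_iff.1 u.2 (e.1 : G) (mem_subgroupOf.1 e.2)).symm
  have hF : Function.Bijective F := by
    constructor
    · rintro ⟨u, e⟩ ⟨u', e'⟩ he
      have he' : u.1 * (e : D) = u'.1 * (e' : D) := he
      have h1 := congrArg (· ^ 9) he'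
      simp only [(hcu _ _).mul_pow, h9, mul_one, hu9] at h1
      obtain rfl : u = u' := Subtype.ext h1
      exact Prod.ext rfl (Subtype.ext (mul_left_cancel he'))
    · intro d
      have hd8 : d ^ 8 ∈ E' := by
        obtain ⟨k, hk⟩ := hw8
        rw [hk, ← hidx, pow_mul]
        exact pow_mem (E'.pow_index_mem d) k
      refine ⟨(⟨d ^ 9, ?_⟩, ⟨(d ^ 8)⁻¹, inv_mem hd8⟩), ?_⟩
      · rw [← pow_mul, show 9 * 8 = 8 * 9 from rfl, pow_mul]
        exact h9 ⟨d ^ 8, hd8⟩
      · show d ^ 9 * (d ^ 8)⁻¹ = d
        rw [pow_succ', mul_inv_cancel_right]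
  have hU : Nat.card {u : D // u ^ 8 = 1} = w := by
    have := Nat.card_eq_of_bijective F hF
    rw [Nat.card_prod, hE'c, hw] at this
    omega
  -- hence `w` is 1 modulo 3, so 4
  have hP : IsPGroup 3 E := IsPGroup.of_card (n := 2) (by rw [hE]; norm_num)
  have hmod := card_fixed_mod hP {g : G | g ^ 8 = 1} fun a _ s hs => by
    show (a * s * a⁻¹) ^ 8 = 1
    rw [conj_pow, show s ^ 8 = 1 from hs, mul_one, mul_inv_cancel]
  have hfix : Nat.card {g : G // g ∈ {g : G | g ^ 8 = 1} ∧ ∀ a ∈ E, Commute a g} = w := by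
    rw [← hU]
    exact Nat.card_congr
      { toFun := fun g => ⟨⟨g.1, mem_centralizer_iff.2 fun a hea => g.2.2 a hea⟩,
          Subtype.ext g.2.1⟩
        invFun := fun u => ⟨u.1.1, congrArg Subtype.val u.2,
          fun a hea => mem_centralizer_iff.1 u.1.2 a hea⟩
        left_inv := fun g => rfl
        right_inv := fun g => rfl }
  have h81 : Nat.card ({g : G | g ^ 8 = 1} : Set G) % 3 = 1 := h.card_pow_eight
  rw [h81, hfix] at hmod
  have hw4 : w = 4 := by
    have : 2 ∣ w := by
      rcases (Nat.Prime.dvd_mul Nat.prime_two).1 (hw ▸ h2 : 2 ∣ 9 * w) with e | e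
      · norm_num at e
      · exact e
    have := Nat.le_of_dvd (by norm_num) hw8
    interval_cases w <;> omega
  -- seven Sylow 3-subgroups of `C`
  have hC' : Nat.card C = 3 ^ 2 * 56 := by rw [hC]; norm_num
  obtain ⟨P, hP'⟩ := (IsPGroup.of_card (n := 2)
    (show Nat.card (E.subgroupOf C) = 3 ^ 2 by
      rw [Nat.card_congr (subgroupOfEquivOfLe hEC).toEquiv, hE]; norm_num)).exists_le_sylow
  have hPE : E.subgroupOf C = (P : Subgroup C) := eq_of_le_of_card_ge hP' (by
    rw [CfsgLib.SylowToolkit.card_sylow_subgroup_eq hC' (by norm_num) P,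
      Nat.card_congr (subgroupOfEquivOfLe hEC).toEquiv, hE]; norm_num)
  have hDN : D.subgroupOf C ≤ normalizer ((P : Subgroup C) : Set C) := by
    intro d hd
    rw [mem_normalizer_iff]
    intro y
    rw [← hPE, mem_subgroupOf, mem_subgroupOf, Subgroup.coe_mul, Subgroup.coe_mul,
      Subgroup.coe_inv]
    constructor
    · intro hy
      have hc : Commute (y : G) (d : G) := mem_centralizer_iff.1 (mem_subgroupOf.1 hd) _ hy
      rw [← hc.eq, mul_inv_cancel_right]
      exact hy
    · intro hy
      have hc : Commute _ (d : G) := mem_centralizer_iff.1 (mem_subgroupOf.1 hd) _ hy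
      have e : (y : G) = (d : G) * y * (d : G)⁻¹ := by
        have h1 := hc.eq
        rw [inv_mul_cancel_right] at h1
        exact mul_left_cancel h1
      rw [e]
      exact hy
  have h36 : 36 ∣ Nat.card (normalizer ((P : Subgroup C) : Set C)) := by
    have := card_dvd_of_le hDN
    rwa [Nat.card_congr (subgroupOfEquivOfLe hDC).toEquiv, hw, hw4] at this
  have hn3 : Nat.card (Sylow 3 C) = 7 := by
    have hN := CfsgLib.SylowToolkit.card_normalizer_mul P
    rw [hC] at hN
    have hmod3 := CfsgLib.SylowToolkit.card_sylow_mod (G := C) (p := 3)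
    have h14 : Nat.card (Sylow 3 C) ∣ 14 := by
      refine Nat.dvd_of_mul_dvd_mul_left (by norm_num : 0 < 36) ?_
      rw [show 36 * 14 = 504 from rfl, ← hN]
      exact Nat.mul_dvd_mul_right h36 _
    have hne : Nat.card (Sylow 3 C) ≠ 1 := by
      intro h1
      haveI := CfsgLib.SylowToolkit.sylow_normal_of_card_eq_one h1 P
      haveI : (E.subgroupOf C).Normal := hPE ▸ this
      refine h.nine_not_normalized hE hf ?_
      exact normal_subgroupOf_iff_le_normalizer hEC |>.1 inferInstance
        (mem_centralizer_of_commute hfx.symm)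
    have := Nat.le_of_dvd (by norm_num) h14
    interval_cases hS : Nat.card (Sylow 3 C) <;> omega
  -- each of them normalises every subgroup of order seven
  have hfC : f ∈ C := mem_centralizer_of_commute hfx.symm
  have hM : ∀ g : C, orderOf g = 7 →
      Nat.card (normalizer (zpowers g : Set C)) = 63 := by
    intro g hg
    obtain ⟨Q, hQ⟩ := exists_sylow_eq (G := C) (p := 7) (m := 72) (by rw [hC]) (by norm_num) hg
    have hN := CfsgLib.SylowToolkit.card_normalizer_mul Q
    have hmod7 := CfsgLib.SylowToolkit.card_sylow_mod (G := C) (p := 7)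
    rw [← hQ, hC] at hN
    have hcard : Nat.card (normalizer (zpowers g : Set C)) =
        Nat.card ↥(normalizer (zpowers (g : G) : Set G) ⊓ C) := card_normalizer_inf g.2
    have hd : Nat.card (normalizer (zpowers g : Set C)) ∣ 126 := by
      rw [hcard, ← h.norm_seven (f := (g : G)) (by rw [Subgroup.orderOf_coe]; exact hg)]
      exact card_dvd_of_le inf_le_left
    have h21 : 21 ∣ Nat.card (normalizer (zpowers g : Set C)) := by
      have h7g : 7 ∣ Nat.card (normalizer (zpowers g : Set C)) :=
        hg ▸ Subgroup.orderOf_dvd_natCard _ (le_normalizer (mem_zpowers g))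
      have hxc : (⟨x, mem_centralizer_of_commute (Commute.refl x)⟩ : C) ∈
          centralizer ({g} : Set C) := mem_centralizer_singleton_iff.2
        (Subtype.ext (commute_of_mem_centralizer g.2).eq)
      have h3g : 3 ∣ Nat.card (normalizer (zpowers g : Set C)) := by
        have := Subgroup.orderOf_dvd_natCard _ (centralizer_le_normalizer_zpowers g hxc)
        rwa [Subgroup.orderOf_mk, hx] at this
      exact Nat.Coprime.mul_dvd_of_dvd_of_dvd (by norm_num : Nat.Coprime 3 7) h3g h7g
    have key : ∀ m ∈ (126 : ℕ).divisors, 21 ∣ m → ∀ k < 25, m * k = 504 → k % 7 = 1 → m = 63 := by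
      decide +kernel
    refine key _ (Nat.mem_divisors.2 ⟨hd, by norm_num⟩) h21 (Nat.card (Sylow 7 C)) ?_ hN hmod7
    have h21le := Nat.le_of_dvd Nat.card_pos h21
    by_contra hk
    have := Nat.mul_le_mul h21le (show 25 ≤ Nat.card (Sylow 7 C) by omega)
    omega
  have hall : ∀ g : C, orderOf g = 7 → ∀ Q : Sylow 3 C,
      (Q : Subgroup C) ≤ normalizer (zpowers g : Set C) := by
    intro g hg Q
    set M := normalizer (zpowers g : Set C) with hMdef
    obtain ⟨R, hR⟩ := Sylow.exists_subgroup_card_pow_prime (G := M) 3 (n := 2)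
      (by rw [hM g hg]; norm_num)
    set R' := R.map M.subtype with hR'
    have hR'c : Nat.card R' = 3 ^ 2 := by
      rw [hR', ← Nat.card_congr (R.equivMapOfInjective _ M.subtype_injective).toEquiv, hR]
    obtain ⟨S, hS⟩ := (IsPGroup.of_card hR'c).exists_le_sylow
    have hSeq : R' = (S : Subgroup C) := eq_of_le_of_card_ge hS (by
      rw [CfsgLib.SylowToolkit.card_sylow_subgroup_eq hC' (by norm_num) S, hR'c])
    have hSM : (S : Subgroup C) ≤ M := hSeq ▸ map_subtype_le R
    have hnot : g ∉ normalizer ((S : Subgroup C) : Set C) := by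
      intro hgn
      refine h.nine_not_normalized (E := (S : Subgroup C).map C.subtype) ?_
        (f := (g : G)) (by rw [Subgroup.orderOf_coe]; exact hg) ?_
      · rw [← Nat.card_congr ((S : Subgroup C).equivMapOfInjective _ C.subtype_injective).toEquiv,
          ← hSeq, hR'c]
        norm_num
      · exact le_normalizer_map C.subtype ⟨g, hgn, rfl⟩
    -- the seven conjugates under `g`
    have hinj : Function.Injective fun a : zpowers g => (a : C) • S := by
      intro a b e
      have h1 : ((a : C)⁻¹ * b) • S = S := by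
        have e' : (a : C) • S = (b : C) • S := e
        rw [mul_smul, ← e', inv_smul_smul]
      have hmem : (a : C)⁻¹ * b ∈ normalizer ((S : Subgroup C) : Set C) :=
        Sylow.smul_eq_iff_mem_normalizer.1 h1
      by_contra hne
      refine hnot ?_
      have hab : (a : C)⁻¹ * b ∈ zpowers g := mul_mem (inv_mem a.2) b.2
      have hne1 : (a : C)⁻¹ * b ≠ 1 := fun e1 => hne (Subtype.ext (inv_mul_eq_one.1 e1))
      have heq : zpowers ((a : C)⁻¹ * b) = zpowers g := by
        refine eq_of_le_of_card_ge (zpowers_le.2 hab) ?_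
        have hd : orderOf ((a : C)⁻¹ * b) ∣ 7 := by
          have := card_dvd_of_le (zpowers_le.2 hab)
          rwa [Nat.card_zpowers, Nat.card_zpowers, hg] at this
        rw [Nat.card_zpowers, Nat.card_zpowers, hg]
        rcases (Nat.dvd_prime (by norm_num)).1 hd with e1 | e1
        · exact absurd (orderOf_eq_one_iff.1 e1) hne1
        · exact e1.ge
      refine zpowers_le.2 hmem ?_
      rw [heq]
      exact mem_zpowers g
    obtain ⟨a, rfl⟩ := ((Nat.bijective_iff_injective_and_card _).2
      ⟨hinj, by rw [Nat.card_zpowers, hg, hn3]⟩).2 Q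
    intro y hy
    rw [Sylow.coe_subgroup_smul] at hy
    obtain ⟨s, hs, rfl⟩ := (Subgroup.mem_map).1 hy
    have haM : (a : C) ∈ M := le_normalizer a.2
    show MulAut.conj (a : C) s ∈ M
    rw [MulAut.conj_apply]
    exact mul_mem (mul_mem haM (hSM hs)) (inv_mem haM)
  -- so they lie in a normal subgroup without elements of order seven
  set f' : C := ⟨f, hfC⟩ with hf'
  have hf7 : orderOf f' = 7 := by rw [hf', Subgroup.orderOf_mk]; exact hf
  set M := normalizer (zpowers f' : Set C) with hMdef
  set K := M.normalCore with hK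
  have hPK : (P : Subgroup C) ≤ K := by
    intro p hp b
    have h1 : b * p * b⁻¹ ∈ ((b • P : Sylow 3 C) : Subgroup C) := by
      rw [Sylow.coe_subgroup_smul]
      exact Subgroup.mem_map.2 ⟨p, hp, by simp⟩
    exact hall f' hf7 _ h1
  have hK63 : Nat.card K ∣ 63 := hM f' hf7 ▸ card_dvd_of_le M.normalCore_le
  have h9K : 9 ∣ Nat.card K := by
    have := card_dvd_of_le hPK
    rwa [CfsgLib.SylowToolkit.card_sylow_subgroup_eq hC' (by norm_num) P] at this
  rcases (show Nat.card K = 9 ∨ Nat.card K = 63 from by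
    obtain ⟨j, hj⟩ := h9K
    rw [hj, show (63 : ℕ) = 9 * 7 from rfl] at hK63
    rcases (Nat.dvd_prime (by norm_num)).1 (Nat.dvd_of_mul_dvd_mul_left (by norm_num) hK63)
      with e | e <;> omega) with hK9 | hK9
  · refine h.nine_not_normalized (E := K.map C.subtype) ?_ hf ?_
    · rw [← Nat.card_congr (K.equivMapOfInjective _ C.subtype_injective).toEquiv, hK9]
    · exact le_normalizer_map C.subtype
        ⟨f', by rw [normalizer_eq_top K]; exact mem_top _, rfl⟩
  · have hKM : K = M := eq_of_le_of_card_ge M.normalCore_le (by rw [hM f' hf7, hK9])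
    have hN : M.Normal := hKM ▸ M.normalCore_normal
    have hfM : f' ∈ M := le_normalizer (mem_zpowers f')
    have htop : M = ⊤ := by
      refine eq_top_iff.2 fun a _ => ?_
      have h1 := hN.conj_mem f' hfM a
      refine three_mem_normalizer_of_conj (mem_zpowers_iff.2 ?_)
      have h2 : ((a * f' * a⁻¹ : C) : G) ∈ normalizer (zpowers f : Set G) := by
        have hle : M.map C.subtype ≤ normalizer ((zpowers f').map C.subtype : Set G) :=
          le_normalizer_map C.subtype
        rw [MonoidHom.map_zpowers] at hle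
        exact hle (mem_map_of_mem _ h1)
      obtain ⟨k, hk⟩ := mem_zpowers_iff.1 (h.seven_mem_zpowers hf
        (w := ((a * f' * a⁻¹ : C) : G))
        (by rw [Subgroup.orderOf_coe, orderOf_conjugate, hf7]) h2)
      exact ⟨k, Subtype.ext hk⟩
    have := hM f' hf7
    rw [← hMdef, htop, card_top, hC] at this
    omega

/-- An involution commuting with `x`. -/
theorem invol_three {f x v : G} (hf : orderOf f = 7) (hx : orderOf x = 3) (hfx : Commute f x)
    (hv : orderOf v = 2) (hxv : Commute x v) :
    ¬ 9 ∣ Nat.card (centralizer ({v} : Set G)) := by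
  intro h9
  haveI : Fact (Nat.Prime 3) := ⟨Nat.prime_three⟩
  set C := centralizer ({v} : Set G) with hC
  have hxC : x ∈ C := mem_centralizer_of_commute hxv.symm
  obtain ⟨P, hP⟩ := (IsPGroup.of_card (n := 1) (show Nat.card (zpowers (⟨x, hxC⟩ : C)) = 3 ^ 1 by
    rw [Nat.card_zpowers, Subgroup.orderOf_mk, hx, pow_one])).exists_le_sylow
  have hxP : (⟨x, hxC⟩ : C) ∈ (P : Subgroup C) := hP (mem_zpowers _)
  have hP9 : 9 ∣ Nat.card (P : Subgroup C) := P.pow_dvd_card_of_pow_dvd_card (n := 2) h9
  have hord : ∀ g : (P : Subgroup C), g ≠ 1 → orderOf ((g : C) : G) = 3 := by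
    intro g hg
    obtain ⟨j, hj⟩ := IsPGroup.iff_card.1 P.isPGroup'
    have hd : orderOf ((g : C) : G) ∣ 3 ^ j := by
      rw [Subgroup.orderOf_coe, Subgroup.orderOf_coe, ← hj]
      exact _root_.orderOf_dvd_natCard g
    have hG27 : orderOf ((g : C) : G) ∣ 27 := by
      have h1 : orderOf ((g : C) : G) ∣ Nat.card G := _root_.orderOf_dvd_natCard _
      rw [h.card, show (244823040 : ℕ) = 27 * 9067520 from rfl] at h1
      refine Nat.Coprime.dvd_of_dvd_mul_right ?_ h1
      exact Nat.Coprime.coprime_dvd_left hd (Nat.Coprime.pow_left j (by norm_num))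
    refine h.orderOf_three_of_dvd hG27 fun e => hg ?_
    exact Subtype.ext (Subtype.ext e)
  haveI : Nontrivial (P : Subgroup C) := (nontrivial_iff_ne_bot _).2 fun e => by
    rw [e, card_bot] at hP9
    norm_num at hP9
  haveI := P.isPGroup'.center_nontrivial
  obtain ⟨z, hz⟩ := exists_ne (1 : Subgroup.center (P : Subgroup C))
  set xP : (P : Subgroup C) := ⟨⟨x, hxC⟩, hxP⟩ with hxPdef
  obtain ⟨e, he1, hex, hcom⟩ : ∃ e : (P : Subgroup C), e ≠ 1 ∧ e ∉ zpowers xP ∧ Commute e xP := by
    by_cases hzx : (z : (P : Subgroup C)) ∈ zpowers xP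
    · obtain ⟨e, he⟩ : ∃ e : (P : Subgroup C), e ∉ zpowers xP := by
        by_contra hall
        push Not at hall
        have : Nat.card (P : Subgroup C) ≤ Nat.card (zpowers xP) :=
          Nat.card_le_card_of_surjective (Subtype.val : zpowers xP → (P : Subgroup C))
            fun a => ⟨⟨a, hall a⟩, rfl⟩
        rw [Nat.card_zpowers, hxPdef, Subgroup.orderOf_mk, Subgroup.orderOf_mk, hx] at this
        have := Nat.le_of_dvd Nat.card_pos hP9
        omega
      refine ⟨e, fun e1 => he (e1 ▸ one_mem _), he, ?_⟩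
      have hzord : zpowers (z : (P : Subgroup C)) = zpowers xP := by
        refine eq_of_le_of_card_ge (zpowers_le.2 hzx) ?_
        have hzo := hord (z : (P : Subgroup C)) fun e1 => hz (Subtype.ext e1)
        rw [Subgroup.orderOf_coe, Subgroup.orderOf_coe] at hzo
        rw [Nat.card_zpowers, Nat.card_zpowers, hxPdef, Subgroup.orderOf_mk, Subgroup.orderOf_mk,
          hx, hzo]
      have hm : xP ∈ zpowers (z : (P : Subgroup C)) := by rw [hzord]; exact mem_zpowers _
      obtain ⟨k, hk⟩ := mem_zpowers_iff.1 hm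
      rw [← hk]
      exact (show Commute e (z : (P : Subgroup C)) from Subgroup.mem_center_iff.1 z.2 e).zpow_right k
    · exact ⟨z, fun e1 => hz (Subtype.ext e1), hzx,
        (Subgroup.mem_center_iff.1 z.2 xP).symm⟩
  set eG : G := ((e : C) : G) with heG
  have he3 : orderOf eG = 3 := hord e he1
  have hce : Commute x eG :=
    (congrArg (fun p : (P : Subgroup C) => ((p : C) : G)) hcom.eq).symm
  set E := zpowers x ⊔ zpowers eG with hE
  have hEc : ∀ a ∈ E, ∀ b ∈ E, Commute a b := commute_of_mem_sup hce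
  have hxE : x ∈ E := mem_sup_left (mem_zpowers x)
  have hEcard : Nat.card E = 9 := by
    have hdj : zpowers x ⊓ zpowers eG = ⊥ := by
      rw [eq_bot_iff]
      intro y hy
      rw [mem_bot]
      by_contra hy1
      have hd : orderOf y = 3 := by
        rcases (Nat.dvd_prime Nat.prime_three).1 (hx ▸ Nat.card_zpowers x ▸
          Subgroup.orderOf_dvd_natCard _ hy.1 : orderOf y ∣ 3) with e1 | e1
        · exact absurd (orderOf_eq_one_iff.1 e1) hy1
        · exact e1
      have h1 : zpowers y = zpowers eG := eq_of_le_of_card_ge (zpowers_le.2 hy.2)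
        (by rw [Nat.card_zpowers, Nat.card_zpowers, hd, he3])
      obtain ⟨k, hk⟩ := mem_zpowers_iff.1
        (zpowers_le.2 hy.1 (h1 ▸ mem_zpowers eG) : eG ∈ zpowers x)
      exact hex (mem_zpowers_iff.2 ⟨k, Subtype.ext (Subtype.ext (by simpa using hk))⟩)
    let F : zpowers x × zpowers eG → E := fun q =>
      ⟨q.1 * q.2, mul_mem (mem_sup_left q.1.2) (mem_sup_right q.2.2)⟩
    have hF : Function.Bijective F := by
      refine ⟨fun a b e' => ?_, fun y => ?_⟩
      · exact Subgroup.mul_injective_of_disjoint (disjoint_iff.2 hdj) (congrArg Subtype.val e')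
      · have hn : zpowers x ≤ normalizer (zpowers eG : Set G) :=
          zpowers_le.2 (centralizer_le_normalizer_zpowers eG
            (mem_centralizer_of_commute hce.symm))
        have hy : (y : G) ∈ ((zpowers x : Set G) * (zpowers eG : Set G)) := by
          rw [← coe_mul_of_left_le_normalizer_right _ _ hn]
          exact y.2
        obtain ⟨a, hya, b, hyb, hab⟩ := Set.mem_mul.1 hy
        exact ⟨(⟨a, hya⟩, ⟨b, hyb⟩), Subtype.ext hab⟩
    rw [← Nat.card_eq_of_bijective F hF, Nat.card_prod, Nat.card_zpowers, Nat.card_zpowers, hx,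
      he3]
  refine h.no_invol_nine ha hf hx hfx hEcard hxE hEc hv fun a hea => ?_
  have hle : E ≤ C := sup_le (zpowers_le.2 hxC) (zpowers_le.2 (e : C).2)
  exact (commute_of_mem_centralizer (hle hea)).symm

/-- An involution commuting with an element of order seven commutes with one of order three whose
centraliser contains a Sylow 3-subgroup. -/
theorem exists_central_three {t : G} (ht : IsA t) :
    ∃ u : G, orderOf u = 3 ∧ Commute u t ∧ 27 ∣ Nat.card (centralizer ({u} : Set G)) := by
  haveI : Fact (Nat.Prime 3) := ⟨Nat.prime_three⟩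
  obtain ⟨ht2, f, hf, hft⟩ := ht
  obtain ⟨u', hu'⟩ := exists_prime_orderOf_dvd_card' (G := ↥(normalizer (zpowers f : Set G) ⊓
    centralizer ({t} : Set G))) 3 (by rw [h.norm_inf_seven hf ht2 hft.symm]; norm_num)
  set u : G := (u' : G) with hudef
  have hu : orderOf u = 3 := by rw [hudef, Subgroup.orderOf_coe]; exact hu'
  have huN : u ∈ normalizer (zpowers f : Set G) := u'.2.1
  have hut : Commute u t := (commute_of_mem_centralizer u'.2.2).symm
  obtain ⟨x, hx, hfx⟩ := exists_of_card_commute_ne_zero (f := f) (d := 3)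
    (by rw [h.three_commute_seven hf]; norm_num)
  -- the two elements of order three commuting with `f`
  have hx2 : orderOf (x ^ 2) = 3 := by
    rw [Nat.Coprime.orderOf_pow (by rw [hx]; norm_num), hx]
  have hne : x ≠ x ^ 2 := fun e => by
    rw [pow_two] at e
    have : x = 1 := mul_left_cancel (show x * x = x * 1 by rw [← e, mul_one])
    rw [this, orderOf_one] at hx
    omega
  have hpair : ∀ w : G, orderOf w = 3 → Commute f w → w = x ∨ w = x ^ 2 := by
    classical
    haveI := Fintype.ofFinite {y : G // orderOf y = 3 ∧ Commute f y}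
    intro w hw hfw
    by_contra hc
    push Not at hc
    let F : Fin 3 → {y : G // orderOf y = 3 ∧ Commute f y} :=
      ![⟨x, hx, hfx⟩, ⟨x ^ 2, hx2, hfx.pow_right 2⟩, ⟨w, hw, hfw⟩]
    have hinj : Function.Injective F := by
      intro i j e
      fin_cases i <;> fin_cases j <;>
        simp [F, Subtype.ext_iff, hne, hne.symm, hc.1, hc.2, hc.1.symm, hc.2.symm] at e ⊢
    have := Fintype.card_le_of_injective F hinj
    rw [Fintype.card_fin, ← Nat.card_eq_fintype_card, h.three_commute_seven hf] at this
    omega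
  have hnx : ∀ n ∈ normalizer (zpowers f : Set G), n * x * n⁻¹ = x ∨ n * x * n⁻¹ = x ^ 2 := by
    intro n hn
    refine hpair _ ((orderOf_conjugate n x).trans hx) ?_
    obtain ⟨k, hk⟩ := mem_zpowers_iff.1 ((mem_normalizer_iff''.1 hn f).1 (mem_zpowers f))
    have h1 : Commute (n⁻¹ * f * n) x := hk ▸ hfx.zpow_left k
    simpa [mul_assoc] using (Commute.conj_iff n).2 h1
  have hx3 : x ^ 3 = 1 := hx ▸ pow_orderOf_eq_one x
  have hu3 : u ^ 3 = 1 := hu ▸ pow_orderOf_eq_one u
  have htx : t * x * t⁻¹ = x ^ 2 := by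
    refine (hnx t (centralizer_le_normalizer_zpowers f
      (mem_centralizer_of_commute hft))).resolve_left fun e => ?_
    have hc : Commute x t := ((mul_inv_eq_iff_eq_mul.1 e).symm : x * t = t * x)
    refine h.no_six_seven hf (hfx.mul_right hft) ?_
    rw [hc.orderOf_mul_eq_mul_orderOf_of_coprime (by rw [hx, ht2]; norm_num), hx, ht2]
  have hux : Commute u x := by
    rcases hnx u huN with e | e
    · exact mul_inv_eq_iff_eq_mul.1 e
    · exfalso
      have e2 : u * (x ^ 2) * u⁻¹ = x := by
        rw [← conj_pow, e, ← pow_mul, show 2 * 2 = 3 + 1 from rfl, pow_succ, hx3, one_mul]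
      have e3 : u ^ 3 * x * (u ^ 3)⁻¹ = x ^ 2 := by
        calc u ^ 3 * x * (u ^ 3)⁻¹ = u * (u * (u * x * u⁻¹) * u⁻¹) * u⁻¹ := by
              simp only [pow_succ, pow_zero, one_mul, mul_inv_rev, mul_assoc]
          _ = x ^ 2 := by rw [e, e2, e]
      rw [hu3, one_mul, inv_one, mul_one] at e3
      exact hne e3
  have hufx : u ∉ zpowers x := by
    intro hmem
    have h1 : zpowers u = zpowers x := eq_of_le_of_card_ge (zpowers_le.2 hmem)
      (by rw [Nat.card_zpowers, Nat.card_zpowers, hx, hu])
    obtain ⟨k, hk⟩ := mem_zpowers_iff.1 (h1 ▸ mem_zpowers x : x ∈ zpowers u)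
    have hc : Commute x t := hk ▸ hut.zpow_left k
    refine hne ?_
    rw [← htx, ← hc.eq, mul_inv_cancel_right]
  -- a Sylow 3-subgroup through `x` and `u`
  set E := zpowers x ⊔ zpowers u with hEdef
  have hcl : ∀ y ∈ E, ∃ i j : ℕ, i < 3 ∧ j < 3 ∧ y = u ^ i * x ^ j := by
    intro y hy
    have hn : zpowers u ≤ normalizer (zpowers x : Set G) :=
      zpowers_le.2 (centralizer_le_normalizer_zpowers x (mem_centralizer_of_commute hux.symm))
    have hy' : y ∈ ((zpowers u : Set G) * (zpowers x : Set G)) := by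
      rw [← coe_mul_of_left_le_normalizer_right _ _ hn, sup_comm]
      exact hy
    obtain ⟨a, hya, b, hyb, rfl⟩ := Set.mem_mul.1 hy'
    classical
    obtain ⟨i, hi, rfl⟩ := Finset.mem_image.1
      ((IsOfFinOrder.mem_zpowers_iff_mem_range_orderOf (isOfFinOrder_of_finite _)).1 hya)
    obtain ⟨j, hj, rfl⟩ := Finset.mem_image.1
      ((IsOfFinOrder.mem_zpowers_iff_mem_range_orderOf (isOfFinOrder_of_finite _)).1 hyb)
    rw [Finset.mem_range, hu] at hi
    rw [Finset.mem_range, hx] at hj
    exact ⟨i, j, hi, hj, rfl⟩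
  set Cx := centralizer ({x} : Set G) with hCx
  have hEC : E ≤ Cx := sup_le (zpowers_le.2 (mem_centralizer_of_commute (Commute.refl x)))
    (zpowers_le.2 (mem_centralizer_of_commute hux.symm))
  have hE3 : IsPGroup 3 E := by
    have hn : zpowers x ≤ normalizer (zpowers u : Set G) :=
      zpowers_le.2 (centralizer_le_normalizer_zpowers u (mem_centralizer_of_commute hux))
    exact IsPGroup.to_sup_of_normal_right'
      (IsPGroup.of_card (n := 1) (by rw [Nat.card_zpowers, hx, pow_one]))
      (IsPGroup.of_card (n := 1) (by rw [Nat.card_zpowers, hu, pow_one])) hn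
  obtain ⟨R, hR⟩ := hE3.exists_le_sylow
  have hxR : x ∈ (R : Subgroup G) := hR (mem_sup_left (mem_zpowers x))
  have huR : u ∈ (R : Subgroup G) := hR (mem_sup_right (mem_zpowers u))
  have hR27 : Nat.card (R : Subgroup G) = 3 ^ 3 :=
    CfsgLib.SylowToolkit.card_sylow_subgroup_eq (m := 9067520) (by rw [h.card]; norm_num)
      (by norm_num) R
  have hC504 : Nat.card Cx = 504 := ha f x hf hx hfx
  have hRC : (R : Subgroup G) ⊓ Cx ≤ E := by
    have hd : Nat.card ↥((R : Subgroup G) ⊓ Cx) ∣ 9 := by
      have h1 := card_dvd_of_le (inf_le_left : (R : Subgroup G) ⊓ Cx ≤ _)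
      have h2 := card_dvd_of_le (inf_le_right : (R : Subgroup G) ⊓ Cx ≤ _)
      rw [hR27] at h1
      rw [hC504] at h2
      exact (Nat.dvd_gcd h1 h2).trans (by norm_num)
    have hEle : E ≤ (R : Subgroup G) ⊓ Cx := le_inf hR hEC
    have h9E : 9 ≤ Nat.card E := by
      obtain ⟨j, hj⟩ := IsPGroup.iff_card.1 hE3
      rcases Nat.lt_or_ge j 2 with hj2 | hj2
      · exfalso
        refine hufx ?_
        have h1 : zpowers x = E := eq_of_le_of_card_ge le_sup_left (by
          rw [hj, Nat.card_zpowers, hx]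
          exact (Nat.pow_le_pow_right (by norm_num) (show j ≤ 1 by omega)).trans (by norm_num))
        exact h1 ▸ mem_sup_right (mem_zpowers u)
      · rw [hj]
        exact le_trans (by norm_num) (Nat.pow_le_pow_right (by norm_num) hj2)
    exact (eq_of_le_of_card_ge hEle ((Nat.le_of_dvd (by norm_num) hd).trans h9E)).ge
  haveI : Nontrivial (R : Subgroup G) := (nontrivial_iff_ne_bot _).2 fun e => by
    rw [e, card_bot] at hR27
    norm_num at hR27
  haveI := R.isPGroup'.center_nontrivial
  obtain ⟨z', hz'⟩ := exists_ne (1 : Subgroup.center (R : Subgroup G))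
  set z : G := ((z' : (R : Subgroup G)) : G) with hzdef
  have hzR : z ∈ (R : Subgroup G) := (z' : (R : Subgroup G)).2
  have hzc : ∀ r ∈ (R : Subgroup G), Commute r z := fun r hr =>
    congrArg Subtype.val (Subgroup.mem_center_iff.1 z'.2 ⟨r, hr⟩)
  have hz1 : z ≠ 1 := fun e => hz' (Subtype.ext (Subtype.ext e))
  have hzE : z ∈ E := hRC ⟨hzR, mem_centralizer_of_commute (hzc x hxR)⟩
  have h27 : ∀ y : G, (∀ r ∈ (R : Subgroup G), Commute r y) →
      27 ∣ Nat.card (centralizer ({y} : Set G)) := fun y hy => by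
    have := card_dvd_of_le (K := centralizer ({y} : Set G)) (H := (R : Subgroup G))
      fun r hr => mem_centralizer_of_commute (hy r hr).symm
    rwa [hR27] at this
  refine ⟨u, hu, hut, ?_⟩
  -- a conjugation inside `R` moving `x`
  obtain ⟨i, j, hi, hj, hzij⟩ := hcl z hzE
  have hxcent : ¬ ∀ r ∈ (R : Subgroup G), Commute r x := fun hall => by
    have := h27 x hall
    rw [hC504] at this
    norm_num at this
  have hi0 : i ≠ 0 := by
    rintro rfl
    rw [pow_zero, one_mul] at hzij
    interval_cases j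
    · exact hz1 (by rw [hzij, pow_zero])
    · exact hxcent fun r hr => by simpa [hzij] using hzc r hr
    · refine hxcent fun r hr => ?_
      have h1 := (hzc r hr).pow_right 2
      rwa [hzij, ← pow_mul, show 2 * 2 = 3 + 1 from rfl, pow_succ, hx3, one_mul] at h1
  -- normalise to `i = 1`
  obtain ⟨y, j', hj', hy, hyij⟩ : ∃ y : G, ∃ j' : ℕ, j' < 3 ∧
      (∀ r ∈ (R : Subgroup G), Commute r y) ∧ y = u * x ^ j' := by
    interval_cases i
    · exact absurd rfl hi0
    · exact ⟨z, j, hj, hzc, by rw [hzij, pow_one]⟩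
    · refine ⟨z ^ 2, 2 * j % 3, Nat.mod_lt _ (by norm_num), fun r hr => (hzc r hr).pow_right 2, ?_⟩
      rw [hzij, ((hux.pow_pow 2 j)).mul_pow, ← pow_mul, ← pow_mul, show 2 * 2 = 3 + 1 from rfl,
        pow_succ, hu3, one_mul, mul_comm j 2, ← pow_mod_orderOf x, hx]
  by_contra hu27
  have hj0 : j' ≠ 0 := by
    rintro rfl
    rw [pow_zero, mul_one] at hyij
    exact hu27 (hyij ▸ h27 y hy)
  -- the two diagonals are exchanged by `t`
  have hty : t * y * t⁻¹ = u * x ^ (2 * j') := by
    rw [hyij, pow_mul, ← htx, conj_pow]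
    calc t * (u * x ^ j') * t⁻¹ = t * u * t⁻¹ * (t * x ^ j' * t⁻¹) := by group
      _ = u * (t * x ^ j' * t⁻¹) := by rw [← hut.eq, mul_inv_cancel_right]
  have hdiag : ∀ k, k % 3 ≠ 0 → 27 ∣ Nat.card (centralizer ({u * x ^ k} : Set G)) := by
    intro k hk
    rw [← pow_mod_orderOf x, hx]
    by_cases hkj : k % 3 = j'
    · rw [hkj, ← hyij]
      exact h27 y hy
    · have hk2 : k % 3 = (2 * j') % 3 := by
        rcases (show j' = 1 ∨ j' = 2 by omega) with rfl | rfl <;> omega
      rw [hk2, ← hx, pow_mod_orderOf, ← hty,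
        card_centralizer_conjugate]
      exact h27 y hy
  have key : ∀ e ∈ E, Nat.card (centralizer ({e} : Set G)) = 504 →
      e ∈ zpowers x ∨ e ∈ zpowers u := by
    intro e he hce
    obtain ⟨a, b, ha3, hb3, rfl⟩ := hcl e he
    rcases Nat.eq_zero_or_pos a with rfl | ha0
    · left
      rw [pow_zero, one_mul]
      exact pow_mem (mem_zpowers x) b
    rcases Nat.eq_zero_or_pos b with rfl | hb0
    · right
      rw [pow_zero, mul_one]
      exact pow_mem (mem_zpowers u) a
    exfalso
    have h27e : 27 ∣ Nat.card (centralizer ({u ^ a * x ^ b} : Set G)) := by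
      interval_cases a
      · rw [pow_one]
        exact hdiag b (by omega)
      · have he2 : u ^ 2 * x ^ b = (u * x ^ (2 * b)) ^ 2 := by
          rw [(hux.pow_right (2 * b)).mul_pow, ← pow_mul, show 2 * b * 2 = 3 * b + b by omega,
            pow_add, pow_mul, hx3, one_pow, one_mul]
        have ho : orderOf (u * x ^ (2 * b)) = 3 := by
          refine orderOf_eq_prime ?_ fun e1 => ?_
          · rw [(hux.pow_right (2 * b)).mul_pow, hu3, one_mul, pow_right_comm, hx3, one_pow]
          · have := hdiag (2 * b) (by omega)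
            rw [e1] at this
            have h1 : centralizer ({(1 : G)} : Set G) = ⊤ :=
              eq_top_iff.2 fun g _ => mem_centralizer_of_commute (Commute.one_left g)
            exact hufx (mem_zpowers_iff.2 ⟨-(2 * b : ℕ), by
              rw [zpow_neg, zpow_natCast]; exact (eq_inv_of_mul_eq_one_left e1).symm⟩)
        rw [he2, card_centralizer_sq ho]
        exact hdiag (2 * b) (by omega)
    rw [hce] at h27e
    norm_num at h27e
  -- an element of `R` moving `x`
  obtain ⟨r, hr, hrx⟩ : ∃ r ∈ (R : Subgroup G), ¬ Commute r x := by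
    by_contra hall
    push Not at hall
    exact hxcent hall
  have hr3 : r ^ 3 = 1 := by
    have hd : orderOf r ∣ 27 := by
      have := Subgroup.orderOf_dvd_natCard _ hr
      rwa [hR27] at this
    by_cases hr1 : r = 1
    · rw [hr1, one_pow]
    · rw [← h.orderOf_three_of_dvd hd hr1, pow_orderOf_eq_one]
  have hrN : r ∉ normalizer (zpowers x : Set G) := by
    intro hn
    obtain ⟨k, hk⟩ := mem_zpowers_iff.1 ((mem_normalizer_iff.1 hn x).1 (mem_zpowers x))
    have hcube : r ^ 3 * x * (r ^ 3)⁻¹ = x ^ (k * k * k) := by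
      calc r ^ 3 * x * (r ^ 3)⁻¹ = r * (r * (r * x * r⁻¹) * r⁻¹) * r⁻¹ := by
            simp only [pow_succ, pow_zero, one_mul, mul_inv_rev, mul_assoc]
        _ = x ^ (k * k * k) := by
            rw [← hk, ← conj_zpow, ← hk, ← zpow_mul, ← conj_zpow, ← hk, ← zpow_mul, mul_assoc]
    rw [hr3, one_mul, inv_one, mul_one] at hcube
    have hk3 : (k * k * k - 1) % 3 = 0 := by
      have h1 : x ^ (k * k * k - 1) = 1 := by rw [zpow_sub_one, ← hcube, mul_inv_cancel]
      have := orderOf_dvd_iff_zpow_eq_one.2 h1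
      rw [hx] at this
      exact Int.emod_eq_zero_of_dvd this
    have hk1 : k % 3 = 1 := by
      have h1 := Int.emod_emod_of_dvd k (dvd_refl 3)
      have h2 : (k * k * k) % 3 = ((k % 3) * (k % 3) * (k % 3)) % 3 := by
        simp [Int.mul_emod]
      rcases (show k % 3 = 0 ∨ k % 3 = 1 ∨ k % 3 = 2 by omega) with e | e | e <;>
        rw [e] at h2 <;> norm_num at h2 <;> omega
    refine hrx ((mul_inv_eq_iff_eq_mul.1 ?_ : r * x = x * r))
    rw [← hk, ← zpow_mod_orderOf, hx]
    norm_num [hk1]
  have hEcard : Nat.card (R : Subgroup G) = 27 := hR27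
  have hnorm : ∀ e ∈ E, r * e * r⁻¹ ∈ E := by
    have hle : E ≤ (R : Subgroup G) := hR
    have hEeq : E = (R : Subgroup G) ⊓ Cx := le_antisymm (le_inf hR hEC) hRC
    have hcard : Nat.card E = 9 := by
      have h1 := card_dvd_of_le hle
      have h2 := card_dvd_of_le hEC
      rw [hR27] at h1
      rw [hC504] at h2
      have h3 : Nat.card E ∣ 9 := (Nat.dvd_gcd h1 h2).trans (by norm_num)
      exact Nat.dvd_antisymm h3 (by
        obtain ⟨j, hj⟩ := IsPGroup.iff_card.1 hE3
        rw [hj]
        refine (pow_dvd_pow 3 (show 2 ≤ j from ?_))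
        by_contra hj2
        have h1 : zpowers x = E := eq_of_le_of_card_ge le_sup_left (by
          rw [hj, Nat.card_zpowers, hx]
          exact (Nat.pow_le_pow_right (by norm_num) (show j ≤ 1 by omega)).trans (by norm_num))
        exact hufx (h1 ▸ mem_sup_right (mem_zpowers u)))
    have hidx : (E.subgroupOf (R : Subgroup G)).index =
        (Nat.card (R : Subgroup G)).minFac := by
      have h1 := (E.subgroupOf (R : Subgroup G)).card_mul_index
      rw [Nat.card_congr (subgroupOfEquivOfLe hle).toEquiv, hcard, hR27] at h1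
      rw [hR27, show ((3 : ℕ) ^ 3).minFac = 3 by norm_num]
      omega
    haveI := Subgroup.normal_of_index_eq_minFac_card hidx
    intro e he
    exact this.conj_mem ⟨e, hle he⟩ (mem_subgroupOf.2 he) ⟨r, hr⟩
  have hx1 : r * x * r⁻¹ ∈ E := hnorm x (mem_sup_left (mem_zpowers x))
  have hc1 : Nat.card (centralizer ({r * x * r⁻¹} : Set G)) = 504 := by
    rw [card_centralizer_conjugate]; exact hC504
  have hc2 : Nat.card (centralizer ({r * (r * x * r⁻¹) * r⁻¹} : Set G)) = 504 := by
    rw [card_centralizer_conjugate]; exact hc1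
  have hu1 : r * x * r⁻¹ ∈ zpowers u := by
    refine (key _ hx1 hc1).resolve_left fun hm => hrN (three_mem_normalizer_of_conj hm)
  rcases key _ (hnorm _ hx1) hc2 with hm | hm
  · have h2 : r ^ 2 ∈ normalizer (zpowers x : Set G) := by
      refine three_mem_normalizer_of_conj ?_
      rw [show r ^ 2 * x * (r ^ 2)⁻¹ = r * (r * x * r⁻¹) * r⁻¹ by
        rw [pow_two]; group]
      exact hm
    refine hrN ?_
    have := pow_mem h2 2
    rwa [← pow_mul, show 2 * 2 = 3 + 1 from rfl, pow_succ, hr3, one_mul] at this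
  · have h1 : zpowers (r * x * r⁻¹) = zpowers u := eq_of_le_of_card_ge (zpowers_le.2 hu1)
      (by rw [Nat.card_zpowers, Nat.card_zpowers, orderOf_conjugate, hx, hu])
    obtain ⟨k, hk⟩ := mem_zpowers_iff.1 (h1 ▸ hm)
    have h2 : r * x * r⁻¹ = x ^ k := by
      have e1 : r * x ^ k * r⁻¹ = r * (r * x * r⁻¹) * r⁻¹ := by rw [← conj_zpow, hk]
      exact (mul_left_cancel (mul_right_cancel e1)).symm
    exact hrN (three_mem_normalizer_of_conj (h2 ▸ zpow_mem (mem_zpowers x) k))

/-- Nine divides no centraliser of an involution. -/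
theorem not_nine_of_cent_three :
    ∀ t : G, orderOf t = 2 → ¬ 9 ∣ Nat.card (centralizer ({t} : Set G)) := by
  haveI : Fact (Nat.Prime 3) := ⟨Nat.prime_three⟩
  haveI : Fact (Nat.Prime 5) := ⟨by norm_num⟩
  haveI : Fact (Nat.Prime 7) := ⟨by norm_num⟩
  obtain ⟨t, ht⟩ := h.exists_isA
  obtain ⟨ht2, f, hf, hft⟩ := id ht
  obtain ⟨x, hx, hfx⟩ := exists_of_card_commute_ne_zero (f := f) (d := 3)
    (by rw [h.three_commute_seven hf]; norm_num)
  obtain ⟨v, hv, hxv⟩ := h.exists_invol_three hx
  -- conjugates of `x`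
  have hconj : ∀ (a w : G), orderOf w = 2 → Commute (a * x * a⁻¹) w →
      ¬ 9 ∣ Nat.card (centralizer ({w} : Set G)) := fun a w hw hc =>
    h.invol_three ha ((orderOf_conjugate a f).trans hf) ((orderOf_conjugate a x).trans hx)
      ((Commute.conj_iff a).2 hfx) hw hc
  have hv9 := h.invol_three ha hf hx hfx hv hxv
  set Cv := centralizer ({v} : Set G) with hCv
  have hxC : x ∈ Cv := mem_centralizer_of_commute hxv.symm
  have h3v : 3 ∣ Nat.card Cv := hx ▸ Subgroup.orderOf_dvd_natCard _ hxC
  obtain ⟨cv, hcv⟩ := h3v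
  have hcv3 : ¬ 3 ∣ cv := fun hd => hv9 (by rw [hcv]; exact Nat.mul_dvd_mul_left 3 hd)
  -- every element of order three commuting with `v` has centraliser of order 504
  have hv504 : ∀ w, orderOf w = 3 → Commute w v →
      Nat.card (centralizer ({w} : Set G)) = 504 := by
    intro w hw hwv
    have hwC : w ∈ Cv := mem_centralizer_of_commute hwv.symm
    obtain ⟨P, hP⟩ := exists_sylow_eq (G := Cv) hcv hcv3 (g := ⟨w, hwC⟩)
      (by rw [Subgroup.orderOf_mk]; exact hw)
    obtain ⟨Q, hQ⟩ := exists_sylow_eq (G := Cv) hcv hcv3 (g := ⟨x, hxC⟩)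
      (by rw [Subgroup.orderOf_mk]; exact hx)
    obtain ⟨a, rfl⟩ := MulAction.exists_smul_eq Cv Q P
    have hmem : (⟨w, hwC⟩ : Cv) ∈ ((a • Q : Sylow 3 Cv) : Subgroup Cv) :=
      hP ▸ mem_zpowers _
    rw [Sylow.coe_subgroup_smul] at hmem
    obtain ⟨s, hs, hsw⟩ := Subgroup.mem_map.1 hmem
    rw [← hQ] at hs
    obtain ⟨k, rfl⟩ := mem_zpowers_iff.1 hs
    have hw' : w = (a : G) * x ^ k * (a : G)⁻¹ := by
      have := congrArg Subtype.val hsw
      simpa using this.symm
    rw [← conj_zpow] at hw'
    obtain ⟨l, hl, hlw⟩ : ∃ l : ℕ, l < 3 ∧ w = ((a : G) * x * (a : G)⁻¹) ^ l := by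
      refine ⟨(k % 3).toNat, by omega, ?_⟩
      rw [hw', ← zpow_natCast, Int.toNat_of_nonneg (by omega),
        ← zpow_mod_orderOf ((a : G) * x * (a : G)⁻¹) k, orderOf_conjugate, hx]
      norm_num
    have hx' : orderOf ((a : G) * x * (a : G)⁻¹) = 3 := (orderOf_conjugate _ x).trans hx
    have h504 : Nat.card (centralizer ({(a : G) * x * (a : G)⁻¹} : Set G)) = 504 :=
      ha _ _ ((orderOf_conjugate (a : G) f).trans hf) hx' ((Commute.conj_iff (a : G)).2 hfx)
    interval_cases l
    · rw [hlw, pow_zero, orderOf_one] at hw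
      omega
    · rw [hlw, pow_one]; exact h504
    · rw [hlw, card_centralizer_sq hx']; exact h504
  have hvA : ¬ IsA v := fun hA => by
    obtain ⟨u, hu, huv, h27⟩ := h.exists_central_three ha hA
    rw [hv504 u hu huv] at h27
    norm_num at h27
  obtain ⟨kv, hkvle, hkv, hiv⟩ := h.exists_k hv
  have h7v : ¬ 7 ∣ Nat.card Cv := fun hd => hvA ⟨hv, exists_commute hd⟩
  have hk126 : kv = 126 := by
    have hk7 : 7 ∣ kv := ((Nat.Prime.dvd_mul (by norm_num)).1
      (by rw [hkv]; norm_num : 7 ∣ Nat.card Cv * kv)).resolve_left h7v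
    have hk9 : 9 ∣ kv := by
      have h27 : 27 ∣ 3 * (cv * kv) := by rw [← mul_assoc, ← hcv, hkv]; norm_num
      have h9 : 9 ∣ cv * kv := Nat.dvd_of_mul_dvd_mul_left (by norm_num : 0 < 3) h27
      exact (Nat.Coprime.pow_left 2
        ((Nat.Prime.coprime_iff_not_dvd Nat.prime_three).2 hcv3)).dvd_of_dvd_mul_left h9
    by_cases h5 : 5 ∣ Nat.card Cv
    · obtain ⟨g, hg, hgv⟩ := exists_commute h5
      rcases h.k_of_five hg hv hgv hkv hkvle with e | e | e | e | e | e | e | e <;> omega
    · have hk5 : 5 ∣ kv := ((Nat.Prime.dvd_mul (by norm_num)).1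
        (by rw [hkv]; norm_num : 5 ∣ Nat.card Cv * kv)).resolve_left h5
      have : kv ≠ 0 := by rintro rfl; simp at hkv
      omega
  -- the class of `t`
  obtain ⟨kt, hktle, hkt, hit⟩ := h.exists_k ht2
  have hclassA : ∀ s, IsConj t s → IsA s := fun s hc => by
    obtain ⟨a, rfl⟩ := isConj_iff.1 hc
    exact ⟨(orderOf_conjugate a t).trans ht2, a * f * a⁻¹, (orderOf_conjugate a f).trans hf,
      (Commute.conj_iff a).2 hft⟩
  have hdisj : ∀ s, IsConj t s → ¬ IsConj v s := fun s h1 h2 =>
    hvA (by
      have := hclassA v ((h1.trans h2.symm))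
      exact this)
  let F : {s : G // IsConj t s} ⊕ {s : G // IsConj v s} → {s : G // orderOf s = 2} :=
    Sum.elim (fun s => ⟨s.1, (hclassA s.1 s.2).1⟩) fun s => ⟨s.1, by
      obtain ⟨a, ha'⟩ := isConj_iff.1 s.2
      rw [← ha', orderOf_conjugate, hv]⟩
  have hF : Function.Injective F := by
    rintro (a | a) (b | b) e <;> have e' := congrArg Subtype.val e
    · exact congrArg Sum.inl (Subtype.ext e')
    · exact absurd (e' ▸ b.2 : IsConj v (a : G)) (hdisj _ a.2)
    · exact absurd (e' ▸ a.2 : IsConj v (b : G)) (hdisj _ b.2)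
    · exact congrArg Sum.inr (Subtype.ext e')
  have hsum := Nat.card_le_card_of_injective F hF
  rw [Nat.card_sum, card_isConj, card_isConj, hit, hiv,
    show Nat.card {s : G // orderOf s = 2} = 43263 from h.cnt_two, hk126] at hsum
  have h5t : ¬ 5 ∣ Nat.card (centralizer ({t} : Set G)) := fun hd => by
    obtain ⟨g, hg, hgt⟩ := exists_commute hd
    exact h.not_isA_of_five hg hgt ht
  have hk5 : 5 ∣ kt := ((Nat.Prime.dvd_mul (by norm_num)).1
    (by rw [hkt]; norm_num : 5 ∣ Nat.card (centralizer ({t} : Set G)) * kt)).resolve_left h5t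
  have hkt45 : kt = 45 := by
    rcases h.k_of_seven hf ht2 hft hkt hktle with e | e | e | e | e <;> try omega
    -- `kt = 10`: a conjugate of `x` commutes with `t`
    exfalso
    subst e
    have h27 : 27 ∣ Nat.card (centralizer ({t} : Set G)) := by
      rw [show Nat.card (centralizer ({t} : Set G)) = 96768 by omega]; norm_num
    obtain ⟨S⟩ := (inferInstance : Nonempty (Sylow 3 (centralizer ({t} : Set G))))
    have hS27 : Nat.card ((S : Subgroup (centralizer ({t} : Set G))).map
        (centralizer ({t} : Set G)).subtype) = 3 ^ 3 := by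
      rw [← Nat.card_congr ((S : Subgroup (centralizer ({t} : Set G))).equivMapOfInjective _
        (centralizer ({t} : Set G)).subtype_injective).toEquiv]
      exact CfsgLib.SylowToolkit.card_sylow_subgroup_eq (m := 3584) (by omega) (by norm_num) S
    have hG : Nat.card G = 3 ^ 3 * 9067520 := by rw [h.card]; norm_num
    obtain ⟨R, hR⟩ := (IsPGroup.of_card hS27).exists_le_sylow
    have hReq := eq_of_le_of_card_ge hR (by
      rw [CfsgLib.SylowToolkit.card_sylow_subgroup_eq hG (by norm_num) R, hS27])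
    obtain ⟨T, hT⟩ := (IsPGroup.of_card (n := 1)
      (show Nat.card (zpowers x) = 3 ^ 1 by rw [Nat.card_zpowers, hx, pow_one])).exists_le_sylow
    obtain ⟨a, rfl⟩ := MulAction.exists_smul_eq G T R
    have hmem : a * x * a⁻¹ ∈ ((a • T : Sylow 3 G) : Subgroup G) := by
      rw [Sylow.coe_subgroup_smul]
      exact Subgroup.mem_map.2 ⟨x, hT (mem_zpowers x), by simp⟩
    rw [← hReq] at hmem
    refine hconj a t ht2 (commute_of_mem_centralizer (map_subtype_le _ hmem)).symm ?_
    exact (show 9 ∣ 27 by norm_num).trans h27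
  haveI := Fintype.ofFinite {s : G // orderOf s = 2}
  haveI := Fintype.ofFinite ({s : G // IsConj t s} ⊕ {s : G // IsConj v s})
  have hb := (Fintype.bijective_iff_injective_and_card F).2 ⟨hF, by
    rw [← Nat.card_eq_fintype_card, ← Nat.card_eq_fintype_card, Nat.card_sum, card_isConj,
      card_isConj, hit, hiv, show Nat.card {s : G // orderOf s = 2} = 43263 from h.cnt_two,
      hk126, hkt45]⟩
  intro s hs
  obtain ⟨(q | q), hq⟩ := hb.2 ⟨s, hs⟩
  · have hqs : (q : G) = s := congrArg Subtype.val hq
    obtain ⟨a, ha'⟩ := isConj_iff.1 q.2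
    rw [← hqs, ← ha', card_centralizer_conjugate,
      show Nat.card (centralizer ({t} : Set G)) = 21504 by rw [hkt45] at hkt; omega]
    norm_num
  · have hqs : (q : G) = s := congrArg Subtype.val hq
    obtain ⟨a, ha'⟩ := isConj_iff.1 q.2
    rw [← hqs, ← ha', card_centralizer_conjugate]
    exact hv9

/-- The `Setup`, once `C(x)` has order 504. -/
theorem setup_of_cent_three : Setup G :=
  h.setup_of_not_nine (h.not_nine_of_cent_three ha)

end CountHyp

end CfsgLib.M24Count
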