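import Cfsg.Agent.GL4F2.PermSubgroups
import Mathlib.Data.Finset.Powerset

/-!
Eight points: even permutations move pairs and tetrads, an involution with four fixed points is
determined by them and one image, and a subgroup of `Alt 8` of order at least 720, divisible by five
and not by seven is the stabiliser of a pair.
-/

set_option autoImplicit false

namespace CfsgLib.M24Count.Orbit

open Equiv

/-- An even permutation fixing all but two points is the identity. -/
theorem eq_one_of_small {σ : Perm (Fin 8)} (hσ : Perm.sign σ = 1) {S : Finset (Fin 8)}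
    (hS : S.card ≤ 2) (hfix : ∀ i, i ∉ S → σ i = i) : σ = 1 := by
  classical
  by_contra h1
  have hsub : σ.support ⊆ S := fun i hi => by
    by_contra hn
    exact Perm.mem_support.1 hi (hfix i hn)
  have h2 : σ.support.card = 2 :=
    le_antisymm ((Finset.card_le_card hsub).trans hS) (Perm.two_le_card_support_of_ne_one h1)
  rw [(Perm.card_support_eq_two.1 h2).sign_eq] at hσ
  exact absurd hσ (by decide)

/-- Any set of at least two points is moved to any other of the same size by an even permutation. -/
theorem exists_even_image {S T : Finset (Fin 8)} (h : S.card = T.card) (h2 : 2 ≤ T.card) :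
    ∃ σ : Perm (Fin 8), Perm.sign σ = 1 ∧ S.image σ = T := by
  classical
  have e : {i // i ∈ S} ≃ {i // i ∈ T} :=
    Fintype.equivOfCardEq (by simp [Fintype.card_coe, h])
  set σ := e.extendSubtype with hσ
  have hST : S.image σ = T := by
    refine Finset.eq_of_subset_of_card_le (fun i hi => ?_)
      (by rw [Finset.card_image_of_injective _ σ.injective, h])
    obtain ⟨j, hj, rfl⟩ := Finset.mem_image.1 hi
    exact e.extendSubtype_mem j hj
  rcases Int.units_eq_one_or (Perm.sign σ) with hs | hs
  · exact ⟨σ, hs, hST⟩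
  obtain ⟨a, ha, b, hb, hab⟩ := Finset.one_lt_card.1 (show 1 < T.card by omega)
  refine ⟨swap a b * σ, by rw [map_mul, Perm.sign_swap hab, hs]; rfl, ?_⟩
  rw [Perm.coe_mul, ← Finset.image_image, hST]
  refine Finset.eq_of_subset_of_card_le (fun i hi => ?_)
    (by rw [Finset.card_image_of_injective _ (swap a b).injective])
  obtain ⟨j, hj, rfl⟩ := Finset.mem_image.1 hi
  rw [swap_apply_def]
  split_ifs <;> assumption

/-- Two involutions with the same four fixed points agreeing at one further point are equal. -/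
theorem eq_of_fix {p q : Perm (Fin 8)} {T : Finset (Fin 8)} (hT : T.card = 4) (hp : p * p = 1)
    (hq : q * q = 1) (hpT : ∀ i, p i = i ↔ i ∈ T) (hqT : ∀ i, q i = i ↔ i ∈ T) {i : Fin 8}
    (hi : i ∉ T) (h : p i = q i) : p = q := by
  classical
  ext j : 1
  have hp2 : ∀ k, p (p k) = k := fun k => by
    simpa using DFunLike.congr_fun hp k
  have hq2 : ∀ k, q (q k) = k := fun k => by
    simpa using DFunLike.congr_fun hq k
  by_cases hj : j ∈ T
  · rw [(hpT j).2 hj, (hqT j).2 hj]
  by_cases hji : j = i
  · rw [hji, h]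
  by_cases hjy : j = p i
  · rw [hjy, hp2, h, hq2]
  -- the only point outside left
  have key : ∀ r : Perm (Fin 8), r * r = 1 → (∀ k, r k = k ↔ k ∈ T) → r i = p i →
      r j ∈ (Finset.univ \ T) \ {i, p i, j} := by
    intro r hr hrT hri
    have hr2 : ∀ k, r (r k) = k := fun k => by simpa using DFunLike.congr_fun hr k
    simp only [Finset.mem_sdiff, Finset.mem_univ, true_and, Finset.mem_insert,
      Finset.mem_singleton, not_or]
    refine ⟨fun hm => ?_, fun e => ?_, fun e => ?_, fun e => hj ((hrT j).1 e)⟩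
    · have e := (hrT (r j)).2 hm
      rw [hr2] at e
      exact hj ((hrT j).1 e.symm)
    · have e' := congrArg r e
      rw [hr2, hri] at e'
      exact hjy e'
    · have e' := congrArg r (e.trans hri.symm)
      rw [hr2, hr2] at e'
      exact hji e'
  have hcard : ((Finset.univ \ T) \ {i, p i, j}).card = 1 := by
    have hsub : ({i, p i, j} : Finset (Fin 8)) ⊆ Finset.univ \ T := by
      intro k hk
      simp only [Finset.mem_insert, Finset.mem_singleton] at hk
      simp only [Finset.mem_sdiff, Finset.mem_univ, true_and]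
      rcases hk with rfl | rfl | rfl
      · exact hi
      · intro hm
        have e := (hpT (p i)).2 hm
        rw [hp2] at e
        exact hi ((hpT i).1 e.symm)
      · exact hj
    have h3 : ({i, p i, j} : Finset (Fin 8)).card = 3 := by
      have : i ≠ p i := fun e => hi ((hpT i).1 e.symm)
      simp [this, Ne.symm hji, Ne.symm hjy]
    rw [Finset.card_sdiff_of_subset hsub, h3, Finset.card_univ_sdiff, hT, Fintype.card_fin]
  exact Finset.card_le_one.1 hcard.le _ (key p hp hpT rfl) _ (key q hq hqT h.symm)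

/-- A subgroup of order at least 720, divisible by five and not by seven, fixes exactly one pair. -/
theorem exists_pair (K : Subgroup (Perm (Fin 8))) (hA : K ≤ alternatingGroup (Fin 8))
    (h5 : 5 ∣ Nat.card K) (h7 : ¬ 7 ∣ Nat.card K) (h720 : 720 ≤ Nat.card K) :
    Nat.card K = 720 ∧ ∃ d : Finset (Fin 8), d.card = 2 ∧ (∀ k ∈ K, d.image k = d) ∧
      ∀ d' : Finset (Fin 8), d'.card = 2 → (∀ k ∈ K, d'.image k = d') → d' = d := by
  classical
  haveI : Fact (Nat.Prime 5) := ⟨by norm_num⟩
  obtain ⟨b, hb⟩ := exists_prime_orderOf_dvd_card' (G := K) 5 h5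
  set σ : Perm (Fin 8) := (b : Perm (Fin 8)) with hσdef
  have hσ : orderOf σ = 5 := by rw [hσdef, Subgroup.orderOf_coe]; exact hb
  have hcyc : σ.IsCycle :=
    Perm.isCycle_of_prime_order' (by rw [hσ]; norm_num) (by rw [hσ]; simp)
  obtain ⟨i, hi⟩ := Finset.card_pos.1 (show 0 < σ.support.card by rw [← hcyc.orderOf, hσ]; norm_num)
  set O : Finset (Fin 8) := Finset.univ.filter fun j => ∃ k : K, (k : Perm (Fin 8)) i = j with hO
  have hmemO : ∀ j, j ∈ O ↔ ∃ k : K, (k : Perm (Fin 8)) i = j := fun j => by simp [hO]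
  have hsubO : σ.support ⊆ O := by
    intro j hj
    obtain ⟨n, rfl⟩ := hcyc.exists_pow_eq (Perm.mem_support.1 hi) (Perm.mem_support.1 hj)
    exact (hmemO _).2 ⟨b ^ n, by simp [hσdef]⟩
  have h5O : 5 ≤ O.card := by
    have := Finset.card_le_card hsubO
    rwa [← hcyc.orderOf, hσ] at this
  have hKO : ∀ k ∈ K, ∀ j ∈ O, k j ∈ O := by
    intro k hk j hj
    obtain ⟨k', rfl⟩ := (hmemO j).1 hj
    exact (hmemO _).2 ⟨⟨k, hk⟩ * k', rfl⟩
  have hKc : ∀ k ∈ K, ∀ j, j ∉ O → k j ∉ O := fun k hk j hj hkj => hj (by
    have := hKO k⁻¹ (inv_mem hk) _ hkj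
    simpa using this)
  have hOdvd : O.card ∣ Nat.card K := by
    have e : Nat.card (MulAction.orbit K i) = O.card := by
      rw [Nat.card_coe_set_eq, ← Set.ncard_coe_finset]
      congr 1
      ext j
      simp only [hO, Finset.coe_filter, Finset.mem_univ, true_and, MulAction.mem_orbit_iff]
      rfl
    rw [← e, Nat.card_congr (MulAction.orbitEquivQuotientStabilizer K i)]
    exact Subgroup.card_quotient_dvd_card _
  have hO8 : O.card ≤ 8 := (Finset.card_le_univ _).trans_eq (Fintype.card_fin 8)
  have hne8 : O.card ≠ 8 := by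
    intro h8
    have huniv : O = Finset.univ := Finset.eq_univ_of_card O (by rw [h8, Fintype.card_fin])
    have h0 : MulAction.orbit K (0 : Fin 8) = Set.univ := by
      refine Set.eq_univ_of_forall fun j => ?_
      obtain ⟨k0, hk0⟩ := (hmemO 0).1 (huniv ▸ Finset.mem_univ _)
      obtain ⟨kj, hkj⟩ := (hmemO j).1 (huniv ▸ Finset.mem_univ _)
      refine ⟨kj * k0⁻¹, ?_⟩
      show (kj : Perm (Fin 8)) ((k0 : Perm (Fin 8))⁻¹ 0) = j
      rw [show (k0 : Perm (Fin 8))⁻¹ 0 = i from Perm.inv_eq_iff_eq.2 hk0.symm, hkj]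
    rw [CfsgLib.GL4F2.eq_alternating_of_transitive K hA h0 h5, nat_card_alternatingGroup,
      Nat.card_fin] at h7
    exact h7 (by decide)
  have hne7 : O.card ≠ 7 := fun h => h7 (h ▸ hOdvd)
  -- restriction to the orbit
  let φ : K →* Perm {j // j ∈ O} :=
    { toFun := fun k =>
        { toFun := fun j => ⟨(k : Perm (Fin 8)) j, hKO _ k.2 _ j.2⟩
          invFun := fun j => ⟨(k : Perm (Fin 8))⁻¹ j, hKO _ (inv_mem k.2) _ j.2⟩
          left_inv := fun j => by ext; simp
          right_inv := fun j => by ext; simp }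
      map_one' := by ext; simp
      map_mul' := fun k l => by ext; simp }
  have hkerfix : ∀ k ∈ φ.ker, ∀ j ∈ O, (k : Perm (Fin 8)) j = j := fun k hk j hj =>
    congrArg Subtype.val (Equiv.ext_iff.1 hk ⟨j, hj⟩)
  have hle : Nat.card K ≤ Nat.card φ.ker * Nat.factorial O.card := by
    rw [← φ.ker.card_mul_index, Subgroup.index_ker]
    refine Nat.mul_le_mul le_rfl ((Subgroup.card_le_card_group _).trans_eq ?_)
    rw [Nat.card_perm, Nat.card_eq_fintype_card, Fintype.card_coe]
  have hsign : ∀ k : K, Perm.sign (k : Perm (Fin 8)) = 1 := fun k =>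
    Perm.mem_alternatingGroup.1 (hA k.2)
  have hO6 : O.card = 6 := by
    by_contra hn6
    have hO5 : O.card = 5 := by omega
    obtain ⟨a, ha⟩ : (Finset.univ \ O).Nonempty := by
      rw [← Finset.card_pos, Finset.card_univ_sdiff, hO5, Fintype.card_fin]; norm_num
    have ha' : a ∉ O := (Finset.mem_sdiff.1 ha).2
    have hker : Nat.card φ.ker ≤ 3 := by
      have h3 : Nat.card {j // j ∈ Finset.univ \ O} = 3 := by
        rw [Nat.card_eq_fintype_card, Fintype.card_coe, Finset.card_univ_sdiff, hO5,
          Fintype.card_fin]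
      rw [← h3]
      refine Nat.card_le_card_of_injective (fun k : φ.ker =>
        (⟨((k : K) : Perm (Fin 8)) a, Finset.mem_sdiff.2
          ⟨Finset.mem_univ _, hKc _ (k : K).2 a ha'⟩⟩ : {j // j ∈ Finset.univ \ O})) ?_
      intro k l hkl
      have e : ((k : K) : Perm (Fin 8)) a = ((l : K) : Perm (Fin 8)) a := congrArg Subtype.val hkl
      have h1 := eq_one_of_small (σ := (((l : K)⁻¹ * (k : K) : K) : Perm (Fin 8)))
        (S := (Finset.univ \ O).erase a) (hsign _)
        (by rw [Finset.card_erase_of_mem ha, Finset.card_univ_sdiff, hO5, Fintype.card_fin])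
        (fun j hj => by
          simp only [Finset.mem_erase, Finset.mem_sdiff, Finset.mem_univ, true_and, not_and,
            not_not] at hj
          by_cases hja : j = a
          · subst hja; simp [e]
          · exact hkerfix _ (φ.ker.mul_mem (φ.ker.inv_mem l.2) k.2) j (hj hja))
      exact Subtype.ext (inv_mul_eq_one.1 (Subtype.ext h1)).symm
    rw [hO5] at hle
    have := Nat.mul_le_mul_right (Nat.factorial 5) hker
    rw [show Nat.factorial 5 = 120 from rfl] at hle this
    omega
  have hker : Nat.card φ.ker = 1 := by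
    rw [Subgroup.card_eq_one, Subgroup.eq_bot_iff_forall]
    intro k hk
    exact Subtype.ext (eq_one_of_small (S := Finset.univ \ O) (hsign k)
      (by rw [Finset.card_univ_sdiff, hO6, Fintype.card_fin])
      (fun j hj => hkerfix k hk j (by simpa using hj)))
  rw [hker, hO6, one_mul, show Nat.factorial 6 = 720 from rfl] at hle
  refine ⟨le_antisymm hle h720, Finset.univ \ O,
    by rw [Finset.card_univ_sdiff, hO6, Fintype.card_fin], fun k hk => ?_, fun d hd hinv => ?_⟩
  · refine Finset.eq_of_subset_of_card_le (fun j hj => ?_)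
      (by rw [Finset.card_image_of_injective _ k.injective])
    obtain ⟨l, hl, rfl⟩ := Finset.mem_image.1 hj
    exact Finset.mem_sdiff.2 ⟨Finset.mem_univ _, hKc k hk l (Finset.mem_sdiff.1 hl).2⟩
  · refine Finset.eq_of_subset_of_card_le (fun j hj => ?_)
      (by rw [Finset.card_univ_sdiff, hO6, Fintype.card_fin, hd])
    refine Finset.mem_sdiff.2 ⟨Finset.mem_univ _, fun hjO => ?_⟩
    have hsub : O ⊆ d := by
      intro l hl
      obtain ⟨kl, rfl⟩ := (hmemO l).1 hl
      obtain ⟨kj, rfl⟩ := (hmemO j).1 hjO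
      rw [← hinv _ (kl * kj⁻¹).2]
      exact Finset.mem_image.2 ⟨_, hj, by simp⟩
    have := Finset.card_le_card hsub
    omega

end CfsgLib.M24Count.Orbit
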