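import Cfsg.Agent.M24Count.OrbitVert
import Cfsg.Agent.M24Count.OrbitPerm
import Cfsg.Agent.M22Count.Graph
import Mathlib.GroupTheory.Index
import Mathlib.Data.Fintype.BigOperators

/-!
Seen from one conjugate of an octad the others fall into 30 neighbours, two on each hyperplane,
280 near vertices, four on each tetrad of the eight points, and 448 in general position.
-/

set_option autoImplicit false
set_option linter.style.haveILetI false
set_option linter.unusedSectionVars false

open MulAction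
open Matrix
open CfsgLib.GL4F2 (M4 starPerm)
open CfsgLib.M23Count.Orbits (mem_map_aut card_map_aut)

namespace CfsgLib.M24Count.Orbit

universe u

variable {G : Type u} [Group G] (E : Subgroup G)

/-- Distinct vertices with parts of order eight. -/
def Adj (v w : Vert E) : Prop := v ≠ w ∧ Nat.card (part E v w) = 8

/-- Distinct vertices with parts of order four. -/
def Near (v w : Vert E) : Prop := v ≠ w ∧ Nat.card (part E v w) = 4

/-- Distinct vertices with trivial parts. -/
def Far (v w : Vert E) : Prop := v ≠ w ∧ Nat.card (part E v w) = 1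

theorem adj_smul (g : G) {v w : Vert E} (hw : Adj E v w) : Adj E (g • v) (g • w) :=
  ⟨fun e => hw.1 (smul_left_cancel g e), by rw [card_part_smul]; exact hw.2⟩

theorem near_smul (g : G) {v w : Vert E} (hw : Near E v w) : Near E (g • v) (g • w) :=
  ⟨fun e => hw.1 (smul_left_cancel g e), by rw [card_part_smul]; exact hw.2⟩

theorem far_smul (g : G) {v w : Vert E} (hw : Far E v w) : Far E (g • v) (g • w) :=
  ⟨fun e => hw.1 (smul_left_cancel g e), by rw [card_part_smul]; exact hw.2⟩

theorem adj_smul_iff {g : G} {v w : Vert E} (hg : g • v = v) : Adj E v (g • w) ↔ Adj E v w := by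
  refine ⟨fun hw => ?_, fun hw => by simpa [hg] using adj_smul E g hw⟩
  have := adj_smul E g⁻¹ hw
  rwa [inv_smul_smul, inv_smul_eq_iff.2 hg.symm] at this

theorem near_smul_iff {g : G} {v w : Vert E} (hg : g • v = v) : Near E v (g • w) ↔ Near E v w := by
  refine ⟨fun hw => ?_, fun hw => by simpa [hg] using near_smul E g hw⟩
  have := near_smul E g⁻¹ hw
  rwa [inv_smul_smul, inv_smul_eq_iff.2 hg.symm] at this

theorem far_smul_iff {g : G} {v w : Vert E} (hg : g • v = v) : Far E v (g • w) ↔ Far E v w := by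
  refine ⟨fun hw => ?_, fun hw => by simpa [hg] using far_smul E g hw⟩
  have := far_smul E g⁻¹ hw
  rwa [inv_smul_smul, inv_smul_eq_iff.2 hg.symm] at this

/-- A finite type with all fibres of the same size. -/
theorem card_of_fibres {α β : Type*} [Finite α] [Finite β] (f : α → β) (k : ℕ)
    (hf : ∀ b, Nat.card {a // f a = b} = k) : Nat.card α = Nat.card β * k := by
  classical
  haveI := Fintype.ofFinite β
  rw [← Nat.card_congr (Equiv.sigmaFiberEquiv f), Nat.card_sigma,
    Finset.sum_congr rfl fun b _ => hf b, Finset.sum_const, Finset.card_univ, smul_eq_mul,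
    Nat.card_eq_fintype_card]

variable {E}
variable (h : Octad E)
include h

theorem conj_part_mem {v w : Vert E} {a e : G} (he : e ∈ sub E v) (ha : a ∈ sub E v) :
    a ∈ part E v (e • w) ↔ a ∈ part E v w := by
  rw [mem_part, mem_part]
  refine and_congr_right fun _ => ?_
  rw [← mul_smul, sub_comm h ha he, mul_smul]
  exact ⟨fun e' => smul_left_cancel e e', fun e' => by rw [e']⟩

theorem part_smul_sub {v w : Vert E} {e : G} (he : e ∈ sub E v) :
    part E v (e • w) = part E v w := by
  ext a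
  exact ⟨fun ha => (conj_part_mem h he ((mem_part E).1 ha).1).1 ha,
    fun ha => (conj_part_mem h he ((mem_part E).1 ha).1).2 ha⟩

variable [Finite G]

theorem adj_symm {v w : Vert E} (hw : Adj E v w) : Adj E w v :=
  ⟨hw.1.symm, by rw [card_part_symm h hw.1.symm]; exact hw.2⟩

theorem near_symm {v w : Vert E} (hw : Near E v w) : Near E w v :=
  ⟨hw.1.symm, by rw [card_part_symm h hw.1.symm]; exact hw.2⟩

theorem far_symm {v w : Vert E} (hw : Far E v w) : Far E w v :=
  ⟨hw.1.symm, by rw [card_part_symm h hw.1.symm]; exact hw.2⟩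

theorem vert_cases (v w : Vert E) : v = w ∨ Adj E v w ∨ Near E v w ∨ Far E v w := by
  by_cases hvw : v = w
  · exact Or.inl hvw
  rcases card_part_cases h hvw with e | e | e
  · exact Or.inr (Or.inr (Or.inr ⟨hvw, e⟩))
  · exact Or.inr (Or.inr (Or.inl ⟨hvw, e⟩))
  · exact Or.inr (Or.inl ⟨hvw, e⟩)

/-- The orbit of the subgroup at `v` through a vertex. -/
theorem card_orbit_sub (v w : Vert E) :
    Nat.card {z : Vert E // ∃ e ∈ sub E v, e • w = z} * Nat.card (part E v w) = 16 := by
  have e1 : Nat.card {z : Vert E // ∃ e ∈ sub E v, e • w = z} =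
      Nat.card (MulAction.orbit (sub E v) w) := by
    refine Nat.card_congr (Equiv.subtypeEquivRight fun z => ?_)
    rw [MulAction.mem_orbit_iff]
    exact ⟨fun ⟨e, he, hz⟩ => ⟨⟨e, he⟩, hz⟩, fun ⟨e, hz⟩ => ⟨e, e.2, hz⟩⟩
  have e2 : Nat.card (part E v w) = Nat.card (MulAction.stabilizer (sub E v) w) := Nat.card_congr
    { toFun := fun a => ⟨⟨a, a.2.1⟩, ((mem_part E).1 a.2).2⟩
      invFun := fun a => ⟨a.1, (mem_part E).2 ⟨a.1.2, a.2⟩⟩
      left_inv := fun _ => rfl
      right_inv := fun _ => rfl }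
  rw [e1, e2, Nat.card_congr (MulAction.orbitEquivQuotientStabilizer (sub E v) w),
    ← Subgroup.card_eq_card_quotient_mul_card_subgroup, (oct h v).card]

/-- Lifts of one element of `part w v` modulo the subgroup at `v`. -/
theorem lift_mem {v z0 : Vert E} (hvz : v ≠ z0) {a0 a : G} (ha0 : a0 ∈ part E z0 v) (a1 : a0 ≠ 1)
    (haa : a * a = 1) (hq : a0⁻¹ * a ∈ sub E v) : a0⁻¹ * a ∈ part E v z0 := by
  rw [part_eq_cent h hvz ha0 a1, Subgroup.mem_inf, Subgroup.mem_centralizer_singleton_iff]
  refine ⟨hq, ?_⟩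
  obtain ⟨ha0', -⟩ := (mem_part E).1 ha0
  have hee : (a0⁻¹ * a) * (a0⁻¹ * a) = 1 := sub_sq h hq
  rw [sub_inv h ha0'] at hee ⊢
  have h00 := sub_sq h ha0'
  have : a0 * (a0 * a) = a := by rw [← mul_assoc, h00, one_mul]
  rw [this]
  calc a0 * a * a0 = a0 * a * a0 * (a * a) := by rw [haa, mul_one]
    _ = a0 * a * (a0 * a) * a := by group
    _ = a := by rw [hee, one_mul]

/-! ### Neighbours -/

/-- The hyperplane with normal vector `p`. -/
def hypP (v : Vert E) (p : W) : Subgroup G where
  carrier := {a | a ∈ sub E v ∧ p ⬝ᵥ crd h v a = 0}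
  one_mem' := ⟨one_mem _, by rw [crd_one, dotProduct_zero]⟩
  mul_mem' := fun {a b} ha hb => ⟨mul_mem ha.1 hb.1, by
    rw [crd_mul h ha.1 hb.1, dotProduct_add, ha.2, hb.2, add_zero]⟩
  inv_mem' := fun {a} ha => ⟨inv_mem ha.1, by rw [sub_inv h ha.1]; exact ha.2⟩

theorem mem_hypP {v : Vert E} {p : W} {a : G} :
    a ∈ hypP h v p ↔ a ∈ sub E v ∧ p ⬝ᵥ crd h v a = 0 := Iff.rfl

theorem hypP_inj {v : Vert E} {p q : W} (e : hypP h v p = hypP h v q) : p = q := by
  refine normal_vec_unique p q fun c => ?_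
  have := SetLike.ext_iff.1 e (elt h v c)
  simpa [mem_hypP, elt_mem, crd_elt] using this

theorem exists_hypP {v : Vert E} {B : Subgroup G} (hB : B ≤ sub E v) (h8 : Nat.card B = 8) :
    ∃ p : W, p ≠ 0 ∧ B = hypP h v p := by
  let H : AddSubgroup W :=
    { carrier := {c | elt h v c ∈ B}
      zero_mem' := by
        have : elt h v (0 : W) = 1 :=
          crd_inj h (elt_mem h v _) (one_mem _) (by rw [crd_elt, crd_one])
        show elt h v 0 ∈ B
        rw [this]; exact one_mem _
      add_mem' := fun {c d} hc hd => by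
        show elt h v (c + d) ∈ B
        rw [elt_add]; exact mul_mem hc hd
      neg_mem' := fun {c} hc => by
        show elt h v (-c) ∈ B
        rwa [show -c = c from neg_eq_of_add_eq_zero_right (add_self c)] }
  have hH : Nat.card H = 8 := by
    rw [← h8]
    exact Nat.card_congr
      { toFun := fun c => ⟨elt h v c, c.2⟩
        invFun := fun a => ⟨crd h v a, by show elt h v _ ∈ B; rw [elt_crd h (hB a.2)]; exact a.2⟩
        left_inv := fun c => Subtype.ext (crd_elt h v c.1)
        right_inv := fun a => Subtype.ext (elt_crd h (hB a.2)) }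
  obtain ⟨p, hp0, hp⟩ := exists_normal_vec H hH
  refine ⟨p, hp0, ?_⟩
  ext a
  rw [mem_hypP]
  constructor
  · intro ha
    refine ⟨hB ha, (hp _).1 ?_⟩
    show elt h v _ ∈ B
    rw [elt_crd h (hB ha)]; exact ha
  · rintro ⟨ha, hd⟩
    have : elt h v (crd h v a) ∈ B := (hp _).2 hd
    rwa [elt_crd h ha] at this

theorem card_hypP_std (v : Vert E) : Nat.card (hypP h v (Pi.single 3 1)) = 8 := by
  rw [← card_hyp]
  exact Nat.card_congr
    { toFun := fun a => ⟨crd h v a, by simpa [single_dotProduct] using a.2.2⟩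
      invFun := fun c => ⟨elt h v c, elt_mem h v _, by
        rw [crd_elt, single_dotProduct, one_mul]; exact c.2⟩
      left_inv := fun a => Subtype.ext (elt_crd h a.2.1)
      right_inv := fun c => Subtype.ext (crd_elt h v c) }

theorem exists_move_hyp {v : Vert E} {p : W} (hp : p ≠ 0) :
    ∃ n : ↥(MulAction.stabilizer G v),
      (hypP h v (Pi.single 3 1)).map (MulAut.conj (n : G)).toMonoidHom = hypP h v p := by
  obtain ⟨g, hg⟩ := exists_normal_move hp
  obtain ⟨n, hn⟩ := rho_surj h v g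
  refine ⟨n, ?_⟩
  ext a
  rw [mem_map_aut, MulAut.conj_symm_apply, mem_hypP, mem_hypP, single_dotProduct, one_mul]
  constructor
  · rintro ⟨ha, h3⟩
    have hc := rho_conj h n ha
    rw [show (n : G) * ((n : G)⁻¹ * a * n) * (n : G)⁻¹ = a by group, hn] at hc
    have ha' : a ∈ sub E v := by
      have := conj_mem h n.2 ha
      rwa [show (n : G) * ((n : G)⁻¹ * a * n) * (n : G)⁻¹ = a by group] at this
    exact ⟨ha', by rw [hc]; exact (hg _).2 h3⟩
  · rintro ⟨ha, h0⟩
    have hb : (n : G)⁻¹ * a * n ∈ sub E v := by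
      have := conj_mem h (g := (n : G)⁻¹) (inv_smul_eq_iff.2 n.2.symm) ha
      rwa [inv_inv] at this
    refine ⟨hb, (hg _).1 ?_⟩
    have hc := rho_conj h n hb
    rw [show (n : G) * ((n : G)⁻¹ * a * n) * (n : G)⁻¹ = a by group, hn] at hc
    rwa [← hc]

/-- Each hyperplane carries as many neighbours as the standard one. -/
theorem card_neigh_eq {v : Vert E} {p : W} (hp : p ≠ 0) :
    Nat.card {z // Adj E v z ∧ part E v z = hypP h v p} =
      Nat.card {z // Adj E v z ∧ part E v z = hypP h v (Pi.single 3 1)} := by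
  obtain ⟨n, hn⟩ := exists_move_hyp h (v := v) hp
  refine (Nat.card_congr (Equiv.subtypeEquiv (MulAction.toPerm (n : G)) fun z => ?_)).symm
  rw [MulAction.toPerm_apply, adj_smul_iff E n.2, ← hn]
  refine and_congr_right fun _ => ?_
  have e0 := part_smul E (n : G) v z
  rw [(n.2 : (n : G) • v = v)] at e0
  rw [e0]
  exact ⟨fun e => by rw [e], fun e => Subgroup.map_injective (MulAut.conj (n : G)).injective e⟩

/-- There are at most eight neighbours on the standard hyperplane. -/
theorem card_neigh_le (v : Vert E) :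
    Nat.card {z // Adj E v z ∧ part E v z = hypP h v (Pi.single 3 1)} ≤ 8 := by
  classical
  set B := hypP h v (Pi.single 3 1) with hB
  have key : ∀ z : {z // Adj E v z ∧ part E v z = B}, ∃ a : ↥(MulAction.stabilizer G v),
      (a : G) ∈ sub E z.1 ∧ (rho h v a : M4) = tau := by
    intro z
    have hax : ∀ a : part E z.1 v, ∀ c : W, c 3 = 0 →
        (rho h v ⟨a, a.2.2⟩ : M4) *ᵥ c = c := by
      intro a c hc
      by_cases a1 : (a : G) = 1
      · rw [show (⟨a, a.2.2⟩ : MulAction.stabilizer G v) = 1 from Subtype.ext a1, map_one,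
          Units.val_one, Matrix.one_mulVec]
      have hm : elt h v c ∈ part E v z.1 := by
        rw [z.2.2, hB, mem_hypP, crd_elt, single_dotProduct, one_mul]
        exact ⟨elt_mem h v c, hc⟩
      rw [part_eq_cent h z.2.1.1 a.2 a1] at hm
      have := (rho_fix_iff h ⟨a, a.2.2⟩ hm.1).2
        (Commute.symm (Subgroup.mem_centralizer_singleton_iff.1 hm.2))
      rwa [crd_elt] at this
    let f : part E z.1 v → (Fin 3 → ZMod 2) := fun a i =>
      (rho h v ⟨a, a.2.2⟩ : M4) i.castSucc 3
    have hinj : Function.Injective f := by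
      intro a b e
      have e' := eq_of_column (hax a) (hax b) (rho_sq h _ (sub_sq h a.2.1))
        (rho_sq h _ (sub_sq h b.2.1)) (congrFun e)
      have e2 : rho h v (⟨a, a.2.2⟩⁻¹ * ⟨b, b.2.2⟩) = 1 := by
        rw [map_mul, map_inv, inv_mul_eq_one]; exact Units.ext e'
      rw [rho_eq_one_iff] at e2
      by_contra hne
      exact z.2.1.1 (eq_of_mem h e2 (mul_mem (inv_mem a.2.1) b.2.1)
        fun e3 => hne (Subtype.ext (inv_mul_eq_one.1 e3)))
    obtain ⟨a, ha⟩ := (hinj.bijective_of_nat_card_le (by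
      rw [(adj_symm h z.2.1).2, Nat.card_eq_fintype_card]; rfl)).2 fun i => tau i.castSucc 3
    exact ⟨⟨a, a.2.2⟩, a.2.1, eq_of_column (hax a) tau_axis (rho_sq h _ (sub_sq h a.2.1)) tau_sq
      (congrFun ha)⟩
  choose a ha hρ using key
  rcases isEmpty_or_nonempty {z // Adj E v z ∧ part E v z = B} with hem | ⟨⟨z0⟩⟩
  · simp
  rw [← card_hypP_std h v]
  refine Nat.card_le_card_of_injective (fun z => (⟨(a z0 : G)⁻¹ * a z, ?_⟩ : B)) ?_
  · have hm : (a z0 : G)⁻¹ * a z ∈ part E v z0.1 := by
      refine lift_mem h z0.2.1.1 ((mem_part E).2 ⟨ha z0, (a z0).2⟩) (fun e => ?_)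
        (sub_sq h (ha z)) ?_
      · apply tau_ne_one
        rw [← hρ z0, show a z0 = 1 from Subtype.ext e, map_one, Units.val_one]
      · exact (rho_eq_one_iff h ((a z0)⁻¹ * a z)).1 (by
          rw [map_mul, map_inv, inv_mul_eq_one]; exact Units.ext ((hρ z0).trans (hρ z).symm))
    exact (SetLike.ext_iff.1 z0.2.2 _).1 hm
  · intro z z' e
    have e' : (a z : G) = a z' := mul_left_cancel (congrArg Subtype.val e)
    refine Subtype.ext (eq_of_mem h (ha z) (e' ▸ ha z') fun e1 => ?_)
    apply tau_ne_one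
    rw [← hρ z, show a z = 1 from Subtype.ext e1, map_one, Units.val_one]

theorem card_adj_eq (v : Vert E) :
    Nat.card {z // Adj E v z} =
      15 * Nat.card {z // Adj E v z ∧ part E v z = hypP h v (Pi.single 3 1)} := by
  classical
  choose p hp hpB using fun z : {z // Adj E v z} =>
    exists_hypP h (show part E v z.1 ≤ sub E v from inf_le_left) z.2.2
  rw [← card_ne_zero_W]
  refine card_of_fibres (fun z => (⟨p z, hp z⟩ : {p : W // p ≠ 0})) _ fun q => ?_
  rw [← card_neigh_eq h q.2]
  exact Nat.card_congr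
    { toFun := fun z => ⟨z.1.1, z.1.2, by rw [hpB z.1, show p z.1 = q.1 from congrArg Subtype.val z.2]⟩
      invFun := fun z => ⟨⟨z.1, z.2.1⟩, Subtype.ext
        (hypP_inj h ((hpB ⟨z.1, z.2.1⟩).symm.trans z.2.2))⟩
      left_inv := fun _ => rfl
      right_inv := fun _ => rfl }

/-! ### Near vertices -/

/-- The action of the stabiliser on the eight points. -/
noncomputable def pi (v : Vert E) : ↥(MulAction.stabilizer G v) →* Equiv.Perm (Fin 8) :=
  (alternatingGroup (Fin 8)).subtype.comp (starPerm.comp (rho h v))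

theorem pi_eq_iff {v : Vert E} (m n : ↥(MulAction.stabilizer G v)) :
    pi h v m = pi h v n ↔ (n : G)⁻¹ * m ∈ sub E v := by
  rw [← Subgroup.coe_inv, ← Subgroup.coe_mul, ← rho_eq_one_iff h, map_mul, map_inv, inv_mul_eq_one]
  show ((starPerm (rho h v m) : alternatingGroup (Fin 8)) : Equiv.Perm (Fin 8)) = _ ↔ _
  exact ⟨fun e => (CfsgLib.GL4F2.starPerm_injective (Subtype.ext e)).symm, fun e => by rw [← e]; rfl⟩

theorem pi_sign {v : Vert E} (n : ↥(MulAction.stabilizer G v)) :
    Equiv.Perm.sign (pi h v n) = 1 :=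
  Equiv.Perm.mem_alternatingGroup.1 (starPerm (rho h v n)).2

theorem pi_surj {v : Vert E} {σ : Equiv.Perm (Fin 8)} (hσ : Equiv.Perm.sign σ = 1) :
    ∃ n, pi h v n = σ := by
  obtain ⟨g, hg⟩ := CfsgLib.GL4F2.equivAlt8.surjective ⟨σ, Equiv.Perm.mem_alternatingGroup.2 hσ⟩
  obtain ⟨n, hn⟩ := rho_surj h v g
  refine ⟨n, ?_⟩
  show ((starPerm (rho h v n) : alternatingGroup (Fin 8)) : Equiv.Perm (Fin 8)) = σ
  rw [hn]
  exact congrArg Subtype.val hg

theorem pi_of_sub {v : Vert E} (n : ↥(MulAction.stabilizer G v)) (hn : (n : G) ∈ sub E v) :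
    pi h v n = 1 := by
  rw [← map_one (pi h v), pi_eq_iff]
  simpa using hn

/-- The fixed points of two members of a part agree. -/
theorem fix_pair {v w : Vert E} (hw : Near E v w) {a b : ↥(MulAction.stabilizer G v)}
    (ha : (a : G) ∈ sub E w) (hb : (b : G) ∈ sub E w) (a1 : (a : G) ≠ 1) (b1 : (b : G) ≠ 1)
    (hab : (a : G) ≠ b) :
    (∀ i, pi h v a i = i ↔ pi h v b i = i) ∧
      (Finset.univ.filter fun i => pi h v a i = i).card = 4 := by
  have key : ∀ n : ↥(MulAction.stabilizer G v), (n : G) ∈ sub E w → (n : G) ≠ 1 →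
      ∀ c, (rho h v n : M4) *ᵥ c = c ↔ elt h v c ∈ part E v w := by
    intro n hn n1 c
    rw [part_eq_cent h hw.1 ((mem_part E).2 ⟨hn, n.2⟩) n1, Subgroup.mem_inf,
      Subgroup.mem_centralizer_singleton_iff, and_iff_right (elt_mem h v c)]
    constructor
    · intro e
      exact ((rho_fix_iff h n (elt_mem h v c)).1 (by rw [crd_elt]; exact e)).eq.symm
    · intro e
      have := (rho_fix_iff h n (elt_mem h v c)).2 e.symm
      rwa [crd_elt] at this
  have hab1 : ((a * b : MulAction.stabilizer G v) : G) ≠ 1 := by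
    rw [Subgroup.coe_mul]
    exact fun e => hab ((eq_inv_of_mul_eq_one_left e).trans (sub_inv h hb))
  obtain ⟨g, hga, hgb⟩ := normal_form (rho_sq h a (sub_sq h ha)) (rho_sq h b (sub_sq h hb))
    (by rw [← Units.val_mul, ← Units.val_mul, ← map_mul, ← map_mul,
      show a * b = b * a from Subtype.ext (sub_comm h ha hb)])
    (by
      rw [← card_cent h v a, ← part_eq_cent h hw.1 ((mem_part E).2 ⟨ha, a.2⟩) a1]
      exact hw.2)
    (fun c => by rw [key a ha a1, key b hb b1])
    (fun c => by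
      rw [key a ha a1, Matrix.mulVec_mulVec, ← Units.val_mul, ← map_mul,
        key (a * b) (by rw [Subgroup.coe_mul]; exact mul_mem ha hb) hab1])
  exact starPerm_form hga hgb

theorem exists_two {v w : Vert E} (hw : Near E v w) : ∃ a b : ↥(MulAction.stabilizer G v),
    (a : G) ∈ sub E w ∧ (b : G) ∈ sub E w ∧ (a : G) ≠ 1 ∧ (b : G) ≠ 1 ∧ (a : G) ≠ b := by
  classical
  haveI := Fintype.ofFinite (part E w v)
  have h4 : Fintype.card (part E w v) = 4 := by
    rw [← Nat.card_eq_fintype_card]; exact (near_symm h hw).2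
  have : 1 < ((Finset.univ : Finset (part E w v)).erase 1).card := by
    rw [Finset.card_erase_of_mem (Finset.mem_univ _), Finset.card_univ, h4]; norm_num
  obtain ⟨a, ha, b, hb, hab⟩ := Finset.one_lt_card.1 this
  rw [Finset.mem_erase] at ha hb
  exact ⟨⟨a, a.2.2⟩, ⟨b, b.2.2⟩, a.2.1, b.2.1, fun e => ha.1 (Subtype.ext e),
    fun e => hb.1 (Subtype.ext e), fun e => hab (Subtype.ext e)⟩

/-- The common fixed points of the part of a vertex. -/
noncomputable def tet (v w : Vert E) : Finset (Fin 8) := by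
  classical
  exact Finset.univ.filter fun i =>
    ∀ a : ↥(MulAction.stabilizer G v), (a : G) ∈ sub E w → pi h v a i = i

theorem mem_tet {v w : Vert E} {i : Fin 8} : i ∈ tet h v w ↔
    ∀ a : ↥(MulAction.stabilizer G v), (a : G) ∈ sub E w → pi h v a i = i := by
  classical
  simp [tet]

theorem tet_fix {v w : Vert E} (hw : Near E v w) (a : ↥(MulAction.stabilizer G v))
    (ha : (a : G) ∈ sub E w) (a1 : (a : G) ≠ 1) (i : Fin 8) :
    pi h v a i = i ↔ i ∈ tet h v w := by
  rw [mem_tet]
  refine ⟨fun e b hb => ?_, fun e => e a ha⟩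
  by_cases b1 : (b : G) = 1
  · rw [show b = 1 from Subtype.ext b1, map_one]; rfl
  by_cases hab : (a : G) = b
  · rwa [← show a = b from Subtype.ext hab]
  · exact ((fix_pair h hw ha hb a1 b1 hab).1 i).1 e

theorem tet_card {v w : Vert E} (hw : Near E v w) : (tet h v w).card = 4 := by
  classical
  obtain ⟨a, b, ha, hb, a1, b1, hab⟩ := exists_two h hw
  rw [← (fix_pair h hw ha hb a1 b1 hab).2]
  congr 1
  ext i
  simp [tet_fix h hw a ha a1 i]

theorem tet_smul {v w : Vert E} (n : ↥(MulAction.stabilizer G v)) :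
    tet h v ((n : G) • w) = (tet h v w).image (pi h v n) := by
  ext i
  rw [mem_tet, Finset.mem_image]
  constructor
  · intro H
    refine ⟨(pi h v n)⁻¹ i, (mem_tet h).2 fun a ha => ?_, by simp⟩
    have h1 := H (n * a * n⁻¹) (by
      rw [mem_sub_smul']; simpa [mul_assoc] using ha)
    simp only [map_mul, map_inv, Equiv.Perm.mul_apply] at h1
    exact (Equiv.eq_symm_apply _).2 h1
  · rintro ⟨j, hj, rfl⟩ a ha
    have h1 := (mem_tet h).1 hj (n⁻¹ * a * n) (by rw [mem_sub_smul'] at ha; simpa using ha)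
    simp only [map_mul, map_inv, Equiv.Perm.mul_apply] at h1
    simpa using congrArg (pi h v n) h1

theorem card_tet_eq {v : Vert E} {T T' : Finset (Fin 8)} (hT : T.card = 4) (hT' : T'.card = 4) :
    Nat.card {w // Near E v w ∧ tet h v w = T} = Nat.card {w // Near E v w ∧ tet h v w = T'} := by
  obtain ⟨σ, hσ, hσT⟩ := exists_even_image (hT.trans hT'.symm) (by omega)
  obtain ⟨n, hn⟩ := pi_surj h (v := v) hσ
  refine Nat.card_congr (Equiv.subtypeEquiv (MulAction.toPerm (n : G)) fun w => ?_)
  rw [MulAction.toPerm_apply, near_smul_iff E n.2, tet_smul, hn, ← hσT]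
  exact and_congr_right fun _ =>
    ⟨fun e => by rw [e], fun e => Finset.image_injective σ.injective e⟩

theorem card_tet_le (v : Vert E) {T : Finset (Fin 8)} (hT : T.card = 4) :
    Nat.card {w // Near E v w ∧ tet h v w = T} ≤ 4 := by
  classical
  rcases isEmpty_or_nonempty {w // Near E v w ∧ tet h v w = T} with hem | ⟨⟨z0⟩⟩
  · simp
  obtain ⟨a0, _, ha0, _, a01, _, _⟩ := exists_two h z0.2.1
  obtain ⟨x0, hx0⟩ : (Finset.univ \ T).Nonempty := by
    rw [← Finset.card_pos, Finset.card_univ_sdiff, hT, Fintype.card_fin]; norm_num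
  have hx0' : x0 ∉ T := (Finset.mem_sdiff.1 hx0).2
  have hpsq : ∀ (z : Vert E) (a : ↥(MulAction.stabilizer G v)), (a : G) ∈ sub E z →
      pi h v a * pi h v a = 1 := fun z a ha => by
    rw [← map_mul, show a * a = 1 from Subtype.ext (sub_sq h ha), map_one]
  have mem_iff : ∀ (z : {w // Near E v w ∧ tet h v w = T}) (i : Fin 8),
      i ∈ tet h v z.1 ↔ i ∈ T := fun z i => by rw [z.2.2]
  have key : ∀ z : {w // Near E v w ∧ tet h v w = T}, ∃ a : ↥(MulAction.stabilizer G v),
      (a : G) ∈ sub E z.1 ∧ (a : G) ≠ 1 ∧ pi h v a = pi h v a0 := by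
    intro z
    have hout : ∀ a : part E z.1 v, pi h v ⟨a, a.2.2⟩ x0 ∈ Finset.univ \ T := by
      intro a
      refine Finset.mem_sdiff.2 ⟨Finset.mem_univ _, fun hm => hx0' ?_⟩
      have e := (mem_tet h).1 ((mem_iff z _).2 hm) ⟨a, a.2.2⟩ a.2.1
      rw [← Equiv.Perm.mul_apply, hpsq _ _ a.2.1, Equiv.Perm.one_apply] at e
      rw [e]; exact hm
    let f : part E z.1 v → {i // i ∈ Finset.univ \ T} := fun a => ⟨_, hout a⟩
    have hinj : Function.Injective f := by
      intro a b e
      by_contra hne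
      refine hx0' ?_
      rw [← mem_iff z, ← tet_fix h z.2.1 (⟨b, b.2.2⟩⁻¹ * ⟨a, a.2.2⟩)
        (mul_mem (inv_mem b.2.1) a.2.1) (fun e' => hne (Subtype.ext (inv_mul_eq_one.1 e').symm)),
        map_mul, map_inv, Equiv.Perm.mul_apply,
        show pi h v ⟨a, a.2.2⟩ x0 = pi h v ⟨b, b.2.2⟩ x0 from congrArg Subtype.val e]
      simp
    have hy : pi h v a0 x0 ∈ Finset.univ \ T := by
      refine Finset.mem_sdiff.2 ⟨Finset.mem_univ _, fun hm => hx0' ?_⟩
      have e := (mem_tet h).1 ((mem_iff z0 _).2 hm) a0 ha0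
      rw [← Equiv.Perm.mul_apply, hpsq _ _ ha0, Equiv.Perm.one_apply] at e
      rw [e]; exact hm
    obtain ⟨a, ha⟩ := (hinj.bijective_of_nat_card_le (by
      rw [(near_symm h z.2.1).2, Nat.card_eq_fintype_card, Fintype.card_coe,
        Finset.card_univ_sdiff, hT, Fintype.card_fin])).2 ⟨_, hy⟩
    have e : pi h v ⟨a, a.2.2⟩ x0 = pi h v a0 x0 := congrArg Subtype.val ha
    have a1 : (a : G) ≠ 1 := by
      intro e1
      rw [show (⟨a, a.2.2⟩ : MulAction.stabilizer G v) = 1 from Subtype.ext e1, map_one] at e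
      exact hx0' (z0.2.2 ▸ (tet_fix h z0.2.1 a0 ha0 a01 x0).1 e.symm)
    refine ⟨⟨a, a.2.2⟩, a.2.1, a1, eq_of_fix hT (hpsq _ _ a.2.1) (hpsq _ _ ha0)
      (fun i => ?_) (fun i => ?_) hx0' e⟩
    · rw [tet_fix h z.2.1 _ a.2.1 a1 i, z.2.2]
    · rw [tet_fix h z0.2.1 a0 ha0 a01 i, z0.2.2]
  choose a ha a1 hπ using key
  rw [← z0.2.1.2]
  refine Nat.card_le_card_of_injective
    (fun z => (⟨(a0 : G)⁻¹ * a z, ?_⟩ : part E v z0.1)) ?_
  · exact lift_mem h z0.2.1.1 ((mem_part E).2 ⟨ha0, a0.2⟩) a01 (sub_sq h (ha z))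
      ((pi_eq_iff h (a z) a0).1 (hπ z))
  · intro z z' e
    have e' : (a z : G) = a z' := mul_left_cancel (congrArg Subtype.val e)
    exact Subtype.ext (eq_of_mem h (ha z) (e' ▸ ha z') (a1 z))

theorem orbit_sub_tet {v w : Vert E} {e : G} (he : e ∈ sub E v) (hw : Near E v w) :
    Near E v (e • w) ∧ tet h v (e • w) = tet h v w := by
  refine ⟨(near_smul_iff E (sub_fix h he)).2 hw, ?_⟩
  have := tet_smul h (v := v) (w := w) ⟨e, sub_fix h he⟩
  rw [pi_of_sub h _ (show ((⟨e, sub_fix h he⟩ : MulAction.stabilizer G v) : G) ∈ sub E v from he)]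
    at this
  simpa using this

theorem card_tet_cases (v : Vert E) {T : Finset (Fin 8)} (hT : T.card = 4) :
    Nat.card {w // Near E v w ∧ tet h v w = T} = 0 ∨
      Nat.card {w // Near E v w ∧ tet h v w = T} = 4 := by
  rcases isEmpty_or_nonempty {w // Near E v w ∧ tet h v w = T} with hem | ⟨⟨z0⟩⟩
  · left; simp
  right
  refine le_antisymm (card_tet_le h v hT) ?_
  have h16 := card_orbit_sub h v z0.1
  rw [z0.2.1.2] at h16
  have h4 : Nat.card {z : Vert E // ∃ e ∈ sub E v, e • z0.1 = z} = 4 := by omega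
  rw [← h4]
  refine Nat.card_le_card_of_injective (fun z =>
    (⟨z.1, ?_⟩ : {w // Near E v w ∧ tet h v w = T})) ?_
  · obtain ⟨e, he, hz⟩ := z.2
    rw [← hz]
    exact ⟨(orbit_sub_tet h he z0.2.1).1, (orbit_sub_tet h he z0.2.1).2.trans z0.2.2⟩
  · intro z z' e
    exact Subtype.ext (by simpa using e)

theorem card_tetrads : Nat.card {T : Finset (Fin 8) // T.card = 4} = 70 := by
  rw [Nat.card_eq_fintype_card]
  simp only [Fintype.card_finset_len, Fintype.card_fin]
  rfl

theorem card_near_eq (v : Vert E) {T : Finset (Fin 8)} (hT : T.card = 4) :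
    Nat.card {w // Near E v w} = 70 * Nat.card {w // Near E v w ∧ tet h v w = T} := by
  rw [← card_tetrads h]
  refine card_of_fibres (fun w => (⟨tet h v w.1, tet_card h w.2⟩ :
    {T : Finset (Fin 8) // T.card = 4})) _ fun q => ?_
  rw [← card_tet_eq h q.2 hT]
  exact Nat.card_congr
    { toFun := fun z => ⟨z.1.1, z.1.2, congrArg Subtype.val z.2⟩
      invFun := fun z => ⟨⟨z.1, z.2.1⟩, Subtype.ext z.2.2⟩
      left_inv := fun _ => rfl
      right_inv := fun _ => rfl }

/-! ### The equation -/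

theorem card_vert (hs : Setup G) : Nat.card (Vert E) = 759 := by
  have h2 := (Subgroup.normalizer (E : Set G)).card_mul_index
  rw [h.norm_card, hs.card] at h2
  rw [← Subgroup.index_eq_card]
  omega

theorem sixteen_dvd_far (v : Vert E) : 16 ∣ Nat.card {w // Far E v w} := by
  refine CfsgLib.M22Count.HexGraph.dvd_card_of_stabilizer (sub E v) {w | Far E v w}
    (fun g hg x hx => (far_smul_iff E (sub_fix h hg)).2 hx) 1 16
    (by rw [(oct h v).card]) (by norm_num) fun x hx => ?_
  rw [← hx.2]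
  exact Nat.card_congr (Equiv.subtypeEquivRight fun g => (mem_part E).symm)

theorem card_split (hs : Setup G) (v : Vert E) :
    Nat.card {w // Adj E v w} + Nat.card {w // Near E v w} + Nat.card {w // Far E v w} + 1 =
      759 := by
  classical
  haveI := Fintype.ofFinite (Vert E)
  rw [← card_vert h hs]
  simp only [Nat.card_eq_fintype_card, Fintype.card_subtype]
  rw [← Finset.card_union_of_disjoint, ← Finset.card_union_of_disjoint, ← Finset.card_univ,
    ← Finset.card_erase_add_one (s := (Finset.univ : Finset (Vert E))) (a := v)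
      (Finset.mem_univ _)]
  · congr 2
    ext w
    simp only [Finset.mem_union, Finset.mem_filter, Finset.mem_univ, true_and, Finset.mem_erase,
      and_true]
    constructor
    · rintro ((hm | hm) | hm) <;> exact hm.1.symm
    · intro hw
      rcases vert_cases h v w with e | e | e | e
      · exact absurd e.symm hw
      · exact Or.inl (Or.inl e)
      · exact Or.inl (Or.inr e)
      · exact Or.inr e
  · rw [Finset.disjoint_left]
    simp only [Finset.mem_union, Finset.mem_filter, Finset.mem_univ, true_and]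
    rintro w (hm | hm) hf <;> have e := hm.2.symm.trans hf.2 <;> omega
  · rw [Finset.disjoint_filter]
    intro w _ hm hf
    have e := hm.2.symm.trans hf.2
    omega

/-- The three numbers and the sizes of the fibres. -/
theorem counts (hs : Setup G) (v : Vert E) :
    Nat.card {z // Adj E v z ∧ part E v z = hypP h v (Pi.single 3 1)} = 2 ∧
      (∀ T : Finset (Fin 8), T.card = 4 →
        Nat.card {w // Near E v w ∧ tet h v w = T} = 4) ∧
      Nat.card {w // Adj E v w} = 30 ∧ Nat.card {w // Near E v w} = 280 ∧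
      Nat.card {w // Far E v w} = 448 := by
  obtain ⟨T0, hT0⟩ : ∃ T : Finset (Fin 8), T.card = 4 := ⟨{0, 1, 2, 3}, rfl⟩
  have e1 := card_adj_eq h v
  have e2 := card_neigh_le h v
  have e3 := card_near_eq h v hT0
  have e4 := card_tet_cases h v hT0
  have e5 := card_split h hs v
  obtain ⟨r, hr⟩ := sixteen_dvd_far h v
  refine ⟨by omega, fun T hT => ?_, by omega, by omega, by omega⟩
  rw [card_tet_eq h hT hT0]
  omega

end CfsgLib.M24Count.Orbit
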