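import Cfsg.Agent.GL4F2.Alt8

/-!
Linear maps of `(ZMod 2)⁴` needed for the orbits of `2⁴ : A₈` on the conjugates of an octad: the fixed
space of an involution, the hyperplanes, the involutions with a given hyperplane, and the normal
form of a four-group all of whose involutions fix one line pointwise, with its action on eight points.
-/

set_option autoImplicit false

namespace CfsgLib.M24Count.Orbit

open Matrix
open CfsgLib.GL4F2 (M4 starPerm transvPerm Induces induces_starPerm transvPerm_spec)

/-- Column vectors. -/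
abbrev W : Type := Fin 4 → ZMod 2

theorem add_self (c : W) : c + c = 0 := by funext i; exact CharTwo.add_self_eq_zero _

theorem add_eq_zero_iff' {c d : W} : c + d = 0 ↔ c = d :=
  ⟨fun h => by
    have := congrArg (· + d) h
    simpa [add_assoc, add_self] using this, fun h => by rw [h]; exact add_self d⟩

theorem card_W : Nat.card W = 16 := by simp [Nat.card_eq_fintype_card]

/-- `c ↦ P c + c`. -/
def delta (P : M4) : W →+ W where
  toFun c := P *ᵥ c + c
  map_zero' := by simp
  map_add' c d := by rw [Matrix.mulVec_add]; abel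

theorem delta_apply (P : M4) (c : W) : delta P c = P *ᵥ c + c := rfl

theorem mem_ker_delta {P : M4} {c : W} : c ∈ (delta P).ker ↔ P *ᵥ c = c := by
  rw [AddMonoidHom.mem_ker, delta_apply, add_eq_zero_iff']

theorem range_le_ker {P : M4} (h2 : P * P = 1) : (delta P).range ≤ (delta P).ker := by
  rintro _ ⟨c, rfl⟩
  rw [mem_ker_delta, delta_apply, Matrix.mulVec_add, Matrix.mulVec_mulVec, h2, Matrix.one_mulVec,
    add_comm]

theorem card_range_mul_card_ker (P : M4) :
    Nat.card (delta P).range * Nat.card (delta P).ker = 16 := by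
  rw [← AddSubgroup.index_ker, mul_comm, AddSubgroup.card_mul_index, card_W]

theorem card_fixed_eq (P : M4) : Nat.card {c : W // P *ᵥ c = c} = Nat.card (delta P).ker :=
  Nat.card_congr (Equiv.subtypeEquivRight fun _ => mem_ker_delta.symm)

/-- An involution fixes at least four vectors. -/
theorem four_le_card_fixed {P : M4} (h2 : P * P = 1) : 4 ≤ Nat.card {c : W // P *ᵥ c = c} := by
  rw [card_fixed_eq]
  have h := card_range_mul_card_ker P
  have hle : Nat.card (delta P).range ≤ Nat.card (delta P).ker :=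
    Nat.card_le_card_of_injective _ (AddSubgroup.inclusion_injective (range_le_ker h2))
  nlinarith

/-! ### Hyperplanes -/

/-- A generator of a regular cyclic group on the nonzero vectors. -/
def singer : M4 := !![0, 0, 0, 1; 1, 0, 0, 1; 0, 1, 0, 0; 0, 0, 1, 0]

theorem singer_pow : singer ^ 15 = 1 := by decide +kernel

theorem singer_trans : ∀ p : W, p ≠ 0 → ∃ i : Fin 15, p ᵥ* singer ^ (i : ℕ) = Pi.single 3 1 := by
  decide +kernel

theorem dot_eq (p c : W) : p ⬝ᵥ c = ∑ i, p i * c i := rfl

/-- A subgroup of index two has a normal vector. -/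
theorem exists_normal_vec (H : AddSubgroup W) (hH : Nat.card H = 8) :
    ∃ p : W, p ≠ 0 ∧ ∀ c : W, c ∈ H ↔ p ⬝ᵥ c = 0 := by
  classical
  have hidx : H.index = 2 := by
    have := H.card_mul_index
    rw [hH, card_W] at this
    omega
  let φ : W →+ ZMod 2 :=
    { toFun := fun c => if c ∈ H then 0 else 1
      map_zero' := by simp [H.zero_mem]
      map_add' := fun a b => by
        have := AddSubgroup.add_mem_iff_of_index_two hidx (a := a) (b := b)
        by_cases ha : a ∈ H <;> by_cases hb : b ∈ H <;> simp_all [CharTwo.add_self_eq_zero] }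
  have hφ : ∀ c, φ c = 0 ↔ c ∈ H := fun c => by
    by_cases hc : c ∈ H <;> simp [φ, hc]
  let p : W := fun i => φ (Pi.single i 1)
  have hp : ∀ c : W, p ⬝ᵥ c = φ c := fun c => by
    conv_rhs => rw [← Finset.univ_sum_single c, map_sum]
    rw [dot_eq]
    refine Finset.sum_congr rfl fun i _ => ?_
    rcases (show c i = 0 ∨ c i = 1 by generalize c i = x; revert x; decide) with h | h <;>
      simp [h, p]
  have hp0 : p ≠ 0 := by
    intro h0
    obtain ⟨c, hc⟩ : ∃ c, c ∉ H := by
      by_contra hn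
      push Not at hn
      have htop : H = ⊤ := by ext c; simp [hn c]
      rw [htop, AddSubgroup.card_top, card_W] at hH
      omega
    refine hc ((hφ c).1 ?_)
    rw [← hp c, h0, zero_dotProduct]
  exact ⟨p, hp0, fun c => by rw [← hφ, hp]⟩

/-- The normal vector is unique. -/
theorem normal_vec_unique : ∀ p q : W, (∀ c : W, p ⬝ᵥ c = 0 ↔ q ⬝ᵥ c = 0) → p = q := by
  decide +kernel

/-- Every hyperplane is moved to the last coordinate hyperplane. -/
theorem exists_normal_move {p : W} (hp : p ≠ 0) :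
    ∃ g : GL (Fin 4) (ZMod 2), ∀ c : W, p ⬝ᵥ ((g : M4) *ᵥ c) = 0 ↔ c 3 = 0 := by
  obtain ⟨i, hi⟩ := singer_trans p hp
  have hu : IsUnit (singer ^ (i : ℕ)) := by
    refine (IsUnit.of_mul_eq_one (singer ^ 14) ?_).pow _
    rw [← pow_succ', singer_pow]
  refine ⟨hu.unit, fun c => ?_⟩
  rw [IsUnit.unit_spec, Matrix.dotProduct_mulVec, hi, single_dotProduct, one_mul]

theorem card_ne_zero_W : Nat.card {p : W // p ≠ 0} = 15 := by
  rw [Nat.card_eq_fintype_card]; rfl

theorem card_hyp : Nat.card {c : W // c 3 = 0} = 8 := by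
  rw [Nat.card_eq_fintype_card]; rfl

/-- The matrices fixing the last coordinate hyperplane pointwise. -/
theorem axis_eq {P : M4} (hP : ∀ c : W, c 3 = 0 → P *ᵥ c = c) :
    ∀ j : Fin 4, j ≠ 3 → ∀ i, P i j = (1 : M4) i j := by
  intro j hj i
  have h := congrFun (hP (Pi.single j 1) (by rw [Pi.single_apply, if_neg (Ne.symm hj)])) i
  rw [Matrix.mulVec_single_one] at h
  rw [Matrix.col_apply] at h
  rw [h, Pi.single_apply, Matrix.one_apply]

/-- An involution fixing the last coordinate hyperplane is determined by three entries. -/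
theorem axis_diag {P : M4} (hP : ∀ c : W, c 3 = 0 → P *ᵥ c = c) (h2 : P * P = 1) : P 3 3 = 1 := by
  have h := congrFun (congrFun h2 3) 3
  rw [Matrix.mul_apply, Fin.sum_univ_four] at h
  have e : ∀ j : Fin 4, j ≠ 3 → P 3 j = 0 := fun j hj => by
    rw [axis_eq hP j hj 3, Matrix.one_apply, if_neg (Ne.symm hj)]
  rw [e 0 (by decide), e 1 (by decide), e 2 (by decide), Matrix.one_apply_eq] at h
  rcases (show ∀ x : ZMod 2, x = 0 ∨ x = 1 by decide) (P 3 3) with e' | e'
  · simp [e'] at h
  · exact e'

/-- The involution sending `e₃` to `e₃ + e₀`. -/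
def tau : M4 := Matrix.transvection 0 3 1

/-- The eight involutions (with the identity) on a hyperplane. -/
theorem eq_of_column {P Q : M4} (hP : ∀ c : W, c 3 = 0 → P *ᵥ c = c)
    (hQ : ∀ c : W, c 3 = 0 → Q *ᵥ c = c) (hP2 : P * P = 1) (hQ2 : Q * Q = 1)
    (h : ∀ i : Fin 3, P i.castSucc 3 = Q i.castSucc 3) : P = Q := by
  ext i j
  by_cases hj : j = 3
  · subst hj
    obtain ⟨k, rfl⟩ | rfl := i.eq_castSucc_or_eq_last
    · exact h k
    · show P 3 3 = Q 3 3
      rw [axis_diag hP hP2, axis_diag hQ hQ2]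
  · rw [axis_eq hP j hj i, axis_eq hQ j hj i]

theorem tau_axis : ∀ c : W, c 3 = 0 → tau *ᵥ c = c := by decide +kernel

theorem tau_fixed : ∀ c : W, tau *ᵥ c = c → c 3 = 0 := by decide +kernel

theorem tau_sq : tau * tau = 1 := by decide +kernel

theorem tau_ne_one : tau ≠ 1 := by decide +kernel

/-! ### The normal form of the four-group of a near pair -/

/-- The first involution of the normal form. -/
def alpha : M4 := Matrix.transvection 0 2 1 * Matrix.transvection 1 3 1

/-- The second involution of the normal form. -/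
def beta : M4 :=
  Matrix.transvection 1 2 1 * (Matrix.transvection 0 3 1 * Matrix.transvection 1 3 1)

/-- The permutations of the eight points of the normal form. -/
def alphaPerm : Equiv.Perm (Fin 8) := transvPerm 0 2 * transvPerm 1 3

/-- The permutations of the eight points of the normal form. -/
def betaPerm : Equiv.Perm (Fin 8) := transvPerm 1 2 * (transvPerm 0 3 * transvPerm 1 3)

theorem induces_alpha : Induces alpha alphaPerm :=
  Induces.mul (transvPerm_spec 0 2 (by decide)) (transvPerm_spec 1 3 (by decide))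

theorem induces_beta : Induces beta betaPerm :=
  Induces.mul (transvPerm_spec 1 2 (by decide))
    (Induces.mul (transvPerm_spec 0 3 (by decide)) (transvPerm_spec 1 3 (by decide)))

theorem perm_fix : (∀ i, alphaPerm i = i ↔ betaPerm i = i) ∧
    (Finset.univ.filter fun i => alphaPerm i = i).card = 4 := by
  decide +kernel

/-- Two commuting involutions fixing exactly the same four vectors, as does their product, have the
normal form. -/
theorem normal_form {P Q : M4} (hP : P * P = 1) (hQ : Q * Q = 1) (hPQ : P * Q = Q * P)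
    (hcard : Nat.card {c : W // P *ᵥ c = c} = 4) (hQfix : ∀ c, Q *ᵥ c = c ↔ P *ᵥ c = c)
    (hPQfix : ∀ c, P *ᵥ (Q *ᵥ c) = c ↔ P *ᵥ c = c) :
    ∃ g : GL (Fin 4) (ZMod 2), P * (g : M4) = (g : M4) * alpha ∧ Q * (g : M4) = (g : M4) * beta := by
  have hker : Nat.card (delta P).ker = 4 := by rw [← card_fixed_eq]; exact hcard
  have hrange : (delta P).range = (delta P).ker := by
    apply SetLike.ext'
    refine Set.eq_of_subset_of_ncard_le (range_le_ker hP) ?_
    have h := card_range_mul_card_ker P
    rw [hker] at h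
    have h4 : Nat.card (delta P).range = 4 := by omega
    rw [← Nat.card_coe_set_eq, ← Nat.card_coe_set_eq]
    exact hker.le.trans h4.ge
  obtain ⟨v, hv⟩ : ∃ v : W, P *ᵥ v ≠ v := by
    by_contra hn
    push Not at hn
    have : Nat.card {c : W // P *ᵥ c = c} = 16 := by
      rw [← card_W]; exact Nat.card_congr (Equiv.subtypeUnivEquiv hn)
    omega
  set u0 := delta P v with hu0
  set u1 := delta Q v with hu1
  have hu0K : P *ᵥ u0 = u0 := mem_ker_delta.1 (range_le_ker hP ⟨v, rfl⟩)
  have hu1K : P *ᵥ u1 = u1 := (hQfix _).1 (mem_ker_delta.1 (range_le_ker hQ ⟨v, rfl⟩))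
  have u0ne : u0 ≠ 0 := fun e => hv (mem_ker_delta.1 e)
  have u1ne : u1 ≠ 0 := fun e => hv ((hQfix v).1 (mem_ker_delta.1 e))
  have same : ∀ w, delta P w = delta Q w → P *ᵥ w = w := by
    intro w e
    rw [delta_apply, delta_apply, add_left_inj] at e
    refine (hPQfix w).1 ?_
    rw [← e, Matrix.mulVec_mulVec, hP, Matrix.one_mulVec]
  have u01 : u0 ≠ u1 := fun e => hv (same v e)
  obtain ⟨v', hv'⟩ : u1 ∈ (delta P).range := by rw [hrange, mem_ker_delta]; exact hu1K
  have hv'K : P *ᵥ v' ≠ v' := fun e => u1ne (by rw [← hv']; exact mem_ker_delta.2 e)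
  set u2 := delta Q v' with hu2
  have hu2K : P *ᵥ u2 = u2 := (hQfix _).1 (mem_ker_delta.1 (range_le_ker hQ ⟨v', rfl⟩))
  have hfour : ∀ c, P *ᵥ c = c → c = 0 ∨ c = u0 ∨ c = u1 ∨ c = u0 + u1 := by
    classical
    intro c hc
    by_contra hn
    push Not at hn
    have hmem : ∀ d ∈ ({0, u0, u1, u0 + u1, c} : Finset W), P *ᵥ d = d := by
      intro d hd
      simp only [Finset.mem_insert, Finset.mem_singleton] at hd
      rcases hd with rfl | rfl | rfl | rfl | rfl
      · exact Matrix.mulVec_zero _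
      · exact hu0K
      · exact hu1K
      · rw [Matrix.mulVec_add, hu0K, hu1K]
      · exact hc
    have h5 : ({0, u0, u1, u0 + u1, c} : Finset W).card = 5 := by
      have e1 : u0 + u1 ≠ u0 := fun e => u1ne (by simpa using e)
      have e2 : u0 + u1 ≠ u1 := fun e => u0ne (by simpa using e)
      have e3 : u0 + u1 ≠ 0 := fun e => u01 (add_eq_zero_iff'.1 e)
      simp [u0ne.symm, u1ne.symm, e3.symm, hn.1.symm, u01, e1.symm, e2.symm, hn.2.1.symm,
        hn.2.2.1.symm, hn.2.2.2.symm]
    have hle := Finset.card_le_card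
      (show ({0, u0, u1, u0 + u1, c} : Finset W) ⊆ Finset.univ.filter (fun d => P *ᵥ d = d) from
        fun d hd => Finset.mem_filter.2 ⟨Finset.mem_univ _, hmem d hd⟩)
    rw [h5, ← Fintype.card_subtype, ← Nat.card_eq_fintype_card, hcard] at hle
    omega
  have hu2eq : u2 = u0 + u1 := by
    rcases hfour u2 hu2K with e | e | e | e
    · exact absurd ((hQfix v').1 (mem_ker_delta.1 e)) hv'K
    · exfalso
      have h := same (v + v') (by rw [map_add, map_add, hv', ← hu1, ← hu2, e, ← hu0, add_comm])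
      have h' : u0 + u1 = 0 := by rw [hu0, ← hv', ← map_add]; exact mem_ker_delta.2 h
      exact u01 (add_eq_zero_iff'.1 h')
    · exact absurd (same v' (by rw [hv', ← hu2, e])) hv'K
    · exact e
  let cols : Fin 4 → W := ![u0, u1, v, v']
  let g0 : M4 := Matrix.of fun i j => cols j i
  have hg : ∀ c : W, g0 *ᵥ c = c 0 • u0 + c 1 • u1 + c 2 • v + c 3 • v' := by
    intro c
    funext i
    simp [Matrix.mulVec, dotProduct, g0, cols, Fin.sum_univ_four]
    ring
  have hd0 : delta P u0 = 0 := mem_ker_delta.2 hu0K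
  have hd1 : delta P u1 = 0 := mem_ker_delta.2 hu1K
  have hunit : IsUnit g0 := by
    rw [← Matrix.mulVec_injective_iff_isUnit]
    have hzero : ∀ c : W, g0 *ᵥ c = 0 → c = 0 := by
      intro c hc
      rw [hg] at hc
      have hb : ∀ (x : ZMod 2) (w : W), delta P (x • w) = x • delta P w := fun x w => by
        rcases (show ∀ t : ZMod 2, t = 0 ∨ t = 1 by decide) x with rfl | rfl <;> simp
      have h := congrArg (delta P) hc
      rw [map_add, map_add, map_add, map_zero, hb, hb, hb, hb, hd0, hd1, smul_zero, smul_zero,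
        zero_add, zero_add, hv', ← hu0] at h
      have key : ∀ x y : ZMod 2, x • u0 + y • u1 = 0 → x = 0 ∧ y = 0 := by
        intro x y hxy
        rcases (show ∀ t : ZMod 2, t = 0 ∨ t = 1 by decide) x with rfl | rfl <;>
          rcases (show ∀ t : ZMod 2, t = 0 ∨ t = 1 by decide) y with rfl | rfl <;>
          simp_all [add_eq_zero_iff']
      obtain ⟨h2, h3⟩ := key _ _ h
      rw [h2, h3, zero_smul, zero_smul, add_zero, add_zero] at hc
      obtain ⟨h0, h1⟩ := key _ _ hc
      funext i
      fin_cases i <;> assumption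
    intro a b hab
    have := hzero (a + b) (by rw [Matrix.mulVec_add]; exact add_eq_zero_iff'.2 hab)
    exact add_eq_zero_iff'.1 this
  have g_col : g0 *ᵥ Pi.single 0 1 = u0 ∧ g0 *ᵥ Pi.single 1 1 = u1 ∧ g0 *ᵥ Pi.single 2 1 = v ∧
      g0 *ᵥ Pi.single 3 1 = v' := by
    refine ⟨?_, ?_, ?_, ?_⟩ <;> rw [hg] <;> simp
  have a_col : alpha *ᵥ Pi.single 0 1 = Pi.single 0 1 ∧ alpha *ᵥ Pi.single 1 1 = Pi.single 1 1 ∧
      alpha *ᵥ Pi.single 2 1 = Pi.single 0 1 + Pi.single 2 1 ∧
      alpha *ᵥ Pi.single 3 1 = Pi.single 1 1 + Pi.single 3 1 := by decide +kernel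
  have b_col : beta *ᵥ Pi.single 0 1 = Pi.single 0 1 ∧ beta *ᵥ Pi.single 1 1 = Pi.single 1 1 ∧
      beta *ᵥ Pi.single 2 1 = Pi.single 1 1 + Pi.single 2 1 ∧
      beta *ᵥ Pi.single 3 1 = Pi.single 0 1 + Pi.single 1 1 + Pi.single 3 1 := by decide +kernel
  have img : ∀ (R : M4) (w : W), R *ᵥ w = delta R w + w := fun R w => by
    rw [delta_apply, add_assoc, add_self, add_zero]
  obtain ⟨g0c, g1c, g2c, g3c⟩ := g_col
  refine ⟨hunit.unit, ?_, ?_⟩
  all_goals
    rw [IsUnit.unit_spec]
    refine Matrix.ext_of_mulVec_single fun j => ?_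
    rw [← Matrix.mulVec_mulVec, ← Matrix.mulVec_mulVec]
  · obtain ⟨c0, c1, c2, c3⟩ := a_col
    match j with
    | 0 => rw [c0, g0c]; exact hu0K
    | 1 => rw [c1, g1c]; exact hu1K
    | 2 => rw [c2, Matrix.mulVec_add, g0c, g2c, img]
    | 3 => rw [c3, Matrix.mulVec_add, g1c, g3c, img, hv']
  · obtain ⟨c0, c1, c2, c3⟩ := b_col
    match j with
    | 0 => rw [c0, g0c]; exact (hQfix _).2 hu0K
    | 1 => rw [c1, g1c]; exact (hQfix _).2 hu1K
    | 2 => rw [c2, Matrix.mulVec_add, g1c, g2c, img]
    | 3 => rw [c3, Matrix.mulVec_add, Matrix.mulVec_add, g0c, g1c, g3c, img, ← hu2, hu2eq]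

/-- The fixed points of the normal form on the eight points. -/
theorem starPerm_form {P Q g : GL (Fin 4) (ZMod 2)} (hP : (P : M4) * (g : M4) = (g : M4) * alpha)
    (hQ : (Q : M4) * (g : M4) = (g : M4) * beta) :
    (∀ i, (starPerm P : Equiv.Perm (Fin 8)) i = i ↔ (starPerm Q : Equiv.Perm (Fin 8)) i = i) ∧
      (Finset.univ.filter fun i => (starPerm P : Equiv.Perm (Fin 8)) i = i).card = 4 := by
  have key : ∀ (R : GL (Fin 4) (ZMod 2)) (A : M4) (σ : Equiv.Perm (Fin 8)),
      (R : M4) * (g : M4) = (g : M4) * A → Induces A σ →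
      (starPerm R : Equiv.Perm (Fin 8)) = starPerm g * σ * (starPerm g : Equiv.Perm (Fin 8))⁻¹ := by
    intro R A σ hR hA
    have h1 : Induces ((g : M4) * A) ((starPerm g : Equiv.Perm (Fin 8)) * σ) :=
      (induces_starPerm g).mul hA
    have h2 : Induces ((R : M4) * (g : M4)) ((starPerm R : Equiv.Perm (Fin 8)) * starPerm g) :=
      (induces_starPerm R).mul (induces_starPerm g)
    rw [hR] at h2
    rw [eq_mul_inv_iff_mul_eq]
    exact h2.unique h1
  have e1 := key P alpha alphaPerm hP induces_alpha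
  have e2 := key Q beta betaPerm hQ induces_beta
  set s := (starPerm g : Equiv.Perm (Fin 8)) with hs
  have hfix : ∀ (σ : Equiv.Perm (Fin 8)) i, (s * σ * s⁻¹) i = i ↔ σ (s.symm i) = s.symm i := by
    intro σ i
    rw [Equiv.Perm.mul_apply, Equiv.Perm.mul_apply, Equiv.Perm.coe_inv]
    exact s.symm.injective.eq_iff.symm.trans (by rw [Equiv.symm_apply_apply])
  refine ⟨fun i => by rw [e1, e2, hfix, hfix]; exact perm_fix.1 _, ?_⟩
  refine Eq.trans ?_ perm_fix.2
  refine Finset.card_bij' (fun i _ => s.symm i) (fun i _ => s i) ?_ ?_ ?_ ?_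
  · intro i hi
    simp only [Finset.mem_filter, Finset.mem_univ, true_and] at hi ⊢
    rw [e1, hfix] at hi; exact hi
  · intro i hi
    simp only [Finset.mem_filter, Finset.mem_univ, true_and] at hi ⊢
    rw [e1, hfix, Equiv.symm_apply_apply]; exact hi
  · intro i _; exact s.apply_symm_apply i
  · intro i _; exact s.symm_apply_apply i

end CfsgLib.M24Count.Orbit
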