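import Cfsg.Agent.M24Count.PreGeom
import Cfsg.Agent.M24Count.OrbitLinear
import Cfsg.Agent.M23Count.OrbitsConj
import Mathlib.FieldTheory.Finiteness
import Mathlib.Algebra.Module.ZMod

/-!
The 759 conjugates of an octad: their subgroups, coordinates on each, the action of the stabiliser
on the coordinates, and the possible intersections of a subgroup with the stabiliser of a vertex.
-/

set_option autoImplicit false
set_option linter.style.haveILetI false
set_option linter.unusedSectionVars false

open MulAction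
open Matrix
open CfsgLib.GL4F2 (M4 starPerm)
open CfsgLib.M23Count.Orbits (mem_map_aut mem_cent_aut normalizer_map_aut centralizer_map_aut
  card_map_aut)

namespace CfsgLib.M24Count.Orbit

universe u

variable {G : Type u} [Group G]

theorem isA_aut {t : G} (h : IsA t) (φ : MulAut G) : IsA (φ t) := by
  obtain ⟨f, hf, hc⟩ := h.2
  exact ⟨by rw [MulEquiv.orderOf_eq]; exact h.1, φ f, by rw [MulEquiv.orderOf_eq]; exact hf,
    hc.map φ.toMonoidHom⟩

theorem octad_aut {F : Subgroup G} (h : Octad F) (φ : MulAut G) :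
    Octad (F.map φ.toMonoidHom) where
  card := by rw [card_map_aut, h.card]
  comm := by
    rintro _ ⟨a, ha, rfl⟩ _ ⟨b, hb, rfl⟩
    rw [← map_mul, ← map_mul, h.comm a ha b hb]
  sq := by
    rintro _ ⟨a, ha, rfl⟩
    rw [← map_mul, h.sq a ha, map_one]
  self_cent := by rw [centralizer_map_aut, h.self_cent]
  norm_card := by rw [normalizer_map_aut, card_map_aut, h.norm_card]
  isA := by
    rintro _ ⟨a, ha, rfl⟩ ha1
    exact isA_aut (h.isA a ha fun e => ha1 (by simp [e])) φ
  cent_le := by
    rintro _ ⟨u, hu, rfl⟩ hu1 x hx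
    rw [normalizer_map_aut, mem_map_aut]
    exact h.cent_le u hu (fun e => hu1 (by simp [e])) (mem_cent_aut.1 hx)
  trans := by
    rintro _ ⟨u, hu, rfl⟩ _ ⟨w, hw, rfl⟩ u1 w1
    obtain ⟨n, hn, e⟩ := h.trans u hu w hw (fun e => u1 (by simp [e])) fun e => w1 (by simp [e])
    refine ⟨φ n, ?_, by simpa using congrArg φ e⟩
    rw [normalizer_map_aut]
    exact ⟨n, hn, rfl⟩
  ti := by
    rintro g _ ⟨u, hu, rfl⟩ u1 hm
    rw [normalizer_map_aut, mem_map_aut]
    refine h.ti _ u hu (fun e => u1 (by simp [e])) ?_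
    rw [mem_map_aut] at hm
    simpa using hm

variable (E : Subgroup G)

/-- The vertices: the cosets of the normaliser. -/
abbrev Vert : Type u := G ⧸ Subgroup.normalizer (E : Set G)

/-- The conjugate of `E` at a vertex. -/
noncomputable def sub (v : Vert E) : Subgroup G :=
  E.map (MulAut.conj (Quotient.out v)).toMonoidHom

theorem mem_sub_mk {g e : G} :
    e ∈ sub E (g : G ⧸ Subgroup.normalizer (E : Set G)) ↔ g⁻¹ * e * g ∈ E := by
  obtain ⟨n, hn⟩ := QuotientGroup.mk_out_eq_mul (Subgroup.normalizer (E : Set G)) g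
  rw [sub, mem_map_aut, MulAut.conj_symm_apply, hn,
    Subgroup.mem_normalizer_iff''.mp n.2 (g⁻¹ * e * g)]
  simp [mul_assoc]

theorem mem_sub_smul {x e : G} {v : Vert E} : x * e * x⁻¹ ∈ sub E (x • v) ↔ e ∈ sub E v := by
  induction v using QuotientGroup.induction_on with
  | H g =>
    rw [MulAction.Quotient.smul_coe, smul_eq_mul, mem_sub_mk, mem_sub_mk]
    simp [mul_assoc]

theorem mem_sub_smul' {x e : G} {v : Vert E} : e ∈ sub E (x • v) ↔ x⁻¹ * e * x ∈ sub E v := by
  conv_rhs => rw [← mem_sub_smul E (x := x)]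
  simp [mul_assoc]

theorem sub_smul (g : G) (v : Vert E) :
    sub E (g • v) = (sub E v).map (MulAut.conj g).toMonoidHom := by
  ext x
  rw [mem_map_aut, MulAut.conj_symm_apply, mem_sub_smul']

/-- The part of the subgroup at `v` fixing `w`. -/
noncomputable def part (v w : Vert E) : Subgroup G := sub E v ⊓ MulAction.stabilizer G w

theorem mem_part {v w : Vert E} {e : G} : e ∈ part E v w ↔ e ∈ sub E v ∧ e • w = w := by
  rw [part, Subgroup.mem_inf, MulAction.mem_stabilizer_iff]

theorem part_smul (g : G) (v w : Vert E) :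
    part E (g • v) (g • w) = (part E v w).map (MulAut.conj g).toMonoidHom := by
  ext x
  rw [mem_map_aut, MulAut.conj_symm_apply, mem_part, mem_part, mem_sub_smul']
  refine and_congr_right fun _ => ?_
  rw [mul_smul, mul_smul, inv_smul_eq_iff]

theorem card_part_smul (g : G) (v w : Vert E) :
    Nat.card (part E (g • v) (g • w)) = Nat.card (part E v w) := by
  rw [part_smul, card_map_aut]

variable {E}
variable (h : Octad E)
include h

theorem oct (v : Vert E) : Octad (sub E v) := octad_aut h _

theorem sub_sq {v : Vert E} {a : G} (ha : a ∈ sub E v) : a * a = 1 := (oct h v).sq a ha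

theorem sub_inv {v : Vert E} {a : G} (ha : a ∈ sub E v) : a⁻¹ = a :=
  inv_eq_of_mul_eq_one_left (sub_sq h ha)

theorem sub_comm {v : Vert E} {a b : G} (ha : a ∈ sub E v) (hb : b ∈ sub E v) : a * b = b * a :=
  (oct h v).comm a ha b hb

theorem orderOf_two {v : Vert E} {a : G} (ha : a ∈ sub E v) (h1 : a ≠ 1) : orderOf a = 2 :=
  orderOf_eq_prime (by rw [pow_two]; exact sub_sq h ha) h1

theorem eq_of_mem {v w : Vert E} {e : G} (hv : e ∈ sub E v) (hw : e ∈ sub E w) (h1 : e ≠ 1) :
    v = w := by
  induction v using QuotientGroup.induction_on with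
  | H g =>
    induction w using QuotientGroup.induction_on with
    | H k =>
      rw [mem_sub_mk] at hv hw
      rw [QuotientGroup.eq]
      exact h.ti (g⁻¹ * k) _ hw
        (fun he => h1 (by simpa [mul_assoc] using congrArg (fun t => k * t * k⁻¹) he))
        (by simpa [mul_assoc] using hv)

theorem not_mem_of_ne {v w : Vert E} (hvw : v ≠ w) {a : G} (ha : a ∈ sub E w) (h1 : a ≠ 1) :
    a ∉ sub E v := fun he => hvw (eq_of_mem h he ha h1)

theorem smul_eq_of_commute {v : Vert E} {a c : G} (ha : a ∈ sub E v) (h1 : a ≠ 1)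
    (hc : Commute c a) : c • v = v := by
  have h2 : c * a * c⁻¹ ∈ sub E (c • v) := (mem_sub_smul E).mpr ha
  rw [hc.eq, mul_inv_cancel_right] at h2
  exact eq_of_mem h h2 ha h1

theorem exists_ne_one (v : Vert E) : ∃ a ∈ sub E v, a ≠ 1 := by
  by_contra hn
  push Not at hn
  have : sub E v = ⊥ := (Subgroup.eq_bot_iff_forall _).2 hn
  have h16 := (oct h v).card
  rw [this, Subgroup.card_bot] at h16
  omega

theorem stab_eq (v : Vert E) :
    MulAction.stabilizer G v = Subgroup.normalizer (sub E v : Set G) := by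
  ext g
  rw [MulAction.mem_stabilizer_iff, Subgroup.mem_normalizer_iff]
  constructor
  · intro hg e
    conv_rhs => rw [← hg]
    exact (mem_sub_smul E).symm
  · intro hg
    obtain ⟨a, ha, a1⟩ := exists_ne_one h v
    have h2 : g * a * g⁻¹ ∈ sub E v := (hg a).1 ha
    exact eq_of_mem h ((mem_sub_smul E).2 ha) h2
      fun e => a1 (by simpa [mul_assoc] using congrArg (fun t => g⁻¹ * t * g) e)

theorem conj_mem {v : Vert E} {g e : G} (hg : g • v = v) (he : e ∈ sub E v) :
    g * e * g⁻¹ ∈ sub E v := by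
  have h2 := (mem_sub_smul E (x := g)).2 he
  rwa [hg] at h2

theorem sub_fix {v : Vert E} {a : G} (ha : a ∈ sub E v) : a • v = v := by
  rw [← MulAction.mem_stabilizer_iff, stab_eq h v]
  exact Subgroup.le_normalizer ha

theorem card_stab (v : Vert E) : Nat.card (MulAction.stabilizer G v) = 322560 := by
  rw [stab_eq h v, (oct h v).norm_card]

theorem parts_comm {v w : Vert E} (hvw : v ≠ w) {a b : G} (ha : a ∈ sub E w) (hav : a • v = v)
    (hb : b ∈ sub E v) (hbw : b • w = w) : a * b = b * a := by
  by_contra hne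
  have hne' : a * b * a⁻¹ * b⁻¹ ≠ 1 := fun he => hne (by
    calc a * b = a * b * a⁻¹ * b⁻¹ * (b * a) := by group
      _ = b * a := by rw [he, one_mul])
  refine not_mem_of_ne h hvw ?_ hne' (mul_mem (conj_mem h hav hb) (inv_mem hb))
  have h2 : b * a⁻¹ * b⁻¹ ∈ sub E w := conj_mem h hbw (inv_mem ha)
  simpa [mul_assoc] using mul_mem ha h2

theorem part_eq_cent {v w : Vert E} (hvw : v ≠ w) {a : G} (ha : a ∈ part E w v) (a1 : a ≠ 1) :
    part E v w = sub E v ⊓ Subgroup.centralizer ({a} : Set G) := by
  obtain ⟨ha, hav⟩ := (mem_part E).1 ha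
  ext b
  rw [mem_part, Subgroup.mem_inf, Subgroup.mem_centralizer_singleton_iff]
  exact ⟨fun hb => ⟨hb.1, (parts_comm h hvw ha hav hb.1 hb.2).symm⟩,
    fun hb => ⟨hb.1, smul_eq_of_commute h ha a1 hb.2⟩⟩

variable [Finite G]

/-- A basis at each vertex. -/
theorem exists_coord (v : Vert E) : ∃ c : G → W,
    (∀ a ∈ sub E v, ∀ b ∈ sub E v, c (a * b) = c a + c b) ∧
      (∀ a ∈ sub E v, ∀ b ∈ sub E v, c a = c b → a = b) ∧ ∀ x, ∃ a ∈ sub E v, c a = x := by
  classical
  haveI : IsMulCommutative (sub E v) :=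
    ⟨⟨fun a b => Subtype.ext (sub_comm h a.2 b.2)⟩⟩
  letI : CommGroup (sub E v) := { mul_comm := fun a b => Subtype.ext (sub_comm h a.2 b.2) }
  letI : Module (ZMod 2) (Additive (sub E v)) := AddCommGroup.zmodModule (fun x => by
    rw [two_nsmul]
    exact congrArg Additive.ofMul (Subtype.ext (sub_sq h (Additive.toMul x).2)))
  haveI : Finite (Additive (sub E v)) := Finite.of_equiv _ Additive.ofMul
  have hfin : Module.finrank (ZMod 2) (Additive (sub E v)) = 4 := by
    have hc := Module.natCard_eq_pow_finrank (K := ZMod 2) (V := Additive (sub E v))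
    rw [Nat.card_congr Additive.toMul, (oct h v).card, Nat.card_zmod] at hc
    exact (Nat.pow_right_injective le_rfl (hc.symm.trans (by norm_num : (16 : ℕ) = 2 ^ 4)))
  obtain ⟨e⟩ : Nonempty (Additive (sub E v) ≃ₗ[ZMod 2] W) :=
    ⟨LinearEquiv.ofFinrankEq _ _ (by rw [hfin, Module.finrank_fin_fun])⟩
  refine ⟨fun g => if hg : g ∈ sub E v then e (Additive.ofMul ⟨g, hg⟩) else 0,
    fun a ha b hb => ?_, fun a ha b hb he => ?_, fun x => ?_⟩
  · simp only [dif_pos ha, dif_pos hb, dif_pos (mul_mem ha hb)]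
    rw [← map_add]
    rfl
  · simp only [dif_pos ha, dif_pos hb] at he
    exact congrArg Subtype.val (Additive.ofMul.injective (e.injective he))
  · refine ⟨_, (Additive.toMul (e.symm x)).2, ?_⟩
    simp only [dif_pos (Additive.toMul (e.symm x)).2]
    exact e.apply_symm_apply x

/-- Coordinates on the subgroup at a vertex. -/
noncomputable def crd (v : Vert E) : G → W := Classical.choose (exists_coord h v)

theorem crd_mul {v : Vert E} {a b : G} (ha : a ∈ sub E v) (hb : b ∈ sub E v) :
    crd h v (a * b) = crd h v a + crd h v b :=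
  (Classical.choose_spec (exists_coord h v)).1 a ha b hb

theorem crd_inj {v : Vert E} {a b : G} (ha : a ∈ sub E v) (hb : b ∈ sub E v)
    (he : crd h v a = crd h v b) : a = b :=
  (Classical.choose_spec (exists_coord h v)).2.1 a ha b hb he

theorem crd_surj (v : Vert E) (c : W) : ∃ a ∈ sub E v, crd h v a = c :=
  (Classical.choose_spec (exists_coord h v)).2.2 c

/-- The element with given coordinates. -/
noncomputable def elt (v : Vert E) (c : W) : G := Classical.choose (crd_surj h v c)

theorem elt_mem (v : Vert E) (c : W) : elt h v c ∈ sub E v :=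
  (Classical.choose_spec (crd_surj h v c)).1

theorem crd_elt (v : Vert E) (c : W) : crd h v (elt h v c) = c :=
  (Classical.choose_spec (crd_surj h v c)).2

theorem elt_crd {v : Vert E} {a : G} (ha : a ∈ sub E v) : elt h v (crd h v a) = a :=
  crd_inj h (elt_mem h v _) ha (crd_elt h v _)

theorem crd_one (v : Vert E) : crd h v 1 = 0 := by
  have e := crd_mul h (v := v) (one_mem (sub E v)) (one_mem (sub E v))
  rw [one_mul] at e
  exact add_left_cancel (a := crd h v 1) (by rw [add_zero]; exact e.symm)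

theorem elt_add (v : Vert E) (c d : W) : elt h v (c + d) = elt h v c * elt h v d :=
  crd_inj h (elt_mem h v _) (mul_mem (elt_mem h v c) (elt_mem h v d))
    (by rw [crd_mul h (elt_mem h v c) (elt_mem h v d), crd_elt, crd_elt, crd_elt])

/-- Conjugation by an element of the stabiliser, on the coordinates. -/
noncomputable def conjLin (v : Vert E) (n : ↥(MulAction.stabilizer G v)) : W →ₗ[ZMod 2] W :=
  (AddMonoidHom.mk' (fun c => crd h v ((n : G) * elt h v c * (n : G)⁻¹)) fun c d => by
    rw [elt_add, ← crd_mul h (conj_mem h n.2 (elt_mem h v c)) (conj_mem h n.2 (elt_mem h v d))]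
    congr 1
    group).toZModLinearMap 2

theorem conjLin_apply {v : Vert E} (n : ↥(MulAction.stabilizer G v)) (c : W) :
    conjLin h v n c = crd h v ((n : G) * elt h v c * (n : G)⁻¹) := rfl

/-- The matrices of the stabiliser. -/
noncomputable def rhoMat (v : Vert E) : ↥(MulAction.stabilizer G v) →* M4 where
  toFun n := LinearMap.toMatrix' (conjLin h v n)
  map_one' := by
    rw [← LinearMap.toMatrix'_id]
    congr 1
    refine LinearMap.ext fun c => ?_
    rw [conjLin_apply, OneMemClass.coe_one, one_mul, inv_one, mul_one, crd_elt]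
    rfl
  map_mul' m n := by
    rw [← LinearMap.toMatrix'_mul]
    congr 1
    refine LinearMap.ext fun c => ?_
    change _ = conjLin h v m (conjLin h v n c)
    rw [conjLin_apply, conjLin_apply, conjLin_apply,
      elt_crd h (conj_mem h n.2 (elt_mem h v c)), Subgroup.coe_mul]
    congr 1
    group

/-- The action of the stabiliser on the coordinates. -/
noncomputable def rho (v : Vert E) :
    ↥(MulAction.stabilizer G v) →* GL (Fin 4) (ZMod 2) := (rhoMat h v).toHomUnits

theorem rho_conj {v : Vert E} (n : ↥(MulAction.stabilizer G v)) {a : G} (ha : a ∈ sub E v) :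
    crd h v ((n : G) * a * (n : G)⁻¹) = (rho h v n : M4) *ᵥ crd h v a := by
  rw [rho, MonoidHom.coe_toHomUnits]
  show _ = LinearMap.toMatrix' (conjLin h v n) *ᵥ crd h v a
  rw [LinearMap.toMatrix'_mulVec, conjLin_apply, elt_crd h ha]

theorem rho_fix_iff {v : Vert E} (n : ↥(MulAction.stabilizer G v)) {a : G} (ha : a ∈ sub E v) :
    (rho h v n : M4) *ᵥ crd h v a = crd h v a ↔ Commute (n : G) a := by
  rw [← rho_conj h n ha]
  constructor
  · intro e
    exact mul_inv_eq_iff_eq_mul.1 (crd_inj h (conj_mem h n.2 ha) ha e)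
  · intro e
    rw [e.eq, mul_inv_cancel_right]

theorem rho_eq_one_iff {v : Vert E} (n : ↥(MulAction.stabilizer G v)) :
    rho h v n = 1 ↔ (n : G) ∈ sub E v := by
  constructor
  · intro e
    rw [← (oct h v).self_cent, Subgroup.mem_centralizer_iff]
    intro a ha
    exact ((rho_fix_iff h n ha).1 (by rw [e, Units.val_one, Matrix.one_mulVec])).eq.symm
  · intro hn
    refine Units.ext (Matrix.ext_of_mulVec_single fun j => ?_)
    obtain ⟨a, ha, hc⟩ := crd_surj h v (Pi.single j 1)
    rw [← hc, Units.val_one, Matrix.one_mulVec, (rho_fix_iff h n ha).2 (sub_comm h hn ha)]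

theorem rho_ker (v : Vert E) :
    (rho h v).ker = (sub E v).subgroupOf (MulAction.stabilizer G v) := by
  ext n
  rw [MonoidHom.mem_ker, Subgroup.mem_subgroupOf, rho_eq_one_iff]

theorem card_sub_subgroupOf (v : Vert E) :
    Nat.card ((sub E v).subgroupOf (MulAction.stabilizer G v)) = 16 :=
  (Nat.card_congr (Subgroup.subgroupOfEquivOfLe fun _ he => sub_fix h he).toEquiv).trans
    (oct h v).card

theorem rho_surj (v : Vert E) : Function.Surjective (rho h v) := by
  rw [← MonoidHom.range_eq_top]
  refine Subgroup.eq_top_of_card_eq _ ?_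
  have e := (rho h v).ker.card_mul_index
  rw [Subgroup.index_ker, rho_ker, card_sub_subgroupOf h, card_stab h] at e
  rw [CfsgLib.GL4F2.card_GL_four]
  omega

theorem rho_sq {v : Vert E} (n : ↥(MulAction.stabilizer G v)) (hn : (n : G) * n = 1) :
    (rho h v n : M4) * (rho h v n : M4) = 1 := by
  rw [← Units.val_mul, ← map_mul, show n * n = 1 from Subtype.ext hn, map_one, Units.val_one]

theorem card_cent (v : Vert E) (n : ↥(MulAction.stabilizer G v)) :
    Nat.card ↥(sub E v ⊓ Subgroup.centralizer ({(n : G)} : Set G)) =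
      Nat.card {c : W // (rho h v n : M4) *ᵥ c = c} := by
  refine Nat.card_congr
    { toFun := fun a => ⟨crd h v a, (rho_fix_iff h n a.2.1).2
        (Commute.symm (Subgroup.mem_centralizer_singleton_iff.1 a.2.2))⟩
      invFun := fun c => ⟨elt h v c, elt_mem h v _, Subgroup.mem_centralizer_singleton_iff.2
        (((rho_fix_iff h n (elt_mem h v c.1)).1 (by rw [crd_elt]; exact c.2)).eq.symm)⟩
      left_inv := fun a => Subtype.ext (elt_crd h a.2.1)
      right_inv := fun c => Subtype.ext (crd_elt h v c) }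

theorem four_le_part {v w : Vert E} (hvw : v ≠ w) (hA : part E w v ≠ ⊥) :
    4 ≤ Nat.card (part E v w) := by
  obtain ⟨a, ha, a1⟩ := (Subgroup.bot_or_exists_ne_one _).resolve_left hA
  rw [part_eq_cent h hvw ha a1]
  obtain ⟨ha, hav⟩ := (mem_part E).1 ha
  have := four_le_card_fixed (rho_sq h ⟨a, hav⟩ (sub_sq h ha))
  rwa [← card_cent h v ⟨a, hav⟩] at this

theorem part_ne_bot_symm {v w : Vert E} (hvw : v ≠ w) (hA : part E w v ≠ ⊥) :
    part E v w ≠ ⊥ := by
  intro e
  have := four_le_part h hvw hA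
  rw [e, Subgroup.card_bot] at this
  omega

/-- The parts have the same order. -/
theorem card_part_le {v w : Vert E} (hvw : v ≠ w) (hw16 : Nat.card (part E w v) < 16) :
    Nat.card (part E v w) ≤ Nat.card (part E w v) := by
  obtain ⟨x, hx, hxv⟩ : ∃ x ∈ sub E w, x ∉ part E w v := by
    by_contra hn
    push Not at hn
    have := Nat.card_le_card_of_injective (Subgroup.inclusion hn) (Subgroup.inclusion_injective hn)
    rw [(oct h w).card] at this
    omega
  refine Nat.card_le_card_of_injective (fun b : part E v w =>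
    (⟨(b : G) * x * (b : G)⁻¹ * x⁻¹, ?_⟩ : part E w v)) ?_
  · obtain ⟨hb, hbw⟩ := (mem_part E).1 b.2
    have hc : (b : G) * x * (b : G)⁻¹ * x⁻¹ ∈ sub E w :=
      mul_mem (conj_mem h hbw hx) (inv_mem hx)
    by_cases b1 : (b : G) = 1
    · rw [b1, one_mul, inv_one, mul_one, mul_inv_cancel]; exact one_mem _
    refine (mem_part E).2 ⟨hc, smul_eq_of_commute h hb b1 ?_⟩
    show _ * (b : G) = (b : G) * _
    have hbi : (b : G)⁻¹ = (b : G) := sub_inv h hb
    have e1 : (b : G) * ((b : G) * x * (b : G)⁻¹ * x⁻¹) * (b : G)⁻¹ =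
        x * ((b : G) * x⁻¹ * (b : G)⁻¹) := by
      rw [hbi]
      simp only [mul_assoc]
      rw [← mul_assoc (b : G) (b : G), sub_sq h hb, one_mul]
    have e2 : x * ((b : G) * x⁻¹ * (b : G)⁻¹) = (b : G) * x * (b : G)⁻¹ * x⁻¹ := by
      rw [sub_inv h hx, sub_comm h hx (conj_mem h hbw hx)]
    exact (mul_inv_eq_iff_eq_mul.1 (e1.trans e2)).symm
  · intro b c hbc
    have e : (b : G) * x * (b : G)⁻¹ = (c : G) * x * (c : G)⁻¹ :=
      mul_right_cancel (congrArg Subtype.val hbc)
    by_contra hne
    have hd : (c : G)⁻¹ * (b : G) ∈ part E v w := mul_mem (inv_mem c.2) b.2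
    have d1 : (c : G)⁻¹ * (b : G) ≠ 1 := fun e' => hne (Subtype.ext (inv_mul_eq_one.1 e').symm)
    refine hxv ((mem_part E).2 ⟨hx, smul_eq_of_commute h hd.1 d1 ?_⟩)
    show x * ((c : G)⁻¹ * (b : G)) = (c : G)⁻¹ * (b : G) * x
    have := congrArg (fun t => (c : G)⁻¹ * t * (b : G)) e
    simp only [mul_assoc, inv_mul_cancel, mul_one, inv_mul_cancel_left] at this
    rw [mul_assoc]
    exact this.symm

theorem card_part_lt {v w : Vert E} (hvw : v ≠ w) : Nat.card (part E v w) < 16 := by
  by_contra hge
  push Not at hge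
  have heq : part E v w = sub E v := Subgroup.eq_of_le_of_card_ge inf_le_left
    (by rw [(oct h v).card]; exact hge)
  -- the subgroup at `v` permutes the involutions at `w`, so centralises one
  haveI : Fact (Nat.Prime 2) := ⟨Nat.prime_two⟩
  letI : MulAction (sub E v) (sub E w) :=
    { smul := fun b a => ⟨(b : G) * a * (b : G)⁻¹,
        conj_mem h ((mem_part E).1 (heq.symm ▸ b.2 : (b : G) ∈ part E v w)).2 a.2⟩
      one_smul := fun a => Subtype.ext (show (1 : G) * a * (1 : G)⁻¹ = a by group)
      mul_smul := fun b c a => Subtype.ext (by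
        show ((b : G) * (c : G)) * a * ((b : G) * (c : G))⁻¹ =
          (b : G) * ((c : G) * a * (c : G)⁻¹) * (b : G)⁻¹
        group) }
  have h2 : IsPGroup 2 (sub E v) := IsPGroup.of_card (n := 4) (by rw [(oct h v).card]; rfl)
  obtain ⟨a, ha, hne⟩ := h2.exists_fixed_point_of_prime_dvd_card_of_fixed_point (sub E w)
    (by rw [(oct h w).card]; norm_num) (a := (1 : sub E w))
    (fun b => Subtype.ext (show (b : G) * 1 * (b : G)⁻¹ = 1 by group))
  refine not_mem_of_ne h hvw a.2 (fun e => hne (Subtype.ext e.symm)) ?_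
  rw [← (oct h v).self_cent, Subgroup.mem_centralizer_iff]
  intro b hb
  exact mul_inv_eq_iff_eq_mul.1 (congrArg Subtype.val (ha ⟨b, hb⟩))

theorem card_part_symm {v w : Vert E} (hvw : v ≠ w) :
    Nat.card (part E v w) = Nat.card (part E w v) :=
  le_antisymm (card_part_le h hvw (card_part_lt h hvw.symm))
    (card_part_le h hvw.symm (card_part_lt h hvw))

theorem card_part_cases {v w : Vert E} (hvw : v ≠ w) :
    Nat.card (part E v w) = 1 ∨ Nat.card (part E v w) = 4 ∨ Nat.card (part E v w) = 8 := by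
  by_cases hb : part E v w = ⊥
  · left; rw [hb, Subgroup.card_bot]
  right
  have h4 := four_le_part h hvw (part_ne_bot_symm h hvw.symm hb)
  have hlt := card_part_lt h hvw
  have hd := Subgroup.card_dvd_of_le (show part E v w ≤ sub E v from inf_le_left)
  rw [(oct h v).card] at hd
  interval_cases hh : Nat.card (part E v w) <;> omega

end CfsgLib.M24Count.Orbit
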