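import Cfsg.Agent.M24Count.OrbitCount
import Mathlib.GroupTheory.Sylow

/-!
An element of order seven of a stabiliser fixes no vertex in general position; so those form one
orbit, each with a pair among the eight points; the geometry without lines, and faithfulness.
-/

set_option autoImplicit false
set_option linter.style.haveILetI false
set_option linter.unusedSectionVars false

open MulAction
open Matrix
open CfsgLib.GL4F2 (M4 starPerm)
open CfsgLib.M23Count.Orbits (mem_map_aut card_map_aut)

namespace CfsgLib.M24Count.Orbit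

universe u

variable {G : Type u} [Group G] [Finite G] {E : Subgroup G} (h : Octad E) (hs : Setup G)
include h hs

theorem adj_part_iff {v z z' : Vert E} (hz : Adj E v z) (hz' : Adj E v z') :
    part E v z = part E v z' ↔ ∃ e ∈ sub E v, e • z = z' := by
  constructor
  · intro e
    obtain ⟨p, hp, hpB⟩ := exists_hypP h (show part E v z ≤ sub E v from inf_le_left) hz.2
    have h16 := card_orbit_sub h v z
    rw [hz.2] at h16
    have h2 : Nat.card {w : Vert E // ∃ e ∈ sub E v, e • z = w} = 2 := by omega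
    let f : {w : Vert E // ∃ e ∈ sub E v, e • z = w} →
        {w // Adj E v w ∧ part E v w = hypP h v p} := fun w => ⟨w.1, by
      obtain ⟨e, he, hw⟩ := w.2
      rw [← hw]
      exact ⟨(adj_smul_iff E (sub_fix h he)).2 hz, (part_smul_sub h he).trans hpB⟩⟩
    have hinj : Function.Injective f := fun a b e => Subtype.ext (by simpa [f] using e)
    obtain ⟨w, hw⟩ := (hinj.bijective_of_nat_card_le (by
      rw [card_neigh_eq h hp, (counts h hs v).1, h2])).2 ⟨z', hz', e.symm.trans hpB⟩
    obtain ⟨e', he', hw'⟩ := w.2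
    exact ⟨e', he', hw'.trans (congrArg Subtype.val hw)⟩
  · rintro ⟨e, he, rfl⟩
    exact (part_smul_sub h he).symm

theorem adj_part_surj (v : Vert E) {B : Subgroup G} (hB : B ≤ sub E v) (h8 : Nat.card B = 8) :
    ∃ z, Adj E v z ∧ part E v z = B := by
  obtain ⟨p, hp, rfl⟩ := exists_hypP h hB h8
  have h2 : Nat.card {z // Adj E v z ∧ part E v z = hypP h v p} = 2 := by
    rw [card_neigh_eq h hp, (counts h hs v).1]
  obtain ⟨⟨z, hz⟩⟩ := (Nat.card_pos_iff.1 (h2 ▸ (by norm_num) :
    0 < Nat.card {z // Adj E v z ∧ part E v z = hypP h v p})).1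
  exact ⟨z, hz⟩

theorem adj_move {v z z' : Vert E} (hz : Adj E v z) (hz' : Adj E v z') :
    ∃ n : G, n • v = v ∧ n • z = z' := by
  obtain ⟨p, hp, hpB⟩ := exists_hypP h (show part E v z ≤ sub E v from inf_le_left) hz.2
  obtain ⟨q, hq, hqB⟩ := exists_hypP h (show part E v z' ≤ sub E v from inf_le_left) hz'.2
  obtain ⟨m, hm⟩ := exists_move_hyp h (v := v) hp
  obtain ⟨k, hk⟩ := exists_move_hyp h (v := v) hq
  set n : ↥(MulAction.stabilizer G v) := k * m⁻¹ with hn
  have e : part E v ((n : G) • z) = part E v z' := by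
    have e0 := part_smul E (n : G) v z
    rw [(n.2 : (n : G) • v = v)] at e0
    rw [e0, hpB, hqB, ← hm, ← hk, Subgroup.map_map]
    congr 1
    ext a
    simp [hn, mul_assoc]
  obtain ⟨e', he', hw⟩ := (adj_part_iff h hs ((adj_smul_iff E n.2).2 hz) hz').1 e
  exact ⟨e' * n, by rw [mul_smul, (n.2 : (n : G) • v = v), sub_fix h he'],
    by rw [mul_smul, hw]⟩

theorem card_orbit_stab (v w : Vert E) :
    Nat.card (MulAction.orbit ↥(MulAction.stabilizer G v) w) *
      Nat.card (MulAction.stabilizer ↥(MulAction.stabilizer G v) w) = 322560 := by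
  rw [Nat.card_congr (MulAction.orbitEquivQuotientStabilizer _ w),
    ← Subgroup.card_eq_card_quotient_mul_card_subgroup, card_stab h]

/-- An element of order seven fixing `v` and one of its neighbours. -/
theorem exists_seven (v : Vert E) :
    ∃ (f : G) (z : Vert E), orderOf f = 7 ∧ f • v = v ∧ f • z = z ∧ Adj E v z := by
  haveI : Fact (Nat.Prime 7) := ⟨by norm_num⟩
  obtain ⟨⟨z, hz⟩⟩ : Nonempty {w // Adj E v w} :=
    (Nat.card_pos_iff.1 ((counts h hs v).2.2.1 ▸ (by norm_num) :
      0 < Nat.card {w // Adj E v w})).1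
  have horb : Nat.card (MulAction.orbit ↥(MulAction.stabilizer G v) z) = 30 := by
    rw [← (counts h hs v).2.2.1]
    refine Nat.card_congr (Equiv.subtypeEquivRight fun w => ?_)
    rw [MulAction.mem_orbit_iff]
    constructor
    · rintro ⟨n, rfl⟩; exact (adj_smul_iff E n.2).2 hz
    · intro hw
      obtain ⟨n, hn, hnz⟩ := adj_move h hs hz hw
      exact ⟨⟨n, hn⟩, hnz⟩
  have hcard := card_orbit_stab h hs v z
  rw [horb] at hcard
  obtain ⟨f, hf⟩ := exists_prime_orderOf_dvd_card'
    (G := MulAction.stabilizer ↥(MulAction.stabilizer G v) z) 7 (by omega)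
  rw [← Subgroup.orderOf_coe, ← Subgroup.orderOf_coe] at hf
  exact ⟨((f : MulAction.stabilizer G v) : G), z, hf, f.1.2, f.2, hz⟩

/-- An element of order seven normalising a finite set of order prime to seven centralises one. -/
theorem exists_fixed {f : G} (hf : orderOf f = 7) (S : Set G) (hS : ∀ x ∈ S, f * x * f⁻¹ ∈ S)
    (hc : ¬ 7 ∣ Nat.card S) : ∃ x ∈ S, Commute f x := by
  classical
  haveI := Fintype.ofFinite S
  haveI : Fact (Nat.Prime 7) := ⟨by norm_num⟩
  let m : S → S := fun x => ⟨f * x * f⁻¹, hS x x.2⟩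
  have hm : Function.Injective m := fun x y e => Subtype.ext
    (mul_left_cancel (mul_right_cancel (congrArg Subtype.val e)))
  let σ : Equiv.Perm S := Equiv.ofBijective m ((Finite.injective_iff_bijective).1 hm)
  have hpow : ∀ (k : ℕ) (x : S), (((σ ^ k) x : S) : G) = f ^ k * x * (f ^ k)⁻¹ := by
    intro k
    induction k with
    | zero => intro x; simp
    | succ k ih =>
      intro x
      rw [pow_succ', Equiv.Perm.mul_apply]
      show f * (((σ ^ k) x : S) : G) * f⁻¹ = _
      rw [ih x, pow_succ' f k]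
      group
  have h7 : σ ^ 7 ^ 1 = 1 := by
    ext x
    rw [pow_one, hpow, ← hf, pow_orderOf_eq_one]
    simp
  obtain ⟨x, hx⟩ := Equiv.Perm.exists_fixed_point_of_prime
    (by rwa [← Nat.card_eq_fintype_card]) h7
  exact ⟨x, x.2, mul_inv_eq_iff_eq_mul.1 (congrArg Subtype.val hx)⟩

theorem exists_fixed_sub {f : G} (hf : orderOf f = 7) {v : Vert E} (hv : f • v = v) :
    ∃ t ∈ sub E v, t ≠ 1 ∧ Commute f t := by
  obtain ⟨t, ⟨ht, t1⟩, hc⟩ := exists_fixed h hs hf {x : G | x ∈ sub E v ∧ x ≠ 1}
    (fun x hx => ⟨conj_mem h hv hx.1,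
      fun e => hx.2 (by simpa [mul_assoc] using congrArg (fun t => f⁻¹ * t * f) e)⟩)
    (by
      have h2 := CfsgLib.M22Count.HexGraph.card_split_one (p := fun x => x ∈ sub E v) (one_mem _)
      have h16 : Nat.card {x : G // x ∈ sub E v} = 16 := (oct h v).card
      rw [show Nat.card {x : G | x ∈ sub E v ∧ x ≠ 1} = 15 from by
        change Nat.card {x : G // x ∈ sub E v ∧ x ≠ 1} = 15
        omega]
      norm_num)
  exact ⟨t, ht, t1, hc⟩

/-- An element of order seven fixing two neighbours centralises no involution of their parts. -/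
theorem seven_part {f : G} (hf : orderOf f = 7) {v z : Vert E} (hv : f • v = v) (hz : f • z = z)
    (hzv : Adj E z v) {s : G} (hs' : s ∈ sub E z) (hsv : s • v = v) (s1 : s ≠ 1)
    (hfs : Commute f s) : False := by
  classical
  haveI := Fintype.ofFinite G
  have h3 : (Finset.univ.filter fun x : G => orderOf x = 2 ∧ Commute x f).card = 3 := by
    rw [← Fintype.card_subtype, ← Nat.card_eq_fintype_card]; exact hs.invol_seven f hf
  set A := (Finset.univ.filter fun x : G => x ∈ part E z v).erase 1 with hA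
  have hAc : A.card = 7 := by
    rw [hA, Finset.card_erase_of_mem (by simp [one_mem]), ← Fintype.card_subtype,
      ← Nat.card_eq_fintype_card]
    change Nat.card (part E z v) - 1 = 7
    rw [hzv.2]
  have hmemA : ∀ a, a ∈ A ↔ a ≠ 1 ∧ a ∈ part E z v := fun a => by simp [hA]
  have hAinv : ∀ a ∈ A, f * a * f⁻¹ ∈ A := by
    intro a ha
    rw [hmemA] at ha ⊢
    refine ⟨fun e => ha.1 (conj_eq_one_iff.1 e),
      (mem_part E).2 ⟨conj_mem h hz ((mem_part E).1 ha.2).1, ?_⟩⟩
    rw [mul_smul, mul_smul, inv_smul_eq_iff.2 hv.symm, ((mem_part E).1 ha.2).2, hv]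
  have hall : ∀ a ∈ A, Commute f a := by
    by_contra hne
    push Not at hne
    obtain ⟨a0, ha0, hna0⟩ := hne
    set M := Finset.univ.filter fun a => a ∈ A ∧ ¬ Commute f a with hM
    have hMA : M ⊆ A.erase s := fun a ha => by
      simp only [hM, Finset.mem_filter, Finset.mem_univ, true_and] at ha
      exact Finset.mem_erase.2 ⟨fun e => ha.2 (e ▸ hfs), ha.1⟩
    have hMle := Finset.card_le_card hMA
    rw [Finset.card_erase_of_mem ((hmemA s).2 ⟨s1, (mem_part E).2 ⟨hs', hsv⟩⟩), hAc] at hMle
    have hMpos : 0 < M.card := Finset.card_pos.2 ⟨a0, by simp [hM, ha0, hna0]⟩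
    obtain ⟨a, ⟨-, hna⟩, hfa⟩ := exists_fixed h hs hf {a : G | a ∈ A ∧ ¬ Commute f a}
      (fun a ha => ⟨hAinv a ha.1, fun e => ha.2 (by
        have e' := e.eq
        show f * a = a * f
        calc f * a = f⁻¹ * (f * (f * a * f⁻¹)) * f := by group
          _ = f⁻¹ * (f * a * f⁻¹ * f) * f := by rw [e']
          _ = a * f := by group)⟩)
      (by
        change ¬ 7 ∣ Nat.card {a : G // a ∈ A ∧ ¬ Commute f a}
        rw [Nat.card_eq_fintype_card, Fintype.card_subtype, ← hM]
        intro hd
        have := Nat.le_of_dvd hMpos hd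
        omega)
    exact hna hfa
  have hle : A.card ≤ 3 := h3 ▸ Finset.card_le_card (fun a ha => by
    have hm := (hmemA a).1 ha
    exact Finset.mem_filter.2 ⟨Finset.mem_univ _,
      orderOf_two h ((mem_part E).1 hm.2).1 hm.1, (hall a ha).symm⟩)
  omega

/-- The vertices fixed by an element of order seven fixing `v` and a neighbour are neighbours. -/
theorem seven_fix_adj {f : G} (hf : orderOf f = 7) {v z : Vert E} (hv : f • v = v) (hz : f • z = z)
    (hvz : Adj E v z) {w : Vert E} (hw : f • w = w) : w = v ∨ Adj E v w := by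
  classical
  haveI := Fintype.ofFinite G
  obtain ⟨t, ht, t1, hft⟩ := exists_fixed_sub h hs hf hv
  obtain ⟨s, hs', s1, hfs⟩ := exists_fixed_sub h hs hf hz
  obtain ⟨c, hc, c1, hfc⟩ := exists_fixed_sub h hs hf hw
  have h3 : (Finset.univ.filter fun x : G => orderOf x = 2 ∧ Commute x f).card = 3 := by
    rw [← Fintype.card_subtype, ← Nat.card_eq_fintype_card]; exact hs.invol_seven f hf
  have hmem : ∀ {u : Vert E} {a : G}, a ∈ sub E u → a ≠ 1 → Commute f a →
      a ∈ Finset.univ.filter fun x : G => orderOf x = 2 ∧ Commute x f := fun ha a1 hfa =>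
    Finset.mem_filter.2 ⟨Finset.mem_univ _, orderOf_two h ha a1, hfa.symm⟩
  have hsv : s • v ≠ v := fun e =>
    seven_part h hs hf hv hz (adj_symm h hvz) hs' e s1 hfs
  have htz : t * s * t⁻¹ ∈ sub E (t • z) := (mem_sub_smul E).2 hs'
  have hft' : f • (t • z) = t • z := by rw [← mul_smul, hft.eq, mul_smul, hz]
  have hadj : Adj E v (t • z) := (adj_smul_iff E (sub_fix h ht)).2 hvz
  have hne : t • z ≠ z := fun e => seven_part h hs hf hz hv hvz ht e t1 hft
  by_cases hwv : w = v
  · exact Or.inl hwv
  right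
  have hu : Commute f (t * s * t⁻¹) := (hft.mul_right hfs).mul_right hft.inv_right
  have hu1 : t * s * t⁻¹ ≠ 1 := fun e => s1 (conj_eq_one_iff.1 e)
  have htrio : ({t, s, t * s * t⁻¹} : Finset G) =
      Finset.univ.filter fun x : G => orderOf x = 2 ∧ Commute x f := by
    refine Finset.eq_of_subset_of_card_le (fun x hx => ?_) ?_
    · simp only [Finset.mem_insert, Finset.mem_singleton] at hx
      rcases hx with rfl | rfl | rfl
      · exact hmem ht t1 hft
      · exact hmem hs' s1 hfs
      · exact hmem htz hu1 hu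
    · rw [h3]
      have e1 : t ≠ s := fun e => hvz.1 (eq_of_mem h ht (e ▸ hs') t1)
      have e2 : s ≠ t * s * t⁻¹ := fun e => hne (eq_of_mem h (e ▸ htz) hs' s1)
      have e3 : t ≠ t * s * t⁻¹ := fun e =>
        hadj.1 (eq_of_mem h (show t * s * t⁻¹ ∈ sub E v by rwa [← e]) htz hu1)
      simp [e1, e2, e3]
  have hcm := hmem hc c1 hfc
  rw [← htrio] at hcm
  simp only [Finset.mem_insert, Finset.mem_singleton] at hcm
  rcases hcm with e | e | e
  · exact absurd (eq_of_mem h hc (e ▸ ht) c1) hwv
  · rw [eq_of_mem h hc (e ▸ hs') c1]; exact hvz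
  · rw [eq_of_mem h hc (e ▸ htz) c1]; exact hadj

/-- No element of order seven fixes a vertex and one in general position to it. -/
theorem seven_not_far {f : G} (hf : orderOf f = 7) {v w : Vert E} (hv : f • v = v) (hw : f • w = w) :
    ¬ Far E v w := by
  intro hfar
  haveI : Fact (Nat.Prime 7) := ⟨by norm_num⟩
  obtain ⟨f0, z, hf0, hv0, hz0, hvz⟩ := exists_seven h hs v
  have hsyl : ∀ g : G, orderOf g = 7 → g • v = v →
      ∃ P : Sylow 7 ↥(MulAction.stabilizer G v),
        ∀ x : ↥(MulAction.stabilizer G v), x ∈ (P : Subgroup _) ↔ (x : G) ∈ Subgroup.zpowers g := by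
    intro g hg hgv
    have ho : orderOf (⟨g, hgv⟩ : MulAction.stabilizer G v) = 7 := by
      rw [← Subgroup.orderOf_coe]; exact hg
    refine ⟨Sylow.ofCard (Subgroup.zpowers ⟨g, hgv⟩) ?_, fun x => ?_⟩
    · rw [Nat.card_zpowers, ho, card_stab h]
      have : (322560 : ℕ).factorization 7 = 1 := by
        rw [show (322560 : ℕ) = 7 * 46080 by norm_num, Nat.factorization_mul (by norm_num) (by norm_num),
          Finsupp.add_apply, Nat.Prime.factorization_self (by norm_num),
          Nat.factorization_eq_zero_of_not_dvd (by norm_num : ¬ 7 ∣ 46080)]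
      rw [this, pow_one]
    · constructor
      · intro hx
        obtain ⟨k, hk⟩ := Subgroup.mem_zpowers_iff.1 hx
        rw [← hk, Subgroup.coe_zpow]
        exact zpow_mem (Subgroup.mem_zpowers g) k
      · intro hx
        obtain ⟨k, hk⟩ := Subgroup.mem_zpowers_iff.1 hx
        have : x = (⟨g, hgv⟩ : MulAction.stabilizer G v) ^ k := Subtype.ext hk.symm
        rw [this]
        exact zpow_mem (Subgroup.mem_zpowers (⟨g, hgv⟩ : MulAction.stabilizer G v)) k
  obtain ⟨P, hP⟩ := hsyl f hf hv
  obtain ⟨P0, hP0⟩ := hsyl f0 hf0 hv0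
  obtain ⟨n, hn⟩ := MulAction.exists_smul_eq ↥(MulAction.stabilizer G v) P0 P
  have hmem : (n : G) * f0 * (n : G)⁻¹ ∈ Subgroup.zpowers f := by
    refine (hP (n * ⟨f0, hv0⟩ * n⁻¹)).1 ?_
    rw [← hn, Sylow.coe_subgroup_smul, Subgroup.mem_pointwise_smul_iff_inv_smul_mem,
      MulAut.smul_def]
    refine (hP0 _).2 ?_
    simp [MulAut.conj, mul_assoc]
  set f1 := (n : G) * f0 * (n : G)⁻¹ with hf1
  have hf1o : orderOf f1 = 7 := ((MulAut.conj (n : G)).orderOf_eq f0).trans hf0
  have hz1 : f1 • ((n : G) • z) = (n : G) • z := by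
    rw [hf1, mul_smul, mul_smul, inv_smul_smul, hz0]
  have hv1 : f1 • v = v := by
    rw [hf1, mul_smul, mul_smul, inv_smul_eq_iff.2 n.2.symm, hv0]
    exact n.2
  have hw1 : f1 • w = w := by
    obtain ⟨k, hk⟩ := Subgroup.mem_zpowers_iff.1 hmem
    rw [← hk]
    exact MulAction.mem_stabilizer_iff.1
      (zpow_mem (MulAction.mem_stabilizer_iff.2 hw : f ∈ MulAction.stabilizer G w) k)
  rcases seven_fix_adj h hs hf1o hv1 hz1 ((adj_smul_iff E n.2).2 hvz) hw1 with e | e
  · exact hfar.1 e.symm
  · have := e.2.symm.trans hfar.2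
    omega

/-- The stabiliser of two vertices in general position, on the eight points. -/
theorem far_image {v w : Vert E} (hw : Far E v w) :
    (∃ d : Finset (Fin 8), d.card = 2 ∧
      (∀ k ∈ (MulAction.stabilizer ↥(MulAction.stabilizer G v) w).map (pi h v), d.image k = d) ∧
      ∀ d' : Finset (Fin 8), d'.card = 2 →
        (∀ k ∈ (MulAction.stabilizer ↥(MulAction.stabilizer G v) w).map (pi h v), d'.image k = d') →
          d' = d) ∧
      ∀ w' : Vert E, Far E v w' → ∃ n : ↥(MulAction.stabilizer G v), (n : G) • w = w' := by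
  classical
  set H := MulAction.stabilizer ↥(MulAction.stabilizer G v) w with hH
  set K := H.map (pi h v) with hK
  have hbot : part E v w = ⊥ := Subgroup.card_eq_one.1 hw.2
  have hinj : Function.Injective ((pi h v).comp H.subtype) := by
    intro a b e
    have e' := (pi_eq_iff h _ _).1 (show pi h v a = pi h v b from e)
    have : ((b : MulAction.stabilizer G v) : G)⁻¹ * (a : MulAction.stabilizer G v) ∈ part E v w :=
      (mem_part E).2 ⟨e', (b⁻¹ * a).2⟩
    rw [hbot, Subgroup.mem_bot, inv_mul_eq_one] at this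
    exact Subtype.ext (Subtype.ext this.symm)
  have hcardK : Nat.card K = Nat.card H := by
    rw [hK, show H.map (pi h v) = ((pi h v).comp H.subtype).range by
      rw [MonoidHom.range_comp, Subgroup.range_subtype]]
    exact (Nat.card_congr (MonoidHom.ofInjective hinj).toEquiv).symm
  have hA : K ≤ alternatingGroup (Fin 8) := by
    rintro _ ⟨n, -, rfl⟩
    exact Equiv.Perm.mem_alternatingGroup.2 (pi_sign h n)
  have hdvd : Nat.card H ∣ 20160 := by
    have := Subgroup.card_dvd_of_le hA
    rwa [hcardK, CfsgLib.GL4F2.card_alt_eight] at this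
  have horb := card_orbit_stab h hs v w
  have hsub : MulAction.orbit ↥(MulAction.stabilizer G v) w ⊆ {z | Far E v z} := by
    rintro _ ⟨n, rfl⟩
    exact (far_smul_iff E n.2).2 hw
  have hle : Nat.card (MulAction.orbit ↥(MulAction.stabilizer G v) w) ≤ 448 := by
    rw [← (counts h hs v).2.2.2.2]
    exact Nat.card_mono (Set.toFinite _) hsub
  have h7 : ¬ 7 ∣ Nat.card H := by
    intro h7
    haveI : Fact (Nat.Prime 7) := ⟨by norm_num⟩
    obtain ⟨f, hf⟩ := exists_prime_orderOf_dvd_card' (G := H) 7 h7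
    rw [← Subgroup.orderOf_coe, ← Subgroup.orderOf_coe] at hf
    exact seven_not_far h hs hf f.1.2 f.2 hw
  have h720 : 720 ≤ Nat.card H := by
    rw [← hH] at horb
    by_contra hlt
    have := Nat.mul_le_mul hle (show Nat.card H ≤ 719 by omega)
    omega
  have h5 : 5 ∣ Nat.card H := by
    by_contra h5
    have hc : Nat.Coprime 35 (Nat.card H) := by
      rw [show (35 : ℕ) = 5 * 7 by norm_num]
      exact Nat.Coprime.mul_left ((Nat.Prime.coprime_iff_not_dvd (by norm_num)).2 h5)
        ((Nat.Prime.coprime_iff_not_dvd (by norm_num)).2 h7)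
    obtain ⟨r, hr⟩ := hdvd
    rw [← hH] at horb
    have h35 : 35 ∣ Nat.card (MulAction.orbit ↥(MulAction.stabilizer G v) w) :=
      hc.dvd_of_dvd_mul_right (by rw [horb]; norm_num)
    have h16 : Nat.card (MulAction.orbit ↥(MulAction.stabilizer G v) w) = 16 * r := by
      refine Nat.eq_of_mul_eq_mul_right (Nat.card_pos (α := H)) ?_
      rw [mul_assoc, mul_comm r, ← hr, horb]
      all_goals norm_num
    have : 35 ∣ r := (Nat.Coprime.dvd_of_dvd_mul_left (by norm_num) (h16 ▸ h35))
    have hr0 : 0 < r := by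
      rcases Nat.eq_zero_or_pos r with rfl | h0
      · simp at hr
      · exact h0
    have := Nat.le_of_dvd hr0 this
    omega
  obtain ⟨h720', hd⟩ := exists_pair K hA (hcardK ▸ h5) (hcardK ▸ h7) (hcardK ▸ h720)
  refine ⟨hd, fun w' hw' => ?_⟩
  have h448 : Nat.card (MulAction.orbit ↥(MulAction.stabilizer G v) w) = 448 := by
    rw [← hH, ← hcardK, h720'] at horb
    omega
  have heq : MulAction.orbit ↥(MulAction.stabilizer G v) w = {z | Far E v z} := by
    refine Set.eq_of_subset_of_ncard_le hsub ?_ (Set.toFinite _)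
    rw [← Nat.card_coe_set_eq, ← Nat.card_coe_set_eq, h448]
    exact (counts h hs v).2.2.2.2.le
  obtain ⟨n, hn⟩ : w' ∈ MulAction.orbit ↥(MulAction.stabilizer G v) w := heq ▸ hw'
  exact ⟨n, hn⟩

/-- The pair of a vertex in general position. -/
noncomputable def duad (v w : Vert E) : Finset (Fin 8) := by
  classical
  exact if hw : Far E v w then Classical.choose (far_image h hs hw).1 else ∅

theorem duad_card {v w : Vert E} (hw : Far E v w) : (duad h hs v w).card = 2 := by
  rw [duad, dif_pos hw]
  exact (Classical.choose_spec (far_image h hs hw).1).1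

theorem duad_inv {v w : Vert E} (hw : Far E v w) (n : ↥(MulAction.stabilizer G v))
    (hn : (n : G) • w = w) : (duad h hs v w).image (pi h v n) = duad h hs v w := by
  rw [duad, dif_pos hw]
  exact (Classical.choose_spec (far_image h hs hw).1).2.1 _ ⟨n, hn, rfl⟩

theorem duad_unique {v w : Vert E} (hw : Far E v w) {d : Finset (Fin 8)} (hd : d.card = 2)
    (hinv : ∀ n : ↥(MulAction.stabilizer G v), (n : G) • w = w → d.image (pi h v n) = d) :
    d = duad h hs v w := by
  rw [duad, dif_pos hw]
  refine (Classical.choose_spec (far_image h hs hw).1).2.2 d hd ?_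
  rintro _ ⟨n, hn, rfl⟩
  exact hinv n hn

theorem duad_smul {v w : Vert E} (hw : Far E v w) (n : ↥(MulAction.stabilizer G v)) :
    duad h hs v ((n : G) • w) = (duad h hs v w).image (pi h v n) := by
  symm
  refine duad_unique h hs ((far_smul_iff E n.2).2 hw)
    (by rw [Finset.card_image_of_injective _ (pi h v n).injective, duad_card h hs hw]) fun k hk => ?_
  have hk' : ((n⁻¹ * k * n : MulAction.stabilizer G v) : G) • w = w := by
    simp only [Subgroup.coe_mul, Subgroup.coe_inv, mul_smul, hk, inv_smul_smul]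
  have := congrArg (Finset.image (pi h v n)) (duad_inv h hs hw (n⁻¹ * k * n) hk')
  rw [Finset.image_image, ← Equiv.Perm.coe_mul, ← map_mul] at this
  rw [Finset.image_image, ← Equiv.Perm.coe_mul, ← map_mul]
  rwa [show n * (n⁻¹ * k * n) = k * n by group] at this

theorem card_duads : Nat.card {d : Finset (Fin 8) // d.card = 2} = 28 := by
  rw [Nat.card_eq_fintype_card]
  simp only [Fintype.card_finset_len, Fintype.card_fin]
  rfl

theorem card_duad_eq {v : Vert E} {d d' : Finset (Fin 8)} (hd : d.card = 2) (hd' : d'.card = 2) :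
    Nat.card {w // Far E v w ∧ duad h hs v w = d} =
      Nat.card {w // Far E v w ∧ duad h hs v w = d'} := by
  obtain ⟨σ, hσ, hσT⟩ := exists_even_image (hd.trans hd'.symm) (by omega)
  obtain ⟨n, hn⟩ := pi_surj h (v := v) hσ
  refine Nat.card_congr (Equiv.subtypeEquiv (MulAction.toPerm (n : G)) fun w => ?_)
  rw [MulAction.toPerm_apply, far_smul_iff E n.2]
  refine and_congr_right fun hw => ?_
  rw [duad_smul h hs hw, hn, ← hσT]
  exact ⟨fun e => by rw [e], fun e => Finset.image_injective σ.injective e⟩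

theorem duad_fibre (v : Vert E) {d : Finset (Fin 8)} (hd : d.card = 2) :
    Nat.card {w // Far E v w ∧ duad h hs v w = d} = 16 := by
  have e : Nat.card {w // Far E v w} =
      28 * Nat.card {w // Far E v w ∧ duad h hs v w = d} := by
    rw [← card_duads h hs]
    refine card_of_fibres (fun w => (⟨duad h hs v w.1, duad_card h hs w.2⟩ :
      {d : Finset (Fin 8) // d.card = 2})) _ fun q => ?_
    rw [← card_duad_eq h hs q.2 hd]
    exact Nat.card_congr
      { toFun := fun z => ⟨z.1.1, z.1.2, congrArg Subtype.val z.2⟩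
        invFun := fun z => ⟨⟨z.1, z.2.1⟩, Subtype.ext z.2.2⟩
        left_inv := fun _ => rfl
        right_inv := fun _ => rfl }
  rw [(counts h hs v).2.2.2.2] at e
  omega

theorem duad_smul_sub {v w : Vert E} {e : G} (he : e ∈ sub E v) (hw : Far E v w) :
    duad h hs v (e • w) = duad h hs v w := by
  have := duad_smul h hs hw ⟨e, sub_fix h he⟩
  rw [pi_of_sub h _ (show ((⟨e, sub_fix h he⟩ : MulAction.stabilizer G v) : G) ∈ sub E v from he)]
    at this
  simpa using this

theorem duad_eq_iff {v w w' : Vert E} (hw : Far E v w) (hw' : Far E v w') :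
    duad h hs v w = duad h hs v w' ↔ ∃ e ∈ sub E v, e • w = w' := by
  constructor
  · intro e
    have h16 := card_orbit_sub h v w
    rw [hw.2, mul_one] at h16
    let f : {z : Vert E // ∃ e ∈ sub E v, e • w = z} →
        {z // Far E v z ∧ duad h hs v z = duad h hs v w} := fun z => ⟨z.1, by
      obtain ⟨e, he, hz⟩ := z.2
      rw [← hz]
      exact ⟨(far_smul_iff E (sub_fix h he)).2 hw, duad_smul_sub h hs he hw⟩⟩
    have hinj : Function.Injective f := fun a b e => Subtype.ext (by simpa [f] using e)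
    obtain ⟨z, hz⟩ := (hinj.bijective_of_nat_card_le (by
      rw [duad_fibre h hs v (duad_card h hs hw), h16])).2 ⟨w', hw', e.symm⟩
    obtain ⟨e', he', hz'⟩ := z.2
    exact ⟨e', he', hz'.trans (congrArg Subtype.val hz)⟩
  · rintro ⟨e, he, rfl⟩
    exact (duad_smul_sub h hs he hw).symm

theorem tet_eq_iff {v w w' : Vert E} (hw : Near E v w) (hw' : Near E v w') :
    tet h v w = tet h v w' ↔ ∃ e ∈ sub E v, e • w = w' := by
  constructor
  · intro e
    have h16 := card_orbit_sub h v w
    rw [hw.2] at h16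
    let f : {z : Vert E // ∃ e ∈ sub E v, e • w = z} →
        {z // Near E v z ∧ tet h v z = tet h v w} := fun z => ⟨z.1, by
      obtain ⟨e, he, hz⟩ := z.2
      rw [← hz]
      exact orbit_sub_tet h he hw⟩
    have hinj : Function.Injective f := fun a b e => Subtype.ext (by simpa [f] using e)
    obtain ⟨z, hz⟩ := (hinj.bijective_of_nat_card_le (by
      rw [(counts h hs v).2.1 _ (tet_card h hw)]; omega)).2 ⟨w', hw', e.symm⟩
    obtain ⟨e', he', hz'⟩ := z.2
    exact ⟨e', he', hz'.trans (congrArg Subtype.val hz)⟩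
  · rintro ⟨e, he, rfl⟩
    exact ((orbit_sub_tet h he hw).2).symm

theorem faithful : FaithfulSMul G (Vert E) := by
  refine ⟨fun {g k} hgk => ?_⟩
  have hfix : ∀ v : Vert E, (k⁻¹ * g) • v = v := fun v => by
    rw [mul_smul, hgk v, inv_smul_smul]
  have hmem : ∀ v : Vert E, k⁻¹ * g ∈ sub E v := fun v => by
    let m : MulAction.stabilizer G v := ⟨k⁻¹ * g, hfix v⟩
    have hT : ∀ T : Finset (Fin 8), T.card = 4 → T.image (pi h v m) = T := by
      intro T hT
      obtain ⟨⟨w, hw, hwT⟩⟩ := (Nat.card_pos_iff.1 ((counts h hs v).2.1 T hT ▸ (by norm_num) :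
        0 < Nat.card {w // Near E v w ∧ tet h v w = T})).1
      have := tet_smul h (w := w) m
      rw [hfix w, hwT] at this
      exact this.symm
    have h1 : pi h v m = 1 := by
      ext i : 1
      by_contra hne
      obtain ⟨T, hiT, hjT, hT4⟩ := (show ∀ i j : Fin 8, i ≠ j →
        ∃ T : Finset (Fin 8), i ∈ T ∧ j ∉ T ∧ T.card = 4 from by decide +kernel) i (pi h v m i)
          (fun e => hne e.symm)
      exact hjT (hT T hT4 ▸ Finset.mem_image_of_mem _ hiT)
    have := (pi_eq_iff h m 1).1 (by rw [h1, map_one])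
    simpa [m] using this
  by_contra hne
  obtain ⟨⟨w, hw⟩⟩ : Nonempty {w // Adj E (1 : G) w} :=
    (Nat.card_pos_iff.1 ((counts h hs _).2.2.1 ▸ (by norm_num) :
      0 < Nat.card {w // Adj E ((1 : G) : Vert E) w})).1
  exact hw.1 (eq_of_mem h (hmem _) (hmem _) fun e => hne (inv_mul_eq_one.1 e).symm)

/-- The geometry without lines on the conjugates of an octad. -/
noncomputable def preGeom : PreGeom G (Vert E) where
  sub := sub E
  crd := crd h
  ρ := rho h
  card_V := card_vert h hs
  trans := fun v w => MulAction.exists_smul_eq G v w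
  sub_smul := sub_smul E
  sub_card := fun v => (oct h v).card
  sub_comm := fun v => (oct h v).comm
  sub_sq := fun v => (oct h v).sq
  sub_le := fun v _ ha => sub_fix h ha
  sub_disj := fun v w hvw => (Subgroup.eq_bot_iff_forall _).2 fun x hx =>
    by_contra fun x1 => hvw (eq_of_mem h hx.1 hx.2 x1)
  sub_isA := fun v => (oct h v).isA
  sub_self_cent := fun v => (oct h v).self_cent
  cent_le := fun _ _ ha a1 _ hc => smul_eq_of_commute h ha a1 hc
  card_stab := card_stab h
  crd_mul := fun _ _ ha _ hb => crd_mul h ha hb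
  crd_inj := fun _ _ ha _ hb => crd_inj h ha hb
  crd_surj := crd_surj h
  ρ_conj := fun _ n _ ha => rho_conj h n ha
  ρ_surj := rho_surj h
  ρ_ker := rho_ker h
  adj := Adj E
  near := Near E
  far := Far E
  tet := tet h
  duad := duad h hs
  adj_iff := fun _ _ => Iff.rfl
  near_iff := fun _ _ => Iff.rfl
  far_iff := fun _ _ => Iff.rfl
  cases := vert_cases h
  adj_smul := fun g _ _ hw => adj_smul E g hw
  near_smul := fun g _ _ hw => near_smul E g hw
  far_smul := fun g _ _ hw => far_smul E g hw
  adj_symm := fun _ _ => adj_symm h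
  near_symm := fun _ _ => near_symm h
  far_symm := fun _ _ => far_symm h
  part_comm := fun _ _ hvw _ ha _ hb => parts_comm h hvw ha.1 ha.2 hb.1 hb.2
  part_eq_cent := fun _ _ hvw _ ha a1 => part_eq_cent h hvw ha a1
  ncard_adj := fun v => (Nat.card_coe_set_eq _).symm.trans (counts h hs v).2.2.1
  ncard_near := fun v => (Nat.card_coe_set_eq _).symm.trans (counts h hs v).2.2.2.1
  ncard_far := fun v => (Nat.card_coe_set_eq _).symm.trans (counts h hs v).2.2.2.2
  adj_part_iff := fun _ _ _ hz hz' => adj_part_iff h hs hz hz'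
  adj_part_surj := fun v _ hB h8 => adj_part_surj h hs v hB h8
  tet_card := fun _ _ => tet_card h
  tet_fix := fun _ _ hw a ha a1 i => tet_fix h hw a ha (fun e => a1 (Subtype.ext e)) i
  tet_smul := fun _ _ n _ => tet_smul h n
  tet_eq_iff := fun _ _ _ hw hw' => tet_eq_iff h hs hw hw'
  tet_fibre := fun v T hT => (Nat.card_coe_set_eq _).symm.trans ((counts h hs v).2.1 T hT)
  duad_card := fun _ _ => duad_card h hs
  duad_smul := fun _ _ n hw => duad_smul h hs hw n
  duad_eq_iff := fun _ _ _ hw hw' => duad_eq_iff h hs hw hw'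
  duad_fibre := fun v _ hd => (Nat.card_coe_set_eq _).symm.trans (duad_fibre h hs v hd)

end CfsgLib.M24Count.Orbit

namespace CfsgLib.M24Count

universe u

/-- The conjugates of an octad carry the geometry without lines. -/
theorem exists_preGeom {G : Type u} [Group G] [Finite G] {E : Subgroup G} (hs : Setup G)
    (h : Octad E) :
    ∃ (V : Type u) (_ : MulAction G V) (_ : FaithfulSMul G V), Nonempty (PreGeom G V) :=
  ⟨Orbit.Vert E, inferInstance, Orbit.faithful h hs, ⟨Orbit.preGeom h hs⟩⟩

end CfsgLib.M24Count
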