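import Cfsg.Agent.M24Count.Defs
import Mathlib.Data.Set.Card
import Mathlib.Data.Finset.Card
import Mathlib.Data.Finset.Powerset
import Mathlib.Tactic.IntervalCases

/-!
The points of the geometry: a set of vertices meeting each line once and containing `x` is the
set of vertices sharing a fixed one of the eight points at `x`.
-/

set_option autoImplicit false

namespace CfsgLib.M24Count

universe u v

section Finite8

/-- A set of fewer than eight points misses some point. -/
theorem exists_pt_notMem {s : Finset (Fin 8)} (h : s.card < 8) : ∃ w, w ∉ s := by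
  by_contra hc
  have : s = Finset.univ := Finset.eq_univ_of_forall fun w => not_not.1 fun hw => hc ⟨w, hw⟩
  rw [this, Finset.card_univ, Fintype.card_fin] at h
  omega

theorem card_compl_eight (s : Finset (Fin 8)) : sᶜ.card = 8 - s.card := by
  rw [Finset.card_compl, Fintype.card_fin]

/-- The choice of one half of every bisection and of some pairs compatible with the lines is given
by one point. -/
theorem exists_center {g h : Finset (Fin 8) → Prop}
    (hc : ∀ T : Finset (Fin 8), T.card = 4 → (g Tᶜ ↔ ¬ g T))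
    (hd : ∀ d : Finset (Fin 8), d.card = 2 →
      (h d ↔ ∀ T : Finset (Fin 8), T.card = 4 → Disjoint T d → ¬ g T))
    (hp : ∀ T d : Finset (Fin 8), T.card = 4 → d.card = 2 → Disjoint T d → ¬ g T →
      (h d ↔ ¬ h (T ∪ d)ᶜ)) :
    ∃ i, (∀ T : Finset (Fin 8), T.card = 4 → (g T ↔ i ∈ T)) ∧
      ∀ d : Finset (Fin 8), d.card = 2 → (h d ↔ i ∈ d) := by
  have hsup : ∀ Q d : Finset (Fin 8), Q.card = 4 → d.card = 2 → d ⊆ Q → h d → g Q := by
    intro Q d hQ hd2 hsub hh
    have hQc : Qᶜ.card = 4 := by rw [card_compl_eight, hQ]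
    have hdis : Disjoint Qᶜ d := disjoint_compl_left.mono_right hsub
    exact not_not.1 fun hg => (hd d hd2).1 hh Qᶜ hQc hdis ((hc Q hQ).2 hg)
  have hxy : ∀ d e : Finset (Fin 8), d.card = 2 → e.card = 2 → Disjoint d e → g (d ∪ e) →
      (h d ↔ ¬ h e) := by
    intro d e hd2 he2 hde hg
    have hQ : (d ∪ e).card = 4 := by rw [Finset.card_union_of_disjoint hde, hd2, he2]
    have hT : (d ∪ e)ᶜ.card = 4 := by rw [card_compl_eight, hQ]
    have hdis : Disjoint (d ∪ e)ᶜ d := disjoint_compl_left.mono_right Finset.subset_union_left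
    have he : ((d ∪ e)ᶜ ∪ d)ᶜ = e := by
      ext w
      simp only [Finset.mem_compl, Finset.mem_union]
      constructor
      · intro hw
        tauto
      · intro hw
        have := Finset.disjoint_right.1 hde hw
        tauto
    have := hp _ d hT hd2 hdis (fun h' => (hc _ hQ).1 h' hg)
    rwa [he] at this
  have hint : ∀ d e : Finset (Fin 8), d.card = 2 → e.card = 2 → Disjoint d e → h d → ¬ h e := by
    intro d e hd2 he2 hde hh
    have hQ : (d ∪ e).card = 4 := by rw [Finset.card_union_of_disjoint hde, hd2, he2]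
    exact (hxy d e hd2 he2 hde (hsup _ d hQ hd2 Finset.subset_union_left hh)).1 hh
  obtain ⟨a, b, hab, hh⟩ : ∃ a b, a ≠ b ∧ h {a, b} := by
    by_contra hcon
    have key : ∀ a b c d : Fin 8, a ≠ b → c ≠ d → Disjoint ({a, b} : Finset (Fin 8)) {c, d} →
        ¬ g ({a, b} ∪ {c, d}) := by
      intro a b c d h1 h2 h3 hg
      have hh := hxy _ _ (Finset.card_pair h1) (Finset.card_pair h2) h3 hg
      exact hcon ⟨a, b, h1, hh.2 fun h' => hcon ⟨c, d, h2, h'⟩⟩
    have e : (({4, 5} : Finset (Fin 8)) ∪ {6, 7}) = ({0, 1} ∪ {2, 3})ᶜ := by decide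
    have h1 := key 0 1 2 3 (by decide) (by decide) (by decide)
    have h2 := key 4 5 6 7 (by decide) (by decide) (by decide)
    rw [e] at h2
    exact h2 ((hc _ (by decide)).2 h1)
  have finish : ∀ i : Fin 8, (∀ u, u ≠ i → h {i, u}) → ∃ i,
      (∀ T : Finset (Fin 8), T.card = 4 → (g T ↔ i ∈ T)) ∧
        ∀ d : Finset (Fin 8), d.card = 2 → (h d ↔ i ∈ d) := by
    intro i hi
    have hpos : ∀ T : Finset (Fin 8), T.card = 4 → i ∈ T → g T := by
      intro T hT hiT
      obtain ⟨w, hwT, hwi⟩ := Finset.exists_mem_ne (by omega : 1 < T.card) i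
      exact hsup T {i, w} hT (Finset.card_pair (Ne.symm hwi))
        (Finset.insert_subset hiT (Finset.singleton_subset_iff.2 hwT)) (hi w hwi)
    refine ⟨i, fun T hT => ⟨fun hg => ?_, hpos T hT⟩, fun d hd2 => ⟨fun hhd => ?_, fun hid => ?_⟩⟩
    · by_contra hiT
      exact (hc T hT).1 (hpos Tᶜ (by rw [card_compl_eight, hT]) (Finset.mem_compl.2 hiT)) hg
    · by_contra hid
      obtain ⟨w, hw⟩ := exists_pt_notMem (s := insert i d) (by
        have := Finset.card_insert_le i d
        omega)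
      rw [Finset.mem_insert, not_or] at hw
      have hdis : Disjoint d ({i, w} : Finset (Fin 8)) := by
        rw [Finset.disjoint_insert_right, Finset.disjoint_singleton_right]
        exact ⟨hid, hw.2⟩
      exact hint d {i, w} hd2 (Finset.card_pair (Ne.symm hw.1)) hdis hhd (hi w hw.1)
    · obtain ⟨w, hwd, hwi⟩ := Finset.exists_mem_ne (by omega : 1 < d.card) i
      have : ({i, w} : Finset (Fin 8)) = d :=
        Finset.eq_of_subset_of_card_le
          (Finset.insert_subset hid (Finset.singleton_subset_iff.2 hwd))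
          (by rw [Finset.card_pair (Ne.symm hwi)]; omega)
      exact this ▸ hi w hwi
  have hswap : ∀ u w : Fin 8, u ≠ a → u ≠ b → w ≠ a → w ≠ b → u ≠ w →
      (h {a, u} ↔ ¬ h {b, w}) := by
    intro u w hua hub hwa hwb huw
    have hdis : Disjoint ({a, u} : Finset (Fin 8)) {b, w} := by
      simp only [Finset.disjoint_insert_right, Finset.disjoint_singleton_right, Finset.mem_insert,
        Finset.mem_singleton]
      exact ⟨by simp [hab.symm, Ne.symm hub], by simp [hwa, Ne.symm huw]⟩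
    refine hxy _ _ (Finset.card_pair (Ne.symm hua)) (Finset.card_pair (Ne.symm hwb)) hdis ?_
    refine hsup _ {a, b} ?_ (Finset.card_pair hab) ?_ hh
    · rw [Finset.card_union_of_disjoint hdis, Finset.card_pair (Ne.symm hua),
        Finset.card_pair (Ne.symm hwb)]
    · intro z hz
      simp only [Finset.mem_insert, Finset.mem_singleton] at hz
      simp only [Finset.mem_union, Finset.mem_insert, Finset.mem_singleton]
      tauto
  have hconst : ∀ u w : Fin 8, u ≠ a → u ≠ b → w ≠ a → w ≠ b → (h {a, u} ↔ h {a, w}) := by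
    intro u w hua hub hwa hwb
    obtain ⟨r, hr⟩ := exists_pt_notMem (s := ({a, b, u, w} : Finset (Fin 8)))
      (lt_of_le_of_lt Finset.card_le_four (by norm_num))
    simp only [Finset.mem_insert, Finset.mem_singleton, not_or] at hr
    rw [hswap u r hua hub hr.1 hr.2.1 (Ne.symm hr.2.2.1),
      hswap w r hwa hwb hr.1 hr.2.1 (Ne.symm hr.2.2.2)]
  by_cases hall : ∀ u, u ≠ a → h {a, u}
  · exact finish a hall
  · obtain ⟨u, hu⟩ := not_forall.1 hall
    obtain ⟨hua, hnu⟩ := Classical.not_imp.1 hu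
    have hub : u ≠ b := fun e => hnu (e ▸ hh)
    refine finish b fun w hwb => ?_
    by_cases hwa : w = a
    · rw [hwa, Finset.pair_comm]
      exact hh
    · obtain ⟨r, hr⟩ := exists_pt_notMem (s := ({a, b, u, w} : Finset (Fin 8)))
        (lt_of_le_of_lt Finset.card_le_four (by norm_num))
      simp only [Finset.mem_insert, Finset.mem_singleton, not_or] at hr
      by_contra hw
      exact hnu ((hconst r u hr.1 hr.2.1 hua hub).1
        ((hswap r w hr.1 hr.2.1 hwa hwb hr.2.2.2).2 hw))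

end Finite8

namespace Geom

variable {G : Type u} {V : Type v} [Group G] [MulAction G V] (Γ : Geom G V)

/-- The vertices sharing the point `i` of `x`. -/
def star (x : V) (i : Fin 8) : Set V :=
  {w | w = x ∨ (Γ.near x w ∧ i ∈ Γ.tet x w) ∨ (Γ.far x w ∧ i ∈ Γ.duad x w)}

include Γ in
theorem finite_vertices : Finite V := Nat.finite_of_card_ne_zero (by rw [Γ.card_V]; norm_num)

theorem self_mem_star (x : V) (i : Fin 8) : x ∈ Γ.star x i := Or.inl rfl

theorem mem_star_near {x w : V} (hw : Γ.near x w) (i : Fin 8) :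
    w ∈ Γ.star x i ↔ i ∈ Γ.tet x w := by
  constructor
  · rintro (h | ⟨-, h⟩ | ⟨hf, -⟩)
    · exact absurd h.symm (Γ.near_ne x w hw).1
    · exact h
    · exact absurd hw (Γ.far_ne x w hf).2.2
  · exact fun h => Or.inr (Or.inl ⟨hw, h⟩)

theorem mem_star_far {x w : V} (hw : Γ.far x w) (i : Fin 8) :
    w ∈ Γ.star x i ↔ i ∈ Γ.duad x w := by
  constructor
  · rintro (h | ⟨hn, -⟩ | ⟨-, h⟩)
    · exact absurd h.symm (Γ.far_ne x w hw).1
    · exact absurd hn (Γ.far_ne x w hw).2.2
    · exact h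
  · exact fun h => Or.inr (Or.inr ⟨hw, h⟩)

theorem not_mem_star_adj {x w : V} (hw : Γ.adj x w) (i : Fin 8) : w ∉ Γ.star x i := by
  rintro (h | ⟨hn, -⟩ | ⟨hf, -⟩)
  · exact Γ.adj_ne x w hw h.symm
  · exact (Γ.near_ne x w hn).2 hw
  · exact (Γ.far_ne x w hf).2.1 hw

theorem ovoid_star (x : V) (i : Fin 8) : Ovoid Γ (Γ.star x i) := by
  intro a b c hab hac hbc
  by_cases hxa : x = a
  · subst hxa
    exact Or.inl ⟨Γ.self_mem_star x i, Γ.not_mem_star_adj hab i, Γ.not_mem_star_adj hac i⟩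
  by_cases hxb : x = b
  · subst hxb
    exact Or.inr (Or.inl ⟨Γ.not_mem_star_adj (Γ.adj_symm _ _ hab) i, Γ.self_mem_star x i,
      Γ.not_mem_star_adj hbc i⟩)
  by_cases hxc : x = c
  · subst hxc
    exact Or.inr (Or.inr ⟨Γ.not_mem_star_adj (Γ.adj_symm _ _ hac) i,
      Γ.not_mem_star_adj (Γ.adj_symm _ _ hbc) i, Γ.self_mem_star x i⟩)
  obtain ⟨p, q, r, hset, hcase⟩ := Γ.line_cases x a b c hxa hxb hxc hab hac hbc
  have key : ∃ w ∈ ({a, b, c} : Set V), w ∈ Γ.star x i ∧
      ∀ u ∈ ({a, b, c} : Set V), u ∈ Γ.star x i → u = w := by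
    rw [← hset]
    rcases hcase with ⟨hp, hq, hr, htet⟩ | ⟨hp, hq, hr, hdis, hd⟩
    · have hnp := Γ.not_mem_star_adj hp i
      have hiq := Γ.mem_star_near hq i
      have hir := Γ.mem_star_near hr i
      rw [htet, Finset.mem_compl] at hir
      by_cases hi : i ∈ Γ.tet x q
      · refine ⟨q, by simp, hiq.2 hi, ?_⟩
        rintro u (rfl | rfl | rfl) hu
        · exact absurd hu hnp
        · rfl
        · exact absurd hi (hir.1 hu)
      · refine ⟨r, by simp, hir.2 hi, ?_⟩
        rintro u (rfl | rfl | rfl) hu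
        · exact absurd hu hnp
        · exact absurd (hiq.1 hu) hi
        · rfl
    · have hip := Γ.mem_star_near hp i
      have hiq := Γ.mem_star_far hq i
      have hir := Γ.mem_star_far hr i
      rw [hd, Finset.mem_compl, Finset.mem_union, not_or] at hir
      by_cases hi : i ∈ Γ.tet x p
      · refine ⟨p, by simp, hip.2 hi, ?_⟩
        rintro u (rfl | rfl | rfl) hu
        · rfl
        · exact absurd (hiq.1 hu) (Finset.disjoint_left.1 hdis hi)
        · exact absurd hi (hir.1 hu).1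
      · by_cases hj : i ∈ Γ.duad x q
        · refine ⟨q, by simp, hiq.2 hj, ?_⟩
          rintro u (rfl | rfl | rfl) hu
          · exact absurd (hip.1 hu) hi
          · rfl
          · exact absurd hj (hir.1 hu).2
        · refine ⟨r, by simp, hir.2 ⟨hi, hj⟩, ?_⟩
          rintro u (rfl | rfl | rfl) hu
          · exact absurd (hip.1 hu) hi
          · exact absurd (hiq.1 hu) hj
          · rfl
  obtain ⟨w, hw, hwS, huniq⟩ := key
  have hab' := Γ.adj_ne _ _ hab
  have hac' := Γ.adj_ne _ _ hac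
  have hbc' := Γ.adj_ne _ _ hbc
  rcases hw with rfl | rfl | rfl
  · exact Or.inl ⟨hwS, fun h => hab' (huniq b (by simp) h).symm,
      fun h => hac' (huniq c (by simp) h).symm⟩
  · exact Or.inr (Or.inl ⟨fun h => hab' (huniq a (by simp) h), hwS,
      fun h => hbc' (huniq c (by simp) h).symm⟩)
  · exact Or.inr (Or.inr ⟨fun h => hac' (huniq a (by simp) h),
      fun h => hbc' (huniq b (by simp) h), hwS⟩)

theorem exists_near (x : V) {T : Finset (Fin 8)} (hT : T.card = 4) :
    ∃ w, Γ.near x w ∧ Γ.tet x w = T := by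
  obtain ⟨w, hw⟩ := Set.nonempty_of_ncard_ne_zero
    (s := {w | Γ.near x w ∧ Γ.tet x w = T}) (by rw [Γ.tet_fibre x T hT]; norm_num)
  exact ⟨w, hw⟩

theorem exists_far (x : V) {d : Finset (Fin 8)} (hd : d.card = 2) :
    ∃ w, Γ.far x w ∧ Γ.duad x w = d := by
  obtain ⟨w, hw⟩ := Set.nonempty_of_ncard_ne_zero
    (s := {w | Γ.far x w ∧ Γ.duad x w = d}) (by rw [Γ.duad_fibre x d hd]; norm_num)
  exact ⟨w, hw⟩

section Through

variable {S : Set V} (hS : Ovoid Γ S) {x : V} (hx : x ∈ S)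
include hS hx

theorem not_mem_of_adj {w : V} (hw : Γ.adj x w) : w ∉ S := by
  obtain ⟨z, ⟨hxz, hwz⟩, -⟩ := Γ.line x w hw
  rcases hS x w z hw hxz hwz with h | h | h
  · exact h.2.1
  · exact absurd hx h.1
  · exact absurd hx h.1

theorem mem_iff_partner {z w w' : V} (hxz : Γ.adj x z) (hzw : Γ.adj z w) (hzw' : Γ.adj z w')
    (hww' : Γ.adj w w') : w ∈ S ↔ w' ∉ S := by
  have hz := Γ.not_mem_of_adj hS hx hxz
  rcases hS z w w' hzw hzw' hww' with h | h | h
  · exact absurd h.1 hz
  · exact iff_of_true h.2.1 h.2.2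
  · exact iff_of_false h.2.1 (not_not.2 h.2.2)

theorem mem_iff_of_tet_eq {w₁ w₂ : V} (h₁ : Γ.near x w₁) (h₂ : Γ.near x w₂)
    (he : Γ.tet x w₁ = Γ.tet x w₂) : w₁ ∈ S ↔ w₂ ∈ S := by
  have : Finite V := Γ.finite_vertices
  set F : Set V := {w | Γ.near x w ∧ Γ.tet x w = (Γ.tet x w₁)ᶜ}
  set P : V → Set V := fun w => {w' | ∃ z, Γ.adj x z ∧ Γ.adj z w ∧ Γ.adj z w' ∧ Γ.adj w w'}
  have hF : F.ncard = 4 :=
    Γ.tet_fibre x _ (by rw [card_compl_eight, Γ.tet_card x w₁ h₁])
  have hP : ∀ w, Γ.near x w → Γ.tet x w = Γ.tet x w₁ → (P w).ncard = 3 ∧ P w ⊆ F := by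
    intro w hw hwe
    refine ⟨(Γ.near_partner x w hw).1, ?_⟩
    rintro w' ⟨z, hxz, hzw, hzw', hww'⟩
    obtain ⟨hn, ht⟩ := (Γ.near_partner x w hw).2 z w' hxz hzw hzw' hww'
    exact ⟨hn, by rw [ht, hwe]⟩
  obtain ⟨w', hw1, hw2⟩ : (P w₁ ∩ P w₂).Nonempty := by
    rw [Set.nonempty_iff_ne_empty]
    intro hempty
    have h1 := hP w₁ h₁ rfl
    have h2 := hP w₂ h₂ he.symm
    have hu := Set.ncard_union_eq (Set.disjoint_iff_inter_eq_empty.2 hempty)
      (Set.toFinite _) (Set.toFinite _)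
    have hle : (P w₁ ∪ P w₂).ncard ≤ F.ncard :=
      Set.ncard_le_ncard (Set.union_subset h1.2 h2.2) (Set.toFinite _)
    omega
  obtain ⟨z, hxz, hzw, hzw', hww'⟩ := hw1
  obtain ⟨y, hxy, hyw, hyw', hyy'⟩ := hw2
  rw [Γ.mem_iff_partner hS hx hxz hzw hzw' hww', Γ.mem_iff_partner hS hx hxy hyw hyw' hyy']

theorem eq_star : ∃ i, S = Γ.star x i := by
  have : Finite V := Γ.finite_vertices
  set g : Finset (Fin 8) → Prop := fun T => ∃ w, Γ.near x w ∧ Γ.tet x w = T ∧ w ∈ S with hg
  set h : Finset (Fin 8) → Prop :=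
    fun d => ∀ T : Finset (Fin 8), T.card = 4 → Disjoint T d → ¬ g T with hh
  have hnear : ∀ w, Γ.near x w → (w ∈ S ↔ g (Γ.tet x w)) := fun w hw =>
    ⟨fun hwS => ⟨w, hw, rfl, hwS⟩,
      fun ⟨u, hu, hue, huS⟩ => (Γ.mem_iff_of_tet_eq hS hx hu hw hue).1 huS⟩
  have hc : ∀ T : Finset (Fin 8), T.card = 4 → (g Tᶜ ↔ ¬ g T) := by
    intro T hT
    obtain ⟨w, hw, rfl⟩ := Γ.exists_near x hT
    obtain ⟨hcard, hpart⟩ := Γ.near_partner x w hw
    obtain ⟨w', z, hxz, hzw, hzw', hww'⟩ := Set.nonempty_of_ncard_ne_zero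
      (s := {w' | ∃ z, Γ.adj x z ∧ Γ.adj z w ∧ Γ.adj z w' ∧ Γ.adj w w'}) (by omega)
    obtain ⟨hn', ht'⟩ := hpart z w' hxz hzw hzw' hww'
    rw [← ht', ← hnear w' hn', ← hnear w hw, Γ.mem_iff_partner hS hx hxz hzw hzw' hww']
    exact not_not.symm
  have hline : ∀ (w : V) (T : Finset (Fin 8)), Γ.far x w → T.card = 4 →
      Disjoint T (Γ.duad x w) → ∃ b, Γ.far x b ∧ Γ.duad x b = (T ∪ Γ.duad x w)ᶜ ∧
        ((w ∈ S ∧ ¬ g T ∧ b ∉ S) ∨ (w ∉ S ∧ g T ∧ b ∉ S) ∨ (w ∉ S ∧ ¬ g T ∧ b ∈ S)) := by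
    intro w T hw hT hdis
    obtain ⟨a, b, hwa, hwb, hab, hna, hta, hfb, hdb⟩ := Γ.far_line x w T hw hT hdis
    refine ⟨b, hfb, hdb, ?_⟩
    have ha := hnear a hna
    rw [hta] at ha
    rw [← ha]
    exact hS w a b hwa hwb hab
  have hfar : ∀ w, Γ.far x w → (w ∈ S ↔ h (Γ.duad x w)) := by
    intro w hw
    have hd2 := Γ.duad_card x w hw
    constructor
    · intro hwS T hT hdis
      obtain ⟨b, -, -, hb⟩ := hline w T hw hT hdis
      rcases hb with hb | hb | hb
      · exact hb.2.1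
      · exact absurd hwS hb.1
      · exact absurd hwS hb.1
    · intro hall
      obtain ⟨T, hTs, hT⟩ := Finset.exists_subset_card_eq
        (s := (Γ.duad x w)ᶜ) (n := 4) (by rw [card_compl_eight, hd2]; norm_num)
      have hdis : Disjoint T (Γ.duad x w) := disjoint_compl_left.mono_left hTs
      obtain ⟨b, hfb, hdb, hb⟩ := hline w T hw hT hdis
      obtain ⟨T', hsub, hsup, hT'⟩ := Finset.exists_subsuperset_card_eq (n := 4)
        (Finset.subset_union_right (s₁ := T) (s₂ := Γ.duad x w)) (by omega)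
        (by rw [Finset.card_union_of_disjoint hdis]; omega)
      have hgT' : g T' := not_not.1 fun hn =>
        hall T'ᶜ (by rw [card_compl_eight, hT']) (disjoint_compl_left.mono_right hsub)
          ((hc T' hT').2 hn)
      have hdis' : Disjoint T' (Γ.duad x b) := by
        rw [hdb]
        exact disjoint_compl_right.mono_left hsup
      have hbS : b ∉ S := by
        obtain ⟨b', -, -, hb'⟩ := hline b T' hfb hT' hdis'
        rcases hb' with hb' | hb' | hb'
        · exact absurd hgT' hb'.2.1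
        · exact hb'.1
        · exact hb'.1
      rcases hb with hb | hb | hb
      · exact hb.1
      · exact absurd hb.2.1 (hall T hT hdis)
      · exact absurd hb.2.2 hbS
  obtain ⟨i, hi1, hi2⟩ := exists_center (g := g) (h := h) hc (fun d _ => Iff.rfl)
    (fun T d hT hd hdis hnT => by
      obtain ⟨w, hw, rfl⟩ := Γ.exists_far x hd
      obtain ⟨b, hfb, hdb, hb⟩ := hline w T hw hT hdis
      rw [← hfar w hw, ← hdb, ← hfar b hfb]
      rcases hb with hb | hb | hb
      · exact iff_of_true hb.1 hb.2.2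
      · exact absurd hb.2.1 hnT
      · exact iff_of_false hb.1 (not_not.2 hb.2.2))
  refine ⟨i, Set.ext fun w => ?_⟩
  rcases Γ.cases x w with rfl | hw | hw | hw
  · exact iff_of_true hx (Γ.self_mem_star _ i)
  · exact iff_of_false (Γ.not_mem_of_adj hS hx hw) (Γ.not_mem_star_adj hw i)
  · rw [hnear w hw, Γ.mem_star_near hw i]
    exact hi1 _ (Γ.tet_card x w hw)
  · rw [hfar w hw, Γ.mem_star_far hw i]
    exact hi2 _ (Γ.duad_card x w hw)

end Through

theorem star_injective (x : V) : Function.Injective (Γ.star x) := by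
  intro i j hij
  by_contra hne
  obtain ⟨T, hsub, hsup, hT⟩ := Finset.exists_subsuperset_card_eq (n := 4)
    (Finset.singleton_subset_iff.2 (Finset.mem_compl.2 fun h => hne (Finset.mem_singleton.1 h)) :
      ({i} : Finset (Fin 8)) ⊆ {j}ᶜ) (by simp) (by rw [card_compl_eight]; simp)
  obtain ⟨w, hw, rfl⟩ := Γ.exists_near x hT
  have h1 : w ∈ Γ.star x i := (Γ.mem_star_near hw i).2 (hsub (Finset.mem_singleton_self i))
  rw [hij, Γ.mem_star_near hw j] at h1
  exact Finset.mem_compl.1 (hsup h1) (Finset.mem_singleton_self j)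

/-- The eight sets meeting each line once through a vertex. -/
theorem ovoid_through_iff (x : V) (S : Set V) :
    (Ovoid Γ S ∧ x ∈ S) ↔ S ∈ Set.range (Γ.star x) := by
  constructor
  · rintro ⟨hS, hx⟩
    obtain ⟨i, rfl⟩ := Γ.eq_star hS hx
    exact ⟨i, rfl⟩
  · rintro ⟨i, rfl⟩
    exact ⟨Γ.ovoid_star x i, Γ.self_mem_star x i⟩

theorem ncard_ovoid_through (x : V) : {S : Set V | Ovoid Γ S ∧ x ∈ S}.ncard = 8 := by
  have : {S : Set V | Ovoid Γ S ∧ x ∈ S} = Γ.star x '' Set.univ := by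
    rw [Set.image_univ]
    exact Set.ext (Γ.ovoid_through_iff x)
  rw [this, Set.ncard_image_of_injective _ (Γ.star_injective x), Set.ncard_univ, Nat.card_fin]

theorem ncard_star (x : V) (i : Fin 8) : (Γ.star x i).ncard = 253 := by
  classical
  have : Finite V := Γ.finite_vertices
  have : Fintype V := Fintype.ofFinite V
  set D4 : Finset (Finset (Fin 8)) := (Finset.univ.powersetCard 4).filter (i ∈ ·) with hD4
  set D2 : Finset (Finset (Fin 8)) := (Finset.univ.powersetCard 2).filter (i ∈ ·) with hD2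
  have k4 : ∀ j : Fin 8, ((Finset.univ.powersetCard 4).filter (j ∈ ·)).card = 35 := by decide
  have k2 : ∀ j : Fin 8, ((Finset.univ.powersetCard 2).filter (j ∈ ·)).card = 7 := by decide
  set N : Finset V := Finset.univ.filter fun w => Γ.near x w ∧ i ∈ Γ.tet x w with hN
  set F : Finset V := Finset.univ.filter fun w => Γ.far x w ∧ i ∈ Γ.duad x w with hF
  have e4 : D4.card = 35 := k4 i
  have e2 : D2.card = 7 := k2 i
  have hNc : N.card = 140 := by
    rw [Finset.card_eq_sum_card_fiberwise (f := Γ.tet x) (t := D4) fun w hw => by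
      simp only [hN, Finset.mem_coe, Finset.mem_filter, Finset.mem_univ, true_and] at hw
      simp [hD4, hw.2, Γ.tet_card x w hw.1]]
    rw [Finset.sum_const_nat (m := 4) fun T hT => ?_, e4]
    simp only [hD4, Finset.mem_filter, Finset.mem_powersetCard_univ] at hT
    rw [← Γ.tet_fibre x T hT.1, ← Set.ncard_coe_finset]
    congr 1
    ext w
    simp only [hN, Finset.coe_filter, Finset.mem_filter, Finset.mem_univ, true_and,
      Set.mem_ofPred_eq]
    exact ⟨fun h => ⟨h.1.1, h.2⟩, fun h => ⟨⟨h.1, h.2.symm ▸ hT.2⟩, h.2⟩⟩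
  have hFc : F.card = 112 := by
    rw [Finset.card_eq_sum_card_fiberwise (f := Γ.duad x) (t := D2) fun w hw => by
      simp only [hF, Finset.mem_coe, Finset.mem_filter, Finset.mem_univ, true_and] at hw
      simp [hD2, hw.2, Γ.duad_card x w hw.1]]
    rw [Finset.sum_const_nat (m := 16) fun T hT => ?_, e2]
    simp only [hD2, Finset.mem_filter, Finset.mem_powersetCard_univ] at hT
    rw [← Γ.duad_fibre x T hT.1, ← Set.ncard_coe_finset]
    congr 1
    ext w
    simp only [hF, Finset.coe_filter, Finset.mem_filter, Finset.mem_univ, true_and,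
      Set.mem_ofPred_eq]
    exact ⟨fun h => ⟨h.1.1, h.2⟩, fun h => ⟨⟨h.1, h.2.symm ▸ hT.2⟩, h.2⟩⟩
  have hNF : Disjoint N F := Finset.disjoint_left.2 fun w hw hw' => by
    simp only [hN, hF, Finset.mem_filter, Finset.mem_univ, true_and] at hw hw'
    exact (Γ.far_ne x w hw'.1).2.2 hw.1
  have hxn : x ∉ N ∪ F := by
    simp only [hN, hF, Finset.mem_union, Finset.mem_filter, Finset.mem_univ, true_and]
    rintro (h | h)
    · exact (Γ.near_ne x x h.1).1 rfl
    · exact (Γ.far_ne x x h.1).1 rfl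
  have hset : Γ.star x i = ↑(insert x (N ∪ F)) := by
    ext w
    simp [Geom.star, hN, hF]
  rw [hset, Set.ncard_coe_finset, Finset.card_insert_of_notMem hxn,
    Finset.card_union_of_disjoint hNF, hNc, hFc]

end Geom

theorem Ovoid.image_smul {G : Type u} {V : Type v} [Group G] [MulAction G V] {Γ : Geom G V}
    {S : Set V} (hS : Ovoid Γ S) (g : G) : Ovoid Γ ((fun w => g • w) '' S) := by
  intro a b c hab hac hbc
  have hmem : ∀ w, w ∈ (fun w => g • w) '' S ↔ g⁻¹ • w ∈ S := fun w =>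
    ⟨fun ⟨u, hu, hw⟩ => by rw [← hw]; simpa using hu, fun h => ⟨_, h, by simp⟩⟩
  simp only [hmem]
  exact hS _ _ _ (Γ.adj_smul g⁻¹ _ _ hab) (Γ.adj_smul g⁻¹ _ _ hac) (Γ.adj_smul g⁻¹ _ _ hbc)

end CfsgLib.M24Count
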