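import Cfsg.Agent.M24Count.Defs
import Cfsg.Agent.GL4F2.Alt8

/-!
The part of `Geom` without the lines: the conjugates of an octad, the three relations between two
of them, and the eight points at each with the tetrad of a near and the duad of a far vertex. The
output of the orbit analysis and the input of the analysis of the lines.
-/

set_option autoImplicit false

namespace CfsgLib.M24Count

universe u v

open Matrix
open CfsgLib.GL4F2 (starPerm M4)

/-- All that is known about the vertices before the lines: `crd` coordinates on each subgroup,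
`ρ` the action of the stabiliser on them, `starPerm ∘ ρ` the action on the eight points. -/
structure PreGeom (G : Type u) (V : Type v) [Group G] [MulAction G V] where
  sub : V → Subgroup G
  crd : V → G → (Fin 4 → ZMod 2)
  ρ : ∀ x : V, ↥(MulAction.stabilizer G x) →* GL (Fin 4) (ZMod 2)
  card_V : Nat.card V = 759
  trans : ∀ x y : V, ∃ g : G, g • x = y
  sub_smul : ∀ (g : G) (x : V), sub (g • x) = (sub x).map (MulAut.conj g).toMonoidHom
  sub_card : ∀ x : V, Nat.card (sub x) = 16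
  sub_comm : ∀ x : V, ∀ a ∈ sub x, ∀ b ∈ sub x, a * b = b * a
  sub_sq : ∀ x : V, ∀ a ∈ sub x, a * a = 1
  sub_le : ∀ x : V, sub x ≤ MulAction.stabilizer G x
  sub_disj : ∀ x w : V, x ≠ w → sub x ⊓ sub w = ⊥
  sub_isA : ∀ x : V, ∀ a ∈ sub x, a ≠ 1 → IsA a
  sub_self_cent : ∀ x : V, Subgroup.centralizer (sub x : Set G) = sub x
  cent_le : ∀ (x : V) (a : G), a ∈ sub x → a ≠ 1 → ∀ c : G, Commute c a → c • x = x
  card_stab : ∀ x : V, Nat.card (MulAction.stabilizer G x) = 322560
  crd_mul : ∀ x : V, ∀ a ∈ sub x, ∀ b ∈ sub x, crd x (a * b) = crd x a + crd x b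
  crd_inj : ∀ x : V, ∀ a ∈ sub x, ∀ b ∈ sub x, crd x a = crd x b → a = b
  crd_surj : ∀ (x : V) (c : Fin 4 → ZMod 2), ∃ a ∈ sub x, crd x a = c
  ρ_conj : ∀ (x : V) (n : ↥(MulAction.stabilizer G x)), ∀ a ∈ sub x,
    crd x ((n : G) * a * (n : G)⁻¹) = (ρ x n : M4) *ᵥ crd x a
  ρ_surj : ∀ x : V, Function.Surjective (ρ x)
  ρ_ker : ∀ x : V, (ρ x).ker = (sub x).subgroupOf (MulAction.stabilizer G x)
  adj : V → V → Prop
  near : V → V → Prop
  far : V → V → Prop
  tet : V → V → Finset (Fin 8)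
  duad : V → V → Finset (Fin 8)
  adj_iff : ∀ x w : V, adj x w ↔
    x ≠ w ∧ Nat.card ↥(sub x ⊓ MulAction.stabilizer G w) = 8
  near_iff : ∀ x w : V, near x w ↔
    x ≠ w ∧ Nat.card ↥(sub x ⊓ MulAction.stabilizer G w) = 4
  far_iff : ∀ x w : V, far x w ↔
    x ≠ w ∧ Nat.card ↥(sub x ⊓ MulAction.stabilizer G w) = 1
  cases : ∀ x w : V, x = w ∨ adj x w ∨ near x w ∨ far x w
  adj_smul : ∀ (g : G) (x w : V), adj x w → adj (g • x) (g • w)
  near_smul : ∀ (g : G) (x w : V), near x w → near (g • x) (g • w)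
  far_smul : ∀ (g : G) (x w : V), far x w → far (g • x) (g • w)
  adj_symm : ∀ x w : V, adj x w → adj w x
  near_symm : ∀ x w : V, near x w → near w x
  far_symm : ∀ x w : V, far x w → far w x
  part_comm : ∀ x w : V, x ≠ w → ∀ a ∈ sub w ⊓ MulAction.stabilizer G x,
    ∀ b ∈ sub x ⊓ MulAction.stabilizer G w, a * b = b * a
  part_eq_cent : ∀ x w : V, x ≠ w → ∀ a ∈ sub w ⊓ MulAction.stabilizer G x, a ≠ 1 →
    sub x ⊓ MulAction.stabilizer G w = sub x ⊓ Subgroup.centralizer ({a} : Set G)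
  ncard_adj : ∀ x : V, {w | adj x w}.ncard = 30
  ncard_near : ∀ x : V, {w | near x w}.ncard = 280
  ncard_far : ∀ x : V, {w | far x w}.ncard = 448
  /-- Two neighbours with the same hyperplane form an orbit of the subgroup. -/
  adj_part_iff : ∀ x z z' : V, adj x z → adj x z' →
    (sub x ⊓ MulAction.stabilizer G z = sub x ⊓ MulAction.stabilizer G z' ↔
      ∃ e ∈ sub x, e • z = z')
  adj_part_surj : ∀ (x : V) (B : Subgroup G), B ≤ sub x → Nat.card B = 8 →
    ∃ z, adj x z ∧ sub x ⊓ MulAction.stabilizer G z = B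
  tet_card : ∀ x w : V, near x w → (tet x w).card = 4
  tet_fix : ∀ x w : V, near x w → ∀ a : ↥(MulAction.stabilizer G x), (a : G) ∈ sub w → a ≠ 1 →
    ∀ i, (starPerm (ρ x a) : Equiv.Perm (Fin 8)) i = i ↔ i ∈ tet x w
  tet_smul : ∀ (x w : V) (n : ↥(MulAction.stabilizer G x)), near x w →
    tet x ((n : G) • w) = (tet x w).image (starPerm (ρ x n) : Equiv.Perm (Fin 8))
  tet_eq_iff : ∀ x w w' : V, near x w → near x w' →
    (tet x w = tet x w' ↔ ∃ e ∈ sub x, e • w = w')
  tet_fibre : ∀ (x : V) (T : Finset (Fin 8)), T.card = 4 →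
    {w | near x w ∧ tet x w = T}.ncard = 4
  duad_card : ∀ x w : V, far x w → (duad x w).card = 2
  duad_smul : ∀ (x w : V) (n : ↥(MulAction.stabilizer G x)), far x w →
    duad x ((n : G) • w) = (duad x w).image (starPerm (ρ x n) : Equiv.Perm (Fin 8))
  duad_eq_iff : ∀ x w w' : V, far x w → far x w' →
    (duad x w = duad x w' ↔ ∃ e ∈ sub x, e • w = w')
  duad_fibre : ∀ (x : V) (d : Finset (Fin 8)), d.card = 2 →
    {w | far x w ∧ duad x w = d}.ncard = 16

end CfsgLib.M24Count
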