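import Cfsg.Agent.M24Count.Spectrum
import Cfsg.Agent.M24Count.ThreeBase
import Cfsg.Agent.Counting.Frobenius
import Mathlib.GroupTheory.Perm.Cycle.Type

/-!
An element `x` of order three commuting with one of order seven does not have a centraliser of
order 60480.

Otherwise a Sylow 3-subgroup `R` of `C(x)` is abelian, `N(R)` has orbits of 2-power length, and
`C(x)` has at most six classes meeting `R ∖ ⟨x⟩`; multiplication by `x` permutes them without
fixed class, so each has length four or eight. The class of `x` then meets `R` in a 2-power number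
of points congruent to 2 modulo 4 and to 1 modulo 3, which is absurd.
-/

set_option autoImplicit false
set_option linter.style.haveILetI false

namespace CfsgLib.M24Count

open Subgroup

open CfsgLib.M12Count (mem_centralizer_of_commute commute_of_mem_centralizer)
open CfsgLib.M23Count (orderOf_conjugate conjMap_injective)

universe u

namespace NineSixty

variable {G : Type u} [Group G] [Finite G]

/-- Fixed points of a `p`-group acting by conjugation on an invariant set. -/
theorem card_fix_modEq {p : ℕ} [Fact p.Prime] (Q : Subgroup G) (hQ : IsPGroup p Q) (S : G → Prop)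
    (hS : ∀ q ∈ Q, ∀ y, S y ↔ S (q * y * q⁻¹)) :
    Nat.card {y : G // S y} % p = Nat.card {y : G // S y ∧ ∀ q ∈ Q, Commute q y} % p := by
  let ψ : Q →* Equiv.Perm {y : G // S y} :=
    { toFun := fun a => (MulAut.conj (a : G)).toEquiv.subtypeEquiv fun y => hS a a.2 y
      map_one' := Equiv.ext fun g => Subtype.ext (by simp)
      map_mul' := fun a b => Equiv.ext fun g => Subtype.ext (by simp [mul_assoc]) }
  letI : MulAction Q {y : G // S y} := MulAction.compHom _ ψ
  refine (hQ.card_modEq_card_fixedPoints {y : G // S y}).trans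
    (congrArg (· % p) (Nat.card_congr ?_))
  refine
    { toFun := fun y => ⟨y.1.1, y.1.2, fun q hq => ?_⟩
      invFun := fun y => ⟨⟨y.1, y.2.1⟩, fun a => ?_⟩
      left_inv := fun y => rfl
      right_inv := fun y => rfl }
  · exact mul_inv_eq_iff_eq_mul.1 (congrArg Subtype.val (y.2 ⟨q, hq⟩))
  · exact Subtype.ext (mul_inv_eq_iff_eq_mul.2 (y.2.2 _ a.2).eq)

/-- The orbit of `v` under a subgroup. -/
def orbSet (Q : Subgroup G) (v : G) : Set G := {w | ∃ n ∈ Q, n * v * n⁻¹ = w}

theorem card_orbSet_mul (Q : Subgroup G) (v : G) :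
    Nat.card (orbSet Q v) * Nat.card ((centralizer ({v} : Set G)).subgroupOf Q) = Nat.card Q := by
  set D := (centralizer ({v} : Set G)).subgroupOf Q with hD
  have key : ∀ a b : Q, (a : G) * v * (a : G)⁻¹ = b * v * (b : G)⁻¹ ↔ a⁻¹ * b ∈ D := by
    intro a b
    rw [hD, mem_subgroupOf, mem_centralizer_singleton_iff]
    push_cast
    constructor
    · intro e
      calc (a : G)⁻¹ * b * v = (a : G)⁻¹ * (b * v * (b : G)⁻¹) * b := by group
        _ = (a : G)⁻¹ * (a * v * (a : G)⁻¹) * b := by rw [e]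
        _ = v * ((a : G)⁻¹ * b) := by group
    · intro e
      calc (a : G) * v * (a : G)⁻¹ = a * (v * ((a : G)⁻¹ * b)) * (b : G)⁻¹ := by group
        _ = a * ((a : G)⁻¹ * b * v) * (b : G)⁻¹ := by rw [e]
        _ = b * v * (b : G)⁻¹ := by group
  rw [← D.index_mul_card, Subgroup.index]
  congr 1
  refine (Nat.card_eq_of_bijective
    (fun q : Q ⧸ D => (⟨(q.out : G) * v * (q.out : G)⁻¹, q.out, q.out.2, rfl⟩ : orbSet Q v))
    ⟨?_, ?_⟩).symm
  · intro a b e
    rw [← a.out_eq', ← b.out_eq', QuotientGroup.eq]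
    exact (key _ _).1 (congrArg Subtype.val e)
  · rintro ⟨w, n, hn, rfl⟩
    refine ⟨((⟨n, hn⟩ : Q) : Q ⧸ D), Subtype.ext ?_⟩
    exact (key _ ⟨n, hn⟩).2 (QuotientGroup.eq.1 (((⟨n, hn⟩ : Q) : Q ⧸ D).out_eq'))

theorem mem_orbSet_self (Q : Subgroup G) (v : G) : v ∈ orbSet Q v := ⟨1, Q.one_mem, by simp⟩

theorem orbSet_eq {Q : Subgroup G} {v w : G} (hw : w ∈ orbSet Q v) : orbSet Q w = orbSet Q v := by
  obtain ⟨n, hn, rfl⟩ := hw
  ext y
  constructor
  · rintro ⟨m, hm, rfl⟩
    exact ⟨m * n, mul_mem hm hn, by group⟩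
  · rintro ⟨m, hm, rfl⟩
    exact ⟨m * n⁻¹, mul_mem hm (inv_mem hn), by group⟩

/-- Elements of order dividing three from different classes, each times the solutions of
`r ^ M = 1` in its centraliser, are all different. -/
theorem class_sum_le {ι : Type*} [Fintype ι] (M : ℕ) (hM : M % 3 = 2) (v : ι → G)
    (hv : ∀ i, v i ^ 3 = 1) (hne : ∀ i j, IsConj (v i) (v j) → i = j) :
    ∑ i, (centralizer ({v i} : Set G)).index *
      Nat.card {r : centralizer ({v i} : Set G) // r ^ M = 1} ≤ Nat.card G := by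
  let T := Σ i, (G ⧸ centralizer ({v i} : Set G)) × {r : centralizer ({v i} : Set G) // r ^ M = 1}
  let F : T → G := fun s => s.2.1.out * (v s.1 * (s.2.2.1 : G)) * s.2.1.out⁻¹
  have hrec : ∀ s : T, F s ^ (2 * M) = s.2.1.out * v s.1 * s.2.1.out⁻¹ := by
    rintro ⟨i, q, r, hr⟩
    show (q.out * (v i * (r : G)) * q.out⁻¹) ^ (2 * M) = q.out * v i * q.out⁻¹
    have hr' : (r : G) ^ M = 1 := by rw [← Subgroup.coe_pow, hr]; rfl
    have hc : Commute (v i) (r : G) := commute_of_mem_centralizer r.2
    rw [conj_pow, hc.mul_pow, mul_comm 2 M, pow_mul (r : G), hr', one_pow, mul_one]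
    congr 2
    rw [← pow_mod_orderOf]
    have h3 : orderOf (v i) ∣ 3 := orderOf_dvd_of_pow_eq_one (hv i)
    rcases (Nat.dvd_prime Nat.prime_three).1 h3 with e | e
    · rw [orderOf_eq_one_iff.1 e, one_pow]
    · rw [e, show M * 2 % 3 = 1 by omega, pow_one]
  have hF : Function.Injective F := by
    intro s s' e
    have e' : F s ^ (2 * M) = F s' ^ (2 * M) := by rw [e]
    rw [hrec, hrec] at e'
    obtain ⟨i, q, r⟩ := s
    obtain ⟨j, q', r'⟩ := s'
    obtain rfl : i = j := hne i j (by
      refine isConj_iff.2 ⟨q'.out⁻¹ * q.out, ?_⟩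
      calc q'.out⁻¹ * q.out * v i * (q'.out⁻¹ * q.out)⁻¹
          = q'.out⁻¹ * (q.out * v i * q.out⁻¹) * q'.out := by group
        _ = q'.out⁻¹ * (q'.out * v j * q'.out⁻¹) * q'.out := by rw [e']
        _ = v j := by group)
    obtain rfl : q = q' := conjMap_injective (v i) (Subtype.ext e')
    have e2 : q.out * (v i * (r.1 : G)) * q.out⁻¹ = q.out * (v i * (r'.1 : G)) * q.out⁻¹ := e
    obtain rfl : r = r' :=
      Subtype.ext (Subtype.ext (mul_left_cancel (mul_left_cancel (mul_right_cancel e2))))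
    rfl
  refine le_trans (le_of_eq ?_) (Nat.card_le_card_of_injective F hF)
  rw [Nat.card_sigma]
  exact Finset.sum_congr rfl fun i _ => by rw [Nat.card_prod, Subgroup.index]

/-- At most six orbits, permuted without fixed points in threes, of 2-power sizes with sum 24. -/
theorem four_dvd_size {O : Type*} [Fintype O] (hO : Fintype.card O ≤ 6) (τ : O → O)
    (hτ3 : ∀ o, τ (τ (τ o)) = o) (hτ : ∀ o, τ o ≠ o) (s : O → ℕ) (hs : ∀ o, s o ∣ 2 ^ 10)
    (hsτ : ∀ o, s (τ o) = s o) (hsum : ∑ o, s o = 24) (o : O) : 4 ∣ s o := by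
  classical
  have h12 : ∀ o, τ (τ o) ≠ o := fun o e => hτ (τ (τ o)) (by rw [hτ3]; exact e.symm)
  let T : O → Finset O := fun o => {o, τ o, τ (τ o)}
  have hT : ∀ o, (T o).card = 3 := fun o => by
    have a := (hτ o).symm
    have b := (h12 o).symm
    have c : τ o ≠ τ (τ o) := (hτ (τ o)).symm
    simp [T, a, b, c]
  have hTsum : ∀ o, ∑ w ∈ T o, s w = 3 * s o := fun o => by
    refine (Finset.sum_eq_card_nsmul (b := s o) fun w hw => ?_).trans (by rw [hT]; rfl)
    simp only [T, Finset.mem_insert, Finset.mem_singleton] at hw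
    rcases hw with rfl | rfl | rfl <;> simp [hsτ]
  by_cases hall : T o = Finset.univ
  · rw [← hall, hTsum] at hsum
    omega
  obtain ⟨w, hw⟩ : ∃ w, w ∉ T o := by
    by_contra hc
    push Not at hc
    exact hall (Finset.eq_univ_iff_forall.2 hc)
  have hmem : ∀ w, w ∈ T o → τ w ∈ T o := by
    intro w hw
    simp only [T, Finset.mem_insert, Finset.mem_singleton] at hw ⊢
    rcases hw with rfl | rfl | rfl
    · exact Or.inr (Or.inl rfl)
    · exact Or.inr (Or.inr rfl)
    · exact Or.inl (hτ3 o)
  have hdis : Disjoint (T o) (T w) := by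
    refine Finset.disjoint_right.2 fun y hy hy' => hw ?_
    simp only [T, Finset.mem_insert, Finset.mem_singleton] at hy
    rcases hy with rfl | rfl | rfl
    · exact hy'
    · exact hτ3 w ▸ hmem _ (hmem _ hy')
    · exact hτ3 w ▸ hmem _ hy'
  have hu : T o ∪ T w = Finset.univ := by
    refine Finset.eq_univ_of_card _ (le_antisymm (Finset.card_le_univ _) ?_)
    rw [Finset.card_union_of_disjoint hdis, hT, hT]
    exact hO
  rw [← hu, Finset.sum_union hdis, hTsum, hTsum] at hsum
  have key : ∀ a ∈ (1024 : ℕ).divisors, a ≤ 8 → ∀ b ∈ (1024 : ℕ).divisors, b ≤ 8 → a + b = 8 →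
      4 ∣ a := by decide +kernel
  exact key (s o) (Nat.mem_divisors.2 ⟨hs o, by norm_num⟩) (by omega) (s w)
    (Nat.mem_divisors.2 ⟨hs w, by norm_num⟩) (by omega) (by omega)

end NineSixty

open NineSixty

namespace CountHyp

variable {G : Type u} [Group G] [Finite G] (h : CountHyp G)
include h

theorem no_nine (y : G) : ¬ 9 ∣ orderOf y := by
  intro hd
  have := h.order_cases y
  simp only [basicOrders, Finset.mem_insert, Finset.mem_singleton] at this
  omega

/-- Only 2 and 3 divide the normaliser of a Sylow 3-subgroup. -/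
theorem card_norm_sylow_three {R : Subgroup G} (hR : Nat.card R = 27) :
    Nat.card (normalizer (R : Set G)) ∣ 2 ^ 10 * 27 := by
  set N := normalizer (R : Set G) with hN
  have hd : Nat.card N ∣ 5 * 7 * 11 * 23 * (2 ^ 10 * 27) := by
    simpa [h.card] using card_subgroup_dvd_card N
  have key : ∀ p, p.Prime → p = 5 ∨ p = 7 ∨ p = 11 ∨ p = 23 → ¬ p ∣ Nat.card N := by
    intro p hp hp' hdp
    haveI := Fact.mk hp
    obtain ⟨g, hg⟩ := exists_prime_orderOf_dvd_card' (G := N) p hdp
    have hgo : orderOf (g : G) = p := by rw [Subgroup.orderOf_coe]; exact hg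
    have hfix := card_fix_modEq (zpowers (g : G))
      (IsPGroup.of_card (n := 1) (by rw [Nat.card_zpowers, hgo, pow_one])) (· ∈ R)
      (fun q hq y => mem_normalizer_iff.1 (zpowers_le.2 g.2 hq) y)
    have e1 : Nat.card {y : G // y ∈ R} = 27 := hR
    have e2 : Nat.card {y : G // y ∈ R ∧ ∀ q ∈ zpowers (g : G), Commute q y} =
        Nat.card ↥(R ⊓ centralizer ({(g : G)} : Set G)) := Nat.card_congr
      (Equiv.subtypeEquivRight fun y => and_congr_right fun _ =>
        ⟨fun hy => mem_centralizer_of_commute (hy _ (mem_zpowers _)),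
          fun hy q hq => by
            obtain ⟨k, rfl⟩ := mem_zpowers_iff.1 hq
            exact (commute_of_mem_centralizer hy).zpow_left k⟩)
    rw [e1, e2] at hfix
    have hd27 : Nat.card ↥(R ⊓ centralizer ({(g : G)} : Set G)) ∣ 27 :=
      hR ▸ card_dvd_of_le inf_le_left
    obtain ⟨i, hi, hic⟩ := (Nat.dvd_prime_pow Nat.prime_three).1
      (show _ ∣ 3 ^ 3 by exact hd27)
    have hC : 27 ∣ Nat.card (normalizer (zpowers (g : G) : Set G)) := by
      refine dvd_trans ?_ (card_dvd_of_le
        (inf_le_right.trans (CfsgLib.M12Count.centralizer_le_normalizer_zpowers (g : G)) :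
          R ⊓ centralizer ({(g : G)} : Set G) ≤ _))
      rw [hic] at hfix ⊢
      interval_cases i <;> rcases hp' with rfl | rfl | rfl | rfl <;> omega
    rcases hp' with rfl | rfl | rfl | rfl
    · rw [h.norm_five hgo] at hC; omega
    · rw [h.norm_seven hgo] at hC; omega
    · rw [h.norm_eleven hgo] at hC; omega
    · rw [h.norm_twentythree hgo] at hC; omega
  refine Nat.Coprime.dvd_of_dvd_mul_left ?_ hd
  refine Nat.Coprime.mul_right (Nat.Coprime.mul_right (Nat.Coprime.mul_right ?_ ?_) ?_) ?_ <;>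
    refine ((Nat.Prime.coprime_iff_not_dvd (by norm_num)).2 (key _ (by norm_num) ?_)).symm <;> omega

theorem card_orbSet_dvd {R Q : Subgroup G} (hR : Nat.card R = 27) (hRQ : R ≤ Q)
    (hQ : Q ≤ normalizer (R : Set G)) {v : G} (hv : ∀ r ∈ R, Commute v r) :
    Nat.card (orbSet Q v) ∣ 2 ^ 10 := by
  have hd := (card_dvd_of_le hQ).trans (h.card_norm_sylow_three hR)
  rw [← card_orbSet_mul Q v] at hd
  have h27 : 27 ∣ Nat.card ((centralizer ({v} : Set G)).subgroupOf Q) := by
    have hle : R.subgroupOf Q ≤ (centralizer ({v} : Set G)).subgroupOf Q := fun r hr =>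
      mem_centralizer_of_commute (hv _ hr)
    refine dvd_trans ?_ (card_dvd_of_le hle)
    rw [Nat.card_congr (subgroupOfEquivOfLe hRQ).toEquiv, hR]
  exact Nat.dvd_of_mul_dvd_mul_right (by norm_num : 0 < 27)
    ((Nat.mul_dvd_mul_left _ h27).trans hd)

/-- The elements of order prime to three in such a centraliser. -/
theorem card_pow_2240 {f x : G} (hf : orderOf f = 7) (hx : orderOf x = 3) (hfx : Commute f x)
    (hC : Nat.card (centralizer ({x} : Set G)) = 60480) :
    15680 ≤ Nat.card {r : centralizer ({x} : Set G) // r ^ 2240 = 1} := by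
  classical
  set C := centralizer ({x} : Set G) with hCdef
  haveI : Fact (Nat.Prime 7) := ⟨by norm_num⟩
  haveI : Fact (Nat.Prime 5) := ⟨by norm_num⟩
  have hfC : f ∈ C := mem_centralizer_of_commute hfx.symm
  obtain ⟨g, hg⟩ := exists_prime_orderOf_dvd_card' (G := C) 5 (by rw [hC]; norm_num)
  have hgo : orderOf (g : G) = 5 := by rw [Subgroup.orderOf_coe]; exact hg
  have h7 : cnt C 7 = 5760 := by
    obtain ⟨n, hn, hn7⟩ := card_eq_norm_mul (p := 7) (m := 34974720) (H := C)
      (by rw [h.card]) (by norm_num) hfC hf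
    have hd : Nat.card ↥(normalizer (zpowers f : Set G) ⊓ C) ∣ 126 :=
      h.norm_seven hf ▸ card_dvd_of_le inf_le_left
    have h21 : 21 ∣ Nat.card ↥(normalizer (zpowers f : Set G) ⊓ C) := by
      have hmem : f * x ∈ normalizer (zpowers f : Set G) ⊓ C := by
        refine ⟨mul_mem (le_normalizer (mem_zpowers f))
          (CfsgLib.M12Count.centralizer_le_normalizer_zpowers f
            (mem_centralizer_of_commute hfx)),
          mul_mem hfC (mem_centralizer_of_commute (Commute.refl x))⟩
      have := Subgroup.orderOf_dvd_natCard _ hmem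
      rwa [hfx.orderOf_mul_eq_mul_orderOf_of_coprime (by rw [hf, hx]; norm_num), hf, hx] at this
    rw [hC] at hn
    have key : ∀ k ∈ (126 : ℕ).divisors, 21 ∣ k → 60480 / k % 7 = 1 → k = 63 := by decide +kernel
    have hk : Nat.card ↥(normalizer (zpowers f : Set G) ⊓ C) = 63 :=
      key _ (Nat.mem_divisors.2 ⟨hd, by norm_num⟩) h21
        (by rw [hn, Nat.mul_div_cancel_left _ Nat.card_pos]; exact hn7)
    obtain ⟨P, hP⟩ := CfsgLib.M12Count.exists_sylow_eq (G := C) (p := 7) (m := 8640)
      (by rw [hC]) (by norm_num) (g := ⟨f, hfC⟩) (by rw [Subgroup.orderOf_mk]; exact hf)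
    have hN := CfsgLib.SylowToolkit.card_normalizer_mul P
    rw [← hP, CfsgLib.M23Count.card_normalizer_inf hfC, hk, hC] at hN
    have hS := CfsgLib.SylowToolkit.card_orderOf_eq_prime (G := C) (p := 7) (m := 8640)
      (by rw [hC]) (by norm_num)
    change cnt C 7 = _ at hS
    omega
  have h5 : cnt C 5 = 8064 := by
    obtain ⟨n, hn, hn5⟩ := card_eq_norm_mul (p := 5) (m := 48964608) (H := C)
      (by rw [h.card]) (by norm_num) g.2 hgo
    have hd : Nat.card ↥(normalizer (zpowers (g : G) : Set G) ⊓ C) ∣ 240 :=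
      h.norm_five hgo ▸ card_dvd_of_le inf_le_left
    have hgx : Commute (g : G) x := (commute_of_mem_centralizer g.2).symm
    have h15 : 15 ∣ Nat.card ↥(normalizer (zpowers (g : G) : Set G) ⊓ C) := by
      have hmem : (g : G) * x ∈ normalizer (zpowers (g : G) : Set G) ⊓ C := by
        refine ⟨mul_mem (le_normalizer (mem_zpowers _))
          (CfsgLib.M12Count.centralizer_le_normalizer_zpowers _
            (mem_centralizer_of_commute hgx)),
          mul_mem g.2 (mem_centralizer_of_commute (Commute.refl x))⟩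
      have := Subgroup.orderOf_dvd_natCard _ hmem
      rwa [hgx.orderOf_mul_eq_mul_orderOf_of_coprime (by rw [hgo, hx]; norm_num), hgo, hx] at this
    rw [hC] at hn
    have key : ∀ k ∈ (240 : ℕ).divisors, 15 ∣ k → 60480 / k % 5 = 1 → k = 30 := by decide +kernel
    have hk : Nat.card ↥(normalizer (zpowers (g : G) : Set G) ⊓ C) = 30 :=
      key _ (Nat.mem_divisors.2 ⟨hd, by norm_num⟩) h15
        (by rw [hn, Nat.mul_div_cancel_left _ Nat.card_pos]; exact hn5)
    obtain ⟨P, hP⟩ := CfsgLib.M12Count.exists_sylow_eq (G := C) (p := 5) (m := 12096)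
      (by rw [hC]) (by norm_num) (g := ⟨g, g.2⟩) (by rw [Subgroup.orderOf_mk]; exact hgo)
    have hN := CfsgLib.SylowToolkit.card_normalizer_mul P
    rw [← hP, CfsgLib.M23Count.card_normalizer_inf g.2, hk, hC] at hN
    have hS := CfsgLib.SylowToolkit.card_orderOf_eq_prime (G := C) (p := 5) (m := 12096)
      (by rw [hC]) (by norm_num)
    change cnt C 5 = _ at hS
    omega
  have hdvd : 2240 ∣ Nat.card {r : C // r ^ 2240 = 1} :=
    CfsgLib.Counting.card_pow_eq_one_dvd (by rw [hC]; norm_num)
  let S := {r : C // orderOf r = 1} ⊕ {r : C // orderOf r = 5} ⊕ {r : C // orderOf r = 7}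
  let F : S → {r : C // r ^ 2240 = 1} := Sum.elim
    (fun r => ⟨r.1, orderOf_dvd_iff_pow_eq_one.1 (by rw [r.2]; norm_num)⟩)
    (Sum.elim (fun r => ⟨r.1, orderOf_dvd_iff_pow_eq_one.1 (by rw [r.2]; norm_num)⟩)
      (fun r => ⟨r.1, orderOf_dvd_iff_pow_eq_one.1 (by rw [r.2]; norm_num)⟩))
  have hF : Function.Injective F := by
    intro a b e
    have e' := congrArg Subtype.val e
    rcases a with ⟨a, ha⟩ | ⟨a, ha⟩ | ⟨a, ha⟩ <;> rcases b with ⟨b, hb⟩ | ⟨b, hb⟩ | ⟨b, hb⟩ <;>
      simp only [F, Sum.elim_inl, Sum.elim_inr] at e' <;> subst e' <;>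
      first | rfl | (exfalso; omega)
  have hle := Nat.card_le_card_of_injective F hF
  simp only [S, Nat.card_sum] at hle
  rw [show Nat.card {r : C // orderOf r = 1} = 1 from CfsgLib.OrderCounts.cnt_one,
    show Nat.card {r : C // orderOf r = 5} = 8064 from h5,
    show Nat.card {r : C // orderOf r = 7} = 5760 from h7] at hle
  obtain ⟨k, hk⟩ := hdvd
  omega

/-- In a centraliser of order 60480 every orbit of the Sylow normaliser off `⟨x⟩` has length
divisible by four. -/
theorem four_dvd_orbit {f x : G} (hf : orderOf f = 7) (hx : orderOf x = 3) (hfx : Commute f x)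
    (hC : Nat.card (centralizer ({x} : Set G)) = 60480) (R : Subgroup G)
    (hR : Nat.card R = 27) (hRC : R ≤ centralizer ({x} : Set G)) (hxR : x ∈ R)
    (hab : ∀ a ∈ R, ∀ b ∈ R, Commute a b) {v : G} (hvR : v ∈ R) (hvx : v ∉ zpowers x) :
    4 ∣ Nat.card (orbSet (normalizer (R : Set G) ⊓ centralizer ({x} : Set G)) v) := by
  classical
  set C := centralizer ({x} : Set G) with hCdef
  set Q := normalizer (R : Set G) ⊓ C with hQ
  haveI : Fact (Nat.Prime 3) := ⟨Nat.prime_three⟩
  have hxn : ∀ n ∈ Q, n * x * n⁻¹ = x := fun n hn =>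
    mul_inv_eq_iff_eq_mul.2 (commute_of_mem_centralizer hn.2).symm.eq
  have hstab : ∀ n ∈ Q, ∀ w : G, w ∈ R → w ∉ zpowers x →
      n * w * n⁻¹ ∈ R ∧ n * w * n⁻¹ ∉ zpowers x := by
    intro n hn w hw hwx
    refine ⟨(mem_normalizer_iff.1 hn.1 w).1 hw, fun hm => hwx ?_⟩
    obtain ⟨k, hk⟩ := mem_zpowers_iff.1 hm
    refine mem_zpowers_iff.2 ⟨k, ?_⟩
    have e : n * x ^ k * n⁻¹ = n * w * n⁻¹ := by rw [← conj_zpow, hxn n hn, hk]
    exact mul_left_cancel (mul_right_cancel e)
  have hpow : ∀ w ∈ R, w ^ 27 = 1 := fun w hw =>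
    orderOf_dvd_iff_pow_eq_one.1 (hR ▸ Subgroup.orderOf_dvd_natCard _ hw)
  let Ω := {w : G // w ∈ R ∧ w ∉ zpowers x}
  let st : Setoid Ω :=
    { r := fun a b => (b : G) ∈ orbSet Q a
      iseqv := ⟨fun a => mem_orbSet_self Q a, fun {a b} hab' => by
          rw [orbSet_eq hab']; exact mem_orbSet_self Q a,
        fun {a b c} h1 h2 => by rw [orbSet_eq h1] at h2; exact h2⟩ }
  haveI : Fintype (Quotient st) := Fintype.ofFinite _
  haveI : Fintype Ω := Fintype.ofFinite _
  let S : Quotient st → Set G := Quotient.lift (fun a : Ω => orbSet Q (a : G))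
    fun a b hab' => (orbSet_eq hab').symm
  -- translation by `x`
  have hxmul : ∀ a : Ω, x * (a : G) ∈ R ∧ x * (a : G) ∉ zpowers x := fun a =>
    ⟨mul_mem hxR a.2.1, fun hm => a.2.2 (by
      have := mul_mem (inv_mem (mem_zpowers x)) hm
      rwa [inv_mul_cancel_left] at this)⟩
  have hxorb : ∀ a w : G, w ∈ orbSet Q a → x * w ∈ orbSet Q (x * a) := by
    rintro a w ⟨n, hn, rfl⟩
    refine ⟨n, hn, ?_⟩
    calc n * (x * a) * n⁻¹ = (n * x * n⁻¹) * (n * a * n⁻¹) := by group
      _ = x * (n * a * n⁻¹) := by rw [hxn n hn]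
  let τ : Quotient st → Quotient st := Quotient.map (fun a => (⟨x * a, hxmul a⟩ : Ω))
    fun a b hab' => hxorb a b hab'
  have hx3 : ∀ w : G, x * (x * (x * w)) = w := fun w => by
    rw [← mul_assoc, ← mul_assoc, show x * x * x = x ^ 3 by simp [pow_succ], ← hx,
      pow_orderOf_eq_one, one_mul]
  have hτ3 : ∀ o, τ (τ (τ o)) = o := by
    intro o
    induction o using Quotient.inductionOn with
    | _ a => exact congrArg (Quotient.mk st) (Subtype.ext (hx3 a))
  have hcard : ∀ a : Ω, Nat.card (orbSet Q (a : G)) ∣ 2 ^ 10 := fun a =>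
    h.card_orbSet_dvd hR (le_inf le_normalizer hRC) inf_le_left
      fun r hr => hab _ a.2.1 r hr
  have hτ : ∀ o, τ o ≠ o := by
    intro o
    induction o using Quotient.inductionOn with
    | _ a =>
      intro e
      have e' : (a : G) ∈ orbSet Q (x * a) := Quotient.exact e
      have hA : orbSet Q (x * (a : G)) = orbSet Q (a : G) := (orbSet_eq e').symm
      let σ : Equiv.Perm (orbSet Q (a : G)) :=
        { toFun := fun w => ⟨x * w, (Set.ext_iff.1 hA _).1 (hxorb _ _ w.2)⟩
          invFun := fun w => ⟨x * (x * w),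
            (Set.ext_iff.1 hA _).1 (hxorb _ _ ((Set.ext_iff.1 hA _).1 (hxorb _ _ w.2)))⟩
          left_inv := fun w => Subtype.ext (hx3 w)
          right_inv := fun w => Subtype.ext (hx3 w) }
      haveI : Fintype (orbSet Q (a : G)) := Fintype.ofFinite _
      have hσ : σ ^ 3 ^ 1 = 1 := by
        refine Equiv.ext fun w => Subtype.ext ?_
        simpa [pow_succ, σ] using hx3 w
      have hmod := Equiv.Perm.card_compl_support_modEq hσ
      have h0 : σ.supportᶜ = ∅ := by
        refine Finset.eq_empty_iff_forall_notMem.2 fun w hw => ?_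
        rw [Finset.mem_compl, Equiv.Perm.mem_support, not_not] at hw
        have : x * (w : G) = w := congrArg Subtype.val hw
        rw [mul_eq_right] at this
        rw [this, orderOf_one] at hx
        omega
      rw [h0, Finset.card_empty, ← Nat.card_eq_fintype_card] at hmod
      have h3 : 3 ∣ Nat.card (orbSet Q (a : G)) := Nat.modEq_zero_iff_dvd.1 hmod.symm
      have := h3.trans (hcard a)
      norm_num at this
  have hsτ : ∀ o, Nat.card (S (τ o)) = Nat.card (S o) := by
    intro o
    induction o using Quotient.inductionOn with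
    | _ a =>
      refine Nat.card_congr
        { toFun := fun w => ⟨x * (x * w), ?_⟩
          invFun := fun w => ⟨x * w, hxorb _ _ w.2⟩
          left_inv := fun w => Subtype.ext (hx3 w)
          right_inv := fun w => Subtype.ext (hx3 w) }
      have h2 := hxorb _ _ (hxorb _ _ (show (w : G) ∈ orbSet Q (x * (a : G)) from w.2))
      rwa [hx3] at h2
  have hsum : ∑ o, Nat.card (S o) = 24 := by
    have hΩ : Nat.card Ω = 24 := by
      have hle : zpowers x ≤ R := zpowers_le.2 hxR
      have e1 : Nat.card Ω + Nat.card (zpowers x) = Nat.card R := by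
        rw [← Nat.card_sum]
        refine Nat.card_eq_of_bijective (Sum.elim (fun a => (⟨a.1, a.2.1⟩ : R))
          (fun a => ⟨a.1, hle a.2⟩)) ⟨?_, ?_⟩
        · rintro (a | a) (b | b) e <;> have e' := congrArg Subtype.val e <;>
            simp only [Sum.elim_inl, Sum.elim_inr] at e'
          · exact congrArg Sum.inl (Subtype.ext e')
          · exact absurd (e' ▸ b.2) a.2.2
          · exact absurd (e'.symm ▸ a.2) b.2.2
          · exact congrArg Sum.inr (Subtype.ext e')
        · intro r
          by_cases hr : (r : G) ∈ zpowers x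
          · exact ⟨Sum.inr ⟨r, hr⟩, rfl⟩
          · exact ⟨Sum.inl ⟨r, r.2, hr⟩, rfl⟩
      rw [Nat.card_zpowers, hx, hR] at e1
      omega
    rw [← hΩ, Nat.card_congr (Equiv.sigmaFiberEquiv (Quotient.mk st)).symm, Nat.card_sigma]
    refine Finset.sum_congr rfl fun o _ => ?_
    induction o using Quotient.inductionOn with
    | _ a =>
      refine Nat.card_congr
        { toFun := fun w => ⟨⟨w.1, ?_⟩, Quotient.sound ?_⟩
          invFun := fun b => ⟨b.1.1, ?_⟩
          left_inv := fun w => rfl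
          right_inv := fun b => rfl }
      · obtain ⟨n, hn, hw⟩ := w.2
        exact hw ▸ hstab n hn a a.2.1 a.2.2
      · show (a : G) ∈ orbSet Q (w : G)
        rw [orbSet_eq (show (w : G) ∈ orbSet Q (a : G) from w.2)]
        exact mem_orbSet_self Q _
      · have hb : (a : G) ∈ orbSet Q (b.1.1) := Quotient.exact b.2
        show (b.1.1) ∈ orbSet Q (a : G)
        rw [orbSet_eq hb]
        exact mem_orbSet_self Q _
  -- at most six classes
  have hO : Fintype.card (Quotient st) ≤ 6 := by
    obtain ⟨P, hP⟩ : ∃ P : Sylow 3 C, (P : Subgroup C) = R.subgroupOf C := by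
      have hc : Nat.card (R.subgroupOf C) = 3 ^ 3 := by
        rw [Nat.card_congr (subgroupOfEquivOfLe hRC).toEquiv, hR]; norm_num
      obtain ⟨P, hP⟩ := (IsPGroup.of_card hc).exists_le_sylow
      exact ⟨P, (eq_of_le_of_card_ge hP (by
        rw [CfsgLib.SylowToolkit.card_sylow_subgroup_eq (k := 3) (m := 2240)
          (by rw [hC]; norm_num) (by norm_num) P, hc])).symm⟩
    haveI : IsMulCommutative ↥(P : Subgroup C) := ⟨⟨fun a b => by
      have ha : ((a : C) : G) ∈ R := mem_subgroupOf.1 ((SetLike.ext_iff.1 hP _).1 a.2)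
      have hb : ((b : C) : G) ∈ R := mem_subgroupOf.1 ((SetLike.ext_iff.1 hP _).1 b.2)
      exact Subtype.ext (Subtype.ext (hab _ ha _ hb).eq)⟩⟩
    let xC : C := ⟨x, mem_centralizer_of_commute (Commute.refl x)⟩
    let rep : Fin 3 ⊕ Quotient st → C :=
      Sum.elim (fun i => xC ^ (i : ℕ)) (fun o => ⟨o.out.1, hRC o.out.2.1⟩)
    have hrep27 : ∀ i, rep i ∈ (P : Subgroup C) := by
      rintro (i | o) <;> rw [hP, mem_subgroupOf]
      · exact pow_mem hxR _
      · exact o.out.2.1
    have hsum3 := class_sum_le 2240 (by norm_num) rep ?_ ?_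
    · rw [Fintype.sum_sum_type] at hsum3
      have hC1 : ∀ i : Fin 3, (centralizer ({rep (Sum.inl i)} : Set C)).index *
          Nat.card {r : centralizer ({rep (Sum.inl i)} : Set C) // r ^ 2240 = 1} ≥ 15680 := by
        intro i
        have htop : centralizer ({rep (Sum.inl i)} : Set C) = ⊤ := by
          refine eq_top_iff.2 fun c _ => mem_centralizer_of_commute ?_
          exact (show Commute xC c from Subtype.ext (commute_of_mem_centralizer c.2).eq).pow_left i
        rw [htop, index_top, one_mul]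
        refine (h.card_pow_2240 hf hx hfx hC).trans (le_of_eq (Nat.card_congr ?_))
        exact (topEquiv (G := C)).symm.toEquiv.subtypeEquiv fun r => by
          conv_rhs => rw [Subtype.ext_iff]
          rfl
      have hC2 : ∀ o : Quotient st, (centralizer ({rep (Sum.inr o)} : Set C)).index *
          Nat.card {r : centralizer ({rep (Sum.inr o)} : Set C) // r ^ 2240 = 1} ≥ 2240 := by
        intro o
        set D := centralizer ({rep (Sum.inr o)} : Set C) with hD
        have hle : (P : Subgroup C) ≤ D := fun p hp => mem_centralizer_of_commute (by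
          have h1 := hP ▸ hp
          exact Subtype.ext (hab _ o.out.2.1 _ h1).eq)
        have h27 : 27 ∣ Nat.card D := by
          refine dvd_trans ?_ (card_dvd_of_le hle)
          rw [hP, Nat.card_congr (subgroupOfEquivOfLe hRC).toEquiv, hR]
        obtain ⟨c, hc⟩ := h27
        have hidx := card_mul_index D
        rw [hC, hc] at hidx
        have hc2240 : c * D.index = 2240 :=
          Nat.eq_of_mul_eq_mul_left (by norm_num : 0 < 27) (by rw [← mul_assoc, hidx])
        have hd1 : c ∣ Nat.card {r : D // r ^ c = 1} :=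
          CfsgLib.Counting.card_pow_eq_one_dvd (by rw [hc]; exact dvd_mul_left c 27)
        haveI : Nonempty {r : D // r ^ c = 1} := ⟨⟨1, one_pow c⟩⟩
        have hd2 := Nat.le_of_dvd Nat.card_pos hd1
        have hd3 : Nat.card {r : D // r ^ c = 1} ≤ Nat.card {r : D // r ^ 2240 = 1} :=
          Nat.card_le_card_of_injective
            (fun r => (⟨r.1, by rw [← hc2240, pow_mul, r.2, one_pow]⟩ :
              {r : D // r ^ 2240 = 1}))
            (fun a b e => Subtype.ext (congrArg (fun z => z.1) e :))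
        calc 2240 = D.index * c := by rw [mul_comm, hc2240]
          _ ≤ _ := Nat.mul_le_mul_left _ (hd2.trans hd3)
      have e1 := Finset.card_nsmul_le_sum Finset.univ _ 15680 fun i _ => hC1 i
      have e2 := Finset.card_nsmul_le_sum Finset.univ _ 2240 fun o _ => hC2 o
      simp only [Finset.card_univ, Fintype.card_fin, smul_eq_mul] at e1 e2
      rw [hC] at hsum3
      omega
    · intro i
      have hz : orderOf (rep i) ∣ 27 := by
        refine (Subgroup.orderOf_dvd_natCard _ (hrep27 i)).trans (dvd_of_eq ?_)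
        rw [hP, Nat.card_congr (subgroupOfEquivOfLe hRC).toEquiv, hR]
      refine orderOf_dvd_iff_pow_eq_one.1 (Nat.dvd_trans ?_ (dvd_refl 3))
      obtain ⟨j, hj, hje⟩ := (Nat.dvd_prime_pow Nat.prime_three).1 (show _ ∣ 3 ^ 3 by exact hz)
      have h9 : ¬ 9 ∣ orderOf (rep i) := fun h9 => by
        rw [← Subgroup.orderOf_coe (rep i)] at h9
        exact h.no_nine _ h9
      rw [hje] at h9 ⊢
      interval_cases j <;> simp_all
    · intro i j hij
      obtain ⟨c, hc⟩ := isConj_iff.1 hij
      have hy : c⁻¹⁻¹ * rep i * c⁻¹ ∈ (P : Subgroup C) := by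
        rw [inv_inv, hc]; exact hrep27 j
      obtain ⟨n, hn, hne⟩ := P.conj_eq_normalizer_conj_of_mem (rep i) c⁻¹ (hrep27 i) hy
      rw [inv_inv, hc] at hne
      have hnQ : (n : G)⁻¹ ∈ Q := by
        refine mem_inf.2 ⟨(normalizer (R : Set G)).inv_mem (mem_normalizer_iff.2 fun y => ?_),
          C.inv_mem n.2⟩
        constructor
        · intro hy'
          have := (mem_normalizer_iff.1 hn (⟨y, hRC hy'⟩ : C)).1
            (hP ▸ (mem_subgroupOf.2 hy'))
          exact mem_subgroupOf.1 (hP ▸ this)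
        · intro hy'
          have hyC : y ∈ C := by
            have := mul_mem (mul_mem (inv_mem n.2) (hRC hy')) n.2
            simpa [mul_assoc] using this
          have := (mem_normalizer_iff.1 hn (⟨y, hyC⟩ : C)).2
            (hP ▸ (mem_subgroupOf.2 hy'))
          exact mem_subgroupOf.1 (hP ▸ this)
      have hmem : ((rep j : C) : G) ∈ orbSet Q ((rep i : C) : G) :=
        ⟨(n : G)⁻¹, hnQ, by rw [inv_inv, hne]; rfl⟩
      have hfixx : ∀ i : Fin 3, ∀ w ∈ orbSet Q ((rep (Sum.inl i) : C) : G),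
          w = x ^ (i : ℕ) := by
        rintro i w ⟨m, hm, rfl⟩
        show m * ((xC ^ (i : ℕ) : C) : G) * m⁻¹ = x ^ (i : ℕ)
        rw [Subgroup.coe_pow, ← conj_pow, hxn m hm]
      rcases i with i | o <;> rcases j with j | o'
      · have e := hfixx i _ hmem
        have e' : x ^ (j : ℕ) = x ^ (i : ℕ) := by simpa [rep, xC] using e
        have := pow_injOn_Iio_orderOf (x := x) (Set.mem_Iio.2 (hx.symm ▸ j.2))
          (Set.mem_Iio.2 (hx.symm ▸ i.2)) e'
        exact congrArg Sum.inl (Fin.ext this.symm)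
      · exact absurd (hfixx i _ hmem ▸ pow_mem (mem_zpowers x) _ :
          ((rep (Sum.inr o') : C) : G) ∈ zpowers x) o'.out.2.2
      · exfalso
        have h1 := mem_orbSet_self Q ((rep (Sum.inr o) : C) : G)
        rw [← orbSet_eq hmem] at h1
        exact o.out.2.2 (hfixx j _ h1 ▸ pow_mem (mem_zpowers x) _)
      · refine congrArg Sum.inr ?_
        rw [← o.out_eq, ← o'.out_eq]
        exact Quotient.sound hmem
  exact four_dvd_size hO τ hτ3 hτ (fun o => Nat.card (S o))
    (fun o => by induction o using Quotient.inductionOn with | _ a => exact hcard a)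
    hsτ hsum (Quotient.mk st ⟨v, hvR, hvx⟩)

/-- `C(x)` does not have order 60480. -/
theorem not_nine_sixty {f x : G} (hf : orderOf f = 7) (hx : orderOf x = 3) (hfx : Commute f x) :
    Nat.card (centralizer ({x} : Set G)) ≠ 60480 := by
  intro hC
  classical
  haveI : Fact (Nat.Prime 3) := ⟨Nat.prime_three⟩
  set C := centralizer ({x} : Set G) with hCdef
  obtain ⟨n0, hN, -, hC'⟩ := h.norm_three_seven hf hx hfx
  rw [← hCdef, hC] at hC'
  have hn0 : n0 = 960 := by omega
  subst hn0
  have hX : Nat.card (threeClass x) = 4048 := by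
    have := card_threeClass_mul hx
    rw [hN, h.card] at this
    omega
  -- a Sylow subgroup
  obtain ⟨P⟩ := (inferInstance : Nonempty (Sylow 3 C))
  have hPc := CfsgLib.SylowToolkit.card_sylow_subgroup_eq (k := 3) (m := 2240) (by rw [hC]; norm_num)
    (by norm_num) P
  set R := (P : Subgroup C).map C.subtype with hRdef
  have hR : Nat.card R = 27 := by
    rw [hRdef, Nat.card_congr ((P : Subgroup C).equivMapOfInjective _
      C.subtype_injective).toEquiv.symm, hPc]
    norm_num
  have hRC : R ≤ C := map_subtype_le _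
  have hRp : IsPGroup 3 R := IsPGroup.of_card (n := 3) (by rw [hR]; norm_num)
  -- what centralises `R` and has order three lies in it
  have hself : ∀ w : G, orderOf w = 3 → (∀ r ∈ R, Commute r w) → w ∈ R := by
    intro w hw hc
    have hle : zpowers w ≤ normalizer (R : Set G) := by
      refine zpowers_le.2 (mem_normalizer_iff.2 fun y => ⟨fun hy => ?_, fun hy => ?_⟩)
      · rwa [mul_inv_eq_iff_eq_mul.2 (hc y hy).symm.eq]
      · have e := (hc _ hy).eq
        have : w * y * w⁻¹ = y := by
          have := congrArg (fun z => w⁻¹ * z) e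
          simp [mul_assoc] at this
          rw [← mul_assoc] at this
          simpa [mul_assoc] using this.symm
        rwa [this] at hy
    have hp : IsPGroup 3 ↥(R ⊔ zpowers w) := hRp.to_sup_of_normal_left'
      (IsPGroup.of_card (n := 1) (by rw [Nat.card_zpowers, hw, pow_one])) hle
    obtain ⟨j, hj⟩ := IsPGroup.iff_card.1 hp
    have hd : 3 ^ j ∣ 244823040 := hj ▸ h.card ▸ card_subgroup_dvd_card _
    have hj3 : j ≤ 3 := by
      by_contra hlt
      exact absurd ((pow_dvd_pow 3 (show 4 ≤ j by omega)).trans hd) (by norm_num)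
    have heq : R = R ⊔ zpowers w := eq_of_le_of_card_ge le_sup_left (by
      rw [hj, hR, show (27 : ℕ) = 3 ^ 3 by norm_num]
      exact Nat.pow_le_pow_right (by norm_num) hj3)
    rw [heq]
    exact mem_sup_right (mem_zpowers w)
  have hcx : ∀ r ∈ R, Commute r x := fun r hr => (commute_of_mem_centralizer (hRC hr)).symm
  have hxR : x ∈ R := hself x hx hcx
  -- the points of the class of `x` fixed by `R`
  have hinvX : ∀ q : G, ∀ y, y ∈ threeClass x ↔ q * y * q⁻¹ ∈ threeClass x := by
    have one : ∀ q y : G, y ∈ threeClass x → q * y * q⁻¹ ∈ threeClass x := by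
      rintro q y ⟨hy, a, ha⟩
      refine ⟨(orderOf_conjugate q y).trans hy, q * a, ?_⟩
      have e := congrArg (Subgroup.map (MulAut.conj q).toMonoidHom) ha
      rw [MonoidHom.map_zpowers, MonoidHom.map_zpowers] at e
      simpa [mul_assoc] using e
    intro q y
    exact ⟨one q y, fun hy => by simpa [mul_assoc] using one q⁻¹ _ hy⟩
  have hfix := card_fix_modEq R hRp (· ∈ threeClass x) fun q _ => hinvX q
  rw [show Nat.card {y : G // y ∈ threeClass x} = 4048 from hX] at hfix
  have hx2 : orderOf (x ^ 2) = 3 := by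
    rw [Nat.Coprime.orderOf_pow (by rw [hx]; norm_num), hx]
  have hpow : ∀ w : G, orderOf w = 3 → w ∈ zpowers x → w = x ∨ w = x ^ 2 := by
    intro w hw hwm
    obtain ⟨l, hl, hlw⟩ := Finset.mem_image.1
      ((IsOfFinOrder.mem_zpowers_iff_mem_range_orderOf (isOfFinOrder_of_finite _)).1 hwm)
    rw [hx, Finset.mem_range] at hl
    have hl0 : l ≠ 0 := by
      rintro rfl
      rw [pow_zero] at hlw
      rw [← hlw, orderOf_one] at hw
      omega
    rcases (show l = 1 ∨ l = 2 by omega) with rfl | rfl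
    · exact Or.inl (by rw [← hlw, pow_one])
    · exact Or.inr hlw.symm
  have hne2 : x ≠ x ^ 2 := fun e => by
    have := pow_injOn_Iio_orderOf (x := x) (Set.mem_Iio.2 (by omega : 1 < orderOf x))
      (Set.mem_Iio.2 (by omega : 2 < orderOf x)) (by simpa using e)
    omega
  have hXx : x ∈ threeClass x := ⟨hx, 1, by simp⟩
  have hXx2 : x ^ 2 ∈ threeClass x := ⟨hx2, 1, (eq_of_le_of_card_ge
    (zpowers_le.2 (pow_mem (by simp) 2)) (by simp [Nat.card_zpowers, hx, hx2])).symm⟩
  -- commutative
  have hab : ∀ a ∈ R, ∀ b ∈ R, Commute a b := by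
    by_contra hnab
    obtain ⟨k, hk0, hk⟩ := IsPGroup.card_center_eq_prime_pow (p := 3) (G := R) (n := 3)
      (by rw [hR]; norm_num) (by norm_num)
    have hxZ : (⟨x, hxR⟩ : R) ∈ Subgroup.center R := mem_center_iff.2 fun r =>
      Subtype.ext (hcx r r.2).eq
    have hk1 : k = 1 := by
      by_contra hk1
      refine hnab fun a ha b hb => ?_
      have hidx := (Subgroup.center R).card_mul_index
      rw [hk, hR] at hidx
      have hk2 : 9 ≤ 3 ^ k := le_trans (by norm_num) (Nat.pow_le_pow_right (show 0 < 3 by norm_num)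
        (show 2 ≤ k by omega))
      have hd : (Subgroup.center R).index ∣ 3 ^ 3 := Dvd.intro_left _ (hidx.trans (by norm_num))
      obtain ⟨j, hj, hje⟩ := (Nat.dvd_prime_pow Nat.prime_three).1 hd
      have hidx3 : (Subgroup.center R).index ≤ 3 := by
        by_contra hlt
        have := Nat.mul_le_mul hk2 (show 4 ≤ (Subgroup.center R).index by omega)
        omega
      haveI : IsCyclic (R ⧸ Subgroup.center R) := by
        rcases j with _ | _ | j
        · haveI : Subsingleton (R ⧸ Subgroup.center R) :=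
            (Nat.card_eq_one_iff_unique.1 (show Nat.card (R ⧸ Subgroup.center R) = 1 by
              rw [← Subgroup.index, hje, pow_zero])).1
          infer_instance
        · exact isCyclic_of_prime_card (p := 3) (show Nat.card (R ⧸ Subgroup.center R) = 3 by
            rw [← Subgroup.index, hje]; norm_num)
        · have : 3 ^ (j + 1 + 1) ≥ 3 ^ 2 := Nat.pow_le_pow_right (by norm_num) (by omega)
          omega
      exact congrArg Subtype.val (commutative_of_cyclic_center_quotient
        (QuotientGroup.mk' (Subgroup.center R)) (by rw [QuotientGroup.ker_mk']) ⟨a, ha⟩ ⟨b, hb⟩)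
    rw [hk1, pow_one] at hk
    have hZ : ∀ z : R, z ∈ Subgroup.center R → (z : G) ∈ zpowers x := by
      intro z hz
      have e : zpowers (⟨x, hxR⟩ : R) = Subgroup.center R :=
        eq_of_le_of_card_ge (zpowers_le.2 hxZ) (by
          rw [hk, Nat.card_zpowers, Subgroup.orderOf_mk, hx])
      rw [← e] at hz
      obtain ⟨l, hl⟩ := mem_zpowers_iff.1 hz
      exact mem_zpowers_iff.2 ⟨l, by rw [← hl]; rfl⟩
    have h2 : Nat.card {y : G // y ∈ threeClass x ∧ ∀ q ∈ R, Commute q y} = 2 := by
      have e : {y : G | y ∈ threeClass x ∧ ∀ q ∈ R, Commute q y} = {x, x ^ 2} := by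
        ext y
        simp only [Set.mem_setOf_eq, Set.mem_insert_iff, Set.mem_singleton_iff]
        constructor
        · rintro ⟨hy, hc⟩
          have hyR := hself y hy.1 hc
          exact hpow y hy.1 (hZ ⟨y, hyR⟩ (mem_center_iff.2 fun r =>
            Subtype.ext (hc r r.2).eq))
        · rintro (rfl | rfl)
          · exact ⟨hXx, hcx⟩
          · exact ⟨hXx2, fun q hq => (hcx q hq).pow_right 2⟩
      show Nat.card ({y : G | y ∈ threeClass x ∧ ∀ q ∈ R, Commute q y} : Set G) = 2
      rw [e, Nat.card_coe_set_eq, Set.ncard_pair hne2]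
    rw [h2] at hfix
    omega
  -- the class of `x` meets `R` in one orbit
  have hXR : {y : G | y ∈ threeClass x ∧ ∀ q ∈ R, Commute q y} =
      {y : G | y ∈ threeClass x ∧ y ∈ R} := by
    ext y
    exact ⟨fun hy => ⟨hy.1, hself y hy.1.1 hy.2⟩, fun hy => ⟨hy.1, fun q hq => hab q hq y hy.2⟩⟩
  set A := {y : G | y ∈ threeClass x ∧ y ∈ R} with hA
  have hA1 : Nat.card A % 3 = 1 := by
    rw [← hXR]
    exact hfix.symm
  obtain ⟨t, ht⟩ : ∃ t : G, t * x * t⁻¹ = x ^ 2 := by
    obtain ⟨t, htN, htC⟩ : ∃ t, t ∈ normalizer (zpowers x : Set G) ∧ t ∉ C := by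
      by_contra hc
      push Not at hc
      have := card_dvd_of_le (show normalizer (zpowers x : Set G) ≤ C from hc)
      rw [hN, hC] at this
      omega
    refine ⟨t, ((hpow _ ((orderOf_conjugate t x).trans hx)
      ((mem_normalizer_iff.1 htN x).1 (mem_zpowers x))).resolve_left fun e => htC ?_)⟩
    exact mem_centralizer_of_commute (mul_inv_eq_iff_eq_mul.1 e).symm
  obtain ⟨S3, hS3⟩ : ∃ S : Sylow 3 G, (S : Subgroup G) = R := by
    obtain ⟨S, hS⟩ := hRp.exists_le_sylow
    exact ⟨S, (eq_of_le_of_card_ge hS (by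
      rw [CfsgLib.SylowToolkit.card_sylow_subgroup_eq (k := 3) (m := 9067520)
        (by rw [h.card]; norm_num) (by norm_num) S, hR]; norm_num)).symm⟩
  haveI : IsMulCommutative ↥(S3 : Subgroup G) := ⟨⟨fun a b =>
    Subtype.ext (hab _ (hS3 ▸ a.2) _ (hS3 ▸ b.2)).eq⟩⟩
  have horb : A = orbSet (normalizer (R : Set G)) x := by
    ext y
    constructor
    · rintro ⟨⟨hy, a, ha⟩, hyR⟩
      obtain ⟨b, hb⟩ : ∃ b : G, b * x * b⁻¹ = y := by
        have hm : a⁻¹ * y * a ∈ zpowers x := by
          obtain ⟨l, hl⟩ := mem_zpowers_iff.1 (ha ▸ mem_zpowers y)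
          refine mem_zpowers_iff.2 ⟨l, ?_⟩
          rw [← hl, conj_zpow]
          group
        rcases hpow _ (by
          rw [show a⁻¹ * y * a = a⁻¹ * y * a⁻¹⁻¹ by rw [inv_inv]]
          exact (orderOf_conjugate a⁻¹ y).trans hy) hm with e | e
        · exact ⟨a, by rw [← e]; group⟩
        · exact ⟨a * t, by
            rw [show a * t * x * (a * t)⁻¹ = a * (t * x * t⁻¹) * a⁻¹ by group, ht, ← e]; group⟩
      obtain ⟨n, hn, hne⟩ := S3.conj_eq_normalizer_conj_of_mem x b⁻¹
        (by change x ∈ (S3 : Subgroup G); rw [hS3]; exact hxR)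
        (by rw [inv_inv, hb]; change y ∈ (S3 : Subgroup G); rw [hS3]; exact hyR)
      rw [inv_inv, hb] at hne
      refine ⟨n⁻¹, inv_mem ?_, by rw [inv_inv, hne]⟩
      rw [← hS3]; exact hn
    · rintro ⟨n, hn, rfl⟩
      exact ⟨(hinvX n x).1 hXx, (mem_normalizer_iff.1 hn x).1 hxR⟩
  have hA2 : Nat.card A ∣ 2 ^ 10 := by
    rw [horb]
    exact h.card_orbSet_dvd hR le_normalizer le_rfl fun r hr => (hcx r hr).symm
  -- the part off `⟨x⟩`
  set Q := normalizer (R : Set G) ⊓ C with hQ
  set B := {y : G | y ∈ A ∧ y ∉ zpowers x} with hB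
  have hBst : ∀ n ∈ Q, ∀ y ∈ B, n * y * n⁻¹ ∈ B := by
    rintro n hn y ⟨⟨hy, hyR⟩, hyx⟩
    refine ⟨⟨(hinvX n y).1 hy, (mem_normalizer_iff.1 hn.1 y).1 hyR⟩, fun hm => hyx ?_⟩
    obtain ⟨k, hk⟩ := mem_zpowers_iff.1 hm
    refine mem_zpowers_iff.2 ⟨k, ?_⟩
    have hxn : n * x * n⁻¹ = x :=
      mul_inv_eq_iff_eq_mul.2 (commute_of_mem_centralizer hn.2).symm.eq
    have e : n * x ^ k * n⁻¹ = n * y * n⁻¹ := by rw [← conj_zpow, hxn, hk]
    exact mul_left_cancel (mul_right_cancel e)
  have h4 : 4 ∣ Nat.card B := by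
    haveI := Fintype.ofFinite B
    rw [Nat.card_eq_fintype_card, ← Finset.card_univ,
      Finset.card_eq_sum_card_image (fun y : B => orbSet Q (y : G)) Finset.univ]
    refine Finset.dvd_sum fun s hs => ?_
    obtain ⟨y, -, rfl⟩ := Finset.mem_image.1 hs
    have hcount := h.four_dvd_orbit hf hx hfx hC R hR hRC hxR hab y.2.1.2 y.2.2
    rw [← Fintype.card_subtype, ← Nat.card_eq_fintype_card]
    refine hcount.trans (dvd_of_eq (Nat.card_congr ?_))
    exact
      { toFun := fun w => ⟨⟨w.1, by
          obtain ⟨n, hn, hw⟩ := w.2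
          exact hw ▸ hBst n hn _ y.2⟩, orbSet_eq w.2⟩
        invFun := fun z => ⟨z.1.1, (Set.ext_iff.1 z.2 _).1 (mem_orbSet_self Q _)⟩
        left_inv := fun w => rfl
        right_inv := fun z => rfl }
  have hAB : Nat.card A = 2 + Nat.card B := by
    rw [Nat.card_coe_set_eq, Nat.card_coe_set_eq]
    have e : A = {x, x ^ 2} ∪ B := by
      ext y
      simp only [Set.mem_union, Set.mem_insert_iff, Set.mem_singleton_iff]
      constructor
      · intro hy
        by_cases hm : y ∈ zpowers x
        · exact Or.inl (hpow y hy.1.1 hm)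
        · exact Or.inr ⟨hy, hm⟩
      · rintro ((rfl | rfl) | hy)
        · exact ⟨hXx, hxR⟩
        · exact ⟨hXx2, pow_mem hxR 2⟩
        · exact hy.1
    have hdis : Disjoint ({x, x ^ 2} : Set G) B := by
      rw [Set.disjoint_left]
      rintro y (rfl | rfl) hy
      · exact hy.2 (mem_zpowers _)
      · exact hy.2 (pow_mem (mem_zpowers x) 2)
    conv_lhs => rw [e]
    rw [Set.ncard_union_eq hdis (Set.toFinite _) (Set.toFinite _), Set.ncard_pair hne2]
  have key : ∀ a ∈ (1024 : ℕ).divisors, a % 3 = 1 → a % 4 = 2 → False := by decide +kernel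
  exact key _ (Nat.mem_divisors.2 ⟨hA2, by norm_num⟩) hA1 (by omega)

end CountHyp

end CfsgLib.M24Count
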