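import Cfsg.Agent.M24Count.ThreeExtra
import Cfsg.Agent.M24Count.ThreeNineSixty

/-!
An element of order three commuting with one of order seven has a centraliser of order 504.

Otherwise its Sylow 3-subgroup `S` is non-commutative with centre `⟨z⟩`, where `z` commutes with an
involution `t` inverting `x`. Each element `v` of order three commutes with `1 (mod 3)` elements of
order prime to three, and the pairs so counted are `13 · 9067520`. In `C(z)` at most four classes
meet `S ∖ ⟨z⟩`, so `z` takes at least five of the thirteen units and what is left is too little.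
-/

set_option autoImplicit false
set_option linter.style.haveILetI false

namespace CfsgLib.M24Count

open Subgroup

open CfsgLib.M12Count (mem_centralizer_of_commute commute_of_mem_centralizer
  centralizer_le_normalizer_zpowers)
open CfsgLib.M23Count (orderOf_conjugate)

universe u

section general

variable {G : Type u} [Group G] [Finite G]

/-- The conjugates of an element with 27 commuting elements forming a subgroup inherit it. -/
theorem twentyseven_dvd_of_conj {L : Subgroup G} (hL : Nat.card L = 27) {z v : G}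
    (hc : ∀ s ∈ L, Commute s z) (h : IsConj z v) :
    27 ∣ Nat.card (centralizer ({v} : Set G)) := by
  obtain ⟨g, rfl⟩ := isConj_iff.1 h
  have hle : L.map (MulAut.conj g).toMonoidHom ≤ centralizer ({g * z * g⁻¹} : Set G) := by
    rintro _ ⟨s, hs, rfl⟩
    exact mem_centralizer_of_commute ((Commute.conj_iff g).2 (hc s hs).symm)
  refine dvd_trans (dvd_of_eq ?_) (card_dvd_of_le hle)
  rw [← hL]
  exact Nat.card_congr (L.equivMapOfInjective _ (MulAut.conj g).injective).toEquiv

theorem eq_or_eq_inv_of_mem_zpowers {z v : G} (hz : orderOf z = 3) (hv : orderOf v = 3)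
    (h : v ∈ zpowers z) : v = z ∨ v = z⁻¹ := by
  classical
  obtain ⟨l, hl, hlw⟩ := Finset.mem_image.1
    ((IsOfFinOrder.mem_zpowers_iff_mem_range_orderOf (isOfFinOrder_of_finite _)).1 h)
  rw [hz, Finset.mem_range] at hl
  interval_cases l
  · exfalso
    rw [pow_zero] at hlw
    rw [← hlw, orderOf_one] at hv
    omega
  · exact Or.inl (by rw [← hlw, pow_one])
  · refine Or.inr ?_
    rw [← hlw, eq_inv_iff_mul_eq_one, ← pow_succ, show 2 + 1 = 3 from rfl, ← hz,
      pow_orderOf_eq_one]

theorem mem_conjSet_self (v : G) : v ∈ conjSet v := IsConj.refl v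

theorem orderOf_eq_of_isConj {v w : G} (h : IsConj v w) : orderOf w = orderOf v := by
  obtain ⟨a, rfl⟩ := isConj_iff.1 h
  exact orderOf_conjugate a v

theorem regComm_le_secCount (v : G) : regComm v ≤ secCount (conjSet v) := by
  rw [← secCount_singleton v]
  have : conjSet v = {v} ∪ (conjSet v \ {v}) := by
    rw [Set.union_diff_cancel (Set.singleton_subset_iff.2 (mem_conjSet_self v))]
  rw [this, secCount_union fun w hw hw' => hw'.2 hw]
  exact Nat.le_add_right _ _

end general

namespace CountHyp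

variable {G : Type u} [Group G] [Finite G] (h : CountHyp G)
include h

theorem secCount_three : secCount {v : G | orderOf v = 3} = 117877760 := by
  classical
  haveI := Fintype.ofFinite G
  have hsing : Nat.card {g : G // 3 ∣ orderOf g} = 117877760 := by
    rw [Nat.card_eq_fintype_card, Fintype.card_subtype,
      Finset.card_eq_sum_card_fiberwise (f := orderOf) (t := ({3, 6, 12, 15, 21} : Finset ℕ))
        (fun g hg => by
          rw [Finset.mem_coe, Finset.mem_filter] at hg
          have := h.order_cases g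
          simp only [basicOrders, Finset.mem_insert, Finset.mem_singleton] at this
          simp only [Finset.coe_insert, Finset.coe_singleton, Set.mem_insert_iff,
            Set.mem_singleton_iff]
          omega)]
    have hfib : ∀ d ∈ ({3, 6, 12, 15, 21} : Finset ℕ),
        ((Finset.univ.filter fun g : G => 3 ∣ orderOf g).filter fun g => orderOf g = d).card =
          cnt G d := by
      intro d hd
      rw [cnt, Nat.card_eq_fintype_card, Fintype.card_subtype, Finset.filter_filter]
      congr 1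
      ext g
      simp only [Finset.mem_filter, Finset.mem_univ, true_and, and_iff_right_iff_imp]
      rintro rfl
      simp only [Finset.mem_insert, Finset.mem_singleton] at hd
      omega
    rw [Finset.sum_congr rfl hfib]
    simp [h.cnt_three, h.cnt_six, h.cnt_twelve, h.cnt_fifteen, h.cnt_twentyone]
  have e1 := card_eq_reg_add_sec h.no_nine
  have e2 : regCount G + Nat.card {g : G // 3 ∣ orderOf g} = Nat.card G := by
    rw [regCount, ← Nat.card_sum]
    exact Nat.card_congr ((Equiv.sumComm _ _).trans (Equiv.sumCompl fun g : G => 3 ∣ orderOf g))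
  omega

theorem regCount_eq : regCount G = 126945280 := by
  have e1 := card_eq_reg_add_sec h.no_nine
  rw [h.secCount_three, h.card] at e1
  omega

/-- Every element of order three commutes with `1 (mod 3)` elements of order prime to three. -/
theorem regComm_mod_three {v : G} (hv : orderOf v = 3) : regComm v % 3 = 1 := by
  have e := card_modEq_commuting (P := zpowers v)
    (IsPGroup.of_card (n := 1) (show Nat.card (zpowers v) = 3 ^ 1 by
      rw [Nat.card_zpowers, hv, pow_one]))
    (fun r => ¬ 3 ∣ orderOf r) (fun u _ g hg => by rwa [orderOf_conjugate])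
  have e1 : Nat.card {g : G // ¬ 3 ∣ orderOf g ∧ ∀ u ∈ zpowers v, Commute u g} = regComm v :=
    Nat.card_congr (Equiv.subtypeEquivRight fun g => and_congr_right fun _ =>
      ⟨fun hg => (hg v (mem_zpowers v)).symm, fun hg u hu => by
        obtain ⟨k, rfl⟩ := mem_zpowers_iff.1 hu
        exact hg.symm.zpow_left k⟩)
  rw [e1] at e
  change regCount G % 3 = regComm v % 3 at e
  rw [h.regCount_eq] at e
  omega

theorem eq_or_eq_inv_of_commute {f x y : G} (hf : orderOf f = 7) (hx : orderOf x = 3)
    (hfx : Commute f x) (hy : orderOf y = 3) (hfy : Commute f y) : y = x ∨ y = x⁻¹ := by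
  set A := {w : G | orderOf w = 3 ∧ Commute f w}
  have hne : x ≠ x⁻¹ := fun e => by
    have h2 : x ^ 2 = 1 := by rw [pow_two]; nth_rw 2 [e]; exact mul_inv_cancel x
    have := Nat.le_of_dvd (by norm_num) (orderOf_dvd_of_pow_eq_one h2)
    omega
  have hsub : ({x, x⁻¹} : Set G) ⊆ A := by
    rintro w (rfl | rfl)
    · exact ⟨hx, hfx⟩
    · exact ⟨by rw [orderOf_inv, hx], hfx.inv_right⟩
  have e : ({x, x⁻¹} : Set G) = A := Set.eq_of_subset_of_ncard_le hsub (by
    rw [Set.ncard_pair hne, ← Nat.card_coe_set_eq]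
    exact (h.three_commute_seven hf).le) A.toFinite
  have : y ∈ ({x, x⁻¹} : Set G) := e ▸ (⟨hy, hfy⟩ : y ∈ A)
  simpa using this

/-- An involution and an element of order three: the first inverts `x`, both commute. -/
theorem exists_invol_inverting {f x : G} (hf : orderOf f = 7) (hx : orderOf x = 3)
    (hfx : Commute f x) : ∃ t w : G, t * x * t⁻¹ = x⁻¹ ∧ orderOf w = 3 ∧ Commute w x ∧
      Commute t w ∧ w ∉ zpowers x := by
  haveI : Fact (Nat.Prime 3) := ⟨Nat.prime_three⟩
  obtain ⟨t, ht, hft⟩ := exists_of_card_commute_ne_zero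
    (f := f) (d := 2) (by rw [h.two_commute_seven hf]; norm_num)
  have hne : ∀ y : G, orderOf y = 3 → y ≠ y⁻¹ := fun y hy e => by
    have h2 : y ^ 2 = 1 := by rw [pow_two]; nth_rw 2 [e]; exact mul_inv_cancel y
    have := Nat.le_of_dvd (by norm_num) (orderOf_dvd_of_pow_eq_one h2)
    omega
  have htx : t * x * t⁻¹ = x⁻¹ := by
    refine (h.eq_or_eq_inv_of_commute hf hx hfx ((orderOf_conjugate t x).trans hx) ?_).resolve_left
      fun e => h.no_six_seven hf (hfx.mul_right hft) ?_
    · have := (Commute.conj_iff t).2 hfx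
      rwa [show t * f * t⁻¹ = f from mul_inv_eq_iff_eq_mul.2 hft.symm.eq] at this
    · have hc : Commute x t := (mul_inv_eq_iff_eq_mul.1 e).symm
      rw [hc.orderOf_mul_eq_mul_orderOf_of_coprime (by rw [hx, ht]; norm_num), hx, ht]
  obtain ⟨w, hw⟩ := exists_prime_orderOf_dvd_card'
    (G := ↥(normalizer (zpowers f : Set G) ⊓ centralizer ({t} : Set G))) 3
    (by rw [h.norm_inf_seven hf ht hft.symm]; norm_num)
  have hw3 : orderOf (w : G) = 3 := by rw [Subgroup.orderOf_coe]; exact hw
  have htw : Commute t (w : G) := commute_of_mem_centralizer w.2.2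
  have hwx : Commute (w : G) x := by
    have hfw : Commute f ((w : G) * x * (w : G)⁻¹) := by
      obtain ⟨k, hk⟩ := mem_zpowers_iff.1
        ((mem_normalizer_iff''.1 w.2.1 f).1 (mem_zpowers f))
      have h1 : Commute ((w : G)⁻¹ * f * w) x := hk ▸ hfx.zpow_left k
      simpa [mul_assoc] using (Commute.conj_iff (w : G)).2 h1
    rcases h.eq_or_eq_inv_of_commute hf hx hfx ((orderOf_conjugate (w : G) x).trans hx) hfw
      with e | e
    · exact mul_inv_eq_iff_eq_mul.1 e
    · exfalso
      have h3 : (w : G) ^ 3 = 1 := by rw [← hw3]; exact pow_orderOf_eq_one _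
      refine hne x hx ?_
      calc x = (w : G) ^ 3 * x * ((w : G) ^ 3)⁻¹ := by rw [h3]; group
        _ = (w : G) * ((w : G) * ((w : G) * x * (w : G)⁻¹) * (w : G)⁻¹) * (w : G)⁻¹ := by
            simp only [pow_succ, pow_zero, one_mul, mul_inv_rev, mul_assoc]
        _ = x⁻¹ := by
            have e' : (w : G) * x⁻¹ * (w : G)⁻¹ = x := by rw [← conj_inv, e, inv_inv]
            rw [e, e', e]
  refine ⟨t, w, htx, hw3, hwx, htw, fun hm => hne w hw3 ?_⟩
  obtain ⟨k, hk⟩ := mem_zpowers_iff.1 hm
  have h1 : t * (w : G) * t⁻¹ = (w : G)⁻¹ := by rw [← hk, ← conj_zpow, htx, inv_zpow]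
  rwa [htw.eq, mul_inv_cancel_right] at h1

/-- The two remaining values of `n` are impossible. -/
theorem not_sixty_four {f x : G} {n : ℕ} (hf : orderOf f = 7) (hx : orderOf x = 3)
    (hfx : Commute f x) (hn : n = 64 ∨ n = 512)
    (hCx : Nat.card (centralizer ({x} : Set G)) = 63 * n) : False := by
  classical
  haveI : Fact (Nat.Prime 3) := ⟨Nat.prime_three⟩
  have hG : Nat.card G = 27 * 9067520 := by rw [h.card]
  have h3G : ¬ 3 ∣ (9067520 : ℕ) := by norm_num
  have hnot27 : ¬ 27 ∣ Nat.card (centralizer ({x} : Set G)) := by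
    rw [hCx]; rcases hn with rfl | rfl <;> norm_num
  -- no Sylow subgroup is commutative
  have hns : ∀ S : Sylow 3 G,
      ¬ ∀ a ∈ (S : Subgroup G), ∀ b ∈ (S : Subgroup G), Commute a b := by
    intro S hab
    obtain ⟨S', hxS'⟩ := exists_sylow_mem_three hx
    exact hnot27 (twentyseven_dvd_of_conj (card_sylow_27 hG h3G S')
      (fun s hs => sylow_commute_transfer S S' hab s hs x hxS') (IsConj.refl x))
  obtain ⟨t, z, htx, hz, hzx', htz, hzx⟩ := h.exists_invol_inverting hf hx hfx
  obtain ⟨S, hxS, hzS⟩ : ∃ S : Sylow 3 G, x ∈ (S : Subgroup G) ∧ z ∈ (S : Subgroup G) := by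
    have hp : IsPGroup 3 ↥(zpowers x ⊔ zpowers z) :=
      (IsPGroup.of_card (n := 1) (show Nat.card (zpowers x) = 3 ^ 1 by
        rw [Nat.card_zpowers, hx, pow_one])).to_sup_of_normal_left'
      (IsPGroup.of_card (n := 1) (show Nat.card (zpowers z) = 3 ^ 1 by
        rw [Nat.card_zpowers, hz, pow_one]))
      ((zpowers_le.2 (mem_centralizer_of_commute hzx'.symm)).trans
        (centralizer_le_normalizer_zpowers x))
    obtain ⟨S, hS⟩ := hp.exists_le_sylow
    exact ⟨S, hS (mem_sup_left (mem_zpowers x)), hS (mem_sup_right (mem_zpowers z))⟩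
  have hS := card_sylow_27 hG h3G S
  -- `z` is central in `S`
  have hzc : ∀ s ∈ (S : Subgroup G), Commute s z := by
    obtain ⟨c, hc, hcS, hcc⟩ := exists_central hS (hns S)
    have hxc : x ∉ zpowers c := fun hm => hnot27 (twentyseven_dvd_of_conj hS (fun s hs => by
      obtain ⟨k, rfl⟩ := mem_zpowers_iff.1 hm
      exact (hcc s hs).zpow_right k) (IsConj.refl x))
    obtain ⟨s0, hs0, hs0x⟩ : ∃ s ∈ (S : Subgroup G), ¬ Commute s x := by
      by_contra hcc'
      push Not at hcc'
      exact hnot27 (twentyseven_dvd_of_conj hS hcc' (IsConj.refl x))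
    have hP := card_inf_centralizer_eq_nine hS hc hcS hcc hx hxS hxc hs0 hs0x
    obtain ⟨a, b, hab⟩ := exists_pow_mul_pow hP (x := x) (z := c)
      ⟨hxS, mem_centralizer_of_commute (Commute.refl x)⟩
      ⟨hcS, mem_centralizer_of_commute (hcc x hxS)⟩ hx hc hxc
      (d := z) ⟨hzS, mem_centralizer_of_commute hzx'.symm⟩
    by_cases ha : (a : ℕ) = 0
    · intro s hs
      rw [hab, ha, pow_zero, one_mul]
      exact (hcc s hs).pow_right _
    exfalso
    have hb : (b : ℕ) ≠ 0 := fun hb => hzx (by
      rw [hab, hb, pow_zero, mul_one]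
      exact pow_mem (mem_zpowers x) _)
    -- `t` moves `c ^ b` to `x ^ (2 a) * c ^ b`
    set v := x ^ (2 * (a : ℕ)) with hv
    have htc : t * c ^ (b : ℕ) * t⁻¹ = v * c ^ (b : ℕ) := by
      have e1 : t * z * t⁻¹ = z := mul_inv_eq_iff_eq_mul.2 htz.eq
      rw [hab] at e1
      have e2 : t * x ^ (a : ℕ) * t⁻¹ = (x ^ (a : ℕ))⁻¹ := by
        rw [← conj_pow, htx, inv_pow]
      have e3 : (x ^ (a : ℕ))⁻¹ * (t * c ^ (b : ℕ) * t⁻¹) = x ^ (a : ℕ) * c ^ (b : ℕ) := by
        rw [← e2]
        calc t * x ^ (a : ℕ) * t⁻¹ * (t * c ^ (b : ℕ) * t⁻¹)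
            = t * (x ^ (a : ℕ) * c ^ (b : ℕ)) * t⁻¹ := by group
          _ = _ := e1
      rw [hv, two_mul, pow_add, mul_assoc _ _ (c ^ (b : ℕ)), ← e3, mul_inv_cancel_left]
    have hvk : x = v ^ (2 * (a : ℕ)) := by
      rw [hv, ← pow_mul, ← pow_mod_orderOf, hx]
      have := a.2
      rcases (show (a : ℕ) = 1 ∨ (a : ℕ) = 2 by omega) with e | e <;> simp [e]
    have hvc : v ∉ zpowers c := fun hm => hxc (hvk ▸ pow_mem hm _)
    have hconj : IsConj (c ^ (b : ℕ)) v :=
      IsConj.trans (isConj_iff.2 ⟨t, htc⟩)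
        (isConj_mul_pow hS (hns S) hc hcS hcc (pow_mem hxS _) hvc (b : ℕ)).symm
    refine hnot27 ((twentyseven_dvd_of_conj hS
      (fun s hs => (hcc s hs).pow_right _) hconj).trans (card_dvd_of_le fun g hg => ?_))
    rw [hvk]
    exact mem_centralizer_of_commute ((commute_of_mem_centralizer hg).pow_left _)
  have hxz : x ∉ zpowers z := fun hm => hnot27 (twentyseven_dvd_of_conj hS (fun s hs => by
    obtain ⟨k, rfl⟩ := mem_zpowers_iff.1 hm
    exact (hzc s hs).zpow_right k) (IsConj.refl x))
  -- the centraliser of `z`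
  set C := centralizer ({z} : Set G) with hC
  have hSC : (S : Subgroup G) ≤ C := fun s hs => mem_centralizer_of_commute (hzc s hs).symm
  obtain ⟨e, he⟩ : 27 ∣ Nat.card C := hS ▸ card_dvd_of_le hSC
  have he3 : e ∣ 35840 := by
    have := (h.cent_three_dvd hz).1
    rw [← hC, he] at this
    exact Nat.dvd_of_mul_dvd_mul_left (by norm_num : 0 < 27) (by simpa using this)
  have he' : ¬ 3 ∣ e := fun hd => absurd (hd.trans he3) (by norm_num)
  have hnsC : ∀ S' : Sylow 3 C,
      ¬ ∀ a ∈ (S' : Subgroup C), ∀ b ∈ (S' : Subgroup C), Commute a b := by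
    intro S' hab
    obtain ⟨T, hT⟩ := exists_sylow_of_card_27 hG h3G (L := (S' : Subgroup C).map C.subtype) (by
      rw [← Nat.card_congr ((S' : Subgroup C).equivMapOfInjective _
        C.subtype_injective).toEquiv, card_sylow_27 he he' S'])
    refine hns T fun a ha b hb => ?_
    obtain ⟨a', ha', rfl⟩ := (hT ▸ ha : a ∈ (S' : Subgroup C).map C.subtype)
    obtain ⟨b', hb', rfl⟩ := (hT ▸ hb : b ∈ (S' : Subgroup C).map C.subtype)
    exact (hab a' ha' b' hb').map C.subtype
  have h9C : ∀ g : C, ¬ 9 ∣ orderOf g := fun g => by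
    rw [← Subgroup.orderOf_coe]; exact h.no_nine _
  set zC : C := ⟨z, mem_centralizer_of_commute (Commute.refl z)⟩ with hzC
  set xC : C := ⟨x, mem_centralizer_of_commute hzx'⟩ with hxC
  set tC : C := ⟨t, mem_centralizer_of_commute htz.symm⟩ with htC
  have hzC3 : orderOf zC = 3 := by rw [hzC, Subgroup.orderOf_mk, hz]
  have hzCc : ∀ g : C, Commute g zC := fun g =>
    Subtype.ext (commute_of_mem_centralizer g.2).symm.eq
  have hzpC : ∀ g : C, g ∈ zpowers zC ↔ (g : G) ∈ zpowers z := fun g =>
    ⟨fun hg => by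
      obtain ⟨l, rfl⟩ := mem_zpowers_iff.1 hg
      exact mem_zpowers_iff.2 ⟨l, (Subgroup.coe_zpow C zC l).symm⟩,
    fun hg => by
      obtain ⟨l, hl⟩ := mem_zpowers_iff.1 hg
      exact mem_zpowers_iff.2 ⟨l, Subtype.ext ((Subgroup.coe_zpow C zC l).trans hl)⟩⟩
  set R := {v : C | orderOf v = 3 ∧ v ∉ zpowers zC} with hR
  set k := (ConjClasses.mk '' R).ncard with hk
  have hk4 : k ≤ 4 := ncard_classes_le_four he he' h9C hnsC hzC3 hzCc
    (x := xC) (t := tC) (by rw [hxC, Subgroup.orderOf_mk, hx])
    (fun hm => hxz ((hzpC _).1 hm)) (Subtype.ext htx)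
  have hRc : ConjClosed R := by
    rintro v ⟨hv, hvz⟩ w hvw
    refine ⟨(orderOf_eq_of_isConj hvw).trans hv, fun hm => hvz ?_⟩
    obtain ⟨a, rfl⟩ := isConj_iff.1 hvw
    obtain ⟨l, hl⟩ := mem_zpowers_iff.1 hm
    have e1 : v = zC ^ l :=
      calc v = a⁻¹ * (a * v * a⁻¹) * a := by group
        _ = zC ^ l := by rw [← hl, mul_assoc, ← ((hzCc a).zpow_right l).eq, inv_mul_cancel_left]
    rw [e1]
    exact zpow_mem (mem_zpowers _) l
  have hclassC : ∀ v ∈ R, secCount (conjSet v) = 3 * e := by
    rintro v ⟨hv, hvz⟩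
    obtain ⟨S', hvS'⟩ := exists_sylow_mem_three hv
    have hzS' : zC ∈ (S' : Subgroup C) := mem_sylow_of_commute S' hzC3 fun s _ => hzCc s
    have hS' := card_sylow_27 he he' S'
    obtain ⟨s, hs, hsv⟩ : ∃ s ∈ (S' : Subgroup C), ¬ Commute s v := by
      by_contra hc
      push Not at hc
      exact hvz (mem_zpowers_of_central hS' (hnsC S') hzC3 hzS' (fun s _ => hzCc s) hvS' hc)
    have hP := card_inf_centralizer_eq_nine hS' hzC3 hzS' (fun s _ => hzCc s) hv hvS' hvz hs hsv
    set P := (S' : Subgroup C) ⊓ centralizer ({v} : Set C) with hPdef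
    obtain ⟨e', he''⟩ : 9 ∣ Nat.card (centralizer ({v} : Set C)) :=
      hP ▸ card_dvd_of_le inf_le_right
    have h3e' : ¬ 3 ∣ e' := by
      intro hd
      obtain ⟨S'', hvS'', hc⟩ := exists_sylow_commute he he' hv
        (he'' ▸ Nat.mul_dvd_mul_left 9 hd)
      exact hvz (mem_zpowers_of_central (card_sylow_27 he he' S'') (hnsC S'') hzC3
        (mem_sylow_of_commute S'' hzC3 fun s _ => hzCc s) (fun s _ => hzCc s) hvS'' hc)
    have hreg : regComm v = e' := by
      refine regComm_eq_of_central (a := 2) (by rw [he'']; norm_num) h3e' (P := P) (by rw [hP]; norm_num)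
        inf_le_right fun p hp g hg => ?_
      obtain ⟨a, b, rfl⟩ := exists_pow_mul_pow hP (x := v) (z := zC)
        ⟨hvS', mem_centralizer_of_commute (Commute.refl v)⟩
        ⟨hzS', mem_centralizer_of_commute (hzCc v)⟩ hv hzC3 hvz hp
      exact ((commute_of_mem_centralizer hg).pow_left _).mul_left ((hzCc g).symm.pow_left _)
    have hmul := secCount_conjSet v
    rw [hreg, he'', he] at hmul
    have h0 : 0 < e' := hreg ▸ regComm_pos v
    exact Nat.eq_of_mul_eq_mul_right (by omega : 0 < 9 * e') (by rw [hmul]; ring)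
  have hreg : regCount C = regComm z := Nat.card_congr
    { toFun := fun r => ⟨r.1.1, by rw [Subgroup.orderOf_coe]; exact r.2,
        (commute_of_mem_centralizer r.1.2).symm⟩
      invFun := fun r => ⟨⟨r.1, mem_centralizer_of_commute r.2.2.symm⟩, by
        rw [Subgroup.orderOf_mk]; exact r.2.1⟩
      left_inv := fun r => rfl
      right_inv := fun r => rfl }
  have hzne : zC⁻¹ ≠ zC := fun e1 => by
    have h2 : zC ^ 2 = 1 := by rw [pow_two]; nth_rw 1 [← e1]; exact inv_mul_cancel zC
    have := Nat.le_of_dvd (by norm_num) (orderOf_dvd_of_pow_eq_one h2)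
    omega
  have hHcount : 27 * e = 3 * regComm z + 3 * e * k := by
    have e0 := card_eq_reg_add_sec h9C
    have hsplit : {v : C | orderOf v = 3} = ({zC} ∪ {zC⁻¹}) ∪ R := by
      ext v
      simp only [hR, Set.mem_setOf_eq, Set.mem_union, Set.mem_singleton_iff]
      constructor
      · intro hv
        by_cases hm : v ∈ zpowers zC
        · exact Or.inl (eq_or_eq_inv_of_mem_zpowers hzC3 hv hm)
        · exact Or.inr ⟨hv, hm⟩
      · rintro ((rfl | rfl) | hv)
        exacts [hzC3, by rw [orderOf_inv, hzC3], hv.1]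
    rw [hsplit, secCount_union (by
        rintro v (rfl | rfl) hv
        · exact hv.2 (mem_zpowers _)
        · exact hv.2 (inv_mem (mem_zpowers _))),
      secCount_union (fun v hv hv' => hzne
        ((Set.mem_singleton_iff.1 hv').symm.trans (Set.mem_singleton_iff.1 hv))),
      secCount_singleton, secCount_singleton, regComm_inv, regComm_central hzCc,
      secCount_eq_mul hRc hclassC, hreg, he, ← hk] at e0
    rw [e0]; ring
  obtain ⟨j, hj⟩ := dvd_regComm (v := z) (a := 3) (e := e) (by rw [← hC, he]; norm_num) he'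
  have he0 : 0 < e := Nat.pos_of_ne_zero fun e0 => he' (e0 ▸ dvd_zero 3)
  have hjk : j + k = 9 := by
    rw [hj] at hHcount
    exact Nat.eq_of_mul_eq_mul_left (show 0 < 3 * e by omega) (by rw [mul_add]; linarith)
  -- the classes in `G`
  set cX := conjSet x with hcX
  set cZ := conjSet z with hcZ
  set T := {v : G | orderOf v = 3} with hT
  have hTc : ConjClosed T := fun v hv w hw => (orderOf_eq_of_isConj hw).trans hv
  have hXT : cX ⊆ T := fun v hv => (orderOf_eq_of_isConj hv).trans hx
  obtain ⟨jx, hjx⟩ := dvd_regComm (v := x) (a := 2) (e := 7 * n) (by rw [hCx]; ring)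
    (by rcases hn with rfl | rfl <;> norm_num)
  have hsX : secCount cX = 27202560 * jx := by
    have := secCount_conjSet x
    rw [hCx, hjx, h.card] at this
    exact Nat.eq_of_mul_eq_mul_right (show 0 < 63 * n by omega) (by rw [this]; ring)
  have hjx0 : 1 ≤ jx := Nat.pos_of_ne_zero fun e0 => by
    have := regComm_pos x
    rw [hjx, e0, mul_zero] at this
    omega
  have hjx3 : n = 512 → jx ≠ 1 := fun hn' e0 => by
    have := h.regComm_mod_three hx
    rw [hjx, e0, hn'] at this
    norm_num at this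
  have hsZ : secCount cZ = 9067520 * j := by
    have := secCount_conjSet z
    rw [← hC, he, hj, h.card] at this
    exact Nat.eq_of_mul_eq_mul_right (show 0 < 27 * e by omega) (by rw [this]; ring)
  have hcardX : cX.ncard * (63 * n) = 244823040 := by
    rw [← Nat.card_coe_set_eq, show Nat.card cX = _ from card_isConj x, ← hCx,
      Subgroup.index_mul_card, h.card]
  have hcardZ : cZ.ncard * (27 * e) = 244823040 := by
    rw [← Nat.card_coe_set_eq, show Nat.card cZ = _ from card_isConj z, ← he,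
      Subgroup.index_mul_card, h.card]
  have hTcard : T.ncard = 712448 := by
    rw [← Nat.card_coe_set_eq]; exact h.cnt_three
  have hXZ : ¬ IsConj z x := fun hc => hnot27 (twentyseven_dvd_of_conj hS hzc hc)
  have hX_inv : IsConj x x⁻¹ := isConj_iff.2 ⟨t, htx⟩
  have hXZ' : ¬ IsConj z⁻¹ x := fun hc =>
    hnot27 (twentyseven_dvd_of_conj hS (fun s hs => (hzc s hs).inv_right) hc)
  -- a class outside those of `x`, `z`, `z⁻¹`
  have hrest : ∀ o : G, orderOf o = 3 → ¬ IsConj z o → ¬ IsConj z⁻¹ o →
      ∃ e' j', e' ∣ 35840 ∧ (conjSet o).ncard * e' = 27202560 ∧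
        secCount (conjSet o) = 27202560 * j' ∧ 0 < j' := by
    intro o ho hoz hoz'
    obtain ⟨S1, hoS1⟩ := exists_sylow_mem_three ho
    have hS1 := card_sylow_27 hG h3G S1
    obtain ⟨c, hc, hcS1, hcc⟩ := exists_central hS1 (hns S1)
    have hcentral : ∀ S2 : Sylow 3 G, o ∈ (S2 : Subgroup G) →
        (∀ s ∈ (S2 : Subgroup G), Commute s o) → False := by
      intro S2 ho2 hoc
      obtain ⟨g, rfl⟩ := MulAction.exists_smul_eq G S S2
      have hmem : ∀ y, y ∈ ((g • S : Sylow 3 G) : Subgroup G) ↔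
          g⁻¹ * y * g ∈ (S : Subgroup G) := fun y => by
        rw [Sylow.coe_subgroup_smul, Subgroup.mem_pointwise_smul_iff_inv_smul_mem]
        simp [MulAut.smul_def, mul_assoc]
      have h1 : g⁻¹ * o * g ∈ zpowers z := mem_zpowers_of_central hS (hns S) hz hzS hzc
        ((hmem o).1 ho2) fun s hs => by
          have := (Commute.conj_iff g⁻¹).2 (hoc (g * s * g⁻¹) ((hmem _).2 (by simpa [mul_assoc])))
          simpa [mul_assoc] using this
      rcases eq_or_eq_inv_of_mem_zpowers hz
        (by simpa using (orderOf_conjugate g⁻¹ o).trans ho) h1 with e1 | e1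
      · exact hoz (isConj_iff.2 ⟨g, by rw [← e1]; group⟩)
      · exact hoz' (isConj_iff.2 ⟨g, by rw [← e1]; group⟩)
    obtain ⟨s, hs, hso⟩ : ∃ s ∈ (S1 : Subgroup G), ¬ Commute s o := by
      by_contra hc'
      push Not at hc'
      exact hcentral S1 hoS1 hc'
    have hoc : o ∉ zpowers c := fun hm => by
      obtain ⟨l, rfl⟩ := mem_zpowers_iff.1 hm
      exact hso ((hcc s hs).zpow_right l)
    obtain ⟨e', he''⟩ : 9 ∣ Nat.card (centralizer ({o} : Set G)) :=
      card_inf_centralizer_eq_nine hS1 hc hcS1 hcc ho hoS1 hoc hs hso ▸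
        card_dvd_of_le inf_le_right
    have h3e' : ¬ 3 ∣ e' := fun hd => by
      obtain ⟨S2, ho2, hoc2⟩ := exists_sylow_commute hG h3G ho (he'' ▸ Nat.mul_dvd_mul_left 9 hd)
      exact hcentral S2 ho2 hoc2
    have hd : e' ∣ 35840 := by
      have := (h.cent_three_dvd ho).1
      rw [he''] at this
      have h2 : e' ∣ 3 * 35840 :=
        Nat.dvd_of_mul_dvd_mul_left (by norm_num : 0 < 9) (by simpa using this)
      exact ((Nat.prime_three.coprime_iff_not_dvd.2 h3e').symm).dvd_of_dvd_mul_left h2
    obtain ⟨j', hj'⟩ := dvd_regComm (v := o) (a := 2) (e := e') (by rw [he'']; norm_num) h3e'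
    have he0' : 0 < e' := Nat.pos_of_ne_zero fun e0 => h3e' (e0 ▸ dvd_zero 3)
    refine ⟨e', j', hd, ?_, ?_, Nat.pos_of_ne_zero fun e0 => ?_⟩
    · have h1 : (conjSet o).ncard * (9 * e') = 244823040 := by
        rw [← Nat.card_coe_set_eq, show Nat.card (conjSet o) = _ from card_isConj o, ← he'',
          Subgroup.index_mul_card, h.card]
      linarith
    · have := secCount_conjSet o
      rw [he'', hj', h.card] at this
      exact Nat.eq_of_mul_eq_mul_right (show 0 < 9 * e' by omega) (by rw [this]; ring)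
    · have := regComm_pos o
      rw [hj', e0, mul_zero] at this
      omega
  -- the units
  have hsT := h.secCount_three
  rw [← hT, secCount_split hTc (show x ∈ T from hx)] at hsT
  have hT1c : ConjClosed (T \ cX) := hTc.diff x
  have hzT1 : z ∈ T \ cX := ⟨hz, fun hc => hXZ hc.symm⟩
  rw [secCount_split hT1c hzT1, ← hcX, ← hcZ, hsX, hsZ] at hsT
  have hT2c : ConjClosed ((T \ cX) \ cZ) := hT1c.diff z
  have hTn : cX.ncard + cZ.ncard + ((T \ cX) \ cZ).ncard = 712448 := by
    rw [← hTcard, ← Set.ncard_sdiff_add_ncard_of_subset hXT,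
      ← Set.ncard_sdiff_add_ncard_of_subset (show cZ ⊆ T \ cX from
        fun v hv => hT1c z hzT1 v hv)]
    ring
  by_cases hzz : IsConj z z⁻¹
  swap
  · -- two central classes
    have hz'T2 : z⁻¹ ∈ (T \ cX) \ cZ :=
      ⟨⟨by show orderOf z⁻¹ = 3; rw [orderOf_inv, hz], fun hc => hXZ' hc.symm⟩, hzz⟩
    have hsZ' : secCount (conjSet z⁻¹) = 9067520 * j := by
      have hcent : centralizer ({z⁻¹} : Set G) = C := by
        ext g
        rw [hC, mem_centralizer_singleton_iff, mem_centralizer_singleton_iff]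
        exact Commute.inv_right_iff (a := g) (b := z)
      have := secCount_conjSet z⁻¹
      rw [hcent, regComm_inv, he, hj, h.card] at this
      exact Nat.eq_of_mul_eq_mul_right (show 0 < 27 * e by omega) (by rw [this]; ring)
    rw [secCount_split hT2c hz'T2, hsZ'] at hsT
    have hle : 3 * jx + 2 * j ≤ 13 := by omega
    have hval : jx = 1 ∧ j = 5 := by omega
    have hj1 : jx = 1 := hval.1
    rw [hval.1, hval.2] at hsT
    have h0 : secCount (((T \ cX) \ cZ) \ conjSet z⁻¹) = 0 := by omega
    have hempty : ((T \ cX) \ cZ) \ conjSet z⁻¹ = ∅ := by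
      refine Set.eq_empty_iff_forall_notMem.2 fun v hv => ?_
      have := secCount_split (hT2c.diff z⁻¹) hv
      have := (regComm_pos v).trans_le (regComm_le_secCount v)
      omega
    have hcardZ' : (conjSet z⁻¹).ncard = cZ.ncard := by
      have : cZ⁻¹ = conjSet z⁻¹ := by
        ext v
        rw [Set.mem_inv]
        constructor
        · intro hv
          obtain ⟨a, ha⟩ := isConj_iff.1 hv
          exact isConj_iff.2 ⟨a, by rw [← conj_inv, ha, inv_inv]⟩
        · intro hv
          obtain ⟨a, ha⟩ := isConj_iff.1 hv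
          exact isConj_iff.2 ⟨a, by rw [← ha, conj_inv, inv_inv]⟩
      rw [← this, Set.ncard_inv]
    have hsub : conjSet z⁻¹ ⊆ (T \ cX) \ cZ := fun v hv => hT2c _ hz'T2 v hv
    have := Set.ncard_sdiff_add_ncard_of_subset hsub
    rw [hempty, Set.ncard_empty, hcardZ'] at this
    rcases hn with rfl | rfl
    · have hX : cX.ncard = 60720 := by omega
      have hZ : cZ.ncard = 325864 := by omega
      rw [hZ] at hcardZ; omega
    · exact hjx3 rfl hj1
  have hout : ∀ v ∈ (T \ cX) \ cZ, ¬ IsConj z⁻¹ v := fun v hv hc => hv.2 (hzz.trans hc)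
  have hdvd : 27202560 ∣ secCount ((T \ cX) \ cZ) := dvd_secCount hT2c fun v hv => by
    obtain ⟨e', j', -, -, hs, -⟩ := hrest v hv.1.1 hv.2 (hout v hv)
    exact hs ▸ dvd_mul_right _ _
  obtain ⟨r, hr⟩ := hdvd
  rw [hr] at hsT
  have hj7 : j = 7 ∧ jx + r = 2 := by omega
  rcases Set.eq_empty_or_nonempty ((T \ cX) \ cZ) with hempty | ⟨o, ho⟩
  · rw [hempty, Set.ncard_empty] at hTn
    rcases hn with rfl | rfl
    · have hX : cX.ncard = 60720 := by omega
      have hZ : cZ.ncard = 651728 := by omega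
      rw [hZ] at hcardZ; omega
    · have hX : cX.ncard = 7590 := by omega
      have hZ : cZ.ncard = 704858 := by omega
      rw [hZ] at hcardZ; omega
  -- exactly one further class
  obtain ⟨e', j', he'd, hcardO, hsO, hj'0⟩ := hrest o ho.1.1 ho.2 (hout o ho)
  have hsp := secCount_split hT2c ho
  rw [hr, hsO] at hsp
  have hr1 : jx = 1 ∧ r = 1 := by omega
  have hj'1 : j' = 1 := by omega
  rw [hr1.2, hj'1] at hsp
  have h0 : secCount (((T \ cX) \ cZ) \ conjSet o) = 0 := by omega
  have hempty : ((T \ cX) \ cZ) \ conjSet o = ∅ := by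
    refine Set.eq_empty_iff_forall_notMem.2 fun v hv => ?_
    have := secCount_split (hT2c.diff o) hv
    have := (regComm_pos v).trans_le (regComm_le_secCount v)
    omega
  have hsub : conjSet o ⊆ (T \ cX) \ cZ := fun v hv => hT2c _ ho v hv
  have hOn := Set.ncard_sdiff_add_ncard_of_subset hsub
  rw [hempty, Set.ncard_empty] at hOn
  have hn64 : n = 64 := hn.resolve_right fun e512 => hjx3 e512 hr1.1
  have hX : cX.ncard = 60720 := by subst hn64; omega
  -- a conjugate of `o` in `S`
  obtain ⟨o', hoo', ho'S⟩ : ∃ o', IsConj o o' ∧ o' ∈ (S : Subgroup G) := by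
    obtain ⟨S1, hoS1⟩ := exists_sylow_mem_three ho.1.1
    obtain ⟨g, rfl⟩ := MulAction.exists_smul_eq G S S1
    rw [Sylow.coe_subgroup_smul, Subgroup.mem_pointwise_smul_iff_inv_smul_mem] at hoS1
    exact ⟨g⁻¹ * o * g, isConj_iff.2 ⟨g⁻¹, by group⟩,
      by simpa [MulAut.smul_def, mul_assoc] using hoS1⟩
  have hk2 : k = 2 := by omega
  -- the class of `z` meets `S` in `⟨z⟩` only
  have hZS : ∀ v ∈ (S : Subgroup G), IsConj z v → v ∈ zpowers z := by
    intro v hvS hv
    by_contra hvz
    let oC : C := ⟨o', hSC ho'S⟩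
    let vC : C := ⟨v, hSC hvS⟩
    have hoz : o' ∉ zpowers z := fun hm => by
      rcases eq_or_eq_inv_of_mem_zpowers hz ((orderOf_eq_of_isConj hoo').trans ho.1.1) hm with
        rfl | rfl
      · exact ho.2 hoo'.symm
      · exact hout o ho hoo'.symm
    have hcls : ∀ a b : C, ¬ IsConj (a : G) (b : G) → ConjClasses.mk a ≠ ConjClasses.mk b :=
      fun a b hab e1 => hab (MonoidHom.map_isConj C.subtype (ConjClasses.mk_eq_mk_iff_isConj.1 e1))
    have h1 : ConjClasses.mk xC ≠ ConjClasses.mk oC :=
      hcls _ _ fun hc => ho.1.2 (IsConj.trans hc hoo'.symm)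
    have h2 : ConjClasses.mk xC ≠ ConjClasses.mk vC :=
      hcls _ _ fun hc => hXZ (hv.trans hc.symm)
    have h3 : ConjClasses.mk oC ≠ ConjClasses.mk vC :=
      hcls _ _ fun hc => ho.2 (hv.trans (hc.symm.trans hoo'.symm))
    have hthree : ({ConjClasses.mk xC, ConjClasses.mk oC, ConjClasses.mk vC} :
        Set (ConjClasses C)) ⊆ ConjClasses.mk '' R := by
      rintro c (rfl | rfl | rfl)
      · exact ⟨xC, ⟨by rw [hxC, Subgroup.orderOf_mk, hx], fun hm => hxz ((hzpC _).1 hm)⟩, rfl⟩
      · exact ⟨oC, ⟨by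
          rw [Subgroup.orderOf_mk]; exact (orderOf_eq_of_isConj hoo').trans ho.1.1,
          fun hm => hoz ((hzpC _).1 hm)⟩, rfl⟩
      · exact ⟨vC, ⟨by rw [Subgroup.orderOf_mk]; exact (orderOf_eq_of_isConj hv).trans hz,
          fun hm => hvz ((hzpC _).1 hm)⟩, rfl⟩
    have hle := Set.ncard_le_ncard hthree (Set.toFinite _)
    rw [Set.ncard_eq_three.2 ⟨_, _, _, h1, h2, h3, rfl⟩, ← hk] at hle
    omega
  -- so that class is `2 (mod 9)`
  have hzne' : z ≠ z⁻¹ := fun e1 => by
    have h2 : z ^ 2 = 1 := by rw [pow_two]; nth_rw 2 [e1]; exact mul_inv_cancel z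
    have := Nat.le_of_dvd (by norm_num) (orderOf_dvd_of_pow_eq_one h2)
    omega
  have h9dvd : 9 ∣ Nat.card {v : G // IsConj z v ∧ v ∉ zpowers z} := by
    refine nine_dvd_card hS _ (fun u hu v hv => ⟨hv.1.trans (isConj_iff.2 ⟨u, rfl⟩), fun hm =>
      hv.2 ?_⟩) fun v hv => ?_
    · obtain ⟨l, hl⟩ := mem_zpowers_iff.1 hm
      have e1 : v = z ^ l :=
        calc v = u⁻¹ * (u * v * u⁻¹) * u := by group
          _ = z ^ l := by
              rw [← hl, mul_assoc, ← ((hzc u hu).zpow_right l).eq, inv_mul_cancel_left]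
      rw [e1]
      exact zpow_mem (mem_zpowers _) l
    · exact card_inf_le_three hG h3G S hns ((orderOf_eq_of_isConj hv.1).trans hz)
        fun hvS => hv.2 (hZS v hvS hv.1)
  have hZmod : cZ.ncard % 9 = 2 := by
    have e1 : ({z, z⁻¹} : Set G) ⊆ cZ := by
      rintro v (rfl | rfl)
      exacts [mem_conjSet_self _, hzz]
    have e2 : Nat.card {v : G // IsConj z v ∧ v ∉ zpowers z} = (cZ \ {z, z⁻¹}).ncard := by
      rw [← Nat.card_coe_set_eq]
      refine Nat.card_congr (Equiv.subtypeEquivRight fun v => and_congr_right fun hv => ?_)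
      refine ⟨fun hn' hm => hn' ?_, fun hn' hm => hn' ?_⟩
      · rcases hm with rfl | rfl
        exacts [mem_zpowers _, inv_mem (mem_zpowers _)]
      · simpa using eq_or_eq_inv_of_mem_zpowers hz ((orderOf_eq_of_isConj hv).trans hz) hm
    have e3 := Set.ncard_sdiff_add_ncard_of_subset e1
    rw [Set.ncard_pair hzne'] at e3
    omega
  have key : ∀ a ∈ (35840 : ℕ).divisors, ∀ b ∈ (35840 : ℕ).divisors,
      9067520 / a + 27202560 / b = 651728 → 9067520 / a % 9 ≠ 2 := by decide +kernel
  refine key e (Nat.mem_divisors.2 ⟨he3, by norm_num⟩) e'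
    (Nat.mem_divisors.2 ⟨he'd, by norm_num⟩) ?_ ?_
  all_goals
    rw [show 9067520 / e = cZ.ncard from Nat.div_eq_of_eq_mul_left he0 (by linarith)]
  · have he0' : 0 < e' := Nat.pos_of_ne_zero fun e0 => by
      rw [e0, mul_zero] at hcardO; norm_num at hcardO
    rw [show 27202560 / e' = (conjSet o).ncard from Nat.div_eq_of_eq_mul_left he0' hcardO.symm]
    omega
  · exact hZmod

/-- An element of order three commuting with one of order seven has a centraliser of order 504. -/
theorem cent_three_seven {f x : G} (hx : orderOf x = 3) (hf : orderOf f = 7)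
    (hfx : Commute f x) : Nat.card (centralizer ({x} : Set G)) = 504 := by
  obtain ⟨n, hn, -, hC⟩ := h.norm_three_seven_cases hf hx hfx
  rcases hn with rfl | rfl | rfl | rfl
  · exact hC
  · exact (h.not_sixty_four hf hx hfx (Or.inl rfl) hC).elim
  · exact (h.not_sixty_four hf hx hfx (Or.inr rfl) hC).elim
  · exact absurd hC (h.not_nine_sixty hf hx hfx)

end CountHyp

end CfsgLib.M24Count
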