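import Cfsg.Agent.M24Count.ThreeUnits
import Mathlib.GroupTheory.PGroup
import Mathlib.GroupTheory.SpecificGroups.Cyclic

/-!
A finite group with non-commutative Sylow 3-subgroups `S` of order 27, without elements of order
nine, with a central `z` of order three. If an element inverts an `x` in `S` outside `⟨z⟩`, then
some element normalising `S` inverts `S/⟨z⟩`, so at most four classes of elements of order three
lie outside `⟨z⟩`.
-/

set_option autoImplicit false
set_option linter.style.haveILetI false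

namespace CfsgLib.M24Count

open Subgroup

open CfsgLib.M12Count (mem_centralizer_of_commute commute_of_mem_centralizer)
open CfsgLib.M23Count (orderOf_conjugate)

universe u

section small

variable {R : Type u} [Group R] [Finite R]

theorem card_center_of_card_27 (hR : Nat.card R = 27) (hn : ¬ ∀ a b : R, a * b = b * a) :
    Nat.card (center R) = 3 := by
  haveI : Fact (Nat.Prime 3) := ⟨Nat.prime_three⟩
  obtain ⟨k, hk0, hk⟩ := IsPGroup.card_center_eq_prime_pow (p := 3) (G := R) (n := 3)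
    (by rw [hR]; norm_num) (by norm_num)
  have hidx := (center R).card_mul_index
  rw [hk, hR] at hidx
  have hk3 : k ≤ 3 := by
    by_contra hlt
    have h1 : 3 ^ 4 ≤ 3 ^ k := Nat.pow_le_pow_right (by norm_num) (by omega)
    have h2 : 3 ^ k ∣ 27 := Dvd.intro _ hidx
    have := Nat.le_of_dvd (by norm_num) h2
    omega
  interval_cases k
  · exact hk
  · exfalso
    haveI : IsCyclic (R ⧸ center R) := isCyclic_of_prime_card (p := 3)
      (show (center R).index = 3 by omega)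
    exact hn (commutative_of_cyclic_center_quotient (QuotientGroup.mk' (center R))
      (by rw [QuotientGroup.ker_mk']))
  · exfalso
    refine hn fun a b => ?_
    have htop : center R = ⊤ := eq_top_of_card_eq _ (by rw [hk, hR]; norm_num)
    exact (mem_center_iff.1 (htop.symm ▸ mem_top b : b ∈ center R) a)

theorem conj_mem_center_of_card_27 (hR : Nat.card R = 27) (hn : ¬ ∀ a b : R, a * b = b * a)
    (a b : R) : a * b * a⁻¹ * b⁻¹ ∈ center R := by
  haveI : Fact (Nat.Prime 3) := ⟨Nat.prime_three⟩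
  have h9 : Nat.card (R ⧸ center R) = 3 ^ 2 := by
    have := (center R).card_mul_index
    rw [card_center_of_card_27 hR hn, hR] at this
    show (center R).index = 3 ^ 2
    omega
  have hc := (IsPGroup.isMulCommutative_of_card_eq_prime_sq h9).is_comm.comm
    (a : R ⧸ center R) (b : R ⧸ center R)
  rw [← QuotientGroup.eq_one_iff]
  rw [QuotientGroup.mk_mul, QuotientGroup.mk_mul, QuotientGroup.mk_mul, QuotientGroup.mk_inv,
    QuotientGroup.mk_inv, hc]
  group

end small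

variable {K : Type u} [Group K] [Finite K]

/-- The elements `x ^ a * z ^ b` fill a commutative group of order nine. -/
theorem exists_pow_mul_pow {P : Subgroup K} (hP : Nat.card P = 9) {x z : K} (hxP : x ∈ P)
    (hzP : z ∈ P) (hx : orderOf x = 3) (hz : orderOf z = 3) (hzx : x ∉ zpowers z) {d : K}
    (hd : d ∈ P) : ∃ a b : Fin 3, d = x ^ (a : ℕ) * z ^ (b : ℕ) := by
  classical
  haveI := Fintype.ofFinite P
  let F : Fin 3 × Fin 3 → P := fun p =>
    ⟨x ^ (p.1 : ℕ) * z ^ (p.2 : ℕ), mul_mem (pow_mem hxP _) (pow_mem hzP _)⟩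
  have hinj : Function.Injective F := by
    rintro ⟨a, b⟩ ⟨a', b'⟩ e
    have e1 : x ^ (a : ℕ) * z ^ (b : ℕ) = x ^ (a' : ℕ) * z ^ (b' : ℕ) := congrArg Subtype.val e
    have e2 : x ^ ((a : ℤ) - a') ∈ zpowers z := by
      have h1 : x ^ (a : ℕ) = x ^ (a' : ℕ) * (z ^ (b' : ℕ) * (z ^ (b : ℕ))⁻¹) := by
        rw [← mul_assoc, ← e1, mul_inv_cancel_right]
      have h2 : (x ^ (a' : ℕ))⁻¹ * x ^ (a : ℕ) ∈ zpowers z := by
        rw [h1, inv_mul_cancel_left]
        exact mul_mem (pow_mem (mem_zpowers z) _) (inv_mem (pow_mem (mem_zpowers z) _))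
      rwa [zpow_sub, zpow_natCast, zpow_natCast, ((Commute.refl x).pow_pow _ _).inv_right.eq]
    have hab : (a : ℕ) = a' := by
      by_contra hne
      refine hzx ?_
      have hu : ((a : ℤ) - a') * ((a : ℤ) - a') % 3 = 1 := by
        have := a.2; have := a'.2
        rcases a with ⟨a, ha⟩; rcases a' with ⟨a', ha'⟩
        interval_cases a <;> interval_cases a' <;> simp_all
      have h3 : (x ^ ((a : ℤ) - a')) ^ ((a : ℤ) - a') = x := by
        rw [← zpow_mul, ← zpow_mod_orderOf, hx]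
        rw [show ((3 : ℕ) : ℤ) = 3 by norm_num, hu, zpow_one]
      exact h3 ▸ zpow_mem e2 _
    obtain rfl : a = a' := Fin.ext hab
    have e3 := mul_left_cancel e1
    obtain rfl : b = b' := Fin.ext (pow_injOn_Iio_orderOf (Set.mem_Iio.2 (hz.symm ▸ b.2))
      (Set.mem_Iio.2 (hz.symm ▸ b'.2)) e3)
    rfl
  obtain ⟨⟨a, b⟩, e⟩ := ((Fintype.bijective_iff_injective_and_card F).2 ⟨hinj, by
    rw [Fintype.card_prod, Fintype.card_fin, ← Nat.card_eq_fintype_card, hP]⟩).2 ⟨d, hd⟩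
  exact ⟨a, b, (congrArg Subtype.val e).symm⟩

variable [Fact (Nat.Prime 3)]

theorem card_sylow_27 {e : ℕ} (hK : Nat.card K = 27 * e) (he : ¬ 3 ∣ e) (S : Sylow 3 K) :
    Nat.card (S : Subgroup K) = 27 := by
  simpa using CfsgLib.SylowToolkit.card_sylow_subgroup_eq (k := 3) (m := e)
    (by rw [hK]; norm_num) he S

omit [Finite K] in
theorem exists_sylow_mem_three {v : K} (hv : orderOf v = 3) :
    ∃ S : Sylow 3 K, v ∈ (S : Subgroup K) := by
  obtain ⟨S, hS⟩ := (IsPGroup.of_card (n := 1) (show Nat.card (zpowers v) = 3 ^ 1 by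
    rw [Nat.card_zpowers, hv, pow_one])).exists_le_sylow
  exact ⟨S, hS (mem_zpowers v)⟩

/-- An element of order three normalising a Sylow subgroup lies in it. -/
theorem mem_sylow_of_normalizes (S : Sylow 3 K) {g : K} (hg : orderOf g = 3)
    (hn : g ∈ normalizer ((S : Subgroup K) : Set K)) : g ∈ (S : Subgroup K) := by
  have hp : IsPGroup 3 (zpowers g) := IsPGroup.of_card (n := 1) (show Nat.card (zpowers g) = 3 ^ 1 by
    rw [Nat.card_zpowers, hg, pow_one])
  have h1 : g ∈ zpowers g ⊓ normalizer ((S : Subgroup K) : Set K) := ⟨mem_zpowers g, hn⟩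
  have h2 : zpowers g ⊓ normalizer ((S : Subgroup K) : Set K) = zpowers g ⊓ (S : Subgroup K) :=
    hp.inf_normalizer_sylow S
  exact (h2 ▸ h1 : g ∈ zpowers g ⊓ (S : Subgroup K)).2

theorem mem_sylow_of_commute (S : Sylow 3 K) {g : K} (hg : orderOf g = 3)
    (hc : ∀ s ∈ (S : Subgroup K), Commute s g) : g ∈ (S : Subgroup K) :=
  mem_sylow_of_normalizes S hg (centralizer_le_normalizer _
    (mem_centralizer_iff.2 fun s hs => (hc s hs).eq))

/-- A subgroup of order 27 is a Sylow subgroup. -/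
theorem exists_sylow_of_card_27 {e : ℕ} (hK : Nat.card K = 27 * e) (he : ¬ 3 ∣ e)
    {L : Subgroup K} (hL : Nat.card L = 27) : ∃ S : Sylow 3 K, (S : Subgroup K) = L := by
  obtain ⟨S, hS⟩ := (IsPGroup.of_card (n := 3) (show Nat.card L = 3 ^ 3 by rw [hL]; norm_num)
    ).exists_le_sylow
  exact ⟨S, (eq_of_le_of_card_ge hS (by rw [hL, card_sylow_27 hK he S])).symm⟩

/-- An element centralised by 27 elements is central in one of the Sylow subgroups. -/
theorem exists_sylow_commute {e : ℕ} (hK : Nat.card K = 27 * e) (he : ¬ 3 ∣ e) {v : K}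
    (hv : orderOf v = 3) (h27 : 27 ∣ Nat.card (centralizer ({v} : Set K))) :
    ∃ S : Sylow 3 K, v ∈ (S : Subgroup K) ∧ ∀ s ∈ (S : Subgroup K), Commute s v := by
  obtain ⟨L0, hL0⟩ := Sylow.exists_subgroup_card_pow_prime 3 (n := 3)
    (show 3 ^ 3 ∣ Nat.card (centralizer ({v} : Set K)) from h27)
  obtain ⟨S, hS⟩ := exists_sylow_of_card_27 hK he
    (L := L0.map (centralizer ({v} : Set K)).subtype) (by
      rw [← Nat.card_congr (L0.equivMapOfInjective _ (Subgroup.subtype_injective _)).toEquiv, hL0]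
      norm_num)
  have hc : ∀ s ∈ (S : Subgroup K), Commute s v := fun s hs =>
    (commute_of_mem_centralizer (map_subtype_le _ (hS ▸ hs))).symm
  exact ⟨S, mem_sylow_of_commute S hv hc, hc⟩

/-- If one Sylow subgroup is commutative, all are. -/
theorem sylow_commute_transfer (S S' : Sylow 3 K)
    (h : ∀ a ∈ (S : Subgroup K), ∀ b ∈ (S : Subgroup K), Commute a b) :
    ∀ a ∈ (S' : Subgroup K), ∀ b ∈ (S' : Subgroup K), Commute a b := by
  obtain ⟨g, rfl⟩ := MulAction.exists_smul_eq K S S'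
  intro a ha b hb
  rw [Sylow.coe_subgroup_smul, Subgroup.mem_pointwise_smul_iff_inv_smul_mem] at ha hb
  have := (Commute.conj_iff g).2 (h _ ha _ hb)
  simpa [MulAut.smul_def, mul_assoc] using this

theorem orderOf_eq_three (h9 : ∀ g : K, ¬ 9 ∣ orderOf g) (S : Sylow 3 K) {v : K}
    (hv : v ∈ (S : Subgroup K)) (hv1 : v ≠ 1) : orderOf v = 3 := by
  obtain ⟨n, hn⟩ := IsPGroup.iff_orderOf.1 S.isPGroup' ⟨v, hv⟩
  rw [Subgroup.orderOf_mk] at hn
  have hn1 : n ≤ 1 := by
    by_contra hlt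
    exact h9 v (hn ▸ (show (9 : ℕ) = 3 ^ 2 by norm_num) ▸ pow_dvd_pow 3 (by omega))
  interval_cases n
  · exact absurd (orderOf_eq_one_iff.1 (by simpa using hn)) hv1
  · simpa using hn

/-- Two elements central in a non-commutative Sylow subgroup generate the same group. -/
theorem mem_zpowers_of_central {S : Sylow 3 K} (hS : Nat.card (S : Subgroup K) = 27)
    (hns : ¬ ∀ a ∈ (S : Subgroup K), ∀ b ∈ (S : Subgroup K), Commute a b) {z v : K}
    (hz : orderOf z = 3) (hzS : z ∈ (S : Subgroup K)) (hzc : ∀ s ∈ (S : Subgroup K), Commute s z)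
    (hvS : v ∈ (S : Subgroup K)) (hvc : ∀ s ∈ (S : Subgroup K), Commute s v) : v ∈ zpowers z := by
  have hn : ¬ ∀ a b : ↥(S : Subgroup K), a * b = b * a := fun hc => hns fun a ha b hb =>
    congrArg Subtype.val (hc ⟨a, ha⟩ ⟨b, hb⟩)
  have hmem : ∀ w, (hw : w ∈ (S : Subgroup K)) → (∀ s ∈ (S : Subgroup K), Commute s w) →
      (⟨w, hw⟩ : ↥(S : Subgroup K)) ∈ center ↥(S : Subgroup K) := fun w hw hc =>
    mem_center_iff.2 fun s => Subtype.ext (hc s s.2).eq
  have e : zpowers (⟨z, hzS⟩ : ↥(S : Subgroup K)) = center ↥(S : Subgroup K) :=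
    eq_of_le_of_card_ge (zpowers_le.2 (hmem z hzS hzc)) (by
      rw [card_center_of_card_27 hS hn, Nat.card_zpowers, Subgroup.orderOf_mk, hz])
  have := hmem v hvS hvc
  rw [← e] at this
  obtain ⟨l, hl⟩ := mem_zpowers_iff.1 this
  exact mem_zpowers_iff.2 ⟨l, by simpa using congrArg Subtype.val hl⟩

/-- A non-commutative Sylow subgroup has a central element of order three. -/
theorem exists_central {S : Sylow 3 K} (hS : Nat.card (S : Subgroup K) = 27)
    (hns : ¬ ∀ a ∈ (S : Subgroup K), ∀ b ∈ (S : Subgroup K), Commute a b) :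
    ∃ z, orderOf z = 3 ∧ z ∈ (S : Subgroup K) ∧ ∀ s ∈ (S : Subgroup K), Commute s z := by
  have hn : ¬ ∀ a b : ↥(S : Subgroup K), a * b = b * a := fun hc => hns fun a ha b hb =>
    congrArg Subtype.val (hc ⟨a, ha⟩ ⟨b, hb⟩)
  obtain ⟨c, hc⟩ := exists_prime_orderOf_dvd_card' (G := center ↥(S : Subgroup K)) 3
    (dvd_of_eq (card_center_of_card_27 hS hn).symm)
  refine ⟨((c : ↥(S : Subgroup K)) : K), by rw [Subgroup.orderOf_coe, Subgroup.orderOf_coe, hc],
    c.1.2, fun s hs => ?_⟩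
  exact congrArg Subtype.val (mem_center_iff.1 c.2 ⟨s, hs⟩)

/-- Conjugation inside a non-commutative Sylow subgroup moves by powers of the central element. -/
theorem conj_eq_mul_pow {S : Sylow 3 K} (hS : Nat.card (S : Subgroup K) = 27)
    (hns : ¬ ∀ a ∈ (S : Subgroup K), ∀ b ∈ (S : Subgroup K), Commute a b) {z : K}
    (hz : orderOf z = 3) (hzS : z ∈ (S : Subgroup K)) (hzc : ∀ s ∈ (S : Subgroup K), Commute s z)
    {a b : K} (ha : a ∈ (S : Subgroup K)) (hb : b ∈ (S : Subgroup K)) :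
    ∃ i : Fin 3, a * b * a⁻¹ = b * z ^ (i : ℕ) := by
  have hn : ¬ ∀ a b : ↥(S : Subgroup K), a * b = b * a := fun hc => hns fun a ha b hb =>
    congrArg Subtype.val (hc ⟨a, ha⟩ ⟨b, hb⟩)
  have hm := conj_mem_center_of_card_27 hS hn ⟨a, ha⟩ ⟨b, hb⟩
  have hzp : a * b * a⁻¹ * b⁻¹ ∈ zpowers z :=
    mem_zpowers_of_central hS hns hz hzS hzc
      (mul_mem (mul_mem (mul_mem ha hb) (inv_mem ha)) (inv_mem hb))
      fun s hs => congrArg Subtype.val (mem_center_iff.1 hm ⟨s, hs⟩)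
  classical
  obtain ⟨l, hl, hlw⟩ := Finset.mem_image.1
    ((IsOfFinOrder.mem_zpowers_iff_mem_range_orderOf (isOfFinOrder_of_finite _)).1 hzp)
  rw [hz, Finset.mem_range] at hl
  refine ⟨⟨l, hl⟩, ?_⟩
  show a * b * a⁻¹ = b * z ^ l
  rw [← ((hzc b hb).pow_right l).symm.eq, hlw, inv_mul_cancel_right]

/-- The centraliser of a non-central element in its Sylow subgroup has order nine. -/
theorem card_inf_centralizer_eq_nine {S : Sylow 3 K} (hS : Nat.card (S : Subgroup K) = 27) {z v : K}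
    (hz : orderOf z = 3) (hzS : z ∈ (S : Subgroup K)) (hzc : ∀ s ∈ (S : Subgroup K), Commute s z)
    (hv : orderOf v = 3) (hvS : v ∈ (S : Subgroup K)) (hvz : v ∉ zpowers z) {s : K}
    (hs : s ∈ (S : Subgroup K)) (hsv : ¬ Commute s v) :
    Nat.card ↥((S : Subgroup K) ⊓ centralizer ({v} : Set K)) = 9 := by
  set P := (S : Subgroup K) ⊓ centralizer ({v} : Set K) with hP
  have hd : Nat.card P ∣ 27 := hS ▸ card_dvd_of_le inf_le_left
  have hne : Nat.card P ≠ 27 := fun e => by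
    have : P = (S : Subgroup K) := eq_of_le_of_card_ge inf_le_left (by rw [e, hS])
    exact hsv (commute_of_mem_centralizer (this.symm ▸ hs : s ∈ P).2).symm
  have hgt : 3 < Nat.card P := by
    by_contra hle
    have hvP : v ∈ P := ⟨hvS, mem_centralizer_of_commute (Commute.refl v)⟩
    have hzP : z ∈ P := ⟨hzS, mem_centralizer_of_commute (hzc v hvS)⟩
    have e : zpowers z = P := eq_of_le_of_card_ge (zpowers_le.2 hzP) (by
      rw [Nat.card_zpowers, hz]; omega)
    exact hvz (e ▸ hvP)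
  have key : ∀ d ∈ (27 : ℕ).divisors, d ≠ 27 → 3 < d → d = 9 := by decide
  exact key _ (Nat.mem_divisors.2 ⟨hd, by norm_num⟩) hne hgt

/-- Outside a non-commutative Sylow subgroup at most three of its elements commute with a given
element of order three. -/
theorem card_inf_le_three {e : ℕ} (hK : Nat.card K = 27 * e) (he : ¬ 3 ∣ e) (S : Sylow 3 K)
    (hns : ∀ S' : Sylow 3 K, ¬ ∀ a ∈ (S' : Subgroup K), ∀ b ∈ (S' : Subgroup K), Commute a b)
    {g : K} (hg : orderOf g = 3) (hgS : g ∉ (S : Subgroup K)) :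
    Nat.card ↥((S : Subgroup K) ⊓ centralizer ({g} : Set K)) ≤ 3 := by
  have hS := card_sylow_27 hK he S
  set P := (S : Subgroup K) ⊓ centralizer ({g} : Set K) with hP
  by_contra hlt
  have hd : Nat.card P ∣ 27 := hS ▸ card_dvd_of_le inf_le_left
  have hne : Nat.card P ≠ 27 := fun e => by
    have : P = (S : Subgroup K) := eq_of_le_of_card_ge inf_le_left (by rw [e, hS])
    exact hgS (mem_sylow_of_commute S hg fun s hs =>
      (commute_of_mem_centralizer (this.symm ▸ hs : s ∈ P).2).symm)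
  have key : ∀ d ∈ (27 : ℕ).divisors, d ≠ 27 → 3 < d → d = 9 := by decide
  have h9 : Nat.card P = 3 ^ 2 := key _ (Nat.mem_divisors.2 ⟨hd, by norm_num⟩) hne (by omega)
  have hPc : P ≤ centralizer (P : Set K) := fun a ha => mem_centralizer_iff.2 fun b hb =>
    congrArg Subtype.val ((IsPGroup.isMulCommutative_of_card_eq_prime_sq h9).is_comm.comm
      ⟨b, hb⟩ ⟨a, ha⟩)
  have hgc : zpowers g ≤ centralizer (P : Set K) := zpowers_le.2 (mem_centralizer_iff.2 fun b hb =>
    (commute_of_mem_centralizer hb.2).symm.eq)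
  have hgg : zpowers g ≤ centralizer (zpowers g : Set K) := fun a ha =>
    mem_centralizer_iff.2 fun b hb => by
      obtain ⟨i, rfl⟩ := mem_zpowers_iff.1 ha
      obtain ⟨j, rfl⟩ := mem_zpowers_iff.1 hb
      exact ((Commute.refl g).zpow_zpow j i).eq
  set L := P ⊔ zpowers g with hL
  have hLP : P ≤ centralizer (L : Set K) := le_centralizer_iff.1 (sup_le hPc hgc)
  have hLg : zpowers g ≤ centralizer (L : Set K) :=
    le_centralizer_iff.1 (sup_le (le_centralizer_iff.1 hgc) hgg)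
  have hLL : L ≤ centralizer (L : Set K) := sup_le hLP hLg
  have hp : IsPGroup 3 ↥L := (IsPGroup.of_card h9).to_sup_of_normal_left'
    (IsPGroup.of_card (n := 1) (by rw [Nat.card_zpowers, hg, pow_one]))
    (hgc.trans (centralizer_le_normalizer _))
  obtain ⟨S', hS'⟩ := hp.exists_le_sylow
  have hlt' : P < L := lt_of_le_of_ne le_sup_left fun e =>
    hgS ((e.symm ▸ mem_sup_right (mem_zpowers g) : g ∈ P)).1
  obtain ⟨j, hj⟩ := IsPGroup.iff_card.1 hp
  have hj3 : 3 ≤ j := by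
    by_contra hc
    have h3 : 3 ^ j ≤ 3 ^ 2 := Nat.pow_le_pow_right (by norm_num) (by omega)
    exact hlt'.ne (eq_of_le_of_card_ge le_sup_left (by rw [hj, h9]; exact h3))
  have e : L = (S' : Subgroup K) := eq_of_le_of_card_ge hS' (by
    rw [card_sylow_27 hK he S', hj]
    exact (Nat.pow_le_pow_right (show 0 < 3 by norm_num) hj3))
  exact hns S' fun a ha b hb => ((mem_centralizer_iff.1 (hLL (e ▸ ha))) b (e ▸ hb)).symm

/-- In a non-commutative Sylow subgroup a non-central element is conjugate to all it differs from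
by a power of the central one. -/
theorem isConj_mul_pow {S : Sylow 3 K} (hS : Nat.card (S : Subgroup K) = 27)
    (hns : ¬ ∀ a ∈ (S : Subgroup K), ∀ b ∈ (S : Subgroup K), Commute a b) {z v : K}
    (hz : orderOf z = 3) (hzS : z ∈ (S : Subgroup K)) (hzc : ∀ s ∈ (S : Subgroup K), Commute s z)
    (hvS : v ∈ (S : Subgroup K)) (hvz : v ∉ zpowers z) (j : ℕ) : IsConj v (v * z ^ j) := by
  obtain ⟨s, hs, hsv⟩ : ∃ s ∈ (S : Subgroup K), ¬ Commute s v := by
    by_contra hc
    push Not at hc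
    exact hvz (mem_zpowers_of_central hS hns hz hzS hzc hvS hc)
  obtain ⟨i, hi⟩ := conj_eq_mul_pow hS hns hz hzS hzc hs hvS
  have hi0 : (i : ℕ) ≠ 0 := fun e => hsv (by
    rw [e, pow_zero, mul_one] at hi
    exact mul_inv_eq_iff_eq_mul.1 hi)
  have hn : ∀ n : ℕ, s ^ n * v * (s ^ n)⁻¹ = v * z ^ (n * (i : ℕ)) := by
    intro n
    induction n with
    | zero => simp
    | succ n ih =>
      have hzs : s * z ^ (n * (i : ℕ)) * s⁻¹ = z ^ (n * (i : ℕ)) := by
        rw [((hzc s hs).pow_right _).eq, mul_inv_cancel_right]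
      calc s ^ (n + 1) * v * (s ^ (n + 1))⁻¹ = s * (s ^ n * v * (s ^ n)⁻¹) * s⁻¹ := by
            rw [pow_succ']; group
        _ = (s * v * s⁻¹) * (s * z ^ (n * (i : ℕ)) * s⁻¹) := by rw [ih]; group
        _ = v * z ^ ((n + 1) * (i : ℕ)) := by
            rw [hi, hzs, mul_assoc, ← pow_add]; ring_nf
  refine isConj_iff.2 ⟨s ^ (j * i), ?_⟩
  rw [hn]
  congr 1
  rw [← pow_mod_orderOf, ← pow_mod_orderOf (n := j), hz]
  congr 1
  have := i.2
  rcases (show (i : ℕ) = 1 ∨ (i : ℕ) = 2 by omega) with e | e <;> rw [e] <;> omega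

/-- At most four classes of elements of order three outside a central `⟨z⟩`, if `x` is inverted. -/
theorem ncard_classes_le_four {e : ℕ} (hK : Nat.card K = 27 * e) (he : ¬ 3 ∣ e)
    (h9 : ∀ g : K, ¬ 9 ∣ orderOf g)
    (hns : ∀ S' : Sylow 3 K, ¬ ∀ a ∈ (S' : Subgroup K), ∀ b ∈ (S' : Subgroup K), Commute a b)
    {z x t : K} (hz : orderOf z = 3) (hzc : ∀ g, Commute g z) (hx : orderOf x = 3)
    (hxz : x ∉ zpowers z) (ht : t * x * t⁻¹ = x⁻¹) :
    (ConjClasses.mk '' {v : K | orderOf v = 3 ∧ v ∉ zpowers z}).ncard ≤ 4 := by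
  classical
  obtain ⟨S, hxS⟩ := exists_sylow_mem_three hx
  have hS := card_sylow_27 hK he S
  have hzall : ∀ S' : Sylow 3 K, z ∈ (S' : Subgroup K) := fun S' =>
    mem_sylow_of_commute S' hz fun s _ => hzc s
  have hzS := hzall S
  set Z := zpowers z with hZ
  haveI : Z.Normal := ⟨fun n hn g => by
    obtain ⟨l, rfl⟩ := mem_zpowers_iff.1 hn
    rw [((hzc g).zpow_right l).eq, mul_inv_cancel_right]
    exact zpow_mem (mem_zpowers z) l⟩
  let π := QuotientGroup.mk' Z
  have hπz : ∀ l : ℕ, π (z ^ l) = 1 := fun l =>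
    (QuotientGroup.eq_one_iff _).2 (pow_mem (mem_zpowers z) l)
  have hcomm : ∀ a ∈ (S : Subgroup K), ∀ b ∈ (S : Subgroup K), Commute (π a) (π b) := by
    intro a ha b hb
    obtain ⟨i, hi⟩ := conj_eq_mul_pow hS (hns S) hz hzS (fun s _ => hzc s) ha hb
    have := congrArg π hi
    rw [map_mul π b, hπz, mul_one, map_mul, map_mul, map_inv] at this
    exact mul_inv_eq_iff_eq_mul.1 this
  -- the elements centralising `x` modulo `Z`
  let M := (centralizer ({π x} : Set (K ⧸ Z))).comap π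
  have hmem : ∀ g, g ∈ M ↔ Commute (π x) (π g) := fun g =>
    ⟨fun hg => commute_of_mem_centralizer hg, fun hg => mem_centralizer_of_commute hg⟩
  have hSM : (S : Subgroup K) ≤ M := fun s hs => (hmem s).2 (hcomm x hxS s hs)
  have hπt : π t * π x * (π t)⁻¹ = (π x)⁻¹ := by
    rw [← map_mul, ← map_inv, ← map_mul, ht, map_inv]
  have htM : ((t • S : Sylow 3 K) : Subgroup K) ≤ M := by
    intro y hy
    rw [Sylow.coe_subgroup_smul, Subgroup.mem_pointwise_smul_iff_inv_smul_mem] at hy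
    refine (hmem y).2 ?_
    have h1 := (Commute.conj_iff (π t)).2 (hcomm x hxS _ hy)
    rw [hπt] at h1
    simpa [MulAut.smul_def, mul_assoc] using h1.inv_left
  obtain ⟨c, hc⟩ := MulAction.exists_smul_eq M (S.subtype hSM) ((t • S).subtype htM)
  rw [Sylow.smul_subtype] at hc
  have hc' : (c : K) • S = t • S := Sylow.subtype_injective hc
  set h := (c : K)⁻¹ * t with hh
  have hhS : h • S = S := by rw [hh, mul_smul, ← hc', inv_smul_smul]
  have hconjS : ∀ s ∈ (S : Subgroup K), h * s * h⁻¹ ∈ (S : Subgroup K) := fun s hs =>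
    (mem_normalizer_iff.1 (Sylow.smul_eq_iff_mem_normalizer.1 hhS) s).1 hs
  have hπx : π h * π x * (π h)⁻¹ = (π x)⁻¹ := by
    rw [hh, map_mul, map_inv]
    calc (π c)⁻¹ * π t * π x * ((π c)⁻¹ * π t)⁻¹ = (π c)⁻¹ * (π t * π x * (π t)⁻¹) * π c := by
          group
      _ = (π x)⁻¹ := by
          rw [hπt, mul_assoc, ((hmem c).1 c.2).inv_left.eq, inv_mul_cancel_left]
  obtain ⟨i, hhx⟩ : ∃ i : ℕ, h * x * h⁻¹ = x⁻¹ * z ^ i := by
    have hm : (x⁻¹)⁻¹ * (h * x * h⁻¹) ∈ Z := QuotientGroup.eq.1 (show π x⁻¹ = π (h * x * h⁻¹) by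
      rw [map_inv, map_mul, map_mul, map_inv]; exact hπx.symm)
    obtain ⟨l, -, hl⟩ := Finset.mem_image.1
      ((IsOfFinOrder.mem_zpowers_iff_mem_range_orderOf (isOfFinOrder_of_finite _)).1 hm)
    exact ⟨l, by rw [hl]; group⟩
  obtain ⟨s, hs, hsx⟩ : ∃ s ∈ (S : Subgroup K), ¬ Commute s x := by
    by_contra hc
    push Not at hc
    exact hxz (mem_zpowers_of_central hS (hns S) hz hzS (fun s _ => hzc s) hxS hc)
  obtain ⟨k, hk⟩ := conj_eq_mul_pow hS (hns S) hz hzS (fun s _ => hzc s) hs hxS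
  set P := (S : Subgroup K) ⊓ centralizer ({x} : Set K) with hP
  have hPc : Nat.card P = 9 :=
    card_inf_centralizer_eq_nine hS hz hzS (fun s _ => hzc s) hx hxS hxz hs hsx
  have hxP : x ∈ P := ⟨hxS, mem_centralizer_of_commute (Commute.refl x)⟩
  have hzP : z ∈ P := ⟨hzS, mem_centralizer_of_commute (hzc x)⟩
  -- the image of `s`
  set w := h * s * h⁻¹ with hw
  have hsw : s * w ∈ P := by
    refine ⟨mul_mem hs (hconjS s hs), mem_centralizer_of_commute (Commute.symm ?_)⟩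
    have hzi : ∀ l : ℕ, ∀ g : K, g * z ^ l * g⁻¹ = z ^ l := fun l g => by
      rw [((hzc g).pow_right l).eq, mul_inv_cancel_right]
    have e1 : w * (x⁻¹ * z ^ i) * w⁻¹ = x⁻¹ * z ^ i * z ^ (k : ℕ) := by
      calc w * (x⁻¹ * z ^ i) * w⁻¹ = h * (s * x * s⁻¹) * h⁻¹ := by rw [← hhx, hw]; group
        _ = h * x * h⁻¹ * (h * z ^ (k : ℕ) * h⁻¹) := by rw [hk]; group
        _ = _ := by rw [hhx, hzi]
    have e2 : w * x⁻¹ * w⁻¹ = x⁻¹ * z ^ (k : ℕ) := by
      apply mul_right_cancel (b := z ^ i)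
      calc w * x⁻¹ * w⁻¹ * z ^ i = w * x⁻¹ * w⁻¹ * (w * z ^ i * w⁻¹) := by rw [hzi]
        _ = w * (x⁻¹ * z ^ i) * w⁻¹ := by group
        _ = x⁻¹ * z ^ (k : ℕ) * z ^ i := by
            rw [e1, mul_assoc, ← pow_add, add_comm, pow_add, ← mul_assoc]
    have e3 : w * x * w⁻¹ = (z ^ (k : ℕ))⁻¹ * x := by
      rw [show w * x * w⁻¹ = (w * x⁻¹ * w⁻¹)⁻¹ by group, e2, mul_inv_rev, inv_inv]
    refine mul_inv_eq_iff_eq_mul.1 ?_
    calc s * w * x * (s * w)⁻¹ = s * (w * x * w⁻¹) * s⁻¹ := by group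
      _ = (s * (z ^ (k : ℕ))⁻¹ * s⁻¹) * (s * x * s⁻¹) := by rw [e3]; group
      _ = x := by
          have : s * (z ^ (k : ℕ))⁻¹ * s⁻¹ = (z ^ (k : ℕ))⁻¹ := by
            rw [((hzc s).pow_right _).inv_right.eq, mul_inv_cancel_right]
          rw [this, hk, ((hzc x).pow_right _).eq, inv_mul_cancel_left]
  obtain ⟨a, b, hab⟩ := exists_pow_mul_pow hPc hxP hzP hx hz hxz hsw
  set A' := π x with hA'
  set B' := π s with hB'
  set H' := π h with hH'
  have hAB : Commute A' B' := hcomm x hxS s hs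
  have hπw : H' * B' * H'⁻¹ = B'⁻¹ * A' ^ (a : ℕ) := by
    have := congrArg π hab
    rw [map_mul π (x ^ (a : ℕ)), hπz, mul_one, map_pow, map_mul] at this
    rw [eq_inv_mul_iff_mul_eq, ← this, hw, map_mul, map_mul, map_inv]
  have hx3 : A' ^ 3 = 1 := by rw [hA', ← map_pow, ← hx, pow_orderOf_eq_one, map_one]
  set φ := MulAut.conj H' with hφ
  have φA : φ A' = A'⁻¹ := hπx
  have φB : φ B' = B'⁻¹ * A' ^ (a : ℕ) := hπw
  have φφB : φ (φ B') = B' * A' ^ (a : ℕ) := by
    rw [φB, map_mul, map_inv, φB, map_pow, φA, mul_inv_rev, inv_inv, inv_pow]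
    have h1 : (A' ^ (a : ℕ))⁻¹ * B' * (A' ^ (a : ℕ))⁻¹ =
        B' * ((A' ^ (a : ℕ))⁻¹ * (A' ^ (a : ℕ))⁻¹) := by
      rw [← mul_assoc, ((hAB.pow_left _).inv_left).eq]
    rw [h1]
    congr 1
    rw [← mul_inv_rev, inv_eq_iff_mul_eq_one, ← pow_add, ← pow_add,
      show (a : ℕ) + a + a = 3 * a by ring, pow_mul, hx3, one_pow]
  have φφφB : φ (φ (φ B')) = B'⁻¹ := by
    rw [φφB, map_mul, φB, map_pow, φA, inv_pow, mul_inv_cancel_right]
  have φφφA : φ (φ (φ A')) = A'⁻¹ := by rw [φA, map_inv, φA, inv_inv, φA]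
  set g := h * h * h with hg
  have hφg : ∀ y : K, π (g * y * g⁻¹) = φ (φ (φ (π y))) := fun y => by
    simp only [hφ, MulAut.conj_apply, hg, hH', map_mul, map_inv]
    group
  -- everything in `S` is inverted modulo `Z`
  let A : Subgroup K :=
    { carrier := {v | v ∈ (S : Subgroup K) ∧ φ (φ (φ (π v))) = (π v)⁻¹}
      one_mem' := ⟨one_mem _, by simp⟩
      mul_mem' := fun {u v} hu hv => ⟨mul_mem hu.1 hv.1, by
        rw [map_mul, map_mul, map_mul, map_mul, hu.2, hv.2, mul_inv_rev]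
        exact (hcomm u hu.1 v hv.1).inv_inv.eq⟩
      inv_mem' := fun {u} hu => ⟨inv_mem hu.1, by rw [map_inv, map_inv, map_inv, map_inv, hu.2]⟩ }
  have hxA : x ∈ A := ⟨hxS, φφφA⟩
  have hzA : z ∈ A := ⟨hzS, by
    rw [show π z = 1 by simpa using hπz 1]; simp⟩
  have hPA : P ≤ A := fun d hd => by
    obtain ⟨a', b', rfl⟩ := exists_pow_mul_pow hPc hxP hzP hx hz hxz hd
    exact mul_mem (pow_mem hxA _) (pow_mem hzA _)
  have hAS : A = (S : Subgroup K) := by
    refine eq_of_le_of_card_ge (fun v hv => hv.1) ?_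
    have hd : Nat.card A ∣ 27 := hS ▸ card_dvd_of_le (fun v hv => hv.1)
    have hgt : 9 < Nat.card A := by
      by_contra hle
      have e : P = A := eq_of_le_of_card_ge hPA (by rw [hPc]; omega)
      have hsA : s ∈ A := ⟨hs, φφφB⟩
      exact hsx (commute_of_mem_centralizer (e ▸ hsA : s ∈ P).2).symm
    have key : ∀ d ∈ (27 : ℕ).divisors, 9 < d → d = 27 := by decide
    rw [hS, key _ (Nat.mem_divisors.2 ⟨hd, by norm_num⟩) hgt]
  have hinv : ∀ v ∈ (S : Subgroup K), v ∉ Z → IsConj v v⁻¹ := by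
    intro v hv hvz
    have hm : v * (g * v * g⁻¹) ∈ Z := (QuotientGroup.eq_one_iff _).1 (by
      show π (v * (g * v * g⁻¹)) = 1
      rw [map_mul, hφg, (hAS.symm ▸ hv : v ∈ A).2, mul_inv_cancel])
    obtain ⟨l, -, hl⟩ := Finset.mem_image.1
      ((IsOfFinOrder.mem_zpowers_iff_mem_range_orderOf (isOfFinOrder_of_finite _)).1 hm)
    refine (IsConj.trans (isConj_iff.2 ⟨g, rfl⟩) ?_)
    rw [show g * v * g⁻¹ = v⁻¹ * z ^ l by rw [hl]; group]
    exact (isConj_mul_pow hS (hns S) hz hzS (fun s _ => hzc s) (inv_mem hv)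
      (fun hi => hvz (inv_mem_iff.1 hi)) l).symm
  -- counting
  set R := {v : K | orderOf v = 3 ∧ v ∉ Z} with hR
  have hrep : ∀ C : ↥(ConjClasses.mk '' R), ∃ v, v ∈ (S : Subgroup K) ∧ orderOf v = 3 ∧ v ∉ Z ∧
      ConjClasses.mk v = C.1 := by
    rintro ⟨_, v, ⟨hv, hvz⟩, rfl⟩
    obtain ⟨S', hS'⟩ := exists_sylow_mem_three hv
    obtain ⟨a, rfl⟩ := MulAction.exists_smul_eq K S S'
    rw [Sylow.coe_subgroup_smul, Subgroup.mem_pointwise_smul_iff_inv_smul_mem] at hS'
    refine ⟨a⁻¹ * v * a, by simpa [MulAut.smul_def, mul_assoc] using hS',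
      by simpa using (orderOf_conjugate a⁻¹ v).trans hv, fun hm => hvz ?_,
      ConjClasses.mk_eq_mk_iff_isConj.2 (isConj_iff.2 ⟨a, by group⟩)⟩
    have := (inferInstance : Z.Normal).conj_mem _ hm a
    simpa [mul_assoc] using this
  choose rep hrepS hrep3 hrepZ hrepC using hrep
  have hpz : ∀ (C : ↥(ConjClasses.mk '' R)) (m : Fin 2),
      rep C ^ ((m : ℕ) + 1) ∉ Z := by
    intro C m hm
    refine hrepZ C ?_
    have e : (rep C ^ ((m : ℕ) + 1)) ^ ((m : ℕ) + 1) = rep C := by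
      rw [← pow_mul, ← pow_mod_orderOf, hrep3]
      have := m.2
      rcases (show (m : ℕ) = 0 ∨ (m : ℕ) = 1 by omega) with e | e <;> simp [e]
    exact e ▸ pow_mem hm _
  let F : ↥(ConjClasses.mk '' R) × Fin 2 × Fin 3 → ↥(((S : Subgroup K) : Set K) \ (Z : Set K)) :=
    fun p => ⟨rep p.1 ^ ((p.2.1 : ℕ) + 1) * z ^ (p.2.2 : ℕ),
      mul_mem (pow_mem (hrepS _) _) (pow_mem hzS _), fun hm => hpz p.1 p.2.1
        ((mul_mem_cancel_right (pow_mem (mem_zpowers z) _)).1 hm)⟩
  have hclass : ∀ p, ConjClasses.mk (F p : K) = p.1.1 := by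
    rintro ⟨C, m, j⟩
    rw [← hrepC C]
    refine ConjClasses.mk_eq_mk_iff_isConj.2 (IsConj.symm ?_)
    show IsConj (rep C) (rep C ^ ((m : ℕ) + 1) * z ^ (j : ℕ))
    have h1 : IsConj (rep C) (rep C ^ ((m : ℕ) + 1)) := by
      have := m.2
      rcases (show (m : ℕ) = 0 ∨ (m : ℕ) = 1 by omega) with e | e
      · rw [e, zero_add, pow_one]
      · rw [e, show rep C ^ (1 + 1) = (rep C)⁻¹ by
          rw [eq_inv_iff_mul_eq_one, ← pow_succ, show 1 + 1 + 1 = 3 by norm_num, ← hrep3 C,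
            pow_orderOf_eq_one]]
        exact hinv _ (hrepS C) (hrepZ C)
    exact h1.trans (isConj_mul_pow hS (hns S) hz hzS (fun s _ => hzc s) (pow_mem (hrepS C) _)
      (hpz C m) j)
  have hinj : Function.Injective F := by
    rintro ⟨C, m, j⟩ ⟨C', m', j'⟩ e
    obtain rfl : C = C' := Subtype.ext (by
      rw [← hclass ⟨C, m, j⟩, e, hclass])
    have e1 : rep C ^ ((m : ℕ) + 1) * z ^ (j : ℕ) = rep C ^ ((m' : ℕ) + 1) * z ^ (j' : ℕ) :=
      congrArg Subtype.val e
    obtain rfl : m = m' := by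
      by_contra hne
      refine hpz C 0 ?_
      have h2 : (rep C ^ ((m' : ℕ) + 1))⁻¹ * rep C ^ ((m : ℕ) + 1) ∈ Z := by
        have : rep C ^ ((m : ℕ) + 1) =
            rep C ^ ((m' : ℕ) + 1) * (z ^ (j' : ℕ) * (z ^ (j : ℕ))⁻¹) := by
          rw [← mul_assoc, ← e1, mul_inv_cancel_right]
        rw [this, inv_mul_cancel_left]
        exact mul_mem (pow_mem (mem_zpowers z) _) (inv_mem (pow_mem (mem_zpowers z) _))
      have := m.2; have := m'.2
      have hne' : (m : ℕ) ≠ m' := fun e => hne (Fin.ext e)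
      rcases (show ((m : ℕ) = 0 ∧ (m' : ℕ) = 1) ∨ ((m : ℕ) = 1 ∧ (m' : ℕ) = 0) by omega)
        with ⟨u1, u2⟩ | ⟨u1, u2⟩ <;> rw [u1, u2] at h2
      · simpa [pow_two, mul_assoc] using inv_mem h2
      · simpa [pow_two, ← mul_assoc] using h2
    obtain rfl : j = j' := Fin.ext (pow_injOn_Iio_orderOf (Set.mem_Iio.2 (hz.symm ▸ j.2))
      (Set.mem_Iio.2 (hz.symm ▸ j'.2)) (mul_left_cancel e1))
    rfl
  have hle := Nat.card_le_card_of_injective F hinj
  rw [Nat.card_prod, Nat.card_prod, Nat.card_eq_fintype_card (α := Fin 2), Fintype.card_fin,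
    Nat.card_eq_fintype_card (α := Fin 3), Fintype.card_fin, Nat.card_coe_set_eq,
    Nat.card_coe_set_eq, Set.ncard_sdiff (show (Z : Set K) ⊆ _ from zpowers_le.2 hzS),
    show ((S : Subgroup K) : Set K).ncard = 27 from hS,
    show (Z : Set K).ncard = 3 from (Nat.card_zpowers z).trans hz] at hle
  omega

end CfsgLib.M24Count
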