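import Cfsg.Agent.M24Count.Counts
import Cfsg.Agent.Counting.Frobenius

/-!
Counting a finite group without elements of order divisible by nine by the parts of order three:
`g` is `v * r` with `v` of order at most three and `r` of order prime to three, commuting.
-/

set_option autoImplicit false
set_option linter.style.haveILetI false

namespace CfsgLib.M24Count

open Subgroup

open CfsgLib.M12Count (mem_centralizer_of_commute commute_of_mem_centralizer)
open CfsgLib.M23Count (orderOf_conjugate)

universe u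

variable {K : Type u} [Group K]

/-- The number of elements of order prime to three. -/
noncomputable def regCount (K : Type u) [Group K] : ℕ := Nat.card {g : K // ¬ 3 ∣ orderOf g}

/-- The number of elements of order prime to three commuting with `v`. -/
noncomputable def regComm (v : K) : ℕ := Nat.card {r : K // ¬ 3 ∣ orderOf r ∧ Commute r v}

/-- The number of commuting pairs of a member of `R` and an element of order prime to three. -/
noncomputable def secCount (R : Set K) : ℕ :=
  Nat.card {p : K × K // p.1 ∈ R ∧ ¬ 3 ∣ orderOf p.2 ∧ Commute p.2 p.1}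

/-- The conjugates of `v`. -/
def conjSet (v : K) : Set K := {w | IsConj v w}

/-- A set of elements closed under conjugation. -/
def ConjClosed (R : Set K) : Prop := ∀ v ∈ R, ∀ w, IsConj v w → w ∈ R

variable [Finite K]

/-- A group without elements of order divisible by nine, counted by parts of order three. -/
theorem card_eq_reg_add_sec (h9 : ∀ g : K, ¬ 9 ∣ orderOf g) :
    Nat.card K = regCount K + secCount {v : K | orderOf v = 3} := by
  rw [regCount, secCount, ← Nat.card_sum]
  have hord : ∀ v r : K, orderOf v = 3 → ¬ 3 ∣ orderOf r → Commute r v →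
      orderOf (v * r) = 3 * orderOf r := fun v r hv hr hc => by
    rw [hc.symm.orderOf_mul_eq_mul_orderOf_of_coprime
      (hv ▸ (Nat.prime_three.coprime_iff_not_dvd.2 hr)), hv]
  let F : {g : K // ¬ 3 ∣ orderOf g} ⊕ {p : K × K // p.1 ∈ {v : K | orderOf v = 3} ∧
      ¬ 3 ∣ orderOf p.2 ∧ Commute p.2 p.1} → K :=
    Sum.elim Subtype.val fun p => p.1.1 * p.1.2
  refine (Nat.card_eq_of_bijective F ⟨?_, ?_⟩).symm
  · rintro (⟨a, ha⟩ | ⟨⟨v, r⟩, hv, hr, hc⟩) (⟨b, hb⟩ | ⟨⟨v', r'⟩, hv', hr', hc'⟩) e
    · exact congrArg Sum.inl (Subtype.ext e)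
    · exact absurd (Dvd.intro _ ((congrArg orderOf e).trans (hord v' r' hv' hr' hc')).symm) ha
    · exact absurd (Dvd.intro _ ((congrArg orderOf e.symm).trans (hord v r hv hr hc)).symm) hb
    · have e' : v * r = v' * r' := e
      set N := orderOf r * orderOf r' with hN
      have hN3 : ¬ 3 ∣ N := fun hd => (Nat.prime_three.dvd_mul.1 hd).elim hr hr'
      have h1 : v ^ N = v' ^ N := by
        have := congrArg (· ^ N) e'
        simp only [hc.symm.mul_pow, hc'.symm.mul_pow] at this
        rwa [orderOf_dvd_iff_pow_eq_one.1 (Dvd.intro _ hN.symm : orderOf r ∣ N), mul_one,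
          orderOf_dvd_iff_pow_eq_one.1 (Dvd.intro_left _ hN.symm : orderOf r' ∣ N), mul_one]
          at this
      have h2 : N * N % 3 = 1 := by
        rw [Nat.mul_mod]
        have : N % 3 = 1 ∨ N % 3 = 2 := by omega
        rcases this with t | t <;> rw [t]
      have h3 : ∀ u : K, orderOf u = 3 → (u ^ N) ^ N = u := fun u hu => by
        rw [← pow_mul, ← pow_mod_orderOf, hu, h2, pow_one]
      obtain rfl : v = v' := by rw [← h3 v hv, h1, h3 v' hv']
      obtain rfl : r = r' := mul_left_cancel e'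
      rfl
  · intro g
    by_cases hg : 3 ∣ orderOf g
    · obtain ⟨a, ha⟩ := hg
      have ha3 : ¬ 3 ∣ a := fun hd => h9 g (ha ▸ Nat.mul_dvd_mul_left 3 hd)
      have ha0 : a ≠ 0 := fun e => by simp [e] at ha3
      have hsq : a * a % 3 = 1 := by
        rw [Nat.mul_mod]
        have : a % 3 = 1 ∨ a % 3 = 2 := by omega
        rcases this with t | t <;> rw [t]
      have hv : orderOf (g ^ (a * a)) = 3 := by
        rw [orderOf_pow, ha, Nat.mul_comm 3 a, Nat.gcd_mul_left,
          Nat.prime_three.coprime_iff_not_dvd.2 ha3, mul_one,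
          Nat.mul_div_cancel_left _ (Nat.pos_of_ne_zero ha0)]
      have hr : (g * (g ^ (a * a))⁻¹) ^ a = 1 := by
        have hc : Commute g (g ^ (a * a))⁻¹ := ((Commute.refl g).pow_right _).inv_right
        rw [hc.mul_pow, inv_pow, ← pow_mul, mul_inv_eq_one, pow_eq_pow_iff_modEq, ha]
        have : a * a ≡ 1 [MOD 3] := hsq
        simpa [mul_comm, mul_left_comm, mul_assoc] using (this.symm.mul_right' a)
      refine ⟨Sum.inr ⟨(g ^ (a * a), g * (g ^ (a * a))⁻¹), hv, fun hd => ha3 (hd.trans
        (orderOf_dvd_of_pow_eq_one hr)), ?_⟩, ?_⟩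
      · exact ((Commute.refl g).pow_right _).mul_left
          ((Commute.refl (g ^ (a * a))).inv_left)
      · show g ^ (a * a) * (g * (g ^ (a * a))⁻¹) = g
        rw [← mul_assoc, ← pow_succ, pow_succ', mul_inv_cancel_right]
    · exact ⟨Sum.inl ⟨g, hg⟩, rfl⟩

omit [Finite K] in
theorem secCount_empty : secCount (∅ : Set K) = 0 := by
  rw [secCount, Nat.card_eq_zero]
  exact Or.inl ⟨fun p => p.2.1⟩

theorem secCount_union {A B : Set K} (h : ∀ v ∈ A, v ∉ B) :
    secCount (A ∪ B) = secCount A + secCount B := by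
  classical
  rw [secCount, secCount, secCount, ← Nat.card_sum]
  refine (Nat.card_eq_of_bijective (Sum.elim (fun p => ⟨p.1, Or.inl p.2.1, p.2.2⟩)
    (fun p => ⟨p.1, Or.inr p.2.1, p.2.2⟩)) ⟨?_, ?_⟩).symm
  · rintro (⟨p, hp⟩ | ⟨p, hp⟩) (⟨p', hp'⟩ | ⟨p', hp'⟩) e <;>
      obtain rfl : p = p' := congrArg Subtype.val e
    · rfl
    · exact absurd hp'.1 (h _ hp.1)
    · exact absurd hp.1 (h _ hp'.1)
    · rfl
  · rintro ⟨p, hp | hp, hq⟩
    exacts [⟨Sum.inl ⟨p, hp, hq⟩, rfl⟩, ⟨Sum.inr ⟨p, hp, hq⟩, rfl⟩]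

omit [Finite K] in
theorem secCount_singleton (v : K) : secCount {v} = regComm v :=
  Nat.card_congr
    { toFun := fun p => ⟨p.1.2, p.2.2.1, by
        have : p.1.1 = v := p.2.1
        have hc : Commute p.1.2 p.1.1 := p.2.2.2
        rwa [this] at hc⟩
      invFun := fun r => ⟨(v, r.1), rfl, r.2⟩
      left_inv := fun p => Subtype.ext (Prod.ext (Set.mem_singleton_iff.1 p.2.1).symm rfl)
      right_inv := fun r => rfl }

theorem regComm_pos (v : K) : 0 < regComm v := by
  haveI : Nonempty {r : K // ¬ 3 ∣ orderOf r ∧ Commute r v} :=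
    ⟨⟨1, by simp, Commute.one_left v⟩⟩
  exact Nat.card_pos

omit [Finite K] in
theorem regComm_conj {v w : K} (h : IsConj v w) : regComm w = regComm v := by
  obtain ⟨a, rfl⟩ := isConj_iff.1 h
  refine (Nat.card_congr ((MulAut.conj a).toEquiv.subtypeEquiv fun r => ?_)).symm
  show _ ↔ ¬ 3 ∣ orderOf ((MulAut.conj a) r) ∧ Commute ((MulAut.conj a) r) (a * v * a⁻¹)
  rw [MulEquiv.orderOf_eq, MulAut.conj_apply]
  exact and_congr_right fun _ => (Commute.conj_iff a).symm

omit [Finite K] in
theorem regComm_inv (v : K) : regComm v⁻¹ = regComm v :=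
  Nat.card_congr (Equiv.subtypeEquivRight fun r => and_congr_right fun _ => Commute.inv_right_iff)

omit [Finite K] in
theorem regComm_central {v : K} (h : ∀ g, Commute g v) : regComm v = regCount K :=
  Nat.card_congr (Equiv.subtypeEquivRight fun r => ⟨fun h' => h'.1, fun h' => ⟨h', h r⟩⟩)

/-- A class contributes as many pairs as it has members, times the number for one of them. -/
theorem secCount_conjSet (o : K) :
    secCount (conjSet o) * Nat.card (centralizer ({o} : Set K)) = Nat.card K * regComm o := by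
  classical
  haveI := Fintype.ofFinite (conjSet o)
  have e : secCount (conjSet o) = Nat.card (conjSet o) * regComm o := by
    rw [secCount, Nat.card_congr (α := {p : K × K // p.1 ∈ conjSet o ∧ _})
      (β := Σ w : conjSet o, {r : K // ¬ 3 ∣ orderOf r ∧ Commute r w.1})
      { toFun := fun p => ⟨⟨p.1.1, p.2.1⟩, p.1.2, p.2.2⟩
        invFun := fun s => ⟨(s.1.1, s.2.1), s.1.2, s.2.2⟩
        left_inv := fun p => rfl
        right_inv := fun s => rfl }, Nat.card_sigma]
    change ∑ w : conjSet o, regComm (w : K) = _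
    rw [Finset.sum_congr rfl fun (w : conjSet o) _ => regComm_conj (v := o) w.2,
      Finset.sum_const, Finset.card_univ, smul_eq_mul, Nat.card_eq_fintype_card]
  rw [e, show Nat.card (conjSet o) = _ from card_isConj o,
    ← (centralizer ({o} : Set K)).index_mul_card]
  ring

omit [Finite K] in
theorem conjClosed_conjSet (o : K) : ConjClosed (conjSet o) := fun _ hv _ hw => hv.trans hw

omit [Finite K] in
theorem ConjClosed.diff {R : Set K} (hR : ConjClosed R) (o : K) : ConjClosed (R \ conjSet o) :=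
  fun v hv w hw => ⟨hR v hv.1 w hw, fun ho => hv.2 (IsConj.trans ho hw.symm)⟩

theorem secCount_split {R : Set K} (hR : ConjClosed R) {o : K} (ho : o ∈ R) :
    secCount R = secCount (conjSet o) + secCount (R \ conjSet o) := by
  rw [← secCount_union (fun v hv hv' => hv'.2 hv),
    Set.union_diff_cancel (show conjSet o ⊆ R from fun v hv => hR o ho v hv)]

/-- Induction over the classes inside a set closed under conjugation. -/
theorem conjClosed_induction {P : Set K → Prop} (h0 : P ∅)
    (hs : ∀ R, ConjClosed R → ∀ o ∈ R, P (R \ conjSet o) → P R) {R : Set K}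
    (hR : ConjClosed R) : P R := by
  induction hn : R.ncard using Nat.strong_induction_on generalizing R with
  | _ n ih =>
    rcases R.eq_empty_or_nonempty with rfl | ⟨o, ho⟩
    · exact h0
    · refine hs R hR o ho (ih _ ?_ (hR.diff o) rfl)
      subst hn
      exact Set.ncard_lt_ncard ⟨Set.sdiff_subset, fun hle => (hle ho).2 (IsConj.refl o)⟩
        R.toFinite

theorem dvd_secCount {R : Set K} (hR : ConjClosed R) {d : ℕ}
    (hd : ∀ v ∈ R, d ∣ secCount (conjSet v)) : d ∣ secCount R := by
  revert hd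
  refine conjClosed_induction (P := fun R => (∀ v ∈ R, d ∣ secCount (conjSet v)) →
    d ∣ secCount R) (fun _ => by simp [secCount_empty]) ?_ hR
  intro R hR o ho ih hd
  rw [secCount_split hR ho]
  exact dvd_add (hd o ho) (ih fun v hv => hd v hv.1)

omit [Finite K] in
theorem mk_image_split {R : Set K} (hR : ConjClosed R) {o : K} (ho : o ∈ R) :
    ConjClasses.mk '' R = insert (ConjClasses.mk o) (ConjClasses.mk '' (R \ conjSet o)) ∧
      ConjClasses.mk o ∉ ConjClasses.mk '' (R \ conjSet o) := by
  refine ⟨Set.ext fun c => ⟨?_, ?_⟩, ?_⟩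
  · rintro ⟨v, hv, rfl⟩
    by_cases hc : IsConj o v
    · exact Or.inl (ConjClasses.mk_eq_mk_iff_isConj.2 hc).symm
    · exact Or.inr ⟨v, ⟨hv, hc⟩, rfl⟩
  · rintro (rfl | ⟨v, hv, rfl⟩)
    exacts [⟨o, ho, rfl⟩, ⟨v, hv.1, rfl⟩]
  · rintro ⟨v, hv, e⟩
    exact hv.2 (ConjClasses.mk_eq_mk_iff_isConj.1 e.symm)

/-- If every class gives `b` pairs, they are counted by the classes. -/
theorem secCount_eq_mul {R : Set K} (hR : ConjClosed R) {b : ℕ}
    (hb : ∀ v ∈ R, secCount (conjSet v) = b) :
    secCount R = (ConjClasses.mk '' R).ncard * b := by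
  revert hb
  refine conjClosed_induction (P := fun R => (∀ v ∈ R, secCount (conjSet v) = b) →
    secCount R = (ConjClasses.mk '' R).ncard * b) (fun _ => by simp [secCount_empty]) ?_ hR
  intro R hR o ho ih hb
  obtain ⟨e, hn⟩ := mk_image_split hR ho
  rw [secCount_split hR ho, hb o ho, ih fun v hv => hb v hv.1, e,
    Set.ncard_insert_of_notMem hn, Nat.succ_mul, add_comm]

/-- If every class gives at least `b` pairs, there are few classes. -/
theorem mul_le_secCount {R : Set K} (hR : ConjClosed R) {b : ℕ}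
    (hb : ∀ v ∈ R, b ≤ secCount (conjSet v)) :
    (ConjClasses.mk '' R).ncard * b ≤ secCount R := by
  revert hb
  refine conjClosed_induction (P := fun R => (∀ v ∈ R, b ≤ secCount (conjSet v)) →
    (ConjClasses.mk '' R).ncard * b ≤ secCount R) (fun _ => by simp) ?_ hR
  intro R hR o ho ih hb
  obtain ⟨e, hn⟩ := mk_image_split hR ho
  rw [secCount_split hR ho, e, Set.ncard_insert_of_notMem hn, Nat.succ_mul, add_comm]
  exact Nat.add_le_add (hb o ho) (ih fun v hv => hb v hv.1)

/-- Frobenius: the part prime to three of `|C(v)|` divides the count for `v`. -/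
theorem dvd_regComm {v : K} {a e : ℕ} (hC : Nat.card (centralizer ({v} : Set K)) = 3 ^ a * e)
    (he : ¬ 3 ∣ e) : e ∣ regComm v := by
  have key := CfsgLib.Counting.card_pow_eq_one_dvd (G := centralizer ({v} : Set K)) (m := e)
    (hC ▸ dvd_mul_left e (3 ^ a))
  refine key.trans (dvd_of_eq (Nat.card_congr
    { toFun := fun g => ⟨g.1.1, fun hd => he (hd.trans (by
          rw [Subgroup.orderOf_coe]
          exact orderOf_dvd_of_pow_eq_one g.2)),
        (commute_of_mem_centralizer g.1.2).symm⟩
      invFun := fun r => ⟨⟨r.1, mem_centralizer_of_commute r.2.2.symm⟩,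
        Subtype.ext <| orderOf_dvd_iff_pow_eq_one.1 ((Nat.Coprime.pow_right a
          (Nat.prime_three.coprime_iff_not_dvd.2 r.2.1).symm).dvd_of_dvd_mul_left (by
            rw [← hC]
            exact Subgroup.orderOf_dvd_natCard _ (mem_centralizer_of_commute r.2.2.symm)))⟩
      left_inv := fun g => rfl
      right_inv := fun r => rfl }))

/-- With a central subgroup taking the whole part of three, the count is exactly that part. -/
theorem regComm_eq_of_central {v : K} {a e : ℕ}
    (hC : Nat.card (centralizer ({v} : Set K)) = 3 ^ a * e) (he : ¬ 3 ∣ e) {P : Subgroup K}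
    (hP : Nat.card P = 3 ^ a) (hPC : P ≤ centralizer ({v} : Set K))
    (hcen : ∀ p ∈ P, ∀ g ∈ centralizer ({v} : Set K), Commute p g) : regComm v = e := by
  have hdvd := dvd_regComm hC he
  have hco : (Nat.card P).Coprime e := by
    rw [hP]
    exact Nat.Coprime.pow_left a (Nat.prime_three.coprime_iff_not_dvd.2 he)
  have hre : ∀ r : {r : K // ¬ 3 ∣ orderOf r ∧ Commute r v}, r.1 ^ e = 1 := fun r =>
    orderOf_dvd_iff_pow_eq_one.1 ((Nat.Coprime.pow_right a
      (Nat.prime_three.coprime_iff_not_dvd.2 r.2.1).symm).dvd_of_dvd_mul_left (by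
        rw [← hC]
        exact Subgroup.orderOf_dvd_natCard _ (mem_centralizer_of_commute r.2.2.symm)))
  let F : P × {r : K // ¬ 3 ∣ orderOf r ∧ Commute r v} → centralizer ({v} : Set K) :=
    fun x => ⟨x.1.1 * x.2.1, mul_mem (hPC x.1.2) (mem_centralizer_of_commute x.2.2.2.symm)⟩
  have hinj : Function.Injective F := by
    rintro ⟨p, r⟩ ⟨p', r'⟩ e'
    have e1 : p.1 * r.1 = p'.1 * r'.1 := congrArg Subtype.val e'
    have hpow : ∀ (q : P) (s : {r : K // ¬ 3 ∣ orderOf r ∧ Commute r v}),
        (q.1 * s.1) ^ e = q.1 ^ e := fun q s => by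
      rw [(hcen _ q.2 _ (mem_centralizer_of_commute s.2.2.symm)).mul_pow, hre, mul_one]
    have e2 : p ^ e = p' ^ e := Subtype.ext (by
      rw [SubmonoidClass.coe_pow, SubmonoidClass.coe_pow, ← hpow p r, e1, hpow])
    obtain rfl : p = p' := (powCoprime hco).injective e2
    exact Prod.ext rfl (Subtype.ext (mul_left_cancel e1))
  have hle := Nat.card_le_card_of_injective F hinj
  rw [Nat.card_prod, hP, hC] at hle
  exact le_antisymm (Nat.le_of_mul_le_mul_left hle (pow_pos (by norm_num) a))
    (Nat.le_of_dvd (regComm_pos v) hdvd)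

/-- A three-subgroup permutes an invariant set; modulo three only what it centralises counts. -/
theorem card_modEq_commuting {P : Subgroup K} (hP : IsPGroup 3 P) (p : K → Prop)
    (hp : ∀ u ∈ P, ∀ g, p g → p (u * g * u⁻¹)) :
    Nat.card {g : K // p g} ≡ Nat.card {g : K // p g ∧ ∀ u ∈ P, Commute u g} [MOD 3] := by
  haveI : Fact (Nat.Prime 3) := ⟨Nat.prime_three⟩
  letI act : MulAction P {g : K // p g} :=
    { smul := fun u g => ⟨u.1 * g.1 * u.1⁻¹, hp _ u.2 _ g.2⟩
      one_smul := fun g => Subtype.ext (show (1 : K) * g.1 * (1 : K)⁻¹ = g.1 by group)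
      mul_smul := fun u w g => Subtype.ext
        (show (u.1 * w.1) * g.1 * (u.1 * w.1)⁻¹ = u.1 * (w.1 * g.1 * w.1⁻¹) * u.1⁻¹ by group) }
  refine (hP.card_modEq_card_fixedPoints {g : K // p g}).trans ?_
  unfold Nat.ModEq
  congr 1
  exact Nat.card_congr
    { toFun := fun g => ⟨g.1.1, g.1.2, fun u hu =>
        mul_inv_eq_iff_eq_mul.1 (congrArg Subtype.val (g.2 ⟨u, hu⟩) : u * g.1.1 * u⁻¹ = g.1.1)⟩
      invFun := fun g => ⟨⟨g.1, g.2.1⟩, fun u => Subtype.ext
        (show u.1 * g.1 * u.1⁻¹ = g.1 from mul_inv_eq_iff_eq_mul.2 (g.2.2 u.1 u.2))⟩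
      left_inv := fun g => rfl
      right_inv := fun g => rfl }

/-- Nine divides an invariant set of a group of order 27 if no member commutes with nine of its
elements. -/
theorem nine_dvd_card {P : Subgroup K} (hP : Nat.card P = 27) (p : K → Prop)
    (hp : ∀ u ∈ P, ∀ g, p g → p (u * g * u⁻¹))
    (hsmall : ∀ g, p g → Nat.card ↥(P ⊓ centralizer ({g} : Set K)) ≤ 3) :
    9 ∣ Nat.card {g : K // p g} := by
  classical
  letI act : MulAction P {g : K // p g} :=
    { smul := fun u g => ⟨u.1 * g.1 * u.1⁻¹, hp _ u.2 _ g.2⟩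
      one_smul := fun g => Subtype.ext (show (1 : K) * g.1 * (1 : K)⁻¹ = g.1 by group)
      mul_smul := fun u w g => Subtype.ext
        (show (u.1 * w.1) * g.1 * (u.1 * w.1)⁻¹ = u.1 * (w.1 * g.1 * w.1⁻¹) * u.1⁻¹ by group) }
  haveI := Fintype.ofFinite (Quotient (MulAction.orbitRel P {g : K // p g}))
  rw [Nat.card_congr (MulAction.selfEquivSigmaOrbits P {g : K // p g}), Nat.card_sigma]
  refine Finset.dvd_sum fun ω _ => ?_
  set g := ω.out
  have hst : Nat.card (MulAction.stabilizer P g) ≤ 3 := by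
    refine le_trans (Nat.card_le_card_of_injective
      (fun u : MulAction.stabilizer P g => (⟨u.1.1, u.1.2, mem_centralizer_of_commute
        ((mul_inv_eq_iff_eq_mul.1 (congrArg Subtype.val (MulAction.mem_stabilizer_iff.1 u.2)
          : u.1.1 * g.1 * u.1.1⁻¹ = g.1)).symm)⟩ : ↥(P ⊓ centralizer ({g.1} : Set K))))
      fun a b e => ?_) (hsmall _ g.2)
    exact Subtype.ext (Subtype.ext (Subtype.ext_iff.1 e :))
  have hmul := (MulAction.stabilizer P g).card_mul_index
  rw [hP, MulAction.index_stabilizer P g, ← Nat.card_coe_set_eq] at hmul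
  have h27 : Nat.card (MulAction.stabilizer P g) ∈ (27 : ℕ).divisors :=
    Nat.mem_divisors.2 ⟨Dvd.intro _ hmul, by norm_num⟩
  have : Nat.card (MulAction.stabilizer P g) = 1 ∨ Nat.card (MulAction.stabilizer P g) = 3 := by
    have : ∀ d ∈ (27 : ℕ).divisors, d ≤ 3 → d = 1 ∨ d = 3 := by decide
    exact this _ h27 hst
  rcases this with e | e <;> rw [e] at hmul <;> omega

end CfsgLib.M24Count
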